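import Cfsg.Statements.S2542
import Cfsg.Agent.S0804
import Cfsg.Agent.S0675
import Cfsg.Agent.TwoFusion.SLTwoFacts
import Cfsg.Agent.ClassicalGeometry.PSL2Solvable

set_option autoImplicit false
open Cfsg

namespace Cfsg.Agent.S2542

open Matrix

theorem card_psl {F : Type*} [Field F] [Fintype F] (hF : Fintype.card F = 11) :
    Nat.card (ProjectiveSpecialLinearGroup (Fin 2) F) = 660 := by
  have h := ClassicalGeometry.PSL2Basic.card_PSL2_odd (F := F) (by rw [hF]; decide)
  rw [hF] at h
  omega

theorem card_alt : Nat.card (alternatingGroup (Fin 5)) = 60 := by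
  rw [nat_card_alternatingGroup]
  simp
  decide

/-- Let F be a field with 11 elements. PSL_2(F) has a subgroup H of index 11 isomorphic to the alternating group A_5, and the action of PSL_2(F) on the cosets of H is 2-transitive (of degree 11). -/
theorem result {F : Type*} [Field F] [Fintype F] (hF : Fintype.card F = 11) : ∃ H : Subgroup (Matrix.ProjectiveSpecialLinearGroup (Fin 2) F), H.index = 11 ∧ Nonempty (H ≃* alternatingGroup (Fin 5)) ∧ MulAction.IsMultiplyPretransitive (Matrix.ProjectiveSpecialLinearGroup (Fin 2) F) ((Matrix.ProjectiveSpecialLinearGroup (Fin 2) F) ⧸ H) 2 := by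
  classical
  obtain ⟨H, ⟨e⟩⟩ := (S0804.result hF).2 (by norm_num)
  have hsimple : IsSimpleGroup (ProjectiveSpecialLinearGroup (Fin 2) F) :=
    TwoFusion.SLTwoFacts.isSimpleGroup_psl (by omega)
  have hcH : Nat.card H = 60 := by rw [Nat.card_congr e.toEquiv, card_alt]
  have hidx : H.index = 11 := by
    have h1 := H.card_mul_index
    rw [hcH, card_psl hF] at h1
    omega
  refine ⟨H, hidx, ⟨e⟩, ?_⟩
  set G := ProjectiveSpecialLinearGroup (Fin 2) F with hG
  have : Fintype (G ⧸ H) := Fintype.ofFinite _
  have hcard : (Fintype.card (G ⧸ H)).Prime := by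
    rw [← Nat.card_eq_fintype_card, ← Subgroup.index_eq_card, hidx]
    norm_num
  let φ : G →* Equiv.Perm (G ⧸ H) := MulAction.toPermHom G (G ⧸ H)
  have hφ : ∀ (g : G) (x : G ⧸ H), (⟨φ g, g, rfl⟩ : φ.range) • x = g • x := fun g x => rfl
  have htr : MulAction.IsPretransitive φ.range (G ⧸ H) := by
    refine ⟨fun x y => ?_⟩
    obtain ⟨g, hg⟩ := MulAction.exists_smul_eq G x y
    exact ⟨⟨φ g, g, rfl⟩, by rw [hφ]; exact hg⟩
  have hinj : Function.Injective φ := by
    rw [← MonoidHom.ker_eq_bot_iff]
    rcases hsimple.eq_bot_or_eq_top_of_normal φ.ker inferInstance with h | h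
    · exact h
    · exfalso
      have h1 : ∀ x : G ⧸ H, x = QuotientGroup.mk 1 := by
        intro x
        obtain ⟨g, hg⟩ := MulAction.exists_smul_eq G (QuotientGroup.mk 1 : G ⧸ H) x
        have h2 : g ∈ φ.ker := by rw [h]; trivial
        have h3 := congrArg (fun f : Equiv.Perm (G ⧸ H) => f (QuotientGroup.mk 1)) (MonoidHom.mem_ker.1 h2)
        rw [← hg]
        exact h3
      have h2 : Fintype.card (G ⧸ H) = 1 := Fintype.card_eq_one_iff.2 ⟨_, h1⟩
      rw [h2] at hcard
      exact absurd hcard (by norm_num)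
  rcases S0675.result hcard φ.range with hs | h2
  · exfalso
    have h1 : Group.IsSolvable H := by
      have : Group.IsSolvable φ.range := hs
      exact Group.isSolvable_of_isSolvable_injective (f := (φ.rangeRestrict.comp H.subtype)) (by
        intro x y hxy
        apply Subtype.ext
        apply hinj
        exact congrArg Subtype.val hxy)
    have h3 : Group.IsSolvable (alternatingGroup (Fin 5)) :=
      Group.isSolvable_of_isSolvable_injective (f := e.symm.toMonoidHom) e.symm.injective
    exact ClassicalGeometry.PSL2Solvable.not_isSolvable_alternating_five h3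
  · rw [MulAction.is_two_pretransitive_iff] at h2 ⊢
    intro a b c d hab hcd
    obtain ⟨⟨_, g, rfl⟩, h3, h4⟩ := h2 hab hcd
    exact ⟨g, h3, h4⟩

end Cfsg.Agent.S2542
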