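import Cfsg.Statements.S3684
import Cfsg.Agent.H427.Suborbit
import Cfsg.Agent.SporadicB.DihedralLift

set_option autoImplicit false
open Cfsg

namespace Cfsg.Agent.S3684

/-- Let a finite group G act faithfully and primitively on a set Ω, and suppose the stabilizer of a point a has an orbit of length 2. Then the stabilizer of a has order 2 and G is isomorphic to the dihedral group of order 2p for some prime p. -/
theorem result {G Ω : Type*} [Group G] [Finite G] [MulAction G Ω] [FaithfulSMul G Ω] [Finite Ω]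
    (hprim : MulAction.IsPreprimitive G Ω) (a b : Ω) (h2 : Nat.card (MulAction.orbit (MulAction.stabilizer G a) b) = 2) :
    Nat.card (MulAction.stabilizer G a) = 2 ∧ ∃ p : ℕ, p.Prime ∧ Nonempty (G ≃* DihedralGroup p) := by
  classical
  set A := MulAction.stabilizer G a with hA
  set B := MulAction.stabilizer G b with hB
  have hrA : B.relIndex A = 2 := by rw [← h2]; exact (Cfsg.Agent.H427.card_suborbit a b).symm
  have hrB : A.relIndex B = 2 := by
    rw [← Cfsg.Agent.H427.relIndex_stabilizer_symm a b]; exact hrA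
  have hab : a ≠ b := by
    rintro rfl
    rw [Subgroup.relIndex_self] at hrA
    omega
  have : Nontrivial Ω := ⟨a, b, hab⟩
  have hAB : A ≠ B := by
    intro h
    rw [h, Subgroup.relIndex_self] at hrA
    omega
  -- the two-point stabilizer is trivial
  have hnA : A ≤ Subgroup.normalizer ((B ⊓ A : Subgroup G) : Set G) := by
    rw [← Subgroup.normal_subgroupOf_iff_le_normalizer inf_le_right, Subgroup.inf_subgroupOf_right]
    exact Subgroup.normal_of_index_eq_two hrA
  have hnB : B ≤ Subgroup.normalizer ((B ⊓ A : Subgroup G) : Set G) := by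
    rw [← Subgroup.normal_subgroupOf_iff_le_normalizer inf_le_left, inf_comm,
      Subgroup.inf_subgroupOf_right]
    exact Subgroup.normal_of_index_eq_two hrB
  have hbot : B ⊓ A = ⊥ := by
    by_contra hne
    have e1 := Cfsg.Agent.H427.normalizer_eq_stabilizer a (B ⊓ A) hne inf_le_right hnA
    have e2 := Cfsg.Agent.H427.normalizer_eq_stabilizer b (B ⊓ A) hne inf_le_left hnB
    exact hAB (e1.symm.trans e2)
  have hcA : Nat.card A = 2 := by
    have := Cfsg.Agent.H427.card_mul_relIndex (B ⊓ A) A inf_le_right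
    rw [Subgroup.inf_relIndex_right, hrA, hbot, Subgroup.card_bot] at this
    omega
  have hcB : Nat.card B = 2 := by
    rw [hB, ← Cfsg.Agent.H427.card_stabilizer_eq a b]; exact hcA
  refine ⟨hcA, ?_⟩
  -- generators
  obtain ⟨s, hsA, hs2⟩ : ∃ s ∈ A, orderOf s = 2 := by
    obtain ⟨s, hs⟩ := exists_prime_orderOf_dvd_card' (G := A) 2 (by rw [hcA])
    exact ⟨s, s.2, by rw [Subgroup.orderOf_coe]; exact hs⟩
  obtain ⟨t, htB, ht2⟩ : ∃ t ∈ B, orderOf t = 2 := by
    obtain ⟨t, ht⟩ := exists_prime_orderOf_dvd_card' (G := B) 2 (by rw [hcB])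
    exact ⟨t, t.2, by rw [Subgroup.orderOf_coe]; exact ht⟩
  have hzs : Subgroup.zpowers s = A := by
    apply Subgroup.eq_of_le_of_card_ge (by simpa using hsA)
    rw [hcA, Nat.card_zpowers, hs2]
  have hzt : Subgroup.zpowers t = B := by
    apply Subgroup.eq_of_le_of_card_ge (by simpa using htB)
    rw [hcB, Nat.card_zpowers, ht2]
  have hco := MulAction.IsPreprimitive.isCoatom_stabilizer_of_isPreprimitive G a
  have hst : s ≠ t := by
    rintro rfl
    exact hAB (hzs.symm.trans hzt)
  have hclo : Subgroup.closure ({s, t} : Set G) = ⊤ := by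
    have hAle : A ≤ Subgroup.closure ({s, t} : Set G) := by
      rw [← hzs, Subgroup.zpowers_le]
      exact Subgroup.subset_closure (by simp)
    have hBle : B ≤ Subgroup.closure ({s, t} : Set G) := by
      rw [← hzt, Subgroup.zpowers_le]
      exact Subgroup.subset_closure (by simp)
    rcases eq_or_lt_of_le hAle with h | h
    · exfalso
      have : B ≤ A := by rw [h]; exact hBle
      rw [inf_eq_left.mpr this] at hbot
      rw [hbot, Subgroup.card_bot] at hcB
      omega
    · exact hco.2 _ h
  obtain ⟨e⟩ := Cfsg.Agent.SporadicB.DihedralLift.closure_pair_equiv_dihedral' hs2 ht2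
    (rfl : orderOf (s * t) = orderOf (s * t))
  have e' : G ≃* DihedralGroup (orderOf (s * t)) :=
    (Subgroup.topEquiv.symm.trans (MulEquiv.subgroupCongr hclo.symm)).trans e
  set r := s * t with hr
  set n := orderOf r with hn
  have hn0 : n ≠ 0 := (orderOf_pos r).ne'
  have hcG : Nat.card G = 2 * n := by
    haveI : NeZero n := ⟨hn0⟩
    rw [Nat.card_congr e'.toEquiv, DihedralGroup.nat_card]
  have hcΩ : Nat.card Ω = n := by
    have h3 := MulAction.index_stabilizer_of_transitive G a
    have h4 := Subgroup.card_mul_index (MulAction.stabilizer G a)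
    rw [h3, hcG] at h4
    have h5 : Nat.card (MulAction.stabilizer G a) = 2 := hcA
    rw [h5] at h4
    omega
  have hn1 : n ≠ 1 := by
    intro h
    rw [← hcΩ] at h
    have := Finite.one_lt_card (α := Ω)
    omega
  have hss : s * s = 1 := by rw [← pow_two, ← hs2, pow_orderOf_eq_one]
  have htt : t * t = 1 := by rw [← pow_two, ← ht2, pow_orderOf_eq_one]
  have hsi : s⁻¹ = s := inv_eq_of_mul_eq_one_left hss
  have hti : t⁻¹ = t := inv_eq_of_mul_eq_one_left htt
  have hri : r⁻¹ = t * s := by rw [hr, mul_inv_rev, hsi, hti]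
  refine ⟨n, ?_, ⟨e'⟩⟩
  -- primality
  set p := n.minFac with hp
  have hpp : p.Prime := Nat.minFac_prime hn1
  have hpn : p ∣ n := Nat.minFac_dvd n
  have hcN : Nat.card (Subgroup.zpowers (r ^ p)) = n / p := by
    rw [Nat.card_zpowers, orderOf_pow_of_dvd hpp.ne_zero hpn]
  have hconj : ∀ x : G, x * r * x⁻¹ = r⁻¹ → x ∈ Subgroup.normalizer ((Subgroup.zpowers (r ^ p) : Subgroup G) : Set G) := by
    intro x hx
    rw [Subgroup.mem_normalizer_iff_map_conj_eq, MonoidHom.map_zpowers]
    have : (MulAut.conj x).toMonoidHom (r ^ p) = (r ^ p)⁻¹ := by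
      simp only [MulEquiv.coe_toMonoidHom, map_pow, MulAut.conj_apply, hx, inv_pow]
    erw [this]
    exact Subgroup.zpowers_inv
  have hNn : (Subgroup.zpowers (r ^ p)).Normal := by
    rw [← Subgroup.normalizer_eq_top_iff, eq_top_iff, ← hclo, Subgroup.closure_le]
    rintro x (rfl | hx)
    · apply hconj
      rw [hsi, hri, hr, ← mul_assoc, hss, one_mul]
    · rw [Set.mem_singleton_iff] at hx
      subst hx
      apply hconj
      rw [hti, hri, hr, mul_assoc, mul_assoc, htt, mul_one]
  by_contra hnp
  have hNbot : Subgroup.zpowers (r ^ p) ≠ ⊥ := by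
    intro h
    rw [h, Subgroup.card_bot] at hcN
    have : n = p := by
      have := Nat.div_mul_cancel hpn
      rw [← hcN] at this
      omega
    exact hnp (this ▸ hpp)
  have htr : MulAction.IsPretransitive (Subgroup.zpowers (r ^ p)) Ω := by
    apply MulAction.IsQuasiPreprimitive.isPretransitive_of_normal (G := G)
    intro h
    apply hNbot
    apply Cfsg.Agent.H427.normal_le_stabilizer_eq_bot _ a
    intro x hx
    have : a ∈ MulAction.fixedPoints (Subgroup.zpowers (r ^ p)) Ω := by rw [h]; trivial
    exact this ⟨x, hx⟩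
  have h6 := MulAction.index_stabilizer_of_transitive (Subgroup.zpowers (r ^ p)) a
  have h7 := Subgroup.card_mul_index (MulAction.stabilizer (Subgroup.zpowers (r ^ p)) a)
  rw [h6, hcΩ, hcN] at h7
  have h8 : n ≤ n / p := Nat.le_of_dvd (Nat.div_pos (Nat.le_of_dvd (Nat.pos_of_ne_zero hn0) hpn)
    hpp.pos) (Dvd.intro_left _ h7)
  have h9 : n / p < n := Nat.div_lt_self (Nat.pos_of_ne_zero hn0) hpp.one_lt
  omega

end Cfsg.Agent.S3684
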