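import Cfsg.Statements.S2591
import Cfsg.Agent.H176.SpRegClass
import Cfsg.Agent.ClassicalGeometry.SymmNormalForm

set_option autoImplicit false
open Cfsg

namespace Cfsg.Agent.S2591

open H176.SpRegular H176.SpRegClass

theorem two_ne_zero_of_odd {F : Type*} [Field F] [Fintype F] {q : ℕ} (hF : Fintype.card F = q)
    (hq : Odd q) : (2 : F) ≠ 0 := by
  intro h
  obtain ⟨k, hk⟩ := hq
  have h1 := FiniteField.cast_card_eq_zero F
  rw [hF, hk] at h1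
  push_cast at h1
  rw [h, zero_mul, zero_add] at h1
  exact one_ne_zero h1

/-- a regular unipotent element has an invariant. -/
theorem exists_inv' {F : Type*} [Field F] (h2 : (2 : F) ≠ 0) {m : ℕ} (hm : 1 ≤ m)
    (u : Matrix.symplecticGroup (Fin m) F)
    (hnil : ((u : Matrix (Fin m ⊕ Fin m) (Fin m ⊕ Fin m) F) - 1) ^ (2 * m) = 0)
    (hreg : ((u : Matrix (Fin m ⊕ Fin m) (Fin m ⊕ Fin m) F) - 1).rank = 2 * m - 1) :
    ∃ (x : Matrix (Fin m ⊕ Fin m) (Fin m ⊕ Fin m) F) (v : Fin m ⊕ Fin m → F) (c : F),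
      IsCay (u : Matrix (Fin m ⊕ Fin m) (Fin m ⊕ Fin m) F) x ∧ adj x = -x ∧ x ^ (2 * m) = 0 ∧
      c ≠ 0 ∧ sympForm m F v ((x ^ (2 * m - 1)).mulVec v) = c := by
  obtain ⟨x, hx⟩ := exists_cay h2 hnil
  have h0 := (hx.pow_eq_zero_iff h2 _).2 hnil
  have hadj := hx.adj_eq h2 u.2
  have h1 : x ^ (2 * m - 1) ≠ 0 := fun h =>
    pow_ne_zero_of_rank hm hreg ((hx.pow_eq_zero_iff h2 _).1 h)
  obtain ⟨v, hv⟩ := H176.SingleBlock.exists_vec h1
  exact ⟨x, v, _, hx, hadj, h0, form_ne_zero hm hadj h0 hv, rfl⟩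

/-- for each `c ≠ 0` there is a regular unipotent element with invariant `c`. -/
theorem exists_unip {F : Type*} [Field F] (h2 : (2 : F) ≠ 0) {m : ℕ} (hm : 1 ≤ m) {c : F}
    (hc : c ≠ 0) : ∃ (u : Matrix.symplecticGroup (Fin m) F)
      (x : Matrix (Fin m ⊕ Fin m) (Fin m ⊕ Fin m) F) (v : Fin m ⊕ Fin m → F),
      IsCay (u : Matrix (Fin m ⊕ Fin m) (Fin m ⊕ Fin m) F) x ∧ adj x = -x ∧ x ^ (2 * m) = 0 ∧
      sympForm m F v ((x ^ (2 * m - 1)).mulVec v) = c ∧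
      ((u : Matrix (Fin m ⊕ Fin m) (Fin m ⊕ Fin m) F) - 1) ^ (2 * m) = 0 ∧
      ((u : Matrix (Fin m ⊕ Fin m) (Fin m ⊕ Fin m) F) - 1).rank = 2 * m - 1 := by
  obtain ⟨x, v, hx, hx0, hv⟩ := exists_regular hm hc
  obtain ⟨u, hu⟩ := exists_of_nilpotent hx0
  have hne : x ^ (2 * m - 1) ≠ 0 := by
    intro h
    rw [h, Matrix.zero_mulVec, ClassicalGeometry.SympBasic.sympForm_zero_right] at hv
    exact hc hv.symm
  have h0 := (hu.pow_eq_zero_iff h2 _).1 hx0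
  have h1 : (u - 1) ^ (2 * m - 1) ≠ 0 := fun h => hne ((hu.pow_eq_zero_iff h2 _).2 h)
  exact ⟨⟨u, hu.mem h2 hx⟩, x, v, hu, hx, hx0, hv, h0,
    H176.SingleBlock.mat_rank card_index (by omega) h0 h1⟩

theorem isConj_of {F : Type*} [Field F] (h2 : (2 : F) ≠ 0) {m : ℕ}
    {u u' : Matrix.symplecticGroup (Fin m) F}
    {x x' : Matrix (Fin m ⊕ Fin m) (Fin m ⊕ Fin m) F}
    (hx : IsCay (u : Matrix (Fin m ⊕ Fin m) (Fin m ⊕ Fin m) F) x)
    (hx' : IsCay (u' : Matrix (Fin m ⊕ Fin m) (Fin m ⊕ Fin m) F) x')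
    (h : ∃ g ∈ Matrix.symplecticGroup (Fin m) F, g * x = x' * g) : IsConj u u' := by
  obtain ⟨g, hg, hgx⟩ := h
  rw [isConj_iff]
  refine ⟨⟨g, hg⟩, ?_⟩
  have h1 : g * (((⟨g, hg⟩ : Matrix.symplecticGroup (Fin m) F)⁻¹ :
      Matrix.symplecticGroup (Fin m) F) : Matrix (Fin m ⊕ Fin m) (Fin m ⊕ Fin m) F) = 1 :=
    congrArg Subtype.val (mul_inv_cancel (⟨g, hg⟩ : Matrix.symplecticGroup (Fin m) F))
  have h3 : (((⟨g, hg⟩ : Matrix.symplecticGroup (Fin m) F)⁻¹ :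
      Matrix.symplecticGroup (Fin m) F) : Matrix (Fin m ⊕ Fin m) (Fin m ⊕ Fin m) F) * g = 1 :=
    congrArg Subtype.val (inv_mul_cancel (⟨g, hg⟩ : Matrix.symplecticGroup (Fin m) F))
  have h4 := hx.conj h1 h3
  rw [hgx, mul_assoc x', h1, mul_one] at h4
  exact Subtype.ext (h4.unique' h2 hx')

theorem conj_of_isConj {F : Type*} [Field F] (h2 : (2 : F) ≠ 0) {m : ℕ}
    {u u' : Matrix.symplecticGroup (Fin m) F}
    {x x' : Matrix (Fin m ⊕ Fin m) (Fin m ⊕ Fin m) F}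
    (hx : IsCay (u : Matrix (Fin m ⊕ Fin m) (Fin m ⊕ Fin m) F) x)
    (hx' : IsCay (u' : Matrix (Fin m ⊕ Fin m) (Fin m ⊕ Fin m) F) x')
    (h : IsConj u u') : ∃ g ∈ Matrix.symplecticGroup (Fin m) F, g * x = x' * g := by
  rw [isConj_iff] at h
  obtain ⟨g, hg⟩ := h
  have h1 : (g : Matrix (Fin m ⊕ Fin m) (Fin m ⊕ Fin m) F) *
      ((g⁻¹ : Matrix.symplecticGroup (Fin m) F) : Matrix (Fin m ⊕ Fin m) (Fin m ⊕ Fin m) F) = 1 :=
    congrArg Subtype.val (mul_inv_cancel g)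
  have h3 : ((g⁻¹ : Matrix.symplecticGroup (Fin m) F) : Matrix (Fin m ⊕ Fin m) (Fin m ⊕ Fin m) F) *
      (g : Matrix (Fin m ⊕ Fin m) (Fin m ⊕ Fin m) F) = 1 :=
    congrArg Subtype.val (inv_mul_cancel g)
  have h4 := hx.conj h1 h3
  have h5 : (g : Matrix (Fin m ⊕ Fin m) (Fin m ⊕ Fin m) F) * (u : Matrix (Fin m ⊕ Fin m) (Fin m ⊕ Fin m) F) *
      ((g⁻¹ : Matrix.symplecticGroup (Fin m) F) : Matrix (Fin m ⊕ Fin m) (Fin m ⊕ Fin m) F) =
      (u' : Matrix (Fin m ⊕ Fin m) (Fin m ⊕ Fin m) F) := congrArg Subtype.val hg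
  rw [h5] at h4
  refine ⟨g, g.2, ?_⟩
  rw [← h4.unique h2 hx', mul_assoc, h3, mul_one]

/-- Over a finite field of odd order and for m ≥ 1, the regular unipotent elements of Sp_2m(F) (u − 1 nilpotent of rank 2m − 1, a single Jordan block) form exactly two conjugacy classes of Sp_2m(F) (one class under the similarity group, which splits in two). -/
theorem result {F : Type*} [Field F] [Fintype F] {q : ℕ} (hF : Fintype.card F = q) (hq : Odd q) {m : ℕ} (hm : 1 ≤ m) : Nat.card {C : ConjClasses ↥(Matrix.symplecticGroup (Fin m) F) // ∃ u : Matrix.symplecticGroup (Fin m) F, ConjClasses.mk u = C ∧ ((u : Matrix (Fin m ⊕ Fin m) (Fin m ⊕ Fin m) F) - 1) ^ (2 * m) = 0 ∧ ((u : Matrix (Fin m ⊕ Fin m) (Fin m ⊕ Fin m) F) - 1).rank = 2 * m - 1} = 2 := by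
  classical
  have h2 : (2 : F) ≠ 0 := two_ne_zero_of_odd hF hq
  have hchar : ringChar F ≠ 2 := by
    intro h
    apply h2
    have := ringChar.Nat.cast_ringChar (R := F)
    rw [h] at this
    exact_mod_cast this
  obtain ⟨δ, hδ⟩ := FiniteField.exists_nonsquare hchar
  have hδ0 : δ ≠ 0 := by rintro rfl; exact hδ ⟨0, by simp⟩
  obtain ⟨u₁, x₁, v₁, hc₁, hx₁, hn₁, hv₁, ha₁, hb₁⟩ := exists_unip (F := F) h2 hm one_ne_zero
  obtain ⟨u₂, x₂, v₂, hc₂, hx₂, hn₂, hv₂, ha₂, hb₂⟩ := exists_unip (F := F) h2 hm hδ0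
  let φ : Bool → {C : ConjClasses ↥(Matrix.symplecticGroup (Fin m) F) //
      ∃ u : Matrix.symplecticGroup (Fin m) F, ConjClasses.mk u = C ∧
        ((u : Matrix (Fin m ⊕ Fin m) (Fin m ⊕ Fin m) F) - 1) ^ (2 * m) = 0 ∧
        ((u : Matrix (Fin m ⊕ Fin m) (Fin m ⊕ Fin m) F) - 1).rank = 2 * m - 1} := fun b =>
    if b then ⟨ConjClasses.mk u₁, u₁, rfl, ha₁, hb₁⟩ else ⟨ConjClasses.mk u₂, u₂, rfl, ha₂, hb₂⟩
  have hne : ¬ IsConj u₁ u₂ := by
    intro h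
    obtain ⟨g, hg, hgx⟩ := conj_of_isConj h2 hc₁ hc₂ h
    obtain ⟨l, hl⟩ := exists_sq_of_conj hm hx₂ hn₂ one_ne_zero hv₁ hv₂ hg hgx
    exact hδ ⟨l, by rw [hl]; ring⟩
  have hφ : Function.Bijective φ := by
    constructor
    · intro b b' h
      cases b <;> cases b'
      · rfl
      · exact absurd (ConjClasses.mk_eq_mk_iff_isConj.1 (congrArg Subtype.val h)).symm hne
      · exact absurd (ConjClasses.mk_eq_mk_iff_isConj.1 (congrArg Subtype.val h)) hne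
      · rfl
    · rintro ⟨_, u, rfl, hu1, hu2⟩
      obtain ⟨x, v, c, hc, hx, hn, hc0, hv⟩ := exists_inv' h2 hm u hu1 hu2
      by_cases hsq : IsSquare c
      · refine ⟨true, ?_⟩
        apply Subtype.ext
        change ConjClasses.mk u₁ = ConjClasses.mk u
        rw [ConjClasses.mk_eq_mk_iff_isConj]
        obtain ⟨l, hl⟩ := hsq
        have hl' : c = l ^ 2 * 1 := by rw [hl]; ring
        exact (isConj_of h2 hc hc₁ (exists_conj h2 hx hn hx₁ hn₁ hc0 hl' hv hv₁)).symm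
      · refine ⟨false, ?_⟩
        apply Subtype.ext
        change ConjClasses.mk u₂ = ConjClasses.mk u
        rw [ConjClasses.mk_eq_mk_iff_isConj]
        obtain ⟨l, hl⟩ := ClassicalGeometry.SymmNormalForm.isSquare_div_of_not hsq hδ
        have hl' : c = (l / δ) ^ 2 * δ := by
          field_simp
          rw [hl]
          ring
        exact (isConj_of h2 hc hc₂ (exists_conj h2 hx hn hx₂ hn₂ hc0 hl' hv hv₂)).symm
  rw [← Nat.card_congr (Equiv.ofBijective φ hφ), Nat.card_eq_fintype_card, Fintype.card_bool]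

end Cfsg.Agent.S2591
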