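import Cfsg.Statements.S2303

set_option autoImplicit false
open Cfsg

namespace Cfsg.Agent.S2303

open Matrix

variable {F : Type*} [Field F]

/-- A matrix commuting with a non-scalar `2 × 2` matrix `g` is `a + b g`. -/
theorem exists_of_commute {g h : Matrix (Fin 2) (Fin 2) F} (hg : ∀ c : F, g ≠ c • 1)
    (hc : h * g = g * h) : ∃ a b : F, h = a • 1 + b • g := by
  have e := fun i j => congrFun (congrFun hc i) j
  have e00 := e 0 0
  have e01 := e 0 1
  have e10 := e 1 0
  have e11 := e 1 1
  simp only [Matrix.mul_apply, Fin.sum_univ_two] at e00 e01 e10 e11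
  by_cases hy : g 0 1 = 0
  · by_cases hz : g 1 0 = 0
    · have hxw : g 0 0 ≠ g 1 1 := by
        intro h1
        apply hg (g 0 0)
        ext i j
        fin_cases i <;> fin_cases j <;> simp [hy, hz, h1]
      have hd : g 0 0 - g 1 1 ≠ 0 := sub_ne_zero.2 hxw
      have h01 : h 0 1 = 0 := by
        have : (g 0 0 - g 1 1) * h 0 1 = 0 := by
          linear_combination -e01 + (h 0 0 - h 1 1) * hy
        exact (mul_eq_zero.1 this).resolve_left hd
      have h10 : h 1 0 = 0 := by
        have : (g 0 0 - g 1 1) * h 1 0 = 0 := by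
          linear_combination e10 + (h 0 0 - h 1 1) * hz
        exact (mul_eq_zero.1 this).resolve_left hd
      have hb : (h 0 0 - h 1 1) / (g 0 0 - g 1 1) * (g 0 0 - g 1 1) = h 0 0 - h 1 1 :=
        div_mul_cancel₀ _ hd
      refine ⟨h 0 0 - (h 0 0 - h 1 1) / (g 0 0 - g 1 1) * g 0 0, (h 0 0 - h 1 1) / (g 0 0 - g 1 1), ?_⟩
      ext i j
      fin_cases i <;> fin_cases j <;> simp [hy, hz, h01, h10]
      linear_combination hb
    · refine ⟨h 0 0 - h 1 0 / g 1 0 * g 0 0, h 1 0 / g 1 0, ?_⟩
      ext i j
      fin_cases i <;> fin_cases j <;> simp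
      · rw [hy]
        have : g 1 0 * h 0 1 = 0 := by rw [hy] at e00; linear_combination e00
        simpa using (mul_eq_zero.1 this).resolve_left hz
      · field_simp
      · field_simp
        linear_combination e10
  · refine ⟨h 0 0 - h 0 1 / g 0 1 * g 0 0, h 0 1 / g 0 1, ?_⟩
    ext i j
    fin_cases i <;> fin_cases j <;> simp
    · field_simp
    · field_simp
      linear_combination -e00
    · field_simp
      linear_combination -e01

/-- The centralizer of a non-scalar element is in bijection with the pairs `(a, b)` for which `a + b g` is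
invertible. -/
theorem card_centralizer (g : GeneralLinearGroup (Fin 2) F)
    (hg : ∀ c : F, (g : Matrix (Fin 2) (Fin 2) F) ≠ c • 1) :
    Nat.card (Subgroup.centralizer ({g} : Set (GeneralLinearGroup (Fin 2) F))) =
      Nat.card {p : F × F // IsUnit (p.1 • (1 : Matrix (Fin 2) (Fin 2) F) + p.2 • (g : Matrix (Fin 2) (Fin 2) F))} := by
  symm
  refine Nat.card_congr (Equiv.ofBijective (fun p => ⟨p.2.unit, ?_⟩) ⟨?_, ?_⟩)
  · rw [Subgroup.mem_centralizer_singleton_iff]
    ext1
    simp only [Units.val_mul, IsUnit.unit_spec]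
    rw [add_mul, mul_add]
    simp
  · rintro ⟨⟨a, b⟩, h1⟩ ⟨⟨c, d⟩, h2⟩ h
    have h' : a • (1 : Matrix (Fin 2) (Fin 2) F) + b • (g : Matrix (Fin 2) (Fin 2) F) =
        c • (1 : Matrix (Fin 2) (Fin 2) F) + d • (g : Matrix (Fin 2) (Fin 2) F) := by
      have := congrArg (fun x : Subgroup.centralizer ({g} : Set (GeneralLinearGroup (Fin 2) F)) =>
        ((x : GeneralLinearGroup (Fin 2) F) : Matrix (Fin 2) (Fin 2) F)) h
      simpa using this
    have hbd : b = d := by
      by_contra hne
      have hne' : b - d ≠ 0 := sub_ne_zero.2 hne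
      apply hg ((c - a) / (b - d))
      have h3 : (b - d) • (g : Matrix (Fin 2) (Fin 2) F) = (c - a) • (1 : Matrix (Fin 2) (Fin 2) F) := by
        rw [sub_smul, sub_smul, sub_eq_sub_iff_add_eq_add, add_comm, add_comm (c • (1 : Matrix (Fin 2) (Fin 2) F))]
        rw [add_comm (d • (g : Matrix (Fin 2) (Fin 2) F)), ← h', add_comm]
      calc (g : Matrix (Fin 2) (Fin 2) F) = (b - d)⁻¹ • ((b - d) • (g : Matrix (Fin 2) (Fin 2) F)) := by
            rw [smul_smul, inv_mul_cancel₀ hne', one_smul]
        _ = ((c - a) / (b - d)) • 1 := by rw [h3, smul_smul, div_eq_inv_mul]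
    subst hbd
    have hac : a • (1 : Matrix (Fin 2) (Fin 2) F) = c • 1 := add_right_cancel h'
    have h00 := congrFun (congrFun hac 0) 0
    simp at h00
    subst h00
    rfl
  · rintro ⟨h, hh⟩
    rw [Subgroup.mem_centralizer_singleton_iff] at hh
    have hc : (h : Matrix (Fin 2) (Fin 2) F) * (g : Matrix (Fin 2) (Fin 2) F) = g * h := by
      have := congrArg (fun x : GeneralLinearGroup (Fin 2) F => (x : Matrix (Fin 2) (Fin 2) F)) hh
      simpa using this
    obtain ⟨a, b, hab⟩ := exists_of_commute hg hc
    refine ⟨⟨(a, b), ?_⟩, ?_⟩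
    · simp only
      rw [← hab]
      exact h.isUnit
    · ext1
      ext1
      simp only [IsUnit.unit_spec]
      exact hab.symm

/-- Over a finite field with q elements: a diagonal element of GL₂ with two distinct diagonal entries has centralizer of order (q − 1)² (so q(q + 1) conjugates), and an element of GL₂ with no eigenvector in F² has centralizer of order q² − 1 (so q(q − 1) conjugates). -/
theorem result {F : Type*} [Field F] [Fintype F] (g : Matrix.GeneralLinearGroup (Fin 2) F) :
    ((g : Matrix (Fin 2) (Fin 2) F) 0 1 = 0 → (g : Matrix (Fin 2) (Fin 2) F) 1 0 = 0 → (g : Matrix (Fin 2) (Fin 2) F) 0 0 ≠ (g : Matrix (Fin 2) (Fin 2) F) 1 1 →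
      Nat.card (Subgroup.centralizer ({g} : Set (Matrix.GeneralLinearGroup (Fin 2) F))) = (Fintype.card F - 1) ^ 2) ∧
    ((∀ (c : F) (v : Fin 2 → F), v ≠ 0 → (g : Matrix (Fin 2) (Fin 2) F).mulVec v ≠ c • v) →
      Nat.card (Subgroup.centralizer ({g} : Set (Matrix.GeneralLinearGroup (Fin 2) F))) = Fintype.card F ^ 2 - 1) := by
  classical
  refine ⟨fun h01 h10 hne => ?_, fun hno => ?_⟩
  · have hg : ∀ c : F, (g : Matrix (Fin 2) (Fin 2) F) ≠ c • 1 := by
      intro c h
      apply hne
      rw [h]
      simp
    rw [card_centralizer g hg]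
    set a := (g : Matrix (Fin 2) (Fin 2) F) 0 0 with ha
    set d := (g : Matrix (Fin 2) (Fin 2) F) 1 1 with hd'
    have hd : d - a ≠ 0 := sub_ne_zero.2 hne.symm
    have key : ∀ p : F × F, IsUnit (p.1 • (1 : Matrix (Fin 2) (Fin 2) F) + p.2 • (g : Matrix (Fin 2) (Fin 2) F)) ↔
        p.1 + p.2 * a ≠ 0 ∧ p.1 + p.2 * d ≠ 0 := by
      intro p
      rw [Matrix.isUnit_iff_isUnit_det, isUnit_iff_ne_zero, Matrix.det_fin_two, ← mul_ne_zero_iff]
      simp [h01, h10, ← ha, ← hd']
    have : Nat.card {p : F × F // IsUnit (p.1 • (1 : Matrix (Fin 2) (Fin 2) F) + p.2 • (g : Matrix (Fin 2) (Fin 2) F))}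
        = Nat.card (Fˣ × Fˣ) := by
      refine Nat.card_congr
        { toFun := fun p => (Units.mk0 (p.1.1 + p.1.2 * a) ((key p.1).1 p.2).1,
            Units.mk0 (p.1.1 + p.1.2 * d) ((key p.1).1 p.2).2)
          invFun := fun u => ⟨((u.1 : F) - ((u.2 : F) - u.1) / (d - a) * a, ((u.2 : F) - u.1) / (d - a)),
            (key _).2 ⟨?_, ?_⟩⟩
          left_inv := ?_
          right_inv := ?_ }
      · simp
      · have : (u.1 : F) - ((u.2 : F) - u.1) / (d - a) * a + ((u.2 : F) - u.1) / (d - a) * d = u.2 := by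
          field_simp
          ring
        rw [this]
        exact u.2.ne_zero
      · rintro ⟨⟨x, y⟩, hp⟩
        ext
        · simp
          field_simp
          ring
        · simp
          field_simp
          try ring
      · rintro ⟨u, v⟩
        ext
        · simp
        · simp
          field_simp
          try ring
    rw [this, Nat.card_prod, Nat.card_units, Nat.card_eq_fintype_card, sq]
  · have hg : ∀ c : F, (g : Matrix (Fin 2) (Fin 2) F) ≠ c • 1 := by
      intro c h
      apply hno c (fun _ => 1)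
      · intro h0
        exact one_ne_zero (congrFun h0 0)
      · rw [h, Matrix.smul_mulVec, Matrix.one_mulVec]
    rw [card_centralizer g hg]
    have key : ∀ p : F × F, IsUnit (p.1 • (1 : Matrix (Fin 2) (Fin 2) F) + p.2 • (g : Matrix (Fin 2) (Fin 2) F)) ↔
        p ≠ 0 := by
      rintro ⟨x, y⟩
      constructor
      · rintro h h0
        rw [Prod.mk_eq_zero] at h0
        simp [h0.1, h0.2] at h
      · intro hne
        rw [Matrix.isUnit_iff_isUnit_det, isUnit_iff_ne_zero]
        intro hdet
        obtain ⟨v, hv, hv0⟩ := Matrix.exists_mulVec_eq_zero_iff.2 hdet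
        simp only [Matrix.add_mulVec, Matrix.smul_mulVec, Matrix.one_mulVec] at hv0
        by_cases hy : y = 0
        · subst hy
          have hx : x ≠ 0 := by
            rintro rfl
            exact hne rfl
          simp at hv0
          exact hv0.elim hx hv
        · apply hno (-(x / y)) v hv
          have h1 : y • (g : Matrix (Fin 2) (Fin 2) F).mulVec v = (-x) • v := by
            rw [neg_smul]
            exact eq_neg_of_add_eq_zero_right hv0
          calc (g : Matrix (Fin 2) (Fin 2) F).mulVec v = y⁻¹ • (y • (g : Matrix (Fin 2) (Fin 2) F).mulVec v) := by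
                rw [smul_smul, inv_mul_cancel₀ hy, one_smul]
            _ = (-(x / y)) • v := by
                rw [h1, smul_smul]
                congr 1
                field_simp
    have h2 : Nat.card {p : F × F // IsUnit (p.1 • (1 : Matrix (Fin 2) (Fin 2) F) + p.2 • (g : Matrix (Fin 2) (Fin 2) F))}
        = Nat.card {p : F × F // p ≠ 0} := Nat.card_congr (Equiv.subtypeEquivRight key)
    rw [h2, Nat.card_eq_fintype_card, Fintype.card_subtype_compl, Fintype.card_prod]
    simp [sq]

end Cfsg.Agent.S2303
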