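import Cfsg.Statements.S2320
import Cfsg.Agent.H670.SL2Vals

set_option autoImplicit false
open Cfsg

namespace Cfsg.Agent.S2320

open Cfsg.Agent.H670 Cfsg.Agent.H670.RankOne

/-- Over a finite field F with q elements, every irreducible complex character of GL₂ of degree q takes a value of absolute value 1 at every diagonal matrix with two different diagonal entries and at every element with no eigenvector in F². -/
theorem result {F : Type*} [Field F] [Fintype F] (χ : Matrix.GeneralLinearGroup (Fin 2) F → ℂ) (hχ : Cfsg.IsIrrCharacter (Matrix.GeneralLinearGroup (Fin 2) F) χ) (hdeg : χ 1 = (Fintype.card F : ℂ)) (g : Matrix.GeneralLinearGroup (Fin 2) F) :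
    ((g : Matrix (Fin 2) (Fin 2) F) 0 1 = 0 → (g : Matrix (Fin 2) (Fin 2) F) 1 0 = 0 → (g : Matrix (Fin 2) (Fin 2) F) 0 0 ≠ (g : Matrix (Fin 2) (Fin 2) F) 1 1 → ‖χ g‖ = 1) ∧
    ((∀ (c : F) (v : Fin 2 → F), v ≠ 0 → (g : Matrix (Fin 2) (Fin 2) F).mulVec v ≠ c • v) → ‖χ g‖ = 1) := by
  classical
  have : Fintype (Matrix.GeneralLinearGroup (Fin 2) F) := Fintype.ofFinite _
  obtain ⟨lam, χ', h1, h2, h3, h4, h5, h6, h7⟩ := (GL2.data F).steinberg_cases GL2.hasAnti hχ hdeg
  constructor
  · intro h01 h10 hne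
    obtain ⟨u, rfl, hu1, hu2⟩ := GL2.tor_of_diag (g := g) h01 h10
    have ha : (GL2.data F).a (GL2.tt u) ≠ 1 := by
      rw [GL2.data_a]
      intro h
      apply hne
      have h8 := mul_inv_eq_one.1 h
      have h9 : (u.1 : F) = (u.2 : F) := congrArg Units.val h8
      exact h9
    have h8 := (GL2.data F).jac_of_ne (Characters.Core.isIrr_isClassFunction hχ) ha
    rw [h2] at h8
    have h9 : χ (GL2.tor u) = (lam (GL2.tt u) : ℂ) := h8.symm
    rw [h9]
    exact Characters.Linear.norm_hom_apply lam _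
  · intro hell
    have h8 := (GL2.data F).ind_of_notMem lam (GL2.ell_notMem hell)
    rw [h7, Pi.add_apply] at h8
    obtain ⟨f, rfl⟩ := Characters.Linear.exists_hom_of_isIrrCharacter h4 h5
    have h9 : χ g = -((f g : ℂˣ) : ℂ) := eq_neg_of_add_eq_zero_left h8
    rw [h9, norm_neg]
    exact Characters.Linear.norm_hom_apply f g

end Cfsg.Agent.S2320
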