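import Cfsg.Statements.S2989
import Cfsg.Agent.H260.Push6

set_option autoImplicit false
open Cfsg
open scoped commutatorElement

namespace Cfsg.Agent.S2989

open Cfsg.Agent.H260.Push

theorem card_om {G : Type*} [Group G] [Finite G] (p : ℕ) (S : Subgroup G) (Q : Subgroup S) :
    Nat.card (omegaOneCenter p Q) = Nat.card (om p (Q.map S.subtype)) := by
  rw [← card_map_sub S]
  congr 1
  congr 1
  ext x
  rw [mem_om, ← cen_map]
  have h : ∀ y : S, y ∈ omegaOneCenter p Q ↔ y ∈ Q ⊓ Subgroup.centralizer (Q : Set S) ∧ y ^ p = 1 := by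
    intro y
    exact omegaOne_mem (A := Q ⊓ Subgroup.centralizer (Q : Set S))
      (fun x hx y hy => (Subgroup.mem_centralizer_iff.mp (Subgroup.mem_inf.mp hy).2 x (Subgroup.mem_inf.mp hx).1))
  constructor
  · rintro ⟨y, hy, rfl⟩
    have h1 := (h y).mp hy
    exact ⟨⟨y, h1.1, rfl⟩, by
      rw [← map_pow, h1.2, map_one]⟩
  · rintro ⟨⟨y, hy, rfl⟩, h2⟩
    refine ⟨y, (h y).mpr ⟨hy, ?_⟩, rfl⟩
    rw [← map_pow] at h2
    exact (map_eq_one_iff S.subtype S.subtype_injective).mp h2

theorem top_iff {G : Type*} [Group G] [Finite G] (p : ℕ) (S : Subgroup G) (Q : Subgroup S) :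
    (IsMinimalCentrallyLarge Q ∧ Nat.card (omegaOneCenter p Q) = maxOmegaCenterOfMinimalCL p S) ↔
      Top p S (Q.map S.subtype) := by
  have hbdd : BddAbove {k : ℕ | ∃ Q : Subgroup S, IsMinimalCentrallyLarge Q ∧
      Nat.card (omegaOneCenter p Q) = k} := by
    refine ⟨Nat.card S, ?_⟩
    rintro k ⟨Q, _, rfl⟩
    exact Subgroup.card_le_card_group _
  constructor
  · rintro ⟨h1, h2⟩
    refine ⟨(mcl_iff S Q).mp h1, ?_⟩
    intro R' hR'
    rw [← card_om, h2]
    have h3 := mcl_of_ambient hR'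
    rw [← map_subgroupOf' hR'.1.1, ← card_om]
    exact le_csSup hbdd ⟨_, h3, rfl⟩
  · rintro ⟨h1, h2⟩
    refine ⟨(mcl_iff S Q).mpr h1, ?_⟩
    apply le_antisymm
    · exact le_csSup hbdd ⟨_, (mcl_iff S Q).mpr h1, rfl⟩
    · have hne : {k : ℕ | ∃ Q : Subgroup S, IsMinimalCentrallyLarge Q ∧
          Nat.card (omegaOneCenter p Q) = k}.Nonempty := ⟨_, Q, (mcl_iff S Q).mpr h1, rfl⟩
      apply csSup_le hne
      rintro k ⟨Q', hQ', rfl⟩
      rw [card_om, card_om]
      exact h2 _ ((mcl_iff S Q').mp hQ')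

theorem map_frattini {G : Type*} [Group G] [Finite G] (p : ℕ) [Fact p.Prime] (S : Subgroup G)
    (hS : IsPGroup p S) (Q : Subgroup S) :
    ((frattini Q).map Q.subtype).map S.subtype = phi p (Q.map S.subtype) := by
  rw [frattini_map_eq Q (hS.to_subgroup Q), phi_map]

theorem map_join {G : Type*} [Group G] [Finite G] (p : ℕ) [Fact p.Prime] (S : Subgroup G)
    (hS : IsPGroup p S) :
    (frattiniOfMinimalCLJoin p S).map S.subtype =
      ⨆ R : {R : Subgroup G // Top p S R}, phi p (R : Subgroup G) := by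
  unfold frattiniOfMinimalCLJoin
  rw [Subgroup.map_iSup]
  apply le_antisymm
  · apply iSup_le
    rintro ⟨Q, hQ⟩
    rw [map_frattini p S hS]
    exact le_iSup (fun R : {R : Subgroup G // Top p S R} => phi p (R : Subgroup G))
      ⟨_, (top_iff p S Q).mp hQ⟩
  · apply iSup_le
    rintro ⟨R, hR⟩
    have h1 : R ≤ S := hR.1.1.1
    have h2 := (top_iff p S (R.subgroupOf S)).mpr (by rw [map_subgroupOf' h1]; exact hR)
    simp only
    have h3 := map_frattini p S hS (R.subgroupOf S)
    rw [map_subgroupOf' h1] at h3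
    rw [← h3]
    exact le_iSup (fun Q : {Q : Subgroup S // IsMinimalCentrallyLarge Q ∧
      Nat.card (omegaOneCenter p Q) = maxOmegaCenterOfMinimalCL p S} =>
        ((frattini (Q : Subgroup S)).map (Q : Subgroup S).subtype).map S.subtype) ⟨_, h2⟩

/-- if `S_Φ = 1`, some minimal centrally large subgroup is elementary abelian -/
theorem elem_of_bot {P : Type*} [Group P] [Finite P] (p : ℕ) [Fact p.Prime] (hP : IsPGroup p P)
    (h : frattiniOfMinimalCLJoin p P = ⊥) :
    ∃ Q : Subgroup P, IsMinimalCentrallyLarge Q ∧ Q ≤ Subgroup.centralizer (Q : Set P) ∧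
      ∀ a ∈ Q, a ^ p = 1 := by
  have hbdd : BddAbove {k : ℕ | ∃ Q : Subgroup P, IsMinimalCentrallyLarge Q ∧
      Nat.card (omegaOneCenter p Q) = k} := by
    refine ⟨Nat.card P, ?_⟩
    rintro k ⟨Q, _, rfl⟩
    exact Subgroup.card_le_card_group _
  obtain ⟨Q₀, hQ₀⟩ := H264.CD.exists_min (G := P)
  obtain ⟨Q, hQ1, hQ2⟩ := Nat.sSup_mem (s := {k : ℕ | ∃ Q : Subgroup P, IsMinimalCentrallyLarge Q ∧
      Nat.card (omegaOneCenter p Q) = k}) ⟨_, Q₀, hQ₀, rfl⟩ hbdd
  have h1 : (frattini Q).map Q.subtype ≤ frattiniOfMinimalCLJoin p P := by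
    unfold frattiniOfMinimalCLJoin
    exact le_iSup (fun Q : {Q : Subgroup P // IsMinimalCentrallyLarge Q ∧
      Nat.card (omegaOneCenter p Q) = maxOmegaCenterOfMinimalCL p P} =>
        ((frattini (Q : Subgroup P)).map (Q : Subgroup P).subtype)) ⟨Q, hQ1, hQ2⟩
  rw [h, le_bot_iff, frattini_map_eq Q (hP.to_subgroup Q)] at h1
  refine ⟨Q, hQ1, ?_, ?_⟩
  · intro x hx
    rw [Subgroup.mem_centralizer_iff]
    intro y hy
    have h2 : ⁅y, x⁆ ∈ phi p Q := comm_mem_phi hy hx
    rw [h1, Subgroup.mem_bot, commutatorElement_eq_one_iff_mul_comm] at h2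
    exact h2
  · intro a ha
    have h2 : a ^ p ∈ phi p Q := pow_mem_phi ha
    rwa [h1, Subgroup.mem_bot] at h2

/-- Let G be a finite group and S a Sylow p-subgroup of G in the basic pushing-up situation (G ≠ 1, C_G(O_p(G)) ≤ O_p(G), S lies in a unique maximal subgroup of G, and some quotient of G is isomorphic to PSL₂ over a field of order a power of p), and suppose that S centralizes Z(J(S)), where J(S) is generated by the abelian subgroups of S of largest order (that is, J̃(S) = C_S(Z(J(S))) = S). Call a subgroup R of S centrally large if |R|·|Z(R)| is as large as possible among subgroups of S, and let S_Φ be the subgroup generated by the Frattini subgroups Φ(Q) of those minimal centrally large subgroups Q of S whose Ω₁(Z(Q)) has the largest order among minimal centrally large subgroups. Then Z(S) or S_Φ is normal in G; and if S_Φ = 1, the minimal centrally large subgroups of S are exactly the abelian subgroups of S of largest order, and at least one of them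 is elementary abelian. -/
theorem result {G : Type*} [Group G] [Finite G] {p : ℕ} [Fact p.Prime] (S : Subgroup G) (hE : Cfsg.IsPushingUpSituation p S) (hJ : S ≤ Subgroup.centralizer (Cfsg.centerThompsonAOf S : Set G)) : ((S ⊓ Subgroup.centralizer (S : Set G)).Normal ∨ ((Cfsg.frattiniOfMinimalCLJoin p ↥S).map S.subtype).Normal) ∧ (Cfsg.frattiniOfMinimalCLJoin p ↥S = ⊥ → (∀ Q : Subgroup ↥S, Cfsg.IsMinimalCentrallyLarge Q ↔ Q ∈ Cfsg.maxAbelianSubgroups ↥S) ∧ ∃ A ∈ Cfsg.maxAbelianSubgroups ↥S, Cfsg.IsElementaryAbelian p A) := by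
  obtain ⟨q, M, c⟩ := exists_core hE
  refine ⟨?_, ?_⟩
  · rw [map_join p S c.pgS]
    exact phi_top_normal_or c hJ
  · intro h
    obtain ⟨Q, hQ1, hQ2, hQ3⟩ := elem_of_bot p c.pgS h
    refine ⟨fun R => H264.CD.min_iff_of_comm hQ1 hQ2 R, Q, ?_, ?_, hQ3⟩
    · exact (H264.CD.min_iff_of_comm hQ1 hQ2 Q).mp hQ1
    · exact (H264.CD.isMulCommutative_iff Q).mpr hQ2

end Cfsg.Agent.S2989
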