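import Cfsg.Statements.S3020
import Cfsg.Agent.Lib.LocalCore

set_option autoImplicit false
open Cfsg

namespace Cfsg.Agent.S3020

open Subgroup

/-- Let `K` be a finite group with an abelian `p`-subgroup `H` which is self-normalizing in `K`.
Then `H` is a complement to `O_{p'}(K)`. -/
theorem core_of_selfNormalizing {K : Type*} [Group K] [Finite K] {p : ℕ} [Fact p.Prime]
    (H : Subgroup K) (hHp : IsPGroup p H) (hHab : ∀ a ∈ H, ∀ b ∈ H, a * b = b * a)
    (hN : Subgroup.normalizer (H : Set K) = H) :
    H ⊔ Cfsg.pPrimeCore p K = ⊤ ∧ H ⊓ Cfsg.pPrimeCore p K = ⊥ := by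
  obtain ⟨P, hP⟩ := hHp.exists_le_sylow
  have hHP : (P : Subgroup K) = H := by
    by_contra hne
    haveI : Group.IsNilpotent ↥(P : Subgroup K) := P.isPGroup'.isNilpotent
    have hNC : NormalizerCondition ↥(P : Subgroup K) := normalizerCondition_of_isNilpotent
    have hlt : H.subgroupOf P < ⊤ := by
      rw [lt_top_iff_ne_top]
      intro htop
      rw [Subgroup.subgroupOf_eq_top] at htop
      exact hne (le_antisymm htop hP)
    obtain ⟨x, hx, hxn⟩ := SetLike.exists_of_lt (hNC (H.subgroupOf P) hlt)
    apply hxn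
    rw [← subgroupOf_normalizer_eq hP, Subgroup.mem_subgroupOf, hN] at hx
    rwa [Subgroup.mem_subgroupOf]
  have hcent : Subgroup.normalizer ((P : Subgroup K) : Set K) ≤
      Subgroup.centralizer ((P : Subgroup K) : Set K) := by
    rw [hHP, hN]
    intro a ha
    rw [Subgroup.mem_centralizer_iff]
    intro b hb
    exact hHab b hb a ha
  have hcompl := MonoidHom.ker_transferSylow_isComplement' P hcent
  have hle : (MonoidHom.transferSylow P hcent).ker ≤ Cfsg.pPrimeCore p K := by
    refine Lib.Cores.le_pPrimeCore inferInstance ?_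
    exact ((Fact.out : p.Prime).coprime_iff_not_dvd.2
      (MonoidHom.not_dvd_card_ker_transferSylow P hcent)).symm
  constructor
  · rw [← hHP, sup_comm]
    rw [eq_top_iff, ← hcompl.sup_eq_top]
    exact sup_le_sup_right hle _
  · rw [inf_comm]
    refine (disjoint_of_coprime_natCard ?_).eq_bot
    obtain ⟨n, hn⟩ := hHp.exists_card_eq
    rw [hn]
    exact (Lib.Cores.pPrimeCore_coprime p).pow_right n

/-- Let G be a finite group, p a prime and H an abelian p-subgroup of G that is extremely closed (for every g, the subgroup generated by H and g H g⁻¹ meets N_G(H) exactly in H). Then for every g ∈ G, the subgroup T generated by H and g H g⁻¹ is the product of H with O_{p'}(T), and H meets O_{p'}(T) trivially; that is, O_{p'}(T) is a normal p-complement of H in T. -/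
theorem result {G : Type*} [Group G] [Finite G] {p : ℕ} [Fact p.Prime] (H : Subgroup G) (hHp : IsPGroup p H) (hHab : IsMulCommutative H) (hcl : Cfsg.IsExtremelyClosed H) (g : G) (T : Subgroup G) (hT : T = H ⊔ H.map (MulAut.conj g).toMonoidHom) : H ⊔ (Cfsg.pPrimeCore p ↥T).map T.subtype = T ∧ H ⊓ (Cfsg.pPrimeCore p ↥T).map T.subtype = ⊥ := by
  have hHT : H ≤ T := by rw [hT]; exact le_sup_left
  have hNT : T ⊓ Subgroup.normalizer (H : Set G) = H := by rw [hT]; exact hcl g
  have hN : Subgroup.normalizer ((H.subgroupOf T : Subgroup T) : Set T) = H.subgroupOf T := by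
    rw [← subgroupOf_normalizer_eq hHT]
    ext x
    rw [Subgroup.mem_subgroupOf, Subgroup.mem_subgroupOf]
    conv_rhs => rw [← hNT]
    exact ⟨fun h => ⟨x.2, h⟩, fun h => h.2⟩
  obtain ⟨h1, h2⟩ := core_of_selfNormalizing (p := p) (H.subgroupOf T)
    (hHp.of_equiv (subgroupOfEquivOfLe hHT).symm)
    (fun a ha b hb => by
      have := hHab.is_comm.comm (⟨a, ha⟩ : H) ⟨b, hb⟩
      apply Subtype.ext
      simpa using congrArg (Subtype.val : H → G) this) hN
  have h3 : (H.subgroupOf T).map T.subtype = H := by
    rw [subgroupOf_map_subtype, inf_eq_left.mpr hHT]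
  constructor
  · have := congrArg (Subgroup.map T.subtype) h1
    rw [Subgroup.map_sup, h3, ← MonoidHom.range_eq_map, range_subtype] at this
    exact this
  · have := congrArg (Subgroup.map T.subtype) h2
    rw [Subgroup.map_inf _ _ _ T.subtype_injective, h3, Subgroup.map_bot] at this
    exact this

end Cfsg.Agent.S3020
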