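import Cfsg.Statements.S3021
import Mathlib.GroupTheory.Nilpotent

set_option autoImplicit false
open Cfsg

namespace Cfsg.Agent.S3021

/-- A subgroup of a finite `p`-group `Q` which is self-normalizing inside an intermediate subgroup `T` is `T`. -/
theorem eq_of_inf_normalizer_eq {G : Type*} [Group G] [Finite G] {p : ℕ} [Fact p.Prime]
    (H T : Subgroup G) (hT : IsPGroup p T) (hHT : H ≤ T)
    (h : T ⊓ Subgroup.normalizer (H : Set G) = H) : H = T := by
  by_contra hne
  haveI : Group.IsNilpotent ↥T := hT.isNilpotent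
  have hNC : NormalizerCondition ↥T := normalizerCondition_of_isNilpotent
  have hlt : H.subgroupOf T < ⊤ := by
    rw [lt_top_iff_ne_top]
    intro htop
    rw [Subgroup.subgroupOf_eq_top] at htop
    exact hne (le_antisymm hHT htop)
  have h1 := hNC (H.subgroupOf T) hlt
  obtain ⟨x, hx, hxn⟩ := SetLike.exists_of_lt h1
  apply hxn
  rw [Subgroup.mem_subgroupOf]
  rw [← h]
  refine ⟨x.2, ?_⟩
  rw [Subgroup.mem_normalizer_iff] at hx
  show (x : G) ∈ Subgroup.normalizer (H : Set G)
  rw [Subgroup.mem_normalizer_iff]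
  intro y
  constructor
  · intro hy
    have := (hx ⟨y, hHT hy⟩).1 (by rw [Subgroup.mem_subgroupOf]; exact hy)
    rw [Subgroup.mem_subgroupOf] at this
    simpa using this
  · intro hy
    have hyT : y ∈ T := by
      have h2 : (x : G) * y * (x : G)⁻¹ ∈ T := hHT hy
      have h3 := T.mul_mem (T.mul_mem (T.inv_mem x.2) h2) x.2
      have : (x : G)⁻¹ * ((x : G) * y * (x : G)⁻¹) * (x : G) = y := by group
      rwa [this] at h3
    have := (hx ⟨y, hyT⟩).2 (by rw [Subgroup.mem_subgroupOf]; simpa using hy)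
    rw [Subgroup.mem_subgroupOf] at this
    exact this

theorem normalizer_le {G : Type*} [Group G] [Finite G] {p : ℕ} [Fact p.Prime] (H : Subgroup G)
    (hcl : Cfsg.IsExtremelyClosed H) (Q : Subgroup G) (hQ : IsPGroup p Q) (hHQ : H ≤ Q) :
    Subgroup.normalizer (Q : Set G) ≤ Subgroup.normalizer (H : Set G) := by
  intro g hg
  have hle : H.map (MulAut.conj g).toMonoidHom ≤ Q := by
    rintro _ ⟨x, hx, rfl⟩
    have := (Subgroup.mem_normalizer_iff.1 hg x).1 (hHQ hx)
    simpa using this
  have hTQ : H ⊔ H.map (MulAut.conj g).toMonoidHom ≤ Q := sup_le hHQ hle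
  have hTp : IsPGroup p ↥(H ⊔ H.map (MulAut.conj g).toMonoidHom) :=
    hQ.to_le hTQ
  have heq := eq_of_inf_normalizer_eq H _ hTp le_sup_left (hcl g)
  have hle2 : H.map (MulAut.conj g).toMonoidHom ≤ H := by
    conv_rhs => rw [heq]
    exact le_sup_right
  have hcard : Nat.card ↥(H.map (MulAut.conj g).toMonoidHom) = Nat.card ↥H :=
    Nat.card_congr (H.equivMapOfInjective _ (MulAut.conj g).injective).toEquiv.symm
  have heq2 : H.map (MulAut.conj g).toMonoidHom = H :=
    Subgroup.eq_of_le_of_card_ge hle2 hcard.ge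
  rw [Subgroup.mem_normalizer_iff]
  intro y
  constructor
  · intro hy
    have : (MulAut.conj g).toMonoidHom y ∈ H.map (MulAut.conj g).toMonoidHom := ⟨y, hy, rfl⟩
    rw [heq2] at this
    simpa using this
  · intro hy
    rw [← heq2] at hy
    obtain ⟨z, hz, hzy⟩ := hy
    have : z = y := by
      apply (MulAut.conj g).injective
      simpa using hzy
    rwa [← this]

/-- Let G be a finite group, p a prime and H a p-subgroup of G that is extremely closed (for every g, the subgroup generated by H and g H g⁻¹ meets N_G(H) exactly in H). Then every p-subgroup Q of G containing H has N_G(Q) ≤ N_G(H); in particular every Sylow p-subgroup P of G containing H normalizes H, and H is strongly closed in P with respect to G. -/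
theorem result {G : Type*} [Group G] [Finite G] {p : ℕ} [Fact p.Prime] (H : Subgroup G) (hHp : IsPGroup p H) (hcl : Cfsg.IsExtremelyClosed H) : (∀ Q : Subgroup G, IsPGroup p Q → H ≤ Q → Subgroup.normalizer (Q : Set G) ≤ Subgroup.normalizer (H : Set G)) ∧ ∀ P : Sylow p G, H ≤ (P : Subgroup G) → (P : Subgroup G) ≤ Subgroup.normalizer (H : Set G) ∧ Cfsg.IsStronglyClosed H (P : Subgroup G) := by
  refine ⟨fun Q hQ hHQ => normalizer_le H hcl Q hQ hHQ, fun P hHP => ?_⟩
  have hPN : (P : Subgroup G) ≤ Subgroup.normalizer (H : Set G) :=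
    le_trans Subgroup.le_normalizer (normalizer_le H hcl P P.isPGroup' hHP)
  refine ⟨hPN, hHP, fun x hx g hgx => ?_⟩
  rw [← hcl g]
  refine ⟨?_, hPN hgx⟩
  apply (le_sup_right : H.map (MulAut.conj g).toMonoidHom ≤ _)
  exact ⟨x, hx, by simp⟩

end Cfsg.Agent.S3021
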