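import Cfsg.Statements.S2462
import Cfsg.Agent.H148.Large
import Cfsg.Agent.H148.D42End

set_option autoImplicit false
open Cfsg

namespace Cfsg.Agent.S2462

open Cfsg.Agent.H148.Hex Cfsg.Agent.H148.SLTwo Cfsg.Agent.Cit.HexBase Cfsg.Agent.SplitTwo

universe u in
theorem two {K : Type u} [Field K] [Fintype K] [CharP K 2] (hK : Fintype.card K = 2 ^ 3) :
    ∃ x : Cfsg.Lie.twistedD4 K 2, ¬ 2 ∣ orderOf x ∧ ∀ g : Cfsg.Lie.twistedD4 K 2, g ≠ 1 → Pr x g := by
  obtain ⟨σ, hσ, ⟨c⟩⟩ := Cfsg.Agent.Cit.HexD4.exists_d4 (K := K) (q := 2) hK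
  have h8 : Fintype.card K = 8 := by rw [hK]; norm_num
  obtain ⟨z, h0, h1⟩ := exists_ne (F := K) (by omega)
  have : CharP ↥(fx σ) 2 := charP_fx
  have h20 := two_eq_zero K
  have h7 : ∀ x : K, x ≠ 0 → x ^ 7 = 1 := by
    intro x hx
    have := FiniteField.pow_card_sub_one_eq_one x hx
    rwa [h8] at this
  have hn : ∀ s : K, s ≠ 0 → nrm σ s = 1 := by
    intro s hs
    unfold nrm
    rw [hσ, hσ]
    linear_combination h7 s hs
  have hs := act_p3_dg c z h0
  rw [hn z h0] at hs
  have hz2 : z ^ 2 ≠ 1 := by
    intro h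
    apply h1
    have : (z - 1) ^ 2 = 0 := by linear_combination h + (1 - z) * h20
    exact sub_eq_zero.1 (pow_eq_zero_iff (by norm_num) |>.1 this)
  have D : Dat c (1 : ↥(fx σ)) _ (1 / z ^ 2) :=
    { irr := by
        intro x hx
        have hx' : x ^ 2 + 1 * x + 1 = 0 := hx
        have hx0 : x ≠ 0 := by
          intro h
          rw [h] at hx'
          simp at hx'
        have h3 : x ^ 3 = 1 := by linear_combination (x - 1) * hx'
        have e7 := h7 x hx0
        have e1 : x = 1 := by linear_combination e7 - (x ^ 4 + x) * h3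
        rw [e1] at hx'
        exact one_ne_zero (α := K) (by linear_combination hx' - h20)
      nrm1 := hn
      act := hs
      ne1 := by
        intro h
        apply hz2
        field_simp at h
        exact h.symm }
  exact ⟨_, D.odd, fun g _ => main8 D hσ h8 g⟩

/-- A form of Thompson's conjecture for the triality groups ³D₄(q) (covering the non-identity elements) with a semisimple class: for q a power of the prime p and K the field with q³ elements there is an element x of ³D₄(q) (realised over K) of order prime to p such that every non-identity element of ³D₄(q) is a product of two conjugates of x. -/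
theorem result {K : Type*} [Field K] [Fintype K] (p : ℕ) [Fact p.Prime] [CharP K p] (q : ℕ) (hq : IsPrimePow q) (hK : Fintype.card K = q ^ 3) :
    ∃ x : Cfsg.Lie.twistedD4 K q, ¬ p ∣ orderOf x ∧ ∀ g : Cfsg.Lie.twistedD4 K q, g ≠ 1 → ∃ u v : Cfsg.Lie.twistedD4 K q, g = (u * x * u⁻¹) * (v * x * v⁻¹) := by
  by_cases h2 : (2 : K) = 0
  · have hp : p = 2 := by
      have h5 : ((2 : ℕ) : K) = 0 := by exact_mod_cast h2
      have := (CharP.cast_eq_zero_iff K p 2).1 h5
      exact (Nat.prime_dvd_prime_iff_eq Fact.out Nat.prime_two).1 this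
    subst hp
    by_cases h4 : q = 2
    · subst h4
      exact two hK
    · refine d4_even hK ?_
      have := hq.one_lt
      omega
  · exact d4_odd p hK h2

end Cfsg.Agent.S2462
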