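import Cfsg.Statements.S4066

set_option autoImplicit false
open Cfsg

namespace Cfsg.Agent.S4066

open Subgroup in
/-- If every element `x` of `C` commutes with all its conjugates by elements of `C`, then the Sylow
`p`-subgroups contained in `C` coincide. -/
theorem sylow_le_of_commute {G : Type*} [Group G] [Finite G] {p : ℕ} [Fact p.Prime]
    (C : Subgroup G) (hC : ∀ x ∈ C, ∀ g ∈ C, Commute x (g * x * g⁻¹)) (P Q : Sylow p G)
    (hP : (P : Subgroup G) ≤ C) (hQ : (Q : Subgroup G) ≤ C) : (P : Subgroup G) ≤ Q := by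
  classical
  intro x hx
  -- work inside C
  let x' : C := ⟨x, hP hx⟩
  let N : Subgroup C := Subgroup.normalClosure {x'}
  have hxN : x' ∈ N := Subgroup.subset_normalClosure (Set.mem_singleton _)
  have hcl : N = Subgroup.closure (Group.conjugatesOfSet {x'}) := rfl
  have hconj : ∀ a ∈ Group.conjugatesOfSet ({x'} : Set C), ∃ g : C, a = g * x' * g⁻¹ := by
    intro a ha
    rw [Group.mem_conjugatesOfSet_iff] at ha
    obtain ⟨b, hb, hab⟩ := ha
    rw [Set.mem_singleton_iff] at hb
    subst hb
    obtain ⟨g, hg⟩ := isConj_iff.1 hab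
    exact ⟨g, hg.symm⟩
  have hcomm : ∀ a ∈ Group.conjugatesOfSet ({x'} : Set C), ∀ b ∈ Group.conjugatesOfSet ({x'} : Set C),
      a * b = b * a := by
    intro a ha b hb
    obtain ⟨g, rfl⟩ := hconj a ha
    obtain ⟨h, rfl⟩ := hconj b hb
    have h1 := hC (g * x' * g⁻¹ : C) (SetLike.coe_mem _) (h * g⁻¹ : C) (SetLike.coe_mem _)
    apply Subtype.ext
    have h2 := h1.eq
    push_cast at h2 ⊢
    have e : (h : G) * (g : G)⁻¹ * ((g : G) * (x' : G) * (g : G)⁻¹) * ((h : G) * (g : G)⁻¹)⁻¹ =
        (h : G) * x' * (h : G)⁻¹ := by group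
    rw [e] at h2
    exact h2
  have hab : ∀ a ∈ N, ∀ b ∈ N, a * b = b * a := by
    intro a ha b hb
    rw [hcl] at ha hb
    have := Subgroup.closure_le_centralizer_centralizer (Group.conjugatesOfSet ({x'} : Set C)) ha
    have hle : Subgroup.closure (Group.conjugatesOfSet ({x'} : Set C)) ≤
        Subgroup.centralizer (Group.conjugatesOfSet ({x'} : Set C)) := by
      rw [Subgroup.closure_le]
      intro a ha
      rw [SetLike.mem_coe, Subgroup.mem_centralizer_iff]
      intro b hb
      exact hcomm b hb a ha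
    rw [Subgroup.mem_centralizer_iff] at this
    exact (this b (hle hb)).symm
  have hNp : IsPGroup p N := by
    intro a
    have : (a : C) ∈ Subgroup.closure (Group.conjugatesOfSet ({x'} : Set C)) := a.2
    suffices h : ∃ k : ℕ, (a : C) ^ p ^ k = 1 by
      obtain ⟨k, hk⟩ := h
      exact ⟨k, Subtype.ext (by simpa using hk)⟩
    obtain ⟨a, ha⟩ := a
    simp only
    clear this
    induction ha using Subgroup.closure_induction with
    | mem y hy =>
      obtain ⟨g, rfl⟩ := hconj y hy
      obtain ⟨k, hk⟩ := P.isPGroup' ⟨x, hx⟩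
      refine ⟨k, ?_⟩
      rw [conj_pow]
      have : x' ^ p ^ k = 1 := by
        apply Subtype.ext
        simpa using congrArg Subtype.val hk
      rw [this]; group
    | one => exact ⟨0, by simp⟩
    | mul y z hy hz ihy ihz =>
      obtain ⟨k, hk⟩ := ihy
      obtain ⟨l, hl⟩ := ihz
      refine ⟨k + l, ?_⟩
      have hc : Commute y z := hab y hy z hz
      rw [hc.mul_pow, pow_add, pow_mul, hk, one_pow, one_mul, mul_comm, pow_mul, hl, one_pow]
    | inv y hy ihy =>
      obtain ⟨k, hk⟩ := ihy
      exact ⟨k, by rw [inv_pow, hk, inv_one]⟩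
  have hNQ : N ≤ ((Q.subtype hQ : Sylow p C) : Subgroup C) := by
    exact IsPGroup.le_sylow_of_normal hNp _
  have := hNQ hxN
  exact this

/-- Let G be a finite group in which the centralizer of every element meets each of its conjugates by elements outside its normalizer trivially. Then any two distinct Sylow p-subgroups of G, for any prime p, intersect trivially. -/
theorem result {G : Type*} [Group G] [Finite G] (hTI : ∀ x : G, Cfsg.IsTISubset (Subgroup.centralizer ({x} : Set G) : Set G))
    {p : ℕ} [Fact p.Prime] (P Q : Sylow p G) (hPQ : P ≠ Q) : (P : Subgroup G) ⊓ (Q : Subgroup G) = ⊥ := by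
  classical
  by_contra hne
  obtain ⟨⟨x, hx⟩, hx1⟩ := Subgroup.ne_bot_iff_exists_ne_one.1 hne
  have hx1' : x ≠ 1 := fun h => hx1 (Subtype.ext h)
  obtain ⟨hxP, hxQ⟩ := Subgroup.mem_inf.1 hx
  haveI : Nontrivial (P : Subgroup G) := ⟨⟨⟨x, hxP⟩, 1, fun h => hx1' (congrArg Subtype.val h)⟩⟩
  haveI := P.isPGroup'.center_nontrivial
  obtain ⟨⟨⟨z, hzP⟩, hz⟩, hz1⟩ := exists_ne (1 : Subgroup.center (P : Subgroup G))
  have hz1' : z ≠ 1 := fun h => hz1 (Subtype.ext (Subtype.ext h))
  have hzc : ∀ y ∈ (P : Subgroup G), y * z = z * y := fun y hy =>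
    congrArg Subtype.val (Subgroup.mem_center_iff.1 hz ⟨y, hy⟩)
  have hTI' : ∀ w a h : G, a ∈ Subgroup.centralizer ({w} : Set G) → a ≠ 1 →
      h * a * h⁻¹ ∈ Subgroup.centralizer ({w} : Set G) →
      h ∈ Subgroup.normalizer (Subgroup.centralizer ({w} : Set G) : Set G) := by
    intro w a h ha ha1 hh
    by_contra hn
    exact ha1 (hTI w h hn a ha hh)
  obtain ⟨g, hg⟩ := MulAction.exists_smul_eq G P Q
  have hPC : (P : Subgroup G) ≤ Subgroup.centralizer ({z} : Set G) := by
    intro y hy
    rw [Subgroup.mem_centralizer_singleton_iff]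
    exact hzc y hy
  have hmemQ : ∀ y, y ∈ (Q : Subgroup G) ↔ g⁻¹ * y * g ∈ (P : Subgroup G) := by
    intro y
    rw [← hg, Sylow.coe_subgroup_smul, Subgroup.mem_pointwise_smul_iff_inv_smul_mem, ← map_inv,
      MulAut.smul_def, MulAut.conj_apply, inv_inv]
  have hgN : g ∈ Subgroup.normalizer (Subgroup.centralizer ({z} : Set G) : Set G) := by
    refine hTI' z (g⁻¹ * x * g) g (hPC ((hmemQ x).1 hxQ)) ?_ ?_
    · intro h
      apply hx1'
      have : x = g * (g⁻¹ * x * g) * g⁻¹ := by group
      rw [this, h]; group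
    · have : g * (g⁻¹ * x * g) * g⁻¹ = x := by group
      rw [this]
      exact hPC hxP
  have hQC : (Q : Subgroup G) ≤ Subgroup.centralizer ({z} : Set G) := by
    intro y hy
    have h1 := hPC ((hmemQ y).1 hy)
    have h2 := (Subgroup.mem_normalizer_iff.1 hgN (g⁻¹ * y * g)).1 h1
    have : g * (g⁻¹ * y * g) * g⁻¹ = y := by group
    rwa [this] at h2
  have hC : ∀ y ∈ Subgroup.centralizer ({z} : Set G), ∀ h ∈ Subgroup.centralizer ({z} : Set G),
      Commute y (h * y * h⁻¹) := by
    intro y hy h hh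
    rw [Subgroup.mem_centralizer_singleton_iff] at hy hh
    have hN : h ∈ Subgroup.normalizer (Subgroup.centralizer ({y} : Set G) : Set G) := by
      refine hTI' y z h ?_ hz1' ?_
      · rw [Subgroup.mem_centralizer_singleton_iff]; exact hy.symm
      · rw [hh, mul_inv_cancel_right, Subgroup.mem_centralizer_singleton_iff]; exact hy.symm
    have h1 : y ∈ Subgroup.centralizer ({y} : Set G) := by
      rw [Subgroup.mem_centralizer_singleton_iff]
    have h2 := (Subgroup.mem_normalizer_iff.1 hN y).1 h1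
    rw [Subgroup.mem_centralizer_singleton_iff] at h2
    exact h2.symm
  have hle := sylow_le_of_commute _ hC P Q hPC hQC
  exact hPQ (Sylow.ext (P.is_maximal' Q.isPGroup' hle).symm)

end Cfsg.Agent.S4066
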