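import Cfsg.Statements.S3681
import Cfsg.Agent.H427.Bochert

set_option autoImplicit false
open Cfsg

namespace Cfsg.Agent.S3681

/-- Bochert's bound for primitive groups. Let a finite group G act faithfully and primitively on a finite set Ω with n elements, and suppose the image of G in the symmetric group of Ω does not contain the alternating group of Ω. Then |G| · ⌊(n + 1)/2⌋! ≤ n!, that is, the index of G in the symmetric group is at least ⌊(n + 1)/2⌋!. -/
theorem result {G Ω : Type*} [Group G] [Finite G] [MulAction G Ω] [FaithfulSMul G Ω] [Fintype Ω] [DecidableEq Ω]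
    (hprim : MulAction.IsPreprimitive G Ω) (hA : ¬ alternatingGroup Ω ≤ (MulAction.toPermHom G Ω).range) :
    Nat.card G * Nat.factorial ((Fintype.card Ω + 1) / 2) ≤ Nat.factorial (Fintype.card Ω) := by
  have hinj : Function.Injective (MulAction.toPermHom G Ω) := MulAction.toPerm_injective
  have e : G ≃* (MulAction.toPermHom G Ω).range := MonoidHom.ofInjective hinj
  have hcard : Nat.card G = Nat.card (MulAction.toPermHom G Ω).range := Nat.card_congr e.toEquiv
  have hprim' : MulAction.IsPreprimitive (MulAction.toPermHom G Ω).range Ω := by
    let f : Ω →ₑ[(MulAction.toPermHom G Ω).rangeRestrict] Ω :=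
      { toFun := id
        map_smul' := fun g x => rfl }
    exact MulAction.IsPreprimitive.of_surjective (f := f) Function.surjective_id
  rw [hcard]
  exact Cfsg.Agent.H427.bochert _ hprim' hA

end Cfsg.Agent.S3681
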