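import Cfsg.Statements.S4343
import Cfsg.Agent.H571.SmallSylow

set_option autoImplicit false
open Cfsg
open scoped Pointwise

namespace Cfsg.Agent.S4343

/-- The intersection of all Sylow subgroups is normal. -/
theorem iInf_sylow_normal {S : Type*} [Group S] (p : ℕ) :
    (⨅ R : Sylow p S, (R : Subgroup S)).Normal := by
  constructor
  intro x hx g
  rw [Subgroup.mem_iInf] at hx ⊢
  intro R
  have h1 := hx (g⁻¹ • R)
  have h2 : x ∈ MulAut.conj g⁻¹ • (R : Subgroup S) := h1
  rw [Subgroup.mem_pointwise_smul_iff_inv_smul_mem, ← map_inv, MulAut.smul_def,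
    MulAut.conj_apply, inv_inv] at h2
  exact h2

/-- A simple `p`-group is abelian. -/
theorem isMulCommutative_of_simple_pGroup {S : Type*} [Group S] [Finite S] [IsSimpleGroup S]
    (p : ℕ) [Fact p.Prime] (h : IsPGroup p S) : IsMulCommutative S := by
  have h1 : Nontrivial (Subgroup.center S) := h.center_nontrivial
  have h2 : Subgroup.center S = ⊤ := by
    rcases (inferInstance : (Subgroup.center S).Normal).eq_bot_or_eq_top with h3 | h3
    · rw [h3] at h1
      exact absurd h1 (by
        rw [Subgroup.nontrivial_iff_ne_bot]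
        exact fun h => h rfl)
    · exact h3
  refine ⟨⟨fun a b => ?_⟩⟩
  have h3 : b ∈ Subgroup.center S := h2 ▸ Subgroup.mem_top b
  exact Subgroup.mem_center_iff.1 h3 a

/-- Let S be a finite non-abelian simple group and p a prime dividing its order. If S has fewer than p² Sylow p-subgroups, then its Sylow p-subgroups have order p. -/
theorem result {S : Type*} [Group S] [Finite S]
    [IsSimpleGroup S] (hS : ¬ IsMulCommutative S) (p : ℕ) [Fact p.Prime] (hp : p ∣ Nat.card S)
    (hn : Nat.card (Sylow p S) < p ^ 2) (P : Sylow p S) : Nat.card P = p := by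
  have hO : ⨅ R : Sylow p S, (R : Subgroup S) = ⊥ := by
    rcases (iInf_sylow_normal (S := S) p).eq_bot_or_eq_top with h3 | h3
    · exact h3
    · exfalso
      apply hS
      apply isMulCommutative_of_simple_pGroup p
      have h4 : (P : Subgroup S) = ⊤ := top_unique (h3 ▸ iInf_le _ P)
      have h5 := P.isPGroup'
      rw [h4] at h5
      exact h5.of_equiv Subgroup.topEquiv
  have h1 := H571.SmallSylow.card_dvd_of_relIndex_dvd
    (fun P Q => H571.SmallSylow.relIndex_dvd_of_card_lt hn P Q) hO P
  rcases (Nat.dvd_prime (Fact.out : p.Prime)).1 h1 with h2 | h2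
  · exfalso
    exact P.ne_bot_of_dvd_card hp (Subgroup.card_eq_one.1 h2)
  · exact h2

end Cfsg.Agent.S4343
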