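import Cfsg.Statements.S3972
import Cfsg.Agent.H490.RegCyclic

set_option autoImplicit false
open Cfsg

namespace Cfsg.Agent.S3972

/-- An element of order `p ^ m`, `m ≥ 1`, of a permutation group on `p ^ m` points is a full cycle. -/
theorem zpowers_transitive {G Ω : Type*} [Group G] [MulAction G Ω] [FaithfulSMul G Ω] [Finite Ω]
    {p m : ℕ} (hp : p.Prime) (hm : 1 ≤ m) (hΩ : Nat.card Ω = p ^ m) (g : G)
    (hg : orderOf g = p ^ m) : MulAction.IsPretransitive (Subgroup.zpowers g) Ω := by
  classical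
  have h1 : g ^ (p ^ (m - 1)) ≠ 1 := by
    intro h
    have h2 := orderOf_dvd_of_pow_eq_one h
    rw [hg, Nat.pow_dvd_pow_iff_le_right hp.one_lt] at h2
    omega
  have h2 : ∃ ω : Ω, g ^ (p ^ (m - 1)) • ω ≠ ω := by
    by_contra hcon
    push Not at hcon
    apply h1
    apply FaithfulSMul.eq_of_smul_eq_smul (α := Ω)
    intro ω
    rw [hcon, one_smul]
  obtain ⟨ω, hω⟩ := h2
  haveI : Fintype (MulAction.orbit (Subgroup.zpowers g) ω) := Fintype.ofFinite _
  have h3 := MulAction.minimalPeriod_eq_card (a := g) (b := ω)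
  have h4 : Function.minimalPeriod (g • ·) ω ∣ p ^ m := by
    apply Function.IsPeriodicPt.minimalPeriod_dvd
    change (g • ·)^[p ^ m] ω = ω
    rw [smul_iterate]
    change g ^ (p ^ m) • ω = ω
    rw [← hg, pow_orderOf_eq_one, one_smul]
  have h5 : ¬ Function.minimalPeriod (g • ·) ω ∣ p ^ (m - 1) := by
    intro h
    apply hω
    have h6 : Function.IsPeriodicPt (g • ·) (p ^ (m - 1)) ω :=
      (Function.isPeriodicPt_minimalPeriod (g • ·) ω).trans_dvd h
    have h7 : (g • ·)^[p ^ (m - 1)] ω = ω := h6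
    rw [smul_iterate] at h7
    exact h7
  have h6 : Function.minimalPeriod (g • ·) ω = p ^ m := by
    obtain ⟨k, hk, hk2⟩ := (Nat.dvd_prime_pow hp).mp h4
    rw [hk2] at h5 ⊢
    rw [Nat.pow_dvd_pow_iff_le_right hp.one_lt] at h5
    congr 1
    omega
  rw [h6] at h3
  have h7 : MulAction.orbit (Subgroup.zpowers g) ω = Set.univ := by
    rw [Set.eq_univ_iff_ncard, hΩ, h3, ← Nat.card_eq_fintype_card]
    rfl
  exact (MulAction.isPretransitive_iff_orbit_eq_univ ω).mpr h7

open scoped Pointwise in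
/-- The normal closure of `g ^ (p ^ (m - 1))` is not transitive when `G` is imprimitive. -/
theorem not_transitive {G Ω : Type*} [Group G] [MulAction G Ω] [FaithfulSMul G Ω] [Finite Ω]
    {p m : ℕ} (hp : p.Prime) (hm : 1 ≤ m) (hΩ' : Nat.card Ω = p ^ m) (g : G)
    (hg : orderOf g = p ^ m) (htr : MulAction.IsPretransitive G Ω)
    (hnp : ¬ MulAction.IsPreprimitive G Ω) :
    ¬ MulAction.IsPretransitive (Subgroup.normalClosure ({g ^ (p ^ (m - 1))} : Set G)) Ω := by
  classical
  have hC : MulAction.IsPretransitive (Subgroup.zpowers g) Ω :=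
    zpowers_transitive hp (by omega) hΩ' g hg
  intro hN
  -- a non-trivial block
  have hB : ∃ B : Set Ω, MulAction.IsBlock G B ∧ ¬ MulAction.IsTrivialBlock B := by
    by_contra hcon
    push Not at hcon
    exact hnp { isTrivialBlock_of_isBlock := fun {B} hB => hcon B hB }
  obtain ⟨B, hB, hBt⟩ := hB
  rw [MulAction.IsTrivialBlock, not_or, Set.not_subsingleton_iff] at hBt
  obtain ⟨hB1, hB2⟩ := hBt
  have hBne : B.Nonempty := hB1.nonempty
  obtain ⟨b, hb⟩ := hBne
  -- `B` is also a block for the cyclic group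
  have hBC : MulAction.IsBlock (Subgroup.zpowers g) B := by
    rw [MulAction.isBlock_iff_smul_eq_or_disjoint] at hB ⊢
    intro c
    exact hB c
  have h3 := hBC.ncard_block_mul_ncard_orbit_eq ⟨b, hb⟩
  rw [hΩ'] at h3
  have h4 : 1 < B.ncard := by rwa [Set.one_lt_ncard_iff_nontrivial]
  have h5 : (MulAction.orbit (Subgroup.zpowers g) B).ncard ∣ p ^ (m - 1) := by
    obtain ⟨k, hk, hk2⟩ := (Nat.dvd_prime_pow hp).mp (Dvd.intro_left _ h3)
    rw [hk2]
    apply pow_dvd_pow
    by_contra hlt
    have : k = m := by omega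
    rw [hk2, this] at h3
    have h6 := Nat.eq_of_mul_eq_mul_right (pow_pos hp.pos m) (h3.trans (one_mul _).symm)
    omega
  have h6 : g ^ (p ^ (m - 1)) • B = B := by
    haveI : Fintype (MulAction.orbit (Subgroup.zpowers g) B) := Fintype.ofFinite _
    have h7 := MulAction.minimalPeriod_eq_card (a := g) (b := B)
    rw [← Nat.card_eq_fintype_card] at h7
    have h8 : Function.minimalPeriod (g • ·) B ∣ p ^ (m - 1) := by
      rw [h7]; exact h5
    have h9 : Function.IsPeriodicPt (g • ·) (p ^ (m - 1)) B :=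
      (Function.isPeriodicPt_minimalPeriod (g • ·) B).trans_dvd h8
    have h10 : (g • ·)^[p ^ (m - 1)] B = B := h9
    rw [smul_iterate] at h10
    exact h10
  -- the normal closure stabilizes `B`
  have h7 : Subgroup.normalClosure ({g ^ (p ^ (m - 1))} : Set G) ≤ MulAction.stabilizer G B := by
    rw [Subgroup.normalClosure, Subgroup.closure_le]
    intro x hx
    rw [Group.mem_conjugatesOfSet_iff] at hx
    obtain ⟨y, hy, hyx⟩ := hx
    rw [Set.mem_singleton_iff] at hy
    subst hy
    obtain ⟨h, hh⟩ := isConj_iff.mp hyx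
    obtain ⟨⟨c, hcz⟩, hc⟩ := hC.exists_smul_eq b (h⁻¹ • b)
    have hc' : c • b = h⁻¹ • b := hc
    have h8 : c • B = h⁻¹ • B := by
      apply hB.smul_eq_smul_of_nonempty
      exact ⟨c • b, Set.smul_mem_smul_set hb, by rw [hc']; exact Set.smul_mem_smul_set hb⟩
    have h9 : g ^ (p ^ (m - 1)) * c = c * g ^ (p ^ (m - 1)) := by
      obtain ⟨k, rfl⟩ := hcz
      change g ^ (p ^ (m - 1)) * g ^ k = g ^ k * g ^ (p ^ (m - 1))
      rw [← zpow_natCast, ← zpow_add, ← zpow_add, add_comm]
    change x • B = B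
    rw [← hh, mul_smul, ← h8, ← mul_smul, mul_assoc, h9, ← mul_assoc, mul_smul, h6, mul_smul, h8,
      smul_inv_smul]
  apply hB2
  rw [Set.eq_univ_iff_forall]
  intro x
  obtain ⟨n, hn⟩ := hN.exists_smul_eq b x
  have h8 : (n : G) ∈ MulAction.stabilizer G B := h7 n.2
  rw [MulAction.mem_stabilizer_iff] at h8
  rw [← h8, ← hn]
  exact Set.smul_mem_smul_set hb

/-- Let `p` be a prime, `m ≥ 2`, and `G` a transitive but not doubly transitive permutation group on `p ^ m` points containing a permutation of order `p ^ m` (necessarily a full cycle). Then `G` is imprimitive, and the normal closure in `G` of the `p ^ (m - 1)`-th power of that permutation is an intransitive normal subgroup. -/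
theorem result {Ω : Type*} [Fintype Ω] [DecidableEq Ω] (p m : ℕ) (hp : p.Prime) (hm : 2 ≤ m) (hΩ : Fintype.card Ω = p ^ m) (G : Subgroup (Equiv.Perm Ω)) (htr : MulAction.IsPretransitive G Ω) (h2 : ¬ MulAction.IsMultiplyPretransitive G Ω 2) (g : G) (hg : orderOf g = p ^ m) : ¬ MulAction.IsPreprimitive G Ω ∧ ¬ MulAction.IsPretransitive (Subgroup.normalClosure ({g ^ (p ^ (m - 1))} : Set G)) Ω := by
  classical
  haveI : Finite Ω := inferInstance
  have hΩ' : Nat.card Ω = p ^ m := by rw [Nat.card_eq_fintype_card, hΩ]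
  have hC : MulAction.IsPretransitive (Subgroup.zpowers g) Ω :=
    zpowers_transitive hp (by omega) hΩ' g hg
  have hstab : ∀ a : Ω, MulAction.stabilizer (Subgroup.zpowers g) a = ⊥ := by
    intro a
    have h1 := MulAction.index_stabilizer_of_transitive (G := Subgroup.zpowers g) a
    have h2 := Subgroup.card_mul_index (MulAction.stabilizer (Subgroup.zpowers g) a)
    rw [h1, hΩ', Nat.card_zpowers, hg] at h2
    rw [← Subgroup.card_eq_one]
    exact Nat.eq_of_mul_eq_mul_right (pow_pos hp.pos m) (by rw [h2, one_mul])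
  have hnp : ¬ MulAction.IsPreprimitive G Ω := by
    intro hprim
    apply h2
    refine Cfsg.Agent.H490.RegCyclic.isMultiplyPretransitive_of_cyclic hprim (Subgroup.zpowers g)
      inferInstance hC hstab ?_ ?_
    · rw [hΩ']
      exact Nat.one_lt_pow (by omega) hp.one_lt
    · rw [hΩ']
      exact Nat.Prime.not_prime_pow hm
  exact ⟨hnp, not_transitive hp (by omega) hΩ' g hg htr hnp⟩

end Cfsg.Agent.S3972
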