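import Cfsg.Statements.S2321
import Cfsg.Agent.H670.SL2Vals

set_option autoImplicit false
open Cfsg

namespace Cfsg.Agent.S2321

open Cfsg.Agent.H670 Cfsg.Agent.H670.RankOne

/-- Over a finite field F with q elements, an irreducible complex character of SL₂ of degree q (the Steinberg character) takes the value 1 at every diagonal matrix whose diagonal entry a has a² ≠ 1, the value −1 at every element with no eigenvector in F², and the value 0 at every upper triangular matrix with equal diagonal entries and non-zero upper right entry. -/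
theorem result {F : Type*} [Field F] [Fintype F] (χ : Matrix.SpecialLinearGroup (Fin 2) F → ℂ) (hχ : Cfsg.IsIrrCharacter (Matrix.SpecialLinearGroup (Fin 2) F) χ) (hdeg : χ 1 = (Fintype.card F : ℂ)) (g : Matrix.SpecialLinearGroup (Fin 2) F) :
    ((g : Matrix (Fin 2) (Fin 2) F) 0 1 = 0 → (g : Matrix (Fin 2) (Fin 2) F) 1 0 = 0 → (g : Matrix (Fin 2) (Fin 2) F) 0 0 ^ 2 ≠ 1 → χ g = 1) ∧
    ((∀ (c : F) (v : Fin 2 → F), v ≠ 0 → (g : Matrix (Fin 2) (Fin 2) F).mulVec v ≠ c • v) → χ g = -1) ∧
    ((g : Matrix (Fin 2) (Fin 2) F) 1 0 = 0 → (g : Matrix (Fin 2) (Fin 2) F) 0 0 = (g : Matrix (Fin 2) (Fin 2) F) 1 1 → (g : Matrix (Fin 2) (Fin 2) F) 0 1 ≠ 0 → χ g = 0) := by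
  classical
  have : Fintype (Matrix.SpecialLinearGroup (Fin 2) F) := Fintype.ofFinite _
  obtain ⟨h1, h2, h3⟩ := SL2.eq_ind_sub_one hχ hdeg
  refine ⟨?_, ?_, ?_⟩
  · intro h01 h10 hne
    obtain ⟨u, rfl, hu1, hu2⟩ := SL2.tor_of_diag (g := g) h01 h10
    have ha : (SL2.data F).a (SL2.tt u) ≠ 1 := by
      rw [SL2.data_a]
      intro h
      apply hne
      have h9 : (u : F) ^ 2 = 1 := by rw [← Units.val_pow_eq_pow_val, h, Units.val_one]
      exact h9
    have h8 := (SL2.data F).jac_of_ne (Characters.Core.isIrr_isClassFunction hχ) ha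
    rw [h1] at h8
    exact h8.symm
  · intro hell
    have h8 := (SL2.data F).ind_of_notMem 1 (SL2.ell_notMem hell)
    rw [h3, Pi.sub_apply, h8, Pi.one_apply, zero_sub]
  · intro h10 heq h01
    have h10' : SL2.e10 g = 0 := h10
    have heq' : SL2.e00 g = SL2.e11 g := heq
    have hdet := SL2.det_eq g
    rw [h10', mul_zero, sub_zero, ← heq'] at hdet
    have ha : SL2.e00 g ≠ 0 := left_ne_zero_of_mul_eq_one hdet
    have hu : (Units.mk0 _ ha)⁻¹ = Units.mk0 _ ha := by
      apply inv_eq_of_mul_eq_one_left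
      apply Units.ext
      rw [Units.val_mul, Units.val_mk0, Units.val_one]
      exact hdet
    have hg : g = SL2.tor (Units.mk0 _ ha) * SL2.x (SL2.e00 g * SL2.e01 g) := by
      apply SL2.ext4 <;> simp only [SL2.mul00, SL2.mul01, SL2.mul10, SL2.mul11, SL2.x00, SL2.x01,
        SL2.x10, SL2.x11, SL2.tor00, SL2.tor01, SL2.tor10, SL2.tor11, hu, Units.val_mk0]
      · ring
      · linear_combination (-SL2.e01 g) * hdet
      · rw [h10']; ring
      · rw [← heq']; ring
    have hc : ∀ y : Matrix.SpecialLinearGroup (Fin 2) F,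
        ((SL2.tt (Units.mk0 _ ha) : (SL2.data F).T) : Matrix.SpecialLinearGroup (Fin 2) F) * y =
          y * SL2.tt (Units.mk0 _ ha) := by
      intro y
      rw [SL2.tt_coe]
      apply SL2.ext4 <;> simp only [SL2.mul00, SL2.mul01, SL2.mul10, SL2.mul11, SL2.tor00,
        SL2.tor01, SL2.tor10, SL2.tor11, hu, Units.val_mk0] <;> ring
    have h8 := (SL2.data F).ind_central_mul 1 hc (SL2.x (SL2.e00 g * SL2.e01 g))
    have h9 := (SL2.data F).ind_X 1 (r := SL2.e00 g * SL2.e01 g) (mul_ne_zero ha h01)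
    rw [SL2.data_X] at h9
    rw [SL2.tt_coe, ← hg, h9, MonoidHom.one_apply, Units.val_one, mul_one] at h8
    rw [h3, Pi.sub_apply, h8, Pi.one_apply, sub_self]

end Cfsg.Agent.S2321
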