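import Cfsg.Statements.S5713
import Cfsg.Agent.H891.MinDegTwo
import Cfsg.Agent.H891.MinDegUni

set_option autoImplicit false
open Cfsg

namespace Cfsg.Agent.S5713

/-- A classification-free minimal-degree bound. Let G be a finite group acting faithfully and primitively on a finite set Ω with n elements, and suppose that the image of G in the symmetric group on Ω does not contain the alternating group on Ω. Then every non-identity element of G moves at least (√n − 1)/2 points of Ω, that is, it fixes at most n − (√n − 1)/2 points. -/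
theorem result {G Ω : Type*} [Group G] [Finite G] [MulAction G Ω] [FaithfulSMul G Ω] [Fintype Ω] [DecidableEq Ω]
    (hprim : MulAction.IsPreprimitive G Ω)
    (hA : ¬ alternatingGroup Ω ≤ (MulAction.toPermHom G Ω).range)
    (g : G) (hg : g ≠ 1) :
    (Real.sqrt (Fintype.card Ω) - 1) / 2 ≤ (Fintype.card Ω : ℝ) - Nat.card (MulAction.fixedBy Ω g) := by
  classical
  -- a moved point
  have hp : ∃ p : Ω, g • p ≠ p := by
    by_contra hcon
    push Not at hcon
    apply hg
    apply FaithfulSMul.eq_of_smul_eq_smul (α := Ω)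
    intro a
    rw [hcon a, one_smul]
  obtain ⟨p, hp⟩ := hp
  have hn : 2 ≤ Fintype.card Ω := Fintype.one_lt_card_iff.mpr ⟨_, _, hp⟩
  set n := Fintype.card Ω with hn'
  set D : Finset Ω := Finset.univ.filter (fun x : Ω => g • x ≠ x) with hD
  have hfix : Nat.card (MulAction.fixedBy Ω g) + D.card = n := by
    rw [Nat.card_eq_fintype_card, Fintype.card_subtype]
    have h1 := Finset.card_filter_add_card_filter_not (s := (Finset.univ : Finset Ω)) (fun x => g • x = x)
    rw [Finset.card_univ] at h1
    exact h1
  have hmoved : (n : ℝ) - Nat.card (MulAction.fixedBy Ω g) = D.card := by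
    have : ((Nat.card (MulAction.fixedBy Ω g) + D.card : ℕ) : ℝ) = n := by exact_mod_cast hfix
    push_cast at this
    linarith
  rw [hmoved]
  have hnR : (2 : ℝ) ≤ (n : ℝ) := by exact_mod_cast hn
  have hDpos : 1 ≤ D.card := Finset.card_pos.mpr ⟨p, by simp [hD, hp]⟩
  by_cases hT : ∀ p x y : Ω, x ≠ p → y ≠ p → ∃ k : G, k • p = p ∧ k • x = y
  · have h1 := H891.MinDeg.two_trans_bound hprim hA hT g p hp
    have h2 : n ≤ (D.card) ^ 2 := by
      obtain ⟨m, hm⟩ := Nat.exists_eq_add_of_le hDpos
      have hm' : (Finset.univ.filter (fun x : Ω => g • x ≠ x)).card - 1 = m := by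
        change D.card - 1 = m
        omega
      rw [hm'] at h1
      rw [hm]
      have h0 : n - 1 ≤ m * m := h1
      have h0' : n ≤ m * m + 1 := by omega
      nlinarith
    have h3 : (n : ℝ) ≤ (D.card : ℝ) ^ 2 := by exact_mod_cast h2
    have h4 : Real.sqrt n ≤ D.card := Real.sqrt_le_iff.mpr ⟨Nat.cast_nonneg _, h3⟩
    have h5 : (0 : ℝ) ≤ D.card := Nat.cast_nonneg _
    linarith
  · push Not at hT
    obtain ⟨q, x₀, y₀, hx₀, hy₀, hno⟩ := hT
    let c : Ω → Ω → MulAction.orbitRel.Quotient G (Ω × Ω) := fun x y => Quotient.mk'' (x, y)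
    have hc : ∀ x y x' y', c x y = c x' y' ↔ ∃ h : G, h • x = x' ∧ h • y = y' := by
      intro x y x' y'
      rw [eq_comm]
      change (Quotient.mk'' (x', y') : MulAction.orbitRel.Quotient G (Ω × Ω)) = Quotient.mk'' (x, y) ↔ _
      rw [Quotient.eq'', MulAction.orbitRel_apply, MulAction.mem_orbit_iff]
      simp only [Prod.smul_mk, Prod.mk.injEq]
    have h1 := H891.MinDeg.psi_bound c hc hprim hn q x₀ y₀ hx₀ hy₀
      (by
        intro h
        rw [hc] at h
        obtain ⟨h, h1, h2⟩ := h
        exact hno h h1 h2) p (g • p) (Ne.symm hp)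
    refine h1.trans ?_
    have h2 : H891.MinDeg.psi c p (g • p) ≤ D.card := by
      apply Finset.card_le_card
      intro z
      simp only [hD, Finset.mem_filter, Finset.mem_univ, true_and]
      intro hz hgz
      apply hz
      rw [hc]
      exact ⟨g, rfl, hgz⟩
    exact_mod_cast h2

end Cfsg.Agent.S5713
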