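import Cfsg.Statements.S2654
import Cfsg.Agent.H189.T3a
import Cfsg.Agent.H224.E8T3b

set_option autoImplicit false
open scoped MatrixGroups
open Cfsg

namespace Cfsg.Agent.S2654

/-- Alternating sections of the groups of type E₈. Let `F` be a finite field of characteristic `p` and let `G` be the Chevalley group of type E₈ over `F`. If some subgroup of `G` has a quotient isomorphic to the alternating group of degree `r`, then `r` is at most 17, or 18 in characteristic 3. (Only an upper bound is asserted.) -/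
theorem result {F : Type*} [Field F] [Fintype F] (p : ℕ) [Fact p.Prime] [CharP F p]
    (r : ℕ) (H : Subgroup ↥(Cfsg.Lie.chevE8.group F)) (K : Subgroup ↥H) [K.Normal]
    (h : Nonempty (↥H ⧸ K ≃* ↥(alternatingGroup (Fin r)))) :
    r ≤ 17 + (if p = 3 then 1 else 0) := by
  by_contra hlt
  split_ifs at hlt with hp
  · exact Cfsg.Agent.H189.NoNineteen.no_nineteen p (by rw [hp]; norm_num) r (by omega) H K h
  · obtain ⟨K', _, _, hK', ⟨E⟩⟩ := Cfsg.Agent.H189.ExcLift.exists_fusEmb_E8 (F := F) p (l := 3) (r := 18) ⟨rfl, rfl⟩ hp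
      (r' := r) (by omega) H K h Cfsg.Agent.H224.E8.P18 Cfsg.Agent.H224.E8.isPGroup_P18
    obtain ⟨w, hw, hfus, h345, h6⟩ := Cfsg.Agent.H189.T3a.t3a hK' E
    exact Cfsg.Agent.H224.E8.false_of_wsp hw _ hfus h345 h6

end Cfsg.Agent.S2654
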