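import Cfsg.Statements.S2655
import Cfsg.Agent.H186.ExcE7b
import Cfsg.Agent.H189.ExcLift

set_option autoImplicit false
open scoped MatrixGroups
open Cfsg

namespace Cfsg.Agent.S2655

open Cfsg.Lie Cfsg.Agent.H186

universe u

theorem isPGroup_tau (k ℓ : ℕ) [NeZero ℓ] (hodd : Odd ℓ) : IsPGroup ℓ (tau k ℓ hodd).range := by
  rintro ⟨_, v, rfl⟩
  refine ⟨1, Subtype.ext ?_⟩
  show (tau k ℓ hodd v) ^ ℓ ^ 1 = 1
  rw [pow_one, ← map_pow]
  have : v ^ ℓ = 1 := by
    apply Multiplicative.toAdd.injective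
    rw [toAdd_pow, toAdd_one]
    funext i
    rw [Pi.smul_apply, Pi.zero_apply, nsmul_eq_mul, ZMod.natCast_self, zero_mul]
  rw [this, map_one]

/-- no section `A₁₄` if `p ≠ 7` -/
theorem no_fourteen {F : Type u} [Field F] [Fintype F] (p : ℕ) [hp : Fact p.Prime] [CharP F p] (h7 : p ≠ 7)
    (r : ℕ) (hr : 14 ≤ r) (H : Subgroup ↥(chevE7.group F)) (K : Subgroup ↥H) [K.Normal]
    (h : Nonempty (↥H ⧸ K ≃* ↥(alternatingGroup (Fin r)))) : False := by
  have : Fact (Nat.Prime 7) := ⟨by norm_num⟩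
  obtain ⟨K', _, _, hK, ⟨fe⟩⟩ := Cfsg.Agent.H189.ExcLift.exists_fusEmb_E7 p (l := 7) (r := 14) (Or.inl ⟨rfl, rfl⟩) h7 hr H K h
    (tau 2 7 (by decide)).range (isPGroup_tau 2 7 (by decide))
  obtain ⟨be⟩ := exists_blockEmb (k := 2) (ℓ := 7) (by decide) (by norm_num) sign_blk27 fe
  exact no_block7 hK be

/-- no section `A₁₅` if `p ≠ 5` -/
theorem no_fifteen {F : Type u} [Field F] [Fintype F] (p : ℕ) [hp : Fact p.Prime] [CharP F p] (h5 : p ≠ 5)
    (r : ℕ) (hr : 15 ≤ r) (H : Subgroup ↥(chevE7.group F)) (K : Subgroup ↥H) [K.Normal]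
    (h : Nonempty (↥H ⧸ K ≃* ↥(alternatingGroup (Fin r)))) : False := by
  have : Fact (Nat.Prime 5) := ⟨by norm_num⟩
  obtain ⟨K', _, _, hK, ⟨fe⟩⟩ := Cfsg.Agent.H189.ExcLift.exists_fusEmb_E7 p (l := 5) (r := 15) (Or.inr ⟨rfl, rfl⟩) h5 hr H K h
    (tau 3 5 (by decide)).range (isPGroup_tau 3 5 (by decide))
  obtain ⟨be⟩ := exists_blockEmb (k := 3) (ℓ := 5) (by decide) (by norm_num) sign_blk35 fe
  exact no_block5 hK be

/-- Alternating sections of the groups of type E₇. Let `F` be a finite field of characteristic `p` and let `G` be the Chevalley group of type E₇ over `F`. If some subgroup of `G` has a quotient isomorphic to the alternating group of degree `r`, then `r` is at most 13, or 14 in characteristic 7. (Only an upper bound is asserted.) -/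
theorem result {F : Type*} [Field F] [Fintype F] (p : ℕ) [Fact p.Prime] [CharP F p]
    (r : ℕ) (H : Subgroup ↥(Cfsg.Lie.chevE7.group F)) (K : Subgroup ↥H) [K.Normal]
    (h : Nonempty (↥H ⧸ K ≃* ↥(alternatingGroup (Fin r)))) :
    r ≤ 13 + (if p = 7 then 1 else 0) := by
  by_contra hlt
  split_ifs at hlt with hp
  · exact no_fifteen p (by omega) r (by omega) H K h
  · exact no_fourteen p hp r (by omega) H K h

end Cfsg.Agent.S2655
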