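import Cfsg.Statements.S2547
import Cfsg.Agent.Nodes.RGDClass
import Cfsg.Agent.H167.HasSt
import Cfsg.Agent.S0298

set_option autoImplicit false
open Cfsg

namespace Cfsg.Agent.S2547

/-- Let F be a finite field of characteristic p and consider the group PΩ_{2m+1}(F) of the quadratic form x₀² + Σ x_i y_i, where m ≥ 1 and #F is odd. This group has an irreducible complex character χ whose degree equals the order of a Sylow p-subgroup (namely q^(m²) when #F = q) and whose restriction to any Sylow p-subgroup P is the regular character of P: χ vanishes on the non-identity elements of P. (This is the Steinberg character.) -/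
theorem result {F : Type*} [Field F] [Fintype F] (p : ℕ) [Fact p.Prime] [CharP F p] (hodd : Odd (Fintype.card F)) (m : ℕ) (hm : 1 ≤ m) : ∃ χ : Cfsg.POmega F (Cfsg.quadFormOdd m F) → ℂ, Cfsg.IsIrrCharacter (Cfsg.POmega F (Cfsg.quadFormOdd m F)) χ ∧ ∀ P : Sylow p (Cfsg.POmega F (Cfsg.quadFormOdd m F)), χ 1 = Nat.card P ∧ ∀ x : Cfsg.POmega F (Cfsg.quadFormOdd m F), x ∈ P → x ≠ 1 → χ x = 0 := by
  rcases Nat.eq_or_lt_of_le hm with rfl | hm2
  · obtain ⟨e⟩ := Cfsg.Agent.S0298.result (F := F) hodd
    exact Cfsg.Agent.H167.SteinbergRGD.steinberg_of_hasRGD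
      ((Cfsg.Agent.Nodes.RGDClass.hasRGD_PSL (F := F) 1 (p := p)).of_equiv e.symm)
  · have h2 : (2 : F) ≠ 0 := by
      intro h2
      have h3 : CharP F 2 := CharTwo.of_one_ne_zero_of_two_eq_zero one_ne_zero h2
      obtain ⟨k, -, hk⟩ := FiniteField.card F 2
      rw [hk] at hodd
      exact absurd hodd (by
        rw [Nat.not_odd_iff_even]
        exact (even_two).pow_of_ne_zero k.ne_zero)
    exact Cfsg.Agent.H167.SteinbergRGD.steinberg_of_hasRGD (Cfsg.Agent.Nodes.WittInst.hasRGD_PO_odd h2 hm2)

end Cfsg.Agent.S2547
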