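import Cfsg.Statements.S2549
import Cfsg.Agent.Nodes.RGDClass
import Cfsg.Agent.H167.HasSt
import Cfsg.Agent.H167.SmallOrth
import Cfsg.Agent.S0300
import Cfsg.Agent.S0306

set_option autoImplicit false
open Cfsg

namespace Cfsg.Agent.S2549

/-- Let F be a finite field of characteristic p and consider the group PΩ⁻_{2m+2}(F) of the quadratic form Σ_{i<m} x_i y_i + (z₁² + a z₁ z₂ + b z₂²) with anisotropic binary part, m ≥ 0. This group has an irreducible complex character χ whose degree equals the order of a Sylow p-subgroup (namely q^(m(m+1)) when #F = q) and whose restriction to any Sylow p-subgroup P is the regular character of P: χ vanishes on the non-identity elements of P. (This is the Steinberg character.) -/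
theorem result {F : Type*} [Field F] [Fintype F] (p : ℕ) [Fact p.Prime] [CharP F p] (m : ℕ) (a b : F) (hab : ∀ z₁ z₂ : F, z₁ ^ 2 + a * z₁ * z₂ + b * z₂ ^ 2 = 0 → z₁ = 0 ∧ z₂ = 0) : ∃ χ : Cfsg.POmega F (Cfsg.quadFormMinus m F a b) → ℂ, Cfsg.IsIrrCharacter (Cfsg.POmega F (Cfsg.quadFormMinus m F a b)) χ ∧ ∀ P : Sylow p (Cfsg.POmega F (Cfsg.quadFormMinus m F a b)), χ 1 = Nat.card P ∧ ∀ x : Cfsg.POmega F (Cfsg.quadFormMinus m F a b), x ∈ P → x ≠ 1 → χ x = 0 := by
  have hp : p.Prime := Fact.out
  obtain ⟨k, -, hk⟩ := FiniteField.card F p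
  have hdvd : p ∣ Fintype.card F := by
    rw [hk]
    exact dvd_pow_self p k.ne_zero
  rw [← Cfsg.Agent.H167.StChar.hasSt_iff]
  rcases Nat.lt_or_ge m 2 with hm | hm
  · obtain rfl | rfl : m = 0 ∨ m = 1 := by omega
    · -- `m = 0` : the group is a `p'`-group
      obtain ⟨e⟩ := Cfsg.Agent.S0306.result (F := F) rfl a b hab
      refine Cfsg.Agent.H167.SmallOrth.hasSt_of_dihedral (n := Fintype.card F + 1) (by omega) ?_ e
      intro h
      have h2 : p ∣ 1 := (Nat.dvd_add_right hdvd).1 h
      exact hp.one_lt.ne' (Nat.dvd_one.1 h2)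
    · -- `m = 1` : `PSL_2(q²)`
      let K := GaloisField p (2 * k)
      have hKf : Fintype K := Fintype.ofFinite K
      have hK : Fintype.card K = Fintype.card F ^ 2 := by
        rw [← Nat.card_eq_fintype_card, GaloisField.card p (2 * k) (by have := k.pos; omega), hk, ← pow_mul, mul_comm]
      obtain ⟨e⟩ := Cfsg.Agent.S0300.result (F := F) (K := K) rfl hK a b hab
      exact Cfsg.Agent.H167.StChar.HasSt.of_hasRGD
        ((Cfsg.Agent.Nodes.RGDClass.hasRGD_PSL (F := K) 1 (p := p)).of_equiv e.symm)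
  · exact Cfsg.Agent.H167.StChar.HasSt.of_hasRGD (Cfsg.Agent.Nodes.WittInst.hasRGD_PO_minus a b hab hm)

end Cfsg.Agent.S2549
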