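import Cfsg.Statements.S3637
import Cfsg.Agent.H416.E8Main
import Cfsg.Agent.H416.E8Iso
import Cfsg.Agent.H416.SporPrimes
import Cfsg.Agent.H437.Cases
import Cfsg.Agent.H388.EvenFixAll
import Cfsg.Agent.S0205
import Cfsg.Agent.ChevStructure.FieldMap

/-!
# S3637: `E₈(q)` is determined by its order and its prime graph (helper416)
-/

set_option autoImplicit false
open Cfsg

namespace Cfsg.Agent.S3637

open Cfsg.Agent.H416.Iso Cfsg.Agent.H416.Arith Cfsg.Agent.H437 Cfsg.Agent.H363.Frat

theorem even_card (Q : Type*) [Group Q] [Finite Q] (hQ : IsSimpleGroup Q) (hc : ¬ IsMulCommutative Q) :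
    2 ∣ Nat.card Q := by
  by_contra h
  have h1 : Group.IsSolvable Q := S0205.result (Nat.odd_iff.2 (by omega))
  apply hc
  rw [isMulCommutative_iff]
  exact IsSimpleGroup.comm_iff_isSolvable.2 h1

/-- Let F be a finite field and G a finite group with the same order and the same prime graph as the Chevalley group E₈(F). Then G is isomorphic to E₈(F). -/
theorem result {F : Type*} [Field F] [Fintype F] {G : Type*} [Group G] [Finite G]
    (hcard : Nat.card G = Nat.card ↥(Cfsg.Lie.chevE8.group F)) (h : ((∀ r : ℕ, r.Prime → (r ∣ Nat.card ↥(Cfsg.Lie.chevE8.group F) ↔ r ∣ Nat.card G)) ∧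
      (∀ r s : ℕ, r.Prime → s.Prime → r ≠ s → ((∃ x : ↥(Cfsg.Lie.chevE8.group F), orderOf x = r * s) ↔ (∃ y : G, orderOf y = r * s))))) :
    Nonempty (G ≃* ↥(Cfsg.Lie.chevE8.group F)) := by
  obtain ⟨p, f, hp, hf, hF⟩ := exists_pow F
  have hf0 : 0 < f := Nat.pos_of_ne_zero hf
  have hq : 2 ≤ p ^ f := hF ▸ Fintype.one_lt_card
  have hG : Nat.card G = N (p ^ f) := hcard.trans (H416.E8Iso.card_E8 hF)
  have hyp : Hyp G (mm (p ^ f)) := by
    refine ⟨one_lt_mm hq, fun i => odd_mm i, fun i => hG ▸ mm_dvd_N hq i, fun i => hG ▸ hall_mm hq i,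
      fun i j hij => cop_mm hq hij, fun i => ?_, le_mm hq⟩
    intro r s hr hs hrm hsm g hg
    have hrs : r ≠ s := by rintro rfl; exact hsm hrm
    obtain ⟨x, hx⟩ := (h.2 r s hr hs hrs).2 ⟨g, hg⟩
    exact H416.E8Iso.isol_E8 hF i r s hr hs hrm hsm x hx
  obtain ⟨Q, _, ⟨e⟩, F', _, _, hF', ⟨e'⟩⟩ := H416.E8Main.main hp hf0 hG hyp
    (fun Q _ q => ∃ (F' : Type) (_ : Field F') (_ : Fintype F'), Fintype.card F' = q ∧
      Nonempty (Q ≃* Lie.chevE8.group F'))
    (by
      rintro Q _ q ⟨F', _, _, hF', ⟨e⟩⟩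
      rw [Nat.card_congr e.toEquiv, H416.E8Iso.card_E8 hF'])
    (fun Q _ _ hQ hc => even_card Q hQ hc)
    (by
      intro Q _ _ hQ hc r hr hr2 hrQ x hx
      have hK : IsKnownSimple' Q := S0000.result
      exact H388.EvenFixAll.exists_involution hc hK hr hr2 hrQ x hx)
    (by
      intro Q _ _ hQ hc
      rcases H437.cases Q with h | h | ⟨T, t, k, h⟩ | h
      · exfalso
        have : Fact (Nat.card Q).Prime := ⟨h⟩
        have := isCyclic_of_prime_card (α := Q) rfl
        apply hc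
        rw [isMulCommutative_iff]
        let _ : CommGroup Q := IsCyclic.commGroup
        exact fun a b => mul_comm a b
      · exact Or.inl h
      · refine Or.inr (Or.inl ⟨T, t, k, h.isOrd, ?_⟩)
        rintro rfl
        exact h.rep
      · exact Or.inr (Or.inr fun r hr hrQ => H416.SporPrimes.prime_le h hr hrQ))
  have hcc : Fintype.card F' = Fintype.card F := hF'.trans hF.symm
  exact ⟨e.trans (e'.trans (ChevStructure.FieldMap.groupEquivOfRingEquiv Lie.chevE8
    (FiniteField.ringEquivOfCardEq hcc)))⟩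

end Cfsg.Agent.S3637
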