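import Cfsg.Statements.S1826
import Cfsg.Agent.S0205
import Cfsg.Agent.S1816
import Cfsg.Agent.H1.End

set_option autoImplicit false
open Cfsg

namespace Cfsg.Agent.S1826

/-- Let G be a non-abelian finite simple QTKE-group and T a Sylow 2-subgroup of G. Let L be a member of ℒ_f*(G, T): a maximal member of ℒ(G, T) that lies in 𝒳 (L ≠ 1, L = O²(L), F*(L) = O₂(L)) and acts nontrivially on Ω₁(Z(O₂(L))). If L/O₂(L) is quasisimple, then T normalizes L. -/
theorem result {G : Type*} [Group G] [Finite G] [IsSimpleGroup G]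
    (hG : ¬ IsMulCommutative G) (hQ : Cfsg.IsQTKE G) (T : Sylow 2 G) (L : Subgroup G)
    (hL : L ∈ Cfsg.calLfMax (T : Subgroup G)) (hq : Cfsg.IsQuasisimple (↥L ⧸ Cfsg.pCore 2 ↥L)) :
    (T : Subgroup G) ≤ Subgroup.normalizer (L : Set G) := by
  exact H1.End.s1826 hG hQ (fun _ _ _ h => S0205.result h) (fun _ _ _ h => S0205.result h) (S1816.result hG hQ) T L hL hq

end Cfsg.Agent.S1826
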