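import Cfsg.Statements.S1827
import Cfsg.Agent.S0205
import Cfsg.Agent.S1816
import Cfsg.Agent.H265.QTLie

set_option autoImplicit false
open Cfsg

namespace Cfsg.Agent.S1827

/-- Let G be a non-abelian finite simple QTKE-group, T a Sylow 2-subgroup of G and L a member of ℒ_f*(G, T). Then L/O₂(L) is not isomorphic to L₃(2ⁿ), SL₃(2ⁿ), Sp₄(2ⁿ) or G₂(2ⁿ) for any n > 1 (that is, over any finite field of characteristic 2 with more than two elements). -/
theorem result {G : Type*} [Group G] [Finite G] [IsSimpleGroup G]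
    (hG : ¬ IsMulCommutative G) (hQ : Cfsg.IsQTKE G) (T : Sylow 2 G) (L : Subgroup G)
    (hL : L ∈ Cfsg.calLfMax (T : Subgroup G)) :
    ¬ (∃ (F : Type) (_ : Field F) (_ : Fintype F), CharP F 2 ∧ 4 ≤ Fintype.card F ∧
        (Nonempty (↥L ⧸ Cfsg.pCore 2 ↥L ≃* Matrix.ProjectiveSpecialLinearGroup (Fin 3) F) ∨
          Nonempty (↥L ⧸ Cfsg.pCore 2 ↥L ≃* Matrix.SpecialLinearGroup (Fin 3) F) ∨
          Nonempty (↥L ⧸ Cfsg.pCore 2 ↥L ≃* Cfsg.PSp 2 F) ∨
          Nonempty (↥L ⧸ Cfsg.pCore 2 ↥L ≃* ↥(Cfsg.Lie.chevG2.group F)))) := by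
  exact H265.QTLie.main hG hQ (fun _ _ _ h => S0205.result h) (fun _ _ _ h => S0205.result h) (S1816.result hG hQ) T L hL

end Cfsg.Agent.S1827
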