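import Cfsg.Statements.S1828
import Cfsg.Agent.S0205
import Cfsg.Agent.S1816
import Cfsg.Agent.H1.End

set_option autoImplicit false
open Cfsg

namespace Cfsg.Agent.S1828

/-- Let G be a non-abelian finite simple QTKE-group and T a Sylow 2-subgroup of G. Let L be a member of ℒ_f*(G, T) with L/O₂(L) ≅ L₂(2ⁿ) for some n, let M be a maximal 2-local subgroup of G containing T with L normal in M, and let V be a 2-reduced elementary abelian normal 2-subgroup of LT with [V, L] ≠ 1. Then one of the following holds: (1) L/O₂(L) ≅ A₅; (2) G is a simple group of Lie type in characteristic 2 of Lie rank 2, with U₅(q) only for q = 4 (IsLieRankTwoCharTwo); (3) G ≅ M₂₂ or G ≅ M₂₃. (The full form of (1) also describes the action of L on [V, L] and the minimal subgroups containing T with nontrivial 2-core that are not contained in M; those clauses are not included, which weakens that alternative only.) -/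
theorem result {G : Type*} [Group G] [Finite G] [IsSimpleGroup G]
    (hG : ¬ IsMulCommutative G) (hQ : Cfsg.IsQTKE G) (T : Sylow 2 G) (L M V : Subgroup G)
    (hL : L ∈ Cfsg.calLfMax (T : Subgroup G))
    (hL2 : ∃ (F : Type) (_ : Field F) (_ : Fintype F), CharP F 2 ∧
      Nonempty (↥L ⧸ Cfsg.pCore 2 ↥L ≃* Matrix.ProjectiveSpecialLinearGroup (Fin 2) F))
    (hM : M ∈ Cfsg.maxTwoLocalsContaining (T : Subgroup G)) (hLM : L ≤ M)
    (hN : M ≤ Subgroup.normalizer (L : Set G))
    (hV : V ∈ Cfsg.calR2 (L ⊔ (T : Subgroup G))) (hVL : ⁅V, L⁆ ≠ ⊥) :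
    Nonempty (↥L ⧸ Cfsg.pCore 2 ↥L ≃* ↥(alternatingGroup (Fin 5))) ∨
      Cfsg.IsLieRankTwoCharTwo G ∨ Cfsg.Spor.IsoM22 G ∨ Cfsg.Spor.IsoM23 G := by
  exact H1.End.s1828 hG hQ (fun _ _ _ h => S0205.result h) (fun _ _ _ h => S0205.result h) (S1816.result hG hQ) T L hL hL2

end Cfsg.Agent.S1828
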