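import Cfsg.Statements.S1830
import Cfsg.Agent.H2.Asm30
import Cfsg.Agent.S1816
import Cfsg.Agent.S0205

set_option autoImplicit false
open Cfsg

namespace Cfsg.Agent.S1830

/-- Let G be a non-abelian finite simple QTKE-group and T a Sylow 2-subgroup of G, and suppose ℒ_f(G, T) is nonempty: some member L of ℒ(G, T) lies in 𝒳 and acts nontrivially on Ω₁(Z(O₂(L))). Then one of the following holds: (1) G is a simple group of Lie type of Lie rank 2 over F_{2ⁿ} for some n > 1, with U₅(2ⁿ) only for n = 2; (2) G is isomorphic to L₄(2), L₅(2), A₉, M₂₂, M₂₃, M₂₄, He or J₄; (3) G is isomorphic to Sp₆(2), U₄(2), L₄(3), U₄(3), G₂(3), HS or Ru. -/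
theorem result {G : Type*} [Group G] [Finite G] [IsSimpleGroup G]
    (hG : ¬ IsMulCommutative G) (hQ : Cfsg.IsQTKE G) (T : Sylow 2 G)
    (hne : (Cfsg.calLf (T : Subgroup G)).Nonempty) :
    Cfsg.IsLieRankTwoCharTwoLargeField G ∨
    ((∃ (F : Type) (_ : Field F) (_ : Fintype F), Fintype.card F = 2 ∧
        (Nonempty (G ≃* Matrix.ProjectiveSpecialLinearGroup (Fin 4) F) ∨
          Nonempty (G ≃* Matrix.ProjectiveSpecialLinearGroup (Fin 5) F))) ∨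
      Nonempty (G ≃* ↥(alternatingGroup (Fin 9))) ∨
      Cfsg.Spor.IsoM22 G ∨ Cfsg.Spor.IsoM23 G ∨ Cfsg.Spor.IsoM24 G ∨ Cfsg.Spor.IsoHe G ∨ Cfsg.Spor.IsoJ4 G) ∨
    ((∃ (F : Type) (_ : Field F) (_ : Fintype F), Fintype.card F = 2 ∧ Nonempty (G ≃* Cfsg.PSp 3 F)) ∨
      (∃ (F : Type) (_ : Field F) (_ : Fintype F), Fintype.card F = 4 ∧ Nonempty (G ≃* Cfsg.PSU 4 F 2)) ∨
      (∃ (F : Type) (_ : Field F) (_ : Fintype F), Fintype.card F = 3 ∧
        (Nonempty (G ≃* Matrix.ProjectiveSpecialLinearGroup (Fin 4) F) ∨ Nonempty (G ≃* ↥(Cfsg.Lie.chevG2.group F)))) ∨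
      (∃ (F : Type) (_ : Field F) (_ : Fintype F), Fintype.card F = 9 ∧ Nonempty (G ≃* Cfsg.PSU 4 F 3)) ∨
      Cfsg.Spor.IsoHS G ∨ Cfsg.Spor.IsoRu G) := by
  exact Cfsg.Agent.H2.Asm30.s1830 (fun X _ _ h => Cfsg.Agent.S0205.result h) (fun X _ _ h => Cfsg.Agent.S0205.result h)
    hQ.2.2 (Cfsg.Agent.S1816.result hG hQ) T hne

end Cfsg.Agent.S1830
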