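import Cfsg.Statements.S1831
import Cfsg.Agent.H2.Asm31
import Cfsg.Agent.S1816
import Cfsg.Agent.S1820

set_option autoImplicit false
open Cfsg

namespace Cfsg.Agent.S1831

/-- Let G be a non-abelian finite simple QTKE-group and T a Sylow 2-subgroup of G. Suppose T lies in at least two distinct maximal 2-local subgroups of G, and ℒ_f(G, T) is empty. Then G is isomorphic to J₂, J₃, ³D₄(2), the Tits group ²F₄(2)', G₂(2)' ≅ U₃(3), M₁₂, L₃(2) or A₆. -/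
theorem result {G : Type*} [Group G] [Finite G] [IsSimpleGroup G]
    (hG : ¬ IsMulCommutative G) (hQ : Cfsg.IsQTKE G) (T : Sylow 2 G)
    (hT : ∃ M₁ M₂ : Subgroup G, M₁ ∈ Cfsg.maxTwoLocalsContaining (T : Subgroup G) ∧
      M₂ ∈ Cfsg.maxTwoLocalsContaining (T : Subgroup G) ∧ M₁ ≠ M₂)
    (hE : Cfsg.calLf (T : Subgroup G) = ∅) :
    Cfsg.Spor.IsoJ2 G ∨ Cfsg.Spor.IsoJ3 G ∨
      (∃ (K : Type) (_ : Field K) (_ : Fintype K), Fintype.card K = 8 ∧ Nonempty (G ≃* ↥(Cfsg.Lie.twistedD4 K 2))) ∨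
      Cfsg.Lie.IsoTits G ∨
      (∃ (F : Type) (_ : Field F) (_ : Fintype F), Fintype.card F = 9 ∧ Nonempty (G ≃* Cfsg.PSU 3 F 3)) ∨
      Cfsg.Spor.IsoM12 G ∨
      (∃ (F : Type) (_ : Field F) (_ : Fintype F), Fintype.card F = 2 ∧
        Nonempty (G ≃* Matrix.ProjectiveSpecialLinearGroup (Fin 3) F)) ∨
      Nonempty (G ≃* ↥(alternatingGroup (Fin 6))) := by
  exact Cfsg.Agent.H2.Asm31.s1831 hG hQ.2.2 (fun H hH => (Cfsg.Agent.S1820.result hG hQ H hH).1)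
    (Cfsg.Agent.S1816.result hG hQ) T hT hE

end Cfsg.Agent.S1831
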