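import Cfsg.Statements.S1834
import Cfsg.Agent.S1831
import Cfsg.Agent.H3.CenT

set_option autoImplicit false
open Cfsg

namespace Cfsg.Agent.S1834

/-- Let G be a non-abelian finite simple QTKE-group and T a Sylow 2-subgroup of G, and let Z = Ω₁(Z(T)). Suppose ℒ_f(G, T) is empty, T lies in at least two distinct maximal 2-local subgroups of G, and some maximal 2-local subgroup M_c containing T is the unique maximal 2-local subgroup of G containing C_G(Z). Then G is isomorphic to J₂, J₃, ³D₄(2), the Tits group ²F₄(2)', G₂(2)' ≅ U₃(3) or M₁₂. -/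
theorem result {G : Type*} [Group G] [Finite G] [IsSimpleGroup G]
    (hG : ¬ IsMulCommutative G) (hQ : Cfsg.IsQTKE G) (T : Sylow 2 G)
    (hE : Cfsg.calLf (T : Subgroup G) = ∅)
    (hT : ∃ M₁ M₂ : Subgroup G, M₁ ∈ Cfsg.maxTwoLocalsContaining (T : Subgroup G) ∧
      M₂ ∈ Cfsg.maxTwoLocalsContaining (T : Subgroup G) ∧ M₁ ≠ M₂)
    (hc : ∃ Mc : Subgroup G, Mc ∈ Cfsg.maxTwoLocalsContaining (T : Subgroup G) ∧
      Cfsg.maxTwoLocalsContaining (Subgroup.centralizer ((Cfsg.omegaOne 2 ((T : Subgroup G) ⊓ Subgroup.centralizer ((T : Subgroup G) : Set G))) : Set G)) = {Mc}) :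
    Cfsg.Spor.IsoJ2 G ∨ Cfsg.Spor.IsoJ3 G ∨
      (∃ (K : Type) (_ : Field K) (_ : Fintype K), Fintype.card K = 8 ∧ Nonempty (G ≃* ↥(Cfsg.Lie.twistedD4 K 2))) ∨
      Cfsg.Lie.IsoTits G ∨
      (∃ (F : Type) (_ : Field F) (_ : Fintype F), Fintype.card F = 9 ∧ Nonempty (G ≃* Cfsg.PSU 3 F 3)) ∨
      Cfsg.Spor.IsoM12 G := by
  have key : ((∃ (F : Type) (_ : Field F) (_ : Fintype F), Fintype.card F = 2 ∧
        Nonempty (G ≃* Matrix.ProjectiveSpecialLinearGroup (Fin 3) F)) ∨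
      Nonempty (G ≃* ↥(alternatingGroup (Fin 6)))) → False := by
    intro h
    have h1 := Cfsg.Agent.H3.CenT.main T h
    obtain ⟨Mc, -, hMc⟩ := hc
    obtain ⟨M₁, M₂, hM₁, hM₂, hne⟩ := hT
    rw [h1] at hMc
    rw [hMc] at hM₁ hM₂
    exact hne (hM₁.trans hM₂.symm)
  rcases Cfsg.Agent.S1831.result hG hQ T hT hE with h | h | h | h | h | h | h | h
  · exact Or.inl h
  · exact Or.inr (Or.inl h)
  · exact Or.inr (Or.inr (Or.inl h))
  · exact Or.inr (Or.inr (Or.inr (Or.inl h)))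
  · exact Or.inr (Or.inr (Or.inr (Or.inr (Or.inl h))))
  · exact Or.inr (Or.inr (Or.inr (Or.inr (Or.inr h))))
  · exact (key (Or.inl h)).elim
  · exact (key (Or.inr h)).elim

end Cfsg.Agent.S1834
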