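import Cfsg.Statements.S1835
import Cfsg.Agent.S0205
import Cfsg.Agent.S1816
import Cfsg.Agent.H3.End35

set_option autoImplicit false
open Cfsg

namespace Cfsg.Agent.S1835

/-- Let G be a non-abelian finite simple QTKE-group, T a Sylow 2-subgroup of G and L a member of ℒ_f*(G, T) with L/O₂(L) isomorphic to L₄(2) or to L₅(2). Then L/O₂(L) ≅ L₄(2), and G is isomorphic to L₅(2) or to M₂₄. -/
theorem result {G : Type*} [Group G] [Finite G] [IsSimpleGroup G]
    (hG : ¬ IsMulCommutative G) (hQ : Cfsg.IsQTKE G) (T : Sylow 2 G) (L : Subgroup G)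
    (hL : L ∈ Cfsg.calLfMax (T : Subgroup G))
    (hn : ∃ (F : Type) (_ : Field F) (_ : Fintype F), Fintype.card F = 2 ∧
      (Nonempty ((↥L ⧸ Cfsg.pCore 2 ↥L) ≃* Matrix.ProjectiveSpecialLinearGroup (Fin 4) F) ∨
        Nonempty ((↥L ⧸ Cfsg.pCore 2 ↥L) ≃* Matrix.ProjectiveSpecialLinearGroup (Fin 5) F))) :
    (∃ (F : Type) (_ : Field F) (_ : Fintype F), Fintype.card F = 2 ∧ Nonempty ((↥L ⧸ Cfsg.pCore 2 ↥L) ≃* Matrix.ProjectiveSpecialLinearGroup (Fin 4) F)) ∧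
    ((∃ (F : Type) (_ : Field F) (_ : Fintype F), Fintype.card F = 2 ∧ Nonempty (G ≃* Matrix.ProjectiveSpecialLinearGroup (Fin 5) F)) ∨ Cfsg.Spor.IsoM24 G) := by
  exact H3.End35.main35 hG hQ (fun _ _ _ h => S0205.result h) (fun _ _ _ h => S0205.result h) (S1816.result hG hQ) T L hL hn

end Cfsg.Agent.S1835
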