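import Cfsg.Statements.S1836
import Cfsg.Agent.S0205
import Cfsg.Agent.S1816
import Cfsg.Agent.H3.End35

set_option autoImplicit false
open Cfsg

namespace Cfsg.Agent.S1836

/-- Let G be a non-abelian finite simple QTKE-group, T a Sylow 2-subgroup of G and L a member of ℒ_f*(G, T) with L/O₂(L) quasisimple. Then one of the following holds: (1) G is a simple group of Lie type of Lie rank 2 over F_{2ⁿ}, n > 1, with U₅(2ⁿ) only for n = 2; (2) G is isomorphic to M₂₂, M₂₃ or J₄; (3) L/O_{2,Z}(L) is isomorphic to one of L₃(2), L₄(2), L₅(2), A₅, A₆, A₇, A₈, U₃(3), or L/O₂(L) is the triple cover Â₆ of A₆. (A sharper form of (3) describes a module for L as well; only its consequence for the isomorphism type of L/O_{2,Z}(L) is stated here.) -/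
theorem result {G : Type*} [Group G] [Finite G] [IsSimpleGroup G]
    (hG : ¬ IsMulCommutative G) (hQ : Cfsg.IsQTKE G) (T : Sylow 2 G) (L : Subgroup G)
    (hL : L ∈ Cfsg.calLfMax (T : Subgroup G)) (hq : Cfsg.IsQuasisimple (↥L ⧸ Cfsg.pCore 2 ↥L)) :
    Cfsg.IsLieRankTwoCharTwoLargeField G ∨
    (Cfsg.Spor.IsoM22 G ∨ Cfsg.Spor.IsoM23 G ∨ Cfsg.Spor.IsoJ4 G) ∨
    ((∃ (F : Type) (_ : Field F) (_ : Fintype F), Fintype.card F = 2 ∧ (Nonempty ((↥L ⧸ Cfsg.twoZCore ↥L) ≃* Matrix.ProjectiveSpecialLinearGroup (Fin 3) F) ∨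
        Nonempty ((↥L ⧸ Cfsg.twoZCore ↥L) ≃* Matrix.ProjectiveSpecialLinearGroup (Fin 4) F) ∨
        Nonempty ((↥L ⧸ Cfsg.twoZCore ↥L) ≃* Matrix.ProjectiveSpecialLinearGroup (Fin 5) F))) ∨
      Nonempty ((↥L ⧸ Cfsg.twoZCore ↥L) ≃* ↥(alternatingGroup (Fin 5))) ∨ Nonempty ((↥L ⧸ Cfsg.twoZCore ↥L) ≃* ↥(alternatingGroup (Fin 6))) ∨
      Nonempty ((↥L ⧸ Cfsg.twoZCore ↥L) ≃* ↥(alternatingGroup (Fin 7))) ∨ Nonempty ((↥L ⧸ Cfsg.twoZCore ↥L) ≃* ↥(alternatingGroup (Fin 8))) ∨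
      (∃ (F : Type) (_ : Field F) (_ : Fintype F), Fintype.card F = 9 ∧ Nonempty ((↥L ⧸ Cfsg.twoZCore ↥L) ≃* Cfsg.PSU 3 F 3)) ∨
      Cfsg.IsHatA6 (↥L ⧸ Cfsg.pCore 2 ↥L)) := by
  exact H3.End35.main36 hQ (fun _ _ _ h => S0205.result h) (fun _ _ _ h => S0205.result h) (S1816.result hG hQ) T L hL

end Cfsg.Agent.S1836
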