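import Cfsg.Statements.S1837
import Cfsg.Agent.H4.AltSeven
import Cfsg.Agent.S1816
import Cfsg.Agent.S0205

set_option autoImplicit false
open Cfsg

namespace Cfsg.Agent.S1837

/-- Let G be a non-abelian finite simple QTKE-group, T a Sylow 2-subgroup of G and L a member of ℒ_f*(G, T) with L/O₂(L) quasisimple. Suppose G is not a simple group of Lie type of Lie rank 2 over F_{2ⁿ} with n > 1 (U₅(2ⁿ) only for n = 2), and G is not isomorphic to M₂₂, M₂₃ or J₄. Then L/O_{2,Z}(L) is not isomorphic to A₇. -/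
theorem result {G : Type*} [Group G] [Finite G] [IsSimpleGroup G]
    (hG : ¬ IsMulCommutative G) (hQ : Cfsg.IsQTKE G) (T : Sylow 2 G) (L : Subgroup G)
    (hL : L ∈ Cfsg.calLfMax (T : Subgroup G)) (hq : Cfsg.IsQuasisimple (↥L ⧸ Cfsg.pCore 2 ↥L))
    (h1 : ¬ Cfsg.IsLieRankTwoCharTwoLargeField G)
    (h2 : ¬ (Cfsg.Spor.IsoM22 G ∨ Cfsg.Spor.IsoM23 G ∨ Cfsg.Spor.IsoJ4 G)) :
    ¬ Nonempty ((↥L ⧸ Cfsg.twoZCore ↥L) ≃* ↥(alternatingGroup (Fin 7))) := by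
  exact Cfsg.Agent.H4.AltSeven.main (fun X _ _ h => Cfsg.Agent.S0205.result h) (fun X _ _ h => Cfsg.Agent.S0205.result h)
    hQ.2.2 (Cfsg.Agent.S1816.result hG hQ) T L ⟨hL.1.1, hL.2⟩ h1 h2

end Cfsg.Agent.S1837
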