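import Cfsg.Statements.S1839
import Cfsg.Agent.H4.ResidOwn
import Cfsg.Agent.S1816
import Cfsg.Agent.S0205

set_option autoImplicit false
open Cfsg

namespace Cfsg.Agent.S1839

/-- Let G be a non-abelian finite simple QTKE-group and T a Sylow 2-subgroup of G such that G is not a simple group of Lie type of Lie rank 2 over F_{2ⁿ} with n > 1 (including every U₅(2ⁿ), n > 1) and G is not isomorphic to L₄(2), L₅(2), A₉, M₂₂, M₂₃, M₂₄, He or J₄. Let L be a member of ℒ_f(G, T), and suppose that if L/O₂(L) ≅ A₅ then K/O₂(K) ≅ A₅ for every member K of ℒ_f(G, T). Then L/O₂(L) is not isomorphic to U₃(3) ≅ G₂(2)'. -/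
theorem result {G : Type*} [Group G] [Finite G] [IsSimpleGroup G]
    (hG : ¬ IsMulCommutative G) (hQ : Cfsg.IsQTKE G) (T : Sylow 2 G)
    (hR : Cfsg.InResidualCase G) (L : Subgroup G) (hL : L ∈ Cfsg.calLf (T : Subgroup G))
    (h4 : Nonempty ((↥L ⧸ Cfsg.pCore 2 ↥L) ≃* ↥(alternatingGroup (Fin 5))) →
      ∀ K ∈ Cfsg.calLf (T : Subgroup G), Nonempty ((↥K ⧸ Cfsg.pCore 2 ↥K) ≃* ↥(alternatingGroup (Fin 5)))) :
    ¬ (∃ (F : Type) (_ : Field F) (_ : Fintype F), Fintype.card F = 9 ∧ Nonempty ((↥L ⧸ Cfsg.pCore 2 ↥L) ≃* Cfsg.PSU 3 F 3)) := by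
  exact Cfsg.Agent.H4.ResidOwn.s1839 (fun X _ _ h => Cfsg.Agent.S0205.result h) (fun X _ _ h => Cfsg.Agent.S0205.result h)
    hQ.2.2 (Cfsg.Agent.S1816.result hG hQ) hR T L hL

end Cfsg.Agent.S1839
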