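import Cfsg.Statements.S1842
import Cfsg.Agent.S0205
import Cfsg.Agent.S1816
import Cfsg.Agent.H5.ResidEnd
import Cfsg.Agent.H4.Hyp

set_option autoImplicit false
open Cfsg

namespace Cfsg.Agent.S1842

/-- Let G be a non-abelian finite simple QTKE-group and T a Sylow 2-subgroup of G such that G is not a simple group of Lie type of Lie rank 2 over F_{2ⁿ} with n > 1 (including every U₅(2ⁿ), n > 1) and G is not isomorphic to L₄(2), L₅(2), A₉, M₂₂, M₂₃, M₂₄, He or J₄. Let L be a member of ℒ_f(G, T), and suppose that if L/O₂(L) ≅ A₅ then K/O₂(K) ≅ A₅ for every member K of ℒ_f(G, T). Then one of the following holds: (1) L/O_{2,Z}(L) ≅ A₆ and G is isomorphic to Sp₆(2) or U₄(3); (2) L/O₂(L) ≅ A₅ and G is isomorphic to U₄(2) or L₄(3); (3) L/O₂(L) ≅ L₃(2) and G is isomorphic to Sp₆(2), G₂(3), HS or Ru. (In (1) the quotient by O_{2,Z}(L) rather than O₂(L) is used, so that the triple cover of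 A₆ is allowed there.) -/
theorem result {G : Type*} [Group G] [Finite G] [IsSimpleGroup G]
    (hG : ¬ IsMulCommutative G) (hQ : Cfsg.IsQTKE G) (T : Sylow 2 G)
    (hR : Cfsg.InResidualCase G) (L : Subgroup G) (hL : L ∈ Cfsg.calLf (T : Subgroup G))
    (h4 : Nonempty ((↥L ⧸ Cfsg.pCore 2 ↥L) ≃* ↥(alternatingGroup (Fin 5))) →
      ∀ K ∈ Cfsg.calLf (T : Subgroup G), Nonempty ((↥K ⧸ Cfsg.pCore 2 ↥K) ≃* ↥(alternatingGroup (Fin 5)))) :
    (Nonempty ((↥L ⧸ Cfsg.twoZCore ↥L) ≃* ↥(alternatingGroup (Fin 6))) ∧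
      ((∃ (F : Type) (_ : Field F) (_ : Fintype F), Fintype.card F = 2 ∧ Nonempty (G ≃* Cfsg.PSp 3 F)) ∨
        (∃ (F : Type) (_ : Field F) (_ : Fintype F), Fintype.card F = 9 ∧ Nonempty (G ≃* Cfsg.PSU 4 F 3)))) ∨
    (Nonempty ((↥L ⧸ Cfsg.pCore 2 ↥L) ≃* ↥(alternatingGroup (Fin 5))) ∧
      ((∃ (F : Type) (_ : Field F) (_ : Fintype F), Fintype.card F = 4 ∧ Nonempty (G ≃* Cfsg.PSU 4 F 2)) ∨
        (∃ (F : Type) (_ : Field F) (_ : Fintype F), Fintype.card F = 3 ∧ Nonempty (G ≃* Matrix.ProjectiveSpecialLinearGroup (Fin 4) F)))) ∨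
    ((∃ (F : Type) (_ : Field F) (_ : Fintype F), Fintype.card F = 2 ∧ Nonempty ((↥L ⧸ Cfsg.pCore 2 ↥L) ≃* Matrix.ProjectiveSpecialLinearGroup (Fin 3) F)) ∧
      ((∃ (F : Type) (_ : Field F) (_ : Fintype F), Fintype.card F = 2 ∧ Nonempty (G ≃* Cfsg.PSp 3 F)) ∨
        (∃ (F : Type) (_ : Field F) (_ : Fintype F), Fintype.card F = 3 ∧ Nonempty (G ≃* ↥(Cfsg.Lie.chevG2.group F))) ∨
        Cfsg.Spor.IsoHS G ∨ Cfsg.Spor.IsoRu G)) :=
  H5.ResidEnd.s1842 (fun _ _ _ h => S0205.result h) hQ.2.2 (S1816.result hG hQ) hR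
    (H4.HypAll.hyp (fun _ _ _ h => S0205.result h) hQ.2.2) T L hL

end Cfsg.Agent.S1842
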