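import Cfsg.Statements.S1843
import Cfsg.Agent.S0205
import Cfsg.Agent.S1816
import Cfsg.Agent.H5.ResidEnd
import Cfsg.Agent.H4.Hyp

set_option autoImplicit false
open Cfsg

namespace Cfsg.Agent.S1843

/-- Let G be a non-abelian finite simple QTKE-group and T a Sylow 2-subgroup of G such that G is not a simple group of Lie type of Lie rank 2 over F_{2ⁿ} with n > 1 (including every U₅(2ⁿ), n > 1) and G is not isomorphic to L₄(2), L₅(2), A₉, M₂₂, M₂₃, M₂₄, He or J₄. Let L be a member of ℒ_f(G, T), and suppose that if L/O₂(L) ≅ A₅ then K/O₂(K) ≅ A₅ for every member K of ℒ_f(G, T). Then every member K of ℒ_f(G, T) satisfies: K/O₂(K) is isomorphic to A₅, L₃(2), A₆, the triple cover Â₆ of A₆, or U₃(3); T normalizes K; and K is a member of ℒ_f*(G, T). -/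
theorem result {G : Type*} [Group G] [Finite G] [IsSimpleGroup G]
    (hG : ¬ IsMulCommutative G) (hQ : Cfsg.IsQTKE G) (T : Sylow 2 G)
    (hR : Cfsg.InResidualCase G) (L : Subgroup G) (hL : L ∈ Cfsg.calLf (T : Subgroup G))
    (h4 : Nonempty ((↥L ⧸ Cfsg.pCore 2 ↥L) ≃* ↥(alternatingGroup (Fin 5))) →
      ∀ K ∈ Cfsg.calLf (T : Subgroup G), Nonempty ((↥K ⧸ Cfsg.pCore 2 ↥K) ≃* ↥(alternatingGroup (Fin 5))))
    (K : Subgroup G) (hK : K ∈ Cfsg.calLf (T : Subgroup G)) :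
    (Nonempty ((↥K ⧸ Cfsg.pCore 2 ↥K) ≃* ↥(alternatingGroup (Fin 5))) ∨
      (∃ (F : Type) (_ : Field F) (_ : Fintype F), Fintype.card F = 2 ∧ Nonempty ((↥K ⧸ Cfsg.pCore 2 ↥K) ≃* Matrix.ProjectiveSpecialLinearGroup (Fin 3) F)) ∨
      Nonempty ((↥K ⧸ Cfsg.pCore 2 ↥K) ≃* ↥(alternatingGroup (Fin 6))) ∨ Cfsg.IsHatA6 (↥K ⧸ Cfsg.pCore 2 ↥K) ∨
      (∃ (F : Type) (_ : Field F) (_ : Fintype F), Fintype.card F = 9 ∧ Nonempty ((↥K ⧸ Cfsg.pCore 2 ↥K) ≃* Cfsg.PSU 3 F 3))) ∧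
    (T : Subgroup G) ≤ Subgroup.normalizer (K : Set G) ∧ K ∈ Cfsg.calLfMax (T : Subgroup G) :=
  H5.ResidEnd.s1843 (fun _ _ _ h => S0205.result h) hQ.2.2 (S1816.result hG hQ) hR
    (H4.HypAll.hyp (fun _ _ _ h => S0205.result h) hQ.2.2) T K hK

end Cfsg.Agent.S1843
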