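import Cfsg.Statements.S1845
import Cfsg.Agent.S0205
import Cfsg.Agent.S1816
import Cfsg.Agent.S1825
import Cfsg.Agent.H6.Asm45

set_option autoImplicit false
open Cfsg

namespace Cfsg.Agent.S1845

/-- Let G be a non-abelian finite simple QTKE-group, T a Sylow 2-subgroup of G and M a maximal 2-local subgroup of G containing T. Let L be a member of ℒ_f*(G, T) contained in M and normal in M, with L/O₂(L) ≅ L₂(2ⁿ) for some n > 1. Then N_G(S) ≤ M for every subgroup S of T such that S ∩ L is a Sylow 2-subgroup of L. -/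
theorem result {G : Type*} [Group G] [Finite G] [IsSimpleGroup G]
    (hG : ¬ IsMulCommutative G) (hQ : Cfsg.IsQTKE G) (T : Sylow 2 G) (M L : Subgroup G)
    (hM : M ∈ Cfsg.maxTwoLocalsContaining (T : Subgroup G))
    (hL : L ∈ Cfsg.calLfMax (T : Subgroup G)) (hLM : L ≤ M) (hN : M ≤ Subgroup.normalizer (L : Set G))
    (hL2 : ∃ (F : Type) (_ : Field F) (_ : Fintype F), CharP F 2 ∧ 4 ≤ Fintype.card F ∧
      Nonempty ((↥L ⧸ Cfsg.pCore 2 ↥L) ≃* Matrix.ProjectiveSpecialLinearGroup (Fin 2) F))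
    (S : Subgroup G) (hS : S ≤ (T : Subgroup G))
    (hSL : ∃ P : Sylow 2 ↥L, (P : Subgroup ↥L) = (S ⊓ L).subgroupOf L) :
    Subgroup.normalizer (S : Set G) ≤ M := by
  have hl : IsOnQTKEList G := Cfsg.Agent.S1816.result hG hQ
  have hq : IsQuasisimple (↥L ⧸ Cfsg.pCore 2 ↥L) := by
    obtain ⟨F, _, _, hch, h4, ⟨e⟩⟩ := hL2
    exact H6.Asm45.quasisimple h4 e
  exact H6.Asm45.main (fun _ _ _ h => Cfsg.Agent.S0205.result h) (fun _ _ _ h => Cfsg.Agent.S0205.result h) hG hQ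
    hQ.2.2 hl T M L hM hL hN hL2
    (Cfsg.Agent.S1825.result hG hQ T M hM (Or.inl ⟨L, hL.1, hq, hLM⟩)) S hS hSL

end Cfsg.Agent.S1845
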