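import Cfsg.Statements.S1895
import Cfsg.Agent.H17.PSolvChief
import Cfsg.Agent.PLocal.PSolvable
import Cfsg.Agent.Mrg.Omega.Sec.Faithful

set_option autoImplicit false
open Cfsg

namespace Cfsg.Agent.S1895

open Subgroup Cfsg.Agent.H17.Chief Cfsg.Agent.H17.PSolvChief in
/-- Let p be an odd prime and G a finite p-solvable group with no elementary abelian subgroup of order p³. Then every chief factor H/K of G (H, K normal in G with no normal subgroup of G strictly between them) whose order is a power of p has order p or p². -/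
theorem result {G : Type*} [Group G] [Finite G] {p : ℕ} [Fact p.Prime] (hp : p ≠ 2)
    (hG : Cfsg.IsPSolvable p G) (hr : Cfsg.PRankLE p 2 G)
    (H K : Subgroup G) [H.Normal] [K.Normal] (hKH : K < H) (hpow : ∃ n : ℕ, K.relIndex H = p ^ n)
    (hchief : ∀ L : Subgroup G, L.Normal → K ≤ L → L ≤ H → L = K ∨ L = H) :
    K.relIndex H = p ∨ K.relIndex H = p ^ 2 := by
  have hc : IsChief K H := ⟨inferInstance, inferInstance, hKH, hchief⟩
  set N := Cfsg.pPrimeCore p G with hN
  have hNn : N.Normal := Cfsg.Agent.Lib.Cores.pPrimeCore_normal p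
  have hNc : (Nat.card N).Coprime p := Cfsg.Agent.Lib.Cores.pPrimeCore_coprime p
  have hne1 : K.relIndex H ≠ 1 := fun h => absurd hKH (not_lt_of_ge (relIndex_eq_one.1 h))
  obtain ⟨n, hn⟩ := hpow
  have hn0 : n ≠ 0 := by
    rintro rfl
    exact hne1 hn
  have hHN : H ⊓ N ≤ K := by
    by_contra hcon
    obtain ⟨-, h1⟩ := hc.inf N hcon
    have h2 : (K ⊓ N).relIndex (H ⊓ N) ∣ Nat.card N :=
      (relIndex_dvd_card _ _).trans (card_dvd_of_le inf_le_right)
    rw [h1, hn] at h2
    have h3 : p ∣ Nat.card N := (dvd_pow_self p hn0).trans h2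
    have h4 := (Nat.Prime.coprime_iff_not_dvd (Fact.out : p.Prime)).1 hNc.symm
    exact h4 h3
  obtain ⟨h1, h2, -⟩ := hc.quotient N hHN
  have h3 : (K.map (QuotientGroup.mk' N)).relIndex (H.map (QuotientGroup.mk' N)) ≤ p ^ 2 :=
    relIndex_le_of_bot hp (Cfsg.Agent.PLocal.PSolvable.isPSolvable_quotient hG N)
      (Cfsg.Agent.Lib.Cores.pPrimeCore_quotient_pPrimeCore p)
      (Cfsg.Agent.Omega.Sec.Reduce.prankLE_quotient N hNc hr) h1 ⟨n, h2.trans hn⟩
  rw [h2, hn] at h3
  rw [hn]
  have h4 : n ≤ 2 := (Nat.pow_le_pow_iff_right (Fact.out : p.Prime).one_lt).1 h3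
  have h5 : n = 1 ∨ n = 2 := by omega
  rcases h5 with rfl | rfl
  · left; exact pow_one p
  · right; rfl

end Cfsg.Agent.S1895
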