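import Cfsg.Statements.S1897
import Cfsg.Agent.H17.U33Table
import Cfsg.Agent.LieClassical.PSLTwoSeven
import Cfsg.Agent.LieClassical.FieldTransfer
import Cfsg.Agent.Classification.RTwo.UThreeThree

set_option autoImplicit false
open Cfsg

namespace Cfsg.Agent.S1897

open Matrix Cfsg.Agent.H17.U33Table
open Cfsg.Agent.Classification.RTwo.UThreeThree (K9 IsGood card_k9 psuEquiv su_ext)
open Cfsg.Agent.LieClassical.PSLTwoSeven (fact7 genU genS coe_genU coe_genS det_eq up low coe_up
  coe_low genU_pow)

local notation "SL₂" => Matrix.SpecialLinearGroup (Fin 2) (ZMod 7)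

/-- The homomorphism as a function. -/
def f (g : SL₂) : Matrix (Fin 3) (Fin 3) K9 := dec (code (g 0 0) (g 0 1) (g 1 0) (g 1 1))

theorem f_def (g : SL₂) : f g = dec (code (g 0 0) (g 0 1) (g 1 0) (g 1 1)) := rfl

theorem f_mul_genU (g : SL₂) : f (g * genU) = f g * imU := by
  have h := code_mul_U _ _ _ _ (det_eq g)
  rw [f_def, f_def, ← h]
  simp [coe_genU, Matrix.SpecialLinearGroup.coe_mul, Matrix.mul_apply, Fin.sum_univ_two]

theorem f_mul_genS (g : SL₂) : f (g * genS) = f g * imS := by
  have h := code_mul_S _ _ _ _ (det_eq g)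
  rw [f_def, f_def, ← h]
  simp [coe_genS, Matrix.SpecialLinearGroup.coe_mul, Matrix.mul_apply, Fin.sum_univ_two]

theorem f_one : f 1 = 1 := by
  rw [f_def]
  simpa using code_one

/-- The subgroup of elements on which `f` is multiplicative. -/
def good : Subgroup SL₂ where
  carrier := {h | ∀ g, f (g * h) = f g * f h}
  one_mem' := by
    intro g
    rw [mul_one, f_one, mul_one]
  mul_mem' := by
    intro h k hh hk g
    rw [← mul_assoc, hk, hh, hk, mul_assoc]
  inv_mem' := by
    intro h hh g
    have h1 : f h⁻¹ * f h = 1 := by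
      rw [← hh, inv_mul_cancel, f_one]
    have h2 : f h * f h⁻¹ = 1 := mul_eq_one_comm.mp h1
    calc f (g * h⁻¹) = f (g * h⁻¹) * (f h * f h⁻¹) := by rw [h2, mul_one]
      _ = f (g * h⁻¹ * h) * f h⁻¹ := by rw [hh, mul_assoc]
      _ = f g * f h⁻¹ := by rw [inv_mul_cancel_right]

theorem mem_good {h : SL₂} : h ∈ good ↔ ∀ g, f (g * h) = f g * f h := Iff.rfl

theorem genU_mem : genU ∈ good := by
  have h : f genU = imU := by
    have := f_mul_genU 1
    rwa [one_mul, f_one, one_mul] at this
  intro g
  rw [f_mul_genU, h]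

theorem genS_mem : genS ∈ good := by
  have h : f genS = imS := by
    have := f_mul_genS 1
    rwa [one_mul, f_one, one_mul] at this
  intro g
  rw [f_mul_genS, h]

theorem up_mem (x : ZMod 7) : up x ∈ good := by
  have := fact7
  have : up x = genU ^ x.val := by rw [genU_pow, ZMod.natCast_zmod_val]
  rw [this]
  exact pow_mem genU_mem _

theorem low_mem (x : ZMod 7) : low x ∈ good := by
  have : low x * genS = genS * up (-x) := by
    ext i j
    fin_cases i <;> fin_cases j <;> simp [coe_up, coe_low, coe_genS,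
      Matrix.SpecialLinearGroup.coe_mul, Matrix.mul_apply, Fin.sum_univ_two]
  have h2 : low x = genS * up (-x) * genS⁻¹ := by rw [← this, mul_inv_cancel_right]
  rw [h2]
  exact mul_mem (mul_mem genS_mem (up_mem _)) (inv_mem genS_mem)

theorem mem_of_ne_zero (g : SL₂) (hg : g 1 0 ≠ 0) : g ∈ good := by
  have := fact7
  have hd := det_eq g
  have : g = up ((g 0 0 - 1) / g 1 0) * low (g 1 0) * up ((g 1 1 - 1) / g 1 0) := by
    ext i j
    fin_cases i <;> fin_cases j
    · simp [coe_up, coe_low, Matrix.SpecialLinearGroup.coe_mul, Matrix.mul_apply, Fin.sum_univ_two]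
      field_simp
      ring
    · simp [coe_up, coe_low, Matrix.SpecialLinearGroup.coe_mul, Matrix.mul_apply, Fin.sum_univ_two]
      field_simp
      linear_combination (-1 : ZMod 7) * hd
    · simp [coe_up, coe_low, Matrix.SpecialLinearGroup.coe_mul, Matrix.mul_apply, Fin.sum_univ_two]
    · simp [coe_up, coe_low, Matrix.SpecialLinearGroup.coe_mul, Matrix.mul_apply, Fin.sum_univ_two]
      field_simp
      ring
  rw [this]
  exact mul_mem (mul_mem (up_mem _) (low_mem _)) (up_mem _)

theorem mem_good_all (g : SL₂) : g ∈ good := by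
  have := fact7
  by_cases hg : g 1 0 = 0
  · have hd := det_eq g
    have h2 : (g * genS) 1 0 ≠ 0 := by
      have : (g * genS) 1 0 = g 1 1 := by
        simp [coe_genS, Matrix.SpecialLinearGroup.coe_mul, Matrix.mul_apply, Fin.sum_univ_two]
      rw [this]
      intro h
      rw [hg, h] at hd
      simp at hd
    have h3 := mem_of_ne_zero _ h2
    have h4 : g = g * genS * genS⁻¹ := by rw [mul_inv_cancel_right]
    rw [h4]
    exact mul_mem h3 (inv_mem genS_mem)
  · exact mem_of_ne_zero g hg

theorem f_mul (g h : SL₂) : f (g * h) = f g * f h := mem_good_all h g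

theorem f_good (g : SL₂) : IsGood (f g) := code_good _ _ _ _ (det_eq g)

/-- The homomorphism `SL_2(7) → SU_3(3)`. -/
def phi : SL₂ →* Cfsg.SU 3 K9 3 where
  toFun g := (f_good g).su
  map_one' := by
    apply su_ext
    exact f_one
  map_mul' g h := by
    apply su_ext
    exact f_mul g h

theorem coe_phi (g : SL₂) :
    ((phi g : Matrix.SpecialLinearGroup (Fin 3) K9) : Matrix (Fin 3) (Fin 3) K9) = f g := rfl

theorem phi_eq_one {g : SL₂} (h : phi g = 1) : g 0 1 = 0 ∧ g 1 0 = 0 ∧ g 0 0 = g 1 1 := by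
  have h1 : f g = 1 := by rw [← coe_phi, h]; rfl
  exact code_eq_one _ _ _ _ (det_eq g) h1

theorem phi_eq_one_of {g : SL₂} (h1 : g 0 1 = 0) (h2 : g 1 0 = 0) (h3 : g 0 0 = g 1 1) :
    phi g = 1 := by
  have hd := det_eq g
  rw [h1, h2, ← h3] at hd
  have h4 : f g = 1 := by
    rw [f_def, h1, h2, ← h3]
    exact code_scalar _ (by simpa using hd)
  apply su_ext
  exact h4

/-- The kernel of the homomorphism from `SL_2(7)` is its centre. -/
theorem ker_phi : phi.ker = Subgroup.center SL₂ := by
  ext g
  rw [MonoidHom.mem_ker, Matrix.SpecialLinearGroup.mem_center_iff]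
  constructor
  · intro h
    obtain ⟨h1, h2, h3⟩ := phi_eq_one h
    have hd := det_eq g
    rw [h1, h2, ← h3] at hd
    refine ⟨g 0 0, ?_, ?_⟩
    · simp only [Fintype.card_fin]
      rw [sq]
      simpa using hd
    · ext i j
      fin_cases i <;> fin_cases j <;> simp [h1, h2, h3]
  · rintro ⟨r, -, hr⟩
    have : ∀ i j, g i j = (Matrix.scalar (Fin 2) r) i j := by
      intro i j; rw [hr]
    exact phi_eq_one_of (by simp [this]) (by simp [this]) (by simp [this])

/-- The projective special unitary group PSU₃(3) (realised over the field with 9 elements) has a subgroup isomorphic to PSL₂(7). -/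
theorem result {F : Type*} [Field F] [Fintype F] (hF : Fintype.card F = 9)
    {K : Type*} [Field K] [Fintype K] (hK : Fintype.card K = 7) :
    ∃ H : Subgroup (Cfsg.PSU 3 F 3), Nonempty (H ≃* Matrix.ProjectiveSpecialLinearGroup (Fin 2) K) := by
  have := fact7
  let e : ZMod 7 ≃+* K := ZMod.ringEquivOfPrime K (by norm_num) hK
  obtain ⟨d⟩ : Nonempty (F ≃+* K9) := ⟨FiniteField.ringEquivOfCardEq (by rw [hF, card_k9])⟩
  let D : Cfsg.PSU 3 F 3 ≃* Cfsg.SU 3 K9 3 :=
    (psuEquiv hF).trans (LieClassical.FieldTransfer.suCongr 3 3 d)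
  let g : SL₂ →* Cfsg.PSU 3 F 3 := D.symm.toMonoidHom.comp phi
  have hker : g.ker = Subgroup.center SL₂ := by
    rw [← ker_phi]
    ext x
    rw [MonoidHom.mem_ker, MonoidHom.mem_ker]
    change D.symm (phi x) = 1 ↔ _
    rw [MulEquiv.map_eq_one_iff]
  refine ⟨g.range, ⟨?_⟩⟩
  refine (QuotientGroup.quotientKerEquivRange g).symm.trans ?_
  refine (QuotientGroup.quotientMulEquivOfEq hker).trans ?_
  exact LieClassical.FieldTransfer.pslCongr e

end Cfsg.Agent.S1897
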