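import Cfsg.Statements.S1898
-- import your own Cfsg.Agent.* helpers here

set_option autoImplicit false
open Cfsg
open scoped commutatorElement

namespace Cfsg.Agent.S1898

/-- In a group whose commutators are central of order dividing two, fourth powers are multiplicative. -/
theorem mul_pow_four {X : Type*} [Group X]
    (hc : ∀ x y z : X, ⁅x, y⁆ * z = z * ⁅x, y⁆) (h2 : ∀ x y : X, ⁅x, y⁆ * ⁅x, y⁆ = 1) (x y : X) :
    (x * y) ^ 4 = x ^ 4 * y ^ 4 := by
  -- `y x = x y z`, with `z` a central involution
  set z := ⁅y⁻¹, x⁻¹⁆ with hz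
  have hyx : y * x = x * y * z := by
    rw [hz, commutatorElement_def]; group
  have hzc : ∀ w : X, z * w = w * z := fun w => hc _ _ w
  have hzz : z * z = 1 := h2 _ _
  have hsq : (x * y) ^ 2 = x ^ 2 * y ^ 2 * z := by
    calc (x * y) ^ 2 = x * (y * x) * y := by rw [pow_two]; group
      _ = x * (x * y * z) * y := by rw [hyx]
      _ = x * x * y * (z * y) := by group
      _ = x * x * y * (y * z) := by rw [hzc]
      _ = x ^ 2 * y ^ 2 * z := by rw [pow_two, pow_two]; group
  -- squares are central
  have hsqc : y ^ 2 * x ^ 2 = x ^ 2 * y ^ 2 := by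
    have e1 : y ^ 2 * x = x * y ^ 2 := by
      calc y ^ 2 * x = y * (y * x) := by rw [pow_two]; group
        _ = y * (x * y * z) := by rw [hyx]
        _ = (y * x) * y * z := by group
        _ = (x * y * z) * y * z := by rw [hyx]
        _ = x * y * (z * y) * z := by group
        _ = x * y * (y * z) * z := by rw [hzc]
        _ = x * y ^ 2 * (z * z) := by rw [pow_two]; group
        _ = x * y ^ 2 := by rw [hzz, mul_one]
    calc y ^ 2 * x ^ 2 = (y ^ 2 * x) * x := by rw [pow_two x]; group
      _ = x * (y ^ 2 * x) := by rw [e1, mul_assoc, e1]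
      _ = x ^ 2 * y ^ 2 := by rw [e1, pow_two x, mul_assoc]
  calc (x * y) ^ 4 = (x * y) ^ 2 * (x * y) ^ 2 := by rw [← pow_add]
    _ = x ^ 2 * y ^ 2 * z * (x ^ 2 * y ^ 2 * z) := by rw [hsq]
    _ = x ^ 2 * y ^ 2 * (z * (x ^ 2 * y ^ 2)) * z := by group
    _ = x ^ 2 * y ^ 2 * ((x ^ 2 * y ^ 2) * z) * z := by rw [hzc]
    _ = x ^ 2 * (y ^ 2 * x ^ 2) * y ^ 2 * (z * z) := by group
    _ = x ^ 2 * (x ^ 2 * y ^ 2) * y ^ 2 * (z * z) := by rw [hsqc]
    _ = x ^ 4 * y ^ 4 := by
        rw [hzz, mul_one]
        have hx4 : x ^ 4 = x ^ 2 * x ^ 2 := by rw [← pow_add]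
        have hy4 : y ^ 4 = y ^ 2 * y ^ 2 := by rw [← pow_add]
        rw [hx4, hy4]; group

/-- Let X be a finite 2-group whose derived subgroup is elementary abelian and central. Then the subgroup generated by the elements of order dividing 4 has exponent dividing 4, and every automorphism of X fixing each element of order dividing 4 has 2-power order. -/
theorem result {X : Type*} [Group X] [Finite X] (hX : IsPGroup 2 X)
    (hel : Cfsg.IsElementaryAbelian 2 (commutator X)) (hcen : commutator X ≤ Subgroup.center X) :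
    (∀ x ∈ Subgroup.closure {g : X | g ^ 4 = 1}, x ^ 4 = 1) ∧
      ∀ φ : MulAut X, (∀ g : X, g ^ 4 = 1 → φ g = g) → ∃ k : ℕ, φ ^ (2 ^ k) = 1 := by
  have hmem : ∀ x y : X, ⁅x, y⁆ ∈ commutator X := fun x y =>
    Subgroup.commutator_mem_commutator (Subgroup.mem_top x) (Subgroup.mem_top y)
  have hc : ∀ x y z : X, ⁅x, y⁆ * z = z * ⁅x, y⁆ := fun x y z =>
    ((Subgroup.mem_center_iff.mp (hcen (hmem x y))) z).symm
  have h2 : ∀ x y : X, ⁅x, y⁆ * ⁅x, y⁆ = 1 := fun x y => by
    rw [← pow_two]; exact hel.2 _ (hmem x y)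
  have h4 := mul_pow_four hc h2
  let F : X →* X := { toFun := fun x => x ^ 4, map_one' := one_pow 4, map_mul' := h4 }
  constructor
  · intro x hx
    have hle : Subgroup.closure {g : X | g ^ 4 = 1} ≤ F.ker := by
      rw [Subgroup.closure_le]
      intro g hg
      exact hg
    exact hle hx
  · intro φ hφ
    -- by induction on `j`: the elements with `x ^ 4 ^ j = 1` are fixed by `φ ^ 4 ^ j`
    have key : ∀ j : ℕ, ∀ x : X, x ^ (4 ^ j) = 1 → (φ ^ (4 ^ j)) x = x := by
      intro j
      induction j with
      | zero => 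
        intro x hx
        have : x = 1 := by simpa using hx
        simp [this]
      | succ j ih =>
        intro x hx
        have hx4 : (x ^ 4) ^ (4 ^ j) = 1 := by
          rw [← pow_mul, ← pow_succ']; exact hx
        have h1 : (φ ^ (4 ^ j)) (x ^ 4) = x ^ 4 := ih _ hx4
        set ψ := φ ^ (4 ^ j) with hψ
        set c := ψ x * x⁻¹ with hcdef
        have hc4 : c ^ 4 = 1 := by
          rw [hcdef, h4, ← map_pow, h1, inv_pow]; simp
        have hφc : φ c = c := hφ c hc4
        have hψc : ψ c = c := by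
          have : ∀ m : ℕ, (φ ^ m) c = c := by
            intro m
            induction m with
            | zero => simp
            | succ m ihm => rw [pow_succ]; simp only [MulAut.mul_apply]; rw [hφc, ihm]
          exact this _
        have hψx : ψ x = c * x := by rw [hcdef]; simp
        have hit : ∀ m : ℕ, (ψ ^ m) x = c ^ m * x := by
          intro m
          induction m with
          | zero => simp
          | succ m ihm =>
            rw [pow_succ']; simp only [MulAut.mul_apply]
            rw [ihm, map_mul, map_pow, hψc, hψx, ← mul_assoc, ← pow_succ]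
        have : (φ ^ (4 ^ (j + 1))) x = (ψ ^ 4) x := by
          rw [hψ, ← pow_mul, ← pow_succ]
        rw [this, hit, hc4, one_mul]
    obtain ⟨n, hn⟩ := (IsPGroup.iff_card.mp hX)
    refine ⟨2 * n, ?_⟩
    ext x
    have hx : x ^ (4 ^ n) = 1 := by
      have h : x ^ (2 ^ n) = 1 := by
        rw [← hn]; exact pow_card_eq_one'
      have : (4 : ℕ) ^ n = 2 ^ n * 2 ^ n := by
        rw [← mul_pow]; norm_num
      rw [this, pow_mul, h, one_pow]
    have := key n x hx
    rw [pow_mul]
    simpa using this

end Cfsg.Agent.S1898
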