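import Cfsg.Statements.S1899
-- import your own Cfsg.Agent.* helpers here

set_option autoImplicit false
open Cfsg

namespace Cfsg.Agent.S1899

/-- Let a dihedral group of order 2n, n odd and n > 1, act on a finite abelian 2-group A through automorphisms d and t with d^n = 1, t² = 1 and t d t⁻¹ = d⁻¹, and suppose that d fixes only the identity. Then A is the internal direct product of C_A(t) and its image under d. -/
theorem result {A : Type*} [CommGroup A] [Finite A] (hA : IsPGroup 2 A)
    {n : ℕ} (hn : Odd n) (hn1 : 1 < n) (d t : MulAut A) (hd : d ^ n = 1) (ht : t ^ 2 = 1) (hdt : t * d * t⁻¹ = d⁻¹)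
    (hfix : ∀ a : A, d a = a → a = 1) :
    (MulEquiv.toMonoidHom t).eqLocus (MonoidHom.id A) ⊓ ((MulEquiv.toMonoidHom t).eqLocus (MonoidHom.id A)).map d.toMonoidHom = ⊥ ∧
      (MulEquiv.toMonoidHom t).eqLocus (MonoidHom.id A) ⊔ ((MulEquiv.toMonoidHom t).eqLocus (MonoidHom.id A)).map d.toMonoidHom = ⊤ := by
  -- elementwise relations
  have htd : t * d = d⁻¹ * t := by
    rw [← hdt]; group
  have htd' : t * d⁻¹ = d * t := by
    have h1 : t * d⁻¹ * t⁻¹ = d := by
      have := congrArg (·⁻¹) hdt
      simp only [mul_inv_rev, inv_inv] at this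
      rw [mul_assoc]; exact this
    calc t * d⁻¹ = t * d⁻¹ * t⁻¹ * t := by group
      _ = d * t := by rw [h1]
  have htd_app : ∀ a : A, t (d a) = d⁻¹ (t a) := fun a => by
    have := congrArg (fun f : MulAut A => f a) htd
    simpa using this
  have htd'_app : ∀ a : A, t (d⁻¹ a) = d (t a) := fun a => by
    have := congrArg (fun f : MulAut A => f a) htd'
    simpa using this
  have htt : ∀ a : A, t (t a) = a := fun a => by
    have := congrArg (fun f : MulAut A => f a) ht
    simpa [pow_two] using this
  -- `d c = d⁻¹ c` forces `c = 1`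
  have hkey : ∀ c : A, d c = d⁻¹ c → c = 1 := by
    intro c hc
    have h2 : (d ^ 2) c = c := by
      have : d (d c) = d (d⁻¹ c) := by rw [hc]
      rw [pow_two]
      simpa using this
    apply hfix
    obtain ⟨m, hm⟩ := hn
    have h3 : ∀ k : ℕ, ((d ^ 2) ^ k) c = c := by
      intro k
      induction k with
      | zero => simp
      | succ k ih => rw [pow_succ]; simp only [MulAut.mul_apply]; rw [h2, ih]
    have h4 : (d ^ n) c = c := by rw [hd]; rfl
    rw [hm, pow_succ, pow_mul] at h4
    have h5 : ((d ^ 2) ^ m) (d c) = c := by simpa using h4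
    have h6 : d (((d ^ 2) ^ m) c) = ((d ^ 2) ^ m) (d c) := by
      have : d * (d ^ 2) ^ m = (d ^ 2) ^ m * d := by
        rw [← pow_mul, ← pow_succ, ← pow_succ']
      have := congrArg (fun f : MulAut A => f c) this
      simpa using this
    rw [h3 m] at h6
    rw [h6, h5]
  -- the endomorphism c ↦ d c / d⁻¹ c is injective
  let f : A →* A :=
    { toFun := fun c => d c * (d⁻¹ c)⁻¹
      map_one' := by simp
      map_mul' := fun x y => by
        simp only [map_mul, mul_inv_rev]
        rw [mul_comm (d⁻¹ y)⁻¹, mul_mul_mul_comm] }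
  have hf : Function.Injective f := by
    rw [injective_iff_map_eq_one]
    intro c hc
    apply hkey
    have : d c * (d⁻¹ c)⁻¹ = 1 := hc
    exact mul_inv_eq_one.mp this
  have hfs : Function.Surjective f := Finite.injective_iff_surjective.mp hf
  constructor
  · rw [eq_bot_iff]
    rintro x ⟨hx1, hx2⟩
    obtain ⟨c, hc, rfl⟩ := hx2
    have hc' : t c = c := hc
    have hx1' : t (d c) = d c := hx1
    rw [htd_app, hc'] at hx1'
    have := hkey c hx1'.symm
    subst this
    simp
  · rw [eq_top_iff]
    intro a _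
    obtain ⟨c, hc⟩ := hfs (a * (t a)⁻¹)
    have hc' : d c * (d⁻¹ c)⁻¹ = a * (t a)⁻¹ := hc
    have htc : t c = c := by
      apply hf
      rw [hc]
      show d (t c) * (d⁻¹ (t c))⁻¹ = _
      rw [← htd'_app, ← htd_app, ← map_inv, ← map_mul]
      have : d⁻¹ c * (d c)⁻¹ = (a * (t a)⁻¹)⁻¹ := by
        rw [← hc']; simp
      rw [this]
      simp [htt, mul_comm]
    have h1 : d c ∈ ((MulEquiv.toMonoidHom t).eqLocus (MonoidHom.id A)).map d.toMonoidHom :=
      ⟨c, htc, rfl⟩
    have h2 : a * (d c)⁻¹ ∈ (MulEquiv.toMonoidHom t).eqLocus (MonoidHom.id A) := by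
      show t (a * (d c)⁻¹) = a * (d c)⁻¹
      rw [map_mul, map_inv, htd_app, htc]
      have : a = d c * (d⁻¹ c)⁻¹ * t a := by rw [hc']; simp
      conv_rhs => rw [this]
      rw [mul_comm (d c), mul_comm, mul_assoc, mul_assoc, mul_comm (d c), mul_assoc]
      simp
    have : a = (a * (d c)⁻¹) * d c := by simp
    rw [this]
    exact Subgroup.mul_mem_sup h2 h1

end Cfsg.Agent.S1899
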