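import Cfsg.Statements.S1900
-- import your own Cfsg.Agent.* helpers here
import Cfsg.Agent.Lib.CoprimeHyperplane

set_option autoImplicit false
open Cfsg
open scoped commutatorElement

namespace Cfsg.Agent.S1900

open Cfsg.Agent.Lib.CoprimeHyperplane

/-- Fixed points and quotients: if `X ≤ A` has nontrivial fixed points on `R / N`, it has nontrivial
fixed points on `R`. -/
theorem fix_quot_ne_bot {q : ℕ} [Fact q.Prime] {A R : Type*} [CommGroup A] [Group R] [Finite R]
    (φ : A →* MulAut R) (N : Subgroup R) [N.Normal] (hN : ∀ a, ∀ x ∈ N, φ a x ∈ N)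
    (ψ : A →* MulAut (R ⧸ N)) (hψ : ∀ a x, ψ a (QuotientGroup.mk x) = QuotientGroup.mk (φ a x))
    (hq : ¬ q ∣ Nat.card N) (X : Subgroup A) (hX : IsPGroup q X)
    (h : fix φ X = ⊥) : fix ψ X = ⊥ := by
  rw [eq_bot_iff]
  intro y hy
  obtain ⟨x, rfl⟩ := QuotientGroup.mk_surjective y
  have hx : ∀ b ∈ X, x⁻¹ * φ b x ∈ N := by
    intro b hb
    have h1 := hy b hb
    rw [hψ] at h1
    exact QuotientGroup.eq.mp h1.symm
  obtain ⟨z, hz, hxz⟩ := exists_fixed_in_coset φ hX hq (fun b _ x hx => hN b x hx) x hx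
  rw [h, Subgroup.mem_bot] at hz
  subst hz
  rw [Subgroup.mem_bot, QuotientGroup.eq_one_iff]
  have := N.inv_mem hxz
  simpa using this

/-- The step: `[x, z]` lies in a central subgroup fixed by `a`, `x` is fixed by `a`, and `z = y⁻¹ a(y)`. -/
theorem commute_step {R : Type*} [Group R] (f : MulAut R) (x y : R) (hx : f x = x)
    (hf : f ⁅x, y⁆ = ⁅x, y⁆) : Commute x (y⁻¹ * f y) := by
  have h1 : ⁅x, f y⁆ = ⁅x, y⁆ := by
    rw [← hf, map_commutatorElement, hx]
  set c := ⁅x, y⁆ with hcdef
  have e1 : x * y * x⁻¹ = c * y := by rw [hcdef, commutatorElement_def]; group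
  have e2 : x * f y * x⁻¹ = c * f y := by rw [← h1, commutatorElement_def]; group
  have e3 : x * (y⁻¹ * f y) * x⁻¹ = y⁻¹ * f y := by
    calc x * (y⁻¹ * f y) * x⁻¹ = (x * y * x⁻¹)⁻¹ * (x * f y * x⁻¹) := by group
      _ = (c * y)⁻¹ * (c * f y) := by rw [e1, e2]
      _ = y⁻¹ * f y := by group
  show x * (y⁻¹ * f y) = (y⁻¹ * f y) * x
  calc x * (y⁻¹ * f y) = (x * (y⁻¹ * f y) * x⁻¹) * x := by group
    _ = (y⁻¹ * f y) * x := by rw [e3]

/-- One half of the induction step, with `fix φ X₁ ⊓ Z(R) ≠ 1`. -/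
theorem abs_half {q : ℕ} [Fact q.Prime] {A : Type*} [CommGroup A] [Finite A]
    {R : Type*} [Group R] [Finite R] (φ : A →* MulAut R)
    (X₁ X₂ : Subgroup A) (hc₁ : Nat.card X₁ = q) (h12 : X₁ ⊔ X₂ = ⊤) (hfix : fix φ ⊤ = ⊥)
    (hcom : ∀ x ∈ fix φ X₁, ∀ y ∈ fix φ X₂, ⁅x, y⁆ ∈ fix φ X₁ ⊓ Subgroup.center R) :
    ∀ x ∈ fix φ X₁, ∀ y ∈ fix φ X₂, Commute x y := by
  have hq : q.Prime := Fact.out
  -- a generator of `X₁`
  have : Nontrivial X₁ := by
    rw [← Finite.one_lt_card_iff_nontrivial, hc₁]; exact hq.one_lt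
  obtain ⟨a, ha⟩ := exists_ne (1 : X₁)
  have hgen : Subgroup.zpowers a = ⊤ := zpowers_eq_top_of_prime_card hc₁ ha
  -- elements fixed by `a` are fixed by `X₁`
  have hfa : ∀ x : R, φ a x = x → x ∈ fix φ X₁ := by
    intro x hx b hb
    have hb' : (⟨b, hb⟩ : X₁) ∈ Subgroup.zpowers a := by rw [hgen]; trivial
    obtain ⟨k, hk⟩ := Subgroup.mem_zpowers_iff.mp hb'
    have hbk : b = (a : A) ^ k := by
      have := congrArg Subtype.val hk
      simpa using this.symm
    have hst : φ (a : A) ∈ MulAction.stabilizer (MulAut R) x := by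
      rw [MulAction.mem_stabilizer_iff]; exact hx
    have hst' : (φ (a : A)) ^ k ∈ MulAction.stabilizer (MulAut R) x := Subgroup.zpow_mem _ hst k
    rw [MulAction.mem_stabilizer_iff] at hst'
    rw [hbk, map_zpow]
    exact hst'
  -- the map `y ↦ y⁻¹ a(y)` on `fix φ X₂`
  let f : fix φ X₂ → fix φ X₂ := fun y =>
    ⟨(y : R)⁻¹ * φ a y, (fix φ X₂).mul_mem ((fix φ X₂).inv_mem y.2) (fix_invariant φ X₂ a y.2)⟩
  have hf : Function.Injective f := by
    intro y z hyz
    have h1 : (y : R)⁻¹ * φ a y = (z : R)⁻¹ * φ a z := congrArg Subtype.val hyz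
    have h2 : φ a ((y : R) * (z : R)⁻¹) = (y : R) * (z : R)⁻¹ := by
      rw [map_mul, map_inv]
      have : φ (a : A) y = (y : R) * ((z : R)⁻¹ * φ a z) := by rw [← h1]; group
      rw [this]; group
    have h3 := hfa _ h2
    have h4 : (y : R) * (z : R)⁻¹ ∈ fix φ X₂ :=
      (fix φ X₂).mul_mem y.2 ((fix φ X₂).inv_mem z.2)
    have h5 : (y : R) * (z : R)⁻¹ ∈ fix φ ⊤ := by
      intro b _
      have hb : b ∈ X₁ ⊔ X₂ := by rw [h12]; trivial
      have hle : X₁ ⊔ X₂ ≤ (MulAction.stabilizer (MulAut R) ((y : R) * (z : R)⁻¹)).comap φ := by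
        rw [sup_le_iff]
        constructor
        · intro c hc
          rw [Subgroup.mem_comap, MulAction.mem_stabilizer_iff]
          exact h3 c hc
        · intro c hc
          rw [Subgroup.mem_comap, MulAction.mem_stabilizer_iff]
          exact h4 c hc
      have := hle hb
      rw [Subgroup.mem_comap, MulAction.mem_stabilizer_iff] at this
      exact this
    rw [hfix, Subgroup.mem_bot] at h5
    exact Subtype.ext (mul_inv_eq_one.mp h5)
  have hfs : Function.Surjective f := Finite.injective_iff_surjective.mp hf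
  intro x hx y hy
  obtain ⟨z, hz⟩ := hfs ⟨y, hy⟩
  have hz' : (z : R)⁻¹ * φ a z = y := congrArg Subtype.val hz
  rw [← hz']
  have h := hcom x hx z z.2
  rw [Subgroup.mem_inf] at h
  exact commute_step (φ a) x z (hx a a.2) (h.1 a a.2)

/-- The abstract form. -/
theorem abs {p q : ℕ} [Fact p.Prime] [Fact q.Prime] (hpq : p ≠ q) {A : Type*} [CommGroup A] [Finite A]
    (hA : ∀ a : A, a ^ q = 1) (hAc : Nat.card A = q ^ 2) (X₁ X₂ : Subgroup A)
    (hc₁ : Nat.card X₁ = q) (hc₂ : Nat.card X₂ = q) (h12 : X₁ ⊔ X₂ = ⊤) :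
    ∀ (n : ℕ) (R : Type*) [Group R] [Finite R], Nat.card R = n → IsPGroup p R →
      ∀ (φ : A →* MulAut R), fix φ ⊤ = ⊥ →
      (∀ X : Subgroup A, Nat.card X = q → fix φ X ≠ ⊥ → X = X₁ ∨ X = X₂) →
      ∀ x ∈ fix φ X₁, ∀ y ∈ fix φ X₂, Commute x y := by
  intro n
  induction n using Nat.strong_induction_on with
  | _ n ih =>
  intro R _ _ hn hR φ hfix honly
  have hq : q.Prime := Fact.out
  have hpA : IsPGroup q A := fun a => ⟨1, by rw [pow_one]; exact hA a⟩
  have hAnt : Nontrivial A := by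
    rw [← Finite.one_lt_card_iff_nontrivial, hAc]
    exact Nat.one_lt_pow two_ne_zero hq.one_lt
  have hpc : Nat.Coprime q (Nat.card R) := by
    obtain ⟨n, hn⟩ := IsPGroup.iff_card.1 hR
    rw [hn]
    exact Nat.Coprime.pow_right n
      ((Nat.coprime_primes (Fact.out : q.Prime) (Fact.out : p.Prime)).2 hpq.symm)
  have hqN : ∀ N : Subgroup R, ¬ q ∣ Nat.card N := by
    intro N hdvd
    have := Nat.eq_one_of_dvd_coprimes hpc dvd_rfl (hdvd.trans (Subgroup.card_subgroup_dvd_card N))
    exact hq.one_lt.ne' this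
  rcases subsingleton_or_nontrivial R with hs | hnt
  · intro x _ y _
    exact Subsingleton.elim _ _
  · -- the centre
    have hZnt : Nontrivial (Subgroup.center R) := hR.center_nontrivial
    have hZinv : ∀ a : A, ∀ x ∈ Subgroup.center R, φ a x ∈ Subgroup.center R := by
      intro a x hx
      have h2 := (Subgroup.characteristic_iff_map_le.1
            (inferInstance : (Subgroup.center R).Characteristic)) (φ a)
      exact h2 ⟨x, hx, rfl⟩
    let φZ : A →* MulAut (Subgroup.center R) := 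
      { toFun := fun a => 
          { toFun := fun x => ⟨φ a x, hZinv a x x.2⟩
            invFun := fun x => ⟨φ a⁻¹ x, hZinv a⁻¹ x x.2⟩
            left_inv := fun x => by
              apply Subtype.ext
              show φ a⁻¹ (φ a (x : R)) = x
              rw [← MulAut.mul_apply, ← map_mul]; simp
            right_inv := fun x => by
              apply Subtype.ext
              show φ a (φ a⁻¹ (x : R)) = x
              rw [← MulAut.mul_apply, ← map_mul]; simp
            map_mul' := fun x y => by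
              apply Subtype.ext
              show φ a ((x * y : Subgroup.center R) : R) = φ a x * φ a y
              simp }
        map_one' := by
          ext x
          show φ 1 (x : R) = x
          simp
        map_mul' := fun a b => by
          ext x
          show φ (a * b) (x : R) = φ a (φ b x)
          simp }
    have hgen := iSup_fix_eq_top_of_isPGroup φZ hpq.symm hA (hR.to_subgroup (Subgroup.center R))
    have hex : ∃ B : Subgroup A, B.index = q ∧ fix φZ B ≠ ⊥ := by
      by_contra hcon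
      push Not at hcon
      have : (⨆ B : {B : Subgroup A // B.index = q}, fix φZ B.1) = ⊥ := by
        rw [eq_bot_iff]
        refine iSup_le fun B => ?_
        rw [hcon B.1 B.2]
      rw [this] at hgen
      exact absurd hgen bot_ne_top
    obtain ⟨B, hBi, hB⟩ := hex
    have hBc : Nat.card B = q := by
      have h1 := B.card_mul_index
      rw [hBi, hAc, pow_two] at h1
      exact Nat.eq_of_mul_eq_mul_right hq.pos h1
    have hBZ : fix φ B ⊓ Subgroup.center R ≠ ⊥ := by
      intro hbot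
      apply hB
      rw [eq_bot_iff]
      intro z hz
      have : (z : R) ∈ fix φ B ⊓ Subgroup.center R := by
        refine Subgroup.mem_inf.2 ⟨fun b hb => ?_, z.2⟩
        exact congrArg Subtype.val (hz b hb)
      rw [hbot, Subgroup.mem_bot] at this
      rw [Subgroup.mem_bot]
      exact Subtype.ext this
    have hBne : fix φ B ≠ ⊥ := fun h => hBZ (by rw [h, bot_inf_eq])
    -- the induction step for `N = fix φ B ⊓ Z(R)`
    have hstep : ∀ x ∈ fix φ X₁, ∀ y ∈ fix φ X₂, ⁅x, y⁆ ∈ fix φ B ⊓ Subgroup.center R := by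
      set N := fix φ B ⊓ Subgroup.center R with hNdef
      have hNn : N.Normal := by
        refine ⟨fun x hx g => ?_⟩
        have h1 : g * x * g⁻¹ = x := by
          have := Subgroup.mem_center_iff.mp (Subgroup.mem_inf.1 hx).2 g
          rw [this]; group
        rw [h1]; exact hx
      have hNinv : ∀ a, ∀ x ∈ N, φ a x ∈ N := by
        intro a x hx
        exact Subgroup.mem_inf.2 ⟨fix_invariant φ B a (Subgroup.mem_inf.1 hx).1,
          hZinv a x (Subgroup.mem_inf.1 hx).2⟩
      have hNinv' : ∀ a : A, N.map (φ a).toMonoidHom = N := by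
        intro a
        apply le_antisymm
        · rintro _ ⟨x, hx, rfl⟩
          exact hNinv a x hx
        · intro x hx
          refine ⟨φ a⁻¹ x, hNinv a⁻¹ x hx, ?_⟩
          show φ a (φ a⁻¹ x) = x
          rw [← MulAut.mul_apply, ← map_mul]; simp
      let ψ : A →* MulAut (R ⧸ N) :=
        { toFun := fun a => QuotientGroup.congr N N (φ a) (hNinv' a)
          map_one' := by
            ext x
            obtain ⟨x, rfl⟩ := QuotientGroup.mk_surjective x
            show QuotientGroup.mk (φ 1 x) = QuotientGroup.mk x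
            simp
          map_mul' := fun a b => by
            ext x
            obtain ⟨x, rfl⟩ := QuotientGroup.mk_surjective x
            show (QuotientGroup.mk (φ (a * b) x) : R ⧸ N) = QuotientGroup.mk (φ a (φ b x))
            simp }
      have hψ : ∀ a x, ψ a (QuotientGroup.mk x) = QuotientGroup.mk (φ a x) := fun a x => rfl
      have hcard : Nat.card (R ⧸ N) < n := by
        rw [← hn]
        have h1 := Subgroup.card_eq_card_quotient_mul_card_subgroup N
        have h2 : 1 < Nat.card N := by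
          rw [Finite.one_lt_card_iff_nontrivial]
          exact (Subgroup.nontrivial_iff_ne_bot N).2 hBZ
        have h3 : 0 < Nat.card (R ⧸ N) := Nat.card_pos
        rw [h1]
        nlinarith
      have hq' := hqN N
      have key := ih _ hcard (R ⧸ N) rfl (hR.to_quotient N) ψ
        (fix_quot_ne_bot φ N hNinv ψ hψ hq' ⊤ (hpA.to_subgroup ⊤) hfix)
        (fun X hX hXf => honly X hX (fun h => hXf
          (fix_quot_ne_bot φ N hNinv ψ hψ hq' X (hpA.to_subgroup X) h)))
      intro x hx y hy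
      have h1 := key (QuotientGroup.mk x) (fun b hb => by rw [hψ, hx b hb])
        (QuotientGroup.mk y) (fun b hb => by rw [hψ, hy b hb])
      rw [← QuotientGroup.eq_one_iff]
      have h2 : ((⁅x, y⁆ : R) : R ⧸ N) = ⁅(x : R ⧸ N), (y : R ⧸ N)⁆ := by
        rw [commutatorElement_def, commutatorElement_def]; rfl
      rw [h2]
      exact commutatorElement_eq_one_iff_commute.mpr h1
    rcases honly B hBc hBne with h | h
    · subst h
      exact abs_half φ B X₂ hc₁ h12 hfix hstep
    · subst h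
      intro x hx y hy
      refine (abs_half φ B X₁ hc₂ (by rw [sup_comm]; exact h12) hfix ?_ y hy x hx).symm
      intro y hy x hx
      have := hstep x hx y hy
      rw [← commutatorElement_inv]
      exact Subgroup.inv_mem _ this

/-- Let S = PQ be a finite group with P a normal Sylow p-subgroup and Q elementary abelian of order q², q a prime different from p. If exactly two subgroups X₁, X₂ of order q in Q have a nontrivial centralizer in P, then P is the internal direct product of C_P(X₁) and C_P(X₂): they commute elementwise, meet trivially and generate P. -/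
theorem result {S : Type*} [Group S] [Finite S] {p q : ℕ} [Fact p.Prime] [Fact q.Prime] (hpq : p ≠ q)
    (P : Sylow p S) [(P : Subgroup S).Normal] (Q : Subgroup S) (hQ : Cfsg.IsElementaryAbelian q Q) (hQc : Nat.card Q = q ^ 2)
    (hS : (P : Subgroup S) ⊔ Q = ⊤)
    (X₁ X₂ : Subgroup S) (h₁ : X₁ ≤ Q) (h₂ : X₂ ≤ Q) (h₁₂ : X₁ ≠ X₂) (hc₁ : Nat.card X₁ = q) (hc₂ : Nat.card X₂ = q)
    (hf₁ : (P : Subgroup S) ⊓ Subgroup.centralizer (X₁ : Set S) ≠ ⊥)
    (hf₂ : (P : Subgroup S) ⊓ Subgroup.centralizer (X₂ : Set S) ≠ ⊥)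
    (honly : ∀ X : Subgroup S, X ≤ Q → Nat.card X = q →
      (P : Subgroup S) ⊓ Subgroup.centralizer (X : Set S) ≠ ⊥ → X = X₁ ∨ X = X₂) :
    ⁅(P : Subgroup S) ⊓ Subgroup.centralizer (X₁ : Set S), (P : Subgroup S) ⊓ Subgroup.centralizer (X₂ : Set S)⁆ = ⊥ ∧
      ((P : Subgroup S) ⊓ Subgroup.centralizer (X₁ : Set S)) ⊓ ((P : Subgroup S) ⊓ Subgroup.centralizer (X₂ : Set S)) = ⊥ ∧
      ((P : Subgroup S) ⊓ Subgroup.centralizer (X₁ : Set S)) ⊔ ((P : Subgroup S) ⊓ Subgroup.centralizer (X₂ : Set S)) = P := by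
  have hq : q.Prime := Fact.out
  have hp : p.Prime := Fact.out
  obtain ⟨hQcomm, hQq⟩ := hQ
  have hQP : Q ≤ Subgroup.normalizer ((P : Subgroup S) : Set S) := by
    rw [Subgroup.normalizer_eq_top_iff.mpr inferInstance]; exact le_top
  have hPq : ¬ q ∣ Nat.card (P : Subgroup S) := by
    obtain ⟨k, hk⟩ := IsPGroup.iff_card.1 P.isPGroup'
    rw [hk]
    intro h
    exact hpq ((Nat.prime_dvd_prime_iff_eq hq hp).mp (hq.dvd_of_dvd_pow h)).symm
  have hQ1 : Q ≠ ⊥ := by
    rintro rfl
    rw [Subgroup.card_bot] at hQc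
    exact (Nat.one_lt_pow two_ne_zero hq.one_lt).ne hQc
  -- generators of `X₁`, `X₂`
  have hgen : ∀ X : Subgroup S, Nat.card X = q → ∃ a ∈ X, a ≠ 1 ∧ Subgroup.zpowers a = X := by
    intro X hX
    have : Nontrivial X := by
      rw [← Finite.one_lt_card_iff_nontrivial, hX]; exact hq.one_lt
    obtain ⟨a, ha⟩ := exists_ne (1 : X)
    refine ⟨a, a.2, fun h => ha (Subtype.ext h), ?_⟩
    have hgen : Subgroup.zpowers a = ⊤ := zpowers_eq_top_of_prime_card hX ha
    have := congrArg (Subgroup.map X.subtype) hgen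
    rw [MonoidHom.map_zpowers, ← MonoidHom.range_eq_map, Subgroup.range_subtype] at this
    exact this
  have hinter : ∀ X Y : Subgroup S, Nat.card X = q → Nat.card Y = q → X ≠ Y → X ⊓ Y = ⊥ := by
    intro X Y hX hY hne
    by_contra hb
    apply hne
    have h1 : Nat.card (X ⊓ Y : Subgroup S) ∣ q := by
      rw [← hX]; exact Subgroup.card_dvd_of_le inf_le_left
    have h2 : Nat.card (X ⊓ Y : Subgroup S) = q := by
      rcases (Nat.dvd_prime hq).mp h1 with h | h
      · exact absurd (Subgroup.card_eq_one.mp h) hb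
      · exact h
    have h3 : X ⊓ Y = X := Subgroup.eq_of_le_of_card_ge inf_le_left (by rw [h2, hX])
    have h4 : X ⊓ Y = Y := Subgroup.eq_of_le_of_card_ge inf_le_right (by rw [h2, hY])
    rw [← h3, h4]
  obtain ⟨a₁, ha₁, ha₁1, hz₁⟩ := hgen X₁ hc₁
  obtain ⟨a₂, ha₂, ha₂1, hz₂⟩ := hgen X₂ hc₂
  have hbot := hinter X₁ X₂ hc₁ hc₂ h₁₂
  have hsup : X₁ ⊔ X₂ = Q := by
    apply Subgroup.eq_of_le_of_card_ge (sup_le h₁ h₂)
    have h1 : Nat.card (X₁ ⊔ X₂ : Subgroup S) ∣ q ^ 2 := by
      rw [← hQc]; exact Subgroup.card_dvd_of_le (sup_le h₁ h₂)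
    obtain ⟨k, hk, hk'⟩ := (Nat.dvd_prime_pow hq).mp h1
    have hk2 : ¬ k ≤ 1 := by
      intro hk1
      have h2 : Nat.card (X₁ ⊔ X₂ : Subgroup S) ≤ q := by
        rw [hk']
        calc q ^ k ≤ q ^ 1 := Nat.pow_le_pow_right hq.pos hk1
          _ = q := pow_one q
      have h3 : X₁ = X₁ ⊔ X₂ := Subgroup.eq_of_le_of_card_ge le_sup_left (by rw [hc₁]; exact h2)
      have h4 : X₂ = X₁ ⊔ X₂ := Subgroup.eq_of_le_of_card_ge le_sup_right (by rw [hc₂]; exact h2)
      exact h₁₂ (h3.trans h4.symm)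
    have : k = 2 := by omega
    rw [hk', hQc, this]
  -- a third subgroup
  have hcommQ : ∀ x ∈ Q, ∀ y ∈ Q, x * y = y * x := by
    intro x hx y hy
    have := hQcomm.is_comm.comm (⟨x, hx⟩ : Q) ⟨y, hy⟩
    exact congrArg Subtype.val this
  have hthird : ∃ X₃ : Subgroup S, X₃ ≤ Q ∧ Nat.card X₃ = q ∧ X₃ ≠ X₁ ∧ X₃ ≠ X₂ := by
    have hb1 : a₁ * a₂ ∈ Q := Q.mul_mem (h₁ ha₁) (h₂ ha₂)
    have hn1 : a₁ * a₂ ∉ X₁ := by
      intro h
      have : a₂ ∈ X₁ ⊓ X₂ := ⟨(Subgroup.mul_mem_cancel_left X₁ ha₁).mp h, ha₂⟩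
      rw [hbot, Subgroup.mem_bot] at this
      exact ha₂1 this
    have hn2 : a₁ * a₂ ∉ X₂ := by
      intro h
      have : a₁ ∈ X₁ ⊓ X₂ := ⟨ha₁, (Subgroup.mul_mem_cancel_right X₂ ha₂).mp h⟩
      rw [hbot, Subgroup.mem_bot] at this
      exact ha₁1 this
    refine ⟨Subgroup.zpowers (a₁ * a₂), ?_, ?_, ?_, ?_⟩
    · rw [Subgroup.zpowers_le]; exact hb1
    · rw [Nat.card_zpowers]
      apply orderOf_eq_prime (hQq _ hb1)
      intro h
      exact hn1 (by rw [h]; exact X₁.one_mem)
    · intro h; exact hn1 (by rw [← h]; exact Subgroup.mem_zpowers _)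
    · intro h; exact hn2 (by rw [← h]; exact Subgroup.mem_zpowers _)
  have hCQ : (P : Subgroup S) ⊓ Subgroup.centralizer (Q : Set S) = ⊥ := by
    by_contra hne
    obtain ⟨X₃, h3, hc3, hn1, hn2⟩ := hthird
    have : (P : Subgroup S) ⊓ Subgroup.centralizer (X₃ : Set S) ≠ ⊥ := by
      intro h
      apply hne
      rw [eq_bot_iff, ← h]
      exact inf_le_inf_left _ (Subgroup.centralizer_le h3)
    rcases honly X₃ h3 hc3 this with h | h
    · exact hn1 h
    · exact hn2 h
  -- the action
  let cA : CommGroup Q :=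
    { (inferInstance : Group Q) with mul_comm := fun x y => hQcomm.is_comm.comm x y }
  let φ : Q →* MulAut (P : Subgroup S) := conjHom hQP
  have hφ : ∀ (a : Q) (x : (P : Subgroup S)), ((φ a x : (P : Subgroup S)) : S) = a * x * (a : S)⁻¹ :=
    fun a x => rfl
  have hfix : ∀ (X : Subgroup S) (x : (P : Subgroup S)), X ≤ Q →
      (x ∈ fix φ (X.subgroupOf Q) ↔ (x : S) ∈ Subgroup.centralizer (X : Set S)) := by
    intro X x hX
    rw [mem_fix, Subgroup.mem_centralizer_iff]
    constructor
    · intro h b hb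
      have := congrArg Subtype.val (h ⟨b, hX hb⟩ (by rw [Subgroup.mem_subgroupOf]; exact hb))
      rw [hφ] at this
      exact mul_inv_eq_iff_eq_mul.1 this
    · intro h b hb
      apply Subtype.ext
      rw [hφ]
      exact mul_inv_eq_iff_eq_mul.2 (h b (Subgroup.mem_subgroupOf.mp hb))
  have hfixbot : ∀ X : Subgroup S, X ≤ Q →
      (fix φ (X.subgroupOf Q) = ⊥ ↔ (P : Subgroup S) ⊓ Subgroup.centralizer (X : Set S) = ⊥) := by
    intro X hX
    constructor
    · intro h
      rw [eq_bot_iff]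
      intro x hx
      have h1 := (hfix X ⟨x, hx.1⟩ hX).mpr hx.2
      rw [h, Subgroup.mem_bot] at h1
      exact congrArg Subtype.val h1
    · intro h
      rw [eq_bot_iff]
      intro x hx
      have h1 : (x : S) ∈ (P : Subgroup S) ⊓ Subgroup.centralizer (X : Set S) :=
        ⟨x.2, (hfix X x hX).mp hx⟩
      rw [h, Subgroup.mem_bot] at h1
      exact Subtype.ext h1
  have key := abs hpq (A := Q) (fun a => Subtype.ext (by simpa using hQq a a.2)) hQc
    (X₁.subgroupOf Q) (X₂.subgroupOf Q)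
    (by rw [Nat.card_congr (Subgroup.subgroupOfEquivOfLe h₁).toEquiv, hc₁])
    (by rw [Nat.card_congr (Subgroup.subgroupOfEquivOfLe h₂).toEquiv, hc₂])
    (by
      rw [← Subgroup.subgroupOf_sup h₁ h₂, hsup, Subgroup.subgroupOf_self])
    _ (P : Subgroup S) rfl P.isPGroup' φ
    (by
      have := (hfixbot Q le_rfl).mpr hCQ
      rwa [Subgroup.subgroupOf_self] at this)
    (by
      intro X hX hXf
      have hXX : X = (X.map Q.subtype).subgroupOf Q := by
        rw [Subgroup.subgroupOf, Subgroup.comap_map_eq_self_of_injective (Subgroup.subtype_injective Q)]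
      have h1 := honly (X.map Q.subtype) (Subgroup.map_subtype_le X)
        (by rw [Subgroup.card_map_of_injective (Subgroup.subtype_injective Q), hX]) (by
          intro h
          apply hXf
          rw [hXX]
          exact (hfixbot _ (Subgroup.map_subtype_le X)).mpr h)
      rcases h1 with h | h
      · left; rw [← h]; exact hXX
      · right; rw [← h]; exact hXX)
  refine ⟨?_, ?_, ?_⟩
  · rw [Subgroup.commutator_eq_bot_iff_le_centralizer]
    intro x hx
    rw [Subgroup.mem_centralizer_iff]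
    intro y hy
    have := key ⟨x, hx.1⟩ ((hfix X₁ _ h₁).mpr hx.2) ⟨y, hy.1⟩ ((hfix X₂ _ h₂).mpr hy.2)
    exact (congrArg Subtype.val this).symm
  · rw [eq_bot_iff, ← hCQ]
    intro x hx
    refine ⟨hx.1.1, ?_⟩
    rw [← hsup]
    have h1 : X₁ ≤ Subgroup.centralizer ({x} : Set S) := by
      intro b hb
      rw [Subgroup.mem_centralizer_singleton_iff]
      exact Subgroup.mem_centralizer_iff.mp hx.1.2 b hb
    have h2 : X₂ ≤ Subgroup.centralizer ({x} : Set S) := by
      intro b hb
      rw [Subgroup.mem_centralizer_singleton_iff]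
      exact Subgroup.mem_centralizer_iff.mp hx.2.2 b hb
    have h3 := sup_le h1 h2
    show x ∈ Subgroup.centralizer ((X₁ ⊔ X₂ : Subgroup S) : Set S)
    rw [Subgroup.mem_centralizer_iff]
    intro b hb
    exact Subgroup.mem_centralizer_singleton_iff.mp (h3 hb)
  · apply le_antisymm
    · exact sup_le inf_le_left inf_le_left
    · have h := iSup_centralizer_hyperplane (A := Q) (Q := (P : Subgroup S)) (p := q)
        ⟨hQcomm, hQq⟩ hQ1 hPq hQP
      conv_lhs => rw [← h]
      refine iSup_le fun B => ?_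
      have hBc : Nat.card B.1 = q := by
        have h2 : Nat.card B.1 * q = q ^ 2 := by
          rw [← hQc, ← Subgroup.card_mul_index (B.1.subgroupOf Q), ← Subgroup.relIndex, B.2.2,
            Nat.card_congr (Subgroup.subgroupOfEquivOfLe B.2.1).toEquiv]
        rw [pow_two] at h2
        exact Nat.eq_of_mul_eq_mul_right hq.pos h2
      by_cases hB : (P : Subgroup S) ⊓ Subgroup.centralizer ((B.1 : Subgroup S) : Set S) = ⊥
      · rw [hB]; exact bot_le
      · rcases honly B.1 B.2.1 hBc hB with h | h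
        · rw [h]; exact le_sup_left
        · rw [h]; exact le_sup_right

end Cfsg.Agent.S1900
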