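import Cfsg.Statements.S1901
-- import your own Cfsg.Agent.* helpers here
import Cfsg.Agent.Lib.CoprimeStab

set_option autoImplicit false
open Cfsg
open scoped commutatorElement

namespace Cfsg.Agent.S1901

/-- An element of `p`-power order some power of which, with exponent prime to `p`, lies in a subgroup
lies in that subgroup. -/
theorem mem_of_pow_mem {G : Type*} [Group G] {p : ℕ} [Fact p.Prime] {H : Subgroup G} {x : G} {k m : ℕ}
    (hx : x ^ (p ^ k) = 1) (hm : ¬ p ∣ m) (h : x ^ m ∈ H) : x ∈ H := by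
  have hcop : Nat.Coprime m (p ^ k) :=
    Nat.Coprime.pow_right k ((Nat.Prime.coprime_iff_not_dvd Fact.out).mpr hm).symm
  have h1 : (Nat.gcd m (p ^ k) : ℤ) = m * Nat.gcdA m (p ^ k) + (p ^ k : ℕ) * Nat.gcdB m (p ^ k) :=
    Nat.gcd_eq_gcd_ab m (p ^ k)
  rw [hcop.gcd_eq_one] at h1
  have h2 : x = (x ^ m) ^ (Nat.gcdA m (p ^ k)) * (x ^ (p ^ k)) ^ (Nat.gcdB m (p ^ k)) := by
    rw [← zpow_natCast x m, ← zpow_natCast x (p ^ k), ← zpow_mul, ← zpow_mul, ← zpow_add, ← h1]
    simp
  rw [h2, hx, one_zpow, mul_one]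
  exact H.zpow_mem h _

/-- The basic step, in a group with a normal subgroup `N` which is a `p`-group or a `p'`-group. -/
theorem step {G : Type*} [Group G] [Finite G] {p : ℕ} [Fact p.Prime] (N : Subgroup G) [N.Normal]
    (hN : (∃ m : ℕ, Nat.card N = p ^ m) ∨ (Nat.card N).Coprime p) (P : Sylow p G) (Q : Subgroup G)
    (hQ : ¬ p ∣ Nat.card Q) (hQP : Q ≤ Subgroup.normalizer ((P : Subgroup G) : Set G)) (x : G) (k : ℕ)
    (hx : x ^ (p ^ k) = 1) (hxQ : x ∈ Subgroup.normalizer (Q : Set G)) (hc : ∀ y ∈ Q, ⁅y, x⁆ ∈ N) :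
    ∀ y ∈ Q, ⁅y, x⁆ = 1 := by
  have hp : p.Prime := Fact.out
  have hcQ : ∀ y ∈ Q, ⁅y, x⁆ ∈ Q := by
    intro y hy
    have h1 : x * y⁻¹ * x⁻¹ ∈ Q := (Subgroup.mem_normalizer_iff.mp hxQ _).mp (Q.inv_mem hy)
    have h2 : ⁅y, x⁆ = y * (x * y⁻¹ * x⁻¹) := by rw [commutatorElement_def]; group
    rw [h2]
    exact Q.mul_mem hy h1
  have hcop1 : Nat.Coprime (p ^ k) (Nat.card Q) :=
    Nat.Coprime.pow_left k ((Nat.Prime.coprime_iff_not_dvd hp).mpr hQ)
  rcases hN with ⟨m, hm⟩ | hN
  · intro y hy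
    have h1 : orderOf ⁅y, x⁆ ∣ p ^ m := by
      rw [← hm]; exact Cfsg.Agent.Lib.CoprimeStab.orderOf_dvd_natCard_of_mem (hc y hy)
    have h2 : orderOf ⁅y, x⁆ ∣ Nat.card Q :=
      Cfsg.Agent.Lib.CoprimeStab.orderOf_dvd_natCard_of_mem (hcQ y hy)
    have h3 : Nat.Coprime (p ^ m) (Nat.card Q) :=
      Nat.Coprime.pow_left m ((Nat.Prime.coprime_iff_not_dvd hp).mpr hQ)
    exact orderOf_eq_one_iff.mp (Nat.eq_one_of_dvd_coprimes h3 h1 h2)
  · -- `Q₀ = N ∩ Q` is centralized by `P`
    have hNP : ∀ z ∈ N, z ∈ (P : Subgroup G) → z = 1 := by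
      intro z hz hz'
      obtain ⟨j, hj⟩ := IsPGroup.iff_card.1 P.isPGroup'
      have h1 : orderOf z ∣ Nat.card N := Cfsg.Agent.Lib.CoprimeStab.orderOf_dvd_natCard_of_mem hz
      have h2 : orderOf z ∣ p ^ j := by
        rw [← hj]; exact Cfsg.Agent.Lib.CoprimeStab.orderOf_dvd_natCard_of_mem hz'
      exact orderOf_eq_one_iff.mp (Nat.eq_one_of_dvd_coprimes (Nat.Coprime.pow_right j hN) h1 h2)
    set Q₀ := N ⊓ Q with hQ₀
    have hPC : (P : Subgroup G) ≤ Subgroup.centralizer (Q₀ : Set G) := by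
      intro g hg
      rw [Subgroup.mem_centralizer_iff]
      intro y hy
      have hyN : y ∈ N := (Subgroup.mem_inf.1 hy).1
      have hyQ : y ∈ Q := (Subgroup.mem_inf.1 hy).2
      have h1 : y * g * y⁻¹ * g⁻¹ ∈ (P : Subgroup G) :=
        (P : Subgroup G).mul_mem ((Subgroup.mem_normalizer_iff.mp (hQP hyQ) _).mp hg)
          ((P : Subgroup G).inv_mem hg)
      have h2 : y * g * y⁻¹ * g⁻¹ ∈ N := by
        have : y * g * y⁻¹ * g⁻¹ = y * (g * y⁻¹ * g⁻¹) := by group
        rw [this]
        exact N.mul_mem hyN (Subgroup.Normal.conj_mem inferInstance _ (N.inv_mem hyN) g)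
      have h3 := hNP _ h2 h1
      have h4 : y * g = (y * g * y⁻¹ * g⁻¹) * (g * y) := by group
      rw [h4, h3, one_mul]
    have hxN : x ∈ Subgroup.normalizer (Q₀ : Set G) := by
      rw [Subgroup.mem_normalizer_iff]
      intro y
      rw [hQ₀, Subgroup.mem_inf, Subgroup.mem_inf, ← Subgroup.mem_normalizer_iff.mp hxQ y]
      constructor
      · rintro ⟨h1, h2⟩
        exact ⟨Subgroup.Normal.conj_mem inferInstance _ h1 x, h2⟩
      · rintro ⟨h1, h2⟩
        refine ⟨?_, h2⟩
        have := Subgroup.Normal.conj_mem (inferInstance : N.Normal) _ h1 x⁻¹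
        have e : x⁻¹ * (x * y * x⁻¹) * x⁻¹⁻¹ = y := by group
        rwa [e] at this
    have hCM : Subgroup.centralizer (Q₀ : Set G) ≤ Subgroup.normalizer (Q₀ : Set G) := by
      intro c hc
      rw [Subgroup.mem_normalizer_iff]
      intro y
      constructor
      · intro hy
        have h1 := Subgroup.mem_centralizer_iff.mp hc y hy
        have h2 : c * y * c⁻¹ = y := by rw [← h1]; group
        rw [h2]; exact hy
      · intro hy
        have h1 := Subgroup.mem_centralizer_iff.mp hc _ hy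
        have h2 : y = c * y * c⁻¹ := by
          have h3 : c * y = c * (c * y * c⁻¹) := by rw [← h1]; group
          exact mul_left_cancel h3
        rw [h2]; exact hy
    have hidx : ¬ p ∣ (Subgroup.centralizer (Q₀ : Set G)).relIndex (Subgroup.normalizer (Q₀ : Set G)) := by
      intro hdvd
      have h1 : p ∣ (Subgroup.centralizer (Q₀ : Set G)).index := by
        rw [← Subgroup.relIndex_mul_index hCM]
        exact Dvd.dvd.mul_right hdvd _
      exact P.not_dvd_index (h1.trans (Subgroup.index_dvd_of_le hPC))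
    have hnorm : ((Subgroup.centralizer (Q₀ : Set G)).subgroupOf (Subgroup.normalizer (Q₀ : Set G))).Normal := by
      refine ⟨fun c hc g => ?_⟩
      rw [Subgroup.mem_subgroupOf] at hc ⊢
      rw [Subgroup.mem_centralizer_iff] at hc ⊢
      intro y hy
      have hg := Subgroup.mem_normalizer_iff.mp ((Subgroup.normalizer (Q₀ : Set G)).inv_mem g.2) y
      have h1 := hc _ (hg.mp hy)
      show y * ((g : G) * c * (g : G)⁻¹) = ((g : G) * c * (g : G)⁻¹) * y
      calc y * ((g : G) * c * (g : G)⁻¹) = (g : G) * (((g : G)⁻¹ * y * (g : G)⁻¹⁻¹) * c) * (g : G)⁻¹ := by group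
        _ = (g : G) * (c * ((g : G)⁻¹ * y * (g : G)⁻¹⁻¹)) * (g : G)⁻¹ := by rw [h1]
        _ = ((g : G) * c * (g : G)⁻¹) * y := by group
    have hxC : x ∈ Subgroup.centralizer (Q₀ : Set G) := by
      apply mem_of_pow_mem hx hidx
      have := Subgroup.pow_index_mem
        ((Subgroup.centralizer (Q₀ : Set G)).subgroupOf (Subgroup.normalizer (Q₀ : Set G))) ⟨x, hxN⟩
      rw [Subgroup.mem_subgroupOf] at this
      exact this
    intro y hy
    have h1 : Commute y x := by
      apply Cfsg.Agent.Lib.CoprimeStab.commute_of_commutator_commute (H := Q)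
      · exact Nat.Coprime.coprime_dvd_left (orderOf_dvd_of_pow_eq_one hx) hcop1
      · exact hcQ y hy
      · exact Subgroup.mem_centralizer_iff.mp hxC _ (Subgroup.mem_inf.2 ⟨hc y hy, hcQ y hy⟩)
    exact commutatorElement_eq_one_iff_commute.mpr h1

/-- The chain version. -/
theorem chain {G : Type*} [Group G] [Finite G] {p : ℕ} [Fact p.Prime]
    (hG : Cfsg.IsPSolvable p G) (P : Sylow p G) (Q : Subgroup G)
    (hQ : ¬ p ∣ Nat.card Q) (hQP : Q ≤ Subgroup.normalizer ((P : Subgroup G) : Set G)) (x : G) (k : ℕ)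
    (hx : x ^ (p ^ k) = 1) (hxQ : x ∈ Subgroup.normalizer (Q : Set G)) :
    ∀ y ∈ Q, Commute y x := by
  obtain ⟨n, H, h0, hn, hmono, hnormal, hfac⟩ := hG
  have key : ∀ i : Fin (n + 1), ∀ y ∈ Q, ⁅y, x⁆ ∈ H i := by
    intro i
    induction i using Fin.reverseInduction with
    | last => intro y _; rw [hn]; trivial
    | cast i ih =>
      have := hnormal i.castSucc
      have := hnormal i.succ
      set K := H i.castSucc with hK
      let π := QuotientGroup.mk' K
      have hsurj : Function.Surjective π := QuotientGroup.mk'_surjective K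
      have hle : K ≤ H i.succ := hmono (Fin.castSucc_le_succ i)
      let N : Subgroup (G ⧸ K) := (H i.succ).map π
      have hNn : N.Normal := Subgroup.Normal.map inferInstance π hsurj
      have hcardN : Nat.card N = K.relIndex (H i.succ) := by
        show Nat.card ((H i.succ).map π) = _
        rw [← Subgroup.relIndex_ker, QuotientGroup.ker_mk']
      have hN : (∃ m : ℕ, Nat.card N = p ^ m) ∨ (Nat.card N).Coprime p := by
        rw [hcardN]; exact hfac i
      let P' : Sylow p (G ⧸ K) := P.mapSurjective hsurj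
      have hP' : (P' : Subgroup (G ⧸ K)) = (P : Subgroup G).map π := rfl
      have hQ' : ¬ p ∣ Nat.card (Q.map π) := by
        intro h
        exact hQ (h.trans (Subgroup.card_map_dvd Q π))
      have hQP' : Q.map π ≤ Subgroup.normalizer ((P' : Subgroup (G ⧸ K)) : Set (G ⧸ K)) := by
        rw [hP']
        refine (Subgroup.map_mono hQP).trans ?_
        exact Subgroup.le_normalizer_map π
      have hx' : (π x) ^ (p ^ k) = 1 := by rw [← map_pow, hx, map_one]
      have hxQ' : π x ∈ Subgroup.normalizer ((Q.map π : Subgroup (G ⧸ K)) : Set (G ⧸ K)) :=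
        Subgroup.le_normalizer_map π ⟨x, hxQ, rfl⟩
      have := step N hN P' (Q.map π) hQ' hQP' (π x) k hx' hxQ' (by
        rintro _ ⟨y, hy, rfl⟩
        rw [← map_commutatorElement]
        exact ⟨_, ih y hy, rfl⟩)
      intro y hy
      have h1 := this (π y) ⟨y, hy, rfl⟩
      rw [← map_commutatorElement] at h1
      exact (QuotientGroup.eq_one_iff _).mp h1
  intro y hy
  have := key 0 y hy
  rw [h0, Subgroup.mem_bot] at this
  exact commutatorElement_eq_one_iff_commute.mp this

/-- Let G be a finite p-solvable group and Q a subgroup of order prime to p such that p divides the index of C_G(Q) in N_G(Q). Then Q normalizes no Sylow p-subgroup of G. -/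
theorem result {G : Type*} [Group G] [Finite G] {p : ℕ} [Fact p.Prime]
    (hG : Cfsg.IsPSolvable p G) (Q : Subgroup G) (hQ : ¬ p ∣ Nat.card Q)
    (hA : p ∣ (Subgroup.centralizer (Q : Set G)).relIndex (Subgroup.normalizer (Q : Set G)))
    (P : Sylow p G) : ¬ Q ≤ Subgroup.normalizer ((P : Subgroup G) : Set G) := by
  intro hQP
  set M := Subgroup.normalizer (Q : Set G) with hM
  obtain ⟨T⟩ : Nonempty (Sylow p M) := inferInstance
  have hTle : (T : Subgroup M) ≤ (Subgroup.centralizer (Q : Set G)).subgroupOf M := by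
    intro t ht
    rw [Subgroup.mem_subgroupOf, Subgroup.mem_centralizer_iff]
    obtain ⟨k, hk⟩ := T.isPGroup' ⟨t, ht⟩
    have hk' : (t : G) ^ (p ^ k) = 1 := by
      have := congrArg (fun z : T => ((z : M) : G)) hk
      simpa using this
    intro y hy
    exact chain hG P Q hQ hQP (t : G) k hk' t.2 y hy
  exact T.not_dvd_index (hA.trans (Subgroup.index_dvd_of_le hTle))

end Cfsg.Agent.S1901
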