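import Cfsg.Statements.S1902
-- import your own Cfsg.Agent.* helpers here
import Cfsg.Agent.H18.OmegaAmb
import Cfsg.Agent.Lib.ThompsonPQ
import Cfsg.Agent.Lib.CoprimeStab
import Cfsg.Agent.Lib.PSolvable
import Cfsg.Agent.Lib.Cores
import Cfsg.Agent.PLocal.CoprimeLift
import Cfsg.Agent.PLocal.PSolvable

set_option autoImplicit false
open Cfsg
open scoped commutatorElement

namespace Cfsg.Agent.S1902

/-- The case of a trivial `p'`-core. -/
theorem core_trivial {G : Type*} [Group G] [Finite G] {p : ℕ} [hpf : Fact p.Prime] (hp : p ≠ 2)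
    (hG : Cfsg.IsPSolvable p G) (hcore : Cfsg.pPrimeCore p G = ⊥) (B : Subgroup G)
    (hBp : ∀ b ∈ B, b ^ p = 1) (hBc : Nat.card B = p ^ 2)
    (b₀ : G) (hb₀ : b₀ ∈ B) (hb₁ : b₀ ≠ 1)
    (hstar : ∀ x ∈ Cfsg.pCore p G, b₀ * x = x * b₀ → x ^ p = 1 → x ∈ B)
    (Q : Subgroup G) (hQ : ¬ p ∣ Nat.card Q) (hBQ : B ≤ Subgroup.normalizer (Q : Set G)) : Q = ⊥ := by
  set R := Cfsg.pCore p G with hRdef
  have hRn : R.Normal := Cfsg.Agent.Lib.Cores.pCore_normal p
  have hRp : IsPGroup p R := Cfsg.Agent.Lib.Cores.pCore_isPGroup p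
  have hCR : Subgroup.centralizer (R : Set G) ≤ R :=
    Cfsg.Agent.Lib.PSolvable.centralizer_pCore_le_of_pSolvable p hG hcore
  have hcopp : (Nat.card Q).Coprime p := ((Nat.Prime.coprime_iff_not_dvd hpf.out).mpr hQ).symm
  have hRN : ∀ A : Subgroup G, A ≤ Subgroup.normalizer (R : Set G) := by
    intro A
    rw [Subgroup.normalizer_eq_top_iff.mpr hRn]; exact le_top
  have hRQ : ∀ x, x ∈ R → x ∈ Q → x = 1 := by
    intro x hxR hxQ
    obtain ⟨n, hn⟩ := IsPGroup.iff_card.1 hRp
    have h1 : orderOf x ∣ p ^ n := by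
      rw [← hn]; exact Cfsg.Agent.Lib.CoprimeStab.orderOf_dvd_natCard_of_mem hxR
    have h2 : orderOf x ∣ Nat.card Q := Cfsg.Agent.Lib.CoprimeStab.orderOf_dvd_natCard_of_mem hxQ
    exact orderOf_eq_one_iff.mp (Nat.eq_one_of_dvd_coprimes (Nat.Coprime.pow_left n hcopp.symm) h1 h2)
  have hob : orderOf b₀ = p := orderOf_eq_prime (hBp b₀ hb₀) hb₁
  -- elements of `B ∩ R` commute with `Q`
  have hF1 : ∀ x ∈ B, x ∈ R → ∀ y ∈ Q, y * x = x * y := by
    intro x hxB hxR y hy
    have h1 : y * x * y⁻¹ * x⁻¹ ∈ R :=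
      R.mul_mem (hRn.conj_mem x hxR y) (R.inv_mem hxR)
    have h2 : y * x * y⁻¹ * x⁻¹ ∈ Q := by
      have e : y * x * y⁻¹ * x⁻¹ = y * (x * y⁻¹ * x⁻¹) := by group
      rw [e]
      exact Q.mul_mem hy ((Subgroup.mem_normalizer_iff.mp (hBQ hxB) _).mp (Q.inv_mem hy))
    have h3 := hRQ _ h1 h2
    calc y * x = (y * x * y⁻¹ * x⁻¹) * (x * y) := by group
      _ = x * y := by rw [h3, one_mul]
  -- `C_Q(b₀) = 1`
  have hF3 : ∀ x ∈ Q, b₀ * x = x * b₀ → x = 1 := by
    set Q₁ := Q ⊓ Subgroup.centralizer ({b₀} : Set G) with hQ₁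
    set R₀ := R ⊓ Subgroup.centralizer ({b₀} : Set G) with hR₀
    have hQ₁c : (Nat.card Q₁).Coprime p :=
      hcopp.coprime_dvd_left (Subgroup.card_dvd_of_le inf_le_left)
    have h1 : Q₁ ≤ Subgroup.centralizer (R₀ : Set G) := by
      apply Cfsg.Agent.Lib.CoprimeStab.le_centralizer_of_omega p hp Q₁ hQ₁c R₀ (hRp.to_le inf_le_left)
      · intro y hy
        have hyC : y ∈ Subgroup.centralizer ({b₀} : Set G) := (Subgroup.mem_inf.1 hy).2
        have key : ∀ c ∈ Subgroup.centralizer ({b₀} : Set G), ∀ x ∈ R₀, c * x * c⁻¹ ∈ R₀ := by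
          intro c hc x hx
          refine Subgroup.mem_inf.2 ⟨hRn.conj_mem x (Subgroup.mem_inf.1 hx).1 c, ?_⟩
          exact Subgroup.mul_mem _ (Subgroup.mul_mem _ hc (Subgroup.mem_inf.1 hx).2) (Subgroup.inv_mem _ hc)
        rw [Subgroup.mem_normalizer_iff]
        intro x
        refine ⟨key y hyC x, fun hx => ?_⟩
        have := key y⁻¹ (Subgroup.inv_mem _ hyC) _ hx
        have e : y⁻¹ * (y * x * y⁻¹) * y⁻¹⁻¹ = x := by group
        rwa [e] at this
      · intro x hx hxp y hy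
        have hxR : x ∈ R := (Subgroup.mem_inf.1 hx).1
        have hxb : b₀ * x = x * b₀ :=
          (Subgroup.mem_centralizer_iff.mp (Subgroup.mem_inf.1 hx).2 b₀ rfl)
        exact (hF1 x (hstar x hxR hxb hxp) hxR y (Subgroup.mem_inf.1 hy).1).symm
    have h2 : Q₁ ≤ Subgroup.centralizer (R : Set G) := by
      apply Cfsg.Agent.Lib.ThompsonPQ.thompson_p_times_q p (Subgroup.zpowers b₀) Q₁ R
        (IsPGroup.of_card (n := 1) (by rw [Nat.card_zpowers, hob, pow_one])) hQ₁c hRp
      · rw [Subgroup.zpowers_le, Subgroup.mem_centralizer_iff]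
        intro y hy
        exact (Subgroup.mem_centralizer_iff.mp (Subgroup.mem_inf.1 hy).2 b₀ rfl).symm
      · exact hRN _
      · exact hRN _
      · have e : R ⊓ Subgroup.centralizer ((Subgroup.zpowers b₀ : Subgroup G) : Set G) ≤ R₀ := by
          refine inf_le_inf_left _ ?_
          apply Subgroup.centralizer_le
          intro x hx
          rw [Set.mem_singleton_iff] at hx
          rw [hx]; exact Subgroup.mem_zpowers b₀
        exact e.trans (Subgroup.le_centralizer_iff.mp h1)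
    intro x hx hxb
    have hx1 : x ∈ Q₁ := by
      refine Subgroup.mem_inf.2 ⟨hx, ?_⟩
      rw [Subgroup.mem_centralizer_iff]
      intro y hy
      rw [Set.mem_singleton_iff] at hy
      rw [hy]; exact hxb
    exact hRQ x (hCR (h2 hx1)) hx
  by_contra hQne
  have hb₀R : b₀ ∉ R := by
    intro h
    apply hQne
    rw [eq_bot_iff]
    intro x hx
    rw [Subgroup.mem_bot]
    exact hF3 x hx (hF1 b₀ hb₀ h x hx).symm
  apply hQne
  have hZle : Nat.card (B ⊓ R : Subgroup G) ≤ p := by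
    have h1 : Nat.card (B ⊓ R : Subgroup G) ∣ p ^ 2 := by
      rw [← hBc]; exact Subgroup.card_dvd_of_le inf_le_left
    obtain ⟨k, hk, hk'⟩ := (Nat.dvd_prime_pow hpf.out).mp h1
    have hk2 : k ≠ 2 := by
      intro h
      rw [h, ← hBc] at hk'
      have h2 : (B ⊓ R : Subgroup G) = B := Subgroup.eq_of_le_of_card_ge inf_le_left hk'.ge
      have h3 : b₀ ∈ (B ⊓ R : Subgroup G) := by rw [h2]; exact hb₀
      exact hb₀R (Subgroup.mem_inf.1 h3).2
    rw [hk']
    calc p ^ k ≤ p ^ 1 := Nat.pow_le_pow_right hpf.out.pos (by omega)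
      _ = p := pow_one p
  refine Cfsg.Agent.H18.OmegaAmb.eq_bot hp R Q hRp hQ b₀ hob (hRN _) ?_ (hBQ hb₀) hF3 ?_ (B ⊓ R) hZle ?_
  · have := hRN ⊤
    exact this (Subgroup.mem_top _)
  · intro x hx hxr
    apply hRQ x _ hx
    apply hCR
    rw [Subgroup.mem_centralizer_iff]
    intro r hr
    exact (hxr r hr).symm
  · intro x hx hxb hxp
    have hxB := hstar x hx hxb hxp
    exact ⟨Subgroup.mem_inf.2 ⟨hxB, hx⟩, hF1 x hxB hx⟩

/-- Let p be an odd prime, G a finite p-solvable group, and B an elementary abelian subgroup of order p² such that B is the subgroup generated by the elements of order p of some Sylow p-subgroup of C_G(b₀), for some nontrivial b₀ ∈ B. Then every B-invariant subgroup of G of order prime to p lies in O_{p'}(G). -/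
theorem result {G : Type*} [Group G] [Finite G] {p : ℕ} [Fact p.Prime] (hp : p ≠ 2)
    (hG : Cfsg.IsPSolvable p G) (B : Subgroup G) (hB : Cfsg.IsElementaryAbelian p B) (hBc : Nat.card B = p ^ 2)
    (b₀ : G) (hb₀ : b₀ ∈ B) (hb₁ : b₀ ≠ 1) (P : Sylow p ↥(Subgroup.centralizer ({b₀} : Set G)))
    (hBP : B = Subgroup.closure {x : G | x ∈ ((P : Subgroup ↥(Subgroup.centralizer ({b₀} : Set G))).map
      (Subgroup.centralizer ({b₀} : Set G)).subtype : Subgroup G) ∧ orderOf x = p})
    (Q : Subgroup G) (hQ : ¬ p ∣ Nat.card Q) (hinv : ∀ b ∈ B, ∀ x ∈ Q, b * x * b⁻¹ ∈ Q) :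
    Q ≤ Cfsg.pPrimeCore p G := by
  have hpp : p.Prime := Fact.out
  set K := Cfsg.pPrimeCore p G with hK
  have hKn : K.Normal := Cfsg.Agent.Lib.Cores.pPrimeCore_normal p
  have hKc : (Nat.card K).Coprime p := Cfsg.Agent.Lib.Cores.pPrimeCore_coprime p
  let π := QuotientGroup.mk' K
  have hπ : Function.Surjective π := QuotientGroup.mk'_surjective K
  have hKp : ∀ x ∈ K, ∀ n, x ^ (p ^ n) = 1 → x = 1 := by
    intro x hx n hn
    have h1 : orderOf x ∣ p ^ n := orderOf_dvd_of_pow_eq_one hn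
    have h2 : orderOf x ∣ Nat.card K := Cfsg.Agent.Lib.CoprimeStab.orderOf_dvd_natCard_of_mem hx
    exact orderOf_eq_one_iff.mp (Nat.eq_one_of_dvd_coprimes (Nat.Coprime.pow_left n hKc.symm) h1 h2)
  have hcore : Cfsg.pPrimeCore p (G ⧸ K) = ⊥ := Cfsg.Agent.Lib.Cores.pPrimeCore_quotient_pPrimeCore p
  have hBinj : ∀ x ∈ B, π x = 1 → x = 1 := by
    intro x hx h
    exact hKp x ((QuotientGroup.eq_one_iff x).mp h) 1 (by rw [pow_one]; exact hB.2 x hx)
  have hBcard : Nat.card (B.map π) = p ^ 2 := by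
    rw [← hBc]
    symm
    apply Nat.card_congr
    refine Equiv.ofBijective (π.subgroupMap B) ⟨?_, π.subgroupMap_surjective B⟩
    rw [injective_iff_map_eq_one]
    intro x hx
    apply Subtype.ext
    exact hBinj x x.2 (congrArg Subtype.val hx)
  have hkey := core_trivial hp (Cfsg.Agent.PLocal.PSolvable.isPSolvable_quotient hG K) hcore (B.map π)
    (by
      rintro _ ⟨b, hb, rfl⟩
      rw [← map_pow, hB.2 b hb, map_one]) hBcard (π b₀) ⟨b₀, hb₀, rfl⟩
    (fun h => hb₁ (hBinj b₀ hb₀ h))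
    (by
      intro x hxR hxb hxp
      -- `x` lifts to the centralizer of `b₀`
      have hxC : x ∈ (Subgroup.centralizer ({b₀} : Set G)).map π := by
        have h1 := Cfsg.Agent.PLocal.CoprimeLift.map_centralizer_mk K (Subgroup.zpowers b₀) hKc
          (IsPGroup.of_card (n := 1) (by
            rw [Nat.card_zpowers, pow_one]
            exact orderOf_eq_prime (hB.2 b₀ hb₀) hb₁))
        have h2 : x ∈ Subgroup.centralizer (((Subgroup.zpowers b₀).map π : Subgroup (G ⧸ K)) : Set (G ⧸ K)) := by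
          rw [MonoidHom.map_zpowers, Subgroup.mem_centralizer_iff]
          rintro _ ⟨n, rfl⟩
          exact ((show Commute (π b₀) x from hxb).zpow_left n).eq
        rw [← h1] at h2
        refine Subgroup.map_mono ?_ h2
        apply Subgroup.centralizer_le
        intro y hy
        rw [Set.mem_singleton_iff] at hy
        rw [hy]; exact Subgroup.mem_zpowers b₀
      let C := Subgroup.centralizer ({b₀} : Set G)
      let f : C →* (C.map π : Subgroup (G ⧸ K)) := π.subgroupMap C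
      have hf : Function.Surjective f := π.subgroupMap_surjective C
      let P' : Sylow p (C.map π : Subgroup (G ⧸ K)) := P.mapSurjective hf
      have hRn : (Cfsg.pCore p (G ⧸ K)).Normal := Cfsg.Agent.Lib.Cores.pCore_normal p
      have hRp : IsPGroup p (Cfsg.pCore p (G ⧸ K)) := Cfsg.Agent.Lib.Cores.pCore_isPGroup p
      have hT : IsPGroup p ((Cfsg.pCore p (G ⧸ K)).subgroupOf (C.map π)) := by
        apply IsPGroup.of_injective (hRp) 
          ((Subgroup.subtype _).comp (Subgroup.subtype _) |>.codRestrict (Cfsg.pCore p (G ⧸ K)) (fun z => Subgroup.mem_subgroupOf.mp z.2))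
        intro a b hab
        have := congrArg Subtype.val hab
        exact Subtype.ext (Subtype.ext this)
      have hTle := hT.le_sylow_of_normal P'
      have hx' : (⟨x, hxC⟩ : (C.map π : Subgroup (G ⧸ K))) ∈ (P' : Subgroup _) :=
        hTle (Subgroup.mem_subgroupOf.mpr hxR)
      have hP' : (P' : Subgroup (C.map π : Subgroup (G ⧸ K))) = (P : Subgroup C).map f := rfl
      rw [hP'] at hx'
      obtain ⟨y, hy, hyx⟩ := hx'
      have hyx' : π (y : G) = x := congrArg Subtype.val hyx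
      obtain ⟨n, hn⟩ := P.isPGroup' ⟨y, hy⟩
      have hn' : (y : G) ^ (p ^ n) = 1 := congrArg (fun z : (P : Subgroup C) => ((z : C) : G)) hn
      have hyp : (y : G) ^ p = 1 := by
        apply hKp _ _ n
        · rw [← pow_mul, mul_comm, pow_mul, hn', one_pow]
        · rw [← QuotientGroup.eq_one_iff]
          have : π ((y : G) ^ p) = 1 := by rw [map_pow, hyx', hxp]
          exact this
      refine ⟨(y : G), ?_, hyx'⟩
      by_cases hy1 : (y : G) = 1
      · rw [hy1]; exact B.one_mem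
      · rw [SetLike.mem_coe, hBP]
        exact Subgroup.subset_closure ⟨⟨y, hy, rfl⟩, orderOf_eq_prime hyp hy1⟩)
    (Q.map π)
    (fun h => hQ (h.trans (Subgroup.card_map_dvd Q π)))
    (by
      rintro _ ⟨b, hb, rfl⟩
      have key : ∀ c ∈ B, ∀ x ∈ Q.map π, π c * x * (π c)⁻¹ ∈ Q.map π := by
        rintro c hc _ ⟨x, hx, rfl⟩
        exact ⟨c * x * c⁻¹, hinv c hc x hx, by rw [map_mul, map_mul, map_inv]⟩
      rw [Subgroup.mem_normalizer_iff]
      intro x
      refine ⟨key b hb x, fun hx => ?_⟩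
      have := key b⁻¹ (B.inv_mem hb) _ hx
      have e : π b⁻¹ * (π b * x * (π b)⁻¹) * (π b⁻¹)⁻¹ = x := by rw [map_inv]; group
      rwa [e] at this)
  intro x hx
  have h1 : π x ∈ Q.map π := ⟨x, hx, rfl⟩
  rw [hkey, Subgroup.mem_bot] at h1
  exact (QuotientGroup.eq_one_iff x).mp h1

end Cfsg.Agent.S1902
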