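import Cfsg.Statements.S1905
import Cfsg.Agent.SignalizersComponents.BenderCount

set_option autoImplicit false
open Cfsg

namespace Cfsg.Agent.S1905

open Subgroup Cfsg.Agent.TwoFusion.StronglyEmbeddedBasic

variable {S : Type*} [Group S] [Finite S] {M : Subgroup S}

theorem exists_involution_mem (hM : Even (Nat.card M)) : ∃ t ∈ M, orderOf t = 2 := by
  obtain ⟨⟨t, ht⟩, h2⟩ := exists_prime_orderOf_dvd_card' (G := M) 2 (even_iff_two_dvd.mp hM)
  exact ⟨t, ht, by rwa [Subgroup.orderOf_mk] at h2⟩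

theorem exists_involution_notMem' (hM : Even (Nat.card M)) (hcore : Odd (Nat.card M.normalCore)) :
    ∃ t, t ∉ M ∧ orderOf t = 2 := by
  by_contra hcon
  push Not at hcon
  have hall : ∀ t : S, orderOf t = 2 → t ∈ M := fun t ht => by
    by_contra h
    exact hcon t h ht
  obtain ⟨t, -, ht2⟩ := exists_involution_mem hM
  have htc : t ∈ M.normalCore := by
    intro g
    exact hall _ (by rw [orderOf_conj]; exact ht2)
  exact not_odd_of_mem _ t htc ht2 hcore

theorem isConj_all (hM : Even (Nat.card M))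
    (hC : ∀ i ∈ M, orderOf i = 2 → Subgroup.centralizer ({i} : Set S) ≤ M)
    (hcore : Odd (Nat.card M.normalCore)) :
    ∀ x y : S, orderOf x = 2 → orderOf y = 2 → IsConj x y := by
  obtain ⟨t, ht, ht2⟩ := exists_involution_mem hM
  obtain ⟨u, hu, hu2⟩ := exists_involution_notMem' hM hcore
  have key : ∀ x y : S, x ∈ M → orderOf x = 2 → y ∉ M → orderOf y = 2 → IsConj x y := by
    intro x y hx hx2 hy hy2
    have hodd : Odd (orderOf (x * y)) := by
      by_contra hodd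
      obtain ⟨z, -, hz2, hza, hzb⟩ := exists_commuting_involution x y hx2 hy2 (orderOf_pos _) hodd
      have hzM : z ∈ M := hC x hx hx2 (Subgroup.mem_centralizer_singleton_iff.mpr hza.eq)
      exact hy (hC z hzM hz2 (Subgroup.mem_centralizer_singleton_iff.mpr hzb.symm.eq))
    obtain ⟨j, -, -, hj, -⟩ := exists_swap x y hx2 hy2 hodd
    exact isConj_iff.mpr ⟨j, hj⟩
  have key2 : ∀ x : S, orderOf x = 2 → IsConj x t := by
    intro x hx
    by_cases hxM : x ∈ M
    · exact (key x u hxM hx hu hu2).trans (key t u ht ht2 hu hu2).symm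
    · exact (key t x ht ht2 hxM hx).symm
  intro x y hx hy
  exact (key2 x hx).trans (key2 y hy).symm

/-- `M` is strongly embedded. -/
theorem isStronglyEmbedded (hM : Even (Nat.card M))
    (hC : ∀ i ∈ M, orderOf i = 2 → Subgroup.centralizer ({i} : Set S) ≤ M)
    (hcore : Odd (Nat.card M.normalCore)) (X : Sylow 2 M)
    (hX : Subgroup.normalizer (((X : Subgroup M).map M.subtype : Subgroup S) : Set S) ≤ M) :
    IsStronglyEmbedded M := by
  refine ⟨?_, hM, ?_⟩
  · rintro rfl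
    obtain ⟨t, ht, -⟩ := exists_involution_notMem' hM hcore
    exact ht (Subgroup.mem_top _)
  intro g hg
  by_contra hodd
  rw [Nat.not_odd_iff_even] at hodd
  obtain ⟨i, ⟨hiM, j, hjM, hj⟩, hi2⟩ := exists_involution_mem hodd
  apply hg
  have hj' : g * j * g⁻¹ = i := hj
  -- `C(i) ≤ M ∩ M^g`
  have hkey : ∀ i ∈ M, orderOf i = 2 → g⁻¹ * i * g ∈ M → ∀ c, c * i = i * c →
      c ∈ M ∧ g⁻¹ * c * g ∈ M := by
    intro i hi hi2 hj c hc
    refine ⟨hC i hi hi2 (Subgroup.mem_centralizer_singleton_iff.mpr hc), ?_⟩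
    refine hC _ hj ?_ (Subgroup.mem_centralizer_singleton_iff.mpr ?_)
    · have := orderOf_conj g⁻¹ i
      rw [inv_inv] at this
      rw [this, hi2]
    · calc g⁻¹ * c * g * (g⁻¹ * i * g) = g⁻¹ * (c * i) * g := by group
        _ = g⁻¹ * (i * c) * g := by rw [hc]
        _ = _ := by group
  have hig : g⁻¹ * i * g ∈ M := by
    rw [← hj']
    have : g⁻¹ * (g * j * g⁻¹) * g = j := by group
    rw [this]
    exact hjM
  -- a Sylow subgroup of `M` containing `i`
  have hpi : IsPGroup 2 (zpowers (⟨i, hiM⟩ : M)) := by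
    refine IsPGroup.of_card (n := 1) ?_
    rw [Nat.card_zpowers, Subgroup.orderOf_mk, hi2]
    rfl
  obtain ⟨T, hT⟩ := hpi.exists_le_sylow
  have hiT : (⟨i, hiM⟩ : M) ∈ T := hT (mem_zpowers _)
  -- a central involution of `T`
  have hTne : Nontrivial (T : Subgroup M) := by
    refine ⟨⟨⟨i, hiM⟩, hiT⟩, 1, fun h => ?_⟩
    have h1 : i = 1 := congrArg (fun x : (T : Subgroup M) => ((x : M) : S)) h
    rw [h1, orderOf_one] at hi2
    omega
  have hZ : Nontrivial (Subgroup.center (T : Subgroup M)) := T.isPGroup'.center_nontrivial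
  have hZ2 : 2 ∣ Nat.card (Subgroup.center (T : Subgroup M)) := by
    obtain ⟨n, hn0, hn⟩ := (T.isPGroup'.to_subgroup (Subgroup.center (T : Subgroup M))).nontrivial_iff_card.mp hZ
    rw [hn]
    exact dvd_pow_self 2 hn0.ne'
  obtain ⟨⟨⟨z, hzT⟩, hzZ⟩, hz2⟩ := exists_prime_orderOf_dvd_card' (G := Subgroup.center (T : Subgroup M)) 2 hZ2
  rw [Subgroup.orderOf_mk, Subgroup.orderOf_mk] at hz2
  have hz2' : orderOf (z : S) = 2 := by rwa [Subgroup.orderOf_coe]
  have hzc : ∀ t : M, t ∈ T → (t : S) * z = z * t := by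
    intro t ht
    have := Subgroup.mem_center_iff.mp hzZ ⟨t, ht⟩
    exact congrArg (fun x : (T : Subgroup M) => ((x : M) : S)) this
  have hzg := hkey i hiM hi2 hig z (hzc ⟨i, hiM⟩ hiT).symm
  have hTg : ∀ t : M, t ∈ T → g⁻¹ * (t : S) * g ∈ M := fun t ht =>
    (hkey z z.2 hz2' hzg.2 t (hzc t ht)).2
  -- `g⁻¹ T g` lies in a Sylow 2-subgroup of `M`
  let f : (T : Subgroup M) →* M :=
    { toFun := fun t => ⟨g⁻¹ * ((t : M) : S) * g, hTg t t.2⟩
      map_one' := by
        apply Subtype.ext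
        simp
      map_mul' := by
        intro a b
        apply Subtype.ext
        simp only [Subgroup.coe_mul]
        group }
  have hf2 : IsPGroup 2 f.range := T.isPGroup'.of_surjective f.rangeRestrict f.rangeRestrict_surjective
  obtain ⟨T2, hT2⟩ := hf2.exists_le_sylow
  obtain ⟨m, hm⟩ := MulAction.exists_smul_eq M T T2
  obtain ⟨m₁, hm₁⟩ := MulAction.exists_smul_eq M X T
  set XS : Subgroup S := (X : Subgroup M).map M.subtype with hXS
  have hTX : ∀ t : M, t ∈ T ↔ (m₁ : S)⁻¹ * t * m₁ ∈ XS := by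
    intro t
    rw [← hm₁]
    constructor
    · rintro ⟨x, hx, rfl⟩
      refine ⟨x, hx, ?_⟩
      change (x : S) = (m₁ : S)⁻¹ * ((m₁ * x * m₁⁻¹ : M) : S) * m₁
      push_cast
      group
    · rintro ⟨x, hx, hxt⟩
      refine ⟨x, hx, ?_⟩
      apply Subtype.ext
      change ((m₁ * x * m₁⁻¹ : M) : S) = t
      have hxt' : (x : S) = (m₁ : S)⁻¹ * t * m₁ := hxt
      push_cast
      rw [hxt']
      group
  have hmt : ∀ t : M, t ∈ T → ∃ s : M, s ∈ T ∧ (s : S) = (m : S)⁻¹ * (g⁻¹ * t * g) * m := by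
    intro t ht
    have h1 : f ⟨t, ht⟩ ∈ T2 := hT2 ⟨⟨t, ht⟩, rfl⟩
    rw [← hm] at h1
    obtain ⟨s, hs, hs2⟩ := h1
    refine ⟨s, hs, ?_⟩
    have h2 : ((m * s * m⁻¹ : M) : S) = g⁻¹ * t * g := congrArg Subtype.val hs2
    rw [← h2]
    push_cast
    group
  -- `m₁⁻¹ m⁻¹ g⁻¹ m₁` normalises `X`
  have hw : (m₁ : S)⁻¹ * (m : S)⁻¹ * g⁻¹ * m₁ ∈ Subgroup.normalizer (XS : Set S) := by
    refine Subgroup.mem_normalizer_fintype fun y hy => ?_
    obtain ⟨x, hx, hxy⟩ := hy
    have hxy' : (x : S) = y := hxy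
    have ht : m₁ * x * m₁⁻¹ ∈ T := by
      rw [hTX]
      refine ⟨x, hx, ?_⟩
      change (x : S) = _
      push_cast
      group
    obtain ⟨s, hs, hs2⟩ := hmt _ ht
    have := (hTX s).mp hs
    rw [hs2] at this
    have h5 : (m₁ : S)⁻¹ * (m : S)⁻¹ * g⁻¹ * m₁ * y * ((m₁ : S)⁻¹ * (m : S)⁻¹ * g⁻¹ * m₁)⁻¹ =
        (m₁ : S)⁻¹ * ((m : S)⁻¹ * (g⁻¹ * ((m₁ * x * m₁⁻¹ : M) : S) * g) * m) * m₁ := by
      push_cast
      rw [hxy']
      group
    change (m₁ : S)⁻¹ * (m : S)⁻¹ * g⁻¹ * m₁ * y * ((m₁ : S)⁻¹ * (m : S)⁻¹ * g⁻¹ * m₁)⁻¹ ∈ XS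
    rw [h5]
    exact this
  have hwM := hX hw
  have h3 : g⁻¹ = (m : S) * (m₁ : S) * ((m₁ : S)⁻¹ * (m : S)⁻¹ * g⁻¹ * m₁) * (m₁ : S)⁻¹ := by group
  have h4 : g⁻¹ ∈ M := by
    rw [h3]
    exact mul_mem (mul_mem (mul_mem m.2 m₁.2) hwM) (inv_mem m₁.2)
  exact (Subgroup.inv_mem_iff M).mp h4

/-- Let M be a subgroup of even order of a finite group S such that M contains the centralizer in S of each of its involutions and the normal core of M in S has odd order. Then all involutions of S are conjugate. If moreover N_S(X) ≤ M for a Sylow 2-subgroup X of M and I is an involution in the centre of X, then all involutions of M are conjugate in M and M = M₀ C_M(I) for some subgroup M₀ of M of odd order. -/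
theorem result {S : Type*} [Group S] [Finite S] (M : Subgroup S) (hM : Even (Nat.card M))
    (hC : ∀ i ∈ M, orderOf i = 2 → Subgroup.centralizer ({i} : Set S) ≤ M) (hcore : Odd (Nat.card M.normalCore)) :
    (∀ x y : S, orderOf x = 2 → orderOf y = 2 → IsConj x y) ∧
      ∀ (X : Sylow 2 M) (I : M), I ∈ (Subgroup.center ↥(X : Subgroup ↥M)).map (X : Subgroup ↥M).subtype → orderOf I = 2 →
        Subgroup.normalizer (((X : Subgroup M).map M.subtype : Subgroup S) : Set S) ≤ M →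
        (∀ x y : M, orderOf x = 2 → orderOf y = 2 → IsConj x y) ∧
          ∃ M₀ : Subgroup M, Odd (Nat.card M₀) ∧
            ∀ m : M, ∃ a ∈ M₀, ∃ c ∈ Subgroup.centralizer ({I} : Set M), m = a * c := by
  refine ⟨isConj_all hM hC hcore, ?_⟩
  intro X I _ hI hX
  have hSE := isStronglyEmbedded hM hC hcore X hX
  obtain ⟨g, hg⟩ : ∃ g, g ∉ M := by
    obtain ⟨t, ht, -⟩ := exists_involution_notMem' hM hcore
    exact ⟨t, ht⟩
  set x : S ⧸ M := ((1 : S) : S ⧸ M) with hx
  set y : S ⧸ M := ((g : S) : S ⧸ M) with hy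
  have hxy : x ≠ y := by
    intro h
    have h1 := QuotientGroup.eq.mp h
    simp only [inv_one, one_mul] at h1
    exact hg h1
  have hmem : ∀ t : S, t • x = x ↔ t ∈ M := fun t => smul_one_eq_iff t
  have htrans : ∀ s s' : M, orderOf s = 2 → orderOf s' = 2 → ∃ d : M, (d : S) • y = y ∧
      d * s * d⁻¹ = s' := by
    intro s s' hs hs'
    obtain ⟨d, hdx, hdy, hd⟩ := SignalizersComponents.BenderCount.exists_conj_of_fixes hSE hxy
      (s := s) (s' := s') ⟨by rwa [Subgroup.orderOf_coe], (hmem _).mpr s.2⟩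
      ⟨by rwa [Subgroup.orderOf_coe], (hmem _).mpr s'.2⟩
    refine ⟨⟨d, (hmem d).mp hdx⟩, hdy, ?_⟩
    apply Subtype.ext
    exact hd
  refine ⟨?_, ?_⟩
  · intro s s' hs hs'
    obtain ⟨d, -, hd⟩ := htrans s s' hs hs'
    exact isConj_iff.mpr ⟨d, hd⟩
  let M₀ : Subgroup M := (MulAction.stabilizer S y).comap M.subtype
  refine ⟨M₀, ?_, ?_⟩
  · have h1 := SignalizersComponents.BenderCount.odd_of_fixes_two hSE hxy (M₀.map M.subtype) (by
      rintro _ ⟨d, hd, rfl⟩
      exact ⟨(hmem _).mpr d.2, hd⟩)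
    rwa [Nat.card_congr (M₀.equivMapOfInjective _ M.subtype_injective).toEquiv.symm] at h1
  · intro m
    obtain ⟨d, hdy, hd⟩ := htrans I (m * I * m⁻¹) hI (by rw [orderOf_conj]; exact hI)
    refine ⟨d, hdy, d⁻¹ * m, ?_, by group⟩
    rw [Subgroup.mem_centralizer_singleton_iff]
    have h1 : d⁻¹ * (d * I * d⁻¹) * m = I * (d⁻¹ * m) := by group
    rw [← h1, hd]
    group

end Cfsg.Agent.S1905
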