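import Cfsg.Statements.S1906
import Cfsg.Agent.H19.CentTransfer
import Cfsg.Agent.H19.GLThreeTwo

set_option autoImplicit false
open Cfsg

namespace Cfsg.Agent.S1906

open Subgroup

/-- Let G be a finite group with no subgroup of index 2 whose Sylow 2-subgroup X embeds in GL₃(F) for a finite field F of odd order. If X contains an elementary abelian subgroup of order 8, then X is abelian. -/
theorem result {G : Type*} [Group G] [Finite G] (hG : ∀ H : Subgroup G, H.index ≠ 2) (X : Sylow 2 G)
    {F : Type*} [Field F] [Fintype F] (hF : Odd (Fintype.card F))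
    (f : ↥(X : Subgroup G) →* GL (Fin 3) F) (hf : Function.Injective f)
    (E : Subgroup G) (hE : E ≤ (X : Subgroup G)) (hEa : Cfsg.IsElementaryAbelian 2 E) (hE8 : Nat.card E = 8) :
    IsMulCommutative (X : Subgroup G) := by
  have h2 : (2 : F) ≠ 0 := by
    intro h
    have h3 : ringChar F ∣ 2 := by
      rw [← ringChar.spec]
      exact_mod_cast h
    have hchar : CharP F 2 := by
      rcases (Nat.dvd_prime Nat.prime_two).mp h3 with h4 | h4
      · exfalso
        exact CharP.ringChar_ne_one h4
      · rw [← h4]; exact ringChar.charP F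
    have h4 : 2 ∣ Fintype.card F := (CharP.cast_eq_zero_iff F 2 _).mp (Nat.cast_card_eq_zero F)
    rw [← Nat.not_even_iff_odd] at hF
    exact hF (even_iff_two_dvd.mpr h4)
  by_contra hna'
  have hna : ¬ ∀ a b : (X : Subgroup G), a * b = b * a := fun h => hna' ⟨⟨h⟩⟩
  -- the element `e` mapping to `-1`
  obtain ⟨⟨e₀, he₀⟩, he⟩ := H19.GLThreeTwo.exists_neg_one h2 (E := E)
    (fun x => Subtype.ext (by
      have := hEa.2 x x.2
      rwa [pow_two] at this)) hE8
    (f.comp (Subgroup.inclusion hE)) (hf.comp (Subgroup.inclusion_injective hE))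
  have heX : e₀ ∈ (X : Subgroup G) := hE he₀
  have hee : e₀ * e₀ = 1 := by
    have := hEa.2 e₀ he₀
    rwa [pow_two] at this
  have hfe : (f ⟨e₀, heX⟩ : Matrix (Fin 3) (Fin 3) F) = -1 := he
  -- `e` is central
  have hcen : ∀ x : (X : Subgroup G), x * ⟨e₀, heX⟩ = ⟨e₀, heX⟩ * x := by
    intro x
    apply hf
    apply Units.ext
    rw [H19.GLThreeTwo.coe_mul, H19.GLThreeTwo.coe_mul, hfe]
    simp
  have hdet : Matrix.GeneralLinearGroup.det (f ⟨e₀, heX⟩) = (-1 : Fˣ) := by
    apply Units.ext
    change (f ⟨e₀, heX⟩ : Matrix (Fin 3) (Fin 3) F).det = -1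
    rw [hfe, H19.GLThreeTwo.det_neg_fin_three, Matrix.det_one]
  have hone : (1 : Fˣ) ≠ -1 := by
    intro h
    have h3 : (1 : F) = -1 := congrArg Units.val h
    exact h2 (by linear_combination h3)
  let φ : (X : Subgroup G) →* Fˣ := Matrix.GeneralLinearGroup.det.comp f
  have hφe : φ ⟨e₀, heX⟩ = -1 := hdet
  have key : φ ⟨e₀, heX⟩ = 1 := by
    refine H19.CentTransfer.eq_one_of_hom X φ (e := e₀)
      (fun g => H19.CentTransfer.hom_eq_one_of_index_ne_two hG g hee) heX hee
      (T := (X : Subgroup G)) le_rfl heX (fun t ht => congrArg Subtype.val (hcen ⟨t, ht⟩)) ?_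
    intro g hg h
    have hgN : g⁻¹ ∈ normalizer ((X : Subgroup G) : Set G) :=
      UGT.A7.B.CentTransfer.mem_normalizer_of fun s hs => by
        rw [inv_inv]
        exact hg s hs
    set z : (X : Subgroup G) := ⟨g⁻¹ * e₀ * g, h⟩ with hz
    have hzz : z * z = 1 := by
      apply Subtype.ext
      change g⁻¹ * e₀ * g * (g⁻¹ * e₀ * g) = 1
      calc g⁻¹ * e₀ * g * (g⁻¹ * e₀ * g) = g⁻¹ * (e₀ * e₀) * g := by group
        _ = 1 := by rw [hee]; group
    have hφz : φ z * φ z = 1 := by rw [← map_mul, hzz, map_one]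
    have hcase : φ z = 1 ∨ φ z = -1 := by
      have h3 : ((φ z : Fˣ) : F) * (φ z : Fˣ) = 1 := by
        have := congrArg Units.val hφz
        simpa using this
      rcases mul_self_eq_one_iff.mp h3 with h4 | h4
      · left; exact Units.ext h4
      · right; exact Units.ext h4
    rcases hcase with h3 | h3
    · exfalso
      have hzc : ∀ x : (X : Subgroup G), x * z = z * x := by
        intro x
        have hx : g * x * g⁻¹ ∈ (X : Subgroup G) := by
          have h5 := (Subgroup.mem_normalizer_iff.mp hgN (g * x * g⁻¹)).mpr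
          apply h5
          have h6 : g⁻¹ * (g * x * g⁻¹) * g⁻¹⁻¹ = x := by group
          rw [h6]
          exact x.2
        have h7 := congrArg Subtype.val (hcen ⟨_, hx⟩)
        have h8 : g * x * g⁻¹ * e₀ = e₀ * (g * x * g⁻¹) := h7
        apply Subtype.ext
        change (x : G) * (g⁻¹ * e₀ * g) = g⁻¹ * e₀ * g * x
        calc (x : G) * (g⁻¹ * e₀ * g) = g⁻¹ * (g * x * g⁻¹ * e₀) * g := by group
          _ = g⁻¹ * (e₀ * (g * x * g⁻¹)) * g := by rw [h8]
          _ = _ := by group
      have hz1 : z ≠ 1 := by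
        intro h4
        have h5 : g⁻¹ * e₀ * g = 1 := congrArg Subtype.val h4
        have h6 : e₀ = 1 := by
          calc e₀ = g * (g⁻¹ * e₀ * g) * g⁻¹ := by group
            _ = 1 := by rw [h5]; group
        have h7 : (⟨e₀, heX⟩ : (X : Subgroup G)) = 1 := Subtype.ext h6
        rw [h7, map_one] at hφe
        exact hone hφe
      have hzdet : (f z : Matrix (Fin 3) (Fin 3) F).det = 1 := by
        have := congrArg Units.val h3
        simpa [φ] using this
      have hmem := H19.GLThreeTwo.mem_commutator h2 X.isPGroup' f hf hna hzc hzz hz1 hzdet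
      -- the commutator subgroup of `X` is normalised by `g`
      have h4 : (z : G) ∈ (commutator (X : Subgroup G)).map (X : Subgroup G).subtype := ⟨z, hmem, rfl⟩
      have h5 : (commutator (X : Subgroup G)).map (X : Subgroup G).subtype =
          ⁅(X : Subgroup G), (X : Subgroup G)⁆ := by
        rw [commutator_def, Subgroup.map_commutator, ← MonoidHom.range_eq_map, Subgroup.range_subtype]
      rw [h5] at h4
      have h6 : ⁅(X : Subgroup G), (X : Subgroup G)⁆.map (MulAut.conj g).toMonoidHom =
          ⁅(X : Subgroup G), (X : Subgroup G)⁆ := by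
        rw [Subgroup.map_commutator]
        have h7 : (X : Subgroup G).map (MulAut.conj g).toMonoidHom = (X : Subgroup G) := by
          ext x
          constructor
          · rintro ⟨y, hy, rfl⟩
            have h8 := (Subgroup.mem_normalizer_iff.mp (inv_mem hgN) y).mp hy
            rw [inv_inv] at h8
            exact h8
          · intro hx
            refine ⟨g⁻¹ * x * g, hg x hx, ?_⟩
            change g * (g⁻¹ * x * g) * g⁻¹ = x
            group
        rw [h7]
      have h7 : e₀ ∈ ⁅(X : Subgroup G), (X : Subgroup G)⁆ := by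
        rw [← h6]
        refine ⟨z, h4, ?_⟩
        change g * (g⁻¹ * e₀ * g) * g⁻¹ = e₀
        group
      rw [← h5] at h7
      obtain ⟨w, hw, hwe⟩ := h7
      have hw' : w = ⟨e₀, heX⟩ := Subtype.ext hwe
      rw [hw'] at hw
      have h8 : commutator (X : Subgroup G) ≤ φ.ker := Abelianization.commutator_subset_ker φ
      have h9 := MonoidHom.mem_ker.mp (h8 hw)
      rw [hφe] at h9
      exact hone h9.symm
    · rw [h3, hφe]
  rw [hφe] at key
  exact hone key.symm

end Cfsg.Agent.S1906
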