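import Cfsg.Statements.S1908
import Cfsg.Agent.H20.DPi

set_option autoImplicit false
open Cfsg

namespace Cfsg.Agent.S1908

universe u

open Cfsg.Agent.H20.DPi

theorem chain (π : Set ℕ) (n : ℕ) : ∀ (G : Type u) [Group G] [Finite G]
    (H : Fin (n + 1) → Subgroup G), H 0 = ⊥ → H (Fin.last n) = ⊤ → Monotone H → (∀ i, (H i).Normal) →
      (∀ i : Fin n, (∀ q : ℕ, q.Prime → q ∣ (H i.castSucc).relIndex (H i.succ) → q ∈ π) ∨
        (∀ q : ℕ, q.Prime → q ∣ (H i.castSucc).relIndex (H i.succ) → q ∉ π)) → HasD π G := by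
  induction n with
  | zero =>
    intro G _ _ H h0 h1 _ _ _
    have hbt : (⊥ : Subgroup G) = ⊤ := by
      rw [← h0, ← h1]; rfl
    have hc : Nat.card G = 1 := by
      rw [← Subgroup.card_top (G := G), ← hbt, Subgroup.card_bot]
    have hU : ∀ U : Subgroup G, U = ⊥ := by
      intro U
      rw [eq_bot_iff, hbt]
      exact le_top
    refine ⟨⟨⊥, ?_, ?_⟩, ?_⟩
    · intro p hp hd
      rw [Subgroup.card_bot] at hd
      exact absurd (Nat.dvd_one.1 hd) hp.one_lt.ne'
    · intro p hp _ hd
      rw [Subgroup.index_bot, hc] at hd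
      exact absurd (Nat.dvd_one.1 hd) hp.one_lt.ne'
    · intro K U _ _
      refine ⟨1, ?_⟩
      rw [hU (U.map _)]
      exact bot_le
  | succ n ih =>
    intro G _ _ H h0 h1 hmono hnorm hstep
    have hN := hnorm 1
    set N := H 1 with hNdef
    have hNc : (H (0 : Fin (n+1)).castSucc).relIndex (H (0 : Fin (n+1)).succ) = Nat.card N := by
      rw [Fin.castSucc_zero, h0, Subgroup.relIndex_bot_left]
      rfl
    refine hasD_step N ?_ ?_
    · have := hstep 0
      rw [hNc] at this
      exact this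
    · have hle : ∀ i : Fin (n + 1), N ≤ H i.succ := fun i => hmono (Fin.le_def.2 (by simp))
      refine ih (G ⧸ N) (fun i => (H i.succ).map (QuotientGroup.mk' N)) ?_ ?_ ?_ ?_ ?_
      · rw [Fin.succ_zero_eq_one]
        rw [← hNdef]
        rw [Subgroup.map_eq_bot_iff, QuotientGroup.ker_mk']
      · rw [Fin.succ_last, h1]
        exact Subgroup.map_top_of_surjective _ (QuotientGroup.mk'_surjective N)
      · intro i j hij
        exact Subgroup.map_mono (hmono (Fin.succ_le_succ_iff.2 hij))
      · intro i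
        have := hnorm i.succ
        exact Subgroup.Normal.map this _ (QuotientGroup.mk'_surjective N)
      · intro i
        have h2 : ((H i.castSucc.succ).map (QuotientGroup.mk' N)).relIndex ((H i.succ.succ).map (QuotientGroup.mk' N)) =
            (H i.succ.castSucc).relIndex (H i.succ.succ) := by
          rw [Subgroup.relIndex_map_map, QuotientGroup.ker_mk', sup_eq_left.2 (hle _), sup_eq_left.2 (hle _)]
          rfl
        have := hstep i.succ
        rw [← h2] at this
        exact this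

/-- Let π be a set of primes and G a finite π-separable group: G has a chain of normal subgroups from 1 to G in which each successive index is divisible only by primes in π or only by primes outside π. Then G has a Hall π-subgroup, any two Hall π-subgroups of G are conjugate, and every subgroup of G whose order is divisible only by primes in π lies in some Hall π-subgroup. -/
theorem result {G : Type*} [Group G] [Finite G] (π : Set ℕ)
    (hsep : ∃ (n : ℕ) (H : Fin (n + 1) → Subgroup G), H 0 = ⊥ ∧ H (Fin.last n) = ⊤ ∧ Monotone H ∧ (∀ i, (H i).Normal) ∧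
      ∀ i : Fin n, (∀ q : ℕ, q.Prime → q ∣ (H i.castSucc).relIndex (H i.succ) → q ∈ π) ∨
        (∀ q : ℕ, q.Prime → q ∣ (H i.castSucc).relIndex (H i.succ) → q ∉ π)) :
    (∃ K : Subgroup G, Cfsg.IsPiHall π K) ∧
      (∀ K L : Subgroup G, Cfsg.IsPiHall π K → Cfsg.IsPiHall π L → ∃ g : G, L = K.map (MulAut.conj g).toMonoidHom) ∧
      ∀ U : Subgroup G, (∀ q : ℕ, q.Prime → q ∣ Nat.card U → q ∈ π) → ∃ K : Subgroup G, Cfsg.IsPiHall π K ∧ U ≤ K := by
  obtain ⟨n, H, h0, h1, hmono, hnorm, hstep⟩ := hsep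
  obtain ⟨hex, hconj⟩ := chain π n G H h0 h1 hmono hnorm hstep
  have hcm : ∀ (K : Subgroup G) (g : G), Nat.card (K.map (MulAut.conj g).toMonoidHom) = Nat.card K := fun K g =>
    (Nat.card_congr (K.equivMapOfInjective _ (MulAut.conj g).injective).toEquiv).symm
  have hH : ∀ (K : Subgroup G) (g : G), Cfsg.IsPiHall π K → Cfsg.IsPiHall π (K.map (MulAut.conj g).toMonoidHom) := by
    intro K g hK
    refine ⟨by rw [hcm]; exact hK.1, ?_⟩
    have h2 : (K.map (MulAut.conj g).toMonoidHom).index = K.index := by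
      have h3 := Subgroup.card_mul_index (K.map (MulAut.conj g).toMonoidHom)
      rw [hcm, ← Subgroup.card_mul_index K] at h3
      exact Nat.eq_of_mul_eq_mul_left Nat.card_pos h3
    rw [h2]; exact hK.2
  refine ⟨hex, ?_, ?_⟩
  · intro K L hK hL
    obtain ⟨g, hg⟩ := hconj L K hL hK.1
    exact ⟨g, le_of_card_piNum (hH K g hK) hg hL.1⟩
  · intro U hU
    obtain ⟨K, hK⟩ := hex
    obtain ⟨g, hg⟩ := hconj K U hK hU
    refine ⟨K.map (MulAut.conj g⁻¹).toMonoidHom, hH K g⁻¹ hK, ?_⟩
    intro x hx
    refine ⟨g * x * g⁻¹, hg ⟨x, hx, rfl⟩, ?_⟩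
    change g⁻¹ * (g * x * g⁻¹) * g⁻¹⁻¹ = x
    group

end Cfsg.Agent.S1908
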