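import Cfsg.Statements.S1917
import Cfsg.Agent.S4319

set_option autoImplicit false
open Cfsg

namespace Cfsg.Agent.S1917

/-- Let G be a finite group and A an elementary abelian group of automorphisms of G of order coprime to that of G. Suppose that for every prime p dividing the order of G exactly one Sylow p-subgroup of G is A-invariant, and that the subgroup of fixed points of A has odd order. Then G is solvable. -/
theorem result {G : Type*} [Group G] [Finite G] (A : Subgroup (MulAut G)) {r : ℕ} [Fact r.Prime]
    (hA : Cfsg.IsElementaryAbelian r A) (hcop : (Nat.card A).Coprime (Nat.card G))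
    (huniq : ∀ p : ℕ, p.Prime → p ∣ Nat.card G →
      ∃! P : Sylow p G, ∀ φ ∈ A, (P : Subgroup G).map (MulEquiv.toMonoidHom φ) = P)
    (hodd : Odd (Nat.card {g : G // ∀ φ ∈ A, φ g = g})) :
    Group.IsSolvable G := by
  haveI : Finite (MulAut G) := inferInstance
  haveI : Finite A := inferInstance
  refine Cfsg.Agent.S4319.result (A := A) (G := G) hcop.symm (Or.inr ?_)
  have e : ↥(FixedPoints.subgroup A G) ≃ {g : G // ∀ φ ∈ A, φ g = g} :=
    Equiv.subtypeEquivRight (fun g => by
      constructor
      · intro h φ hφ
        exact h ⟨φ, hφ⟩
      · intro h φ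
        exact h φ.1 φ.2)
  rw [Nat.card_congr e]
  exact hodd

end Cfsg.Agent.S1917
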