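import Cfsg.Statements.S1923
import Cfsg.Agent.S0000
import Cfsg.Agent.H254.CopAll
import Cfsg.Agent.H15.GL
import Cfsg.Agent.H15.CGAll

set_option autoImplicit false
open Cfsg

namespace Cfsg.Agent.S1923

/-- Let r be a prime and let A and G be subgroups of a finite group X with G nontrivial and A normalizing G, A an elementary abelian r-group of order at least r³. For each nontrivial a ∈ A let θ(a) be an A-invariant subgroup of C_G(a) of order prime to r such that: (a) whenever the layer E(θ(a)) is nontrivial, it is a non-abelian group whose only A-invariant normal subgroups are 1 and itself, all of its non-abelian simple sections are known simple groups, the Fitting subgroup of θ(a) is trivial, and C_A(E(θ(a))) = ⟨a⟩; (b) for all nontrivial a, b ∈ A, θ(a) ∩ C_G(b) ≤ θ(b) and E(E(θ(a)) ∩ C_G(b)) ≤ E(θ(b)); (c) G is generated by the subgroups E(θ(a)). Then G has order prime to r, G is non-abelian with no A-invariant normal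 subgroups other than 1 and G, every non-abelian simple section of G is a known simple group, and C_G(a) = θ(a) for every nontrivial a ∈ A. -/
theorem result {X : Type*} [Group X] [Finite X] {r : ℕ} [Fact r.Prime] (A G : Subgroup X) (hG : G ≠ ⊥) (hAG : A ≤ Subgroup.normalizer (G : Set X))
    (hA : Cfsg.IsElementaryAbelian r A) (hrank : r ^ 3 ≤ Nat.card A)
    (θ : X → Subgroup X)
    (hθ : ∀ a ∈ A, a ≠ 1 → θ a ≤ G ⊓ Subgroup.centralizer ({a} : Set X) ∧ A ≤ Subgroup.normalizer ((θ a : Subgroup X) : Set X) ∧ (Nat.card ↥(θ a)).Coprime r)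
    (hE : ∀ a ∈ A, a ≠ 1 → Cfsg.layer ↥(θ a) ≠ ⊥ →
      ¬ IsMulCommutative ↥((Cfsg.layer ↥(θ a)).map (θ a).subtype) ∧
      (∀ N : Subgroup X, N ≤ (Cfsg.layer ↥(θ a)).map (θ a).subtype → (N.subgroupOf ((Cfsg.layer ↥(θ a)).map (θ a).subtype)).Normal →
         A ≤ Subgroup.normalizer (N : Set X) → N = ⊥ ∨ N = (Cfsg.layer ↥(θ a)).map (θ a).subtype) ∧
      Cfsg.IsKGroup ↥((Cfsg.layer ↥(θ a)).map (θ a).subtype) ∧
      Cfsg.fittingSubgroup ↥(θ a) = ⊥ ∧
      A ⊓ Subgroup.centralizer (((Cfsg.layer ↥(θ a)).map (θ a).subtype : Subgroup X) : Set X) = Subgroup.zpowers a)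
    (hbal : ∀ a ∈ A, ∀ b ∈ A, a ≠ 1 → b ≠ 1 →
      θ a ⊓ Subgroup.centralizer ({b} : Set X) ≤ θ b ∧
      (Cfsg.layer ↥((Cfsg.layer ↥(θ a)).map (θ a).subtype ⊓ Subgroup.centralizer ({b} : Set X))).map
          ((Cfsg.layer ↥(θ a)).map (θ a).subtype ⊓ Subgroup.centralizer ({b} : Set X)).subtype ≤ (Cfsg.layer ↥(θ b)).map (θ b).subtype)
    (hgen : G = ⨆ a : {a : X // a ∈ A ∧ a ≠ 1}, (Cfsg.layer ↥(θ a.1)).map (θ a.1).subtype) :
    (Nat.card G).Coprime r ∧ ¬ IsMulCommutative ↥G ∧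
    (∀ N : Subgroup X, N ≤ G → (N.subgroupOf G).Normal → A ≤ Subgroup.normalizer (N : Set X) → N = ⊥ ∨ N = G) ∧
    Cfsg.IsKGroup ↥G ∧ ∀ a ∈ A, a ≠ 1 → G ⊓ Subgroup.centralizer ({a} : Set X) = θ a := by
  have hna : ∀ J : Subgroup X, Agent.H15.Prj.SNA J → IsSimpleGroup ↥J ∧ ¬ IsMulCommutative ↥J := by
    rintro J ⟨h1, x, hx, y, hy, hxy⟩
    exact ⟨h1, fun hc => hxy (congrArg Subtype.val (hc.is_comm.comm (⟨x, hx⟩ : ↥J) ⟨y, hy⟩))⟩
  obtain ⟨h1, h2, h3, h4⟩ := Agent.H15.GL.main A G hG hA hrank θ hθ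
    (fun a ha ha1 h => ⟨(hE a ha ha1 h).1, (hE a ha ha1 h).2.1, (hE a ha ha1 h).2.2.2.2⟩) hbal hgen
    (fun J hJ => by
      obtain ⟨_, h2⟩ := hna J hJ
      exact Agent.H254.CopAll.known ↥J h2 Agent.S0000.result)
    (fun J hJ => by
      obtain ⟨_, h2⟩ := hna J hJ
      exact Agent.H15.CGAll.cg_known h2 Agent.S0000.result)
  exact ⟨h1, h2, h3, fun H N _ hs _ => Agent.S0000.result, h4⟩

end Cfsg.Agent.S1923
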