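import Cfsg.Statements.S1935
import Cfsg.Agent.H26.LimitTransfer
import Cfsg.Agent.H26.LimitOffender

set_option autoImplicit false
open Cfsg

namespace Cfsg.Agent.S1935

open Subgroup Cfsg.Agent.H26.Limit
open scoped commutatorElement

/-- Let p ≥ 5 be a prime and, inside an ambient finite group, let G be a p-subgroup acting faithfully by conjugation on an elementary abelian p-subgroup V that it normalizes (only the identity of G centralizes V). Suppose V is an F-module for G: some nontrivial elementary abelian subgroup E of G satisfies #E · #C_V(E) ≥ #V. Then G contains such an offender A that moreover acts quadratically on V ([V, A, A] = 1) and is normal in its normal closure in G. -/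
theorem result {Ω : Type*} [Group Ω] [Finite Ω] (p : ℕ) [Fact p.Prime] (hp : 5 ≤ p) (V G : Subgroup Ω) (hV : Cfsg.IsElementaryAbelian p V) (hG : IsPGroup p ↥G) (hGV : G ≤ Subgroup.normalizer (V : Set Ω)) (hfaith : G ⊓ Subgroup.centralizer (V : Set Ω) = ⊥) (hF : ∃ E : Subgroup Ω, E ≤ G ∧ E ≠ ⊥ ∧ Cfsg.IsElementaryAbelian p E ∧ Nat.card ↥V ≤ Nat.card ↥E * Nat.card ↥(V ⊓ Subgroup.centralizer (E : Set Ω))) : ∃ A : Subgroup Ω, A ≤ G ∧ A ≠ ⊥ ∧ Cfsg.IsElementaryAbelian p A ∧ Nat.card ↥V ≤ Nat.card ↥A * Nat.card ↥(V ⊓ Subgroup.centralizer (A : Set Ω)) ∧ ⁅⁅V, A⁆, A⁆ = ⊥ ∧ ∀ g ∈ Subgroup.closure {x : Ω | ∃ h ∈ G, ∃ a ∈ A, x = h * a * h⁻¹}, ∀ a ∈ A, g * a * g⁻¹ ∈ A := by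
  obtain ⟨W, _, _, e, ρ, he, hρ⟩ := exists_rep V G hV hGV
  have hW : Finite W := Finite.of_equiv V e.symm
  have hinj := rep_injective e ρ hρ hfaith
  have hnil : Group.IsNilpotent G := hG.isNilpotent
  have hcardmap : ∀ A : Subgroup G, Nat.card (A.map G.subtype) = Nat.card A := fun A =>
    (Nat.card_congr (A.equivMapOfInjective _ G.subtype_injective).toEquiv).symm
  have hne : (Off ρ (Nat.card V)).Nonempty := by
    obtain ⟨E, hEG, hE1, hE, hoff⟩ := hF
    obtain ⟨B, hBE, hB1, hBq, hBoff⟩ := Cfsg.Agent.H26.LimitOffender.exists_quadratic V E hV (hEG.trans hGV)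
      (by rw [eq_bot_iff, ← hfaith]; exact inf_le_inf_right _ hEG) hE hE1 hoff
    have hBG : B ≤ G := hBE.trans hEG
    have hmap : (B.subgroupOf G).map G.subtype = B := by
      rw [subgroupOf_map_subtype, inf_eq_left.2 hBG]
    refine ⟨B.subgroupOf G, ?_, ?_, ?_⟩
    · intro h
      apply hB1
      rw [← hmap, h, Subgroup.map_bot]
    · rw [quad_iff e ρ he hρ, hmap]
      exact hBq
    · rw [card_fx e ρ hρ, ← hcardmap, hmap]
      exact hBoff
  obtain ⟨A₀, ⟨hA1, hAq, hAoff⟩, hAn⟩ := linear_main hp ρ hinj (Nat.card V) hne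
  have hAO : A₀ ∈ Off ρ (Nat.card V) := ⟨hA1, hAq, hAoff⟩
  refine ⟨A₀.map G.subtype, map_subtype_le _, ?_, ?_, ?_, ?_, ?_⟩
  · intro h
    apply hA1
    exact (map_eq_bot_iff_of_injective _ G.subtype_injective).1 h
  · have hcomm : ∀ a ∈ A₀, ∀ b ∈ A₀, a * b = b * a := by
      intro a ha b hb
      apply hinj
      rw [map_mul, map_mul]
      have h1 := hAq a ha b hb
      have h2 := hAq b hb a ha
      linear_combination (norm := noncomm_ring) h1 - h2
    refine ⟨⟨⟨?_⟩⟩, ?_⟩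
    · rintro ⟨_, a, ha, rfl⟩ ⟨_, b, hb, rfl⟩
      apply Subtype.ext
      change (a : Ω) * b = b * a
      exact congrArg Subtype.val (hcomm a ha b hb)
    · rintro _ ⟨a, ha, rfl⟩
      have h1 : a ^ p = 1 := by
        apply hinj
        obtain ⟨m, hm⟩ : ∃ m, ρ a = 1 + m := ⟨ρ a - 1, by abel⟩
        have hmm : m * m = 0 := by
          have := hAq a ha a ha
          rwa [hm, add_sub_cancel_left] at this
        rw [map_pow_of hmm hm, map_one, ← Nat.cast_smul_eq_nsmul (ZMod p), CharP.cast_eq_zero, zero_smul,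
          add_zero]
      exact congrArg Subtype.val h1
  · rw [hcardmap, ← card_fx e ρ hρ]
    exact hAoff
  · rw [← quad_iff e ρ he hρ]
    exact hAq
  · intro g hg
    have hle : Subgroup.closure {x : Ω | ∃ h ∈ G, ∃ a ∈ A₀.map G.subtype, x = h * a * h⁻¹} ≤
        (normalizer (A₀ : Set G)).map G.subtype := by
      rw [closure_le]
      rintro _ ⟨h, hh, _, ⟨a, ha, rfl⟩, rfl⟩
      exact ⟨⟨h, hh⟩ * a * ⟨h, hh⟩⁻¹, hAn _ (Off.conj hAO ⟨h, hh⟩) ⟨a, ha, rfl⟩, rfl⟩
    obtain ⟨n, hn, rfl⟩ := hle hg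
    rintro _ ⟨a, ha, rfl⟩
    exact ⟨n * a * n⁻¹, (mem_normalizer_iff.1 hn a).1 ha, rfl⟩

end Cfsg.Agent.S1935
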