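import Cfsg.Statements.S1939
import Mathlib

set_option autoImplicit false
open Cfsg

namespace Cfsg.Agent.S1939

/-- If `a` is weakly closed in `S` and `c = g a ^ n g⁻¹ ∈ S` then `a` and `g S g⁻¹` lie in `C(c)`. -/
theorem result {G : Type*} [Group G] [Finite G] {p : ℕ} [Fact p.Prime] (S : Sylow p G) (a : G)
    (haS : a ∈ (S : Subgroup G)) (hwc : ∀ g : G, g * a * g⁻¹ ∈ (S : Subgroup G) → g * a * g⁻¹ = a) (n : ℕ) :
    ∀ g : G, g * a ^ n * g⁻¹ ∈ (S : Subgroup G) → g * a ^ n * g⁻¹ = a ^ n := by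
  intro g hg
  have hcen : ∀ s ∈ (S : Subgroup G), s * a = a * s := by
    intro s hs
    have h1 := hwc s (mul_mem (mul_mem hs haS) (inv_mem hs))
    calc s * a = (s * a * s⁻¹) * s := by group
      _ = a * s := by rw [h1]
  set c : G := g * a ^ n * g⁻¹ with hc
  -- the centraliser of c
  set C : Subgroup G := Subgroup.centralizer {c} with hC
  have haC : a ∈ C := by
    rw [hC, Subgroup.mem_centralizer_singleton_iff]
    exact (hcen c hg).symm
  have hSC : ((g • S : Sylow p G) : Subgroup G) ≤ C := by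
    intro y hy
    rw [Sylow.coe_subgroup_smul, Subgroup.mem_pointwise_smul_iff_inv_smul_mem] at hy
    rw [hC, Subgroup.mem_centralizer_singleton_iff]
    have hy2 : g⁻¹ * y * g ∈ (S : Subgroup G) := by
      simpa [MulAut.smul_def, MulAut.conj_apply] using hy
    have h2 : (g⁻¹ * y * g) * a ^ n = a ^ n * (g⁻¹ * y * g) := by
      have : Commute (g⁻¹ * y * g) a := hcen _ hy2
      exact this.pow_right n
    rw [hc]
    calc y * (g * a ^ n * g⁻¹) = g * ((g⁻¹ * y * g) * a ^ n) * g⁻¹ := by group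
      _ = g * (a ^ n * (g⁻¹ * y * g)) * g⁻¹ := by rw [h2]
      _ = (g * a ^ n * g⁻¹) * y := by group
  let T : Sylow p C := (g • S : Sylow p G).subtype hSC
  -- the p-subgroup generated by a in C
  have hp : IsPGroup p (Subgroup.zpowers (⟨a, haC⟩ : C)) := by
    have h0 : IsPGroup p (Subgroup.zpowers a) :=
      S.isPGroup'.to_le (by simpa [Subgroup.zpowers_le] using haS)
    obtain ⟨k, hk⟩ := (h0 ⟨a, Subgroup.mem_zpowers a⟩)
    have hk' : a ^ p ^ k = 1 := by
      simpa using congrArg Subtype.val hk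
    rintro ⟨y, hy⟩
    obtain ⟨m, rfl⟩ := Subgroup.mem_zpowers_iff.mp hy
    refine ⟨k, ?_⟩
    ext
    push_cast
    rw [← zpow_natCast, ← zpow_mul, mul_comm, zpow_mul, zpow_natCast, hk', one_zpow]
  obtain ⟨Q, hQ⟩ := hp.exists_le_sylow
  obtain ⟨h, hh⟩ := MulAction.exists_smul_eq C Q T
  have haQ : (⟨a, haC⟩ : C) ∈ Q := hQ (Subgroup.mem_zpowers _)
  have h3 : h * ⟨a, haC⟩ * h⁻¹ ∈ T := by
    rw [← hh]
    change h * ⟨a, haC⟩ * h⁻¹ ∈ ((h • Q : Sylow p C) : Subgroup C)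
    rw [Sylow.coe_subgroup_smul, Subgroup.mem_pointwise_smul_iff_inv_smul_mem]
    have : (MulAut.conj h)⁻¹ • (h * (⟨a, haC⟩ : C) * h⁻¹) = ⟨a, haC⟩ := by
      rw [← map_inv, MulAut.smul_def, MulAut.conj_apply]
      group
    rw [this]
    exact haQ
  have h4 : (h : G) * a * (h : G)⁻¹ ∈ ((g • S : Sylow p G) : Subgroup G) := h3
  rw [Sylow.coe_subgroup_smul, Subgroup.mem_pointwise_smul_iff_inv_smul_mem] at h4
  have h5 : (g⁻¹ * h) * a * (g⁻¹ * h)⁻¹ ∈ (S : Subgroup G) := by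
    have : (g⁻¹ * h) * a * (g⁻¹ * h)⁻¹ = (MulAut.conj g)⁻¹ • ((h : G) * a * (h : G)⁻¹) := by
      rw [← map_inv, MulAut.smul_def, MulAut.conj_apply]
      group
    rw [this]
    exact h4
  have h6 := hwc _ h5
  -- g⁻¹ h commutes with a
  have h7 : (h : G) * a * (h : G)⁻¹ = g * a * g⁻¹ := by
    calc (h : G) * a * (h : G)⁻¹ = g * ((g⁻¹ * h) * a * (g⁻¹ * h)⁻¹) * g⁻¹ := by group
      _ = g * a * g⁻¹ := by rw [h6]
  have h8 : (h : G) * a ^ n * (h : G)⁻¹ = c := by
    rw [hc, ← conj_pow, ← conj_pow, h7]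
  have h9 : (h : G) * c = c * h := by
    have := h.2
    exact Subgroup.mem_centralizer_singleton_iff.mp this
  have h10 : (h : G) * c * (h : G)⁻¹ = c := by
    rw [h9]; group
  have h11 : (h : G) * (a ^ n) * (h : G)⁻¹ = (h : G) * c * (h : G)⁻¹ := by rw [h8, h10]
  have h12 : a ^ n = c := by
    simpa using h11
  rw [h12]

end Cfsg.Agent.S1939
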