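import Cfsg.Statements.S1944
import Cfsg.Agent.H28.TraceSplit

set_option autoImplicit false
open Cfsg

namespace Cfsg.Agent.S1944

/-- Let S be a Sylow p-subgroup of the finite group G and suppose that the centre Z(S) lies in O_{p',p}(G). The elements of S each of which is its only G-conjugate in S form a subgroup W of Z(S); W is then a direct factor of Z(S): there is a subgroup K of Z(S) with W ∩ K = 1 and WK = Z(S). -/
theorem result {G : Type*} [Group G] [Finite G] {p : ℕ} [Fact p.Prime] (S : Sylow p G)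
    (hZ : ((S : Subgroup G) ⊓ Subgroup.centralizer ((S : Subgroup G) : Set G)) ≤ Cfsg.pPrimePCore p G) :
    ∃ W K : Subgroup G, (∀ x : G, x ∈ W ↔ (x ∈ (S : Subgroup G) ∧ ∀ g : G, g * x * g⁻¹ ∈ (S : Subgroup G) → g * x * g⁻¹ = x)) ∧
      K ≤ ((S : Subgroup G) ⊓ Subgroup.centralizer ((S : Subgroup G) : Set G)) ∧ W ⊓ K = ⊥ ∧ W ⊔ K = ((S : Subgroup G) ⊓ Subgroup.centralizer ((S : Subgroup G) : Set G)) :=
  H28.TraceSplit.splits S hZ

end Cfsg.Agent.S1944
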