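import Cfsg.Statements.S1949
import Cfsg.Agent.H29.DetectSmall

set_option autoImplicit false
open Cfsg

namespace Cfsg.Agent.S1949

open Cfsg.Agent.H29
open scoped commutatorElement

/-- Let P be a finite p-group and G a group of automorphisms of P containing the inner automorphisms. Then there is a G-invariant subgroup D of P, contained in the subgroup generated by the elements x⁻¹α(x) with x in P and α in O^p(G), of exponent dividing p when p is odd and dividing 4 when p = 2, with [D, P] ≤ Z(D), such that every automorphism in G of order prime to p that fixes D elementwise is the identity; moreover every maximal abelian subgroup A of D is normal in P and every automorphism in G fixing A elementwise has p-power order. -/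
theorem result {P : Type*} [Group P] [Finite P] {p : ℕ} [Fact p.Prime] (hP : IsPGroup p P)
    (G : Subgroup (MulAut P)) (hG : Cfsg.Inn P ≤ G) :
    ∃ D : Subgroup P,
      (∀ α ∈ G, D.map α.toMonoidHom = D) ∧
      D ≤ Subgroup.closure {y : P | ∃ α ∈ Cfsg.pResidual p ↥G, ∃ x : P, y = x⁻¹ * (α : MulAut P) x} ∧
      (∀ d ∈ D, d ^ p = 1 ∨ (p = 2 ∧ d ^ 4 = 1)) ∧
      ⁅D, (⊤ : Subgroup P)⁆ ≤ D ⊓ Subgroup.centralizer (D : Set P) ∧
      (∀ α ∈ G, (orderOf α).Coprime p → (∀ d ∈ D, α d = d) → α = 1) ∧
      ∀ A : Subgroup P, A ≤ D → IsMulCommutative ↥A →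
        (∀ B : Subgroup P, A ≤ B → B ≤ D → IsMulCommutative ↥B → B = A) →
        A.Normal ∧ ∀ α ∈ G, (∀ a ∈ A, α a = a) → ∃ k : ℕ, orderOf α = p ^ k := by
  obtain ⟨D, hDinv, hDR, hDq, hDc, hD1⟩ := DetectSmall.main hP G hG
  have hDn : D.Normal := DetectSmall.normal_of_inv hG hDinv
  refine ⟨D, fun α hα => ?_, hDR, fun d hd => (AlperinSmall.small_iff d).2 (hDq d hd), ?_, hD1, ?_⟩
  · apply le_antisymm
    · rintro _ ⟨x, hx, rfl⟩
      exact hDinv α hα x hx
    · intro x hx
      refine ⟨α⁻¹ x, hDinv α⁻¹ (G.inv_mem hα) x hx, ?_⟩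
      exact MulAut.apply_inv_self P α x
  · rw [Subgroup.commutator_le]
    intro d hd y _
    refine Subgroup.mem_inf.2 ⟨(hDc d hd y).1, ?_⟩
    rw [Subgroup.mem_centralizer_iff]
    intro e he
    exact ((hDc d hd y).2 e he).symm
  · intro A hAD hAc hmax
    have hab : ∀ a ∈ A, ∀ b ∈ A, a * b = b * a := by
      intro a ha b hb
      have := hAc.is_comm.comm ⟨a, ha⟩ ⟨b, hb⟩
      exact congrArg Subtype.val this
    have hmem : ∀ w ∈ D, (∀ a ∈ A, a * w = w * a) → w ∈ A := fun w hw hc =>
      DetectSmall.mem_of_max_abelian hAD hab hmax hw hc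
    have hZ : ∀ d ∈ D, ∀ y : P, ⁅d, y⁆ ∈ A := fun d hd y =>
      hmem _ (hDc d hd y).1 fun a ha => ((hDc d hd y).2 a (hAD ha)).symm
    refine ⟨⟨fun a ha g => ?_⟩, ?_⟩
    · have h1 : g * a * g⁻¹ = ⁅a, g⁆⁻¹ * a := by rw [commutatorElement_def]; group
      rw [h1]
      exact A.mul_mem (A.inv_mem (hZ a (hAD ha) g)) ha
    · intro α hα hαA
      have hn : orderOf α ≠ 0 := (orderOf_pos α).ne'
      set k := (orderOf α).factorization p with hk
      set β := α ^ p ^ k with hβ
      have hβo : (orderOf β).Coprime p :=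
        Transfer.NormalPComplement.coprime_orderOf_pow_ordProj (isOfFinOrder_of_finite α)
      have hβG : β ∈ G := G.pow_mem hα _
      have hβA : ∀ a ∈ A, β a = a := by
        have hpow : ∀ n : ℕ, ∀ a ∈ A, (α ^ n) a = a := by
          intro n
          induction n with
          | zero => intro a _; rw [pow_zero]; rfl
          | succ n ih =>
            intro a ha
            rw [pow_succ, MulAut.mul_apply, hαA a ha, ih a ha]
        exact hpow _
      have hβ1 : β = 1 := by
        refine hD1 β hβG hβo fun d hd => ?_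
        apply Cfsg.Agent.H794.fix_of_fix_div hP β hβo d
        apply hβA
        have hwD : d⁻¹ * β d ∈ D := D.mul_mem (D.inv_mem hd) (hDinv β hβG d hd)
        refine hmem _ hwD fun a ha => ?_
        have h2 : d * a * d⁻¹ ∈ A := by
          have h3 : d * a * d⁻¹ = ⁅d, a⁆ * a := by rw [commutatorElement_def]; group
          rw [h3]
          exact A.mul_mem (hZ d hd a) ha
        have h5 : β (d * a * d⁻¹) = d * a * d⁻¹ := hβA _ h2
        rw [map_mul, map_mul, map_inv, hβA a ha] at h5
        have h6 : β d * a = d * a * d⁻¹ * β d := by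
          rw [← h5]; group
        calc a * (d⁻¹ * β d) = d⁻¹ * (d * a * d⁻¹ * β d) := by group
          _ = d⁻¹ * β d * a := by rw [← h6]; group
      have h7 : orderOf α ∣ p ^ k := orderOf_dvd_of_pow_eq_one hβ1
      obtain ⟨j, -, hj⟩ := (Nat.dvd_prime_pow (Fact.out : p.Prime)).1 h7
      exact ⟨j, hj⟩

end Cfsg.Agent.S1949
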