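import Cfsg.Statements.S1952
import Mathlib

set_option autoImplicit false
open Cfsg

namespace Cfsg.Agent.S1952

open Polynomial in
theorem geom_eq {p : ℕ} [hp : Fact p.Prime] :
    (∑ i ∈ Finset.range p, (X : (ZMod p)[X]) ^ i) = (X - 1) ^ (p - 1) := by
  have h1 : (X - 1 : (ZMod p)[X]) ≠ 0 := X_sub_C_ne_zero (1 : ZMod p)
  apply mul_left_cancel₀ h1
  rw [mul_geom_sum, ← pow_succ', Nat.sub_add_cancel hp.out.one_le, sub_pow_char, one_pow]

open Polynomial in
theorem sub_pow_eq {p : ℕ} [hp : Fact p.Prime] :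
    (X - 1 : (ZMod p)[X]) ^ p = X ^ p - 1 := by
  rw [sub_pow_char, one_pow]

theorem card_sylow {p : ℕ} [hp : Fact p.Prime] (Q : Sylow p (Equiv.Perm (Fin (p ^ 2)))) :
    Nat.card Q = p ^ (p + 1) := by
  rw [Sylow.card_eq_multiplicity, Nat.card_perm, Nat.card_eq_fintype_card, Fintype.card_fin,
    Nat.factorization_def _ hp.out, pow_two, padicValNat_factorial_mul]
  have h := padicValNat_factorial_mul (p := p) 1
  rw [mul_one] at h
  rw [h]
  simp [add_comm]

theorem core {p : ℕ} [hp : Fact p.Prime] {V : Type*} [AddCommGroup V] [Finite V] [Module (ZMod p) V]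
    (C : Module.End (ZMod p) V) (x : V) (hCp : (C ^ p) x = x)
    (hw : ∑ i ∈ Finset.range p, (C ^ i) x ≠ 0) :
    ∃ H : AddSubgroup V, H.index = p ∧
      ∀ K : AddSubgroup V, K ≤ H → (∀ a ∈ K, C a ∈ K) → p ^ p ≤ K.index := by
  have hwD : ((C - 1) ^ (p - 1)) x = ∑ i ∈ Finset.range p, (C ^ i) x := by
    have h := congrArg (fun q => (Polynomial.aeval C q) x) (geom_eq (p := p))
    simp only [map_sum, map_pow, Polynomial.aeval_X, map_sub, map_one, LinearMap.sum_apply] at h
    exact h.symm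
  have hDp : ((C - 1) ^ p) x = 0 := by
    have h := congrArg (fun q => (Polynomial.aeval C q) x) (sub_pow_eq (p := p))
    simp only [map_pow, Polynomial.aeval_X, map_sub, map_one] at h
    rw [h, LinearMap.sub_apply, hCp, Module.End.one_apply, sub_self]
  set w : V := ∑ i ∈ Finset.range p, (C ^ i) x with hwdef
  obtain ⟨φ, hφ⟩ : ∃ φ : Module.Dual (ZMod p) V, φ w ≠ 0 := by
    by_contra hcon
    push Not at hcon
    exact hw ((Module.forall_dual_apply_eq_zero_iff (ZMod p) w).1 hcon)
  refine ⟨φ.toAddMonoidHom.ker, ?_, ?_⟩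
  · have hsurj : Function.Surjective φ.toAddMonoidHom := by
      intro b
      refine ⟨((φ w)⁻¹ * b) • w, ?_⟩
      change φ (((φ w)⁻¹ * b) • w) = b
      rw [map_smul, smul_eq_mul, mul_assoc, mul_comm b, ← mul_assoc, inv_mul_cancel₀ hφ, one_mul]
    rw [AddSubgroup.index_ker, AddMonoidHom.range_eq_top.2 hsurj, AddSubgroup.card_top]
    simp [Nat.card_eq_fintype_card]
  intro K hKH hKC
  set D : Module.End (ZMod p) V := C - 1 with hD
  have hDK : ∀ a ∈ K, D a ∈ K := by
    intro a ha
    rw [hD, LinearMap.sub_apply, Module.End.one_apply]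
    exact sub_mem (hKC a ha) ha
  have hwK : w ∉ K := by
    intro h
    exact hφ (hKH h)
  let Ks : ℕ → AddSubgroup V := fun j => K.comap (D ^ j).toAddMonoidHom
  have hKs : ∀ j (a : V), a ∈ Ks j ↔ (D ^ j) a ∈ K := fun j a => Iff.rfl
  have hexp : ∀ a : V, p • a = 0 := by
    intro a
    rw [← Nat.cast_smul_eq_nsmul (ZMod p), CharP.cast_eq_zero, zero_smul]
  have hVp : IsPGroup p (Multiplicative V) := by
    intro a
    refine ⟨1, ?_⟩
    rw [pow_one]
    exact congrArg Multiplicative.ofAdd (hexp (Multiplicative.toAdd a))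
  obtain ⟨n, hn⟩ := IsPGroup.iff_card.1 hVp
  have hn' : Nat.card V = p ^ n := hn
  have hlt : ∀ j < p, p * (Ks (j + 1)).index ≤ (Ks j).index := by
    intro j hj
    have hle : Ks j ≤ Ks (j + 1) := by
      intro a ha
      rw [hKs] at ha ⊢
      rw [pow_succ', Module.End.mul_apply]
      exact hDK _ ha
    have hne : ¬ Ks (j + 1) ≤ Ks j := by
      intro h
      -- the witness
      set u : V := (D ^ (p - 1 - j)) x with hu
      have h1 : (D ^ j) u = w := by
        rw [hu, ← Module.End.mul_apply, ← pow_add, ← hwD]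
        congr 2
        omega
      have h2 : (D ^ (j + 1)) u = 0 := by
        rw [hu, ← Module.End.mul_apply, ← pow_add]
        have e : j + 1 + (p - 1 - j) = p := by omega
        rw [e, hDp]
      have h3 : u ∈ Ks (j + 1) := by
        rw [hKs, h2]
        exact zero_mem K
      have h4 := h h3
      rw [hKs, h1] at h4
      exact hwK h4
    have h1 : (Ks j).relIndex (Ks (j + 1)) * (Ks (j + 1)).index = (Ks j).index :=
      AddSubgroup.relIndex_mul_index hle
    have h2 : (Ks j).relIndex (Ks (j + 1)) ≠ 1 := by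
      intro h
      exact hne (AddSubgroup.relIndex_eq_one.1 h)
    have h3 : (Ks j).relIndex (Ks (j + 1)) ∣ p ^ n := by
      rw [← hn']
      refine dvd_trans ?_ (AddSubgroup.index_dvd_card (Ks j))
      rw [← h1]; exact dvd_mul_right _ _
    obtain ⟨i, -, hi⟩ := (Nat.dvd_prime_pow hp.out).1 h3
    have hi0 : i ≠ 0 := by
      rintro rfl
      exact h2 (by simpa using hi)
    have h4 : p ≤ (Ks j).relIndex (Ks (j + 1)) := by
      rw [hi]
      exact Nat.le_self_pow hi0 p
    rw [← h1]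
    exact Nat.mul_le_mul_right _ h4
  have hchain : ∀ j ≤ p, p ^ j * (Ks j).index ≤ (Ks 0).index := by
    intro j
    induction j with
    | zero => intro _; simp
    | succ j ih =>
      intro hj
      calc p ^ (j + 1) * (Ks (j + 1)).index = p ^ j * (p * (Ks (j + 1)).index) := by ring
        _ ≤ p ^ j * (Ks j).index := Nat.mul_le_mul_left _ (hlt j (by omega))
        _ ≤ (Ks 0).index := ih (by omega)
  have hKs0 : Ks 0 = K := by
    ext a
    rw [hKs]
    simp
  have h1 := hchain p le_rfl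
  rw [hKs0] at h1
  have h2 : 1 ≤ (Ks p).index := Nat.one_le_iff_ne_zero.2 AddSubgroup.index_ne_zero_of_finite
  calc p ^ p = p ^ p * 1 := (mul_one _).symm
    _ ≤ p ^ p * (Ks p).index := Nat.mul_le_mul_left _ h2
    _ ≤ K.index := h1

theorem core₁ {p : ℕ} [hp : Fact p.Prime] {V : Type*} [AddCommGroup V] [Finite V] (hexp : ∀ a : V, p • a = 0)
    (c : V →+ V) (x : V) (hcp : (c^[p]) x = x) (hw : ∑ i ∈ Finset.range p, (c^[i]) x ≠ 0) :
    ∃ H : AddSubgroup V, H.index = p ∧
      ∀ K : AddSubgroup V, K ≤ H → (∀ a ∈ K, c a ∈ K) → p ^ p ≤ K.index := by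
  have hmod : Nonempty (Module (ZMod p) V) := ⟨AddCommGroup.zmodModule hexp⟩
  obtain ⟨hmod⟩ := hmod
  obtain ⟨C, hC⟩ : ∃ C : Module.End (ZMod p) V, ∀ a : V, C a = c a := ⟨c.toZModLinearMap p, fun a => rfl⟩
  have hCi : ∀ (i : ℕ) (a : V), (C ^ i) a = (c^[i]) a := by
    intro i
    induction i with
    | zero => intro a; rfl
    | succ i ih =>
      intro a
      rw [pow_succ, Module.End.mul_apply, hC, ih, Function.iterate_succ_apply]
  obtain ⟨H, hH, hK⟩ := core C x (by rw [hCi, hcp]) (by simpa only [hCi] using hw)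
  exact ⟨H, hH, fun K hKH hKc => hK K hKH (fun a ha => by rw [hC]; exact hKc a ha)⟩

theorem core' {p : ℕ} [hp : Fact p.Prime] {A : Type*} [CommGroup A] [Finite A] (hexp : ∀ a : A, a ^ p = 1)
    (c : A →* A) (x : A) (hcp : (c^[p]) x = x) (hw : ∏ i ∈ Finset.range p, (c^[i]) x ≠ 1) :
    ∃ H : Subgroup A, H.index = p ∧
      ∀ K : Subgroup A, K ≤ H → (∀ a ∈ K, c a ∈ K) → p ^ p ≤ K.index := by
  obtain ⟨H, hH, hK⟩ := core₁ (V := Additive A) (fun a => hexp a) (MonoidHom.toAdditive c) (Additive.ofMul x) hcp hw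
  exact ⟨AddSubgroup.toSubgroup' H, hH, fun K hKH hKc => hK (Subgroup.toAddSubgroup K) hKH hKc⟩

/-- Let P be a finite p-group with a normal elementary abelian subgroup A of index p, and let x ∈ A and y ∈ P with y outside A. If the product of the p conjugates y^(-i) x y^i (i = 0, …, p−1) is not the identity, then the wreath product Z_p ≀ Z_p, realised as a Sylow p-subgroup of the symmetric group of degree p², is a homomorphic image of P. -/
theorem result {P : Type*} [Group P] [Finite P] {p : ℕ} [Fact p.Prime] (hP : IsPGroup p P) (A : Subgroup P) [A.Normal]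
    (hA : Cfsg.IsElementaryAbelian p A) (hidx : A.index = p) (x y : P) (hx : x ∈ A) (hy : y ∉ A)
    (hprod : ((List.range p).map (fun i => (y ^ i)⁻¹ * x * y ^ i)).prod ≠ 1) :
    ∃ (Q : Sylow p (Equiv.Perm (Fin (p ^ 2)))) (f : P →* ↥(Q : Subgroup (Equiv.Perm (Fin (p ^ 2))))), Function.Surjective f := by
  classical
  have hp : Fact p.Prime := inferInstance
  obtain ⟨hcomm, hexp⟩ := hA
  let _ : CommGroup A := { (inferInstance : Group A) with mul_comm := hcomm.is_comm.comm }
  -- conjugation by `y`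
  let c : A →* A :=
    { toFun := fun a => ⟨y⁻¹ * a * y, by simpa using (inferInstance : A.Normal).conj_mem a a.2 y⁻¹⟩
      map_one' := by ext; simp
      map_mul' := by intro a b; ext; simp [mul_assoc] }
  have hcpow : ∀ (i : ℕ) (a : A), (((c^[i]) a : A) : P) = (y ^ i)⁻¹ * a * y ^ i := by
    intro i
    induction i with
    | zero => intro a; simp
    | succ i ih =>
      intro a
      rw [Function.iterate_succ_apply, ih]
      change (y ^ i)⁻¹ * (y⁻¹ * a * y) * y ^ i = _
      rw [pow_succ']; group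
  have hyp : y ^ p ∈ A := by
    have := Subgroup.pow_index_mem (G := P) (H := A) y
    rwa [hidx] at this
  have hcp : (c^[p]) (⟨x, hx⟩ : A) = ⟨x, hx⟩ := by
    apply Subtype.ext
    rw [hcpow]
    have h6 : (⟨x, hx⟩ : A) * ⟨y ^ p, hyp⟩ = ⟨y ^ p, hyp⟩ * ⟨x, hx⟩ := hcomm.is_comm.comm _ _
    have h7 : x * y ^ p = y ^ p * x := congrArg Subtype.val h6
    change (y ^ p)⁻¹ * x * y ^ p = x
    rw [mul_assoc, h7]; group
  have hw0 : ∏ i ∈ Finset.range p, (c^[i]) (⟨x, hx⟩ : A) ≠ 1 := by
    intro h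
    apply hprod
    have h1 : (∏ i ∈ Finset.range p, (c^[i]) (⟨x, hx⟩ : A)) =
        ((List.range p).map (fun i => (c^[i]) (⟨x, hx⟩ : A))).prod := by
      rw [Finset.prod_eq_multiset_prod]
      simp [Finset.range, Multiset.range]
    have h2 : ((List.range p).map (fun i => (y ^ i)⁻¹ * x * y ^ i)).prod =
        A.subtype (∏ i ∈ Finset.range p, (c^[i]) (⟨x, hx⟩ : A)) := by
      rw [h1, map_list_prod, List.map_map]
      congr 1
      apply List.map_congr_left
      intro i _
      exact (hcpow i ⟨x, hx⟩).symm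
    rw [h2, h]
    rfl
  obtain ⟨H₁, hH₁, hK₀⟩ := core' (fun a => Subtype.ext (by simpa using hexp a a.2)) c ⟨x, hx⟩ hcp hw0
  set H : Subgroup P := H₁.map A.subtype with hH
  have hHA : H ≤ A := Subgroup.map_subtype_le _
  have hHidx : H.index = p ^ 2 := by
    rw [hH, Subgroup.index_map_subtype, hH₁, hidx, pow_two]
  have hcard : Nat.card (P ⧸ H) = p ^ 2 := by rw [← hHidx]; rfl
  let e : (P ⧸ H) ≃ Fin (p ^ 2) := (Finite.equivFinOfCardEq hcard)
  let F : P →* Equiv.Perm (Fin (p ^ 2)) := (Equiv.permCongrHom e).toMonoidHom.comp (MulAction.toPermHom P (P ⧸ H))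
  have hker : F.ker = H.normalCore := by
    rw [Subgroup.normalCore_eq_ker]
    ext a
    simp only [F, MonoidHom.mem_ker, MonoidHom.comp_apply]
    exact map_eq_one_iff _ (Equiv.permCongrHom e).injective
  set K : Subgroup P := H.normalCore with hK
  have hKH : K ≤ H := H.normalCore_le
  have hKA : K ≤ A := hKH.trans hHA
  have hKidx : p ^ p ≤ K.relIndex A := by
    refine hK₀ (K.subgroupOf A) ?_ ?_
    · intro a ha
      have ha' : (a : P) ∈ K := ha
      obtain ⟨b, hb, hba⟩ := hKH ha'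
      have h1 : b = a := Subtype.ext hba
      rw [h1] at hb
      exact hb
    · intro a ha
      have ha' : (a : P) ∈ K := ha
      change y⁻¹ * (a : P) * y ∈ K
      have := (inferInstance : K.Normal).conj_mem _ ha' y⁻¹
      simpa using this
  have hrange : p ^ (p + 1) ≤ Nat.card F.range := by
    rw [← Subgroup.index_ker, hker, ← Subgroup.relIndex_mul_index hKA, hidx, pow_succ]
    exact Nat.mul_le_mul_right _ hKidx
  have hrp : IsPGroup p F.range := by
    have h := (hP.to_subgroup ⊤).map F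
    rwa [← MonoidHom.range_eq_map] at h
  obtain ⟨Q, hQ⟩ := hrp.exists_le_sylow
  have hEq : F.range = (Q : Subgroup (Equiv.Perm (Fin (p ^ 2)))) := by
    apply Subgroup.eq_of_le_of_card_ge hQ
    rw [card_sylow Q]
    exact hrange
  refine ⟨Q, F.codRestrict (Q : Subgroup (Equiv.Perm (Fin (p ^ 2)))) (fun a => hQ ⟨a, rfl⟩), ?_⟩
  rintro ⟨q, hq⟩
  have hq' : q ∈ F.range := by rw [hEq]; exact hq
  obtain ⟨a, ha⟩ := hq'
  exact ⟨a, Subtype.ext ha⟩

end Cfsg.Agent.S1952
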