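import Cfsg.Statements.S1953
import Cfsg.Agent.H30.CentricControl

set_option autoImplicit false
open Cfsg

namespace Cfsg.Agent.S1953

open Cfsg.Agent.Lib.GoldschmidtFusion Cfsg.Agent.Lib.EssentialFusion
open Cfsg.Agent.H30.StrongFusion Cfsg.Agent.H30.LeastCR Cfsg.Agent.H30.SlFree Cfsg.Agent.H30.CentricControl

/-- Let p be an odd prime and P a Sylow p-subgroup of the finite group G, and suppose that for no p-subgroup Q of G does N_G(Q)/C_G(Q) have a section isomorphic to SL₂(p). Call a subgroup Q of P centric-radical when Z(Q) is a Sylow p-subgroup of C_G(Q) and the only normal subgroup X of N_G(Q) containing Q·C_G(Q) such that the index of Q·C_G(Q) in X is a power of p is Q·C_G(Q) itself (that is, N_G(Q)/Q·C_G(Q) has no nontrivial normal p-subgroup). Then there is a centric-radical subgroup Q of P contained in every centric-radical subgroup of P; it is normal in P, and N_G(Q) controls strong fusion in P: whenever a subgroup A of P has g A g⁻¹ ≤ P, the element g is a product h c with h in N_G(Q) and c centralizing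 A. -/
theorem result {G : Type*} [Group G] [Finite G] {p : ℕ} [Fact p.Prime] (hp : p ≠ 2) (P : Sylow p G)
    (hfree : ∀ Q : Subgroup G, IsPGroup p ↥Q → ¬ ∃ (H K : Subgroup G) (_ : (K.subgroupOf H).Normal),
      Subgroup.centralizer (Q : Set G) ≤ K ∧ K ≤ H ∧ H ≤ Subgroup.normalizer (Q : Set G) ∧
      Nonempty ((↥H ⧸ K.subgroupOf H) ≃* Matrix.SpecialLinearGroup (Fin 2) (ZMod p)))
    (cr : Subgroup G → Prop)
    (hcr : ∀ Q : Subgroup G, cr Q ↔ (Q ≤ (P : Subgroup G) ∧
      (∃ R : Sylow p ↥(Subgroup.centralizer (Q : Set G)),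
        (R : Subgroup ↥(Subgroup.centralizer (Q : Set G))).map (Subgroup.centralizer (Q : Set G)).subtype = Q ⊓ Subgroup.centralizer (Q : Set G)) ∧
      ∀ X : Subgroup G, X ≤ Subgroup.normalizer (Q : Set G) →
        (∀ n ∈ Subgroup.normalizer (Q : Set G), X.map (MulAut.conj n).toMonoidHom = X) →
        Q ⊔ Subgroup.centralizer (Q : Set G) ≤ X → (∃ k : ℕ, (Q ⊔ Subgroup.centralizer (Q : Set G)).relIndex X = p ^ k) →
        X = Q ⊔ Subgroup.centralizer (Q : Set G))) :
    ∃ Q : Subgroup G, cr Q ∧ (∀ R : Subgroup G, cr R → Q ≤ R) ∧ (∀ x ∈ (P : Subgroup G), Q.map (MulAut.conj x).toMonoidHom = Q) ∧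
      ∀ A : Subgroup G, A ≤ (P : Subgroup G) → ∀ g : G, A.map (MulAut.conj g).toMonoidHom ≤ (P : Subgroup G) →
        ∃ h ∈ Subgroup.normalizer (Q : Set G), ∃ c ∈ Subgroup.centralizer (A : Set G), g = h * c := by
  have hp' : Fact p.Prime := inferInstance
  have hfree' : Free p G := fun Q hQ hA => hfree Q hQ hA.exists_section
  obtain ⟨Q₀, h1, h2, h3, h4⟩ := concl_of_free hp _ G le_rfl hfree' P
  obtain ⟨Q, hQP, hPQ, hctl, hcen, hmax⟩ := exists_max P h1 h2 h3 h4
  have hQp : IsPGroup p Q := P.isPGroup'.to_le hQP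
  refine ⟨Q, ?_, ?_, ?_, hctl⟩
  · rw [hcr]
    refine ⟨hQP, ?_, ?_⟩
    · obtain ⟨R⟩ : Nonempty (Sylow p ↥(Subgroup.centralizer (Q : Set G))) := inferInstance
      refine ⟨R, ?_⟩
      have hle : (R : Subgroup ↥(Subgroup.centralizer (Q : Set G))) ≤
          (Q ⊓ Subgroup.centralizer (Q : Set G)).subgroupOf (Subgroup.centralizer (Q : Set G)) := by
        intro x hx
        obtain ⟨k, hk⟩ := R.isPGroup' ⟨x, hx⟩
        have hk' : (x : G) ^ p ^ k = 1 := by
          simpa using congrArg (fun t : R => ((t : ↥(Subgroup.centralizer (Q : Set G))) : G)) hk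
        exact ⟨hcen x x.2 ⟨k, hk'⟩, x.2⟩
      have hpg : IsPGroup p ((Q ⊓ Subgroup.centralizer (Q : Set G)).subgroupOf (Subgroup.centralizer (Q : Set G))) :=
        (hQp.to_le inf_le_left).comap_of_injective _ (Subgroup.subtype_injective _)
      have hEq := R.is_maximal' hpg hle
      change (R : Subgroup ↥(Subgroup.centralizer (Q : Set G))).map _ = _
      rw [show (R : Subgroup ↥(Subgroup.centralizer (Q : Set G))) = _ from hEq.symm,
        Subgroup.subgroupOf_map_subtype, inf_eq_left.2 inf_le_right]
    · intro X hX hXn hQX hk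
      refine hmax X hX ?_ hQX hk
      intro n hn
      exact mem_normalizer_iff_map_conj.2 (hXn n hn)
  · intro E hE
    rw [hcr] at hE
    obtain ⟨hEP, ⟨R, hR⟩, hErad⟩ := hE
    have hcE : Subgroup.centralizer (E : Set G) ⊓ P ≤ E := by
      rintro y ⟨hy, hyP⟩
      -- `⟨y⟩` is a `p`-subgroup of `C(E)`
      have hRn : (R : Subgroup ↥(Subgroup.centralizer (E : Set G))).Normal := by
        constructor
        intro r hr c
        have hrE : (r : G) ∈ E ⊓ Subgroup.centralizer (E : Set G) := by
          rw [← hR]; exact ⟨r, hr, rfl⟩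
        have h5 : c * r * c⁻¹ = r := by
          apply Subtype.ext
          exact conj_eq_of_mem_centralizer c.2 hrE.1
        rw [h5]; exact hr
      obtain ⟨k, hk⟩ := P.isPGroup' ⟨y, hyP⟩
      have hk' : y ^ p ^ k = 1 := by simpa using congrArg Subtype.val hk
      have hpg : IsPGroup p (Subgroup.zpowers (⟨y, hy⟩ : ↥(Subgroup.centralizer (E : Set G)))) := by
        rintro ⟨x, hx⟩
        obtain ⟨i, rfl⟩ := Subgroup.mem_zpowers_iff.1 hx
        refine ⟨k, Subtype.ext ?_⟩
        change ((⟨y, hy⟩ : ↥(Subgroup.centralizer (E : Set G))) ^ i) ^ p ^ k = 1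
        rw [← zpow_natCast, ← zpow_mul, mul_comm, zpow_mul, zpow_natCast,
          show (⟨y, hy⟩ : ↥(Subgroup.centralizer (E : Set G))) ^ p ^ k = 1 from Subtype.ext (by simpa using hk'),
          one_zpow]
      have h6 : Subgroup.zpowers (⟨y, hy⟩ : ↥(Subgroup.centralizer (E : Set G))) ≤
          (R : Subgroup ↥(Subgroup.centralizer (E : Set G))) := by
        have h7 : IsPGroup p ((R : Subgroup ↥(Subgroup.centralizer (E : Set G))) ⊔
            Subgroup.zpowers (⟨y, hy⟩ : ↥(Subgroup.centralizer (E : Set G))) : Subgroup _) :=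
          R.isPGroup'.to_sup_of_normal_left hpg
        have h8 := R.is_maximal' h7 le_sup_left
        exact h8 ▸ le_sup_right
      have h7 : y ∈ E ⊓ Subgroup.centralizer (E : Set G) := by
        rw [← hR]
        exact ⟨⟨y, hy⟩, h6 (Subgroup.mem_zpowers _), rfl⟩
      exact h7.1
    have hErad' : Rad p E := by
      intro A hA hNA hpow
      set X : Subgroup G := A ⊔ XC E with hX
      have hXN : X ≤ Subgroup.normalizer (E : Set G) := sup_le hA (XC_le_normalizer E)
      have h5 : X = E ⊔ Subgroup.centralizer (E : Set G) := by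
        refine hErad X hXN ?_ le_sup_right ?_
        · intro n hn
          rw [hX, Subgroup.map_sup, map_conj_XC hn, mem_normalizer_iff_map_conj.1 (hNA hn)]
        · have hn : ((XC E).subgroupOf X).Normal := by
            rw [Subgroup.normal_subgroupOf_iff_le_normalizer le_sup_right]
            intro g hg
            rw [mem_normalizer_iff_map_conj]
            exact map_conj_XC (hXN hg)
          have hpg : IsPGroup p (X ⧸ (XC E).subgroupOf X) := by
            intro x
            obtain ⟨⟨y, hy⟩, rfl⟩ := QuotientGroup.mk_surjective x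
            have hy' : y ∈ ((A ⊔ XC E : Subgroup G) : Set G) := hy
            rw [Subgroup.coe_mul_of_left_le_normalizer_right _ _ (by
              intro a ha
              rw [mem_normalizer_iff_map_conj]
              exact map_conj_XC (hA ha))] at hy'
            obtain ⟨a, ha, c, hc, rfl⟩ := Set.mem_mul.1 hy'
            obtain ⟨k, hk⟩ := hpow a ha
            refine ⟨k, ?_⟩
            have haX : a ∈ X := (le_sup_left : A ≤ X) ha
            have hcX : c ∈ X := (le_sup_right : XC E ≤ X) hc
            have h6 : (QuotientGroup.mk (⟨a * c, hy⟩ : X) : X ⧸ (XC E).subgroupOf X) =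
                QuotientGroup.mk (⟨a, haX⟩ : X) := by
              rw [QuotientGroup.eq, Subgroup.mem_subgroupOf]
              have h7 : (((⟨a * c, hy⟩ : X)⁻¹ * ⟨a, haX⟩ : X) : G) = c⁻¹ := by
                change (a * c)⁻¹ * a = c⁻¹
                group
              rw [h7]
              exact inv_mem hc
            rw [h6, ← QuotientGroup.mk_pow, QuotientGroup.eq_one_iff, Subgroup.mem_subgroupOf]
            exact centralizer_le_XC E (by simpa using hk)
          obtain ⟨n, hn'⟩ := IsPGroup.iff_card.1 hpg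
          exact ⟨n, hn'⟩
      have h6 : A ≤ X := le_sup_left
      rw [h5] at h6
      exact h6
    exact le_of_rad hQP hPQ hctl hEP hcE hErad'
  · intro x hx
    exact mem_normalizer_iff_map_conj.1 (hPQ hx)

end Cfsg.Agent.S1953
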