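import Cfsg.Statements.S2002
import Cfsg.Agent.H42.CentralFusion

set_option autoImplicit false
open Cfsg

namespace Cfsg.Agent.S2002

/-- Let p be a prime dividing the order of the finite group G, P a Sylow p-subgroup, W a conjugacy functor for p on G with Z(H) ≤ W(H) for every nontrivial p-subgroup H, and V a central functor (a conjugacy functor with V(H) ≤ Z(H), and V(H) ≤ V(K) whenever Z(H) ≤ Z(K)). Say that W with V controls strong fusion in a subgroup L when some Sylow p-subgroup Q of L has the property: whenever X ⊆ Q and a ∈ L with a⁻¹Xa ⊆ Q, then a = c b with c ∈ C_L(X) and b = b₁ ⋯ bₙ a product of elements each in N_L(W(Q)) or in C_L(V(Q)) such that every partial conjugate (b₁ ⋯ bₖ)⁻¹ X (b₁ ⋯ bₖ) lies in Q. If W with V controls strong fusion in N_G(H) for every subgroup H with Z(P) ≤ H ≤ P, then W with V controls strong fusion in G. -/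
theorem result {G : Type*} [Group G] [Finite G] {p : ℕ} [Fact p.Prime] (hdiv : p ∣ Nat.card G) (P : Sylow p G) (W V : Subgroup G → Subgroup G) (hW : Cfsg.IsConjugacyFunctor p W) (hV : Cfsg.IsConjugacyFunctor p V) (hWZ : ∀ H : Subgroup G, IsPGroup p ↥H → H ⊓ Subgroup.centralizer ((H : Subgroup G) : Set G) ≤ W H) (hVZ : ∀ H : Subgroup G, IsPGroup p ↥H → V H ≤ H ⊓ Subgroup.centralizer ((H : Subgroup G) : Set G)) (hVmono : ∀ H K : Subgroup G, IsPGroup p ↥H → IsPGroup p ↥K → H ≠ ⊥ → K ≠ ⊥ → H ⊓ Subgroup.centralizer ((H : Subgroup G) : Set G) ≤ K ⊓ Subgroup.centralizer ((K : Subgroup G) : Set G) → V H ≤ V K) (hloc : ∀ H : Subgroup G, (P : Subgroup G) ⊓ Subgroup.centralizer (((P : Subgroup G) : Subgroup G) : Set G) ≤ H → H ≤ (P : Subgroup G) → ∃ Q : Subgroup G, Q ≤ Subgroup.normalizer ((H : Subgroup G) : Set G) ∧ IsPGroup p ↥Q ∧ ¬ p ∣ (Q).relIndex (Subgroup.normalizer ((H : Subgroup G) : Set G)) ∧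 ∀ (X : Set G) (a : G), X ⊆ Q → a ∈ Subgroup.normalizer ((H : Subgroup G) : Set G) → (fun x => a⁻¹ * x * a) '' X ⊆ Q → ∃ c ∈ Subgroup.normalizer ((H : Subgroup G) : Set G) ⊓ Subgroup.centralizer X, ∃ (n : ℕ) (b : Fin n → G), (∀ i, b i ∈ Subgroup.normalizer ((H : Subgroup G) : Set G) ⊓ Subgroup.normalizer ((W Q : Subgroup G) : Set G) ∨ b i ∈ Subgroup.normalizer ((H : Subgroup G) : Set G) ⊓ Subgroup.centralizer ((V Q : Subgroup G) : Set G)) ∧ a = c * (List.ofFn b).prod ∧ ∀ k : ℕ, k ≤ n → (fun x => (((List.ofFn b).take k).prod)⁻¹ * x * ((List.ofFn b).take k).prod) '' ((fun x => c⁻¹ * x * c) '' X) ⊆ Q) : ∃ Q : Subgroup G, IsPGroup p ↥Q ∧ ¬ p ∣ Q.index ∧ ∀ (X : Set G) (a : G), X ⊆ Q → (fun x => a⁻¹ * x * a) '' X ⊆ Q → ∃ c ∈ Subgroup.centralizer X, ∃ (n : ℕ) (b : Fin n → G), (∀ i, b i ∈ ⊤ ⊓ Subgroup.normalizer ((W Q : Subgroup G) : Set G) ∨ b i ∈ ⊤ ⊓ Subgroup.centralizer ((V Q : Subgroup G) : Set G))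 ∧ a = c * (List.ofFn b).prod ∧ ∀ k : ℕ, k ≤ n → (fun x => (((List.ofFn b).take k).prod)⁻¹ * x * ((List.ofFn b).take k).prod) '' ((fun x => c⁻¹ * x * c) '' X) ⊆ Q := by
  refine ⟨(P : Subgroup G), P.isPGroup', P.not_dvd_index, ?_⟩
  intro X a hX hXa
  obtain ⟨c, hc, b, hb, rfl⟩ := Cfsg.Agent.H42.CentralFusion.fusion_main P hdiv hW hV hWZ hVmono (by
    intro H hZH hHP
    obtain ⟨Q, hQN, hQ, hQi, h⟩ := hloc H hZH hHP
    refine ⟨Q, hQN, hQ, hQi, fun X a hX ha hXa => ?_⟩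
    obtain ⟨c, hc, n, b, hb, rfl, hbk⟩ := h X a hX ha hXa
    refine ⟨c, hc.2, (List.ofFn b).prod, ?_, rfl⟩
    rw [Cfsg.Agent.H42.CentralFusion.conj_image_eq_of_centralizer hc.2] at hbk
    exact Cfsg.Agent.H42.CentralFusion.sc_of_fin n X b hb hbk) X a hX hXa
  obtain ⟨n, d, hd, rfl, hk⟩ := hb.exists_fin
  refine ⟨c, hc, n, d, hd, rfl, ?_⟩
  rw [Cfsg.Agent.H42.CentralFusion.conj_image_eq_of_centralizer hc]
  exact hk

end Cfsg.Agent.S2002
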