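import Cfsg.Statements.S2015
import Cfsg.Agent.S1984
import Cfsg.Agent.H35.KSeq
import Cfsg.Agent.H39.Functor
import Cfsg.Agent.H42.Control

set_option autoImplicit false
universe u
open Cfsg

namespace Cfsg.Agent.S2015

/-- For p ≥ 5, every finite p-group P has a characteristic subgroup K containing Z(P), depending only on P, whose normalizer controls transfer wherever P is a Sylow subgroup: for every finite group G and every embedding ι of P onto a Sylow p-subgroup of G, the intersection of ι(P) with the derived subgroup of G equals its intersection with the derived subgroup of N_G(ι(K)). -/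
theorem result (p : ℕ) [Fact p.Prime] (hp : 5 ≤ p) (P : Type u) [Group P] [Finite P] (hP : IsPGroup p P) : ∃ K : Subgroup P, K.Characteristic ∧ Subgroup.center P ≤ K ∧ ∀ (G : Type u) [Group G] [Finite G] (ι : P →* G), Function.Injective ι → (∃ T : Sylow p G, (T : Subgroup G) = ι.range) → ι.range ⊓ commutator G = ι.range ⊓ (commutator ↥(Subgroup.normalizer ((K.map ι : Subgroup G) : Set G))).map (Subgroup.normalizer ((K.map ι : Subgroup G) : Set G)).subtype := by
  have hchar := Cfsg.Agent.H35.KSeq.isCharPFunctor_kInfLower.{u} p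
  refine ⟨Cfsg.kInfLower P, ?_, Cfsg.Agent.H35.KSeq.center_le_kInfLower hP, ?_⟩
  · rw [Subgroup.characteristic_iff_map_eq]
    intro φ
    exact Cfsg.Agent.H35.KSeq.kInfLower_map_equiv φ
  · intro G _ _ ι hι hT
    obtain ⟨T, hT⟩ := hT
    have hTp : IsPGroup p ι.range := by rw [← hT]; exact T.isPGroup'
    have hTi : ¬ p ∣ (ι.range).relIndex ⊤ := by
      rw [← hT, Subgroup.relIndex_top_right]; exact T.not_dvd_index
    have hconj : Cfsg.IsConjugacyFunctor p (Cfsg.inducedFunctor (G := G) Cfsg.kInfLower) :=
      Cfsg.Agent.H39.isConjugacyFunctor_induced hchar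
    have h1 := Cfsg.Agent.H42.Control.transfer_of_controls hconj (Cfsg.Agent.S1984.result (G := G) hp)
      le_top hTp hTi
    have h2 : Cfsg.inducedFunctor (G := G) Cfsg.kInfLower ι.range = (Cfsg.kInfLower P).map ι := by
      have h3 := Cfsg.Agent.H35.KSeq.inducedLower_map ι hι ⊤
      rw [← MonoidHom.range_eq_map] at h3
      rw [← h3]
      congr 1
      exact Cfsg.Agent.H35.KSeq.kInfLower_map_equiv (Subgroup.topEquiv (G := P))
    rw [h2, top_inf_eq] at h1
    rw [Subgroup.map_subtype_commutator, ← h1]
    rfl

end Cfsg.Agent.S2015
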