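import Cfsg.Statements.S2028
import Cfsg.Agent.S0000
import Cfsg.Agent.H45.Thin.Asm

set_option autoImplicit false
open Cfsg

namespace Cfsg.Agent.S2028

/-- The classification of thin simple groups. Let G be a finite nonabelian simple group that is thin: for every 2-local subgroup M of G (the normalizer of a nontrivial 2-subgroup) and every odd prime p, the Sylow p-subgroups of M are cyclic. Then G is isomorphic to one of: PSL₂ over some finite field; PSL₃(p) for an odd prime p of the form 2^a·3^b + 1 with b ≤ 1; PSU₃(p) for an odd prime p of the form 2^a·3^b − 1 with b ≤ 1; a Suzuki group; PSU₃ over a field with 4^n elements; PSL₃ over the field with 4 elements; a simple group of order 17971200 (the order of the Tits group); a simple group of order 211341312 = 2^12·3^4·7^2·13 (the order of the triality twisted group over the field with 2 elements); the Mathieu group M₁₁; or the smallest Janko group. -/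
theorem result {G : Type*} [Group G] [Finite G] [IsSimpleGroup G] (hna : ¬ IsMulCommutative G) (hthin : ∀ M : Subgroup G, Cfsg.IsTwoLocal M → ∀ p : ℕ, p.Prime → p ≠ 2 → ∀ P : Sylow p ↥M, IsCyclic ↥P) : (∃ (F : Type) (_ : Field F) (_ : Fintype F), Nonempty (G ≃* Matrix.ProjectiveSpecialLinearGroup (Fin 2) F)) ∨ (∃ (p a b : ℕ), p.Prime ∧ Odd p ∧ p = 2 ^ a * 3 ^ b + 1 ∧ b ≤ 1 ∧ Nonempty (G ≃* Matrix.ProjectiveSpecialLinearGroup (Fin 3) (ZMod p))) ∨ (∃ (p a b : ℕ), p.Prime ∧ Odd p ∧ p + 1 = 2 ^ a * 3 ^ b ∧ b ≤ 1 ∧ ∃ (F : Type) (_ : Field F) (_ : Fintype F), Fintype.card F = p ^ 2 ∧ Nonempty (G ≃* Cfsg.PSU 3 F p)) ∨ Cfsg.Lie.IsoSuzuki G ∨ (∃ (F : Type) (_ : Field F) (_ : Fintype F) (n : ℕ), Fintype.card F = 4 ^ n ∧ Nonempty (G ≃* Cfsg.PSU 3 F (2 ^ n))) ∨ (∃ (F : Type) (_ : Field F) (_ : Fintype F), Fintype.card F = 4 ∧ Nonempty (G ≃* Matrix.ProjectiveSpecialLinearGroup (Fin 3) F)) ∨ Cfsg.IsTits G ∨ (Cfsg.Is3D4 G ∧ Nat.card G = 211341312) ∨ Cfsg.Spor.IsoM11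 G ∨ Cfsg.Spor.IsoJ1 G := by
  exact Cfsg.Agent.H45.Thin.onThinList Cfsg.Agent.QTKE.rows hna hthin Cfsg.Agent.S0000.result

end Cfsg.Agent.S2028
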