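import Cfsg.Statements.S2163

set_option autoImplicit false
open Cfsg

namespace Cfsg.Agent.S2163

open Matrix

variable {F : Type*} [Field F]

/-- the nilpotent part -/
def jm (F : Type*) [Field F] (n ℓ : ℕ) : Matrix (Fin n) (Fin n) F :=
  Matrix.of (fun i j : Fin n => if j.val < ℓ ∧ i.val = j.val + (n - ℓ) then (1 : F) else 0)

theorem jm_sq {n : ℕ} (ℓ : ℕ) (h2 : 2 * ℓ ≤ n) : jm F n ℓ * jm F n ℓ = 0 := by
  ext i j
  rw [Matrix.mul_apply]
  apply Finset.sum_eq_zero
  intro k _
  simp only [jm, Matrix.of_apply]
  split_ifs with h3 h4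
  · omega
  all_goals simp

theorem jm_rank {n : ℕ} (ℓ : ℕ) (h2 : 2 * ℓ ≤ n) : (jm F n ℓ).rank = ℓ := by
  apply le_antisymm
  · have hfac : jm F n ℓ = (Matrix.of fun (i : Fin n) (k : Fin ℓ) => if i.val = k.val + (n - ℓ) then (1 : F) else 0) *
        (Matrix.of fun (k : Fin ℓ) (j : Fin n) => if j.val = k.val then (1 : F) else 0) := by
      ext i j
      rw [Matrix.mul_apply]
      simp only [jm, Matrix.of_apply]
      split_ifs with h
      · rw [Finset.sum_eq_single (⟨j.val, h.1⟩ : Fin ℓ)]
        · simp [h.2]
        · intro b _ hb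
          have : ¬ (j.val = b.val) := fun h' => hb (Fin.ext h'.symm)
          simp [this]
        · simp
      · symm
        apply Finset.sum_eq_zero
        intro k _
        split_ifs with h3 h4
        · exfalso
          apply h
          constructor
          · rw [h4]; exact k.isLt
          · rw [h4]; exact h3
        all_goals simp
    rw [hfac]
    refine (Matrix.rank_mul_le_left _ _).trans ?_
    refine (Matrix.rank_le_width _).trans ?_
    exact le_rfl
  · -- the standard columns are linearly independent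
    have hli : LinearIndependent F (fun k : Fin ℓ => (jm F n ℓ).col ⟨k.val, by omega⟩) := by
      have hcol : ∀ k : Fin ℓ, (jm F n ℓ).col ⟨k.val, by omega⟩ =
          Pi.single (⟨k.val + (n - ℓ), by omega⟩ : Fin n) (1 : F) := by
        intro k
        ext i
        simp only [Matrix.col_apply, jm, Matrix.of_apply, Pi.single_apply, Fin.ext_iff]
        simp [k.isLt]
      simp only [hcol]
      have := (Pi.linearIndependent_single_one (Fin n) F)
      exact this.comp (fun k : Fin ℓ => (⟨k.val + (n - ℓ), by omega⟩ : Fin n)) (by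
        intro a b hab
        simp only [Fin.mk.injEq] at hab
        ext
        omega)
    rw [Matrix.rank_eq_finrank_span_cols]
    have h3 := finrank_span_eq_card hli
    rw [Fintype.card_fin] at h3
    conv_lhs => rw [← h3]
    apply Submodule.finrank_mono
    apply Submodule.span_mono
    rintro _ ⟨k, rfl⟩
    exact ⟨_, rfl⟩

/-- Over a finite field of characteristic two and for n ≥ 3: for every ℓ with 1 ≤ ℓ and 2ℓ ≤ n, the matrix j_ℓ that is the identity plus the entries 1 in positions (n − ℓ + i, i) for i < ℓ (an identity block of size ℓ in the lower left corner) lies in SL_n(F), has order 2, and j_ℓ − 1 has rank ℓ. Together with the conjugacy criterion by rank, these matrices represent the conjugacy classes of involutions of SL_n(F). -/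
theorem result {F : Type*} [Field F] [Fintype F] [CharP F 2] {n : ℕ} (hn : 3 ≤ n) (ℓ : ℕ) (h1 : 1 ≤ ℓ) (h2 : 2 * ℓ ≤ n) :
    ∃ a : Matrix.SpecialLinearGroup (Fin n) F, (a : Matrix (Fin n) (Fin n) F) = 1 + Matrix.of (fun i j : Fin n => if j.val < ℓ ∧ i.val = j.val + (n - ℓ) then (1 : F) else 0) ∧ orderOf a = 2 ∧ ((a : Matrix (Fin n) (Fin n) F) - 1).rank = ℓ := by
  have hdet : (1 + jm F n ℓ).det = 1 := by
    rw [Matrix.det_of_isLowerTriangular]
    · apply Finset.prod_eq_one
      intro i _
      simp only [jm, Matrix.add_apply, Matrix.one_apply_eq, Matrix.of_apply]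
      rw [if_neg (by omega), add_zero]
    · intro i j hij
      have hij' : i < j := hij
      have hij2 : i.val < j.val := hij'
      simp only [jm, Matrix.add_apply, Matrix.of_apply]
      rw [Matrix.one_apply_ne (by omega), if_neg (by omega), add_zero]
  obtain ⟨a, ha⟩ : ∃ a : Matrix.SpecialLinearGroup (Fin n) F, (a : Matrix (Fin n) (Fin n) F) = 1 + jm F n ℓ :=
    ⟨⟨1 + jm F n ℓ, hdet⟩, rfl⟩
  refine ⟨a, ha, ?_, ?_⟩
  · have hp : Fact (Nat.Prime 2) := ⟨Nat.prime_two⟩
    apply orderOf_eq_prime
    · apply Subtype.ext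
      rw [Matrix.SpecialLinearGroup.coe_pow, ha]
      change (1 + jm F n ℓ) ^ 2 = 1
      have h22 : (2 : F) = 0 := CharTwo.two_eq_zero
      have : (1 + jm F n ℓ) ^ 2 = 1 + (2 : F) • jm F n ℓ + jm F n ℓ * jm F n ℓ := by
        rw [pow_two, two_smul]
        noncomm_ring
      rw [this, jm_sq ℓ h2, h22, zero_smul, add_zero, add_zero]
    · intro h
      have h'' : 1 + jm F n ℓ = 1 := by
        rw [← ha, h]
        rfl
      have h3 : jm F n ℓ = 0 := by
        have := congrArg (fun M => M - 1) h''
        simpa using this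
      have h4 := jm_rank (F := F) ℓ h2
      rw [h3, Matrix.rank_zero] at h4
      omega
  · rw [ha, add_sub_cancel_left]
    exact jm_rank ℓ h2

end Cfsg.Agent.S2163
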