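import Cfsg.Statements.S2167
import Cfsg.Agent.H80.SympTwo

set_option autoImplicit false
open Cfsg

namespace Cfsg.Agent.S2167

/-- For an involution t of the symplectic group Sp_{2m}(F), m ≥ 2, F a finite field of characteristic two (matrices A with A J Aᵀ = J acting on column vectors, alternating form f(u, v) = u ⬝ (J v)): the set V(t) of vectors v with f(v, t v) = 0 has either q^{2m} or q^{2m−1} elements, q the order of F (it is a subspace of codimension at most 1), and if it is the whole space then t − 1 has even rank. -/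
theorem result {F : Type*} [Field F] [Fintype F] [CharP F 2] {m : ℕ} (hm : 2 ≤ m) (a : ↥(Matrix.symplecticGroup (Fin m) F)) (ha : orderOf a = 2) :
    (Nat.card {v : Fin m ⊕ Fin m → F // Cfsg.sympForm m F v (Matrix.mulVec ((a : ↥(Matrix.symplecticGroup (Fin m) F)) : Matrix (Fin m ⊕ Fin m) (Fin m ⊕ Fin m) F) v) = 0} = Fintype.card F ^ (2 * m) ∨ Nat.card {v : Fin m ⊕ Fin m → F // Cfsg.sympForm m F v (Matrix.mulVec ((a : ↥(Matrix.symplecticGroup (Fin m) F)) : Matrix (Fin m ⊕ Fin m) (Fin m ⊕ Fin m) F) v) = 0} * Fintype.card F = Fintype.card F ^ (2 * m)) ∧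
    ((∀ v : Fin m ⊕ Fin m → F, Cfsg.sympForm m F v (Matrix.mulVec ((a : ↥(Matrix.symplecticGroup (Fin m) F)) : Matrix (Fin m ⊕ Fin m) (Fin m ⊕ Fin m) F) v) = 0) → Even (((a : ↥(Matrix.symplecticGroup (Fin m) F)) : Matrix (Fin m ⊕ Fin m) (Fin m ⊕ Fin m) F) - 1).rank) := by
  have ha2 : a ^ 2 = 1 := by rw [← ha]; exact pow_orderOf_eq_one a
  have hcard : Nat.card (Fin m ⊕ Fin m → F) = Fintype.card F ^ (2 * m) := by
    rw [Nat.card_eq_fintype_card, Fintype.card_fun, Fintype.card_sum, Fintype.card_fin, two_mul]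
  refine ⟨?_, H80.even_rank ha2⟩
  rcases H80.card_isotropic ha2 with h | h
  · left
    rw [← hcard]
    exact Nat.card_congr (Equiv.subtypeUnivEquiv h)
  · right
    rw [← hcard]
    exact h

end Cfsg.Agent.S2167
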