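import Cfsg.Statements.S2170
import Cfsg.Agent.H80.OrthTwo
import Cfsg.Agent.LieClassical.OrthForms

set_option autoImplicit false
open Cfsg

namespace Cfsg.Agent.S2170

/-- Involutions in the full isometry group O of the quadratic form Σ x_i y_i + (z₁² + c z₁ z₂ + d z₂²) in dimension 2m with anisotropic binary part over a finite field F of characteristic two, m ≥ 4 (minus type): two elements of order 2 of O are conjugate in O exactly when they are conjugate under the group of all invertible matrices preserving the polar bilinear form (u, v) ↦ Q(u + v) − Q(u) − Q(v) (the symplectic group of that form). -/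
theorem result {F : Type*} [Field F] [Fintype F] [CharP F 2] {m : ℕ} (hm : 4 ≤ m) (c d : F) (hcd : ∀ z₁ z₂ : F, z₁ ^ 2 + c * z₁ * z₂ + d * z₂ ^ 2 = 0 → z₁ = 0 ∧ z₂ = 0) (t s : ↥(Cfsg.isometryGroup F (Cfsg.quadFormMinus (m - 1) F c d))) (ht : orderOf t = 2) (hs : orderOf s = 2) :
    IsConj t s ↔ ∃ g ∈ Cfsg.preserving (Units.coeHom (Matrix ((Fin (m - 1) ⊕ Fin (m - 1)) ⊕ Fin 2) ((Fin (m - 1) ⊕ Fin (m - 1)) ⊕ Fin 2) F)) (fun u v => Cfsg.quadFormMinus (m - 1) F c d (u + v) - Cfsg.quadFormMinus (m - 1) F c d u - Cfsg.quadFormMinus (m - 1) F c d v), g * ((t : ↥(Cfsg.isometryGroup F (Cfsg.quadFormMinus (m - 1) F c d))) : GL ((Fin (m - 1) ⊕ Fin (m - 1)) ⊕ Fin 2) F) * g⁻¹ = ((s : ↥(Cfsg.isometryGroup F (Cfsg.quadFormMinus (m - 1) F c d))) : GL ((Fin (m - 1) ⊕ Fin (m - 1)) ⊕ Fin 2) F) := by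
  have ht2 : t ^ 2 = 1 := orderOf_dvd_iff_pow_eq_one.1 (dvd_of_eq ht)
  have hs2 : s ^ 2 = 1 := orderOf_dvd_iff_pow_eq_one.1 (dvd_of_eq hs)
  exact H80.conj_iff_polar H80.two_zero (LieClassical.OrthForms.coe_minusForm (m - 1) F c d)
    (LieClassical.OrthForms.nondeg_minusForm (m - 1) F c d hcd) ht2 hs2

end Cfsg.Agent.S2170
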