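import Cfsg.Statements.S2172
import Cfsg.Agent.H80.OrthSplitMain

set_option autoImplicit false
open Cfsg

namespace Cfsg.Agent.S2172

/-- Splitting of involution classes from O to Ω for the hyperbolic quadratic form Q = Σ x_i y_i in dimension 2m over a finite field F of characteristic two, m ≥ 4. Let t, s be involutions of the commutator subgroup Ω that are conjugate in the full isometry group O. If it is not the case that t − 1 has rank m and Q(v + t v) = 0 for every vector v, then t and s are conjugate by an element of Ω. If t − 1 has rank m and Q(v + t v) = 0 for all v, then t and s are conjugate by an element of Ω exactly when the intersection of the images of t − 1 and s − 1 has even dimension (so the class of t in O meets at most two classes of Ω). -/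
theorem result {F : Type*} [Field F] [Fintype F] [CharP F 2] {m : ℕ} (hm : 4 ≤ m) (t s : ↥(Cfsg.isometryGroup F (Cfsg.quadFormPlus m F))) (ht : orderOf t = 2) (hs : orderOf s = 2) (htO : t ∈ Cfsg.Omega F (Cfsg.quadFormPlus m F)) (hsO : s ∈ Cfsg.Omega F (Cfsg.quadFormPlus m F)) (hconj : IsConj t s) :
    (¬ (((((t : ↥(Cfsg.isometryGroup F (Cfsg.quadFormPlus m F))) : GL (Fin m ⊕ Fin m) F) : Matrix (Fin m ⊕ Fin m) (Fin m ⊕ Fin m) F) - 1).rank = m ∧ ∀ v : Fin m ⊕ Fin m → F, Cfsg.quadFormPlus m F (v + Matrix.mulVec (((t : ↥(Cfsg.isometryGroup F (Cfsg.quadFormPlus m F))) : GL (Fin m ⊕ Fin m) F) : Matrix (Fin m ⊕ Fin m) (Fin m ⊕ Fin m) F) v) = 0) →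
      ∃ g ∈ Cfsg.Omega F (Cfsg.quadFormPlus m F), g * t * g⁻¹ = s) ∧
    ((((((t : ↥(Cfsg.isometryGroup F (Cfsg.quadFormPlus m F))) : GL (Fin m ⊕ Fin m) F) : Matrix (Fin m ⊕ Fin m) (Fin m ⊕ Fin m) F) - 1).rank = m ∧ ∀ v : Fin m ⊕ Fin m → F, Cfsg.quadFormPlus m F (v + Matrix.mulVec (((t : ↥(Cfsg.isometryGroup F (Cfsg.quadFormPlus m F))) : GL (Fin m ⊕ Fin m) F) : Matrix (Fin m ⊕ Fin m) (Fin m ⊕ Fin m) F) v) = 0) →
      ((∃ g ∈ Cfsg.Omega F (Cfsg.quadFormPlus m F), g * t * g⁻¹ = s) ↔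
        Even (Module.finrank F ↥(LinearMap.range (Matrix.toLin' ((((t : ↥(Cfsg.isometryGroup F (Cfsg.quadFormPlus m F))) : GL (Fin m ⊕ Fin m) F) : Matrix (Fin m ⊕ Fin m) (Fin m ⊕ Fin m) F) - 1)) ⊓ LinearMap.range (Matrix.toLin' ((((s : ↥(Cfsg.isometryGroup F (Cfsg.quadFormPlus m F))) : GL (Fin m ⊕ Fin m) F) : Matrix (Fin m ⊕ Fin m) (Fin m ⊕ Fin m) F) - 1)))))) := by
  have ht2 : t ^ 2 = 1 := orderOf_dvd_iff_pow_eq_one.1 (dvd_of_eq ht)
  have : Nonempty (Fin m ⊕ Fin m) := ⟨Sum.inl ⟨0, by omega⟩⟩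
  have hcard : Fintype.card (Fin m ⊕ Fin m) = 2 * m := by
    rw [Fintype.card_sum, Fintype.card_fin]; omega
  refine ⟨fun hne => ?_, fun h => ?_⟩
  · exact H80.split_one H80.two_zero (LieClassical.OrthForms.coe_plusForm m F)
      (LieClassical.OrthForms.nondeg_plusForm m F) (by omega) hcard ht2 hconj hne
  · exact H80.split_two H80.two_zero (LieClassical.OrthForms.coe_plusForm m F)
      (LieClassical.OrthForms.nondeg_plusForm m F) (by omega) hcard ht2 hconj h.1 h.2

end Cfsg.Agent.S2172
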