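import Cfsg.Statements.S2175
import Cfsg.Agent.H81.InvGen
import Cfsg.Agent.H81.RkESix
import Cfsg.Agent.H83.RedESix
-- import your own Cfsg.Agent.* helpers here

set_option autoImplicit false
open Cfsg

namespace Cfsg.Agent.S2175

open Cfsg.Lie Cfsg.Agent.ChevalleyStructure.Elts Cfsg.Agent.Nodes.RGDChev Cfsg.Agent.H81.RankTwo
  Cfsg.Agent.H81.InvGen Cfsg.Agent.H81.RkESix Cfsg.Agent.H83.RedESix Cfsg.Agent.H83.OrthRed

theorem hp : IsType chevE6 6 CoxeterMatrix.E₆ := by simp [IsType, typeList]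

theorem eqv2 {F : Type*} [Field F] [CharP F 2] : Eqv hp.inList F [68, 66] [71, 60] :=
  eqv_of_word (w := [1, 3, 4]) (by decide +kernel) (by decide +kernel) (by decide +kernel)

theorem eqv3 {F : Type*} [Field F] [CharP F 2] : Eqv hp.inList F [55, 65, 67] [71, 60, 44] :=
  eqv_of_word (w := [0, 1, 3, 2, 0]) (by decide +kernel) (by decide +kernel) (by decide +kernel)

theorem rk1 {F : Type*} [Field F] [CharP F 2] : (wmat chevE6 F [71] - 1).rank = 22 := rank_71 F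
theorem rk2 {F : Type*} [Field F] [CharP F 2] : (wmat chevE6 F [68, 66] - 1).rank = 32 := by
  rw [← rank_of_eqv eqv2, rank_71_60 F]
theorem rk3 {F : Type*} [Field F] [CharP F 2] : (wmat chevE6 F [55, 65, 67] - 1).rank = 38 := by
  rw [← rank_of_eqv eqv3, rank_71_60_44 F]

/-- the representatives of the statement -/
def Ls : List (List ℕ) := [[71], [68, 66], [55, 65, 67]]

theorem Ls_map {F : Type*} [Field F] : Ls.map (wmat chevE6 F) = [Cfsg.Lie.chevE6.x F 71 1, Cfsg.Lie.chevE6.x F 68 1 * Cfsg.Lie.chevE6.x F 66 1, Cfsg.Lie.chevE6.x F 55 1 * Cfsg.Lie.chevE6.x F 65 1 * Cfsg.Lie.chevE6.x F 67 1] := by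
  simp only [Ls, wmat, List.map_cons, List.map_nil, List.prod_cons, List.prod_nil, mul_one, mul_assoc]

/-- Conjugacy classes of involutions in the Chevalley group of type E₆ over a finite field F of characteristic two (the matrix group generated by the root elements x_r(t)). In this problem's root numbering for type E₆ (the Chevalley data module; fundamental roots numbered so that p₁–p₃–p₄–p₅–p₆ is the long chain of the diagram and p₂ is joined to p₄; roots indexed by their coefficient vectors in increasing order) let r = 71 be the highest root (1,2,2,3,2,1), α = 68 = (1,1,2,2,1,1), β = 66 = (1,1,1,2,2,1), γ = 55 = (0,1,1,2,2,1), δ = 65 = (1,1,1,2,1,1), ε = 67 = (1,1,2,2,1,0) (α ⊥ β and γ, δ, ε pairwise orthogonal); consider x_r(1), x_α(1)x_β(1) and x_γ(1)x_δ(1)x_ε(1). Then: each invertible matrix equal to one of these three products lies in the group and has order 2; every element of order 2 of the group is conjugate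 in the group to one of them; and no two of them are conjugate in the group (so, the three matrices being distinct, the group has exactly three conjugacy classes of involutions). -/
theorem result {F : Type*} [Field F] [Fintype F] [CharP F 2] :
    (∀ y : GL Cfsg.Lie.chevE6.Idx F, ((y : GL Cfsg.Lie.chevE6.Idx F) : Matrix Cfsg.Lie.chevE6.Idx Cfsg.Lie.chevE6.Idx F) ∈ [Cfsg.Lie.chevE6.x F 71 1, Cfsg.Lie.chevE6.x F 68 1 * Cfsg.Lie.chevE6.x F 66 1, Cfsg.Lie.chevE6.x F 55 1 * Cfsg.Lie.chevE6.x F 65 1 * Cfsg.Lie.chevE6.x F 67 1] → y ∈ Cfsg.Lie.chevE6.group F ∧ orderOf y = 2) ∧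
    (∀ g ∈ Cfsg.Lie.chevE6.group F, orderOf g = 2 → ∃ y ∈ Cfsg.Lie.chevE6.group F, ((y : GL Cfsg.Lie.chevE6.Idx F) : Matrix Cfsg.Lie.chevE6.Idx Cfsg.Lie.chevE6.Idx F) ∈ [Cfsg.Lie.chevE6.x F 71 1, Cfsg.Lie.chevE6.x F 68 1 * Cfsg.Lie.chevE6.x F 66 1, Cfsg.Lie.chevE6.x F 55 1 * Cfsg.Lie.chevE6.x F 65 1 * Cfsg.Lie.chevE6.x F 67 1] ∧ ∃ h ∈ Cfsg.Lie.chevE6.group F, h * g * h⁻¹ = y) ∧
    (∀ y₁ ∈ Cfsg.Lie.chevE6.group F, ∀ y₂ ∈ Cfsg.Lie.chevE6.group F, ((y₁ : GL Cfsg.Lie.chevE6.Idx F) : Matrix Cfsg.Lie.chevE6.Idx Cfsg.Lie.chevE6.Idx F) ∈ [Cfsg.Lie.chevE6.x F 71 1, Cfsg.Lie.chevE6.x F 68 1 * Cfsg.Lie.chevE6.x F 66 1, Cfsg.Lie.chevE6.x F 55 1 * Cfsg.Lie.chevE6.x F 65 1 * Cfsg.Lie.chevE6.x F 67 1] → ((y₂ : GL Cfsg.Lie.chevE6.Idx F) : Matrix Cfsg.Lie.chevE6.Idx Cfsg.Lie.chevE6.Idx F) ∈ [Cfsg.Lie.chevE6.x F 71 1, Cfsg.Lie.chevE6.x F 68 1 * Cfsg.Lie.chevE6.x F 66 1, Cfsg.Lie.chevE6.x F 55 1 * Cfsg.Lie.chevE6.x F 65 1 * Cfsg.Lie.chevE6.x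 F 67 1] →
      (∃ h ∈ Cfsg.Lie.chevE6.group F, h * y₁ * h⁻¹ = y₂) → ((y₁ : GL Cfsg.Lie.chevE6.Idx F) : Matrix Cfsg.Lie.chevE6.Idx Cfsg.Lie.chevE6.Idx F) = ((y₂ : GL Cfsg.Lie.chevE6.Idx F) : Matrix Cfsg.Lie.chevE6.Idx Cfsg.Lie.chevE6.Idx F)) := by
  rw [← Ls_map]
  refine main hp allchk_eq Ls ?_ ?_ ?_ ?_
  · intro R hR
    simp only [reps, List.mem_cons, List.not_mem_nil, or_false] at hR
    rcases hR with rfl | rfl | rfl | rfl
    · exact Or.inl rfl
    · exact Or.inr ⟨[71], by simp [Ls], Eqv.refl _⟩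
    · exact Or.inr ⟨[68, 66], by simp [Ls], eqv2.symm⟩
    · exact Or.inr ⟨[55, 65, 67], by simp [Ls], eqv3.symm⟩
  · have h : Ls.all (olchk chevE6) = true := by decide +kernel
    rw [List.all_eq_true] at h
    exact fun A hA => ol_of_chk (h A hA)
  · have h1 := rk1 (F := F)
    have h2 := rk2 (F := F)
    have h3 := rk3 (F := F)
    intro A hA B hB h
    simp only [Ls, List.mem_cons, List.not_mem_nil, or_false] at hA hB
    rcases hA with rfl | rfl | rfl <;> rcases hB with rfl | rfl | rfl <;> first | rfl | (exfalso; omega)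
  · have h1 := rk1 (F := F)
    have h2 := rk2 (F := F)
    have h3 := rk3 (F := F)
    intro A hA
    simp only [Ls, List.mem_cons, List.not_mem_nil, or_false] at hA
    rcases hA with rfl | rfl | rfl <;> omega

end Cfsg.Agent.S2175
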