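import Cfsg.Statements.S2178
import Cfsg.Agent.H82.RootCent

set_option autoImplicit false
open Cfsg

namespace Cfsg.Agent.S2178

open Cfsg.Lie Cfsg.Agent.ChevalleyStructure.Elts Cfsg.Agent.ChevalleyStructure.RootCombGood
  Cfsg.Agent.H82.RootCent

universe u

theorem datLong (F : Type u) [Field F] : Dat chevF4 F 47 [14, 20, 22] 3 where
  hr := by decide +kernel
  hk := by decide +kernel
  hk1 := by decide +kernel
  hz := by decide +kernel
  hL := by
    have h : ∀ s ∈ [14, 20, 22], s < chevF4.nroots ∧ s ≠ 47 ∧ s ≠ chevF4.neg 47 ∧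
        (chevF4.commTerms 47 s).isEmpty = true := by decide +kernel
    intro s hs
    obtain ⟨h1, h2, h3, h4⟩ := h s hs
    refine ⟨h1, h2, h3, fun c hc => ?_⟩
    rw [List.isEmpty_iff.1 h4] at hc
    simp at hc
  hU := by
    have h : ∀ s < chevF4.nroots, chevF4.nroots / 2 ≤ s → s ≠ 47 → s ≠ chevF4.neg 47 ∧
        (chevF4.commTerms 47 s).isEmpty = true := by decide +kernel
    intro s h0 h1 h2
    obtain ⟨h3, h4⟩ := h s h0 h1 h2
    refine ⟨h3, fun c hc => ?_⟩
    rw [List.isEmpty_iff.1 h4] at hc
    simp at hc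

theorem datShort (F : Type u) [Field F] [CharP F 2] : Dat chevF4 F 44 [20, 22, 23] 0 where
  hr := by decide +kernel
  hk := by decide +kernel
  hk1 := by decide +kernel
  hz := by decide +kernel
  hL := by
    have h : ∀ s ∈ [20, 22, 23], s < chevF4.nroots ∧ s ≠ 44 ∧ s ≠ chevF4.neg 44 ∧
        (chevF4.commTerms 44 s).all (fun c => decide (c.2.1 % 2 = 0)) = true := by decide +kernel
    intro s hs
    obtain ⟨h1, h2, h3, h4⟩ := h s hs
    refine ⟨h1, h2, h3, fun c hc => ?_⟩
    have := List.all_eq_true.1 h4 c hc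
    exact (CharP.intCast_eq_zero_iff F 2 c.2.1).2 (Int.dvd_of_emod_eq_zero (of_decide_eq_true this))
  hU := by
    have h : ∀ s < chevF4.nroots, chevF4.nroots / 2 ≤ s → s ≠ 44 → s ≠ chevF4.neg 44 ∧
        (chevF4.commTerms 44 s).all (fun c => decide (c.2.1 % 2 = 0)) = true := by decide +kernel
    intro s h0 h1 h2
    obtain ⟨h3, h4⟩ := h s h0 h1 h2
    refine ⟨h3, fun c hc => ?_⟩
    have := List.all_eq_true.1 h4 c hc
    exact (CharP.intCast_eq_zero_iff F 2 c.2.1).2 (Int.dvd_of_emod_eq_zero (of_decide_eq_true this))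

theorem M_eq (F : Type u) [Field F] (a b c : ℕ) :
    M F chevF4 [a, b, c] = chevF4.posUnipotent F ⊔ chevF4.rootSubgroup F a ⊔ chevF4.rootSubgroup F b ⊔
      chevF4.rootSubgroup F c := by
  apply le_antisymm
  · refine sup_le (le_sup_of_le_left (le_sup_of_le_left le_sup_left)) ((Subgroup.closure_le _).2 ?_)
    rintro g ⟨s, hs, t, hg⟩
    simp only [List.mem_cons, List.not_mem_nil, or_false] at hs
    rcases hs with rfl | rfl | rfl
    · exact Subgroup.mem_sup_left (Subgroup.mem_sup_left (Subgroup.mem_sup_right (Subgroup.subset_closure ⟨t, hg⟩)))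
    · exact Subgroup.mem_sup_left (Subgroup.mem_sup_right (Subgroup.subset_closure ⟨t, hg⟩))
    · exact Subgroup.mem_sup_right (Subgroup.subset_closure ⟨t, hg⟩)
  · refine sup_le (sup_le (sup_le le_sup_left ?_) ?_) ?_
    · refine le_trans ?_ le_sup_right
      refine Subgroup.closure_mono ?_
      rintro g ⟨t, hg⟩
      exact ⟨a, by simp, t, hg⟩
    · refine le_trans ?_ le_sup_right
      refine Subgroup.closure_mono ?_
      rintro g ⟨t, hg⟩
      exact ⟨b, by simp, t, hg⟩
    · refine le_trans ?_ le_sup_right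
      refine Subgroup.closure_mono ?_
      rintro g ⟨t, hg⟩
      exact ⟨c, by simp, t, hg⟩


/-- Centralizers of the long and the short root involutions in the Chevalley group G of type F₄ over a finite field F of characteristic two (this problem's root numbering for type F₄, from the Chevalley data module: fundamental roots p₁, p₂ short, p₃, p₄ long, with indices 33, 27, 25, 24, their negatives 14, 20, 22, 23; highest root 47, highest short root 44; U the subgroup generated by the positive root subgroups). For an element t of G with matrix x_47(1): the centralizer of t in G is the subgroup generated by U and the root subgroups X_{−p₁}, X_{−p₂}, X_{−p₃} (the unipotent radical of the maximal parabolic subgroup whose Levi factor has fundamental roots p₁, p₂, p₃, together with that Levi factor's root subgroups; the Levi factor is of type C₃). For an element u of G with matrix x_44(1): the centralizer of u in G is generated by U and X_{−p₂}, X_{−p₃}, X_{−p₄} (the same construction for the Levi factor with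 fundamental roots p₂, p₃, p₄, of type B₃). -/
theorem result {F : Type*} [Field F] [Fintype F] [CharP F 2] (t u : GL Cfsg.Lie.chevF4.Idx F) (ht : (t : Matrix Cfsg.Lie.chevF4.Idx Cfsg.Lie.chevF4.Idx F) = Cfsg.Lie.chevF4.x F 47 1) (hu : (u : Matrix Cfsg.Lie.chevF4.Idx Cfsg.Lie.chevF4.Idx F) = Cfsg.Lie.chevF4.x F 44 1) :
    Cfsg.Lie.chevF4.group F ⊓ Subgroup.centralizer {t} = Cfsg.Lie.chevF4.posUnipotent F ⊔ Cfsg.Lie.chevF4.rootSubgroup F 14 ⊔ Cfsg.Lie.chevF4.rootSubgroup F 20 ⊔ Cfsg.Lie.chevF4.rootSubgroup F 22 ∧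
    Cfsg.Lie.chevF4.group F ⊓ Subgroup.centralizer {u} = Cfsg.Lie.chevF4.posUnipotent F ⊔ Cfsg.Lie.chevF4.rootSubgroup F 20 ⊔ Cfsg.Lie.chevF4.rootSubgroup F 22 ⊔ Cfsg.Lie.chevF4.rootSubgroup F 23 := by
  have hD : InList chevF4 := by simp [InList]
  rw [(eq_xG_iff hD t _ _).2 ht, (eq_xG_iff hD u _ _).2 hu]
  exact ⟨(main hD (datLong F)).trans (M_eq F _ _ _), (main hD (datShort F)).trans (M_eq F _ _ _)⟩

end Cfsg.Agent.S2178
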