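import Cfsg.Statements.S2191
import Cfsg.Agent.H82.TwE6B

set_option autoImplicit false
open Cfsg

namespace Cfsg.Agent.S2191

/-- In the twisted group ²E₆(q), realised inside the Chevalley group of type E₆ over the field K with q² elements (q a power of the characteristic) as the subgroup generated by the root elements, and products of root elements, that the twisting map fixes, the subgroup of matrices all of whose entries lie in the subfield with q elements (entries c with c^q = c; it contains the subgroup of type F₄ over that subfield) is a proper maximal subgroup. -/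
theorem result {K : Type*} [Field K] [Fintype K] (p : ℕ) [Fact p.Prime] [CharP K p] (q : ℕ) (hq : ∃ a : ℕ, 1 ≤ a ∧ q = p ^ a) (hK : Fintype.card K = q ^ 2) (M : Subgroup (GL Cfsg.Lie.chevE6.Idx K))
    (hM : ∀ g : GL Cfsg.Lie.chevE6.Idx K, g ∈ M ↔ g ∈ Cfsg.Lie.twistedE6 K q ∧ ∀ i j : Cfsg.Lie.chevE6.Idx, ((g : Matrix Cfsg.Lie.chevE6.Idx Cfsg.Lie.chevE6.Idx K) i j) ^ q = (g : Matrix Cfsg.Lie.chevE6.Idx Cfsg.Lie.chevE6.Idx K) i j) :
    M ≠ Cfsg.Lie.twistedE6 K q ∧ ∀ H : Subgroup (GL Cfsg.Lie.chevE6.Idx K), M ≤ H → H ≤ Cfsg.Lie.twistedE6 K q → H = M ∨ H = Cfsg.Lie.twistedE6 K q := by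
  have hpp : IsPrimePow q := by
    obtain ⟨a, ha, rfl⟩ := hq
    exact ⟨p, a, (Fact.out : p.Prime).prime, ha, rfl⟩
  have hq1 : 1 < q := hpp.one_lt
  obtain ⟨φ, hφ, hqq⟩ := Cfsg.Agent.ChevalleyStructure.TwE6Basic.exists_frob hpp hK
  have hφφ : ∀ t, φ (φ t) = t := fun t => by rw [hφ, hφ, hqq]
  have hM' : ∀ g : GL Cfsg.Lie.chevE6.Idx K, g ∈ M ↔ g ∈ Cfsg.Lie.twistedE6 K q ∧
      Cfsg.Agent.H82.TwMax.fr Cfsg.Lie.chevE6 φ g = g := by
    intro g
    rw [hM, Cfsg.Agent.H82.TwMax.fr_eq_iff]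
    simp only [hφ]
  constructor
  · intro he
    have hall : ∀ t : K, t ^ q = t := by
      intro t
      have h1 : Cfsg.Agent.H82.TwE6.Q φ t ∈ M := by
        rw [he]
        exact Cfsg.Agent.H82.TwE6.Q_mem hφ t
      have h2 := Cfsg.Agent.H82.TwMax.cf_of_fr φ (r := 42) ((hM' _).1 h1).2
      unfold Cfsg.Agent.H82.TwE6.Q at h2
      rw [Cfsg.Agent.H82.TwE6.cf_pair (by decide) (by decide) (by decide)] at h2
      rw [← hφ]
      simpa using h2
    have h3 : (Finset.univ : Finset K).val ⊆ (Polynomial.X ^ q - Polynomial.X : Polynomial K).roots := by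
      intro t _
      rw [Polynomial.mem_roots (FiniteField.X_pow_card_sub_X_ne_zero K hq1)]
      simp [hall t]
    have h4 := Polynomial.card_le_degree_of_subset_roots h3
    rw [FiniteField.X_pow_card_sub_X_natDegree_eq K hq1, Finset.card_univ, hK] at h4
    have h5 : q ^ 1 < q ^ 2 := Nat.pow_lt_pow_right hq1 (by norm_num)
    rw [pow_one] at h5
    omega
  · intro H h1 h2
    by_cases hne : H = Cfsg.Lie.twistedE6 K q
    · exact Or.inr hne
    · left
      refine le_antisymm (fun g hg => (hM' g).2 ⟨h2 hg, ?_⟩) h1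
      exact Cfsg.Agent.H82.TwE6.dichotomy hφ hφφ (fun g hg hf => h1 ((hM' g).2 ⟨hg, hf⟩)) h2 hne g hg

end Cfsg.Agent.S2191
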