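import Cfsg.Statements.S2192
import Cfsg.Agent.H82.TwD4

set_option autoImplicit false
open Cfsg

namespace Cfsg.Agent.S2192

/-- In the twisted group ³D₄(q), realised inside the Chevalley group of type D₄ over the field K with q³ elements (q a power of the characteristic) as the subgroup generated by the root elements, and products of root elements, that the twisting map fixes, the subgroup of matrices all of whose entries lie in the subfield with q elements (it contains the subgroup of type G₂ over that subfield) is a proper maximal subgroup. -/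
theorem result {K : Type*} [Field K] [Fintype K] (p : ℕ) [Fact p.Prime] [CharP K p] (q : ℕ) (hq : ∃ a : ℕ, 1 ≤ a ∧ q = p ^ a) (hK : Fintype.card K = q ^ 3) (M : Subgroup (GL Cfsg.Lie.chevD4.Idx K))
    (hM : ∀ g : GL Cfsg.Lie.chevD4.Idx K, g ∈ M ↔ g ∈ Cfsg.Lie.twistedD4 K q ∧ ∀ i j : Cfsg.Lie.chevD4.Idx, ((g : Matrix Cfsg.Lie.chevD4.Idx Cfsg.Lie.chevD4.Idx K) i j) ^ q = (g : Matrix Cfsg.Lie.chevD4.Idx Cfsg.Lie.chevD4.Idx K) i j) :
    M ≠ Cfsg.Lie.twistedD4 K q ∧ ∀ H : Subgroup (GL Cfsg.Lie.chevD4.Idx K), M ≤ H → H ≤ Cfsg.Lie.twistedD4 K q → H = M ∨ H = Cfsg.Lie.twistedD4 K q := by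
  have hpp : IsPrimePow q := by
    obtain ⟨a, ha, rfl⟩ := hq
    exact ⟨p, a, (Fact.out : p.Prime).prime, ha, rfl⟩
  have hq1 : 1 < q := hpp.one_lt
  obtain ⟨φ, hφ⟩ := Cfsg.Agent.ChevalleyStructure.D4Fixed.exists_frob hpp hK
  have hM' : ∀ g : GL Cfsg.Lie.chevD4.Idx K, g ∈ M ↔ g ∈ Cfsg.Lie.twistedD4 K q ∧
      Cfsg.Agent.H82.TwMax.fr Cfsg.Lie.chevD4 φ g = g := by
    intro g
    rw [hM, Cfsg.Agent.H82.TwMax.fr_eq_iff]
    simp only [hφ]
  constructor
  · intro he
    have hall : ∀ t : K, φ t = t := by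
      intro t
      have h1 : Cfsg.Agent.ChevalleyStructure.D4Fixed.X φ t ∈ M := by
        rw [he]
        exact Cfsg.Agent.ChevalleyStructure.D4Fixed.X_mem hφ t
      have h2 := Cfsg.Agent.H82.TwMax.cf_of_fr φ (r := 18) ((hM' _).1 h1).2
      rw [Cfsg.Agent.H82.TwD4.cf_Xt (by decide)] at h2
      simpa using h2
    have h3 := Cfsg.Agent.ChevalleyStructure.D4U.card_fix_field hq1 hK hφ
    have h4 : Nat.card {a : K // φ a = a} = Nat.card K :=
      Nat.card_congr (Equiv.subtypeUnivEquiv hall)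
    rw [h4, Nat.card_eq_fintype_card, hK] at h3
    have h5 : q ^ 1 < q ^ 3 := Nat.pow_lt_pow_right hq1 (by norm_num)
    rw [pow_one] at h5
    omega
  · intro H h1 h2
    by_cases hne : H = Cfsg.Lie.twistedD4 K q
    · exact Or.inr hne
    · left
      refine le_antisymm (fun g hg => (hM' g).2 ⟨h2 hg, ?_⟩) h1
      exact Cfsg.Agent.H82.TwD4.dichotomy hφ hK (fun g hg hf => h1 ((hM' g).2 ⟨hg, hf⟩)) h2 hq1 hne g hg

end Cfsg.Agent.S2192
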