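import Cfsg.Statements.S2212
import Cfsg.Agent.H91.PguMain

set_option autoImplicit false
open Cfsg

namespace Cfsg.Agent.S2212

/-- Characterization of the three-dimensional projective unitary groups over finite fields of characteristic two by the centralizer of an involution. Let q = 2^n > 2 and let PGU₃(q) be the quotient of the full unitary group of a non-degenerate Hermitian form in three variables over the field with q² elements by its centre. Let G be a finite group of even order in which all involutions are conjugate, the centralizer of an involution is isomorphic to the centralizer of an involution in PGU₃(q), and a Sylow 2-subgroup is not normal. Then G ≅ PGU₃(q). -/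
theorem result {G : Type*} [Group G] [Finite G] {F : Type*} [Field F] [Fintype F] [CharP F 2] (q : ℕ) (hq : 2 < q) (hF : Fintype.card F = q ^ 2)
    (heven : Even (Nat.card G)) (hconj : ∀ s t : G, orderOf s = 2 → orderOf t = 2 → IsConj s t)
    (hC : ∀ (x : G) (y : (↥(Cfsg.GU 3 F q) ⧸ Subgroup.center ↥(Cfsg.GU 3 F q))), orderOf x = 2 → orderOf y = 2 →
      Nonempty (↥(Subgroup.centralizer ({x} : Set G)) ≃* ↥(Subgroup.centralizer ({y} : Set (↥(Cfsg.GU 3 F q) ⧸ Subgroup.center ↥(Cfsg.GU 3 F q))))))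
    (hS : ∀ P : Sylow 2 G, ¬ (P : Subgroup G).Normal) :
    Nonempty (G ≃* (↥(Cfsg.GU 3 F q) ⧸ Subgroup.center ↥(Cfsg.GU 3 F q))) := by
  have h2 : Fact (Nat.Prime 2) := ⟨Nat.prime_two⟩
  have h32 : ¬ (3 = 3 ∧ q = 2) := by omega
  obtain ⟨n, hn, hqn⟩ := Cfsg.Agent.H91.Pgu.exists_eq_two_pow hF hq
  have hfinY := Cfsg.Agent.H91.Pgu.finite_PSU hF
  obtain ⟨P₀⟩ : Nonempty (Sylow 2 (Cfsg.PSU 3 F q)) := inferInstance
  have hF2 : Fintype.card F = (2 ^ n) ^ 2 := by rw [hF, hqn]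
  -- the Sylow 2-subgroup of `PSU(3, q)`
  have hTy : Cfsg.Agent.BenderType.Inv.Ty ↥(P₀ : Subgroup (Cfsg.PSU 3 F q)) ((2 ^ n) ^ 3) (2 ^ n) := by
    subst hqn
    exact Cfsg.Agent.BenderType.Inv.ty_psu (by omega) hF2 P₀
  obtain ⟨a, b, hab, ha1, haa, hb1, hbb⟩ : ∃ a b : ↥(P₀ : Subgroup (Cfsg.PSU 3 F q)), a ≠ b ∧ a ≠ 1 ∧ a * a = 1 ∧
      b ≠ 1 ∧ b * b = 1 := by
    subst hqn
    exact (Cfsg.Agent.S1141.result hn hF P₀).2.2.2.2.2.1
  -- an involution of `PGU(3, q)`
  obtain ⟨y, hy⟩ : ∃ y : (↥(Cfsg.GU 3 F q) ⧸ Subgroup.center ↥(Cfsg.GU 3 F q)), orderOf y = 2 := by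
    obtain ⟨y, hy⟩ := (Cfsg.Agent.H91.Pgu.mem_range_jU hF hq h32 (MulAut.conj (a : Cfsg.PSU 3 F q))).2
      (Cfsg.Agent.KFacts.OutCyc.PSU.rho_conj hF le_rfl h32 _)
    refine ⟨y, ?_⟩
    rw [← orderOf_injective _ (Cfsg.Agent.H91.Pgu.jU_injective hF hq), hy,
      orderOf_injective _ (Cfsg.Agent.H91.Pgu.conj_injective hF hq), Subgroup.orderOf_coe]
    exact orderOf_eq_prime (by rw [pow_two, haa]) ha1
  have hH : Cfsg.Agent.H91.Pgu.CentHyp G ↥(P₀ : Subgroup (Cfsg.PSU 3 F q)) := by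
    intro x hx
    obtain ⟨f⟩ := hC x y hx hy
    exact (Cfsg.Agent.H91.Pgu.centProp_PGU hF hq hy P₀).congr f.symm
  obtain ⟨x, hx⟩ := exists_prime_orderOf_dvd_card' 2 (even_iff_two_dvd.1 heven)
  obtain ⟨P, hP⟩ := (IsPGroup.of_card (p := 2) (G := Subgroup.zpowers x) (n := 1)
    (by rw [Nat.card_zpowers, hx, pow_one])).exists_le_sylow
  have hxP : x ∈ P := hP (Subgroup.mem_zpowers x)
  obtain ⟨e⟩ := hH.sylow_equiv P hx
  have hTyP : Cfsg.Agent.BenderType.Inv.Ty ↥(P : Subgroup G) ((2 ^ n) ^ 3) (2 ^ n) := hTy.congr e.symm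
  -- two commuting involutions
  have hcomm : Cfsg.Agent.StrongEmb.TwoRank.CommPair G := by
    refine ⟨(e.symm a : G), (e.symm b : G), ?_, ?_, ?_, ?_⟩
    · rw [Subgroup.orderOf_coe, e.symm.orderOf_eq]
      exact orderOf_eq_prime (by rw [pow_two, haa]) ha1
    · rw [Subgroup.orderOf_coe, e.symm.orderOf_eq]
      exact orderOf_eq_prime (by rw [pow_two, hbb]) hb1
    · intro h
      exact hab (e.symm.injective (Subtype.ext h))
    · exact congrArg Subtype.val (hTyP.comm (e.symm a) (e.symm b) (by rw [← map_mul, haa, map_one])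
        (by rw [← map_mul, hbb, map_one]))
  obtain ⟨s, t, hs, ht, hst, hc⟩ := id hcomm
  have hO := hH.core_eq_bot hs ht hst hc
  obtain ⟨hodd, F', i1, i2, hF', ⟨e'⟩⟩ := Cfsg.Agent.H91.Pgu.exists_equiv_invClosure
    (hH.stronglyEmbedded P hxP hx (hS P)) hcomm hO P (by omega) hTyP
  have hcard : Fintype.card F' = Fintype.card F := by
    rw [hF', hF2, ← pow_mul, mul_comm, pow_mul]; norm_num
  obtain ⟨e''⟩ := Cfsg.Agent.SporadicStructure.PsuMatch.psu_iso_of_card hcard 3 (2 ^ n)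
  have hn' := Cfsg.Agent.SuzukiRankOne.Reduction.invClosure_normal G
  rw [← hqn] at e' e''
  refine Cfsg.Agent.H91.Pgu.final hF hq hH hO (Cfsg.Agent.SuzukiRankOne.Reduction.invClosure G) hodd ?_
    (e'.trans e'') hC
  intro z hz
  exact Cfsg.Agent.SuzukiRankOne.Reduction.mem_invClosure
    (by have := pow_orderOf_eq_one z; rwa [hz, pow_two] at this)

end Cfsg.Agent.S2212
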