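import Cfsg.Statements.S2221
import Cfsg.Agent.H94.DecompMain

set_option autoImplicit false
open Cfsg

namespace Cfsg.Agent.S2221


open Equiv Subgroup H94.Syl2Sym

set_option maxRecDepth 100000 in
theorem sq4 : ∀ g : Perm (Fin 4), g ^ 4 = 1 → Perm.sign g = 1 → g ^ 2 = 1 := by decide

set_option maxRecDepth 100000 in
theorem sq5 : ∀ g : Perm (Fin 5), g ^ 4 = 1 → Perm.sign g = 1 → g ^ 2 = 1 := by decide

/-- a group of order 4 and exponent 2 is decomposable -/
theorem dec_of_four {G : Type*} [Group G] [Finite G] (P : Subgroup G) (hc : Nat.card P = 4) (h2 : ∀ g ∈ P, g ^ 2 = 1) :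
    ∃ S₁ S₂ : Subgroup G, S₁ ≠ ⊥ ∧ S₂ ≠ ⊥ ∧ Cfsg.IsInternalDirectProduct S₁ S₂ P := by
  classical
  have hcomm : ∀ a ∈ P, ∀ b ∈ P, a * b = b * a := by
    intro a ha b hb
    have h1 : a * a = 1 := by rw [← pow_two]; exact h2 a ha
    have h3 : b * b = 1 := by rw [← pow_two]; exact h2 b hb
    have h4 : (a * b) * (a * b) = 1 := by rw [← pow_two]; exact h2 _ (P.mul_mem ha hb)
    have h5 : a⁻¹ = a := inv_eq_of_mul_eq_one_right h1
    have h6 : b⁻¹ = b := inv_eq_of_mul_eq_one_right h3
    have h7 : (a * b)⁻¹ = a * b := inv_eq_of_mul_eq_one_right h4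
    rw [mul_inv_rev, h5, h6] at h7
    exact h7.symm
  have hf : (P : Set G).Finite := Set.toFinite _
  have hn : (P : Set G).ncard = 4 := hc
  obtain ⟨a, ha, ha1⟩ : ∃ a ∈ (P : Set G), a ∉ ({1} : Set G) := by
    by_contra hcon
    push Not at hcon
    have := Set.ncard_le_ncard (t := {1}) hcon (Set.toFinite _)
    rw [hn, Set.ncard_singleton] at this
    omega
  obtain ⟨b, hb, hb1⟩ : ∃ b ∈ (P : Set G), b ∉ ({1, a} : Set G) := by
    by_contra hcon
    push Not at hcon
    have h1 := Set.ncard_le_ncard (t := {1, a}) hcon (Set.toFinite _)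
    have h2 : ({1, a} : Set G).ncard ≤ 2 := (Set.ncard_insert_le _ _).trans (by rw [Set.ncard_singleton])
    omega
  simp only [Set.mem_singleton_iff] at ha1
  simp only [Set.mem_insert_iff, Set.mem_singleton_iff, not_or] at hb1
  have zp : ∀ c ∈ P, ∀ x ∈ zpowers c, x = 1 ∨ x = c := by
    intro c hc x hx
    obtain ⟨k, rfl⟩ := mem_zpowers_iff.1 hx
    have h3 : c ^ (2 : ℤ) = 1 := by
      have := h2 c hc
      exact_mod_cast this
    rcases Int.even_or_odd' k with ⟨m, rfl | rfl⟩
    · left; rw [zpow_mul, h3, one_zpow]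
    · right; rw [zpow_add, zpow_mul, h3, one_zpow, one_mul, zpow_one]
  refine ⟨zpowers a, zpowers b, ?_, ?_, ?_, ?_, ?_, ?_, ?_⟩
  · rw [Ne, zpowers_eq_bot]; exact ha1
  · rw [Ne, zpowers_eq_bot]; exact hb1.1
  · rw [zpowers_le]; exact ha
  · rw [zpowers_le]; exact hb
  · intro x hx y hy
    exact hcomm x ((zpowers_le.2 ha) hx) y ((zpowers_le.2 hb) hy)
  · rw [eq_bot_iff]
    rintro x ⟨hx, hy⟩
    rw [mem_bot]
    rcases zp a ha x hx with e | e
    · exact e
    · rcases zp b hb x hy with e' | e'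
      · exact e'
      · exact absurd (e'.symm.trans e) hb1.2
  · have hle : zpowers a ⊔ zpowers b ≤ P := sup_le (zpowers_le.2 ha) (zpowers_le.2 hb)
    apply Subgroup.eq_of_le_of_card_ge hle
    rw [hc]
    have ma : a ∈ zpowers a ⊔ zpowers b := mem_sup_left (mem_zpowers a)
    have mb : b ∈ zpowers a ⊔ zpowers b := mem_sup_right (mem_zpowers b)
    have h1 : ({1, a, b, a * b} : Set G) ⊆ (zpowers a ⊔ zpowers b : Subgroup G) := by
      rintro x (rfl | rfl | rfl | rfl)
      · exact one_mem _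
      · exact ma
      · exact mb
      · exact mul_mem ma mb
    have h3 := Set.ncard_le_ncard h1 (Set.toFinite _)
    have h4 : ({1, a, b, a * b} : Set G).ncard = 4 := by
      rw [Set.ncard_insert_of_notMem, Set.ncard_insert_of_notMem, Set.ncard_pair]
      · intro e; exact ha1 (mul_eq_right.1 e.symm)
      · simp only [Set.mem_insert_iff, Set.mem_singleton_iff, not_or]
        exact ⟨fun e => hb1.2 e.symm, fun e => hb1.1 (mul_eq_left.1 e.symm)⟩
      · simp only [Set.mem_insert_iff, Set.mem_singleton_iff, not_or]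
        refine ⟨fun e => ha1 e.symm, fun e => hb1.1 e.symm, fun e => hb1.2 ?_⟩
        have h5 : a * a = 1 := by rw [← pow_two]; exact h2 a ha
        exact mul_left_cancel (e.symm.trans h5.symm)
    rw [h4] at h3
    exact h3

theorem fact60 : (60 : ℕ).factorization 2 = 2 := by
  have e : (60 : ℕ) = 2 ^ 2 * 15 := by norm_num
  rw [e, Nat.factorization_mul (by norm_num) (by norm_num), Finsupp.add_apply, Nat.factorization_pow,
    Nat.factorization_eq_zero_of_not_dvd (by norm_num : ¬ 2 ∣ 15)]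
  simp [Nat.prime_two.factorization]

theorem fact12 : (12 : ℕ).factorization 2 = 2 := by
  have e : (12 : ℕ) = 2 ^ 2 * 3 := by norm_num
  rw [e, Nat.factorization_mul (by norm_num) (by norm_num), Finsupp.add_apply, Nat.factorization_pow,
    Nat.factorization_eq_zero_of_not_dvd (by norm_num : ¬ 2 ∣ 3)]
  simp [Nat.prime_two.factorization]

theorem small (n : ℕ) (hn : n = 4 ∨ n = 5) (P : Sylow 2 (alternatingGroup (Fin n))) :
    ∃ S₁ S₂ : Subgroup (alternatingGroup (Fin n)), S₁ ≠ ⊥ ∧ S₂ ≠ ⊥ ∧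
        Cfsg.IsInternalDirectProduct S₁ S₂ (P : Subgroup (alternatingGroup (Fin n))) := by
  have h0 : Fact (Nat.Prime 2) := ⟨Nat.prime_two⟩
  have hcard : Nat.card (P : Subgroup (alternatingGroup (Fin n))) = 4 := by
    rcases hn with rfl | rfl
    · have hA : Nat.card (alternatingGroup (Fin 4)) = 12 := by
        rw [nat_card_alternatingGroup, Nat.card_fin]; decide
      have h1 := P.card_eq_multiplicity
      rw [hA, fact12] at h1
      exact h1
    · have hA : Nat.card (alternatingGroup (Fin 5)) = 60 := by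
        rw [nat_card_alternatingGroup, Nat.card_fin]; decide
      have h1 := P.card_eq_multiplicity
      rw [hA, fact60] at h1
      exact h1
  apply dec_of_four _ hcard
  intro g hg
  have h4 : g ^ 4 = 1 := by
    have := pow_card_eq_one' (G := (P : Subgroup (alternatingGroup (Fin n)))) (x := ⟨g, hg⟩)
    rw [hcard] at this
    exact congrArg Subtype.val this
  have h4' : (g : Perm (Fin n)) ^ 4 = 1 := congrArg Subtype.val h4
  have hs : Perm.sign (g : Perm (Fin n)) = 1 := g.2
  apply Subtype.ext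
  change (g : Perm (Fin n)) ^ 2 = 1
  rcases hn with rfl | rfl
  · exact sq4 _ h4' hs
  · exact sq5 _ h4' hs

/-- Direct decomposability of the Sylow 2-subgroups of the alternating groups. Let n ≥ 4 and let P be a Sylow 2-subgroup of the alternating group of degree n. Then P is the internal direct product of two nontrivial subgroups if and only if n = 4, n = 5, or n ≡ 2, 3 (mod 4) with 4⌊n/4⌋ not a power of 2. In the remaining cases (n ≡ 0, 1 (mod 4) with n ≥ 8, or n ≡ 2, 3 (mod 4) with 4⌊n/4⌋ a power of 2) P is directly indecomposable. -/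
theorem result (n : ℕ) (hn : 4 ≤ n)
    (P : Sylow 2 (alternatingGroup (Fin n))) :
    (∃ S₁ S₂ : Subgroup (alternatingGroup (Fin n)), S₁ ≠ ⊥ ∧ S₂ ≠ ⊥ ∧
        Cfsg.IsInternalDirectProduct S₁ S₂ (P : Subgroup (alternatingGroup (Fin n)))) ↔
      (n = 4 ∨ n = 5 ∨ ((n % 4 = 2 ∨ n % 4 = 3) ∧ ∀ r : ℕ, 4 * (n / 4) ≠ 2 ^ r)) := by
  classical
  have h0 : Fact (Nat.Prime 2) := ⟨Nat.prime_two⟩
  obtain ⟨Q, hQ⟩ := (P.isPGroup'.map (alternatingGroup (Fin n)).subtype).exists_le_sylow
  have hPQ : (Q : Subgroup (Perm (Fin n))).comap (alternatingGroup (Fin n)).subtype = P :=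
    P.is_maximal' (Q.isPGroup'.comap_of_injective _ (Subgroup.subtype_injective _)) (map_le_iff_le_comap.1 hQ)
  have hmem : ∀ x : alternatingGroup (Fin n), x ∈ (P : Subgroup (alternatingGroup (Fin n))) ↔
      (x : Perm (Fin n)) ∈ (Q : Subgroup (Perm (Fin n))) := by
    intro x
    rw [← hPQ]
    rfl
  have hmap : (P : Subgroup (alternatingGroup (Fin n))).map (alternatingGroup (Fin n)).subtype =
      (Q : Subgroup (Perm (Fin n))) ⊓ alternatingGroup (Fin n) := by
    ext x
    constructor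
    · rintro ⟨y, hy, rfl⟩
      exact ⟨(hmem y).1 hy, y.2⟩
    · rintro ⟨h1, h2⟩
      exact ⟨⟨x, h2⟩, (hmem _).2 h1, rfl⟩
  obtain ⟨s, hs1, hs2, hs3⟩ := exists_exps Q
  rw [Fintype.card_fin] at hs1
  constructor
  · rintro ⟨S₁, S₂, hS₁, hS₂, hle1, hle2, hcomm, hinf, hsup⟩
    by_contra hcon
    push Not at hcon
    obtain ⟨hn4, hn5, hcon⟩ := hcon
    have hc6 : 6 ≤ Fintype.card (Fin n) := by rw [Fintype.card_fin]; omega
    obtain ⟨p, m⟩ := exists_matching Q
    have hDec : Dec (Q : Subgroup (Perm (Fin n))) p (S₁.map (alternatingGroup (Fin n)).subtype)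
        (S₂.map (alternatingGroup (Fin n)).subtype) := by
      refine ⟨m, Q.isPGroup', ?_, ?_, ?_, ?_, ?_⟩
      · rintro _ ⟨y, hy, rfl⟩
        exact ⟨(hmem y).1 (hle1 hy), y.2⟩
      · rintro _ ⟨y, hy, rfl⟩
        exact ⟨(hmem y).1 (hle2 hy), y.2⟩
      · rintro _ ⟨y, hy, rfl⟩ _ ⟨z, hz, rfl⟩
        exact congrArg Subtype.val (hcomm y hy z hz)
      · rintro _ ⟨y, hy, rfl⟩ ⟨z, hz, e⟩
        have : z = y := Subtype.ext e
        subst this
        have h1 : z ∈ S₁ ⊓ S₂ := ⟨hy, hz⟩
        rw [hinf, mem_bot] at h1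
        rw [h1]
        rfl
      · intro g hg hs
        have h1 : (⟨g, hs⟩ : alternatingGroup (Fin n)) ∈ S₁ ⊔ S₂ := by
          rw [hsup]
          exact (hmem _).2 hg
        obtain ⟨a, ha, b, hb, e⟩ := (H94.Syl2Sym.mem_sup_of_comm hcomm).1 h1
        exact ⟨a, ⟨a, ha, rfl⟩, b, ⟨b, hb, rfl⟩, congrArg Subtype.val e⟩
    have hne1 : S₁.map (alternatingGroup (Fin n)).subtype ≠ ⊥ := by
      rw [Ne, Subgroup.map_eq_bot_iff_of_injective _ (Subgroup.subtype_injective _)]
      exact hS₁
    have hne2 : S₂.map (alternatingGroup (Fin n)).subtype ≠ ⊥ := by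
      rw [Ne, Subgroup.map_eq_bot_iff_of_injective _ (Subgroup.subtype_injective _)]
      exact hS₂
    by_cases hr : ∃ r, 4 * (n / 4) = 2 ^ r
    · obtain ⟨r, hr⟩ := hr
      have hsing := single hs1 hr
      refine trivial_of_one Q hDec hc6 (fun x y hx hy => ?_) hne1 hne2
      obtain ⟨i, hi, ei⟩ := hs2 x
      obtain ⟨j, hj, ej⟩ := hs2 y
      have big : ∀ k, 4 ≤ 2 ^ k → 2 ≤ k := by
        intro k hk
        by_contra h
        interval_cases k <;> simp at hk
      have h1 : i ∈ s.filter (fun i => 2 ≤ i) := Finset.mem_filter.2 ⟨hi, big i (ei ▸ hx)⟩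
      have h2 : j ∈ s.filter (fun i => 2 ≤ i) := Finset.mem_filter.2 ⟨hj, big j (ej ▸ hy)⟩
      rw [hsing, Finset.mem_singleton] at h1 h2
      have h3 := orbit_eq_of_card Q (x := y) (y := x) (by rw [ei, ej, h1, h2])
      rw [← h3]
      exact MulAction.mem_orbit_self y
    · push Not at hr
      have h1s : 1 ∉ s := by
        intro h1
        rw [one_mem_iff hs1] at h1
        obtain ⟨r, hr'⟩ := hcon (by omega)
        exact hr r hr'
      have hbig : ∀ x, p x ≠ x → ∃ k, 0 < k ∧ (MulAction.orbit (Q : Subgroup (Perm (Fin n))) x).ncard = 4 * k := by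
        intro x hx
        rcases orbit_card_cases Q x with h | h | h
        · exfalso
          rw [Set.ncard_eq_one] at h
          obtain ⟨a, ha⟩ := h
          have h3 : x ∈ ({a} : Set (Fin n)) := ha ▸ MulAction.mem_orbit_self x
          have h4 : p x ∈ ({a} : Set (Fin n)) := ha ▸ m.orbit_p x
          exact hx ((Set.mem_singleton_iff.1 h4).trans (Set.mem_singleton_iff.1 h3).symm)
        · exfalso
          obtain ⟨i, hi, ei⟩ := hs2 x
          rw [h] at ei
          have : i = 1 := by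
            have : 2 ^ 1 = 2 ^ i := by rw [← ei]; norm_num
            exact (Nat.pow_right_injective le_rfl this).symm
          exact h1s (this ▸ hi)
        · exact h
      have hother : ∀ x, p x ≠ x → ∃ w, p w ≠ w ∧ w ∉ MulAction.orbit (Q : Subgroup (Perm (Fin n))) x := by
        intro x hx
        obtain ⟨k, hk, hk2⟩ := hbig x hx
        obtain ⟨i, hi, ei⟩ := hs2 x
        have hi2 : 2 ≤ i := by
          by_contra h
          interval_cases i <;> omega
        obtain ⟨j, hj, hj2, hji⟩ := exists_two hs1 hr hi hi2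
        obtain ⟨w, hw⟩ := hs3 j hj
        refine ⟨w, fun e => ?_, fun h => ?_⟩
        · rw [m.orbit_fixed Q.isPGroup' e, Set.ncard_singleton] at hw
          have : 2 ^ 2 ≤ 2 ^ j := Nat.pow_le_pow_right (by norm_num) hj2
          omega
        · rw [MulAction.orbit_eq_iff.2 h, ei] at hw
          exact hji (Nat.pow_right_injective le_rfl hw).symm
      rcases Dec.trivial Q hDec (fun x hx => by
          obtain ⟨k, -, hk⟩ := hbig x hx
          exact ⟨k, hk⟩) hother with h | h
      · exact hne1 ((Subgroup.eq_bot_iff_forall _).2 h)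
      · exact hne2 ((Subgroup.eq_bot_iff_forall _).2 h)
  · intro h
    by_cases h45 : n = 4 ∨ n = 5
    · exact small n h45 P
    have h' : (n % 4 = 2 ∨ n % 4 = 3) ∧ ∀ r : ℕ, 4 * (n / 4) ≠ 2 ^ r := by tauto
    have h1s : 1 ∈ s := by
      rw [one_mem_iff hs1]
      omega
    obtain ⟨u, hu⟩ := hs3 1 h1s
    obtain ⟨i, hi, hi2⟩ := exists_one hs1 hn
    obtain ⟨j, hj, hj2, hji⟩ := exists_two hs1 h'.2 hi hi2
    obtain ⟨a, ha⟩ := hs3 i hi
    obtain ⟨b, hb⟩ := hs3 j hj
    have p4 : ∀ k, 2 ≤ k → 4 ≤ 2 ^ k := fun k hk => by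
      have : 2 ^ 2 ≤ 2 ^ k := Nat.pow_le_pow_right (by norm_num) hk
      omega
    obtain ⟨S₁, S₂, h1, h2, h3, h4, h5, h6, h7⟩ := exists_dec Q (u := u) (a := a) (b := b) (by rw [hu]; norm_num)
      (by rw [ha]; exact p4 i hi2) (by rw [hb]; exact p4 j hj2) (fun hmem' => by
        rw [MulAction.orbit_eq_iff.2 hmem', ha] at hb
        exact hji (Nat.pow_right_injective le_rfl hb).symm)
    have mc : ∀ S : Subgroup (Perm (Fin n)), S ≤ (Q : Subgroup (Perm (Fin n))) ⊓ alternatingGroup (Fin n) →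
        (S.comap (alternatingGroup (Fin n)).subtype).map (alternatingGroup (Fin n)).subtype = S := by
      intro S hS
      rw [Subgroup.map_comap_eq, Subgroup.range_subtype, inf_eq_right]
      exact hS.trans inf_le_right
    refine ⟨S₁.comap (alternatingGroup (Fin n)).subtype, S₂.comap (alternatingGroup (Fin n)).subtype, ?_, ?_, ?_, ?_,
      ?_, ?_, ?_⟩
    · intro e
      apply h1
      rw [← mc S₁ h3, e, Subgroup.map_bot]
    · intro e
      apply h2
      rw [← mc S₂ h4, e, Subgroup.map_bot]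
    · intro x hx
      exact (hmem x).2 (h3 hx).1
    · intro x hx
      exact (hmem x).2 (h4 hx).1
    · intro x hx y hy
      exact Subtype.ext (h5 x hx y hy)
    · rw [← Subgroup.comap_inf, h6, eq_bot_iff]
      intro x hx
      rw [Subgroup.mem_comap, Subgroup.mem_bot] at hx
      exact Subtype.ext hx
    · apply Subgroup.map_injective (Subgroup.subtype_injective (alternatingGroup (Fin n)))
      rw [Subgroup.map_sup, mc S₁ h3, mc S₂ h4, h7, hmap]

end Cfsg.Agent.S2221
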