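import Cfsg.Statements.S2226
import Cfsg.Agent.H95.OddNorm
import Cfsg.Agent.H95.EvenPSU

set_option autoImplicit false
open Cfsg

namespace Cfsg.Agent.S2226

/-- Let F be a finite field with q² elements and d = 2^w ≥ 4 a power of 2 such that the unitary group PSU_d(q) (realised over F) is simple. Then every subgroup H of PSU_d(q) of odd index is pronormal: for every g, H and gHg⁻¹ are conjugate by an element of the subgroup they generate. -/
theorem result {F : Type*} [Field F] [Fintype F] (q : ℕ)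
    (hF : Fintype.card F = q ^ 2) (w : ℕ) (hw : 2 ≤ w) (hs : IsSimpleGroup (Cfsg.PSU (2 ^ w) F q))
    (H : Subgroup (Cfsg.PSU (2 ^ w) F q)) (hH : Odd H.index) : Cfsg.IsPronormal H := by
  have h2p : Fact (Nat.Prime 2) := ⟨Nat.prime_two⟩
  have hH' : ¬ 2 ∣ H.index := by
    rw [← even_iff_two_dvd, Nat.not_even_iff_odd]; exact hH
  have hfin : Finite (PSU (2 ^ w) F q) := by
    have : Finite (Matrix.SpecialLinearGroup (Fin (2 ^ w)) F) := Subtype.finite
    infer_instance
  by_cases h2 : (2 : F) = 0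
  · have hchar : CharP F 2 := CharTwo.of_one_ne_zero_of_two_eq_zero one_ne_zero h2
    have key : ∀ N : ℕ, N = 2 * 2 ^ (w - 1) → ∀ H : Subgroup (Cfsg.PSU N F q), ¬ 2 ∣ H.index →
        Cfsg.IsPronormal H := by
      rintro N rfl H hH
      refine H95.EvenPSU.isPronormal hF ?_ H hH
      calc 2 = 2 ^ 1 := rfl
        _ ≤ 2 ^ (w - 1) := Nat.pow_le_pow_right (by norm_num) (by omega)
    refine key _ ?_ H hH'
    rw [← pow_succ', Nat.sub_add_cancel (by omega)]
  · obtain ⟨S, hS⟩ := H94.Pronormal.exists_sylow_le H hH'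
    exact H94.Pronormal.isPronormal_of_selfNorm S H hS (H95.OddNorm.selfNorm_PSU hF h2 hw S)

end Cfsg.Agent.S2226
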