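import Cfsg.Statements.S2228
import Cfsg.Agent.H898.J3Final

set_option autoImplicit false
open Cfsg

namespace Cfsg.Agent.S2228

/-- Let G be a finite simple group in which all involutions are conjugate and the centralizer of an involution has a normal extraspecial subgroup of order 32 complemented by a subgroup isomorphic to the alternating group of degree 5 (a group of J₃-type). Then a Sylow 19-subgroup of G is self-centralizing with normalizer-quotient cyclic of order 9, and a Sylow 17-subgroup is self-centralizing with normalizer-quotient cyclic of order 8. -/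
theorem result {G : Type*} [Group G] [Finite G] [IsSimpleGroup G]
    (hone : ∀ x y : G, orderOf x = 2 → orderOf y = 2 → IsConj x y)
    (t : G) (ht : orderOf t = 2) (E A : Subgroup ↥(Subgroup.centralizer ({t} : Set G))) [E.Normal]
    (hE : Cfsg.IsExtraspecial 2 ↥E) (hE32 : Nat.card ↥E = 32) (hEA : E.IsComplement' A)
    (eA : ↥A ≃* ↥(alternatingGroup (Fin 5))) :
    (∀ X : Sylow 19 G, Subgroup.centralizer ((X : Subgroup G) : Set G) = X ∧
        ∃ h : ((X : Subgroup G).subgroupOf (Subgroup.normalizer ((X : Subgroup G) : Set G))).Normal,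
          IsCyclic (↥(Subgroup.normalizer ((X : Subgroup G) : Set G)) ⧸ (X : Subgroup G).subgroupOf _) ∧
          Nat.card (↥(Subgroup.normalizer ((X : Subgroup G) : Set G)) ⧸ (X : Subgroup G).subgroupOf _) = 9) ∧
    (∀ Y : Sylow 17 G, Subgroup.centralizer ((Y : Subgroup G) : Set G) = Y ∧
        ∃ h : ((Y : Subgroup G).subgroupOf (Subgroup.normalizer ((Y : Subgroup G) : Set G))).Normal,
          IsCyclic (↥(Subgroup.normalizer ((Y : Subgroup G) : Set G)) ⧸ (Y : Subgroup G).subgroupOf _) ∧
          Nat.card (↥(Subgroup.normalizer ((Y : Subgroup G) : Set G)) ⧸ (Y : Subgroup G).subgroupOf _) = 8) := by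
  have hJ := Cfsg.Agent.H898.J3Final.isoJ3 hone t ht E A hE hE32 hEA eA
  obtain ⟨-, hcK, -⟩ := Cfsg.Agent.H898.J3Cent.base hJ
  have h19p : Fact (Nat.Prime 19) := ⟨by norm_num⟩
  have h17p : Fact (Nat.Prime 17) := ⟨by norm_num⟩
  have f19 : (Nat.card G).factorization 19 = 1 := by
    rw [hcK, show (50232960 : ℕ) = 19 ^ 1 * 2643840 by norm_num, Nat.factorization_mul (by norm_num) (by norm_num),
      Finsupp.add_apply, (show Nat.Prime 19 by norm_num).factorization_pow, Finsupp.single_eq_same,
      Nat.factorization_eq_zero_of_not_dvd (by norm_num)]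
  have f17 : (Nat.card G).factorization 17 = 1 := by
    rw [hcK, show (50232960 : ℕ) = 17 ^ 1 * 2954880 by norm_num, Nat.factorization_mul (by norm_num) (by norm_num),
      Finsupp.add_apply, (show Nat.Prime 17 by norm_num).factorization_pow, Finsupp.single_eq_same,
      Nat.factorization_eq_zero_of_not_dvd (by norm_num)]
  constructor
  · intro X
    have hX : Nat.card ↥(X : Subgroup G) = 19 := by rw [X.card_eq_multiplicity, f19, pow_one]
    obtain ⟨y, hy, hXy⟩ := Cfsg.Agent.H898.J3Final.exists_gen (by norm_num) hX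
    rw [hXy]
    exact Cfsg.Agent.H898.J3Final.main (by norm_num) hy (Cfsg.Agent.H898.J3Cent.card_nineteen hJ hy)
      (Cfsg.Agent.H898.J3Cent.card_normalizer_nineteen hJ hy)
  · intro Y
    have hY : Nat.card ↥(Y : Subgroup G) = 17 := by rw [Y.card_eq_multiplicity, f17, pow_one]
    obtain ⟨y, hy, hYy⟩ := Cfsg.Agent.H898.J3Final.exists_gen (by norm_num) hY
    rw [hYy]
    obtain ⟨h1, h2⟩ := Cfsg.Agent.H898.J3Cent.seventeen hJ hy
    exact Cfsg.Agent.H898.J3Final.main (by norm_num) hy h1 h2


end Cfsg.Agent.S2228
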