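import Cfsg.Statements.S2245
import Cfsg.Agent.H99.SylTwoMain

set_option autoImplicit false
open Cfsg

namespace Cfsg.Agent.S2245

open MulAction Equiv Equiv.Perm Cfsg.Agent.H99
open scoped Pointwise

/-- parity of `C(2 ^ a + m, 2 ^ a)` -/
theorem odd_choose (a : ℕ) : ∀ m : ℕ, m < 2 ^ a → ¬ 2 ∣ (2 ^ a + m).choose (2 ^ a) := by
  haveI : Fact (Nat.Prime 2) := ⟨Nat.prime_two⟩
  induction a with
  | zero =>
    intro m hm
    have : m = 0 := by simpa using hm
    subst this
    simp
  | succ b ih =>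
    intro m hm
    have h := Choose.choose_modEq_choose_mod_mul_choose_div_nat (n := 2 ^ (b + 1) + m)
      (k := 2 ^ (b + 1)) (p := 2)
    have h1 : 2 ^ (b + 1) % 2 = 0 := by rw [pow_succ]; omega
    have h2 : 2 ^ (b + 1) / 2 = 2 ^ b := by rw [pow_succ]; omega
    have h3 : (2 ^ (b + 1) + m) / 2 = 2 ^ b + m / 2 := by rw [pow_succ]; omega
    rw [h1, h2, h3, Nat.choose_zero_right, one_mul] at h
    intro h4
    refine ih (m / 2) (by rw [pow_succ] at hm; omega) ?_
    rw [Nat.dvd_iff_mod_eq_zero] at h4 ⊢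
    have h5 : _ % 2 = _ % 2 := h
    rw [← h5, h4]

theorem cases_n (n : ℕ) (hn : 5 ≤ n) (h : ¬ ∃ k : ℕ, 2 ≤ k ∧ n = 2 ^ k + 1) :
    (¬ 2 ∣ n ∧ ∃ m, ¬ 2 ∣ n.choose m ∧ 2 ≤ m ∧ m + 2 ≤ n) ∨
    (2 ∣ n ∧ ∃ m, ¬ 2 ∣ n.choose m ∧ 1 ≤ m ∧ m + 1 ≤ n ∧ n ≠ 2 * m) ∨
    (∃ a, n = 2 ^ (a + 1) ∧ 8 ≤ n) := by
  set a := Nat.log 2 n with ha
  have h1 : 2 ^ a ≤ n := Nat.pow_log_le_self 2 (by omega)
  have h2 : n < 2 ^ (a + 1) := Nat.lt_pow_succ_log_self (by norm_num) n
  have h3 : 2 ^ (a + 1) = 2 * 2 ^ a := by ring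
  obtain ⟨m, hm⟩ : ∃ m, n = 2 ^ a + m := ⟨n - 2 ^ a, by omega⟩
  have ha2 : 2 ≤ a := by
    by_contra hcon
    have : 2 ^ (a + 1) ≤ 2 ^ 2 := Nat.pow_le_pow_right (by norm_num) (by omega)
    omega
  have h4 : 4 ≤ 2 ^ a := by
    calc 4 = 2 ^ 2 := by norm_num
      _ ≤ 2 ^ a := Nat.pow_le_pow_right (by norm_num) ha2
  have h5 : ¬ 2 ∣ n.choose (2 ^ a) := by
    rw [hm]; exact odd_choose a m (by omega)
  have h6 : 2 ∣ 2 ^ a := dvd_pow_self 2 (by omega)
  by_cases hev : 2 ∣ n
  · by_cases hm0 : m = 0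
    · right; right
      refine ⟨a - 1, ?_, ?_⟩
      · rw [Nat.sub_add_cancel (by omega)]; omega
      · by_contra hcon
        have : a = 2 := by
          by_contra ha3
          have : 2 ^ 3 ≤ 2 ^ a := Nat.pow_le_pow_right (by norm_num) (by omega)
          omega
        rw [this] at hm
        omega
    · right; left
      exact ⟨hev, 2 ^ a, h5, by omega, by omega, by omega⟩
  · left
    refine ⟨hev, 2 ^ a, h5, by omega, ?_⟩
    have : m ≠ 1 := by
      rintro rfl
      exact h ⟨a, ha2, hm⟩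
    omega

section Down

variable {n : ℕ}

/-- an even permutation moving `y` to `w` and fixing `x` -/
theorem three (x y z w : Fin n) (h : [x, y, z, w].Nodup) :
    swap y z * swap y w ∈ alternatingGroup (Fin n) ∧ (swap y z * swap y w) x = x ∧
    (swap y z * swap y w) y = w := by
  simp only [List.nodup_cons, List.mem_cons, List.not_mem_nil, or_false, not_or] at h
  obtain ⟨⟨h01, h02, h03⟩, ⟨h12, h13⟩, h23, -⟩ := h
  refine ⟨?_, ?_, ?_⟩
  · rw [mem_alternatingGroup, Perm.sign_mul, sign_swap h12, sign_swap h13]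
    rfl
  · rw [Perm.mul_apply, swap_apply_of_ne_of_ne h01 h03, swap_apply_of_ne_of_ne h01 h02]
  · rw [Perm.mul_apply, swap_apply_left, swap_apply_of_ne_of_ne (Ne.symm h13) (Ne.symm h23)]

/-- the centralizer of a matching does not contain the alternating group -/
theorem exists_not_comm (hn : 5 ≤ n) (τ : Perm (Fin n)) (h2 : ∀ x, τ x ≠ x) :
    ∃ g ∈ alternatingGroup (Fin n), g * τ ≠ τ * g := by
  have x : Fin n := ⟨0, by omega⟩
  obtain ⟨z, hz⟩ : ∃ w : Fin n, w ∉ ({x, τ x} : Finset (Fin n)) := by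
    by_contra hcon
    push Not at hcon
    have h4 : Finset.univ ⊆ ({x, τ x} : Finset (Fin n)) := fun w _ => hcon w
    have h5 := (Finset.card_le_card h4).trans (Finset.card_le_two)
    rw [Finset.card_univ, Fintype.card_fin] at h5
    omega
  obtain ⟨w, hw⟩ : ∃ w : Fin n, w ∉ ({x, τ x, z} : Finset (Fin n)) := by
    by_contra hcon
    push Not at hcon
    have h4 : Finset.univ ⊆ ({x, τ x, z} : Finset (Fin n)) := fun w _ => hcon w
    have h5 := (Finset.card_le_card h4).trans (Finset.card_le_three)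
    rw [Finset.card_univ, Fintype.card_fin] at h5
    omega
  simp only [Finset.mem_insert, Finset.mem_singleton, not_or] at hz hw
  obtain ⟨g1, g2, g3⟩ := three x (τ x) z w (by
    simp only [List.nodup_cons, List.mem_cons, List.not_mem_nil, or_false, not_or]
    exact ⟨⟨(h2 x).symm, Ne.symm hz.1, Ne.symm hw.1⟩, ⟨Ne.symm hz.2, Ne.symm hw.2.1⟩,
      Ne.symm hw.2.2, by simp⟩)
  refine ⟨_, g1, fun h => ?_⟩
  have h3 := congrArg (fun σ : Perm (Fin n) => σ x) h
  simp only [Perm.mul_apply] at h3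
  simp only [Perm.mul_apply] at g2 g3
  rw [g3, g2] at h3
  exact hw.2.1 h3

/-- the stabilizer of the partition `{s, sᶜ}` -/
def halfStab (s : Finset (Fin n)) : Subgroup (Perm (Fin n)) where
  carrier := {g | g • s = s ∨ g • s = sᶜ}
  one_mem' := Or.inl (one_smul _ _)
  mul_mem' := by
    have hsm : ∀ (g : Perm (Fin n)) (s : Finset (Fin n)), g • sᶜ = (g • s)ᶜ := by
      intro g s
      ext x
      rw [Finset.mem_compl, ← Finset.inv_smul_mem_iff, Finset.mem_compl, Finset.inv_smul_mem_iff]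
    rintro a b (ha | ha) (hb | hb)
    · left; rw [mul_smul, hb, ha]
    · right; rw [mul_smul, hb, hsm, ha]
    · right; rw [mul_smul, hb, ha]
    · left; rw [mul_smul, hb, hsm, ha, compl_compl]
  inv_mem' := by
    have hsm : ∀ (g : Perm (Fin n)) (s : Finset (Fin n)), g • sᶜ = (g • s)ᶜ := by
      intro g s
      ext x
      rw [Finset.mem_compl, ← Finset.inv_smul_mem_iff, Finset.mem_compl, Finset.inv_smul_mem_iff]
    rintro a (ha | ha)
    · left
      exact inv_smul_eq_iff.mpr ha.symm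
    · right
      rw [inv_smul_eq_iff, hsm, ha, compl_compl]

theorem exists_not_half (hn : 8 ≤ n) (s : Finset (Fin n)) (hs : 2 * s.card = n) :
    ∃ g ∈ alternatingGroup (Fin n), g ∉ halfStab s := by
  have hsc : s.card + sᶜ.card = n := by
    rw [Finset.card_add_card_compl, Fintype.card_fin]
  obtain ⟨x, y, hx, hy, hxy⟩ := Finset.one_lt_card_iff.mp (show 1 < s.card by omega)
  obtain ⟨z, w, hz, hw, hzw⟩ := Finset.one_lt_card_iff.mp (show 1 < sᶜ.card by omega)
  rw [Finset.mem_compl] at hz hw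
  obtain ⟨g1, g2, g3⟩ := three x y z w (by
    simp only [List.nodup_cons, List.mem_cons, List.not_mem_nil, or_false, not_or]
    refine ⟨⟨hxy, ?_, ?_⟩, ⟨?_, ?_⟩, hzw, by simp⟩
    · rintro rfl; exact hz hx
    · rintro rfl; exact hw hx
    · rintro rfl; exact hz hy
    · rintro rfl; exact hw hy)
  refine ⟨_, g1, ?_⟩
  rintro (h | h)
  · apply hw
    rw [← h]
    have h3 : (swap y z * swap y w) • y ∈ (swap y z * swap y w) • s :=
      Finset.smul_mem_smul_finset hy
    rwa [Perm.smul_def, g3] at h3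
  · have h3 : (swap y z * swap y w) • x ∈ (swap y z * swap y w) • s :=
      Finset.smul_mem_smul_finset hx
    rw [h, Finset.mem_compl] at h3
    apply h3
    rw [Perm.smul_def, g2]
    exact hx

/-- In a finite group, a proper subgroup containing `R` lies in the unique maximal one. -/
theorem le_of_unique {G : Type*} [Group G] [Finite G] {R M X : Subgroup G}
    (hM : ∀ M' : Subgroup G, IsCoatom M' → R ≤ M' → M' = M) (hRX : R ≤ X) (hX : X ≠ ⊤) :
    X ≤ M := by
  rcases eq_top_or_exists_le_coatom X with h | ⟨M', h1, h2⟩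
  · exact absurd h hX
  · rw [← hM M' h1 (hRX.trans h2)]; exact h2

theorem down_alt (hn : 5 ≤ n) (h : ¬ ∃ k : ℕ, 2 ≤ k ∧ n = 2 ^ k + 1)
    (R : Subgroup (alternatingGroup (Fin n))) (hR : IsPGroup 2 R) :
    ¬ ∃! M : Subgroup (alternatingGroup (Fin n)), IsCoatom M ∧ R ≤ M := by
  haveI : Fact (Nat.Prime 2) := ⟨Nat.prime_two⟩
  rintro ⟨M, ⟨hM1, hM2⟩, hM3⟩
  have huniq : ∀ M' : Subgroup (alternatingGroup (Fin n)), IsCoatom M' → R ≤ M' → M' = M :=
    fun M' h1 h2 => hM3 M' ⟨h1, h2⟩
  have hcn : Nat.card (Fin n) = n := by rw [Nat.card_eq_fintype_card, Fintype.card_fin]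
  rcases cases_n n hn h with ⟨hev, m, hm, hm1, hm2⟩ | ⟨hev, m, hm, hm1, hm2, hm3⟩ | ⟨a, ha, hn8⟩
  · -- `n` odd
    obtain ⟨s, hs, hRs⟩ := exists_set (α := Fin n) R hR m (by rwa [Fintype.card_fin])
    obtain ⟨t, ht, hRt⟩ := exists_set (α := Fin n) R hR 1 (by rwa [Fintype.card_fin, Nat.choose_one_right])
    obtain ⟨x, rfl⟩ := Set.ncard_eq_one.mp ht
    have hsc := Set.ncard_add_ncard_compl s
    rw [hcn, hs] at hsc
    have h1 : IsCoatom (stabilizer (alternatingGroup (Fin n)) s) := by
      apply alternatingGroup.isCoatom_stabilizer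
      · rw [← Set.ncard_pos]; omega
      · rw [← Set.ncard_pos]; omega
      · rw [hcn, hs]; omega
    have h2 : IsCoatom (stabilizer (alternatingGroup (Fin n)) ({x} : Set (Fin n))) := by
      apply alternatingGroup.isCoatom_stabilizer
      · exact Set.singleton_nonempty x
      · rw [← Set.ncard_pos]
        have := Set.ncard_add_ncard_compl ({x} : Set (Fin n))
        rw [hcn, ht] at this
        omega
      · rw [hcn, ht]; omega
    have h3 := (huniq _ h1 hRs).trans (huniq _ h2 hRt).symm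
    have key : ∀ u : Set (Fin n), 1 < u.ncard →
        stabilizer (alternatingGroup (Fin n)) u =
          stabilizer (alternatingGroup (Fin n)) ({x} : Set (Fin n)) → x ∉ u := by
      intro u hu heq hxu
      obtain ⟨b, hb, hbx⟩ := Set.exists_ne_of_one_lt_ncard hu x
      obtain ⟨g, hg, hgx⟩ := alternatingGroup.exists_mem_stabilizer_smul_eq
        (by rw [hcn]; omega) x hxu b hb
      rw [heq] at hg
      have h6 : g • ({x} : Set (Fin n)) = {x} := hg
      rw [Set.smul_set_singleton, Set.singleton_eq_singleton_iff] at h6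
      exact hbx (hgx.symm.trans h6)
    have h4 := key s (by omega) h3
    refine key sᶜ (by omega) ?_ h4
    rw [stabilizer_compl]; exact h3
  · -- `n` even, not a power of 2
    obtain ⟨s, hs, hRs⟩ := exists_set (α := Fin n) R hR m (by rwa [Fintype.card_fin])
    have hsc := Set.ncard_add_ncard_compl s
    rw [hcn, hs] at hsc
    have h1 : IsCoatom (stabilizer (alternatingGroup (Fin n)) s) := by
      apply alternatingGroup.isCoatom_stabilizer
      · rw [← Set.ncard_pos]; omega
      · rw [← Set.ncard_pos]; omega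
      · rw [hcn, hs]; omega
    obtain ⟨m', hm'⟩ := hev
    obtain ⟨τ, hτ1, hτ2, hτ3⟩ := exists_tau (R.map (alternatingGroup (Fin n)).subtype)
      (hR.map _) (m := m') (by omega) (by rw [Fintype.card_fin, hm'])
    set X : Subgroup (alternatingGroup (Fin n)) :=
      (Subgroup.centralizer {τ}).comap (alternatingGroup (Fin n)).subtype with hX
    have hRX : R ≤ X := by
      intro r hr
      rw [hX, Subgroup.mem_comap, Subgroup.mem_centralizer_singleton_iff]
      exact hτ3 _ ⟨r, hr, rfl⟩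
    have hXt : X ≠ ⊤ := by
      intro htop
      obtain ⟨g, hg, hg2⟩ := exists_not_comm hn τ hτ2
      apply hg2
      have : (⟨g, hg⟩ : alternatingGroup (Fin n)) ∈ X := by rw [htop]; trivial
      exact Subgroup.mem_centralizer_singleton_iff.mp this
    have hle := le_of_unique huniq hRX hXt
    rw [← huniq _ h1 hRs] at hle
    obtain ⟨y, hy⟩ : s.Nonempty := by rw [← Set.ncard_pos]; omega
    obtain ⟨z, hz⟩ : sᶜ.Nonempty := by rw [← Set.ncard_pos]; omega
    obtain ⟨g, hg, hg1, hg2⟩ := exists_move' τ hτ1 hτ2 (by rw [Fintype.card_fin]; omega) y z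
    have hgX : (⟨g, hg⟩ : alternatingGroup (Fin n)) ∈ X :=
      Subgroup.mem_centralizer_singleton_iff.mpr hg1
    have h6 : (⟨g, hg⟩ : alternatingGroup (Fin n)) • s = s := hle hgX
    apply hz
    rw [← h6]
    exact ⟨y, hy, hg2⟩
  · -- `n` a power of 2
    obtain ⟨τ, hτ1, hτ2, hτ3⟩ := exists_tau (R.map (alternatingGroup (Fin n)).subtype)
      (hR.map _) (m := 2 ^ a) (Nat.one_le_two_pow) (by rw [Fintype.card_fin, ha]; ring)
    obtain ⟨s, hs, hs2⟩ := exists_half (R.map (alternatingGroup (Fin n)).subtype)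
      (hR.map _) (a := a) (by rw [Fintype.card_fin, ha])
    set X : Subgroup (alternatingGroup (Fin n)) :=
      (Subgroup.centralizer {τ}).comap (alternatingGroup (Fin n)).subtype with hX
    have hRX : R ≤ X := by
      intro r hr
      rw [hX, Subgroup.mem_comap, Subgroup.mem_centralizer_singleton_iff]
      exact hτ3 _ ⟨r, hr, rfl⟩
    have hXt : X ≠ ⊤ := by
      intro htop
      obtain ⟨g, hg, hg2⟩ := exists_not_comm hn τ hτ2
      apply hg2
      have : (⟨g, hg⟩ : alternatingGroup (Fin n)) ∈ X := by rw [htop]; trivial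
      exact Subgroup.mem_centralizer_singleton_iff.mp this
    have hXM := le_of_unique huniq hRX hXt
    set Y : Subgroup (alternatingGroup (Fin n)) :=
      (halfStab s).comap (alternatingGroup (Fin n)).subtype with hY
    have hRY : R ≤ Y := fun r hr => hs2 _ ⟨r, hr, rfl⟩
    have hYt : Y ≠ ⊤ := by
      intro htop
      obtain ⟨g, hg, hg2⟩ := exists_not_half hn8 s (by rw [hs, ha]; ring)
      apply hg2
      have : (⟨g, hg⟩ : alternatingGroup (Fin n)) ∈ Y := by rw [htop]; trivial
      exact this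
    have hYM := le_of_unique huniq hRY hYt
    apply hM1.1
    refine alt_top τ hτ1 hτ2 (by rw [Fintype.card_fin]; exact hn8) (s : Set (Fin n))
      (by rw [Set.ncard_coe_finset, hs, Fintype.card_fin, ha]; ring) M ?_ ?_
    · intro g hg
      apply hYM
      left
      have h6 : (g : Perm (Fin n)) • (s : Set (Fin n)) = (s : Set (Fin n)) := hg
      apply Finset.coe_injective
      rw [Finset.coe_smul_finset]
      exact h6
    · intro g hg
      exact hXM (Subgroup.mem_centralizer_singleton_iff.mpr hg)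

theorem down_sym (hn : 5 ≤ n) (h : ¬ ∃ k : ℕ, 2 ≤ k ∧ n = 2 ^ k + 1)
    (R : Subgroup (Perm (Fin n))) (hR : IsPGroup 2 R) :
    ¬ ∃! M : Subgroup (Perm (Fin n)), IsCoatom M ∧ R ≤ M := by
  haveI : Fact (Nat.Prime 2) := ⟨Nat.prime_two⟩
  rintro ⟨M, ⟨hM1, hM2⟩, hM3⟩
  have huniq : ∀ M' : Subgroup (Perm (Fin n)), IsCoatom M' → R ≤ M' → M' = M :=
    fun M' h1 h2 => hM3 M' ⟨h1, h2⟩
  have hcn : Nat.card (Fin n) = n := by rw [Nat.card_eq_fintype_card, Fintype.card_fin]
  rcases cases_n n hn h with ⟨hev, m, hm, hm1, hm2⟩ | ⟨hev, m, hm, hm1, hm2, hm3⟩ | ⟨a, ha, hn8⟩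
  · -- `n` odd
    obtain ⟨s, hs, hRs⟩ := exists_set (α := Fin n) R hR m (by rwa [Fintype.card_fin])
    obtain ⟨t, ht, hRt⟩ := exists_set (α := Fin n) R hR 1 (by rwa [Fintype.card_fin, Nat.choose_one_right])
    obtain ⟨x, rfl⟩ := Set.ncard_eq_one.mp ht
    have hsc := Set.ncard_add_ncard_compl s
    rw [hcn, hs] at hsc
    have h1 : IsCoatom (stabilizer (Perm (Fin n)) s) := by
      apply Equiv.Perm.isCoatom_stabilizer
      · rw [← Set.ncard_pos]; omega
      · rw [← Set.ncard_pos]; omega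
      · rw [hcn, hs]; omega
    have h2 : IsCoatom (stabilizer (Perm (Fin n)) ({x} : Set (Fin n))) := by
      apply Equiv.Perm.isCoatom_stabilizer
      · exact Set.singleton_nonempty x
      · rw [← Set.ncard_pos]
        have := Set.ncard_add_ncard_compl ({x} : Set (Fin n))
        rw [hcn, ht] at this
        omega
      · rw [hcn, ht]; omega
    have h3 := (huniq _ h1 hRs).trans (huniq _ h2 hRt).symm
    have key : ∀ u : Set (Fin n), 1 < u.ncard →
        stabilizer (Perm (Fin n)) u =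
          stabilizer (Perm (Fin n)) ({x} : Set (Fin n)) → x ∉ u := by
      intro u hu heq hxu
      obtain ⟨b, hb, hbx⟩ := Set.exists_ne_of_one_lt_ncard hu x
      obtain ⟨g, hg, hgx⟩ := Equiv.Perm.exists_mem_stabilizer_smul_eq x hxu b hb
      rw [heq] at hg
      have h6 : g • ({x} : Set (Fin n)) = {x} := hg
      rw [Set.smul_set_singleton, Set.singleton_eq_singleton_iff] at h6
      exact hbx (hgx.symm.trans h6)
    have h4 := key s (by omega) h3
    refine key sᶜ (by omega) ?_ h4
    rw [stabilizer_compl]; exact h3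
  · -- `n` even, not a power of 2
    obtain ⟨s, hs, hRs⟩ := exists_set (α := Fin n) R hR m (by rwa [Fintype.card_fin])
    have hsc := Set.ncard_add_ncard_compl s
    rw [hcn, hs] at hsc
    have h1 : IsCoatom (stabilizer (Perm (Fin n)) s) := by
      apply Equiv.Perm.isCoatom_stabilizer
      · rw [← Set.ncard_pos]; omega
      · rw [← Set.ncard_pos]; omega
      · rw [hcn, hs]; omega
    obtain ⟨m', hm'⟩ := hev
    obtain ⟨τ, hτ1, hτ2, hτ3⟩ := exists_tau R hR (m := m') (by omega)
      (by rw [Fintype.card_fin, hm'])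
    have hRX : R ≤ Subgroup.centralizer {τ} := by
      intro r hr
      rw [Subgroup.mem_centralizer_singleton_iff]
      exact hτ3 _ hr
    have hXt : Subgroup.centralizer {τ} ≠ ⊤ := by
      intro htop
      obtain ⟨g, hg, hg2⟩ := exists_not_comm hn τ hτ2
      apply hg2
      have : g ∈ Subgroup.centralizer {τ} := by rw [htop]; trivial
      exact Subgroup.mem_centralizer_singleton_iff.mp this
    have hle := le_of_unique huniq hRX hXt
    rw [← huniq _ h1 hRs] at hle
    obtain ⟨y, hy⟩ : s.Nonempty := by rw [← Set.ncard_pos]; omega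
    obtain ⟨z, hz⟩ : sᶜ.Nonempty := by rw [← Set.ncard_pos]; omega
    obtain ⟨g, hg, hg1, hg2⟩ := exists_move' τ hτ1 hτ2 (by rw [Fintype.card_fin]; omega) y z
    have hgX : g ∈ Subgroup.centralizer {τ} :=
      Subgroup.mem_centralizer_singleton_iff.mpr hg1
    have h6 : g • s = s := hle hgX
    apply hz
    rw [← h6]
    exact ⟨y, hy, hg2⟩
  · -- `n` a power of 2
    obtain ⟨τ, hτ1, hτ2, hτ3⟩ := exists_tau R hR (m := 2 ^ a) (Nat.one_le_two_pow)
      (by rw [Fintype.card_fin, ha]; ring)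
    obtain ⟨s, hs, hs2⟩ := exists_half R hR (a := a) (by rw [Fintype.card_fin, ha])
    have hRX : R ≤ Subgroup.centralizer {τ} := by
      intro r hr
      rw [Subgroup.mem_centralizer_singleton_iff]
      exact hτ3 _ hr
    have hXt : Subgroup.centralizer {τ} ≠ ⊤ := by
      intro htop
      obtain ⟨g, hg, hg2⟩ := exists_not_comm hn τ hτ2
      apply hg2
      have : g ∈ Subgroup.centralizer {τ} := by rw [htop]; trivial
      exact Subgroup.mem_centralizer_singleton_iff.mp this
    have hXM := le_of_unique huniq hRX hXt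
    have hRY : R ≤ halfStab s := fun r hr => hs2 _ hr
    have hYt : halfStab s ≠ ⊤ := by
      intro htop
      obtain ⟨g, hg, hg2⟩ := exists_not_half hn8 s (by rw [hs, ha]; ring)
      apply hg2
      rw [htop]; trivial
    have hYM := le_of_unique huniq hRY hYt
    have htop : M.comap (alternatingGroup (Fin n)).subtype = ⊤ := by
      refine alt_top τ hτ1 hτ2 (by rw [Fintype.card_fin]; exact hn8) (s : Set (Fin n))
        (by rw [Set.ncard_coe_finset, hs, Fintype.card_fin, ha]; ring) _ ?_ ?_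
      · intro g hg
        apply hYM
        left
        have h6 : (g : Perm (Fin n)) • (s : Set (Fin n)) = (s : Set (Fin n)) := hg
        apply Finset.coe_injective
        rw [Finset.coe_smul_finset]
        exact h6
      · intro g hg
        exact hXM (Subgroup.mem_centralizer_singleton_iff.mpr hg)
    have hAM : alternatingGroup (Fin n) ≤ M := by
      intro g hg
      have : (⟨g, hg⟩ : alternatingGroup (Fin n)) ∈ M.comap (alternatingGroup (Fin n)).subtype := by
        rw [htop]; trivial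
      exact this
    -- a transposition in `M`
    obtain ⟨x, y, hx, hy, hxy⟩ := Finset.one_lt_card_iff.mp (show 1 < s.card by
      rw [hs]
      have : 2 ^ (a + 1) = 2 * 2 ^ a := by ring
      omega)
    have hsw : swap x y ∈ M := by
      apply hYM
      left
      have h7 : swap x y ∈ stabilizer (Perm (Fin n)) (s : Set (Fin n)) :=
        swap_mem_stabilizer hx hy
      apply Finset.coe_injective
      rw [Finset.coe_smul_finset]
      exact h7
    apply hM1.1
    rw [eq_top_iff]
    intro g _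
    rcases Int.units_eq_one_or (sign g) with hsg | hsg
    · exact hAM hsg
    · have h8 : g * swap x y ∈ alternatingGroup (Fin n) := by
        rw [mem_alternatingGroup, Perm.sign_mul, hsg, sign_swap hxy]; rfl
      have h9 := M.mul_mem (hAM h8) hsw
      rwa [mul_assoc, swap_mul_self, mul_one] at h9

end Down

section Up

variable {n k : ℕ}

theorem up_alt (hk : 2 ≤ k) (hn : n = 2 ^ k + 1) (R : Sylow 2 (alternatingGroup (Fin n))) :
    ∃! M : Subgroup (alternatingGroup (Fin n)),
      IsCoatom M ∧ (R : Subgroup (alternatingGroup (Fin n))) ≤ M := by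
  haveI : Fact (Nat.Prime 2) := ⟨Nat.prime_two⟩
  have h4 : 4 ≤ 2 ^ k := by
    calc 4 = 2 ^ 2 := by norm_num
      _ ≤ 2 ^ k := Nat.pow_le_pow_right (by norm_num) hk
  have h6 : 2 ∣ 2 ^ k := dvd_pow_self 2 (by omega)
  have hcn : Nat.card (Fin n) = n := by rw [Nat.card_eq_fintype_card, Fintype.card_fin]
  obtain ⟨t, ht, hRt⟩ := exists_set (α := Fin n)
    (R : Subgroup (alternatingGroup (Fin n))) R.isPGroup' 1
    (by rw [Fintype.card_fin, Nat.choose_one_right]; omega)
  obtain ⟨x, rfl⟩ := Set.ncard_eq_one.mp ht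
  have h2 : IsCoatom (stabilizer (alternatingGroup (Fin n)) ({x} : Set (Fin n))) := by
    apply alternatingGroup.isCoatom_stabilizer
    · exact Set.singleton_nonempty x
    · rw [← Set.ncard_pos]
      have := Set.ncard_add_ncard_compl ({x} : Set (Fin n))
      rw [hcn, ht] at this
      omega
    · rw [hcn, ht]; omega
  refine ⟨_, ⟨h2, hRt⟩, ?_⟩
  rintro M ⟨hM1, hM2⟩
  by_contra hne
  have hmove : ∃ g ∈ M, (alternatingGroup (Fin n)).subtype g x ≠ x := by
    by_contra hcon
    push Not at hcon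
    apply hne
    have hle : M ≤ stabilizer (alternatingGroup (Fin n)) ({x} : Set (Fin n)) := by
      intro g hg
      rw [mem_stabilizer_iff, Set.smul_set_singleton]
      have h5 : g • x = x := hcon g hg
      rw [h5]
    by_contra hne2
    exact h2.1 (hM1.2 _ (lt_of_le_of_ne hle hne2))
  have hfix : ∀ r ∈ (R : Subgroup (alternatingGroup (Fin n))),
      (alternatingGroup (Fin n)).subtype r x = x := by
    intro r hr
    have h5 : r • ({x} : Set (Fin n)) = {x} := hRt hr
    rw [Set.smul_set_singleton, Set.singleton_eq_singleton_iff] at h5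
    exact h5
  have h := up_core hk (by rw [Fintype.card_fin, hn]) (alternatingGroup (Fin n)).subtype
    (by rw [Subgroup.range_subtype]) (Subgroup.subtype_injective _) R M hM2 x hfix hmove
  apply hM1.1
  rw [eq_top_iff]
  intro g _
  obtain ⟨g', hg', hgg⟩ := h g.2
  have : g' = g := Subtype.ext hgg
  rwa [← this]

theorem up_sym (hk : 2 ≤ k) (hn : n = 2 ^ k + 1) (R : Sylow 2 (Perm (Fin n))) :
    ∃! M : Subgroup (Perm (Fin n)),
      IsCoatom M ∧ (R : Subgroup (Perm (Fin n))) ≤ M := by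
  haveI : Fact (Nat.Prime 2) := ⟨Nat.prime_two⟩
  have h4 : 4 ≤ 2 ^ k := by
    calc 4 = 2 ^ 2 := by norm_num
      _ ≤ 2 ^ k := Nat.pow_le_pow_right (by norm_num) hk
  have h6 : 2 ∣ 2 ^ k := dvd_pow_self 2 (by omega)
  have hcn : Nat.card (Fin n) = n := by rw [Nat.card_eq_fintype_card, Fintype.card_fin]
  obtain ⟨t, ht, hRt⟩ := exists_set (α := Fin n)
    (R : Subgroup (Perm (Fin n))) R.isPGroup' 1
    (by rw [Fintype.card_fin, Nat.choose_one_right]; omega)
  obtain ⟨x, rfl⟩ := Set.ncard_eq_one.mp ht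
  have h2 : IsCoatom (stabilizer (Perm (Fin n)) ({x} : Set (Fin n))) := by
    apply Equiv.Perm.isCoatom_stabilizer
    · exact Set.singleton_nonempty x
    · rw [← Set.ncard_pos]
      have := Set.ncard_add_ncard_compl ({x} : Set (Fin n))
      rw [hcn, ht] at this
      omega
    · rw [hcn, ht]; omega
  refine ⟨_, ⟨h2, hRt⟩, ?_⟩
  rintro M ⟨hM1, hM2⟩
  by_contra hne
  have hmove : ∃ g ∈ M, MonoidHom.id (Perm (Fin n)) g x ≠ x := by
    by_contra hcon
    push Not at hcon
    apply hne
    have hle : M ≤ stabilizer (Perm (Fin n)) ({x} : Set (Fin n)) := by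
      intro g hg
      rw [mem_stabilizer_iff, Set.smul_set_singleton]
      have h5 : g • x = x := hcon g hg
      rw [h5]
    by_contra hne2
    exact h2.1 (hM1.2 _ (lt_of_le_of_ne hle hne2))
  have hfix : ∀ r ∈ (R : Subgroup (Perm (Fin n))),
      MonoidHom.id (Perm (Fin n)) r x = x := by
    intro r hr
    have h5 : r • ({x} : Set (Fin n)) = {x} := hRt hr
    rw [Set.smul_set_singleton, Set.singleton_eq_singleton_iff] at h5
    exact h5
  have h := up_core hk (by rw [Fintype.card_fin, hn]) (MonoidHom.id (Perm (Fin n)))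
    (fun g _ => ⟨g, rfl⟩) (fun _ _ h => h) R M hM2 x hfix hmove
  rw [Subgroup.map_id] at h
  haveI : Nontrivial (Fin n) := Fin.nontrivial_iff_two_le.mpr (by omega)
  have hidx : M.index ∣ 2 := by
    have h7 := Subgroup.index_dvd_of_le h
    rwa [alternatingGroup.index_eq_two] at h7
  rcases (Nat.dvd_prime Nat.prime_two).mp hidx with h8 | h8
  · exact hM1.1 (Subgroup.index_eq_one.mp h8)
  · apply R.not_dvd_index
    have h9 := Subgroup.index_dvd_of_le hM2
    rwa [h8] at h9

end Up

/-- For n ≥ 5 with n ≠ 6, a Sylow 2-subgroup of the alternating group A_n lies in exactly one maximal subgroup of A_n if and only if n = 2^k + 1 for some k ≥ 2; the same holds for the symmetric group S_n. -/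
theorem result (n : ℕ) (hn : 5 ≤ n) (h6 : n ≠ 6) :
    ((∀ R : Sylow 2 ↥(alternatingGroup (Fin n)), (∃! M : Subgroup ↥(alternatingGroup (Fin n)), IsCoatom M ∧ (R : Subgroup ↥(alternatingGroup (Fin n))) ≤ M) ↔ ∃ k : ℕ, 2 ≤ k ∧ n = 2 ^ k + 1) ∧
    (∀ R : Sylow 2 (Equiv.Perm (Fin n)), (∃! M : Subgroup (Equiv.Perm (Fin n)), IsCoatom M ∧ (R : Subgroup (Equiv.Perm (Fin n))) ≤ M) ↔ ∃ k : ℕ, 2 ≤ k ∧ n = 2 ^ k + 1)) := by
  refine ⟨fun R => ⟨fun h => ?_, ?_⟩, fun R => ⟨fun h => ?_, ?_⟩⟩
  · by_contra hcon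
    exact down_alt hn hcon _ R.isPGroup' h
  · rintro ⟨k, hk, hnk⟩
    exact up_alt hk hnk R
  · by_contra hcon
    exact down_sym hn hcon _ R.isPGroup' h
  · rintro ⟨k, hk, hnk⟩
    exact up_sym hk hnk R

end Cfsg.Agent.S2245
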