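import Cfsg.Statements.S2257
import Cfsg.Agent.H102.PslEven

set_option autoImplicit false
open Cfsg

namespace Cfsg.Agent.S2257

open MulAction
open Cfsg.Agent.H102.PslAct Cfsg.Agent.H102.PslEven
open Cfsg.Agent.H102.RankOneSol (Hyp Free Fix1 Fix2 IsT phi)

attribute [local instance] act

/-- Let G = PSL_2(F) with F a field of order q = 2^p, p prime, and for x ∈ G call the solubilizer of x the set of y ∈ G such that x and y generate a solvable subgroup. Then the solubilizer of an involution has 3q(q − 1) elements; that of a non-identity element of order dividing q − 1 has 2q(q − 1) elements; and that of a non-identity element of order dividing q + 1 has 2(q + 1) elements. -/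
theorem result (p : ℕ) (hp : p.Prime) {F : Type*} [Field F] [Fintype F]
    (hF : Fintype.card F = 2 ^ p) (x : Matrix.ProjectiveSpecialLinearGroup (Fin 2) F) :
    (orderOf x = 2 → Nat.card {y : Matrix.ProjectiveSpecialLinearGroup (Fin 2) F // Group.IsSolvable ↥(Subgroup.closure ({x, y} : Set (Matrix.ProjectiveSpecialLinearGroup (Fin 2) F)))} = 3 * 2 ^ p * (2 ^ p - 1)) ∧
    (x ≠ 1 → orderOf x ∣ 2 ^ p - 1 → Nat.card {y : Matrix.ProjectiveSpecialLinearGroup (Fin 2) F // Group.IsSolvable ↥(Subgroup.closure ({x, y} : Set (Matrix.ProjectiveSpecialLinearGroup (Fin 2) F)))} = 2 * 2 ^ p * (2 ^ p - 1)) ∧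
    (x ≠ 1 → orderOf x ∣ 2 ^ p + 1 → Nat.card {y : Matrix.ProjectiveSpecialLinearGroup (Fin 2) F // Group.IsSolvable ↥(Subgroup.closure ({x, y} : Set (Matrix.ProjectiveSpecialLinearGroup (Fin 2) F)))} = 2 * (2 ^ p + 1)) := by
  classical
  haveI := finite_psl F
  have hp1 : 1 ≤ p := hp.one_lt.le
  have H := hyp hp1 hF
  have he : Even (Fintype.card F) := by
    rw [hF]
    exact Nat.even_pow.2 ⟨even_two, by omega⟩
  have h4 : 4 ≤ 2 ^ p := by
    calc 4 = 2 ^ 2 := by norm_num
      _ ≤ 2 ^ p := Nat.pow_le_pow_right (by norm_num) hp.two_le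
  have hd : 1 < Fintype.card F - 1 := by rw [hF]; omega
  have hN := norm_free (F := F) he
  have hcopr : Nat.Coprime (2 ^ p - 1) (2 ^ p + 1) := by
    have h1 : Nat.gcd (2 ^ p - 1) (2 ^ p + 1) ∣ 2 := by
      have ha := Nat.gcd_dvd_left (2 ^ p - 1) (2 ^ p + 1)
      have hb := Nat.gcd_dvd_right (2 ^ p - 1) (2 ^ p + 1)
      have := Nat.dvd_sub hb ha
      have e : 2 ^ p + 1 - (2 ^ p - 1) = 2 := by omega
      rwa [e] at this
    have h2 : Odd (2 ^ p + 1) := by
      rw [← hF]; exact he.add_one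
    have h3 : Odd (Nat.gcd (2 ^ p - 1) (2 ^ p + 1)) :=
      Odd.of_dvd_nat h2 (Nat.gcd_dvd_right _ _)
    rcases (Nat.dvd_prime Nat.prime_two).1 h1 with h | h
    · exact h
    · rw [h] at h3
      exact absurd h3 (by decide)
  have hfree : ∀ y : PSL F, Free (OnePoint F) y → orderOf y ∣ 2 ^ p + 1 := by
    intro y hy
    obtain ⟨a, s, T, hc⟩ := cent_free he hy
    have hmem : y ∈ Subgroup.zpowers a := by
      rw [← hc]; exact Subgroup.mem_centralizer_singleton_iff.2 rfl
    have := orderOf_dvd_natCard (⟨y, hmem⟩ : Subgroup.zpowers a)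
    rwa [Subgroup.orderOf_mk, Nat.card_zpowers, T.ord, hF] at this
  have hfix1 : ∀ y : PSL F, y ≠ 1 → ∀ a : OnePoint F, Fix1 y a → ¬ Odd (orderOf y) := by
    intro y hy a ha hodd
    obtain ⟨k, hk⟩ := H.exists_pow_of_fix1 ha
    have h1 := orderOf_dvd_of_pow_eq_one hk
    have h2 : Nat.Coprime (orderOf y) (2 ^ k) := by
      apply Nat.Coprime.pow_right
      exact Nat.coprime_two_right.mpr hodd
    have h3 := Nat.dvd_gcd dvd_rfl h1
    rw [h2] at h3
    exact hy (orderOf_eq_one_iff.1 (Nat.dvd_one.1 h3))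
  have hone : ∀ y : PSL F, orderOf y ∣ 2 ^ p - 1 → orderOf y ∣ 2 ^ p + 1 → y = 1 := by
    intro y h1 h2
    have h3 := Nat.dvd_gcd h1 h2
    rw [hcopr] at h3
    exact orderOf_eq_one_iff.1 (Nat.dvd_one.1 h3)
  refine ⟨?_, ?_, ?_⟩
  · intro hx
    have hx1 : x ≠ 1 := by
      rintro rfl
      rw [orderOf_one] at hx
      omega
    have hxx : x * x = 1 := by
      have h5 := pow_orderOf_eq_one x
      rw [hx, sq] at h5
      exact h5
    obtain ⟨a, ha⟩ := H.fix1_of_pow (k := 1) hx1 (by rw [pow_one, sq, hxx])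
    have h1 := H.card_sol_one hd hN ha
    have h2 := H.card_two_of_sq hd ha hxx
    have h3 := two_mul_phi hp1 hF hx
    have h5 : phi (OnePoint F) x = Nat.card {t : PSL F // Free (OnePoint F) t ∧
          x ∈ Subgroup.normalizer ((Subgroup.centralizer ({t} : Set (PSL F)) : Subgroup (PSL F)) : Set (PSL F))} := rfl
    rw [← h5, pow_one] at h1
    refine h1.trans ?_
    rw [h2, h3, hF]
    obtain ⟨k, hk⟩ : ∃ k, 2 ^ p = k + 2 := ⟨2 ^ p - 2, by omega⟩
    rw [hk]
    have e1 : k + 2 - 1 = k + 1 := by omega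
    have e2 : k + 1 - 1 = k := by omega
    rw [e1, e2]
    ring
  · intro hx hord
    rcases H.fix_cases hx with h | ⟨a, ha⟩ | ⟨a, b, hab, hf⟩
    · exact absurd (hone x hord (hfree x h)) hx
    · exfalso
      apply hfix1 x hx a ha
      apply Odd.of_dvd_nat _ hord
      rw [← hF]
      exact H.odd_d
    · refine (H.card_sol_two hd (H.card_normalizer hd hN) hx hab ((hf a).2 (Or.inl rfl))
        ((hf b).2 (Or.inr rfl))).trans ?_
      rw [hF]
      ring
  · intro hx hord
    rcases H.fix_cases hx with h | ⟨a, ha⟩ | ⟨a, b, hab, hf⟩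
    · refine (H.card_sol_free (H.card_normalizer hd hN) h).trans ?_
      rw [hN x h]
      obtain ⟨a, s, T, hc⟩ := cent_free he h
      rw [hc, Nat.card_zpowers, T.ord, hF]
      ring
    · exfalso
      apply hfix1 x hx a ha
      apply Odd.of_dvd_nat _ hord
      rw [← hF]
      exact he.add_one
    · exfalso
      apply hx
      apply hone x _ hord
      have := H.orderOf_dvd_d hab ((hf a).2 (Or.inl rfl)) ((hf b).2 (Or.inr rfl))
      rwa [hF] at this

end Cfsg.Agent.S2257
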