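import Cfsg.Statements.S2258
import Cfsg.Agent.H560.Sol3D

set_option autoImplicit false
open Cfsg

namespace Cfsg.Agent.S2258

open Cfsg.Agent.H560.Sol3 Cfsg.Agent.H102.PslAct
open Cfsg.Agent.H102.RankOneSol (Free Fix1 Fix2)

attribute [local instance] act

/-- Let G = PSL_2(F) with F a field of order q = 3^p, p an odd prime, and for x ∈ G call the solubilizer of x the set of y ∈ G such that x and y generate a solvable subgroup. Then the solubilizer of an involution has q(q + 1) elements; that of an element of order 3 has q(q + 5)/2 elements; that of an element of order neither 1 nor 2 dividing q − 1 has q(q − 1) elements; and that of an element of order neither 1 nor 2 dividing q + 1 has q + 1 elements. -/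
theorem result (p : ℕ) (hp : p.Prime) (hodd : Odd p) {F : Type*} [Field F] [Fintype F]
    (hF : Fintype.card F = 3 ^ p) (x : Matrix.ProjectiveSpecialLinearGroup (Fin 2) F) :
    (orderOf x = 2 → Nat.card {y : Matrix.ProjectiveSpecialLinearGroup (Fin 2) F // Group.IsSolvable ↥(Subgroup.closure ({x, y} : Set (Matrix.ProjectiveSpecialLinearGroup (Fin 2) F)))} = 3 ^ p * (3 ^ p + 1)) ∧
    (orderOf x = 3 → 2 * Nat.card {y : Matrix.ProjectiveSpecialLinearGroup (Fin 2) F // Group.IsSolvable ↥(Subgroup.closure ({x, y} : Set (Matrix.ProjectiveSpecialLinearGroup (Fin 2) F)))} = 3 ^ p * (3 ^ p + 5)) ∧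
    (x ≠ 1 → orderOf x ≠ 2 → orderOf x ∣ 3 ^ p - 1 → Nat.card {y : Matrix.ProjectiveSpecialLinearGroup (Fin 2) F // Group.IsSolvable ↥(Subgroup.closure ({x, y} : Set (Matrix.ProjectiveSpecialLinearGroup (Fin 2) F)))} = 3 ^ p * (3 ^ p - 1)) ∧
    (x ≠ 1 → orderOf x ≠ 2 → orderOf x ∣ 3 ^ p + 1 → Nat.card {y : Matrix.ProjectiveSpecialLinearGroup (Fin 2) F // Group.IsSolvable ↥(Subgroup.closure ({x, y} : Set (Matrix.ProjectiveSpecialLinearGroup (Fin 2) F)))} = 3 ^ p + 1) := by
  classical
  have hp3 : 3 ≤ p := by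
    have h2 := hp.two_le
    rcases hodd with ⟨k, hk⟩
    omega
  have Q : Q3 F := by
    haveI : Fact (Nat.Prime 3) := ⟨Nat.prime_three⟩
    refine ⟨?_, ?_, ?_, ?_⟩
    · have h1 : ((Fintype.card F : ℕ) : F) = 0 := FiniteField.cast_card_eq_zero F
      rw [hF] at h1
      push_cast at h1
      exact pow_eq_zero_iff (by omega) |>.1 h1
    · rw [hF]
      exact dvd_pow_self 3 (by omega)
    · rw [hF]
      obtain ⟨k, rfl⟩ := hodd
      rw [pow_succ, pow_mul, Nat.mul_mod, Nat.pow_mod]
      norm_num
    · rw [hF]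
      calc 3 = 3 ^ 1 := by norm_num
        _ < 3 ^ p := Nat.pow_lt_pow_right (by norm_num) (by omega)
  rw [← hF]
  have hmod := Q.mod
  have hdvd := Q.dvd
  refine ⟨fun h => ?_, fun h => ?_, fun h1 h2 h3 => ?_, fun h1 h2 h3 => ?_⟩
  · apply card_sol_inv Q
    constructor
    · rintro rfl
      rw [orderOf_one] at h
      omega
    · have := pow_orderOf_eq_one x
      rwa [h, sq] at this
  · obtain ⟨a, ha⟩ := fix1_of_ord Q h
    exact card_sol_fix1 Q ha
  · rcases fix_cases h1 with h | ⟨a, h⟩ | ⟨a, b, hab, h⟩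
    · exfalso
      have h4 := ord_free Q h
      have h5 : orderOf x ∣ 2 := by
        have h6 : orderOf x ∣ Fintype.card F + 1 := h4.trans ⟨2, by omega⟩
        have h7 := Nat.dvd_sub h6 h3
        have e : Fintype.card F + 1 - (Fintype.card F - 1) = 2 := by omega
        rwa [e] at h7
      rcases (Nat.dvd_prime Nat.prime_two).1 h5 with h6 | h6
      · exact h1 (orderOf_eq_one_iff.1 h6)
      · exact h2 h6
    · exfalso
      rw [fix1_ord Q h] at h3
      omega
    · exact card_sol_fix2 Q hab h
  · rcases fix_cases h1 with h | ⟨a, h⟩ | ⟨a, b, hab, h⟩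
    · obtain ⟨a, s, T, hx⟩ := exists_tor_of_free Q.hO h
      have hxx : x * x ≠ 1 := by
        intro h5
        exact h2 (orderOf_eq_prime (by rw [sq, h5]) h1)
      exact card_sol_free Q T hx hxx
    · exfalso
      rw [fix1_ord Q h] at h3
      omega
    · exfalso
      have h4 := ord_two Q.hO hab ((h a).2 (Or.inl rfl)) ((h b).2 (Or.inr rfl))
      have h5 : orderOf x ∣ 2 := by
        have h6 : orderOf x ∣ Fintype.card F - 1 := h4.trans ⟨2, by omega⟩
        have h7 := Nat.dvd_sub h3 h6
        have e : Fintype.card F + 1 - (Fintype.card F - 1) = 2 := by omega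
        rwa [e] at h7
      rcases (Nat.dvd_prime Nat.prime_two).1 h5 with h6 | h6
      · exact h1 (orderOf_eq_one_iff.1 h6)
      · exact h2 h6

end Cfsg.Agent.S2258
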