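import Cfsg.Statements.S2281
-- import your own Cfsg.Agent.* helpers here
import Cfsg.Agent.H107.SpEvenMain

set_option autoImplicit false
open Cfsg

namespace Cfsg.Agent.S2281

open Cfsg.Agent.H107.SpReg Cfsg.Agent.H107.SpCyc Cfsg.Agent.H107.SpOdd
  Cfsg.Agent.H107.SpEvenMain in
/-- Let F be a finite field and n ≥ 2, excluding the case n = 2 with F of two elements (where the group is not quasisimple). Then the symplectic group Sp_2n(F) is generated by three conjugate regular unipotent elements: there are u ∈ Sp_2n(F) with u − 1 nilpotent and (u − 1)^(2n−1) ≠ 0, and g, h ∈ Sp_2n(F), such that u, g u g⁻¹ and h u h⁻¹ generate Sp_2n(F). -/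
theorem result {F : Type*} [Field F] [Fintype F] (n : ℕ) (hn : 2 ≤ n) (h22 : ¬ (n = 2 ∧ Fintype.card F = 2)) :
    ∃ u g h : Matrix.symplecticGroup (Fin n) F,
      IsNilpotent ((u : Matrix (Fin n ⊕ Fin n) (Fin n ⊕ Fin n) F) - 1) ∧
      ((u : Matrix (Fin n ⊕ Fin n) (Fin n ⊕ Fin n) F) - 1) ^ (2 * n - 1) ≠ 0 ∧
      Subgroup.closure ({u, g * u * g⁻¹, h * u * h⁻¹} : Set (Matrix.symplecticGroup (Fin n) F)) = ⊤ := by
  obtain ⟨p, hp⟩ := CharP.exists F
  have hpp : Fact p.Prime := ⟨CharP.char_is_prime F p⟩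
  let f : ZMod p →+* F := ZMod.castHom (dvd_refl p) F
  have h1 : ((mapSp f (w₀ n (ZMod p)) : Matrix (Fin n ⊕ Fin n) (Fin n ⊕ Fin n) F) - 1) ^ (2 * n)
      = 0 := by
    rw [sub_one_map]
    have h : ((w₀ n (ZMod p) : Matrix (Fin n ⊕ Fin n) (Fin n ⊕ Fin n) (ZMod p)) - 1) ^ (2 * n)
        = 0 := Nw_pow_eq_zero
    rw [h]
    exact Matrix.map_zero f (map_zero f)
  have h2 : ((mapSp f (w₀ n (ZMod p)) : Matrix (Fin n ⊕ Fin n) (Fin n ⊕ Fin n) F) - 1) ^
      (2 * n - 1) ≠ 0 := by
    intro h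
    have h3 := sub_one_map_io f (w₀ n (ZMod p)) (2 * n - 1) (a₀ n (ZMod p))
    rw [h, Matrix.zero_mulVec] at h3
    exact io_ne_zero f (Nw_pow_e_ne_zero hn) h3.symm
  suffices h3 : ∃ g h : Matrix.symplecticGroup (Fin n) F,
      Subgroup.closure ({mapSp f (w₀ n (ZMod p)), g * mapSp f (w₀ n (ZMod p)) * g⁻¹,
        h * mapSp f (w₀ n (ZMod p)) * h⁻¹} : Set (Matrix.symplecticGroup (Fin n) F)) = ⊤ by
    obtain ⟨g, h, hgh⟩ := h3
    exact ⟨_, g, h, ⟨_, h1⟩, h2, hgh⟩
  by_cases hp2 : p = 2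
  · subst hp2
    refine main_even f hn ?_
    by_cases hn3 : 3 ≤ n
    · exact Or.inl hn3
    · right
      by_contra hcon
      push Not at hcon
      apply h22
      refine ⟨by omega, ?_⟩
      classical
      have h4 : (Finset.univ : Finset F) ⊆ {0, 1} := by
        intro x _
        rw [Finset.mem_insert, Finset.mem_singleton]
        by_cases hx : x = 0
        · exact Or.inl hx
        · exact Or.inr (hcon x hx)
      have h5 := Finset.card_le_card h4
      rw [Finset.card_univ] at h5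
      have h6 := Finset.card_le_two (a := (0 : F)) (b := 1)
      have h7 : 1 < Fintype.card F := Fintype.one_lt_card
      omega
  · have hp3 : 3 ≤ p := by
      have := hpp.out.two_le
      omega
    exact main_odd hp3 f hn

end Cfsg.Agent.S2281
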