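import Cfsg.Statements.S2282
import Cfsg.Agent.S2283
import Cfsg.Agent.H108.TwoFive

set_option autoImplicit false
open Cfsg

namespace Cfsg.Agent.S2282

/-- Let F be a field with q² elements, n ≥ 3 odd with (n, q) ≠ (3, 2), and SU_n(q) the special unitary group of the standard Hermitian form Σ u_i v_i^q. Then SU_n(q) is generated by three conjugate regular unipotent elements: there are u ∈ SU_n(q) with u − 1 nilpotent and (u − 1)^(n−1) ≠ 0, and g, h ∈ SU_n(q), such that u, g u g⁻¹ and h u h⁻¹ generate SU_n(q). -/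
theorem result {F : Type*} [Field F] [Fintype F] (q : ℕ) (hF : Fintype.card F = q ^ 2) (n : ℕ) (hn : 3 ≤ n) (hodd : Odd n) (h32 : ¬ (n = 3 ∧ q = 2)) :
    ∃ u g h : ↥(Cfsg.SU n F q), (IsNilpotent (((u : Matrix.SpecialLinearGroup (Fin n) F) : Matrix (Fin n) (Fin n) F) - 1) ∧ (((u : Matrix.SpecialLinearGroup (Fin n) F) : Matrix (Fin n) (Fin n) F) - 1) ^ (n - 1) ≠ 0) ∧
      Subgroup.closure ({u, g * u * g⁻¹, h * u * h⁻¹} : Set ↥(Cfsg.SU n F q)) = ⊤ := by
  have hq2 : 2 ≤ q := Cfsg.Agent.LieClassical.HermBasic.two_le hF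
  have key : ∃ v g h : ↥(Cfsg.SU n F q),
      Cfsg.Agent.H186.IsReg (Cfsg.Agent.H108.Model.mat v) ∧
      Subgroup.closure ({v, g * v * g⁻¹, h * v * h⁻¹} : Set ↥(Cfsg.SU n F q)) = ⊤ := by
    rcases Nat.lt_or_ge n 4 with h4 | h4
    · have h3 : n = 3 := by omega
      subst h3
      obtain ⟨v, g, hv, hcl⟩ := Cfsg.Agent.S2283.exists_two q (by omega) hF
      refine ⟨v, g, g, hv, ?_⟩
      rw [Set.pair_eq_singleton]
      exact hcl
    · have h5 : 5 ≤ n := by
        rcases Nat.lt_or_ge n 5 with h | h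
        · have : n = 4 := by omega
          subst this
          exact absurd hodd (by decide)
        · exact h
      by_cases h2 : q = 2
      · subst h2
        exact Cfsg.Agent.H108.Gen.main_two hF h5 hodd
      · exact Cfsg.Agent.H108.Gen.main_ge_three hF h5 (by omega)
  obtain ⟨v, g, h, hv, hcl⟩ := key
  exact ⟨v, g, h, ⟨⟨n, hv.1⟩, Cfsg.Agent.H108.Model.IsReg.pow_ne_zero (by omega) hv⟩, hcl⟩

end Cfsg.Agent.S2282
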