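import Cfsg.Statements.S2286
import Cfsg.Agent.H109.SL2b
import Cfsg.Agent.ClassicalGeometry.PSL2Basic

set_option autoImplicit false
open Cfsg

namespace Cfsg.Agent.S2286

theorem cyc {F : Type*} [Field F] [Finite F] :
    IsCyclic (Subgroup.center (Matrix.SpecialLinearGroup (Fin 2) F)) := by
  have e := Matrix.SpecialLinearGroup.center_equiv_rootsOfUnity (n := Fin 2) (R := F)
  exact isCyclic_of_surjective e.symm.toMonoidHom e.symm.surjective

/-- For every finite field F, SL_2(F) and PSL_2(F) have presentations with 3 generators and at most 9 relations; when F has characteristic 2, PSL_2(F) has a presentation with 3 generators and at most 5 relations. -/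
theorem result {F : Type*} [Field F] [Fintype F] :
    (∃ rels : Finset (FreeGroup (Fin 3)), rels.card ≤ 9 ∧ Nonempty (PresentedGroup (↑rels : Set (FreeGroup (Fin 3))) ≃* Matrix.SpecialLinearGroup (Fin 2) F)) ∧ (∃ rels : Finset (FreeGroup (Fin 3)), rels.card ≤ 9 ∧ Nonempty (PresentedGroup (↑rels : Set (FreeGroup (Fin 3))) ≃* Matrix.ProjectiveSpecialLinearGroup (Fin 2) F)) ∧
    (CharP F 2 → ∃ rels : Finset (FreeGroup (Fin 3)), rels.card ≤ 5 ∧ Nonempty (PresentedGroup (↑rels : Set (FreeGroup (Fin 3))) ≃* Matrix.ProjectiveSpecialLinearGroup (Fin 2) F)) := by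
  have h8 : H111.HasPres (Matrix.SpecialLinearGroup (Fin 2) F) 3 8 := by
    by_cases h2 : (2 : F) = 0
    · exact (H109.sl2_even h2).mono (by norm_num)
    · exact H109.sl2_odd h2
  refine ⟨h8.mono (by norm_num), h8.centerQuo cyc, ?_⟩
  intro hch
  have h2 : (2 : F) = 0 := by exact_mod_cast CharP.cast_eq_zero F 2
  have hc : Subgroup.center (Matrix.SpecialLinearGroup (Fin 2) F) = ⊥ :=
    Subgroup.card_eq_one.1 (ClassicalGeometry.PSL2Basic.card_center_SL2_even h2)
  refine (H109.sl2_even h2).of_mulEquiv ?_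
  exact (QuotientGroup.quotientBot.symm).trans (QuotientGroup.quotientMulEquivOfEq hc.symm)

end Cfsg.Agent.S2286
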