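import Cfsg.Statements.S2294
import Cfsg.Agent.H112.PresUni

set_option autoImplicit false
open Cfsg

namespace Cfsg.Agent.S2294

/-- Let F be a field with q² elements and n ≥ 4, and SU_n(q), PSU_n(q) the special unitary group of the standard Hermitian form and its central quotient. Then SU_n(q) has a presentation with 6 generators and at most 39 relations and PSU_n(q) one with 6 generators and at most 40 relations; moreover SU_4(q) and SU_5(q) have presentations with 6 generators and at most 35 relations, and PSU_4(q) one with 6 generators and at most 36 relations. -/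
theorem result {F : Type*} [Field F] [Fintype F] (q : ℕ) (hF : Fintype.card F = q ^ 2) (n : ℕ) (hn : 4 ≤ n) :
    (∃ rels : Finset (FreeGroup (Fin 6)), rels.card ≤ 39 ∧ Nonempty (PresentedGroup (↑rels : Set (FreeGroup (Fin 6))) ≃* ↥(Cfsg.SU n F q))) ∧ (∃ rels : Finset (FreeGroup (Fin 6)), rels.card ≤ 40 ∧ Nonempty (PresentedGroup (↑rels : Set (FreeGroup (Fin 6))) ≃* Cfsg.PSU n F q)) ∧
    (∃ rels : Finset (FreeGroup (Fin 6)), rels.card ≤ 35 ∧ Nonempty (PresentedGroup (↑rels : Set (FreeGroup (Fin 6))) ≃* ↥(Cfsg.SU 4 F q))) ∧ (∃ rels : Finset (FreeGroup (Fin 6)), rels.card ≤ 35 ∧ Nonempty (PresentedGroup (↑rels : Set (FreeGroup (Fin 6))) ≃* ↥(Cfsg.SU 5 F q))) ∧ (∃ rels : Finset (FreeGroup (Fin 6)), rels.card ≤ 36 ∧ Nonempty (PresentedGroup (↑rels : Set (FreeGroup (Fin 6))) ≃* Cfsg.PSU 4 F q)) :=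
  ⟨(H112.pres_all hF hn).1.mono (by norm_num), (H112.pres_PSU_all hF hn).1.mono (by norm_num),
    (H112.pres_all hF (n := 4) le_rfl).2 (Or.inl rfl), (H112.pres_all hF (n := 5) (by norm_num)).2 (Or.inr rfl),
    (H112.pres_PSU_all hF (n := 4) le_rfl).2 (Or.inl rfl)⟩

end Cfsg.Agent.S2294
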