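import Cfsg.Statements.S2295
import Cfsg.Agent.H110.D.Pres

set_option autoImplicit false
open Cfsg

namespace Cfsg.Agent.S2295

open Cfsg.Agent.H111 Cfsg.Agent.H110.D in
theorem main {F : Type*} [Field F] [Fintype F] (n : ℕ) (hn : 4 ≤ n) :
    HasPres ↥(Cfsg.Omega F (Cfsg.quadFormPlus n F)) 8 31 ∧
      (n ≤ 5 → HasPres ↥(Cfsg.Omega F (Cfsg.quadFormPlus n F)) 8 29) := by
  rcases Nat.lt_or_ge 5 n with h | h
  · exact ⟨(omega_six (F := F) h).add_le (j := 2) rfl le_rfl, fun h' => absurd h' (by omega)⟩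
  · have h1 : HasPres ↥(Cfsg.Omega F (Cfsg.quadFormPlus n F)) 8 29 := by
      obtain rfl | rfl : n = 4 ∨ n = 5 := by omega
      · exact (omega_four (F := F)).add_le (j := 3) rfl le_rfl
      · exact (omega_five (F := F)).add_le (j := 3) rfl (by norm_num)
    exact ⟨h1.mono (by norm_num), fun _ => h1⟩

/-- Let F be a finite field and n ≥ 4, and let Ω⁺_2n(F) be the commutator subgroup of the orthogonal group of the hyperbolic quadratic form Σ x_i y_i, with PΩ⁺_2n(F) its central quotient. Then Ω⁺_2n(F) has a presentation with 8 generators and at most 31 relations (at most 29 if n = 4 or 5), and PΩ⁺_2n(F) one with 8 generators and at most 32 relations (at most 30 if n = 4 or 5). -/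
theorem result {F : Type*} [Field F] [Fintype F] (n : ℕ) (hn : 4 ≤ n) :
    (∃ rels : Finset (FreeGroup (Fin 8)), rels.card ≤ 31 ∧ Nonempty (PresentedGroup (↑rels : Set (FreeGroup (Fin 8))) ≃* ↥(Cfsg.Omega F (Cfsg.quadFormPlus n F)))) ∧ (∃ rels : Finset (FreeGroup (Fin 8)), rels.card ≤ 32 ∧ Nonempty (PresentedGroup (↑rels : Set (FreeGroup (Fin 8))) ≃* Cfsg.POmega F (Cfsg.quadFormPlus n F))) ∧
    (n ≤ 5 → (∃ rels : Finset (FreeGroup (Fin 8)), rels.card ≤ 29 ∧ Nonempty (PresentedGroup (↑rels : Set (FreeGroup (Fin 8))) ≃* ↥(Cfsg.Omega F (Cfsg.quadFormPlus n F)))) ∧ (∃ rels : Finset (FreeGroup (Fin 8)), rels.card ≤ 30 ∧ Nonempty (PresentedGroup (↑rels : Set (FreeGroup (Fin 8))) ≃* Cfsg.POmega F (Cfsg.quadFormPlus n F)))) := by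
  obtain ⟨h1, h2⟩ := main (F := F) n hn
  have hc := Cfsg.Agent.H110.D.cyc_center (F := F) (n := n) (by omega)
  exact ⟨h1, h1.centerQuo hc, fun h => ⟨h2 h, (h2 h).centerQuo hc⟩⟩

end Cfsg.Agent.S2295
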