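import Cfsg.Statements.S2296
import Cfsg.Agent.H111.SpFinal

set_option autoImplicit false
open Cfsg

namespace Cfsg.Agent.S2296

/-- Let F be a finite field. Sp_2n(F) has a presentation with 10 generators and at most 58 relations for n ≥ 4, with 9 generators and at most 57 relations for n = 4 or 5, and with 8 generators and at most 52 relations for n = 3; in each case PSp_2n(F) has a presentation with the same number of generators and at most one more relation. -/
theorem result {F : Type*} [Field F] [Fintype F] (n : ℕ) :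
    (4 ≤ n → (∃ rels : Finset (FreeGroup (Fin 10)), rels.card ≤ 58 ∧ Nonempty (PresentedGroup (↑rels : Set (FreeGroup (Fin 10))) ≃* Matrix.symplecticGroup (Fin n) F)) ∧ (∃ rels : Finset (FreeGroup (Fin 10)), rels.card ≤ 59 ∧ Nonempty (PresentedGroup (↑rels : Set (FreeGroup (Fin 10))) ≃* Cfsg.PSp n F))) ∧
    ((n = 4 ∨ n = 5) → (∃ rels : Finset (FreeGroup (Fin 9)), rels.card ≤ 57 ∧ Nonempty (PresentedGroup (↑rels : Set (FreeGroup (Fin 9))) ≃* Matrix.symplecticGroup (Fin n) F)) ∧ (∃ rels : Finset (FreeGroup (Fin 9)), rels.card ≤ 58 ∧ Nonempty (PresentedGroup (↑rels : Set (FreeGroup (Fin 9))) ≃* Cfsg.PSp n F))) ∧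
    (n = 3 → (∃ rels : Finset (FreeGroup (Fin 8)), rels.card ≤ 52 ∧ Nonempty (PresentedGroup (↑rels : Set (FreeGroup (Fin 8))) ≃* Matrix.symplecticGroup (Fin n) F)) ∧ (∃ rels : Finset (FreeGroup (Fin 8)), rels.card ≤ 53 ∧ Nonempty (PresentedGroup (↑rels : Set (FreeGroup (Fin 8))) ≃* Cfsg.PSp n F))) := by
  refine ⟨fun hn => ?_, fun hn => ?_, fun hn => ?_⟩
  · have h := (Cfsg.Agent.H111.SpFinal.sp_four (F := F) hn).add_le (j := 3) (b := 10) (a := 58) rfl (by norm_num)
    exact ⟨h, Cfsg.Agent.H111.SpFinal.psp (by omega) h⟩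
  · have hn' : 4 ≤ n := by omega
    have h := (Cfsg.Agent.H111.SpFinal.sp_four (F := F) hn').add_le (j := 2) (b := 9) (a := 57) rfl (by norm_num)
    exact ⟨h, Cfsg.Agent.H111.SpFinal.psp (by omega) h⟩
  · subst hn
    have h := (Cfsg.Agent.H111.SpFinal.sp_three (F := F)).add_le (j := 1) (b := 8) (a := 52) rfl (by norm_num)
    exact ⟨h, Cfsg.Agent.H111.SpFinal.psp (by omega) h⟩

end Cfsg.Agent.S2296
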