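import Cfsg.Statements.S2336
import Cfsg.Agent.H119.SLComm

set_option autoImplicit false
open Cfsg

namespace Cfsg.Agent.S2336

open Matrix Module Representation Cfsg.Agent.PermutationGroups.PermChar
  Cfsg.Agent.PermutationGroups.MultFree Cfsg.Agent.PermutationGroups.IrrSum Cfsg.Agent.H119.SLVec

/-- the rank of `SL_n(F)` on nonzero vectors -/
theorem card_orbits {F : Type*} [Field F] [Fintype F] {n : ℕ} (hn : 3 ≤ n) (a : Vec n F) :
    Nat.card (MulAction.orbitRel.Quotient
      (MulAction.stabilizer (Matrix.SpecialLinearGroup (Fin n) F) a) (Vec n F)) = Fintype.card F := by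
  classical
  let G := Matrix.SpecialLinearGroup (Fin n) F
  -- the invariant
  let κ : Vec n F → Option Fˣ := fun x => if h : ∃ c : Fˣ, x = sc c a then some h.choose else none
  have hκ1 : ∀ c : Fˣ, κ (sc c a) = some c := by
    intro c
    have h : ∃ d : Fˣ, sc c a = sc d a := ⟨c, rfl⟩
    change (if h : ∃ d : Fˣ, sc c a = sc d a then some h.choose else none) = _
    rw [dif_pos h]
    exact congrArg some (sc_inj h.choose_spec).symm
  have hκ2 : ∀ x : Vec n F, LinearIndependent F ![a.1, x.1] → κ x = none := by
    intro x hx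
    change (if h : ∃ d : Fˣ, x = sc d a then some h.choose else none) = _
    rw [dif_neg]
    rintro ⟨c, rfl⟩
    exact not_indep a c hx
  have hsmul : ∀ (g : MulAction.stabilizer G a) (x : Vec n F), (g • x : Vec n F) = (g : G) • x :=
    fun _ _ => rfl
  have hga : ∀ g : MulAction.stabilizer G a, (g : G) • a = a := fun g => g.2
  have hrel : ∀ x y : Vec n F, MulAction.orbitRel (MulAction.stabilizer G a) (Vec n F) x y ↔
      κ x = κ y := by
    intro x y
    rw [MulAction.orbitRel_apply]
    constructor
    · rintro ⟨g, hg⟩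
      simp only at hg
      rw [hsmul] at hg
      rcases prop_or_indep a y with ⟨c, rfl⟩ | hi
      · rw [← sc_smul, hga] at hg
        rw [← hg]
      · rcases prop_or_indep a x with ⟨c, rfl⟩ | hi'
        · exfalso
          have h1 : y = sc c a := by
            have h2 : (g : G)⁻¹ • ((g : G) • y) = (g : G)⁻¹ • sc c a := by rw [hg]
            rw [inv_smul_smul, ← sc_smul] at h2
            have h3 : (g : G)⁻¹ • a = a := by
              rw [inv_smul_eq_iff, hga]
            rw [h3] at h2
            exact h2
          rw [h1] at hi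
          exact not_indep a c hi
        · rw [hκ2 _ hi, hκ2 _ hi']
    · intro h
      rcases prop_or_indep a x with ⟨c, rfl⟩ | hi
      · rcases prop_or_indep a y with ⟨d, rfl⟩ | hi'
        · rw [hκ1, hκ1] at h
          have : c = d := Option.some_injective _ h
          rw [this]
          exact MulAction.mem_orbit_self _
        · rw [hκ1, hκ2 _ hi'] at h
          exact absurd h (by simp)
      · rcases prop_or_indep a y with ⟨d, rfl⟩ | hi'
        · rw [hκ1, hκ2 _ hi] at h
          exact absurd h (by simp)
        · obtain ⟨g, hg1, hg2⟩ := exists_map_pair hn hi' hi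
          refine ⟨⟨g, Subtype.ext hg1⟩, ?_⟩
          exact Subtype.ext hg2
  have hsurj : Function.Surjective κ := by
    intro o
    cases o with
    | some c => exact ⟨sc c a, hκ1 c⟩
    | none =>
      obtain ⟨b0, hb0⟩ := exists_notMem_span ![a.1] (by omega : 1 < n)
      have hab : LinearIndependent F ![a.1, b0] := by
        refine (LinearIndependent.pair_iff' a.2).2 fun c hc => hb0 ?_
        rw [← hc]
        exact Submodule.smul_mem _ _ (Submodule.subset_span ⟨0, rfl⟩)
      have hb0' : b0 ≠ 0 := by simpa using hab.ne_zero 1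
      exact ⟨⟨b0, hb0'⟩, hκ2 _ hab⟩
  have e : MulAction.orbitRel.Quotient (MulAction.stabilizer G a) (Vec n F) ≃ Option Fˣ := by
    refine Equiv.ofBijective (Quotient.lift κ fun x y h => (hrel x y).1 h) ⟨?_, ?_⟩
    · intro x y
      induction x using Quotient.inductionOn
      induction y using Quotient.inductionOn
      intro h
      exact Quotient.sound ((hrel _ _).2 h)
    · intro o
      obtain ⟨x, hx⟩ := hsurj o
      exact ⟨Quotient.mk _ x, hx⟩
  rw [Nat.card_congr e, Nat.card_eq_fintype_card, Fintype.card_option, Fintype.card_units,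
    Nat.sub_add_cancel Fintype.card_pos]

/-- Let F be a finite field with q elements and n ≥ 3. The permutation character of SL_n(F) on the non-zero vectors of F^n (the function sending a matrix to the number of non-zero vectors it fixes) is the sum of the principal character and q − 1 pairwise distinct irreducible complex characters. -/
theorem result {F : Type*} [Field F] [Fintype F] [DecidableEq F] (n : ℕ) (hn : 3 ≤ n) :
    ∃ χ : Fin (Fintype.card F - 1) → (Matrix.SpecialLinearGroup (Fin n) F → ℂ),
      (∀ i, Cfsg.IsIrrCharacter (Matrix.SpecialLinearGroup (Fin n) F) (χ i)) ∧ Function.Injective χ ∧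
      ∀ g : Matrix.SpecialLinearGroup (Fin n) F,
        (Nat.card {v : Fin n → F // v ≠ 0 ∧ (g : Matrix (Fin n) (Fin n) F).mulVec v = v} : ℂ) = 1 + ∑ i, χ i g := by
  classical
  let G := Matrix.SpecialLinearGroup (Fin n) F
  have : MulAction.IsPretransitive G (Vec n F) := pretrans (by omega)
  let a : Vec n F := ⟨Pi.single ⟨0, by omega⟩ 1, by simp⟩
  obtain ⟨m, hm1, hm2, hm3, -⟩ := exists_decomp (G := G) (Ω := Vec n F) a
  obtain ⟨m', hm'⟩ := exists_sum_irr (isCharacter_of_rep (permRep ℂ G (Vec n F)))
  rw [← permChar_eq] at hm'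
  have hmm : m' = m := by
    ext ψ
    have h1 := hm1 ψ
    rw [hm', Cfsg.Agent.PermutationGroups.Subdegree.classInner_finsupp_sum] at h1
    exact_mod_cast h1
  rw [hmm] at hm'
  rw [card_orbits hn a] at hm3
  have hle : ∀ ψ, m ψ = 0 ∨ m ψ = 1 := by
    intro ψ
    have h := (Cfsg.Agent.S0718.result (G := G) (Ω := Vec n F)).2 (by
      intro S T hS hT
      obtain ⟨S', rfl⟩ := Cfsg.Agent.S0718.exists_intertwining S hS
      obtain ⟨T', rfl⟩ := Cfsg.Agent.S0718.exists_intertwining T hT
      exact LinearMap.ext fun f => comm hn S' T' f) ψ.1 ψ.2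
    rw [hm1 ψ] at h
    exact_mod_cast h
  have hcard : m.support.card = Fintype.card F := by
    rw [← hm3, Finset.card_eq_sum_ones]
    refine Finset.sum_congr rfl fun ψ hψ => ?_
    rcases hle ψ with h | h
    · exact absurd h (Finsupp.mem_support_iff.1 hψ)
    · rw [h, one_pow]
  have hone : (⟨_, isIrr_one⟩ : IrrCharacter G) ∈ m.support := by
    rw [Finsupp.mem_support_iff, hm2]
    exact one_ne_zero
  have hcard' : (m.support.erase ⟨_, isIrr_one⟩).card = Fintype.card F - 1 := by
    rw [Finset.card_erase_of_mem hone, hcard]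
  let e := (m.support.erase (⟨_, isIrr_one⟩ : IrrCharacter G)).equivFinOfCardEq hcard'
  refine ⟨fun i => ((e.symm i).1 : IrrCharacter G).1, fun i => ((e.symm i).1 : IrrCharacter G).2,
    ?_, ?_⟩
  · intro i j h
    exact e.symm.injective (Subtype.ext (Subtype.ext h))
  · intro g
    have h1 : Nat.card {v : Fin n → F // v ≠ 0 ∧ (g : Matrix (Fin n) (Fin n) F).mulVec v = v} =
        Nat.card (MulAction.fixedBy (Vec n F) g) := by
      refine Nat.card_congr ?_
      exact
        { toFun := fun v => ⟨⟨v.1, v.2.1⟩, Subtype.ext v.2.2⟩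
          invFun := fun v => ⟨v.1.1, v.1.2, congrArg Subtype.val v.2⟩
          left_inv := fun _ => rfl
          right_inv := fun _ => rfl }
    rw [h1]
    have h2 := congrFun hm' g
    change (Nat.card (MulAction.fixedBy (Vec n F) g) : ℂ) = _ at h2
    rw [h2, Finsupp.sum, Finset.sum_apply, ← Finset.add_sum_erase _ _ hone]
    congr 1
    · rw [hm2, one_smul]
    · rw [← Finset.sum_coe_sort, ← Equiv.sum_comp e.symm]
      refine Finset.sum_congr rfl fun i _ => ?_
      have h3 : m (e.symm i).1 = 1 := by
        rcases hle (e.symm i).1 with h | h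
        · exact absurd h (Finsupp.mem_support_iff.1 (Finset.mem_of_mem_erase (e.symm i).2))
        · exact h
      rw [h3, one_smul]

end Cfsg.Agent.S2336
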