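import Cfsg.Statements.S2353
import Cfsg.Agent.H982.LawNC

set_option autoImplicit false
open Cfsg

namespace Cfsg.Agent.S2353

/-- A non-trivial law holds in PSL_2 over only finitely many finite fields: for every non-trivial element w of the free group on countably many generators there is N such that over every finite field with at least N elements some substitution of elements of PSL_2 into w is not the identity. -/
theorem result (w : FreeGroup ℕ) (hw : w ≠ 1) :
    ∃ N : ℕ, ∀ (F : Type*) [Field F] [Fintype F], N ≤ Fintype.card F →
      ∃ f : ℕ → Matrix.ProjectiveSpecialLinearGroup (Fin 2) F, FreeGroup.lift f w ≠ 1 := by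
  refine ⟨Cfsg.Agent.H982.LawWord.PP.bnd w.toWord + 4, fun F _ _ hF => ?_⟩
  exact (Cfsg.Agent.H982.LawNC.nc_sl2 F hw hF).of_subgroup.quot

end Cfsg.Agent.S2353
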