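import Cfsg.Statements.S2355
import Cfsg.Agent.H982.LawClassical

set_option autoImplicit false
open Cfsg

namespace Cfsg.Agent.S2355

/-- A non-trivial law is satisfied by only finitely many finite simple groups that are alternating or classical, up to isomorphism: for every non-trivial element w of the free group on countably many generators there is a bound N such that every alternating group of degree ≥ 5 and every simple classical group (linear, symplectic, unitary or orthogonal, in this problem's sense) in which w is a law has order at most N. -/
theorem result (w : FreeGroup ℕ) (hw : w ≠ 1) :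
    ∃ N : ℕ, ∀ (G : Type*) [Group G] [Finite G],
      (Cfsg.IsAlternating G ∨ Cfsg.IsPSL G ∨ Cfsg.IsPSp G ∨ Cfsg.IsPSU G ∨ Cfsg.IsPOmegaOdd G ∨
          Cfsg.IsPOmegaPlus G ∨ Cfsg.IsPOmegaMinus G) →
      (∀ f : ℕ → G, FreeGroup.lift f w = 1) → Nat.card G ≤ N := by
  exact Cfsg.Agent.H982.LawClassical.main hw

end Cfsg.Agent.S2355
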