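import Cfsg.Statements.S2374
-- import your own Cfsg.Agent.* helpers here
import Cfsg.Agent.H129.UntwTwo
import Cfsg.Agent.H129.PhiE
import Cfsg.Agent.H129.WForm
import Cfsg.Agent.H129.DataE7
import Cfsg.Agent.S2373
import Cfsg.Agent.S1093

set_option autoImplicit false
open Cfsg

namespace Cfsg.Agent.S2374

open Cfsg.Agent.H129 Cfsg.Agent.Nodes.RGDChev Cfsg.Agent.H129.TorusTw

section

variable {W : Type*} [Group W] (cs : CoxeterSystem CoxeterMatrix.E₇ W)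
  (hp : IsType Cfsg.Lie.chevE7 7 CoxeterMatrix.E₇)

/-- The roots on which the functional is divisible by `r` form one orbit. -/
theorem root_of_dvd {θ : (Fin 7 → ℤ) →+ (Fin 7 → ℤ)} (h : WData.Lin θ DataE7.Th)
    (hc : Cyc 7 θ DataE7.V DataE7.B DataE7.c) {q N r : ℕ} (hfN : fN DataE7.c (q : ℤ) = N) (hr : r.Prime)
    (hrN : r ∣ N) (hqN : q.Coprime N) (hr1 : (r : ℤ) ∣ 1 - (q : ℤ) ^ 2 + (q : ℤ) ^ 4) (hr2 : r ≠ 2)
    {a : Fin 7 → ℤ} (ha : Tits.Roots.IsRoot cs hp.isCartan a) (hra : (r : ℤ) ∣ Gq DataE7.B (q : ℤ) a) :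
    ∃ s, a = DataE7.S10 s := by
  have key := WData.root_ind hp cs h DataE7.rootOK
    (P := fun a => ¬ (r : ℤ) ∣ Gq DataE7.B (q : ℤ) a ∨ ∃ s, a = DataE7.S10 s) (fun s => ?_) (fun x hx => ?_) ha
  · exact key.resolve_left (fun h1 => h1 hra)
  · by_cases hs : s = 10
    · exact Or.inr ⟨0, by rw [hs]; rfl⟩
    · refine Or.inl fun h1 => ?_
      rcases DataE7.dvd_of_G hr1 s hs h1 with h2 | h2
      · exact hr.one_lt.ne' (Nat.dvd_one.1 (by exact_mod_cast h2))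
      · exact hr2 ((Nat.prime_dvd_prime_iff_eq hr Nat.prime_two).1 (by exact_mod_cast h2))
  · rcases hx with hx | ⟨s, rfl⟩
    · refine Or.inl fun h3 => hx ?_
      have h4 := hc.dvd_G (q : ℤ) x
      rw [hfN] at h4
      have h5 : (r : ℤ) ∣ (q : ℤ) * Gq DataE7.B (q : ℤ) x := by
        have h6 := (Int.natCast_dvd_natCast.2 hrN).trans h4
        have h7 := dvd_sub h3 h6
        rwa [sub_sub_cancel] at h7
      rcases (Nat.prime_iff_prime_int.1 hr).dvd_or_dvd h5 with h6 | h6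
      · exfalso
        have h7 : r ∣ Nat.gcd q N := Nat.dvd_gcd (Int.natCast_dvd_natCast.1 h6) hrN
        rw [hqN] at h7
        exact hr.one_lt.ne' (Nat.dvd_one.1 h7)
      · exact h6
    · refine Or.inr ⟨s + 1, ?_⟩
      funext m
      rw [h.apply, DataE7.S10_succ]

end

theorem G_S10 (x : ℤ) (s : Fin 6) : ∃ j : ℕ, Gq DataE7.B x (DataE7.S10 s) = x ^ j * (1 - x ^ 2 + x ^ 4) ∨
    Gq DataE7.B x (DataE7.S10 s) = -(x ^ j * (1 - x ^ 2 + x ^ 4)) := by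
  fin_cases s
  · exact ⟨0, Or.inr (by rw [show Gq DataE7.B x (DataE7.S10 ⟨0, by norm_num⟩) = _ from DataE7.GS10_0 x]; ring)⟩
  · exact ⟨1, Or.inr (by rw [show Gq DataE7.B x (DataE7.S10 ⟨1, by norm_num⟩) = _ from DataE7.GS10_1 x]; ring)⟩
  · exact ⟨2, Or.inr (by rw [show Gq DataE7.B x (DataE7.S10 ⟨2, by norm_num⟩) = _ from DataE7.GS10_2 x]; ring)⟩
  · exact ⟨0, Or.inl (by rw [show Gq DataE7.B x (DataE7.S10 ⟨3, by norm_num⟩) = _ from DataE7.GS10_3 x]; ring)⟩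
  · exact ⟨1, Or.inl (by rw [show Gq DataE7.B x (DataE7.S10 ⟨4, by norm_num⟩) = _ from DataE7.GS10_4 x]; ring)⟩
  · exact ⟨2, Or.inl (by rw [show Gq DataE7.B x (DataE7.S10 ⟨5, by norm_num⟩) = _ from DataE7.GS10_5 x]; ring)⟩

theorem not_dvd {q : ℕ} (hq : 2 ≤ q) {N : ℕ} (hN : (N : ℤ) = (1 - (q : ℤ) ^ 2 + (q : ℤ) ^ 4) * ((q : ℤ) ^ 3 + 1))
    {e : ℕ} (he : 0 < e) (he4 : e ≤ 4) (s : Fin 6) : ¬ (N : ℤ) ∣ (e : ℤ) * Gq DataE7.B (q : ℤ) (DataE7.S10 s) := by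
  intro h
  have hq0 : (2 : ℤ) ≤ q := by exact_mod_cast hq
  have hΦ : 1 - (q : ℤ) ^ 2 + (q : ℤ) ^ 4 ≠ 0 := by nlinarith [sq_nonneg ((q : ℤ) ^ 2 - 1), sq_nonneg (q : ℤ)]
  obtain ⟨j, hj⟩ := G_S10 (q : ℤ) s
  have h1 : (N : ℤ) ∣ (e : ℤ) * ((q : ℤ) ^ j * (1 - (q : ℤ) ^ 2 + (q : ℤ) ^ 4)) := by
    rcases hj with hj | hj
    · rwa [hj] at h
    · rw [hj, mul_neg, dvd_neg] at h
      exact h
  have h2 : (1 - (q : ℤ) ^ 2 + (q : ℤ) ^ 4) * ((q : ℤ) ^ 3 + 1) ∣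
      (1 - (q : ℤ) ^ 2 + (q : ℤ) ^ 4) * ((q : ℤ) ^ j * (e : ℤ)) := by
    rw [← hN]
    have e1 : (1 - (q : ℤ) ^ 2 + (q : ℤ) ^ 4) * ((q : ℤ) ^ j * (e : ℤ)) =
      (e : ℤ) * ((q : ℤ) ^ j * (1 - (q : ℤ) ^ 2 + (q : ℤ) ^ 4)) := by ring
    rw [e1]
    exact h1
  have h3 := (mul_dvd_mul_iff_left hΦ).1 h2
  have hco : IsCoprime ((q : ℤ) ^ 3 + 1) ((q : ℤ) ^ j) := by
    refine IsCoprime.pow_right ⟨1, -(q : ℤ) ^ 2, by ring⟩
  have h4 : ((q : ℤ) ^ 3 + 1) ∣ (e : ℤ) := hco.dvd_of_dvd_mul_left h3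
  have h5 := Int.le_of_dvd (by exact_mod_cast he) h4
  have h6 : (8 : ℤ) ≤ (q : ℤ) ^ 3 := by
    have : (2 : ℤ) ^ 3 ≤ (q : ℤ) ^ 3 := pow_le_pow_left₀ (by norm_num) hq0 3
    linarith
  have h7 : (e : ℤ) ≤ 4 := by exact_mod_cast he4
  linarith

/-- The group E₇(q) (the simple Chevalley group of type E₇) contains a cyclic subgroup of order (q⁴ − q² + 1)(q³ + 1)/gcd(2, q − 1) which is its own centralizer. -/
theorem result {F : Type*} [Field F] [Fintype F] (q : ℕ) (hF : Fintype.card F = q) :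
    ∃ H : Subgroup ↥(Cfsg.Lie.chevE7.group F), IsCyclic ↥H ∧ Nat.card ↥H = (q ^ 4 - q ^ 2 + 1) * (q ^ 3 + 1) / Nat.gcd 2 (q - 1) ∧
      Subgroup.centralizer (H : Set ↥(Cfsg.Lie.chevE7.group F)) = H := by
  have hq2 : 2 ≤ q := by rw [← hF]; exact Fintype.one_lt_card
  have hp : IsType Cfsg.Lie.chevE7 7 CoxeterMatrix.E₇ := by simp
  have hW : Nat.card CoxeterMatrix.E₇.Group = 2903040 :=
    Cfsg.Agent.S1093.result (⟨7, CoxeterMatrix.E₇⟩, 2903040) (by simp)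
  have : Finite CoxeterMatrix.E₇.Group := Nat.finite_of_card_ne_zero (by rw [hW]; norm_num)
  have h0 : q ^ 2 ≤ q ^ 4 := Nat.pow_le_pow_right (by omega) (by norm_num)
  have hN : (((q ^ 4 - q ^ 2 + 1) * (q ^ 3 + 1) : ℕ) : ℤ) =
      1 - (q : ℤ) ^ 2 + (q : ℤ) ^ 3 + (q : ℤ) ^ 4 - (q : ℤ) ^ 5 + (q : ℤ) ^ 7 := by
    push_cast [Nat.cast_sub h0]; ring
  have hN' : (((q ^ 4 - q ^ 2 + 1) * (q ^ 3 + 1) : ℕ) : ℤ) = (1 - (q : ℤ) ^ 2 + (q : ℤ) ^ 4) * ((q : ℤ) ^ 3 + 1) := by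
    push_cast [Nat.cast_sub h0]; ring
  obtain ⟨r, hr, hrq, hr2, hr3, hr5, hr7⟩ := S2373.exists_prime hq2
  have hr12 : r ∣ q ^ 4 - q ^ 2 + 1 := by
    have hN : ((q ^ 4 - q ^ 2 + 1 : ℕ) : ℤ) = 1 - (q : ℤ) ^ 2 + (q : ℤ) ^ 4 := by
      push_cast [Nat.cast_sub h0]; ring
    have h1 := hrq
    rw [← hN] at h1
    exact Int.natCast_dvd_natCast.1 h1
  have hrW : ¬ r ∣ Nat.card CoxeterMatrix.E₇.Group := by
    rw [hW]
    intro h
    have h2 : (2903040 : ℕ) = 2 ^ 10 * 3 ^ 4 * 5 * 7 := by norm_num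
    rw [h2] at h
    rcases (Nat.Prime.dvd_mul hr).1 h with h | h
    · rcases (Nat.Prime.dvd_mul hr).1 h with h | h
      · rcases (Nat.Prime.dvd_mul hr).1 h with h | h
        · exact hr2 ((Nat.prime_dvd_prime_iff_eq hr Nat.prime_two).1 (hr.dvd_of_dvd_pow h))
        · exact hr3 ((Nat.prime_dvd_prime_iff_eq hr Nat.prime_three).1 (hr.dvd_of_dvd_pow h))
      · exact hr5 ((Nat.prime_dvd_prime_iff_eq hr Nat.prime_five).1 h)
    · exact hr7 ((Nat.prime_dvd_prime_iff_eq hr (by norm_num)).1 h)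
  have hqN : q.Coprime ((q ^ 4 - q ^ 2 + 1) * (q ^ 3 + 1)) :=
    UntwData.coprime_of_eq (a := - (q : ℤ) + (q : ℤ) ^ 2 + (q : ℤ) ^ 3 - (q : ℤ) ^ 4 + (q : ℤ) ^ 6) (by rw [hN]; ring)
  have hfN : TorusTw.fN DataE7.c (q : ℤ) = (((q ^ 4 - q ^ 2 + 1) * (q ^ 3 + 1) : ℕ) : ℤ) := by
    rw [DataE7.fN_eq, hN]
  have hlin := WData.lin_refl hp CoxeterMatrix.E₇.toCoxeterSystem DataE7.hA DataE7.chainOK
  have hc := WData.cyc_of hlin DataE7.cycOK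
  have hroot := fun {a : Fin 7 → ℤ} (ha : Tits.Roots.IsRoot CoxeterMatrix.E₇.toCoxeterSystem hp.isCartan a) =>
    root_of_dvd CoxeterMatrix.E₇.toCoxeterSystem hp hlin hc hfN hr (hr12.mul_right _) hqN hrq hr2 (a := a) ha
  have hC : ∀ e : ℕ, 0 < e → e ≤ 4 → ∀ a, Tits.Roots.IsRoot CoxeterMatrix.E₇.toCoxeterSystem hp.isCartan a →
      (r : ℤ) ∣ Gq DataE7.B (q : ℤ) a →
      ¬ (((q ^ 4 - q ^ 2 + 1) * (q ^ 3 + 1) : ℕ) : ℤ) ∣ (e : ℤ) * Gq DataE7.B (q : ℤ) a := by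
    intro e he he4 a ha h1
    obtain ⟨s, rfl⟩ := hroot ha h1
    exact not_dvd hq2 hN' he he4 s
  have hO := WForm.orth_of hp CoxeterMatrix.E₇.toCoxeterSystem DataE7.hA (i0 := 0) (dep := ![0, 3, 1, 2, 3, 4, 5])
    (by decide +kernel) (S := DataE7.S10) DataE7.S10_tab
    (X := {a | Tits.Roots.IsRoot CoxeterMatrix.E₇.toCoxeterSystem hp.isCartan a ∧ (r : ℤ) ∣ Gq DataE7.B (q : ℤ) a})
    (fun a ha => ha.1) (fun a ha => hroot ha.1 ha.2)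
  by_cases hd : 2 ∣ q - 1
  · -- the centre is not trivial
    have hgcd : Nat.gcd 2 (q - 1) = 2 := Nat.gcd_eq_left hd
    rw [hgcd]
    have h3 : 2 ∣ q ^ 3 + 1 := by
      obtain ⟨a, ha⟩ := hd
      have hqa : q = 2 * a + 1 := by omega
      rw [hqa]
      exact ⟨4 * a ^ 3 + 6 * a ^ 2 + 3 * a + 1, by ring⟩
    have hrN : 2 * r ∣ (q ^ 4 - q ^ 2 + 1) * (q ^ 3 + 1) := by
      rw [mul_comm 2 r]
      exact mul_dvd_mul hr12 h3
    exact UntwTwo.untw_two hp CoxeterMatrix.E₇.toCoxeterSystem (by norm_num) hF Nat.prime_two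
      TorusChar.invC_E7 hd (PhiE.isPhi_E7 _) (kv := ![0, 1, 0, 0, 1, 0, 1]) (i0 := ⟨6, by decide⟩) rfl
      (by decide +kernel)
      (Bc := ![![4, 4, 6, 8, 6, 4, 2], ![4, 7, 8, 12, 9, 6, 3], ![6, 8, 12, 16, 12, 8, 4],
        ![8, 12, 16, 24, 18, 12, 6], ![6, 9, 12, 18, 15, 10, 5], ![4, 6, 8, 12, 10, 8, 4],
        ![2, 3, 4, 6, 5, 4, 3]]) (by decide +kernel)
      _ hc hfN hqN hr hrW hrN (fun a ha h1 => by simpa using hC 4 (by norm_num) le_rfl a ha h1) hO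
  · have hco : Nat.gcd 2 (q - 1) = 1 := (Nat.Prime.coprime_iff_not_dvd Nat.prime_two).2 hd
    rw [hco, Nat.div_one]
    have hFd : ∀ a : F, ∃ b : F, b ^ 2 = a := by
      intro a
      by_cases ha : a = 0
      · exact ⟨0, by rw [ha]; exact zero_pow (by norm_num)⟩
      · have h1 : (Nat.card Fˣ).Coprime 2 := by
          rw [Nat.card_units, Nat.card_eq_fintype_card, hF]
          exact Nat.Coprime.symm hco
        obtain ⟨b, hb⟩ := (powCoprime h1).surjective (Units.mk0 a ha)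
        refine ⟨b, ?_⟩
        have h2 := congrArg Units.val hb
        rw [powCoprime_apply, Units.val_pow_eq_pow_val] at h2
        exact h2
    exact TorusUntw.untw_one hp CoxeterMatrix.E₇.toCoxeterSystem (by norm_num) hF
      TorusChar.invC_E7 (by norm_num) hFd _ hc hfN hqN hr hrW (hr12.mul_right _)
      (fun a ha h1 => hC 2 (by norm_num) (by norm_num) a ha h1) hO

end Cfsg.Agent.S2374
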