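import Cfsg.Statements.S4538
import Cfsg.Agent.H615.SLDefect
import Cfsg.Agent.H615.SLSteinberg

set_option autoImplicit false
open Cfsg

namespace Cfsg.Agent.S4538

/-- A block of defect zero consists of one character of defect zero. -/
theorem eq_singleton {G : Type*} [Group G] [Finite G] (p : ℕ) [Fact p.Prime] (M : Ideal Cfsg.AlgInt)
    (hM : Cfsg.IsPModular p M) (χ : Cfsg.IrrCharacter G)
    (h0 : Cfsg.blockDefect p (Cfsg.blockOf M (χ : G → ℂ)) = 0) :
    ¬ p ∣ Nat.card G / Cfsg.charDegree (χ : G → ℂ) := by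
  obtain ⟨h1, h2, h3⟩ := S0914.degree_spec χ
  rw [Blocks.Basic.blockDefect_def, Nat.sub_eq_zero_iff_le] at h0
  have hmem : χ ∈ Cfsg.blockOf M (χ : G → ℂ) := by
    intro g
    rw [sub_self]
    have := hM.2.1.isPrime
    exact Blocks.Local.memLocalIdeal_zero
  have h4 : (Nat.card G).factorization p ≤ (Cfsg.charDegree (χ : G → ℂ)).factorization p :=
    h0.trans (Nat.sInf_le ⟨χ, hmem, rfl⟩)
  have hne : Nat.card G / Cfsg.charDegree (χ : G → ℂ) ≠ 0 :=
    (Nat.div_pos (Nat.le_of_dvd Nat.card_pos h3) h2).ne'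
  intro h5
  have h6 : 0 < (Nat.card G / Cfsg.charDegree (χ : G → ℂ)).factorization p :=
    (Fact.out : p.Prime).factorization_pos_of_dvd hne h5
  rw [Nat.factorization_div h3, Finsupp.tsub_apply] at h6
  omega

/-- Let F be a finite field of characteristic p and n ≥ 2. Relative to a maximal ideal M of the algebraic integers containing p, the group SL(n, F) has exactly one p-block of defect zero, and every other p-block has full defect (its defect equals the exponent of p in the order of the group, so its defect groups are Sylow p-subgroups). -/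
theorem result {F : Type*} [Field F] [Fintype F] (n : ℕ) (hn : 2 ≤ n) (p : ℕ) [Fact p.Prime] [CharP F p] (M : Ideal Cfsg.AlgInt) (hM : Cfsg.IsPModular p M) : Nat.card {B : Set (Cfsg.IrrCharacter (Matrix.SpecialLinearGroup (Fin n) F)) // Cfsg.IsPBlock M B ∧ Cfsg.blockDefect p B = 0} = 1 ∧ ∀ B : Set (Cfsg.IrrCharacter (Matrix.SpecialLinearGroup (Fin n) F)), Cfsg.IsPBlock M B → Cfsg.blockDefect p B = 0 ∨ Cfsg.blockDefect p B = (Nat.card (Matrix.SpecialLinearGroup (Fin n) F)).factorization p := by
  refine ⟨?_, fun B hB => H615.SLDefect.defect_zero_or_full p M hM B hB⟩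
  rw [Nat.card_eq_one_iff_unique]
  constructor
  · constructor
    rintro ⟨B, ⟨χ, rfl⟩, hB⟩ ⟨B', ⟨χ', rfl⟩, hB'⟩
    have h := eq_singleton p M hM χ hB
    have h' := eq_singleton p M hM χ' hB'
    have := H615.SLSteinberg.defect_zero_unique p M hM χ χ' h h'
    subst this
    rfl
  · obtain ⟨χ, h1, h2, -⟩ := H615.SLSteinberg.exists_steinberg (F := F) hn p
    refine ⟨⟨Cfsg.blockOf M (χ : _ → ℂ), ⟨χ, rfl⟩, ?_⟩⟩
    rw [(S0914.result p M hM χ).1 h2, Blocks.Basic.blockDefect_def, Set.image_singleton, csInf_singleton,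
      Blocks.Basic.charDegree_of_eq h1, (Fact.out : p.Prime).factorization_pow, Finsupp.single_eq_same,
      Nat.sub_self]

end Cfsg.Agent.S4538
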