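import Cfsg.Statements.S2459
import Cfsg.Agent.H147.Three

set_option autoImplicit false
open Cfsg

namespace Cfsg.Agent.S2459

open Matrix Polynomial Cfsg.Agent.H147

/-- extensionality through the underlying matrices -/
theorem ext_val {F : Type*} [Field F] {A B : Matrix.SpecialLinearGroup (Fin 3) F}
    (h : (A : Matrix (Fin 3) (Fin 3) F) = (B : Matrix (Fin 3) (Fin 3) F)) : A = B :=
  Matrix.SpecialLinearGroup.ext A B (fun i j => congrFun (congrFun h i) j)

/-- a conjugate in `GL₃` of `X0 τ` with determinant one is a conjugate in `SL₃` -/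
theorem exists_conj {F : Type*} [Field F] {τ : F} (A : Matrix.SpecialLinearGroup (Fin 3) F)
    (hA : (A : Matrix (Fin 3) (Fin 3) F) = Three.X0 τ)
    (Y : Matrix.SpecialLinearGroup (Fin 3) F) (hY : Three.IsC τ (Y : Matrix (Fin 3) (Fin 3) F)) :
    ∃ u : Matrix.SpecialLinearGroup (Fin 3) F, Y = u * A * u⁻¹ := by
  obtain ⟨P, hP, hPY⟩ := hY
  have hc : (P * !![P.det⁻¹, 0, 0; 0, 1, 0; 0, 0, 1]).det = 1 := by
    rw [det_mul, det_fin_three !![P.det⁻¹, 0, 0; 0, 1, 0; 0, 0, 1]]
    simp [hP]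
  let U : Matrix.SpecialLinearGroup (Fin 3) F := ⟨_, hc⟩
  suffices h : Y * U = U * A from ⟨U, eq_mul_inv_of_mul_eq h⟩
  apply ext_val
  change (Y : Matrix (Fin 3) (Fin 3) F) * (P * !![P.det⁻¹, 0, 0; 0, 1, 0; 0, 0, 1]) =
    P * !![P.det⁻¹, 0, 0; 0, 1, 0; 0, 0, 1] * (A : Matrix (Fin 3) (Fin 3) F)
  rw [hA]
  change (Y : Matrix (Fin 3) (Fin 3) F) * (P * !![P.det⁻¹, 0, 0; 0, 1, 0; 0, 0, 1]) = P * !![P.det⁻¹, 0, 0; 0, 1, 0; 0, 0, 1] * Three.X0 τ
  rw [← Matrix.mul_assoc, hPY, Matrix.mul_assoc, Matrix.mul_assoc]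
  congr 1
  rw [Three.X0_def]
  ext i j
  fin_cases i <;> fin_cases j <;> simp [Matrix.mul_apply, Fin.sum_univ_three]

/-- `X0 τ` has order dividing `q ^ 2 - 1` -/
theorem pow_X0 {F : Type*} [Field F] [Finite F] {τ : F} (hτ : τ ≠ 0) (hirr : ∀ a : F, a ^ 2 - τ * a - 1 ≠ 0)
    (A : Matrix.SpecialLinearGroup (Fin 3) F)
    (hA : (A : Matrix (Fin 3) (Fin 3) F) = Three.X0 τ) : A ^ (Nat.card F ^ 2 - 1) = 1 := by
  have h1 : (aeval (Three.X0 τ)) ((X - C (-1)) * (X ^ 2 - C τ * X + C (-1)) : F[X]) = 0 := by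
    simp only [map_mul, map_sub, map_add, map_pow, aeval_X, aeval_C]
    ext i j
    fin_cases i <;> fin_cases j <;>
      simp [Three.X0_def, sq, Matrix.mul_apply, Fin.sum_univ_three, Algebra.algebraMap_eq_smul_one]
  have h2 : ((X - C (-1)) * (X ^ 2 - C τ * X + C (-1)) : F[X]) ∣ X ^ (Nat.card F) ^ 2 - X := by
    apply IsCoprime.mul_dvd _ (Irr.dvd_of_lin (-1)) (Irr.dvd_of_irr τ (-1) ?_)
    · refine ⟨-C τ⁻¹ * (X - C (1 + τ)), C τ⁻¹, ?_⟩
      have : (C τ⁻¹ * C τ : F[X]) = 1 := by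
        rw [← C_mul, inv_mul_cancel₀ hτ, C_1]
      simp only [map_neg, map_add, C_1]
      linear_combination this
    · intro a ha
      apply hirr a
      linear_combination ha
  obtain ⟨r, hr⟩ := h2
  have h3 : (Three.X0 τ) ^ (Nat.card F) ^ 2 - Three.X0 τ = 0 := by
    have := congrArg (aeval (Three.X0 τ)) hr
    rw [map_mul, h1, zero_mul] at this
    simpa using this
  have h4 : A ^ (Nat.card F) ^ 2 = A := by
    apply ext_val
    change (A : Matrix (Fin 3) (Fin 3) F) ^ (Nat.card F) ^ 2 = (A : Matrix (Fin 3) (Fin 3) F)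
    rw [hA]
    exact sub_eq_zero.1 h3
  have h5 : 1 ≤ Nat.card F ^ 2 := Nat.one_le_pow _ _ Nat.card_pos
  have h6 : A ^ (Nat.card F ^ 2 - 1) * A = 1 * A := by
    rw [← pow_succ, Nat.sub_add_cancel h5, h4, one_mul]
  exact mul_right_cancel h6

/-- A form of Thompson's conjecture for PSL(3,q), q > 2 (covering the non-identity elements), with a semisimple class: for F a finite field of characteristic p with more than 2 elements there is an element x of PSL(3,F) of order prime to p such that every non-identity element of PSL(3,F) is a product of two conjugates of x. -/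
theorem result {F : Type*} [Field F] [Fintype F] (p : ℕ) [Fact p.Prime] [CharP F p] (h3 : 3 ≤ Fintype.card F) :
    ∃ x : Matrix.ProjectiveSpecialLinearGroup (Fin 3) F, ¬ p ∣ orderOf x ∧ ∀ g : Matrix.ProjectiveSpecialLinearGroup (Fin 3) F, g ≠ 1 → ∃ u v : Matrix.ProjectiveSpecialLinearGroup (Fin 3) F, g = (u * x * u⁻¹) * (v * x * v⁻¹) := by
  obtain ⟨τ, hτ, hirr⟩ := Irr.exists_tau h3
  have hX0 : (Three.X0 τ).det = 1 := by
    rw [Three.X0_def, det_fin_three]
    simp
  let A : Matrix.SpecialLinearGroup (Fin 3) F := ⟨Three.X0 τ, hX0⟩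
  have hA : (A : Matrix (Fin 3) (Fin 3) F) = Three.X0 τ := rfl
  have hpow : A ^ (Nat.card F ^ 2 - 1) = 1 := pow_X0 hτ hirr A hA
  refine ⟨(A : ProjectiveSpecialLinearGroup (Fin 3) F), ?_, ?_⟩
  · apply Irr.not_dvd_orderOf (F := F) p
    rw [← QuotientGroup.mk_pow, hpow]
    rfl
  · intro g
    induction g using QuotientGroup.induction_on with
    | H g =>
      intro hg
      have hgs : ∀ c : F, (g : Matrix (Fin 3) (Fin 3) F) ≠ c • (1 : Matrix (Fin 3) (Fin 3) F) := by
        intro c hc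
        apply hg
        rw [QuotientGroup.eq_one_iff, Subgroup.mem_center_iff]
        intro h
        apply ext_val
        change (h : Matrix (Fin 3) (Fin 3) F) * (g : Matrix (Fin 3) (Fin 3) F) =
          (g : Matrix (Fin 3) (Fin 3) F) * (h : Matrix (Fin 3) (Fin 3) F)
        rw [hc]
        simp
      obtain ⟨y, z, hy, hz, hyz⟩ := Three.good_of_not_scalar hτ hirr (g : Matrix (Fin 3) (Fin 3) F) g.2 hgs
      have hyd : y.det = 1 := by
        obtain ⟨P, hP, hPY⟩ := hy
        have := congrArg det hPY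
        rw [det_mul, det_mul, hX0, mul_one] at this
        exact (mul_eq_right₀ hP).1 this
      have hzd : z.det = 1 := by
        obtain ⟨P, hP, hPY⟩ := hz
        have := congrArg det hPY
        rw [det_mul, det_mul, hX0, mul_one] at this
        exact (mul_eq_right₀ hP).1 this
      obtain ⟨u, hu⟩ := exists_conj A hA ⟨y, hyd⟩ hy
      obtain ⟨v, hv⟩ := exists_conj A hA ⟨z, hzd⟩ hz
      refine ⟨u, v, ?_⟩
      have : g = (u * A * u⁻¹) * (v * A * v⁻¹) := by
        rw [← hu, ← hv]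
        apply ext_val
        exact hyz
      rw [this]
      rfl

end Cfsg.Agent.S2459
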