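import Cfsg.Statements.S2460
import Cfsg.Agent.H147.FourD

set_option autoImplicit false
open Cfsg

namespace Cfsg.Agent.S2460

open Matrix Polynomial Cfsg.Agent.H147

/-- in characteristic two there is an element different from `0`, `1` -/
theorem exists_ne {F : Type*} [Field F] [Fintype F] (h3 : 3 ≤ Fintype.card F) : ∃ m : F, m ≠ 0 ∧ m ≠ 1 := by
  classical
  by_contra hcon
  push Not at hcon
  have : (Finset.univ : Finset F) ⊆ {0, 1} := by
    intro x _
    by_cases hx : x = 0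
    · simp [hx]
    · simp [hcon x hx]
  have h2 := Finset.card_le_card this
  rw [Finset.card_univ] at h2
  have h4 : ({0, 1} : Finset F).card ≤ 2 := Finset.card_le_two
  omega

/-- the parameters -/
theorem exists_hyp {F : Type*} [Field F] [Fintype F] (h3 : 3 ≤ Fintype.card F) : ∃ τ δ : F, Four.Hyp τ δ := by
  obtain ⟨t, ht, hirr⟩ := Irr.exists_tau h3
  have key : ∀ c : F, c ≠ 0 → -c ^ 2 ≠ 1 → Four.Hyp (c * t) (-c ^ 2) := by
    intro c hc hc1
    refine ⟨mul_ne_zero hc ht, neg_ne_zero.2 (pow_ne_zero 2 hc), hc1, ?_⟩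
    intro a ha
    apply hirr (a / c)
    field_simp
    linear_combination ha
  by_cases h2 : (2 : F) = 0
  · obtain ⟨m, hm0, hm1⟩ := exists_ne h3
    refine ⟨_, _, key m hm0 ?_⟩
    intro h
    apply hm1
    have : (m - 1) * (m - 1) = 0 := by linear_combination -h - m * h2
    exact sub_eq_zero.1 (mul_self_eq_zero.1 this)
  · refine ⟨_, _, key 1 one_ne_zero ?_⟩
    intro h
    apply h2
    linear_combination -h

theorem X0_mem {F : Type*} [Field F] {τ δ : F} (H : Four.Hyp τ δ) : Four.X0 τ δ ∈ symplecticGroup (Fin 2) F := by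
  apply Four.diag_mem
  rw [Two.comp_def, det_fin_two_of]
  simpa using H.d0

/-- the order of `X0 τ δ` divides `q ^ 2 - 1` -/
theorem pow_X0 {F : Type*} [Field F] [Finite F] {τ δ : F} (H : Four.Hyp τ δ) :
    (Four.X0 τ δ) ^ (Nat.card F ^ 2 - 1) = 1 := by
  have h1 : (aeval (Two.comp τ δ)) (X ^ 2 - C τ * X + C δ : F[X]) = 0 := by
    simp only [map_mul, map_sub, map_add, map_pow, aeval_X, aeval_C]
    ext i j
    fin_cases i <;> fin_cases j <;>
      simp [Two.comp_def, sq, Matrix.mul_apply, Fin.sum_univ_two, Algebra.algebraMap_eq_smul_one] <;> ring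
  obtain ⟨r, hr⟩ := Irr.dvd_of_irr τ δ H.irr
  have h3 : (Two.comp τ δ) ^ (Nat.card F) ^ 2 - Two.comp τ δ = 0 := by
    have := congrArg (aeval (Two.comp τ δ)) hr
    rw [map_mul, h1, zero_mul] at this
    simpa using this
  have hdet : IsUnit (Two.comp τ δ).det := by
    rw [Two.comp_def, det_fin_two_of]
    simpa using H.d0
  have h5 : 1 ≤ Nat.card F ^ 2 := Nat.one_le_pow _ _ Nat.card_pos
  have h6 : (Two.comp τ δ) ^ (Nat.card F ^ 2 - 1) = 1 := by
    have h7 : (Two.comp τ δ) ^ (Nat.card F ^ 2 - 1) * Two.comp τ δ = Two.comp τ δ := by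
      rw [← pow_succ, Nat.sub_add_cancel h5]
      exact sub_eq_zero.1 h3
    have h8 := congrArg (fun A : Matrix (Fin 2) (Fin 2) F => A * (Two.comp τ δ)⁻¹) h7
    rwa [Matrix.mul_assoc, mul_nonsing_inv _ hdet, Matrix.mul_one] at h8
  have h9 : (((Two.comp τ δ)ᵀ)⁻¹) ^ (Nat.card F ^ 2 - 1) = 1 := by
    rw [Matrix.inv_pow', ← Matrix.transpose_pow, h6, transpose_one, inv_one]
  rw [Four.X0, fromBlocks_diagonal_pow, h6, h9, fromBlocks_one]

/-- A form of Thompson's conjecture for the simple groups PSp(4,q), q ≥ 3 (covering the non-identity elements), with a semisimple class: for F a finite field of characteristic p with at least 3 elements there is an element x of PSp(4,F) of order prime to p such that every non-identity element of PSp(4,F) is a product of two conjugates of x. -/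
theorem result {F : Type*} [Field F] [Fintype F] (p : ℕ) [Fact p.Prime] [CharP F p] (h3 : 3 ≤ Fintype.card F) :
    ∃ x : Cfsg.PSp 2 F, ¬ p ∣ orderOf x ∧ ∀ g : Cfsg.PSp 2 F, g ≠ 1 → ∃ u v : Cfsg.PSp 2 F, g = (u * x * u⁻¹) * (v * x * v⁻¹) := by
  obtain ⟨τ, δ, H⟩ := exists_hyp h3
  let A : symplecticGroup (Fin 2) F := ⟨Four.X0 τ δ, X0_mem H⟩
  have hpow : A ^ (Nat.card F ^ 2 - 1) = 1 := by
    apply Subtype.ext
    exact pow_X0 H
  refine ⟨(A : Cfsg.PSp 2 F), ?_, ?_⟩
  · apply Irr.not_dvd_orderOf (F := F) p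
    rw [← QuotientGroup.mk_pow, hpow]
    rfl
  · intro g
    induction g using QuotientGroup.induction_on with
    | H g =>
      intro hg
      have hg1 : (g : Matrix (Fin 2 ⊕ Fin 2) (Fin 2 ⊕ Fin 2) F) ≠ 1 := by
        intro h
        apply hg
        have : g = 1 := Subtype.ext h
        rw [this]
        rfl
      have hg2 : (g : Matrix (Fin 2 ⊕ Fin 2) (Fin 2 ⊕ Fin 2) F) ≠ -1 := by
        intro h
        apply hg
        rw [QuotientGroup.eq_one_iff, Subgroup.mem_center_iff]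
        intro k
        apply Subtype.ext
        change (k : Matrix (Fin 2 ⊕ Fin 2) (Fin 2 ⊕ Fin 2) F) * (g : Matrix (Fin 2 ⊕ Fin 2) (Fin 2 ⊕ Fin 2) F) =
          (g : Matrix (Fin 2 ⊕ Fin 2) (Fin 2 ⊕ Fin 2) F) * (k : Matrix (Fin 2 ⊕ Fin 2) (Fin 2 ⊕ Fin 2) F)
        rw [h]
        simp
      -- the conclusion for a good element
      have key : ∀ k : symplecticGroup (Fin 2) F, Four.Good τ δ (k : Matrix (Fin 2 ⊕ Fin 2) (Fin 2 ⊕ Fin 2) F) →
          ∃ u v : Cfsg.PSp 2 F, (k : Cfsg.PSp 2 F) = (u * (A : Cfsg.PSp 2 F) * u⁻¹) * (v * (A : Cfsg.PSp 2 F) * v⁻¹) := by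
        rintro k ⟨y, z, ⟨P, hP, hyP⟩, ⟨Q, hQ, hzQ⟩, hk⟩
        have hPu := Four.unit_of_mem hP
        have hQu := Four.unit_of_mem hQ
        let P' : symplecticGroup (Fin 2) F := ⟨P, hP⟩
        let Q' : symplecticGroup (Fin 2) F := ⟨Q, hQ⟩
        have hy : y = ((P' * A * P'⁻¹ : symplecticGroup (Fin 2) F) : Matrix (Fin 2 ⊕ Fin 2) (Fin 2 ⊕ Fin 2) F) := by
          have : ((P'⁻¹ : symplecticGroup (Fin 2) F) : Matrix (Fin 2 ⊕ Fin 2) (Fin 2 ⊕ Fin 2) F) = P⁻¹ :=
            SymplecticGroup.coe_inv' P'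
          change y = P * Four.X0 τ δ * ((P'⁻¹ : symplecticGroup (Fin 2) F) : Matrix (Fin 2 ⊕ Fin 2) (Fin 2 ⊕ Fin 2) F)
          rw [this, ← hyP, Matrix.mul_assoc, mul_nonsing_inv _ hPu, Matrix.mul_one]
        have hz : z = ((Q' * A * Q'⁻¹ : symplecticGroup (Fin 2) F) : Matrix (Fin 2 ⊕ Fin 2) (Fin 2 ⊕ Fin 2) F) := by
          have : ((Q'⁻¹ : symplecticGroup (Fin 2) F) : Matrix (Fin 2 ⊕ Fin 2) (Fin 2 ⊕ Fin 2) F) = Q⁻¹ :=
            SymplecticGroup.coe_inv' Q'
          change z = Q * Four.X0 τ δ * ((Q'⁻¹ : symplecticGroup (Fin 2) F) : Matrix (Fin 2 ⊕ Fin 2) (Fin 2 ⊕ Fin 2) F)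
          rw [this, ← hzQ, Matrix.mul_assoc, mul_nonsing_inv _ hQu, Matrix.mul_one]
        refine ⟨(P' : Cfsg.PSp 2 F), (Q' : Cfsg.PSp 2 F), ?_⟩
        have : k = (P' * A * P'⁻¹) * (Q' * A * Q'⁻¹) := by
          apply Subtype.ext
          rw [hk, hy, hz]
          rfl
        rw [this]
        rfl
      rcases Four.good_main H (fun _ => exists_ne h3) g.2 hg1 hg2 with h | h
      · exact key g h
      · let g' : symplecticGroup (Fin 2) F := ⟨-g.1, SymplecticGroup.neg_mem g.2⟩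
        have hgg : ((g : symplecticGroup (Fin 2) F) : Cfsg.PSp 2 F) = (g' : Cfsg.PSp 2 F) := by
          rw [QuotientGroup.eq, Subgroup.mem_center_iff]
          have h1 : (g⁻¹ * g' : symplecticGroup (Fin 2) F) = ⟨-1, SymplecticGroup.neg_mem (one_mem _)⟩ := by
            rw [inv_mul_eq_iff_eq_mul]
            apply Subtype.ext
            change -g.1 = g.1 * (-1)
            simp
          intro k
          rw [h1]
          apply Subtype.ext
          change k.1 * (-1) = (-1) * k.1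
          simp
        rw [hgg]
        exact key g' h

end Cfsg.Agent.S2460
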