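import Cfsg.Statements.S2483
import Cfsg.Agent.H166.Cov.Main

set_option autoImplicit false
open Cfsg

namespace Cfsg.Agent.S2483

/-- The covering number of PSL(n,q) is n: let F be a finite field with q ≥ 4 elements and n ≥ 3. For every non-identity element x of PSL(n,F), every element of PSL(n,F) is a product of n conjugates of x; and for some non-identity x, some element is not a product of n − 1 conjugates of x. -/
theorem result {F : Type*} [Field F] [Fintype F] (h4 : 4 ≤ Fintype.card F) (n : ℕ) (hn : 3 ≤ n) :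
    (∀ x : Matrix.ProjectiveSpecialLinearGroup (Fin n) F, x ≠ 1 → ∀ g : Matrix.ProjectiveSpecialLinearGroup (Fin n) F, ∃ f : Fin n → Matrix.ProjectiveSpecialLinearGroup (Fin n) F, g = (List.ofFn fun i => f i * x * (f i)⁻¹).prod) ∧
    (∃ x : Matrix.ProjectiveSpecialLinearGroup (Fin n) F, x ≠ 1 ∧ ∃ g : Matrix.ProjectiveSpecialLinearGroup (Fin n) F, ∀ f : Fin (n - 1) → Matrix.ProjectiveSpecialLinearGroup (Fin n) F, g ≠ (List.ofFn fun i => f i * x * (f i)⁻¹).prod) := by
  have hq : 4 ≤ Nat.card F := by rwa [Nat.card_eq_fintype_card]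
  exact ⟨Cfsg.Agent.H166.Cov.upper_of n hn fun T g hT hns hg =>
    Cfsg.Agent.H166.Cov.main hq hn T g hT hns hg, Cfsg.Agent.H166.Cov.lower n hn⟩

end Cfsg.Agent.S2483
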