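import Mathlib
import Cfsg.Statements.S2485

set_option autoImplicit false
open scoped Pointwise
open Cfsg

namespace Cfsg.Agent.S2485

open Matrix

section
variable {q : ℕ} [Fact q.Prime]

/-- the group PGL -/
abbrev PG (q : ℕ) [Fact q.Prime] : Type :=
  GL (Fin 2) (ZMod q) ⧸ Subgroup.center (GL (Fin 2) (ZMod q))

/-- the projection -/
abbrev mk (g : GL (Fin 2) (ZMod q)) : PG q := QuotientGroup.mk g

theorem mk_eq_iff {g h : GL (Fin 2) (ZMod q)} : mk g = mk h ↔
    ∃ c : ZMod q, (h : Matrix (Fin 2) (Fin 2) (ZMod q)) = c • (g : Matrix (Fin 2) (Fin 2) (ZMod q)) := by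
  rw [mk, mk, QuotientGroup.eq, GeneralLinearGroup.mem_center_iff_val_mem_range_scalar]
  constructor
  · rintro ⟨c, hc⟩
    refine ⟨c, ?_⟩
    have h1 : (h : Matrix (Fin 2) (Fin 2) (ZMod q)) = (g : Matrix (Fin 2) (Fin 2) (ZMod q)) *
        ((g⁻¹ * h : GL (Fin 2) (ZMod q)) : Matrix (Fin 2) (Fin 2) (ZMod q)) := by
      rw [← Units.val_mul, mul_inv_cancel_left]
    rw [h1]
    change _ = c • _
    have h2 : ((g⁻¹ * h : GL (Fin 2) (ZMod q)) : Matrix (Fin 2) (Fin 2) (ZMod q)) =
      scalar (Fin 2) c := hc.symm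
    rw [h2, scalar_apply, ← smul_one_eq_diagonal, Matrix.mul_smul, mul_one]
  · rintro ⟨c, hc⟩
    refine ⟨c, ?_⟩
    rw [scalar_apply, ← smul_one_eq_diagonal, Units.val_mul, hc, Matrix.mul_smul, ← Units.val_mul,
      inv_mul_cancel, Units.val_one]

/-- the matrix `A` -/
def A (q : ℕ) [Fact q.Prime] : GL (Fin 2) (ZMod q) :=
  ⟨!![0, 1; -1, 0], !![0, -1; 1, 0], by
    ext i j; fin_cases i <;> fin_cases j <;> simp, by
    ext i j; fin_cases i <;> fin_cases j <;> simp⟩

theorem A_val : (A q : Matrix (Fin 2) (Fin 2) (ZMod q)) = !![0, 1; -1, 0] := rfl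

theorem sq_add_sq (h4 : q % 4 = 3) {a b : ZMod q} (h : a ^ 2 + b ^ 2 = 0) : a = 0 ∧ b = 0 := by
  have key : ∀ a b : ZMod q, a ^ 2 + b ^ 2 = 0 → a = 0 := by
    intro a b h
    by_contra ha
    have h1 : IsSquare (-1 : ZMod q) := by
      refine ⟨b * a⁻¹, ?_⟩
      have h2 : b ^ 2 = - a ^ 2 := by linear_combination h
      calc (-1 : ZMod q) = -(a ^ 2 * (a⁻¹) ^ 2) := by
            rw [← mul_pow, mul_inv_cancel₀ ha, one_pow]
        _ = (b ^ 2) * (a⁻¹) ^ 2 := by rw [h2]; ring
        _ = _ := by ring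
    rw [ZMod.exists_sq_eq_neg_one_iff] at h1
    exact h1 h4
  exact ⟨key a b h, key b a (by rw [add_comm]; exact h)⟩

/-- elements normalising `A` up to scalars -/
theorem form_of_comm {g : GL (Fin 2) (ZMod q)} (h : mk (g * A q) = mk (A q * g)) :
    (∃ a b : ZMod q, (g : Matrix (Fin 2) (Fin 2) (ZMod q)) = !![a, b; -b, a]) ∨
    (∃ a b : ZMod q, (g : Matrix (Fin 2) (Fin 2) (ZMod q)) = !![a, b; b, -a]) := by
  obtain ⟨c, hc⟩ := mk_eq_iff.1 h
  rw [Units.val_mul, Units.val_mul, A_val] at hc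
  have hdet := congrArg Matrix.det hc
  rw [det_mul, det_smul, det_mul, Fintype.card_fin, mul_comm (det _) (det _)] at hdet
  have hd : (g : Matrix (Fin 2) (Fin 2) (ZMod q)).det ≠ 0 := by
    have := (GeneralLinearGroup.det g).ne_zero
    rwa [GeneralLinearGroup.val_det_apply] at this
  have hA : (!![0, 1; -1, 0] : Matrix (Fin 2) (Fin 2) (ZMod q)).det = 1 := by
    rw [det_fin_two_of]; ring
  rw [hA, mul_one] at hdet
  have hc2 : c ^ 2 = 1 := by
    apply mul_right_cancel₀ hd
    rw [one_mul]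
    linear_combination -hdet
  have h00 := congrFun (congrFun hc 0) 0
  have h01 := congrFun (congrFun hc 0) 1
  have h10 := congrFun (congrFun hc 1) 0
  have h11 := congrFun (congrFun hc 1) 1
  simp [Matrix.mul_apply, Fin.sum_univ_two] at h00 h01 h10 h11
  have hc' : (c - 1) * (c + 1) = 0 := by linear_combination hc2
  rcases mul_eq_zero.1 hc' with h1 | h1
  · left
    have hc1 : c = 1 := by linear_combination h1
    subst hc1
    refine ⟨g.1 0 0, g.1 0 1, ?_⟩
    ext i j
    fin_cases i <;> fin_cases j <;> simp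
    · linear_combination h00
    · linear_combination h01
  · right
    have hc1 : c = -1 := by linear_combination h1
    subst hc1
    refine ⟨g.1 0 0, g.1 0 1, ?_⟩
    ext i j
    fin_cases i <;> fin_cases j <;> simp
    · linear_combination h00
    · linear_combination h01

theorem one_eq : ((1 : GL (Fin 2) (ZMod q)) : Matrix (Fin 2) (Fin 2) (ZMod q)) = 1 := rfl

/-- powers -/
theorem pow_of_comm (h4 : q % 4 = 3) {g : GL (Fin 2) (ZMod q)}
    (h : mk (g * A q) = mk (A q * g)) : (mk g) ^ (q + 1) = 1 := by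
  have h1 : (mk g) ^ (q + 1) = mk (g ^ (q + 1)) := rfl
  rw [h1, show (1 : PG q) = mk 1 from rfl, eq_comm, mk_eq_iff, one_eq, Units.val_pow_eq_pow_val]
  rcases form_of_comm h with ⟨a, b, hg⟩ | ⟨a, b, hg⟩
  · refine ⟨a ^ 2 + b ^ 2, ?_⟩
    have e1 : (g : Matrix (Fin 2) (Fin 2) (ZMod q)) =
        a • (1 : Matrix (Fin 2) (Fin 2) (ZMod q)) + b • !![0, 1; -1, 0] := by
      rw [hg]
      ext i j
      fin_cases i <;> fin_cases j <;> simp
    have hJ : (!![0, 1; -1, 0] : Matrix (Fin 2) (Fin 2) (ZMod q)) ^ 2 = -1 := by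
      rw [sq]
      ext i j
      fin_cases i <;> fin_cases j <;> simp
    have hJq : (!![0, 1; -1, 0] : Matrix (Fin 2) (Fin 2) (ZMod q)) ^ q = - !![0, 1; -1, 0] := by
      have key : ∀ n : ℕ, n % 4 = 3 →
          (!![0, 1; -1, 0] : Matrix (Fin 2) (Fin 2) (ZMod q)) ^ n = - !![0, 1; -1, 0] := by
        intro n hn
        have hq : n = 2 * (2 * (n / 4) + 1) + 1 := by omega
        rw [hq, pow_succ, pow_mul, hJ, Odd.neg_one_pow ⟨_, rfl⟩, neg_mul, one_mul]
      exact key q h4
    have e2 : (g : Matrix (Fin 2) (Fin 2) (ZMod q)) ^ q =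
        a • (1 : Matrix (Fin 2) (Fin 2) (ZMod q)) - b • !![0, 1; -1, 0] := by
      rw [e1, add_pow_char_of_commute, smul_pow, smul_pow, one_pow, hJq, ZMod.pow_card,
        ZMod.pow_card, smul_neg, sub_eq_add_neg]
      exact ((Commute.one_left _).smul_left _).smul_right _
    have e3 : a • (1 : Matrix (Fin 2) (Fin 2) (ZMod q)) - b • !![0, 1; -1, 0] =
        !![a, -b; b, a] := by
      ext i j
      fin_cases i <;> fin_cases j <;> simp
    rw [pow_succ, e2, hg, e3]
    ext i j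
    fin_cases i <;> fin_cases j <;> simp <;> ring
  · have e1 : (g : Matrix (Fin 2) (Fin 2) (ZMod q)) ^ 2 = (a ^ 2 + b ^ 2) • 1 := by
      rw [hg, sq]
      ext i j
      fin_cases i <;> fin_cases j <;> simp <;> ring
    have hq : q + 1 = 2 * ((q + 1) / 2) := by omega
    refine ⟨(a ^ 2 + b ^ 2) ^ ((q + 1) / 2), ?_⟩
    conv_lhs => rw [hq]
    rw [pow_mul, e1, smul_pow, one_pow]

theorem cent_isPGroup (h4 : q % 4 = 3) {k : ℕ} (hk : q + 1 = 2 ^ k) :
    IsPGroup 2 (Subgroup.centralizer {mk (A q)} : Subgroup (PG q)) := by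
  rintro ⟨t, ht⟩
  refine ⟨k, ?_⟩
  apply Subtype.ext
  change t ^ 2 ^ k = 1
  obtain ⟨g, rfl⟩ := QuotientGroup.mk_surjective t
  rw [Subgroup.mem_centralizer_singleton_iff] at ht
  rw [← hk]
  exact pow_of_comm h4 ht

/-- the common element -/
theorem exists_common (h4 : q % 4 = 3) (r : GL (Fin 2) (ZMod q)) :
    ∃ t : PG q, t ≠ 1 ∧ t * mk (A q) = mk (A q) * t ∧
      t * (mk r * mk (A q) * (mk r)⁻¹) = (mk r * mk (A q) * (mk r)⁻¹) * t := by
  have hq2 : (2 : ZMod q) ≠ 0 := by
    intro h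
    have h1 : ((2 : ℕ) : ZMod q) = 0 := by exact_mod_cast h
    rw [ZMod.natCast_eq_zero_iff] at h1
    have := Nat.le_of_dvd (by norm_num) h1
    interval_cases q <;> omega
  have hA2 : (A q : Matrix (Fin 2) (Fin 2) (ZMod q)) * A q = -1 := by
    rw [A_val]
    ext i j
    fin_cases i <;> fin_cases j <;> simp
  set B : GL (Fin 2) (ZMod q) := r * A q * r⁻¹ with hB
  have hB2 : (B : Matrix (Fin 2) (Fin 2) (ZMod q)) * B = -1 := by
    have : B * B = r * (A q * A q) * r⁻¹ := by rw [hB]; group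
    rw [← Units.val_mul, this, Units.val_mul, Units.val_mul, Units.val_mul, hA2, mul_neg, mul_one,
      neg_mul, ← Units.val_mul, mul_inv_cancel, Units.val_one]
  have hmB : mk r * mk (A q) * (mk r)⁻¹ = mk B := rfl
  rw [hmB]
  set C : Matrix (Fin 2) (Fin 2) (ZMod q) := (A q : Matrix (Fin 2) (Fin 2) (ZMod q)) * B -
    (B : Matrix (Fin 2) (Fin 2) (ZMod q)) * A q with hC
  have hAC : (A q : Matrix (Fin 2) (Fin 2) (ZMod q)) * C = - (C * A q) := by
    rw [hC, mul_sub, sub_mul, ← mul_assoc, ← mul_assoc, hA2, mul_assoc (B : Matrix (Fin 2) (Fin 2) (ZMod q)), hA2]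
    noncomm_ring
  have hBC : (B : Matrix (Fin 2) (Fin 2) (ZMod q)) * C = - (C * B) := by
    rw [hC, mul_sub, sub_mul, ← mul_assoc, ← mul_assoc, hB2, mul_assoc (A q : Matrix (Fin 2) (Fin 2) (ZMod q)), hB2]
    noncomm_ring
  by_cases h0 : C = 0
  · refine ⟨mk (A q), ?_, rfl, ?_⟩
    · intro h
      rw [show (1 : PG q) = mk 1 from rfl, eq_comm, mk_eq_iff] at h
      obtain ⟨c, hc⟩ := h
      have := congrFun (congrFun hc 0) 1
      rw [A_val] at this
      simp at this
    · change mk (A q * B) = mk (B * A q)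
      congr 1
      apply Units.ext
      rw [Units.val_mul, Units.val_mul]
      exact sub_eq_zero.1 h0
  · have h00 := congrFun (congrFun hAC 0) 0
    have h01 := congrFun (congrFun hAC 0) 1
    rw [A_val] at h00 h01
    simp [Matrix.mul_apply, Fin.sum_univ_two] at h00 h01
    have hCf : C = !![C 0 0, C 0 1; C 0 1, - C 0 0] := by
      ext i j
      fin_cases i <;> fin_cases j <;> simp
      · exact h00
      · exact h01
    have hdet : C.det ≠ 0 := by
      intro hd
      rw [hCf, det_fin_two_of] at hd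
      obtain ⟨h1, h2⟩ := sq_add_sq h4 (a := C 0 0) (b := C 0 1) (by linear_combination -hd)
      apply h0
      rw [hCf, h1, h2]
      ext i j
      fin_cases i <;> fin_cases j <;> simp
    let c : GL (Fin 2) (ZMod q) := GeneralLinearGroup.mkOfDetNeZero C hdet
    have hc : (c : Matrix (Fin 2) (Fin 2) (ZMod q)) = C := rfl
    refine ⟨mk c, ?_, ?_, ?_⟩
    · intro h
      rw [show (1 : PG q) = mk 1 from rfl, eq_comm, mk_eq_iff] at h
      obtain ⟨d, hd⟩ := h
      rw [hc, one_eq] at hd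
      have e00 := congrFun (congrFun hd 0) 0
      have e01 := congrFun (congrFun hd 0) 1
      have e11 := congrFun (congrFun hd 1) 1
      have f11 := congrFun (congrFun hCf 1) 1
      simp at e00 e01 e11 f11
      have : (2 : ZMod q) * C 0 0 = 0 := by
        linear_combination e00 - e11 + f11
      have h3 := (mul_eq_zero.1 this).resolve_left hq2
      apply h0
      rw [hCf, h3, e01]
      ext i j
      fin_cases i <;> fin_cases j <;> simp
    · change mk (c * A q) = mk (A q * c)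
      rw [mk_eq_iff]
      refine ⟨-1, ?_⟩
      rw [Units.val_mul, Units.val_mul, hc, hAC, neg_smul, one_smul]
    · change mk (c * B) = mk (B * c)
      rw [mk_eq_iff]
      refine ⟨-1, ?_⟩
      have h5 : ((B * c : GL (Fin 2) (ZMod q)) : Matrix (Fin 2) (Fin 2) (ZMod q)) =
        (B : Matrix (Fin 2) (Fin 2) (ZMod q)) * C := rfl
      have h6 : ((c * B : GL (Fin 2) (ZMod q)) : Matrix (Fin 2) (Fin 2) (ZMod q)) =
        C * (B : Matrix (Fin 2) (Fin 2) (ZMod q)) := rfl
      rw [h5, h6, hBC, neg_smul, one_smul]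

end

/-- Let q = 2^k − 1 ≥ 7 be a prime and let G = PGL(2,q), the general linear group of degree 2 over the field with q elements modulo its centre. Then any two Sylow 2-subgroups of G have a non-trivial intersection: for a Sylow 2-subgroup H and every x ∈ G, H ∩ H^x ≠ 1. -/
theorem result {q k : ℕ} [Fact q.Prime] (hk : q + 1 = 2 ^ k) (hq : 7 ≤ q)
    (H : Sylow 2 (GL (Fin 2) (ZMod q) ⧸ Subgroup.center (GL (Fin 2) (ZMod q))))
    (x : GL (Fin 2) (ZMod q) ⧸ Subgroup.center (GL (Fin 2) (ZMod q))) :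
    (H : Subgroup (GL (Fin 2) (ZMod q) ⧸ Subgroup.center (GL (Fin 2) (ZMod q)))) ⊓ MulAut.conj x • (H : Subgroup _) ≠ ⊥ := by
  have : Fact (Nat.Prime 2) := ⟨Nat.prime_two⟩
  have h4 : q % 4 = 3 := by
    have h3 : 3 ≤ k := by
      by_contra hcon
      have : k < 3 := by omega
      interval_cases k <;> omega
    obtain ⟨j, rfl⟩ : ∃ j, k = j + 2 := ⟨k - 2, by omega⟩
    rw [pow_add] at hk
    omega
  obtain ⟨H0, hH0⟩ := (cent_isPGroup h4 hk).exists_le_sylow
  obtain ⟨y, hy⟩ := MulAction.exists_smul_eq (PG q) H0 H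
  obtain ⟨r, hr⟩ := QuotientGroup.mk_surjective (y⁻¹ * x * y)
  obtain ⟨t, ht1, htA, htB⟩ := exists_common h4 r
  intro hbot
  apply ht1
  have hmem : y * t * y⁻¹ ∈ (⊥ : Subgroup (PG q)) := by
    rw [← hbot, Subgroup.mem_inf]
    constructor
    · rw [← hy]
      change _ ∈ (MulAut.conj y • (H0 : Subgroup (PG q)))
      rw [Subgroup.mem_pointwise_smul_iff_inv_smul_mem]
      have : t ∈ (H0 : Subgroup (PG q)) := by
        apply hH0
        rw [Subgroup.mem_centralizer_singleton_iff]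
        exact htA
      simpa [MulAut.smul_def, mul_assoc] using this
    · rw [← hy]
      change _ ∈ MulAut.conj x • (MulAut.conj y • (H0 : Subgroup (PG q)))
      rw [Subgroup.mem_pointwise_smul_iff_inv_smul_mem,
        Subgroup.mem_pointwise_smul_iff_inv_smul_mem]
      have : (mk r)⁻¹ * t * mk r ∈ (H0 : Subgroup (PG q)) := by
        apply hH0
        rw [Subgroup.mem_centralizer_singleton_iff]
        calc (mk r)⁻¹ * t * mk r * mk (A q) =
            (mk r)⁻¹ * (t * (mk r * mk (A q) * (mk r)⁻¹)) * mk r := by group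
          _ = (mk r)⁻¹ * ((mk r * mk (A q) * (mk r)⁻¹) * t) * mk r := by rw [htB]
          _ = _ := by group
      have h2 : mk r = y⁻¹ * x * y := hr
      rw [h2] at this
      have h3 : (y⁻¹ * x * y)⁻¹ * t * (y⁻¹ * x * y) =
          (MulAut.conj y)⁻¹ • (MulAut.conj x)⁻¹ • (y * t * y⁻¹) := by
        simp only [MulAut.smul_def, ← map_inv, MulAut.conj_apply]
        group
      rwa [← h3]
  rw [Subgroup.mem_bot] at hmem
  have : t = y⁻¹ * (y * t * y⁻¹) * y := by group
  rw [this, hmem]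
  group

end Cfsg.Agent.S2485
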