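import Cfsg.Statements.S2509
import Cfsg.Agent.H158.PronB
import Cfsg.Agent.H158.PronSp

set_option autoImplicit false
open Cfsg

namespace Cfsg.Agent.S2509

open Cfsg.Agent.H158.PronProd Cfsg.Agent.H158.PronB Cfsg.Agent.H158.PronSp Cfsg.Agent.H158.PronM2

/-- Let G be a finite direct product of groups PSp_{2m_i}(F_i) (the symplectic group on a 2m_i-dimensional space modulo its centre), where each m_i is a power of 2 (m_i = 1, giving PSL₂, is allowed), each F_i is a finite field of odd order, and each factor PSp_{2m_i}(F_i) is a simple group. Then every subgroup H of G of odd index is pronormal in G: for every g ∈ G the subgroups H and gHg⁻¹ are conjugate by an element of the subgroup they generate. -/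
theorem result {t : ℕ}
    (m : Fin t → ℕ) (F : Fin t → Type*) [∀ i, Field (F i)] [∀ i, Fintype (F i)]
    (hm : ∀ i, ∃ k : ℕ, m i = 2 ^ k) (hodd : ∀ i, Odd (Fintype.card (F i)))
    (hs : ∀ i, IsSimpleGroup (Cfsg.PSp (m i) (F i)))
    (H : Subgroup (Π i, Cfsg.PSp (m i) (F i))) (hH : Odd H.index) : Cfsg.IsPronormal H := by
  have h2 : ∀ i, (2 : F i) ≠ 0 := by
    intro i h
    have h1 : CharP (F i) 2 := by
      obtain ⟨p, hp⟩ := CharP.exists (F i)
      have h3 : p ∣ 2 := (CharP.cast_eq_zero_iff (F i) p 2).1 (by exact_mod_cast h)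
      rcases (Nat.dvd_prime Nat.prime_two).1 h3 with rfl | rfl
      · exact absurd rfl (CharP.char_ne_one (F i) 1)
      · exact hp
    have h3 := FiniteField.even_card_of_char_two (ringChar.eq (F i) 2)
    have h4 := Nat.odd_iff.1 (hodd i)
    omega
  refine (PN.pi (fun i => Cfsg.PSp (m i) (F i)) fun i => ?_).pron H hH
  obtain ⟨k, hk⟩ := hm i
  obtain ⟨a, b, hab⟩ := exists_sq_add_sq (-1 : F i)
  have h3 : PN (Matrix.symplecticGroup (Fin (m i)) (F i)) :=
    PN.of_surjective _ (toSp_surjective hab (h2 i)) (pn_GU (h2 i) (by rw [Fintype.card_fin]; exact hk))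
  exact PN.of_surjective (QuotientGroup.mk' _) (QuotientGroup.mk'_surjective _) h3

end Cfsg.Agent.S2509
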