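import Cfsg.Statements.S2511
import Cfsg.Agent.H159.UniFinal
import Cfsg.Agent.H159.Orders

set_option autoImplicit false
open Cfsg

namespace Cfsg.Agent.S2511

open Cfsg.Agent.H159
open Cfsg.Agent.H186 (st)

/-- For `n - 1` not a power of `p` there is an element of order divisible by `r p^e`. -/
theorem exists_mixed {F : Type*} [Field F] [Fintype F] {q : ℕ} (hK : Fintype.card F = q ^ 2)
    (p n r : ℕ) [Fact p.Prime] [CharP F p] (hn : 3 ≤ n) (hr : r.Prime) (hrq : r ∣ q + 1)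
    (hrn : ¬ r ∣ n) (hj : ¬ ∃ j : ℕ, n - 1 = p ^ j) :
    ∃ x : Cfsg.PSU n F q, p ^ Nat.clog p n ∣ orderOf x ∧ r ∣ orderOf x := by
  have hp : p.Prime := Fact.out
  obtain ⟨B, hB, -, hB2⟩ := exists_uni_unip (n := n - 1) hK p (by omega)
  obtain ⟨h, e', h1, h2, h3, h4, h5, h6, h7, h8⟩ := exists_block hK (d := n - 1) (by omega)
    (k := 1) (by omega) B hB
  obtain ⟨y, hy1, hy2⟩ := exists_psu_mul_r hK hn (by
    rw [Fintype.card_sum, Fintype.card_fin, Fintype.card_fin]; omega) hr hrq hrn h e' h1 h2 h3 h4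
      h5 h6 h7
  refine ⟨y, ?_, hy2⟩
  refine dvd_trans ?_ (hB2 _ (h8 _ (hy1 _ (pow_orderOf_eq_one y))))
  apply pow_dvd_pow
  have h9 : n - 1 ≤ p ^ Nat.clog p (n - 1) := Nat.le_pow_clog hp.one_lt _
  have h10 : n - 1 ≠ p ^ Nat.clog p (n - 1) := fun h => hj ⟨_, h⟩
  exact (Nat.clog_le_iff_le_pow hp.one_lt).2 (by omega)

/-- Let F be a finite field with q² elements, q = p^a, n ≥ 3 with (n, q) ≠ (3, 2), L = PSU(n, q) realised over F, and let r be a prime dividing q + 1 and not dividing n. Then for every m the direct product L × L × L × (ℤ/r)^m has the same set of element orders as L × L × L; and if n − 1 is not a power of p, then already L × L × (ℤ/r)^m has the same set of element orders as L × L. -/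
theorem result {F : Type*} [Field F] [Fintype F] (p a n q r m : ℕ) (hp : p.Prime) (ha : 1 ≤ a) (hq : q = p ^ a) (hF : Fintype.card F = q ^ 2)
    (hn : 3 ≤ n) (hn3 : ¬ (n = 3 ∧ q = 2)) (hr : r.Prime) (hrq : r ∣ q + 1) (hrn : ¬ r ∣ n) :
    Set.range (orderOf : Cfsg.PSU n F q × Cfsg.PSU n F q × Cfsg.PSU n F q × Multiplicative (Fin m → ZMod r) → ℕ) = Set.range (orderOf : Cfsg.PSU n F q × Cfsg.PSU n F q × Cfsg.PSU n F q → ℕ) ∧
    ((¬ ∃ j : ℕ, n - 1 = p ^ j) →
      Set.range (orderOf : Cfsg.PSU n F q × Cfsg.PSU n F q × Multiplicative (Fin m → ZMod r) → ℕ) = Set.range (orderOf : Cfsg.PSU n F q × Cfsg.PSU n F q → ℕ)) := by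
  have : Fact p.Prime := ⟨hp⟩
  have : CharP F p := charP_of_card_eq_prime_pow (f := a * 2) (by rw [hF, hq, ← pow_mul])
  have hfin : Finite (Cfsg.PSU n F q) := by
    have : Finite (Matrix.SpecialLinearGroup (Fin n) F) :=
      Finite.of_injective (fun g => (g : Matrix (Fin n) (Fin n) F)) Subtype.val_injective
    exact Quotient.finite _
  have hcop : Nat.Coprime ((uz q n).natAbs / Nat.gcd n (q + 1)) (p ^ Nat.clog p n) := by
    apply Nat.Coprime.pow_right
    rw [Nat.coprime_comm, Nat.Prime.coprime_iff_not_dvd hp]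
    intro h
    have h1 : p ∣ ((-(q : ℤ)) ^ n - 1).natAbs := by
      rw [← natAbs_uz_mul]
      exact (h.trans (Nat.div_dvd_of_dvd (gcd_dvd_uz q n))).mul_left _
    rw [← Int.natCast_dvd] at h1
    have h2 : (p : ℤ) ∣ (-(q : ℤ)) ^ n := by
      refine dvd_pow ?_ (by omega)
      rw [dvd_neg, Int.natCast_dvd_natCast, hq]
      exact dvd_pow_self p (by omega)
    have h3 : (p : ℤ) ∣ 1 := by
      have := dvd_sub h2 h1
      simpa using this
    have h4 : p ∣ 1 := by exact_mod_cast h3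
    exact hp.one_lt.ne' (Nat.dvd_one.1 h4)
  have hdich := psu_dich (F := F) (p := p) hF hq hn (Nat.le_pow_clog hp.one_lt n) hr hrq hrn
  have hlift : ∀ (s : ℕ) (B : Matrix (Fin n) (Fin n) F), st q B * B = 1 → B.det = 1 →
      (∀ m, ScPow F B m → s ∣ m) → ∃ x : Cfsg.PSU n F q, s ∣ orderOf x := by
    intro s B h1 h2 h3
    obtain ⟨x, hx⟩ := exists_psu_of_mat hF hn (Fintype.card_fin n) B h1 h2
    exact ⟨x, h3 _ ((hx _).1 (pow_orderOf_eq_one x))⟩
  obtain ⟨h1, h2⟩ := both_of r m _ _ hcop hdich (by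
      obtain ⟨B, h1, h2, h3⟩ := exists_uni_singer (n := n) hF p a hq (by omega)
      exact hlift _ B h1 h2 h3) (by
      obtain ⟨B, h1, h2, h3⟩ := exists_uni_unip (n := n) hF p (by omega)
      exact hlift _ B h1 h2 h3) (by
      obtain ⟨B, hB, -, -⟩ := exists_uni_unip (n := n - 1) hF p (by omega)
      obtain ⟨h, e', h1, h2, h3, h4, h5, h6, h7, h8⟩ := exists_block hF (d := n - 1) (by omega)
        (k := 1) (by omega) B hB
      obtain ⟨y, hy1, hy2⟩ := exists_psu_mul_r hF hn (by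
        rw [Fintype.card_sum, Fintype.card_fin, Fintype.card_fin]; omega) hr hrq hrn h e' h1 h2 h3
          h4 h5 h6 h7
      exact ⟨y, hy2⟩)
  exact ⟨h1, fun hj => h2 (exists_mixed hF p n r hn hr hrq hrn hj)⟩

end Cfsg.Agent.S2511
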