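import Cfsg.Statements.S2512
import Cfsg.Agent.H159.SpDich
import Cfsg.Agent.H159.Orders

set_option autoImplicit false
open Cfsg

namespace Cfsg.Agent.S2512

open Module Cfsg.Agent.H159

/-- Let F be a finite field of odd order q = p^a, n ≥ 2 (with q ≥ 3 automatic), and L = PSp(2n, F). Then for every m the direct product L × L × L × (ℤ/2)^m has the same set of element orders as L × L × L; and if 2n − 1 is not a power of p, then already L × L × (ℤ/2)^m has the same set of element orders as L × L. -/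
theorem result {F : Type*} [Field F] [Fintype F] (p a n m : ℕ) (hp : p.Prime) (ha : 1 ≤ a) (hF : Fintype.card F = p ^ a) (hodd : Odd (Fintype.card F))
    (hn : 2 ≤ n) :
    Set.range (orderOf : Cfsg.PSp n F × Cfsg.PSp n F × Cfsg.PSp n F × Multiplicative (Fin m → ZMod 2) → ℕ) = Set.range (orderOf : Cfsg.PSp n F × Cfsg.PSp n F × Cfsg.PSp n F → ℕ) ∧
    ((¬ ∃ j : ℕ, 2 * n - 1 = p ^ j) →
      Set.range (orderOf : Cfsg.PSp n F × Cfsg.PSp n F × Multiplicative (Fin m → ZMod 2) → ℕ) = Set.range (orderOf : Cfsg.PSp n F × Cfsg.PSp n F → ℕ)) := by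
  have hpf : Fact p.Prime := ⟨hp⟩
  have hchar : CharP F p := charP_of_card_eq_prime_pow hF
  have hfin : Finite (Cfsg.PSp n F) := by
    have : Finite (Matrix.symplecticGroup (Fin n) F) :=
      Finite.of_injective (fun g => (g : Matrix (Fin n ⊕ Fin n) (Fin n ⊕ Fin n) F))
        Subtype.val_injective
    exact Quotient.finite _
  set q := Fintype.card F with hq
  have hpodd : Odd p := by
    rw [hF] at hodd
    exact hodd.of_dvd_nat (dvd_pow_self p (by omega))
  have h2 : (2 : F) ≠ 0 := by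
    intro h
    have h3 : p ∣ 2 := (CharP.cast_eq_zero_iff F p 2).1 (by exact_mod_cast h)
    have h4 : p = 2 := (Nat.prime_dvd_prime_iff_eq hp Nat.prime_two).1 h3
    rw [h4] at hpodd
    exact absurd hpodd (by decide)
  -- `q ^ n = 2 * k + 1`
  obtain ⟨k, hk⟩ := hodd.pow (n := n)
  have hk1 : q ^ n - 1 = 2 * k := by omega
  have hk2 : q ^ n + 1 = 2 * (k + 1) := by omega
  obtain ⟨u, hu⟩ := exists_half (F := F) p n k h2 (by omega) (Or.inl (by rw [← hq, hk1]))
  obtain ⟨v, hv⟩ := exists_half (F := F) p n (k + 1) h2 (by omega) (Or.inr (by rw [← hq, hk2]))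
  obtain ⟨w, hw⟩ := exists_unip_psp (F := F) p n hodd (by omega)
  set P := p ^ Nat.clog p (2 * n) with hP
  -- trichotomy
  have key : ∀ x : Cfsg.PSp n F, (∃ y : Cfsg.PSp n F, orderOf x ∣ orderOf y ∧ 2 ∣ orderOf y) ∨
      orderOf x ∣ k ∨ orderOf x ∣ k + 1 ∨ orderOf x ∣ P := by
    intro x
    rcases Nat.even_or_odd (orderOf x) with hx | hx
    · exact Or.inl ⟨x, dvd_rfl, hx.two_dvd⟩
    · rcases sp_dich (p := p) hodd (by omega) x hx with ⟨y, hy⟩ | h | h | h
      · exact Or.inl ⟨y, (Dvd.intro_left 2 rfl).trans hy, (Dvd.intro _ rfl).trans hy⟩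
      · rw [← hq, hk1] at h
        exact Or.inr (Or.inl (Nat.dvd_of_mul_dvd_mul_left (by norm_num) h))
      · rw [← hq, hk2] at h
        exact Or.inr (Or.inr (Or.inl (Nat.dvd_of_mul_dvd_mul_left (by norm_num) h)))
      · exact Or.inr (Or.inr (Or.inr h))
  have htwo : 2 ∣ k ∨ 2 ∣ k + 1 := by
    rcases Nat.even_or_odd k with h | ⟨j, hj⟩
    · exact Or.inl h.two_dvd
    · exact Or.inr ⟨j + 1, by omega⟩
  constructor
  · apply cube_eq 2 m
    intro x y z
    have hbig : ∀ x : Cfsg.PSp n F, (orderOf x ∣ k ∨ orderOf x ∣ k + 1 ∨ orderOf x ∣ P) →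
        orderOf x ∣ Nat.lcm (orderOf u) (Nat.lcm (orderOf v) (orderOf w)) := by
      intro x hx
      rcases hx with h | h | h
      · exact (h.trans hu).trans (Nat.dvd_lcm_left _ _)
      · exact ((h.trans hv).trans (Nat.dvd_lcm_left _ _)).trans (Nat.dvd_lcm_right _ _)
      · exact ((h.trans hw).trans (Nat.dvd_lcm_right _ _)).trans (Nat.dvd_lcm_right _ _)
    rcases key x with ⟨x', hx1, hx2⟩ | hx
    · refine ⟨x', y, z, Nat.lcm_dvd (Nat.lcm_dvd ?_ ?_) ?_⟩
      · exact hx1.trans (Nat.dvd_lcm_left _ _)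
      · exact Nat.dvd_lcm_right _ _
      · exact hx2.trans (Nat.dvd_lcm_left _ _)
    rcases key y with ⟨y', hy1, hy2⟩ | hy
    · refine ⟨x, y', z, Nat.lcm_dvd (Nat.lcm_dvd ?_ (Nat.lcm_dvd ?_ ?_)) ?_⟩
      · exact (Nat.dvd_lcm_left _ _)
      · exact (hy1.trans (Nat.dvd_lcm_left _ _)).trans (Nat.dvd_lcm_right _ _)
      · exact (Nat.dvd_lcm_right _ _).trans (Nat.dvd_lcm_right _ _)
      · exact (hy2.trans (Nat.dvd_lcm_left _ _)).trans (Nat.dvd_lcm_right _ _)
    rcases key z with ⟨z', hz1, hz2⟩ | hz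
    · refine ⟨x, y, z', Nat.lcm_dvd (Nat.lcm_dvd ?_ (Nat.lcm_dvd ?_ ?_)) ?_⟩
      · exact (Nat.dvd_lcm_left _ _)
      · exact (Nat.dvd_lcm_left _ _).trans (Nat.dvd_lcm_right _ _)
      · exact (hz1.trans (Nat.dvd_lcm_right _ _)).trans (Nat.dvd_lcm_right _ _)
      · exact (hz2.trans (Nat.dvd_lcm_right _ _)).trans (Nat.dvd_lcm_right _ _)
    refine ⟨u, v, w, Nat.lcm_dvd (Nat.lcm_dvd (hbig x hx) (Nat.lcm_dvd (hbig y hy) (hbig z hz))) ?_⟩
    rcases htwo with h | h
    · exact (h.trans hu).trans (Nat.dvd_lcm_left _ _)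
    · exact ((h.trans hv).trans (Nat.dvd_lcm_left _ _)).trans (Nat.dvd_lcm_right _ _)
  · intro hj
    -- an element of order divisible by `2 P`
    obtain ⟨t, ht⟩ : ∃ t : Cfsg.PSp n F, 2 * P ∣ orderOf t := by
      obtain ⟨t, ht⟩ := exists_decomp' (F := F) p 1 (n - 1) n 1 (by omega) h2 hodd le_rfl (by omega)
        odd_one (Or.inl (one_dvd _))
      refine ⟨t, dvd_trans ?_ ht⟩
      rw [one_mul]
      apply Nat.mul_dvd_mul_left
      apply pow_dvd_pow
      rw [Nat.clog_le_iff_le_pow hp.one_lt]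
      have h3 : 2 * (n - 1) ≤ p ^ Nat.clog p (2 * (n - 1)) := Nat.le_pow_clog hp.one_lt _
      have h4 : 2 * n - 1 ≠ p ^ Nat.clog p (2 * (n - 1)) := fun h => hj ⟨_, h⟩
      obtain ⟨i, hi⟩ := hpodd.pow (n := Nat.clog p (2 * (n - 1)))
      omega
    have hP1 : ∀ x : Cfsg.PSp n F, orderOf x ∣ P → orderOf x ∣ orderOf t := fun x hx =>
      (hx.trans (Dvd.intro_left 2 rfl)).trans ht
    have ht2 : 2 ∣ orderOf t := (Dvd.intro _ rfl).trans ht
    apply square_eq 2 m
    intro x y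
    rcases key x with ⟨x', hx1, hx2⟩ | hx
    · refine ⟨x', y, Nat.lcm_dvd (Nat.lcm_dvd ?_ ?_) ?_⟩
      · exact hx1.trans (Nat.dvd_lcm_left _ _)
      · exact Nat.dvd_lcm_right _ _
      · exact hx2.trans (Nat.dvd_lcm_left _ _)
    rcases key y with ⟨y', hy1, hy2⟩ | hy
    · refine ⟨x, y', Nat.lcm_dvd (Nat.lcm_dvd ?_ ?_) ?_⟩
      · exact (Nat.dvd_lcm_left _ _)
      · exact (hy1.trans (Nat.dvd_lcm_right _ _))
      · exact (hy2.trans (Nat.dvd_lcm_right _ _))
    -- the cases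
    have hfinish : ∀ x' y' : Cfsg.PSp n F, orderOf x ∣ Nat.lcm (orderOf x') (orderOf y') →
        orderOf y ∣ Nat.lcm (orderOf x') (orderOf y') → 2 ∣ Nat.lcm (orderOf x') (orderOf y') →
        ∃ x' y' : Cfsg.PSp n F, Nat.lcm (Nat.lcm (orderOf x) (orderOf y)) 2 ∣
          Nat.lcm (orderOf x') (orderOf y') := fun x' y' h3 h4 h5 =>
      ⟨x', y', Nat.lcm_dvd (Nat.lcm_dvd h3 h4) h5⟩
    have htl : ∀ a b : ℕ, 2 ∣ a ∨ 2 ∣ b → 2 ∣ Nat.lcm a b := by
      rintro a b (h | h)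
      · exact h.trans (Nat.dvd_lcm_left _ _)
      · exact h.trans (Nat.dvd_lcm_right _ _)
    have htk : 2 ∣ Nat.lcm (orderOf u) (orderOf v) := htl _ _ (htwo.imp (fun h => h.trans hu)
      (fun h => h.trans hv))
    rcases hx with hx | hx | hx <;> rcases hy with hy | hy | hy
    · exact hfinish u t ((hx.trans hu).trans (Nat.dvd_lcm_left _ _))
        ((hy.trans hu).trans (Nat.dvd_lcm_left _ _)) (htl _ _ (Or.inr ht2))
    · exact hfinish u v ((hx.trans hu).trans (Nat.dvd_lcm_left _ _))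
        ((hy.trans hv).trans (Nat.dvd_lcm_right _ _)) htk
    · exact hfinish u t ((hx.trans hu).trans (Nat.dvd_lcm_left _ _))
        ((hP1 y hy).trans (Nat.dvd_lcm_right _ _)) (htl _ _ (Or.inr ht2))
    · exact hfinish u v ((hx.trans hv).trans (Nat.dvd_lcm_right _ _))
        ((hy.trans hu).trans (Nat.dvd_lcm_left _ _)) htk
    · exact hfinish v t ((hx.trans hv).trans (Nat.dvd_lcm_left _ _))
        ((hy.trans hv).trans (Nat.dvd_lcm_left _ _)) (htl _ _ (Or.inr ht2))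
    · exact hfinish v t ((hx.trans hv).trans (Nat.dvd_lcm_left _ _))
        ((hP1 y hy).trans (Nat.dvd_lcm_right _ _)) (htl _ _ (Or.inr ht2))
    · exact hfinish u t ((hP1 x hx).trans (Nat.dvd_lcm_right _ _))
        ((hy.trans hu).trans (Nat.dvd_lcm_left _ _)) (htl _ _ (Or.inr ht2))
    · exact hfinish v t ((hP1 x hx).trans (Nat.dvd_lcm_right _ _))
        ((hy.trans hv).trans (Nat.dvd_lcm_left _ _)) (htl _ _ (Or.inr ht2))
    · exact hfinish u t ((hP1 x hx).trans (Nat.dvd_lcm_right _ _))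
        ((hP1 y hy).trans (Nat.dvd_lcm_right _ _)) (htl _ _ (Or.inr ht2))

end Cfsg.Agent.S2512
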