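import Cfsg.Statements.S2513
import Cfsg.Agent.H159.AlgUnits
import Cfsg.Agent.H159.Orders

set_option autoImplicit false
open Cfsg

namespace Cfsg.Agent.S2513

open Module Cfsg.Agent.H159

theorem exists_mersenne {F : Type*} [Field F] [Fintype F] (hF : Fintype.card F = 2) (n i : ℕ)
    (hi : 1 ≤ i) (hin : i ≤ n) :
    ∃ x : Matrix.ProjectiveSpecialLinearGroup (Fin n) F, 2 ^ i - 1 ∣ orderOf x := by
  have : Fact (Nat.Prime 2) := ⟨Nat.prime_two⟩
  have : CharP F 2 := charP_of_card_eq_prime hF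
  have hone : ∀ c : F, c ≠ 0 → c = 1 := by
    intro c hc
    have := FiniteField.pow_card_sub_one_eq_one c hc
    rwa [hF, pow_one] at this
  obtain ⟨K, _, _, _, _, a, hK, ha, -⟩ := exists_field_gen F 2 i (by omega)
  have hp : 2 ^ i - 1 ∣ pord F a := by
    rw [← hF, ← ha]
    apply orderOf_dvd_of_pow_eq_one
    obtain ⟨c, hc⟩ := (scPow_iff_pord_dvd a (pord F a)).2 dvd_rfl
    have hc0 : c ≠ 0 := by
      rintro rfl
      rw [map_zero, ← Units.val_pow_eq_pow_val] at hc
      exact (a ^ _).ne_zero hc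
    rw [hone c hc0, map_one] at hc
    exact Units.ext (by simpa using hc)
  rcases hin.lt_or_eq with hlt | heq
  · obtain ⟨x, hx⟩ := exists_psl_of_alg_lt (n := n) (by rw [hK]; exact hlt) a
    exact ⟨x, hp.trans hx⟩
  · obtain ⟨x, hx⟩ := exists_psl_of_alg_eq (n := n) (by rw [hK]; exact heq) a
      (hone _ ((a.isUnit.map (Algebra.norm F)).ne_zero))
    exact ⟨x, hp.trans hx⟩

theorem exists_two_power {F : Type*} [Field F] [Fintype F] (hF : Fintype.card F = 2) (n : ℕ)
    (hn : 2 ≤ n) :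
    ∃ x : Matrix.ProjectiveSpecialLinearGroup (Fin n) F, 2 ^ Nat.clog 2 n ∣ orderOf x := by
  have : Fact (Nat.Prime 2) := ⟨Nat.prime_two⟩
  have : CharP F 2 := charP_of_card_eq_prime hF
  obtain ⟨a, ha1, ha2⟩ := exists_unipotent_alg F 2 n (by omega)
  have hne : (Polynomial.X ^ n : Polynomial F) ≠ 0 := pow_ne_zero _ Polynomial.X_ne_zero
  have : FiniteDimensional F (AdjoinRoot (Polynomial.X ^ n : Polynomial F)) :=
    (AdjoinRoot.powerBasis hne).finite
  have : Nontrivial (AdjoinRoot (Polynomial.X ^ n : Polynomial F)) := AdjoinRoot.nontrivial _ (by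
    rw [Polynomial.degree_X_pow]
    exact_mod_cast (by omega : n ≠ 0))
  obtain ⟨x, hx⟩ := exists_psl_of_alg_eq (n := n) (by
    rw [(AdjoinRoot.powerBasis hne).finrank, AdjoinRoot.powerBasis_dim, Polynomial.natDegree_X_pow])
      a ha1
  exact ⟨x, ha2 ▸ hx⟩

theorem pow_exp {F : Type*} [Field F] [Fintype F] (hF : Fintype.card F = 2) (n : ℕ)
    (x : Matrix.ProjectiveSpecialLinearGroup (Fin n) F) :
    x ^ (lcmQ 2 n * 2 ^ Nat.clog 2 n) = 1 := by
  have : Fact (Nat.Prime 2) := ⟨Nat.prime_two⟩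
  have : CharP F 2 := charP_of_card_eq_prime hF
  obtain ⟨g, hg, hx⟩ := exists_end_of_psl x
  rw [hx]
  have hunit : IsUnit g := by
    rw [LinearMap.isUnit_iff_isUnit_det, hg]
    exact isUnit_one
  have := end_pow_lcmQ 2 n (Nat.clog 2 n) (by simp) (Nat.le_pow_clog (by norm_num) n) g hunit
  rw [hF] at this
  exact ⟨1, by rw [this, map_one]⟩

theorem exists_tuple {F : Type*} [Field F] [Fintype F] (hF : Fintype.card F = 2) (n k : ℕ)
    (hn : 2 ≤ n) (hk : (n + 3) / 2 ≤ k) :
    ∃ f : Fin k → Matrix.ProjectiveSpecialLinearGroup (Fin n) F,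
      lcmQ 2 n * 2 ^ Nat.clog 2 n ∣ orderOf f := by
  obtain ⟨u, hu⟩ := exists_two_power hF n hn
  choose! m hm using fun i (h : 1 ≤ i ∧ i ≤ n) => exists_mersenne hF n i h.1 h.2
  let f : Fin k → Matrix.ProjectiveSpecialLinearGroup (Fin n) F := fun j =>
    if j.1 = 0 then u else m (n - (j.1 - 1))
  have hf : ∀ j, orderOf (f j) ∣ orderOf f := by
    intro j
    apply orderOf_dvd_of_pow_eq_one
    have := congrFun (pow_orderOf_eq_one f) j
    simpa using this
  refine ⟨f, Nat.Coprime.mul_dvd_of_dvd_of_dvd ?_ ?_ ?_⟩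
  · apply Nat.Coprime.pow_right
    have h1 : lcmQ 2 n ∣ ∏ i ∈ Finset.Icc 1 n, (2 ^ i - 1) :=
      Finset.lcm_dvd fun i hi => Finset.dvd_prod_of_mem _ hi
    refine Nat.Coprime.coprime_dvd_left h1 ?_
    apply Nat.Coprime.prod_left
    intro i hi
    rw [Finset.mem_Icc] at hi
    rw [Nat.coprime_comm, Nat.Prime.coprime_iff_not_dvd Nat.prime_two]
    have h2 : 2 ∣ 2 ^ i := dvd_pow_self 2 (by omega)
    have h3 : 0 < 2 ^ i := by positivity
    omega
  · apply Finset.lcm_dvd
    intro i hi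
    rw [Finset.mem_Icc] at hi
    have h0 : n % i < i := Nat.mod_lt _ (by omega)
    have h1 : i * (n / i) + n % i = n := Nat.div_add_mod n i
    have h2 : 1 ≤ n / i := (Nat.one_le_div_iff (by omega)).2 hi.2
    have h3 : i ≤ i * (n / i) := Nat.le_mul_of_pos_right i h2
    have h4 : n < 2 * (i * (n / i)) := by omega
    have h5 : n - i * (n / i) + 1 < k := by omega
    refine dvd_trans ?_ (hf ⟨n - i * (n / i) + 1, h5⟩)
    have h6 : f ⟨n - i * (n / i) + 1, h5⟩ = m (i * (n / i)) := by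
      simp only [f]
      rw [if_neg (by omega)]
      congr 1
      omega
    rw [h6]
    exact (Nat.pow_sub_one_dvd_pow_sub_one 2 (Dvd.intro _ rfl)).trans (hm _ ⟨by omega, by omega⟩)
  · have h5 : 0 < k := by omega
    refine dvd_trans ?_ (hf ⟨0, h5⟩)
    simpa [f] using hu

/-- Let F be the field with two elements, n ≥ 2, L = PSL(n, F) and k₀ = ⌊(n + 3)/2⌋. Then for every k ≥ k₀ the direct product of k copies of L has the same set of element orders as the direct product of k₀ copies of L. -/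
theorem result {F : Type*} [Field F] [Fintype F] (hF : Fintype.card F = 2) (n k : ℕ) (hn : 2 ≤ n) (hk : (n + 3) / 2 ≤ k) :
    Set.range (orderOf : (Fin k → Matrix.ProjectiveSpecialLinearGroup (Fin n) F) → ℕ) = Set.range (orderOf : (Fin ((n + 3) / 2) → Matrix.ProjectiveSpecialLinearGroup (Fin n) F) → ℕ) := by
  have hfin : Finite (Matrix.ProjectiveSpecialLinearGroup (Fin n) F) := by
    have : Finite (Matrix.SpecialLinearGroup (Fin n) F) :=
      Finite.of_injective (fun g => (g : Matrix (Fin n) (Fin n) F)) Subtype.val_injective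
    exact Quotient.finite _
  have key : ∀ k₁ k₂ : ℕ, (n + 3) / 2 ≤ k₁ →
      Set.range (orderOf : (Fin k₂ → Matrix.ProjectiveSpecialLinearGroup (Fin n) F) → ℕ) ⊆
      Set.range (orderOf : (Fin k₁ → Matrix.ProjectiveSpecialLinearGroup (Fin n) F) → ℕ) := by
    rintro k₁ k₂ h₁ _ ⟨y, rfl⟩
    obtain ⟨f, hf⟩ := exists_tuple hF n k₁ hn h₁
    obtain ⟨w, hw⟩ := exists_orderOf_eq f (m := orderOf y) (by
      refine dvd_trans ?_ hf
      apply orderOf_dvd_of_pow_eq_one
      funext j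
      rw [Pi.pow_apply, pow_exp hF n (y j)]
      rfl)
    exact ⟨w, hw⟩
  exact Set.Subset.antisymm (key _ _ le_rfl) (key _ _ hk)

end Cfsg.Agent.S2513
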