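import Cfsg.Statements.S2515
import Mathlib
import Cfsg.Agent.S2516

set_option autoImplicit false
open Cfsg

namespace Cfsg.Agent.S2515

open Matrix Polynomial

/-! ### The set of maximal element orders -/

theorem mu_eq {Ω S : Set ℕ} (hanti : ∀ m ∈ S, ∀ m' ∈ S, m ∣ m' → m = m')
    (hle : ∀ n ∈ Ω, ∃ m ∈ S, n ∣ m) (hge : ∀ m ∈ S, ∃ n ∈ Ω, m ∣ n) :
    {n : ℕ | n ∈ Ω ∧ ∀ m ∈ Ω, n ∣ m → m = n} = S := by
  have hS : S ⊆ Ω := by
    intro m hm
    obtain ⟨n, hn, hmn⟩ := hge m hm
    obtain ⟨m', hm', hnm'⟩ := hle n hn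
    have h1 := hanti m hm m' hm' (hmn.trans hnm')
    subst h1
    rwa [Nat.dvd_antisymm hmn hnm']
  ext n
  constructor
  · rintro ⟨hn, hmax⟩
    obtain ⟨m, hm, hnm⟩ := hle n hn
    rw [← hmax m (hS hm) hnm]
    exact hm
  · intro hn
    refine ⟨hS hn, fun m hm hnm => ?_⟩
    obtain ⟨m', hm', hmm'⟩ := hle m hm
    have h1 := hanti n hn m' hm' (hnm.trans hmm')
    subst h1
    exact Nat.dvd_antisymm hmm' hnm

/-! ### The semidirect product -/

section Semi

variable {F : Type*} [Field F] {V : Type*} [AddCommGroup V] [Module F V]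
  {G : Type*} [Group G] (ρ : Representation F G V)

theorem pow_eq_one_of (hfaith : ∀ g, ρ g = 1 → g = 1) (x : Multiplicative V ⋊[S2516.act ρ] G)
    {n : ℕ} (h1 : ρ x.right ^ n = 1) (hinj : ∀ v, ρ x.right v = v → v = 0) : x ^ n = 1 := by
  refine SemidirectProduct.ext ?_ ?_
  · rw [(S2516.pow_left ρ x n).1]
    have h2 : (ρ x.right - 1) * ∑ i ∈ Finset.range n, ρ x.right ^ i = 0 := by
      rw [mul_geom_sum, h1, sub_self]
    have h3 := hinj ((∑ i ∈ Finset.range n, ρ x.right ^ i) (Multiplicative.toAdd x.left)) (by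
      have := LinearMap.congr_fun h2 (Multiplicative.toAdd x.left)
      rw [Module.End.mul_apply, LinearMap.sub_apply, Module.End.one_apply, LinearMap.zero_apply,
        sub_eq_zero] at this
      exact this)
    rw [h3]
    rfl
  · rw [(S2516.pow_left ρ x n).2]
    apply hfaith
    rw [map_pow, h1]

theorem pow_three_eq_one_of [CharP F 3] (hfaith : ∀ g, ρ g = 1 → g = 1)
    (x : Multiplicative V ⋊[S2516.act ρ] G)
    {n : ℕ} (h1 : ρ x.right ^ n = 1) : x ^ (n * 3) = 1 := by
  have hr : x.right ^ n = 1 := by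
    apply hfaith
    rw [map_pow, h1]
  obtain ⟨w, hw⟩ : ∃ w : V, x ^ n = SemidirectProduct.inl (Multiplicative.ofAdd w) := by
    refine ⟨_, SemidirectProduct.ext (S2516.pow_left ρ x n).1 ?_⟩
    rw [(S2516.pow_left ρ x n).2, hr]
    rfl
  rw [pow_mul, hw, ← map_pow, ← ofAdd_nsmul]
  have : 3 • w = 0 := by
    rw [← Nat.cast_smul_eq_nsmul F]
    have : ((3 : ℕ) : F) = 0 := CharP.cast_eq_zero F 3
    rw [this, zero_smul]
  rw [this]
  exact map_one _

end Semi

/-! ### The linear maps `X ↦ ε A X φ(A)ᵀ` -/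

theorem sq_eq_one_iff_of_side_cond' {K : Type*} [Field K] {x : K} (h : x ^ 2 = 1) :
    x = 1 ∨ x = -1 := by
  have : (x - 1) * (x + 1) = 0 := by linear_combination h
  rcases mul_eq_zero.1 this with h | h
  · left; linear_combination h
  · right; linear_combination h

section Lin

variable {F : Type} [Field F] [CharP F 3]

instance instFactThree : Fact (Nat.Prime 3) := ⟨Nat.prime_three⟩

/-- Two by two matrices. -/
abbrev M2 (F : Type) := Matrix (Fin 2) (Fin 2) F

/-- The entrywise cube. -/
def cub (A : M2 F) : M2 F := A.map (frobenius F 3)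

omit [CharP F 3] in
theorem cub_def' [CharP F 3] (A : M2 F) : cub A = A.map (frobenius F 3) := rfl

theorem cub_mul (A B : M2 F) : cub (A * B) = cub A * cub B := by
  simp only [cub]
  exact Matrix.map_mul

theorem cub_one : cub (1 : M2 F) = 1 := by
  simp only [cub]
  exact Matrix.map_one _ (map_zero _) (map_one _)

/-- The representation of `SL(2, F) × {±1}` on `2 × 2` matrices. -/
noncomputable def Psi : SpecialLinearGroup (Fin 2) F × ℤˣ →* Module.End F (M2 F) where
  toFun a := ((a.2 : ℤ) : F) • (LinearMap.mulLeft F (a.1 : M2 F) ∘ₗ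
    LinearMap.mulRight F (cub (a.1 : M2 F))ᵀ)
  map_one' := by
    ext1
    simp [cub_one]
  map_mul' a b := by
    apply LinearMap.ext
    intro X
    have h : ((a.1 * b.1 : SpecialLinearGroup (Fin 2) F) : M2 F) = (a.1 : M2 F) * (b.1 : M2 F) :=
      rfl
    simp only [Prod.snd_mul, Prod.fst_mul, Units.val_mul, Int.cast_mul, h,
      cub_mul, Matrix.transpose_mul, LinearMap.smul_apply, LinearMap.comp_apply,
      LinearMap.mulLeft_apply, LinearMap.mulRight_apply, Module.End.mul_apply,
      Matrix.mul_smul, Matrix.smul_mul, smul_smul, Matrix.mul_assoc]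

theorem Psi_apply (a : SpecialLinearGroup (Fin 2) F × ℤˣ) (X : M2 F) :
    Psi a X = ((a.2 : ℤ) : F) • ((a.1 : M2 F) * (X * (cub (a.1 : M2 F))ᵀ)) := rfl

theorem three_eq : (3 : F) = 0 := by
  have h : ((3 : ℕ) : F) = 0 := CharP.cast_eq_zero F 3
  exact_mod_cast h

theorem one_ne_neg_one : (1 : F) ≠ -1 := by
  intro h
  have h3 := three_eq (F := F)
  have : (1 : F) = 0 := by linear_combination h3 - h
  exact one_ne_zero this

omit [CharP F 3] in
theorem sign_cases (ε : ℤˣ) : ((ε : ℤ) : F) = 1 ∧ ε = 1 ∨ ((ε : ℤ) : F) = -1 ∧ ε = -1 := by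
  rcases Int.units_eq_one_or ε with rfl | rfl
  · left; simp
  · right; simp

omit [CharP F 3] in
theorem sq_eq_one_iff_of_side_cond {x : F} (h : x ^ 2 = 1) : x = 1 ∨ x = -1 := by
  have : (x - 1) * (x + 1) = 0 := by linear_combination h
  rcases mul_eq_zero.1 this with h | h
  · left; linear_combination h
  · right; linear_combination h

/-- `Psi a = 1` only for `a = (±1, 1)`. -/
theorem Psi_eq_one {a : SpecialLinearGroup (Fin 2) F × ℤˣ} (h : Psi a = 1) :
    a.2 = 1 ∧ ((a.1 : M2 F) = 1 ∨ (a.1 : M2 F) = -1) := by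
  obtain ⟨⟨A, hA⟩, ε⟩ := a
  have h' : ∀ X : M2 F, ((ε : ℤ) : F) • (A * (X * (cub A)ᵀ)) = X := by
    intro X
    have := LinearMap.congr_fun h X
    rwa [Psi_apply] at this
  rw [Matrix.det_fin_two] at hA
  have hh : ∀ k l i j : Fin 2, ((ε : ℤ) : F) * (A i k * (A j l) ^ 3) =
      if i = k ∧ j = l then 1 else 0 := by
    intro k l i j
    have := congrFun (congrFun (h' (Matrix.of fun i j => if i = k ∧ j = l then 1 else 0)) i) j
    simp only [Matrix.smul_apply, Matrix.mul_apply, Matrix.transpose_apply, cub, Matrix.map_apply,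
      Matrix.of_apply, frobenius_def, smul_eq_mul] at this
    rw [← this]
    congr 1
    fin_cases k <;> fin_cases l <;> simp
  have a00 := hh 0 0 0 0
  have a11 := hh 0 0 1 1
  have b00 := hh 1 1 0 0
  have b11 := hh 1 1 1 1
  have c01 := hh 0 1 0 1
  simp only [and_self, if_true, Fin.isValue, one_ne_zero, zero_ne_one, if_false] at a00 a11 b00 b11 c01
  have hε0 : ((ε : ℤ) : F) ≠ 0 := by
    rcases sign_cases (F := F) ε with ⟨h, -⟩ | ⟨h, -⟩ <;> rw [h] <;> simp
  have hc : A 1 0 = 0 := by
    have : ((ε : ℤ) : F) * (A 1 0) ^ 4 = 0 := by linear_combination a11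
    rcases mul_eq_zero.1 this with h | h
    · exact absurd h hε0
    · exact pow_eq_zero_iff (by norm_num) |>.1 h
  have hb : A 0 1 = 0 := by
    have : ((ε : ℤ) : F) * (A 0 1) ^ 4 = 0 := by linear_combination b00
    rcases mul_eq_zero.1 this with h | h
    · exact absurd h hε0
    · exact pow_eq_zero_iff (by norm_num) |>.1 h
  rw [hb, hc] at hA
  have hd2 : ((ε : ℤ) : F) * (A 1 1) ^ 2 = 1 := by
    linear_combination c01 - ((ε : ℤ) : F) * (A 1 1)^2 * hA
  have hd4 : ((ε : ℤ) : F) * (A 1 1) ^ 4 = 1 := by linear_combination b11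
  have hd : (A 1 1) ^ 2 = 1 := by linear_combination hd4 - (A 1 1)^2 * hd2
  have hε : ((ε : ℤ) : F) = 1 := by rw [hd, mul_one] at hd2; exact hd2
  refine ⟨?_, ?_⟩
  · rcases sign_cases (F := F) ε with ⟨-, h⟩ | ⟨h, -⟩
    · exact h
    · exact absurd (hε.symm.trans h) one_ne_neg_one
  · rcases sq_eq_one_iff_of_side_cond hd with h | h
    · left
      have h0 : A 0 0 = 1 := by linear_combination hA - (A 0 0) * h
      ext i j
      fin_cases i <;> fin_cases j <;> simp [h, hb, hc, h0]
    · right
      have h0 : A 0 0 = -1 := by linear_combination - hA + (A 0 0) * h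
      ext i j
      fin_cases i <;> fin_cases j <;> simp [h, hb, hc, h0]

theorem Psi_of_one {a : SpecialLinearGroup (Fin 2) F × ℤˣ} (h1 : a.2 = 1)
    (h2 : (a.1 : M2 F) = 1 ∨ (a.1 : M2 F) = -1) : Psi a = 1 := by
  apply LinearMap.ext
  intro X
  rw [Psi_apply, h1]
  rcases h2 with h | h
  · rw [h, cub_one]
    simp
  · have : cub (-1 : M2 F) = -1 := by
      ext i j
      fin_cases i <;> fin_cases j <;> simp [cub, frobenius_def] <;> ring
    rw [h, this]
    simp

theorem Psi_pow_eq_one {a : SpecialLinearGroup (Fin 2) F × ℤˣ} {n : ℕ} (h1 : a.2 ^ n = 1)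
    (h2 : (a.1 : M2 F) ^ n = 1 ∨ (a.1 : M2 F) ^ n = -1) : Psi a ^ n = 1 := by
  rw [← map_pow]
  apply Psi_of_one
  · exact h1
  · have : ((a ^ n).1 : M2 F) = (a.1 : M2 F) ^ n := by
      rw [Prod.pow_fst]
      exact Matrix.SpecialLinearGroup.coe_pow _ _
    rw [this]
    exact h2

omit [CharP F 3] in
theorem cayley {A : M2 F} (hA : A.det = 1) : A * A = A.trace • A - 1 := by
  rw [Matrix.det_fin_two] at hA
  ext i j
  fin_cases i <;> fin_cases j <;>
    simp [Matrix.mul_apply, Fin.sum_univ_two, Matrix.trace_fin_two] <;>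
    first | linear_combination -hA | ring1

theorem trace_cub (A : M2 F) : (cub A).trace = A.trace ^ 3 := by
  simp only [Matrix.trace_fin_two, cub, Matrix.map_apply]
  rw [← map_add, frobenius_def]

theorem det_cub {A : M2 F} (hA : A.det = 1) : (cub A).det = 1 := by
  rw [Matrix.det_fin_two] at hA ⊢
  simp only [cub, Matrix.map_apply]
  rw [← map_mul, ← map_mul, ← map_sub, hA, map_one]

/-- `Psi a` has no non-zero fixed vector if `t ≠ ε t³`. -/
theorem Psi_inj {a : SpecialLinearGroup (Fin 2) F × ℤˣ}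
    (ht : (a.1 : M2 F).trace ≠ ((a.2 : ℤ) : F) * (a.1 : M2 F).trace ^ 3) (X : M2 F)
    (hX : Psi a X = X) : X = 0 := by
  obtain ⟨⟨A, hA⟩, ε⟩ := a
  rw [Psi_apply] at hX
  change ((ε : ℤ) : F) • (A * (X * (cub A)ᵀ)) = X at hX
  change A.trace ≠ ((ε : ℤ) : F) * A.trace ^ 3 at ht
  set t := A.trace with htdef
  have hee : ((ε : ℤ) : F) * ((ε : ℤ) : F) = 1 := by
    rcases sign_cases (F := F) ε with ⟨h, -⟩ | ⟨h, -⟩ <;> rw [h] <;> simp
  set e := ((ε : ℤ) : F) with hedef
  set B := (cub A)ᵀ with hB
  have hBdet : B.det = 1 := by rw [hB, Matrix.det_transpose, det_cub hA]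
  have hBtr : B.trace = t ^ 3 := by rw [hB, Matrix.trace_transpose, trace_cub]
  have hAA : A * A = t • A - 1 := cayley hA
  have hBB : B * B = t ^ 3 • B - 1 := by rw [cayley hBdet, hBtr]
  set C := t ^ 3 • (1 : M2 F) - B with hC
  have hBC : B * C = 1 := by
    rw [hC, Matrix.mul_sub, Matrix.mul_smul, Matrix.mul_one, hBB]
    abel
  -- `A X = ε X C`
  have h1 : A * X = e • (X * C) := by
    calc A * X = A * (X * (B * C)) := by rw [hBC, Matrix.mul_one]
      _ = (e * e) • (A * (X * (B * C))) := by rw [hee, one_smul]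
      _ = e • ((e • (A * (X * B))) * C) := by
        rw [mul_smul, Matrix.smul_mul, Matrix.mul_assoc, Matrix.mul_assoc]
      _ = e • (X * C) := by rw [hX]
  have hCC : C * C = t ^ 3 • C - 1 := by
    have : C * C = t ^ 3 • C - B * C := by
      conv_lhs => rw [hC]
      rw [Matrix.sub_mul, Matrix.smul_mul, Matrix.one_mul]
    rw [this, hBC]
  have h2 : A * (A * X) = X * (C * C) := by
    rw [h1, Matrix.mul_smul, ← Matrix.mul_assoc, h1, Matrix.smul_mul, smul_smul, hee, one_smul,
      Matrix.mul_assoc]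
  rw [← Matrix.mul_assoc, hAA, hCC, Matrix.sub_mul, Matrix.one_mul, Matrix.mul_sub, Matrix.mul_one,
    Matrix.smul_mul, Matrix.mul_smul] at h2
  have h3 : t • (A * X) = t ^ 3 • (X * C) := by
    have := congrArg (fun Z => Z + X) h2
    simpa using this
  have h4 : X * C = e • (A * X) := by
    rw [h1, smul_smul, hee, one_smul]
  rw [h4, smul_smul, ← sub_eq_zero, ← sub_smul] at h3
  rcases smul_eq_zero.1 h3 with h | h
  · exfalso
    apply ht
    linear_combination h
  · have hdet : IsUnit A.det := by rw [hA]; exact isUnit_one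
    have := congrArg (fun Z => A⁻¹ * Z) h
    simpa [← Matrix.mul_assoc, Matrix.nonsing_inv_mul A hdet] using this

end Lin

section Fin

variable {F : Type} [Field F] [Fintype F]

theorem mem_range_of_pow_card {L : Type*} [Field L] [Algebra F L] {x : L}
    (hx : x ^ Fintype.card F = x) : ∃ c : F, algebraMap F L c = x := by
  have hq : 1 < Fintype.card F := Fintype.one_lt_card
  have hdeg := FiniteField.X_pow_card_sub_X_natDegree_eq F hq
  have hmon : (X ^ Fintype.card F - X : F[X]).Monic :=
    Polynomial.monic_X_pow_sub (by simpa using hq)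
  have hroots := FiniteField.roots_X_pow_card_sub_X F
  have h := Polynomial.prod_multiset_X_sub_C_of_monic_of_roots_card_eq hmon
    (by rw [hdeg, hroots]; rfl)
  rw [hroots] at h
  have h2 := congrArg (Polynomial.aeval x) h
  rw [map_sub, map_pow, Polynomial.aeval_X, hx, sub_self, map_multiset_prod, Multiset.map_map] at h2
  rw [Multiset.prod_eq_zero_iff, Multiset.mem_map] at h2
  obtain ⟨c, -, hc⟩ := h2
  refine ⟨c, ?_⟩
  simp only [Function.comp_apply, map_sub, Polynomial.aeval_X, Polynomial.aeval_C] at hc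
  exact (sub_eq_zero.1 hc).symm

/-- The characteristic polynomial. -/
noncomputable def cp (t : F) : F[X] := X ^ 2 - C t * X + 1

omit [Fintype F] in
theorem aeval_cp {A : M2 F} (hA : A.det = 1) : Polynomial.aeval A (cp A.trace) = 0 := by
  simp only [cp, map_add, map_sub, map_mul, map_pow, Polynomial.aeval_X, Polynomial.aeval_C, map_one]
  rw [sq, cayley hA, Algebra.algebraMap_eq_smul_one, Matrix.smul_mul, Matrix.one_mul]
  abel

omit [Fintype F] in
theorem eq_of_cp_dvd {A : M2 F} (hA : A.det = 1) {f : F[X]} (h : cp A.trace ∣ f) :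
    Polynomial.aeval A f = 0 := by
  obtain ⟨g, rfl⟩ := h
  rw [map_mul, aeval_cp hA, zero_mul]

/-- If the characteristic polynomial has a root and `t² ≠ 4`, then `A ^ (q - 1) = 1`. -/
theorem pow_of_root {A : M2 F} (hA : A.det = 1) (ht : A.trace ^ 2 ≠ 4) {l : F}
    (hl : l ^ 2 - A.trace * l + 1 = 0) : A ^ (Fintype.card F - 1) = 1 := by
  set t := A.trace with htdef
  have hl0 : l ≠ 0 := by
    rintro rfl
    simp at hl
  have hm0 : t - l ≠ 0 := by
    intro h
    have : (t - l) * l = 1 := by linear_combination -hl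
    rw [h, zero_mul] at this
    exact zero_ne_one this
  have hne : l ≠ t - l := by
    intro h
    apply ht
    have : t = 2 * l := by linear_combination -h
    rw [this] at hl ⊢
    linear_combination -4 * hl
  have hdvd : cp t ∣ X ^ (Fintype.card F - 1) - 1 := by
    have hcp : cp t = (X - C l) * (X - C (t - l)) := by
      have h1 : C (l * (t - l)) = (1 : F[X]) := by
        rw [← C_1]
        congr 1
        linear_combination -hl
      rw [C_mul, C_sub] at h1
      rw [cp, C_sub]
      linear_combination -h1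
    rw [hcp]
    apply IsCoprime.mul_dvd
    · exact Polynomial.isCoprime_X_sub_C_of_isUnit_sub (by
        rw [isUnit_iff_ne_zero]
        exact sub_ne_zero.2 hne)
    · rw [Polynomial.dvd_iff_isRoot]
      simp [FiniteField.pow_card_sub_one_eq_one l hl0]
    · rw [Polynomial.dvd_iff_isRoot]
      simp [FiniteField.pow_card_sub_one_eq_one (t - l) hm0]
  have := eq_of_cp_dvd hA hdvd
  rw [map_sub, map_pow, Polynomial.aeval_X, map_one, sub_eq_zero] at this
  exact this

/-- If the characteristic polynomial has no root then `A ^ ((q + 1) / 2) = ±1`. -/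
theorem pow_of_not_root {A : M2 F} (hA : A.det = 1)
    (hl : ∀ l : F, l ^ 2 - A.trace * l + 1 ≠ 0) {m : ℕ} (hm : 2 * m = Fintype.card F + 1) :
    A ^ m = 1 ∨ A ^ m = -1 := by
  set t := A.trace with htdef
  have hdeg : (cp t).natDegree = 2 := by
    rw [cp]
    compute_degree!
  have hirr : Irreducible (cp t) := by
    apply Polynomial.irreducible_of_degree_le_three_of_not_isRoot
    · rw [hdeg]; decide
    · intro x hx
      apply hl x
      rw [Polynomial.IsRoot.def] at hx
      simpa [cp] using hx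
  have : Fact (Irreducible (cp t)) := ⟨hirr⟩
  set K := AdjoinRoot (cp t) with hK
  set r : K := AdjoinRoot.root (cp t) with hr
  have hroot : ∀ f : F[X], Polynomial.aeval r f = 0 → cp t ∣ f := by
    intro f hf
    rw [hr, AdjoinRoot.aeval_eq] at hf
    exact AdjoinRoot.mk_eq_zero.1 hf
  have hr0 : r ^ 2 - algebraMap F K t * r + 1 = 0 := by
    have : Polynomial.aeval r (cp t) = 0 := by
      rw [hr, AdjoinRoot.aeval_eq]
      exact AdjoinRoot.mk_self
    simpa [cp] using this
  have hs0 : (r ^ Fintype.card F) ^ 2 - algebraMap F K t * r ^ Fintype.card F + 1 = 0 := by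
    have := congrArg (FiniteField.frobeniusAlgHom F K) hr0
    simp only [map_add, map_sub, map_mul, map_pow, map_one, map_zero, AlgHom.commutes] at this
    simpa [FiniteField.coe_frobeniusAlgHom] using this
  have hprod : (r ^ Fintype.card F - r) * (r ^ Fintype.card F + r - algebraMap F K t) = 0 := by
    linear_combination hs0 - hr0
  have hone : r ^ (Fintype.card F + 1) = 1 := by
    rcases mul_eq_zero.1 hprod with h | h
    · exfalso
      obtain ⟨c, hc⟩ := mem_range_of_pow_card (F := F) (L := K) (sub_eq_zero.1 h)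
      apply hl c
      rw [← hc] at hr0
      apply (algebraMap F K).injective
      rw [map_zero, ← hr0]
      simp
    · have h1 : r ^ Fintype.card F = algebraMap F K t - r := by linear_combination h
      rw [pow_succ, h1]
      linear_combination -hr0
  have hm2 : (r ^ m) ^ 2 = 1 := by
    rw [← pow_mul, mul_comm, hm, hone]
  rcases sq_eq_one_iff_of_side_cond' hm2 with h | h
  · left
    have := eq_of_cp_dvd hA (hroot (X ^ m - 1) (by simp [h]))
    rw [map_sub, map_pow, Polynomial.aeval_X, map_one, sub_eq_zero] at this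
    exact this
  · right
    have := eq_of_cp_dvd hA (hroot (X ^ m + 1) (by simp [h]))
    rw [map_add, map_pow, Polynomial.aeval_X, map_one] at this
    exact eq_neg_of_add_eq_zero_left this

end Fin

/-! ### The group -/

section Grp

variable {F : Type} [Field F] [CharP F 3]

/-- The complement. -/
noncomputable abbrev GG (F : Type) [Field F] [CharP F 3] : Subgroup (Module.End F (M2 F))ˣ :=
  (Psi (F := F)).toHomUnits.range

/-- Its representation. -/
noncomputable abbrev rep (F : Type) [Field F] [CharP F 3] : Representation F (GG F) (M2 F) :=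
  (Units.coeHom _).comp (GG F).subtype

theorem rep_faith (g : GG F) (h : rep F g = 1) : g = 1 :=
  Subtype.ext (Units.ext h)

/-- The element of the complement given by `a`. -/
noncomputable def el (a : SpecialLinearGroup (Fin 2) F × ℤˣ) : GG F :=
  ⟨(Psi (F := F)).toHomUnits a, ⟨a, rfl⟩⟩

theorem rep_el (a : SpecialLinearGroup (Fin 2) F × ℤˣ) : rep F (el a) = Psi a := rfl

theorem exists_el (g : GG F) : ∃ a, g = el a := by
  obtain ⟨g, a, ha⟩ := g
  exact ⟨a, Subtype.ext ha.symm⟩

/-- The group. -/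
noncomputable abbrev HH (F : Type) [Field F] [CharP F 3] :=
  Multiplicative (M2 F) ⋊[S2516.act (rep F)] (GG F)

theorem of_pow_eq_one {x : HH F} {a : SpecialLinearGroup (Fin 2) F × ℤˣ} (hx : x.right = el a)
    {n : ℕ} (h : x ^ n = 1) :
    a.2 ^ n = 1 ∧ ((a.1 : M2 F) ^ n = 1 ∨ (a.1 : M2 F) ^ n = -1) := by
  have h1 := (S2516.pow_left (rep F) x n).2
  rw [h, hx] at h1
  have h2 : Psi (a ^ n) = 1 := by
    rw [map_pow, ← rep_el, ← map_pow, ← h1]
    rfl
  have h3 := Psi_eq_one h2
  have : ((a ^ n).1 : M2 F) = (a.1 : M2 F) ^ n := by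
    rw [Prod.pow_fst]
    exact Matrix.SpecialLinearGroup.coe_pow _ _
  rw [this] at h3
  exact h3

/-- The upper bound for the element orders. -/
theorem order_dvd [Fintype F] {m : ℕ} (hm : 2 * m = Fintype.card F + 1) (hm2 : Even m)
    (hq : Fintype.card F % 4 = 3) (x : HH F) :
    orderOf x ∣ 6 ∨ orderOf x ∣ 9 ∨ orderOf x ∣ Fintype.card F - 1 ∨ orderOf x ∣ m := by
  obtain ⟨a, ha⟩ := exists_el x.right
  have hrep : rep F x.right = Psi a := by rw [ha, rep_el]
  have h3 := three_eq (F := F)
  have hdet : (a.1 : M2 F).det = 1 := a.1.2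
  have hc := cayley hdet
  set A : M2 F := (a.1 : M2 F) with hAdef
  set t := A.trace with htdef
  have hsq : a.2 ^ 2 = 1 := by
    rcases Int.units_eq_one_or a.2 with h | h <;> rw [h] <;> rfl
  have heven : ∀ n : ℕ, Even n → a.2 ^ n = 1 := by
    rintro n ⟨k, rfl⟩
    rw [← two_mul, pow_mul, hsq, one_pow]
  by_cases ht0 : t = 0
  · left
    apply orderOf_dvd_of_pow_eq_one
    have h1 : Psi a ^ 2 = 1 := by
      apply Psi_pow_eq_one hsq
      right
      rw [sq, hc, ht0, zero_smul, zero_sub]
    exact pow_three_eq_one_of (rep F) rep_faith x (n := 2) (by rw [hrep]; exact h1)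
  by_cases ht1 : t ^ 2 = 1
  · have hA3 : A ^ 3 = 1 ∨ A ^ 3 = -1 := by
      have : A ^ 3 = -(t • (1 : M2 F)) := by
        rw [pow_succ, sq, hc, Matrix.sub_mul, Matrix.smul_mul, hc, Matrix.one_mul, smul_sub,
          smul_smul, ← sq, ht1, one_smul]
        abel
      rcases sq_eq_one_iff_of_side_cond ht1 with h | h
      · right
        rw [this, h, one_smul]
      · left
        rw [this, h, neg_smul, one_smul, neg_neg]
    rcases Int.units_eq_one_or a.2 with he | he
    · right; left
      apply orderOf_dvd_of_pow_eq_one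
      have h1 : Psi a ^ 3 = 1 := Psi_pow_eq_one (by rw [he, one_pow]) hA3
      exact pow_three_eq_one_of (rep F) rep_faith x (n := 3) (by rw [hrep]; exact h1)
    · left
      apply orderOf_dvd_of_pow_eq_one
      have h1 : Psi a ^ 6 = 1 := by
        apply Psi_pow_eq_one (heven 6 (by decide))
        left
        change A ^ (3 * 2) = 1
        rw [pow_mul]
        rcases hA3 with h | h <;> rw [h] <;> simp
      refine pow_eq_one_of (rep F) rep_faith x (n := 6) (by rw [hrep]; exact h1) ?_
      intro v hv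
      rw [hrep] at hv
      apply Psi_inj _ v hv
      change t ≠ _ * t ^ 3
      rw [he]
      intro h
      apply ht0
      have h4 : t = - t := by
        have h5 : t ^ 3 = t := by rw [pow_succ, ht1, one_mul]
        rw [h5] at h
        simpa using h
      linear_combination (-1 : F) * h4 + t * h3
  · have hinj : ∀ v, rep F x.right v = v → v = 0 := by
      intro v hv
      rw [hrep] at hv
      apply Psi_inj _ v hv
      change t ≠ _ * t ^ 3
      rcases sign_cases (F := F) a.2 with ⟨h, -⟩ | ⟨h, -⟩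
      · rw [h, one_mul]
        intro h'
        have : t * (t ^ 2 - 1) = 0 := by linear_combination -h'
        rcases mul_eq_zero.1 this with h'' | h''
        · exact ht0 h''
        · exact ht1 (by linear_combination h'')
      · rw [h]
        intro h'
        have : t * (t ^ 2 + 1) = 0 := by linear_combination h'
        rcases mul_eq_zero.1 this with h'' | h''
        · exact ht0 h''
        · have hs : IsSquare (-1 : F) := ⟨t, by linear_combination -h''⟩
          exact FiniteField.isSquare_neg_one_iff.1 hs hq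
    have ht4 : t ^ 2 ≠ 4 := by
      intro h
      apply ht1
      linear_combination h + h3
    have hodd : Even (Fintype.card F - 1) := by
      rw [Nat.even_iff]
      omega
    by_cases hroot : ∃ l : F, l ^ 2 - t * l + 1 = 0
    · obtain ⟨l, hl⟩ := hroot
      right; right; left
      apply orderOf_dvd_of_pow_eq_one
      refine pow_eq_one_of (rep F) rep_faith x ?_ hinj
      rw [hrep]
      exact Psi_pow_eq_one (heven _ hodd) (Or.inl (pow_of_root hdet ht4 hl))
    · push Not at hroot
      right; right; right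
      apply orderOf_dvd_of_pow_eq_one
      refine pow_eq_one_of (rep F) rep_faith x ?_ hinj
      rw [hrep]
      exact Psi_pow_eq_one (heven _ hm2) (pow_of_not_root hdet hroot hm)

/-- A transvection. -/
noncomputable def UU (F : Type) [Field F] : SpecialLinearGroup (Fin 2) F :=
  ⟨!![1, 1; 0, 1], by simp [Matrix.det_fin_two]⟩

omit [CharP F 3] in
theorem UU_pow (n : ℕ) : ((UU F : SpecialLinearGroup (Fin 2) F) : M2 F) ^ n = !![1, (n : F); 0, 1] := by
  induction n with
  | zero =>
    ext i j
    fin_cases i <;> fin_cases j <;> simp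
  | succ n ih =>
    rw [pow_succ, ih]
    change !![1, (n : F); 0, 1] * !![1, 1; 0, 1] = _
    ext i j
    fin_cases i <;> fin_cases j <;> simp [add_comm]

theorem three_dvd_of {n : ℕ} (h : ((UU F : SpecialLinearGroup (Fin 2) F) : M2 F) ^ n = 1 ∨
    ((UU F : SpecialLinearGroup (Fin 2) F) : M2 F) ^ n = -1) : 3 ∣ n := by
  rw [UU_pow] at h
  have : (n : F) = 0 := by
    rcases h with h | h
    · simpa using congrFun (congrFun h 0) 1
    · simpa using congrFun (congrFun h 0) 1
  exact (CharP.cast_eq_zero_iff F 3 n).1 this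

theorem six_dvd : ∃ x : HH F, 6 ∣ orderOf x := by
  refine ⟨⟨1, el (UU F, -1)⟩, ?_⟩
  have h := of_pow_eq_one (F := F) (x := ⟨1, el (UU F, -1)⟩) rfl (pow_orderOf_eq_one _)
  have h3 := three_dvd_of h.2
  have h2 : 2 ∣ orderOf (⟨1, el (UU F, -1)⟩ : HH F) := by
    have := h.1
    change (-1 : ℤˣ) ^ _ = 1 at this
    rcases Nat.even_or_odd (orderOf (⟨1, el (UU F, -1)⟩ : HH F)) with h | h
    · exact even_iff_two_dvd.1 h
    · rw [h.neg_one_pow] at this
      exact absurd this (by decide)
  exact (Nat.Coprime.mul_dvd_of_dvd_of_dvd (by decide : Nat.Coprime 2 3) h2 h3)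

theorem nine_dvd [Finite (GG F)] : ∃ x : HH F, 9 ∣ orderOf x := by
  set v : M2 F := !![0, 0; 0, 1] with hv
  set x : HH F := ⟨Multiplicative.ofAdd v, el (UU F, 1)⟩ with hx
  have hor : orderOf (el (UU F, 1)) = 3 := by
    apply orderOf_eq_prime
    · apply rep_faith
      rw [map_pow, rep_el]
      apply Psi_pow_eq_one
      · rfl
      · left
        change ((UU F : SpecialLinearGroup (Fin 2) F) : M2 F) ^ 3 = 1
        rw [UU_pow]
        have := three_eq (F := F)
        ext i j
        fin_cases i <;> fin_cases j <;> simp [this]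
    · intro h
      have h1 := of_pow_eq_one (F := F) (x := ⟨1, el (UU F, 1)⟩) (n := 1) rfl (by
        rw [h, pow_one]; rfl)
      have := three_dvd_of h1.2
      omega
  have hne : (∑ i ∈ Finset.range (orderOf x.right), (rep F x.right) ^ i)
      (Multiplicative.toAdd x.left) ≠ 0 := by
    have hr : x.right = el (UU F, 1) := rfl
    have hl : Multiplicative.toAdd x.left = v := rfl
    rw [hr, hl, hor, rep_el]
    have hP : ∀ X : M2 F, Psi (UU F, (1 : ℤˣ)) X = !![1, 1; 0, 1] * (X * !![1, 0; 1, 1]) := by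
      intro X
      rw [Psi_apply]
      have : (cub ((UU F : SpecialLinearGroup (Fin 2) F) : M2 F))ᵀ = !![1, 0; 1, 1] := by
        ext i j
        fin_cases i <;> fin_cases j <;> simp [cub, UU]
      change ((1 : ℤ) : F) • _ = _
      rw [Int.cast_one, one_smul, this]
      rfl
    intro h0
    rw [Finset.sum_range_succ, Finset.sum_range_succ, Finset.sum_range_succ, Finset.sum_range_zero,
      zero_add, pow_zero, pow_one, sq, LinearMap.add_apply, LinearMap.add_apply,
      Module.End.mul_apply, Module.End.one_apply, hP, hP, hv] at h0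
    have h1 := congrFun (congrFun h0 0) 0
    simp at h1
    have h3 := three_eq (F := F)
    have : (1 : F) = 0 := by linear_combination 2 * h3 - h1
    exact one_ne_zero this
  have h9 := (S2516.order_iff (rep F) 3 x).2 hne
  refine ⟨x, ?_⟩
  rw [h9]
  change 9 ∣ 3 * orderOf (el (UU F, 1))
  rw [hor]

theorem qm_dvd [Fintype F] (hq : Fintype.card F % 4 = 3) :
    ∃ x : HH F, Fintype.card F - 1 ∣ orderOf x := by
  classical
  obtain ⟨l, hl⟩ := IsCyclic.exists_ofOrder_eq_natCard (α := Fˣ)
  rw [Nat.card_units, Nat.card_eq_fintype_card] at hl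
  set D : SpecialLinearGroup (Fin 2) F := ⟨!![(l : F), 0; 0, ((l⁻¹ : Fˣ) : F)], by
    simp [Matrix.det_fin_two]⟩ with hD
  have hDp : ∀ n : ℕ, (D : M2 F) ^ n = !![((l ^ n : Fˣ) : F), 0; 0, (((l⁻¹) ^ n : Fˣ) : F)] := by
    intro n
    induction n with
    | zero =>
      ext i j
      fin_cases i <;> fin_cases j <;> simp
    | succ n ih =>
      rw [pow_succ, ih]
      change _ * !![(l : F), 0; 0, ((l⁻¹ : Fˣ) : F)] = _
      ext i j
      fin_cases i <;> fin_cases j <;> simp [pow_succ]
  refine ⟨⟨1, el (D, -1)⟩, ?_⟩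
  have h := of_pow_eq_one (F := F) (x := ⟨1, el (D, -1)⟩) rfl (pow_orderOf_eq_one _)
  set n := orderOf (⟨1, el (D, -1)⟩ : HH F) with hn
  have h2 : 2 ∣ n := by
    have := h.1
    change (-1 : ℤˣ) ^ _ = 1 at this
    rcases Nat.even_or_odd n with h | h
    · exact even_iff_two_dvd.1 h
    · rw [h.neg_one_pow] at this
      exact absurd this (by decide)
  have h3 : ((l ^ n : Fˣ) : F) = 1 ∨ ((l ^ n : Fˣ) : F) = -1 := by
    have := h.2
    change (D : M2 F) ^ n = 1 ∨ (D : M2 F) ^ n = -1 at this
    rw [hDp] at this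
    rcases this with h | h
    · left; simpa using congrFun (congrFun h 0) 0
    · right; simpa using congrFun (congrFun h 0) 0
  have h4 : l ^ (n * 2) = 1 := by
    rw [pow_mul]
    ext
    rw [Units.val_pow_eq_pow_val]
    rcases h3 with h | h <;> rw [h] <;> simp
  have h5 := orderOf_dvd_of_pow_eq_one h4
  rw [hl] at h5
  -- `q - 1 = 2 * odd`
  obtain ⟨s, hs⟩ : ∃ s, Fintype.card F - 1 = 2 * (2 * s + 1) :=
    ⟨Fintype.card F / 4, by omega⟩
  rw [hs] at h5 ⊢
  rw [mul_comm n 2] at h5
  have h6 := Nat.dvd_of_mul_dvd_mul_left (by norm_num) h5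
  exact Nat.Coprime.mul_dvd_of_dvd_of_dvd (by simp) h2 h6

theorem qp_dvd [Fintype F] {m : ℕ} (hm : 2 * m = Fintype.card F + 1) :
    ∃ x : HH F, m ∣ orderOf x := by
  classical
  set K := AlgebraicClosure F with hK
  set q := Fintype.card F with hqdef
  have : CharP K 3 := charP_of_injective_algebraMap (algebraMap F K).injective 3
  have hq0 : (q : K) = 0 := by
    have : (q : F) = 0 := FiniteField.cast_card_eq_zero F
    rw [← map_natCast (algebraMap F K), this, map_zero]
  have : NeZero ((q + 1 : ℕ) : K) := ⟨by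
    push_cast
    rw [hq0, zero_add]
    exact one_ne_zero⟩
  obtain ⟨z, hz⟩ := HasEnoughRootsOfUnity.exists_primitiveRoot K (q + 1)
  have hz1 : z ^ (q + 1) = 1 := hz.pow_eq_one
  have hz0 : z ≠ 0 := by
    rintro rfl
    rw [zero_pow (by omega)] at hz1
    exact zero_ne_one hz1
  have hzq : z ^ q = z⁻¹ := by
    rw [pow_succ] at hz1
    exact eq_inv_of_mul_eq_one_left hz1
  obtain ⟨c, hc⟩ := mem_range_of_pow_card (F := F) (L := K) (x := z + z⁻¹) (by
    have h1 : (z + z⁻¹) ^ q = FiniteField.frobeniusAlgHom F K (z + z⁻¹) := by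
      rw [FiniteField.coe_frobeniusAlgHom]
    rw [← hqdef, h1, map_add, map_inv₀, FiniteField.coe_frobeniusAlgHom]
    change z ^ q + (z ^ q)⁻¹ = _
    rw [hzq, inv_inv, add_comm])
  set A : SpecialLinearGroup (Fin 2) F := ⟨!![0, -1; 1, c], by simp [Matrix.det_fin_two]⟩ with hA
  have hev : ∀ n : ℕ, ((A : M2 F) ^ n).map (algebraMap F K) *ᵥ ![1, -z] = z ^ n • ![1, -z] := by
    intro n
    induction n with
    | zero => simp [Matrix.map_one]
    | succ n ih =>
      rw [pow_succ, Matrix.map_mul, ← Matrix.mulVec_mulVec]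
      have : (A : M2 F).map (algebraMap F K) *ᵥ ![1, -z] = z • ![1, -z] := by
        have hzz : z * z⁻¹ = 1 := mul_inv_cancel₀ hz0
        ext i
        fin_cases i
        · simp [hA, Matrix.mulVec, dotProduct, Fin.sum_univ_two]
          ring1
        · simp [hA, Matrix.mulVec, dotProduct, Fin.sum_univ_two, hc]
          linear_combination -hzz
      rw [this, Matrix.mulVec_smul, ih, smul_smul, pow_succ, mul_comm]
  refine ⟨⟨1, el (A, 1)⟩, ?_⟩
  have h := of_pow_eq_one (F := F) (x := ⟨1, el (A, 1)⟩) rfl (pow_orderOf_eq_one _)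
  set n := orderOf (⟨1, el (A, 1)⟩ : HH F) with hn
  have h3 : z ^ n = 1 ∨ z ^ n = -1 := by
    have h1 := h.2
    change (A : M2 F) ^ n = 1 ∨ (A : M2 F) ^ n = -1 at h1
    have h2 := hev n
    rcases h1 with h1 | h1
    · left
      rw [h1] at h2
      have := congrFun h2 0
      simpa using this.symm
    · right
      rw [h1] at h2
      have := congrFun h2 0
      simp [Matrix.mulVec, dotProduct, Fin.sum_univ_two] at this
      exact this.symm
  have h4 : z ^ (n * 2) = 1 := by
    rw [pow_mul]
    rcases h3 with h | h <;> rw [h] <;> simp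
  have h5 := hz.dvd_of_pow_eq_one _ h4
  rw [← hm, mul_comm n 2] at h5
  exact Nat.dvd_of_mul_dvd_mul_left (by norm_num) h5

end Grp

/-- Let q = 3^α with α ≥ 3 odd. There is a finite group H having a non-trivial normal 3-subgroup and whose element orders maximal under divisibility are exactly 6, 9, q − 1 and (q + 1)/2. -/
theorem result (α : ℕ) (hα : 3 ≤ α) (hodd : Odd α) :
    ∃ (H : Type) (_ : Group H) (_ : Fintype H), (∃ P : Subgroup H, P.Normal ∧ P ≠ ⊥ ∧ IsPGroup 3 ↥P) ∧
      {n : ℕ | n ∈ Set.range (orderOf : H → ℕ) ∧ ∀ m ∈ Set.range (orderOf : H → ℕ), n ∣ m → m = n} = ({6, 9, 3 ^ α - 1, (3 ^ α + 1) / 2} : Set ℕ) := by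
  classical
  set F := GaloisField 3 α with hF
  have hα0 : α ≠ 0 := by omega
  let : Fintype F := Fintype.ofFinite F
  have hcard : Fintype.card F = 3 ^ α := by
    rw [← Nat.card_eq_fintype_card, hF]
    exact GaloisField.card 3 α hα0
  obtain ⟨s, hs⟩ := hodd
  have h9 : ∀ s : ℕ, 3 ^ (2 * s + 1) % 8 = 3 := by
    intro s
    rw [pow_succ, pow_mul, Nat.mul_mod, Nat.pow_mod]
    norm_num
  have h8 : 3 ^ α % 8 = 3 := by rw [hs]; exact h9 s
  have h27 : 27 ∣ 3 ^ α := by
    change 3 ^ 3 ∣ 3 ^ α
    exact pow_dvd_pow 3 hα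
  have hpos : 0 < 3 ^ α := by positivity
  obtain ⟨m, hm⟩ : ∃ m, 2 * m = 3 ^ α + 1 := ⟨(3 ^ α + 1) / 2, by omega⟩
  have hm' : (3 ^ α + 1) / 2 = m := by omega
  obtain ⟨w, hw⟩ := h27
  have hfinV : Finite (M2 F) := inferInstance
  have : Finite (Module.End F (M2 F)) :=
    Finite.of_injective (fun f => (f : M2 F → M2 F)) DFunLike.coe_injective
  have : Finite (GG F) := inferInstance
  have : Finite (HH F) := by
    have : Finite (Multiplicative (M2 F) × GG F) := inferInstance
    exact Finite.of_equiv _ SemidirectProduct.equivProd.symm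
  refine ⟨HH F, inferInstance, Fintype.ofFinite _, ?_, ?_⟩
  · refine ⟨(SemidirectProduct.rightHom : HH F →* GG F).ker, inferInstance, ?_, ?_⟩
    · intro hbot
      have h1 : (SemidirectProduct.inl (Multiplicative.ofAdd (1 : M2 F)) : HH F) ∈
          (SemidirectProduct.rightHom : HH F →* GG F).ker := by
        rw [MonoidHom.mem_ker, SemidirectProduct.rightHom_inl]
      rw [hbot, Subgroup.mem_bot] at h1
      have h2 := congrArg SemidirectProduct.left h1
      have h3 : (1 : M2 F) = 0 := h2
      exact one_ne_zero h3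
    · intro x
      refine ⟨1, ?_⟩
      obtain ⟨x, hx⟩ := x
      apply Subtype.ext
      change x ^ (3 ^ 1) = 1
      have hr : x.right = 1 := hx
      have := pow_three_eq_one_of (rep F) rep_faith x (n := 1) (by rw [hr, map_one, one_pow])
      simpa using this
  · apply mu_eq
    · simp only [Set.mem_insert_iff, Set.mem_singleton_iff, hm']
      rintro a (rfl | rfl | rfl | rfl) b (rfl | rfl | rfl | rfl) hab
      all_goals first | rfl | exfalso
      · omega
      · omega
      · omega
      · omega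
      · omega
      · omega
      · have := Nat.le_of_dvd (by norm_num) hab
        omega
      · have := Nat.le_of_dvd (by norm_num) hab
        omega
      · have := Nat.le_of_dvd (by omega) hab
        omega
      · have := Nat.le_of_dvd (by norm_num) hab
        omega
      · have := Nat.le_of_dvd (by norm_num) hab
        omega
      · have h2 : 3 ^ α - 1 = 2 * a - 2 := by omega
        rw [h2] at hab
        have h3 : a ∣ 2 := by
          have := Nat.dvd_sub (Dvd.intro_left 2 rfl : a ∣ 2 * a) hab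
          rwa [show 2 * a - (2 * a - 2) = 2 by omega] at this
        have := Nat.le_of_dvd (by norm_num) h3
        omega
    · rintro _ ⟨x, rfl⟩
      have h := order_dvd (F := F) (m := m) (by rw [hcard]; exact hm)
        (by rw [Nat.even_iff]; omega) (by rw [hcard]; omega) x
      rw [hcard] at h
      rw [hm']
      rcases h with h | h | h | h
      · exact ⟨6, by simp, h⟩
      · exact ⟨9, by simp, h⟩
      · exact ⟨3 ^ α - 1, by simp, h⟩
      · exact ⟨m, by simp, h⟩
    · simp only [Set.mem_insert_iff, Set.mem_singleton_iff, hm']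
      rintro a (rfl | rfl | rfl | rfl)
      · obtain ⟨x, hx⟩ := six_dvd (F := F)
        exact ⟨_, ⟨x, rfl⟩, hx⟩
      · obtain ⟨x, hx⟩ := nine_dvd (F := F)
        exact ⟨_, ⟨x, rfl⟩, hx⟩
      · obtain ⟨x, hx⟩ := qm_dvd (F := F) (by rw [hcard]; omega)
        rw [hcard] at hx
        exact ⟨_, ⟨x, rfl⟩, hx⟩
      · obtain ⟨x, hx⟩ := qp_dvd (F := F) (m := a) (by rw [hcard]; exact hm)
        exact ⟨_, ⟨x, rfl⟩, hx⟩

end Cfsg.Agent.S2515
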