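import Cfsg.Statements.S2518
import Cfsg.Agent.H160.G2Three
import Cfsg.Agent.H160.PSLTwo
import Cfsg.Agent.ClassicalGeometry.PSL2Basic

set_option autoImplicit false
open Cfsg

namespace Cfsg.Agent.S2518

theorem dvd_pow_iff {r p a : ℕ} (hr : r.Prime) (hp : p.Prime) (ha : a ≠ 0) : r ∣ p ^ a ↔ r = p := by
  constructor
  · intro h
    exact (Nat.prime_dvd_prime_iff_eq hr hp).1 (hr.dvd_of_dvd_pow h)
  · rintro rfl
    exact dvd_pow_self _ ha

theorem primes_iff {r : ℕ} (hr : r.Prime) {n a b c d : ℕ} (ha : a ≠ 0) (hb : b ≠ 0) (hc : c ≠ 0)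
    (hd : d ≠ 0) (hn : n = 2 ^ a * (3 ^ b * (7 ^ c * 13 ^ d))) :
    r ∣ n ↔ r = 2 ∨ r = 3 ∨ r = 7 ∨ r = 13 := by
  rw [hn, hr.dvd_mul, hr.dvd_mul, hr.dvd_mul, dvd_pow_iff hr Nat.prime_two ha,
    dvd_pow_iff hr Nat.prime_three hb, dvd_pow_iff hr (by norm_num) hc,
    dvd_pow_iff hr (by norm_num) hd]

/-- Let F₃ be the field with 3 elements and F₁₃ the field with 13 elements. The Chevalley group G₂(F₃) and PSL(2, F₁₃) have the same prime graph: the same prime divisors of their orders, and for distinct primes r, s an element of order rs in one iff in the other. -/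
theorem result {F : Type*} [Field F] [Fintype F] (hF : Fintype.card F = 3) {E : Type*} [Field E] [Fintype E] (hE : Fintype.card E = 13) :
    ((∀ r : ℕ, r.Prime → (r ∣ Nat.card ↥(Cfsg.Lie.chevG2.group F) ↔ r ∣ Nat.card (Matrix.ProjectiveSpecialLinearGroup (Fin 2) E))) ∧
      (∀ r s : ℕ, r.Prime → s.Prime → r ≠ s → ((∃ x : ↥(Cfsg.Lie.chevG2.group F), orderOf x = r * s) ↔ (∃ y : (Matrix.ProjectiveSpecialLinearGroup (Fin 2) E), orderOf y = r * s)))) := by
  have hF' : Fintype.card (ZMod 3) = Fintype.card F := by rw [hF]; rfl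
  let φ : ZMod 3 ≃+* F := FiniteField.ringEquivOfCardEq hF'
  have e : ↥(Cfsg.Lie.chevG2.group (ZMod 3)) ≃* ↥(Cfsg.Lie.chevG2.group F) :=
    Cfsg.Agent.ChevalleyStructure.FieldIso.groupEquiv Cfsg.Lie.chevG2 φ
  have hcG : Nat.card ↥(Cfsg.Lie.chevG2.group F) = 2 ^ 6 * (3 ^ 6 * (7 ^ 1 * 13 ^ 1)) := by
    rw [← Nat.card_congr e.toEquiv]
    exact (Cfsg.Agent.OddHalf.Small.G23.card_G).trans (by norm_num)
  have hodd : Odd (Fintype.card E) := by rw [hE]; decide
  have hcL : Nat.card (Matrix.ProjectiveSpecialLinearGroup (Fin 2) E) =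
      2 ^ 2 * (3 ^ 1 * (7 ^ 1 * 13 ^ 1)) := by
    have h := Cfsg.Agent.ClassicalGeometry.PSL2Basic.card_PSL2_odd E hodd
    rw [hE] at h
    omega
  have hchar : CharP E 13 := by
    obtain ⟨p, hp⟩ := CharP.exists E
    have hpp : Fact p.Prime := ⟨CharP.char_is_prime E p⟩
    obtain ⟨n, hn, hn'⟩ := FiniteField.card E p
    rw [hE] at hn'
    have h13 : p ∣ 13 := by
      rw [hn']
      exact dvd_pow_self _ n.ne_zero
    rw [← (Nat.prime_dvd_prime_iff_eq hpp.out (by norm_num)).1 h13]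
    exact hp
  have hf13 : Fact (Nat.Prime 13) := ⟨by norm_num⟩
  refine ⟨fun r hr => ?_, fun r s hr hs hrs => ⟨?_, ?_⟩⟩
  · rw [primes_iff hr (by norm_num) (by norm_num) (by norm_num) (by norm_num) hcG,
      primes_iff hr (by norm_num) (by norm_num) (by norm_num) (by norm_num) hcL]
  · rintro ⟨x, hx⟩
    have h1 : orderOf (e.symm x) = r * s := by rw [MulEquiv.orderOf_eq]; exact hx
    have h2 := Cfsg.Agent.H160.G2Three.mul_primes hr hs hrs h1
    rw [h2]
    obtain ⟨y, hy⟩ := Cfsg.Agent.H160.PSLTwo.exists_orderOf hodd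
    rw [hE] at hy
    exact ⟨y, hy⟩
  · rintro ⟨y, hy⟩
    have h6 : r * s = 6 := by
      have h := Cfsg.Agent.H160.PSLTwo.orderOf_dvd 13 hodd y
      rw [hE, hy] at h
      have hr2 := hr.two_le
      have hs2 := hs.two_le
      have hnp : ∀ q : ℕ, q.Prime → ¬ r * s ∣ q := by
        intro q hq hd
        rcases (Nat.dvd_prime hq).1 hd with h | h
        · nlinarith
        · rw [← h] at hq
          exact Nat.not_prime_mul (by omega) (by omega) hq
      rcases h with h | h | h
      · exact absurd h (hnp 13 (by norm_num))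
      · have h' : r * s ∣ 6 := h
        have h7 : r * s ∈ Nat.divisors 6 := by
          rw [Nat.mem_divisors]
          exact ⟨h', by norm_num⟩
        have h8 : Nat.divisors 6 = {1, 2, 3, 6} := by decide
        rw [h8] at h7
        simp only [Finset.mem_insert, Finset.mem_singleton] at h7
        rcases h7 with h | h | h | h
        · nlinarith
        · nlinarith
        · nlinarith
        · exact h
      · exact absurd h (hnp 7 (by norm_num))
    rw [h6]
    obtain ⟨g, hg⟩ := Cfsg.Agent.H160.G2Three.exists_six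
    exact ⟨e g, (MulEquiv.orderOf_eq e g).trans hg⟩

end Cfsg.Agent.S2518
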