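import Cfsg.Statements.S2521

set_option autoImplicit false
open Cfsg

namespace Cfsg.Agent.S2521

/-- Let B be a finite group that is the semidirect product of a nilpotent normal subgroup U by an abelian subgroup T (U ∩ T = 1, UT = B), and let t ∈ T have centralizer exactly T. Then every element of the coset tU is conjugate to t in B: for each u ∈ U there is b ∈ B with b t b⁻¹ = t u. -/
theorem result {B : Type*} [Group B] [Finite B] (U T : Subgroup B) [U.Normal] (hU : Group.IsNilpotent ↥U) (hT : IsMulCommutative ↥T)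
    (hcompl : Subgroup.IsComplement' U T) (t : B) (ht : t ∈ T) (hreg : Subgroup.centralizer ({t} : Set B) = T) (u : B) (hu : u ∈ U) :
    ∃ b : B, b * t * b⁻¹ = t * u := by
  classical
  -- the map U → U, v ↦ t⁻¹ v t v⁻¹ is injective, hence surjective
  let f : U → U := fun v => ⟨t⁻¹ * (v : B) * t * (v : B)⁻¹, by
    have h1 : t⁻¹ * (v : B) * t ∈ U := by
      have := Subgroup.Normal.conj_mem (inferInstance : U.Normal) (v : B) v.2 t⁻¹
      simpa using this
    exact U.mul_mem h1 (U.inv_mem v.2)⟩
  have hinj : Function.Injective f := by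
    intro v w hvw
    have h1 : t⁻¹ * (v : B) * t * (v : B)⁻¹ = t⁻¹ * (w : B) * t * (w : B)⁻¹ := congrArg Subtype.val hvw
    have h2 : (v : B) * t * (v : B)⁻¹ = (w : B) * t * (w : B)⁻¹ := by
      have := congrArg (fun x => t * x) h1
      simpa [mul_assoc] using this
    have h3 : ((w : B)⁻¹ * v) ∈ Subgroup.centralizer ({t} : Set B) := by
      rw [Subgroup.mem_centralizer_singleton_iff]
      have h4 : (w : B)⁻¹ * ((v : B) * t * (v : B)⁻¹) * v = (w : B)⁻¹ * ((w : B) * t * (w : B)⁻¹) * v := by
        rw [h2]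
      have h5 : (w : B)⁻¹ * v * t = t * ((w : B)⁻¹ * v) := by
        simpa [mul_assoc] using h4
      exact h5
    rw [hreg] at h3
    have h6 : ((w : B)⁻¹ * v) ∈ U := U.mul_mem (U.inv_mem w.2) v.2
    have h7 : ((w : B)⁻¹ * v) ∈ (U ⊓ T : Subgroup B) := ⟨h6, h3⟩
    rw [hcompl.disjoint.eq_bot, Subgroup.mem_bot] at h7
    have h8 : (v : B) = w := by
      rw [inv_mul_eq_one] at h7
      exact h7.symm
    exact Subtype.ext h8
  have hsurj : Function.Surjective f := Finite.surjective_of_injective hinj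
  obtain ⟨v, hv⟩ := hsurj ⟨u, hu⟩
  refine ⟨v, ?_⟩
  have h1 : t⁻¹ * (v : B) * t * (v : B)⁻¹ = u := congrArg Subtype.val hv
  rw [← h1]
  simp [mul_assoc]

end Cfsg.Agent.S2521
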