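import Cfsg.Statements.S2525
import Cfsg.Agent.H130.F4Graph

set_option autoImplicit false
open Cfsg

namespace Cfsg.Agent.S2525

/-- Let F be a finite field with q = 2^n elements and G = F₄(F). For an odd prime r let e(r, q) be the multiplicative order of q modulo r. Two distinct primes r, s dividing the order of G are non-adjacent in the prime graph of G (no element of order rs) if and only if, up to swapping r and s, either r = 2 and e(s, q) ∈ {8, 12}, or r, s are both odd with k = e(r, q) < l = e(s, q) and one of: l ∈ {8, 12}; l = 6 and k ∈ {3, 4}; l = 4 and k = 3. -/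
theorem result {F : Type*} [Field F] [Fintype F] (n : ℕ) (hn : 1 ≤ n) (hF : Fintype.card F = 2 ^ n)
    (r s : ℕ) (hr : r.Prime) (hs : s.Prime) (hrs : r ≠ s) (hrG : r ∣ Nat.card ↥(Cfsg.Lie.chevF4.group F)) (hsG : s ∣ Nat.card ↥(Cfsg.Lie.chevF4.group F)) :
    (¬ ∃ x : ↥(Cfsg.Lie.chevF4.group F), orderOf x = r * s) ↔
      ((r = 2 ∧ orderOf ((Fintype.card F : ℕ) : ZMod s) ∈ ({8, 12} : Finset ℕ)) ∨ (s = 2 ∧ orderOf ((Fintype.card F : ℕ) : ZMod r) ∈ ({8, 12} : Finset ℕ)) ∨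
       (r ≠ 2 ∧ s ≠ 2 ∧
         ((orderOf ((Fintype.card F : ℕ) : ZMod r) < orderOf ((Fintype.card F : ℕ) : ZMod s) ∧ (orderOf ((Fintype.card F : ℕ) : ZMod s) ∈ ({8, 12} : Finset ℕ) ∨ (orderOf ((Fintype.card F : ℕ) : ZMod s) = 6 ∧ orderOf ((Fintype.card F : ℕ) : ZMod r) ∈ ({3, 4} : Finset ℕ)) ∨ (orderOf ((Fintype.card F : ℕ) : ZMod s) = 4 ∧ orderOf ((Fintype.card F : ℕ) : ZMod r) = 3))) ∨
          (orderOf ((Fintype.card F : ℕ) : ZMod s) < orderOf ((Fintype.card F : ℕ) : ZMod r) ∧ (orderOf ((Fintype.card F : ℕ) : ZMod r) ∈ ({8, 12} : Finset ℕ) ∨ (orderOf ((Fintype.card F : ℕ) : ZMod r) = 6 ∧ orderOf ((Fintype.card F : ℕ) : ZMod s) ∈ ({3, 4} : Finset ℕ)) ∨ (orderOf ((Fintype.card F : ℕ) : ZMod r) = 4 ∧ orderOf ((Fintype.card F : ℕ) : ZMod s) = 3)))))) := by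
  have hodd : ∀ s : ℕ, s.Prime → s ≠ 2 → ¬ s ∣ Fintype.card F := by
    intro s hs hs2 h
    rw [hF] at h
    exact hs2 ((Nat.prime_dvd_prime_iff_eq hs Nat.prime_two).1 (hs.dvd_of_dvd_pow h))
  have htwo : ∀ s : ℕ, s.Prime → s ≠ 2 → s ∣ Nat.card ↥(Cfsg.Lie.chevF4.group F) →
      ((∃ x : ↥(Cfsg.Lie.chevF4.group F), orderOf x = 2 * s) ↔
        ¬ orderOf ((Fintype.card F : ℕ) : ZMod s) ∈ ({8, 12} : Finset ℕ)) := by
    intro s hs hs2 hsG
    have hsq := hodd s hs hs2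
    have hes := H130.F4Graph.order_mem hs hsq hsG
    constructor
    · intro h1 h2
      refine H130.F4Graph.two_not hn hF hs hsq ?_ h1
      simpa using h2
    · intro h1
      refine H130.F4Graph.two_adj hF hs hsq ?_
      simp only [List.mem_cons, List.not_mem_nil, or_false, Finset.mem_insert, Finset.mem_singleton] at hes h1 ⊢
      omega
  by_cases hr2 : r = 2
  · have hs2 : s ≠ 2 := fun h => hrs (hr2.trans h.symm)
    subst hr2
    rw [htwo s hs hs2 hsG, not_not]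
    constructor
    · intro h
      exact Or.inl ⟨rfl, h⟩
    · rintro (⟨-, h⟩ | ⟨h, -⟩ | ⟨h, -⟩)
      · exact h
      · exact absurd h hs2
      · exact absurd rfl h
  by_cases hs2 : s = 2
  · subst hs2
    rw [mul_comm r 2, htwo r hr hr2 hrG, not_not]
    constructor
    · intro h
      exact Or.inr (Or.inl ⟨rfl, h⟩)
    · rintro (⟨h, -⟩ | ⟨-, h⟩ | ⟨-, h, -⟩)
      · exact absurd h hr2
      · exact h
      · exact absurd rfl h
  have hrq := hodd r hr hr2
  have hsq := hodd s hs hs2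
  have her := H130.F4Graph.order_mem hr hrq hrG
  have hes := H130.F4Graph.order_mem hs hsq hsG
  rw [H130.F4Graph.odd_iff hr hs hrs hr2 hs2 hrq hsq her hes, H130.F4Graph.adj_iff _ her _ hes]
  constructor
  · intro h
    exact Or.inr (Or.inr ⟨hr2, hs2, h⟩)
  · rintro (⟨h, -⟩ | ⟨h, -⟩ | ⟨-, -, h⟩)
    · exact absurd h hr2
    · exact absurd h hs2
    · exact h

end Cfsg.Agent.S2525
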