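import Cfsg.Statements.S2553
import Cfsg.Agent.H168.AltEight
import Cfsg.Agent.H168.GLFour
import Cfsg.Agent.S0255

set_option autoImplicit false
open Cfsg

namespace Cfsg.Agent.S2553

/-- Let H be a nontrivial subgroup of GL(4,2) (a group isomorphic to the alternating group of degree 8) whose largest normal 2-subgroup and largest normal subgroup of odd order are both trivial. Then H is isomorphic to an alternating group of degree n for some 5 ≤ n ≤ 8, to the symmetric group of degree 5 or 6, or to GL(3,2). -/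
theorem result (H : Subgroup (GL (Fin 4) (ZMod 2))) (hH : H ≠ ⊥) (hO : Cfsg.pPrimeCore 2 ↥H = ⊥) (hO2 : Cfsg.pCore 2 ↥H = ⊥) :
    (∃ n : ℕ, 5 ≤ n ∧ n ≤ 8 ∧ Nonempty (↥H ≃* alternatingGroup (Fin n))) ∨
    Nonempty (↥H ≃* Equiv.Perm (Fin 5)) ∨ Nonempty (↥H ≃* Equiv.Perm (Fin 6)) ∨ Nonempty (↥H ≃* GL (Fin 3) (ZMod 2)) := by
  have h2 : Fact (Nat.Prime 2) := ⟨Nat.prime_two⟩
  have hnt : Nontrivial H := (Subgroup.nontrivial_iff_ne_bot H).2 hH
  have hR := Cfsg.Agent.H168.NoSolv.rad_of_cores hO hO2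
  obtain ⟨e⟩ := Cfsg.Agent.H168.gl_equiv (F := ZMod 2) (ZMod.card 2)
  have heven : Even (Nat.card H) := by
    by_contra hodd
    rw [Nat.not_even_iff_odd] at hodd
    have h3 : (⊤ : Subgroup H) ≤ Cfsg.pPrimeCore 2 H :=
      Cfsg.Agent.Lib.Cores.le_pPrimeCore inferInstance (by
        rw [Subgroup.card_top]
        exact Nat.Coprime.symm ((Nat.coprime_two_left).2 hodd))
    rw [hO] at h3
    exact top_ne_bot (le_bot_iff.1 h3)
  rcases Cfsg.Agent.H168.NoSolv.main hR heven (e.toMonoidHom.comp H.subtype)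
    (e.injective.comp H.subtype_injective) with h | h | h | ⟨F, i1, i2, hF, ⟨f⟩⟩
  · exact Or.inl h
  · exact Or.inr (Or.inl h)
  · exact Or.inr (Or.inr (Or.inl h))
  · right; right; right
    obtain ⟨g⟩ := Cfsg.Agent.S0255.result hF (ZMod.card 2)
    obtain ⟨k⟩ := Cfsg.Agent.H168.psl_equiv_gl (F := ZMod 2) (ZMod.card 2) 3
    exact ⟨f.trans (g.trans k)⟩

end Cfsg.Agent.S2553
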