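import Cfsg.Statements.S2555
import Cfsg.Agent.S2554
import Cfsg.Agent.H169.PSLTwoAut
import Cfsg.Agent.OddHalf.EightTorus.AbelAut
import Cfsg.Agent.OddHalf.D4.Spor.J1Out

set_option autoImplicit false
open Cfsg

namespace Cfsg.Agent.S2555

/-- transport along an isomorphism -/
theorem of_equiv {G H : Type*} [Group G] [Group H] (e : G ≃* H) (α : G ≃* G)
    (h : ∃ x : H, ∀ y : H, e (α (e.symm y)) = x * y * x⁻¹) : ∃ g : G, ∀ x : G, α x = g * x * g⁻¹ := by
  obtain ⟨x, hx⟩ := h
  refine ⟨e.symm x, fun y => ?_⟩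
  have h1 := hx (e y)
  rw [e.symm_apply_apply] at h1
  apply e.injective
  rw [h1]
  simp

/-- Let G be a non-abelian finite simple group all of whose Sylow subgroups are abelian, r a prime dividing |G|, and α an automorphism of G whose order is a power of r. If α fixes some Sylow r-subgroup of G elementwise, then α is an inner automorphism. -/
theorem result {G : Type*} [Group G] [Finite G]
    [IsSimpleGroup G] (hna : ¬ IsMulCommutative G)
    (hA : ∀ (p : ℕ), p.Prime → ∀ (P : Sylow p G), IsMulCommutative ↥P)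
    (r : ℕ) [Fact r.Prime] (hr : r ∣ Nat.card G) (α : G ≃* G) (k : ℕ) (hα : orderOf α = r ^ k)
    (R : Sylow r G) (hR : ∀ x ∈ (R : Subgroup G), α x = x) :
    ∃ g : G, ∀ x : G, α x = g * x * g⁻¹ := by
  have hrp : r.Prime := Fact.out
  have hαk : (α : MulAut G) ^ (r ^ k) = 1 := by rw [← hα]; exact pow_orderOf_eq_one α
  rcases eq_or_ne r 2 with rfl | hr2
  · -- the Z*-theorem
    have hna' : ∃ a b : G, a * b ≠ b * a := by
      by_contra hcon
      push Not at hcon
      exact hna ⟨⟨hcon⟩⟩
    have hab : ∀ x ∈ (R : Subgroup G), ∀ y ∈ (R : Subgroup G), x * y = y * x := by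
      intro x hx y hy
      have h1 := (hA 2 Nat.prime_two R).is_comm.comm ⟨x, hx⟩ ⟨y, hy⟩
      exact congrArg Subtype.val h1
    have hne : (R : Subgroup G) ≠ ⊥ := R.ne_bot_of_dvd_card hr
    have hp : IsPGroup 2 (Subgroup.zpowers (α : MulAut G)) := by
      apply IsPGroup.of_card (n := k)
      rw [Nat.card_zpowers]
      exact hα
    obtain ⟨v, -, hv⟩ := Cfsg.Agent.OddHalf.EightTorus.AbelAut.eq_conj hna' R hab hne α hp hR
    exact ⟨v, hv⟩
  · rcases Cfsg.Agent.S2554.result hna hA with ⟨⟨e⟩⟩ | ⟨F, _, _, -, -, ⟨e⟩⟩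
    · apply of_equiv e
      obtain ⟨x, hx⟩ := Cfsg.Agent.OddHalf.D4.Spor.J1Out.inn ((e.symm.trans α).trans e)
      exact ⟨x, fun y => congrArg (fun f : MulAut _ => f y) hx⟩
    · apply of_equiv e
      let β : MulAut (Matrix.ProjectiveSpecialLinearGroup (Fin 2) F) := MulAut.congr e (α : MulAut G)
      have hβ : β ^ (r ^ k) = 1 := by
        rw [← map_pow, hαk, map_one]
      let R' : Sylow r (Matrix.ProjectiveSpecialLinearGroup (Fin 2) F) :=
        R.comapOfInjective e.symm.toMonoidHom e.symm.injective (by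
          intro x _
          exact ⟨e x, e.symm_apply_apply x⟩)
      have hR' : ∀ x ∈ (R' : Subgroup (Matrix.ProjectiveSpecialLinearGroup (Fin 2) F)), β x = x := by
        intro x hx
        have hx' : e.symm x ∈ (R : Subgroup G) := hx
        change e (α (e.symm x)) = x
        rw [hR _ hx', e.apply_symm_apply]
      obtain ⟨x, hx⟩ := Cfsg.Agent.H169.PSLTwoAut.inner_odd hr2 β hβ R'
        (by rw [← Nat.card_congr e.toEquiv]; exact hr) hR'
      exact ⟨x, fun y => congrArg (fun f : MulAut _ => f y) hx⟩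

end Cfsg.Agent.S2555
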