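import Cfsg.Statements.S2556
import Cfsg.Agent.S1163
import Cfsg.Agent.H163.SuzAut

set_option autoImplicit false
open Cfsg

namespace Cfsg.Agent.S2556

open Cfsg.Agent.LieRecognition.SzMatrix H163.SuzAut

/-- the coordinates on the unipotent group -/
noncomputable def coord {F : Type*} [Field F] [Fintype F] {m : ℕ} (hm : 1 ≤ m)
    (hF : Fintype.card F = 2 ^ (2 * m + 1)) : Coord F hm (good hF).unip where
  e := (good hF).unipEquiv.symm
  mul := by
    intro g h
    obtain ⟨⟨a, b⟩, rfl⟩ := (good hF).unipEquiv.surjective g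
    obtain ⟨⟨c, d⟩, rfl⟩ := (good hF).unipEquiv.surjective h
    rw [Equiv.symm_apply_eq, Equiv.symm_apply_apply, Equiv.symm_apply_apply]
    apply Subtype.ext
    show (good hF).u a b * (good hF).u c d = (good hF).u (a + c) (b + d + a * c ^ (2 ^ (m + 1)))
    rw [(good hF).u_mul, theta_apply]

theorem pCore_congr {G H : Type*} [Group G] [Group H] (p : ℕ) (f : G ≃* H) :
    (pCore p G).map f.toMonoidHom = pCore p H := by
  apply le_antisymm
  · rw [Subgroup.map_le_iff_le_comap]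
    apply sSup_le
    rintro N ⟨hN, hp⟩
    rw [← Subgroup.map_le_iff_le_comap]
    exact le_sSup ⟨hN.map f.toMonoidHom f.surjective, hp.map f.toMonoidHom⟩
  · apply sSup_le
    rintro N ⟨hN, hp⟩
    have h1 : N.map f.symm.toMonoidHom ≤ pCore p G :=
      le_sSup ⟨hN.map f.symm.toMonoidHom f.symm.surjective, hp.map f.symm.toMonoidHom⟩
    intro x hx
    exact ⟨f.symm x, h1 ⟨x, hx, rfl⟩, f.apply_symm_apply x⟩

/-- Let S be a Sylow 2-subgroup of the Suzuki group Sz(q), q = 2ⁿ with n = 2m + 1 ≥ 3 (realised as 4 × 4 matrices over the field with q elements). Then the largest normal 2-subgroup of the automorphism group of S is elementary abelian of order 2^(n²), and the automorphism group of S has order 2^(n²) · n · (q − 1). -/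
theorem result {S : Type*} [Group S] [Finite S] (m : ℕ) (hm : 1 ≤ m)
    {F : Type*} [Field F] [Fintype F] (hF : Fintype.card F = 2 ^ (2 * m + 1))
    (P : Sylow 2 ↥(Cfsg.Lie.Sz F (2 ^ (m + 1)))) (hS : Nonempty (S ≃* ↥(P : Subgroup ↥(Cfsg.Lie.Sz F (2 ^ (m + 1)))))) :
    Cfsg.IsElementaryAbelian 2 (Cfsg.pCore 2 (MulAut S)) ∧ Nat.card ↥(Cfsg.pCore 2 (MulAut S)) = 2 ^ ((2 * m + 1) ^ 2) ∧
      Nat.card (MulAut S) = 2 ^ ((2 * m + 1) ^ 2) * ((2 * m + 1) * (2 ^ (2 * m + 1) - 1)) := by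
  classical
  obtain ⟨e0⟩ := hS
  have : Fact (Nat.Prime 2) := ⟨Nat.prime_two⟩
  have hcF : Nat.card F = 2 ^ (2 * m + 1) := by rw [Nat.card_eq_fintype_card, hF]
  have hcu : Nat.card (good hF).unip = (2 ^ (2 * m + 1)) ^ 2 := by
    rw [(good hF).card_unip, hcF]
  obtain ⟨hcard, -⟩ := Cfsg.Agent.S1163.result hm hF
  have hodd : ¬ 2 ∣ (2 ^ (2 * m + 1) - 1) * ((2 ^ (2 * m + 1)) ^ 2 + 1) := by
    intro h
    rcases (Nat.Prime.dvd_mul Nat.prime_two).mp h with h | h
    · have h1 : 1 ≤ 2 ^ (2 * m + 1) := Nat.one_le_two_pow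
      have h2 : 2 ∣ 2 ^ (2 * m + 1) := dvd_pow_self 2 (by omega)
      omega
    · have h2 : 2 ∣ (2 ^ (2 * m + 1)) ^ 2 := dvd_pow (dvd_pow_self 2 (by omega)) (by omega)
      omega
  have hidx : (good hF).unip.index = (2 ^ (2 * m + 1) - 1) * ((2 ^ (2 * m + 1)) ^ 2 + 1) := by
    have h1 := Subgroup.card_mul_index (good hF).unip
    rw [hcu, hcard, mul_assoc] at h1
    exact Nat.eq_of_mul_eq_mul_left (by positivity) h1
  have hpg : IsPGroup 2 (good hF).unip := by
    rw [IsPGroup.iff_card]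
    exact ⟨(2 * m + 1) * 2, by rw [hcu, ← pow_mul]⟩
  have hni : ¬ 2 ∣ (good hF).unip.index := by
    rw [hidx]; exact hodd
  let P' : Sylow 2 (Cfsg.Lie.Sz F (2 ^ (m + 1))) := hpg.toSylow hni
  let e1 : S ≃* (good hF).unip := e0.trans (Sylow.equiv P P')
  let e2 : MulAut S ≃* MulAut (good hF).unip := MulAut.congr e1
  have hc := (coord hm hF).card_mulAut hF
  have hN := (coord hm hF).cen_normal hF
  have hE := (coord hm hF).cen_elemAb hF
  have hcN := (coord hm hF).card_cen hF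
  have hNp : IsPGroup 2 (coord hm hF).cen := by
    rw [IsPGroup.iff_card]
    exact ⟨(2 * m + 1) ^ 2, hcN⟩
  have hNi : ¬ 2 ∣ (coord hm hF).cen.index := by
    have h1 := Subgroup.card_mul_index (coord hm hF).cen
    rw [hc, hcN] at h1
    rw [Nat.eq_of_mul_eq_mul_left (by positivity) h1]
    intro h
    rcases (Nat.Prime.dvd_mul Nat.prime_two).mp h with h | h
    · omega
    · have h1 : 1 ≤ 2 ^ (2 * m + 1) := Nat.one_le_two_pow
      have h2 : 2 ∣ 2 ^ (2 * m + 1) := dvd_pow_self 2 (by omega)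
      omega
  have hcore : pCore 2 (MulAut (good hF).unip) = (coord hm hF).cen := pCore_eq hN hNp hNi
  have hmap := pCore_congr 2 e2
  rw [hcore] at hmap
  let e3 : pCore 2 (MulAut S) ≃* (coord hm hF).cen :=
    (e2.subgroupMap _).trans (MulEquiv.subgroupCongr hmap)
  refine ⟨⟨?_, ?_⟩, ?_, ?_⟩
  · refine ⟨⟨fun x y => ?_⟩⟩
    apply e3.injective
    have := hE.1.is_comm.comm (e3 x) (e3 y)
    rw [map_mul, map_mul, this]
  · intro a ha
    have h1 : (e3 ⟨a, ha⟩) ^ 2 = 1 := Subtype.ext (hE.2 _ (e3 ⟨a, ha⟩).2)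
    have h2 : (⟨a, ha⟩ : pCore 2 (MulAut S)) ^ 2 = 1 := by
      apply e3.injective
      rw [map_pow, h1, map_one]
    exact congrArg Subtype.val h2
  · rw [Nat.card_congr e3.toEquiv, hcN]
  · rw [Nat.card_congr e2.toEquiv, hc]

end Cfsg.Agent.S2556
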