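import Cfsg.Statements.S2648
import Cfsg.Agent.S4010
import Cfsg.Agent.H187.WreathTwo

set_option autoImplicit false
open Cfsg

namespace Cfsg.Agent.S2648

/-- Let q be odd, F a field with q elements and n ≥ 1. A Sylow 2-subgroup R of the symplectic group Sp_{2n}(F) has derived length exactly k + 1, where 2^k ≤ 2n < 2^{k+1}: the (k+1)-st term of its derived series is trivial and the k-th is not. -/
theorem result {F : Type*} [Field F] [Fintype F] [DecidableEq F] (q : ℕ) (hF : Fintype.card F = q) (hq : Odd q) (n : ℕ) (hn : 1 ≤ n) (R : Sylow 2 ↥(Matrix.symplecticGroup (Fin n) F)) : derivedSeries ↥(R : Subgroup ↥(Matrix.symplecticGroup (Fin n) F)) (Nat.log 2 (2 * n) + 1) = ⊥ ∧ derivedSeries ↥(R : Subgroup ↥(Matrix.symplecticGroup (Fin n) F)) (Nat.log 2 (2 * n)) ≠ ⊥ := by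
  classical
  have h2 : (2 : F) ≠ 0 := by
    apply Ring.two_ne_zero
    intro h
    have h1 := FiniteField.even_card_iff_char_two.1 h
    rw [hF] at h1
    rw [Nat.odd_iff] at hq
    omega
  have hfact : Fact (Nat.Prime 2) := ⟨Nat.prime_two⟩
  have hlog : Nat.log 2 (2 * n) = Nat.log 2 n + 1 := by
    rw [mul_comm]
    exact Nat.log_mul_base (by norm_num) (by omega)
  constructor
  · -- the upper bound
    obtain ⟨e⟩ : Nonempty ((Fin n ⊕ Fin n) ≃ Fin (2 * n)) := ⟨finSumFinEquiv.trans (finCongr (by ring))⟩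
    have hinv : ∀ A : Matrix.symplecticGroup (Fin n) F, (A.1 * (A⁻¹).1 = 1) ∧ ((A⁻¹).1 * A.1 = 1) := fun A =>
      ⟨congrArg Subtype.val (mul_inv_cancel A), congrArg Subtype.val (inv_mul_cancel A)⟩
    let f : Matrix.symplecticGroup (Fin n) F →* Matrix.GeneralLinearGroup (Fin (2 * n)) F :=
      (Units.map (Matrix.reindexRingEquiv F e : Matrix (Fin n ⊕ Fin n) (Fin n ⊕ Fin n) F →*
        Matrix (Fin (2 * n)) (Fin (2 * n)) F)).comp
      { toFun := fun A => ⟨A.1, (A⁻¹).1, (hinv A).1, (hinv A).2⟩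
        map_one' := Units.ext rfl
        map_mul' := fun _ _ => Units.ext rfl }
    have hf : Function.Injective f := by
      intro A B h
      have h1 : Matrix.reindexRingEquiv F e A.1 = Matrix.reindexRingEquiv F e B.1 := congrArg Units.val h
      exact Subtype.ext ((Matrix.reindexRingEquiv F e).injective h1)
    exact Cfsg.Agent.S4010.result 2 R.isPGroup' F (2 * n) (by omega)
      (f.comp (R : Subgroup (Matrix.symplecticGroup (Fin n) F)).subtype) (hf.comp Subtype.val_injective)
  · -- the lower bound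
    intro hb
    rw [hlog] at hb
    obtain ⟨H, hH, hne⟩ := Cfsg.Agent.H187.WreathTwo.exists_sub (F := F) h2 (n := n) (k := Nat.log 2 n)
      (Nat.pow_log_le_self 2 (by omega))
    obtain ⟨Q, hQ⟩ := hH.exists_le_sylow
    have e := Sylow.equiv Q R
    apply hne
    rw [eq_bot_iff]
    intro x hx
    have h3 : (e.toMonoidHom.comp (Subgroup.inclusion hQ)) x ∈ derivedSeries R (Nat.log 2 n + 1) :=
      map_derivedSeries_le_derivedSeries (e.toMonoidHom.comp (Subgroup.inclusion hQ)) _ ⟨x, hx, rfl⟩
    rw [hb, Subgroup.mem_bot] at h3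
    rw [Subgroup.mem_bot]
    have h4 : Subgroup.inclusion hQ x = 1 := e.injective (by rw [map_one]; exact h3)
    exact (Subgroup.inclusion_injective hQ) (by rw [h4, map_one])

end Cfsg.Agent.S2648
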