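import Cfsg.Statements.S2658
import Cfsg.Agent.H190.Start
import Cfsg.Agent.H190.WeylG2
import Cfsg.Agent.H191.AltTwo
import Cfsg.Agent.S1059
import Cfsg.Agent.S1035

set_option autoImplicit false
open scoped MatrixGroups
open Cfsg

namespace Cfsg.Agent.S2658

open Cfsg.Lie Cfsg.Agent.H190 Cfsg.Agent.H190.PC Cfsg.Agent.ChevalleyStructure.Elts

universe u

theorem inG2 : InList chevG2 := by simp [InList]

theorem gens_ok : ∀ i < chevG2.rank, ∃ c ∈ WG2.gensG2, ∀ x < chevG2.nroots, get c x = chevG2.reflectRoot i x := by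
  decide +kernel

section
variable (K : Type u) [Field K] [Fintype K]

theorem ord_eq : 1 * Nat.card ↥(chevG2.group K) = Fintype.card K ^ 6 * (([2, 6].map fun k => Fintype.card K ^ k - 1).prod) := by
  rw [one_mul, Cfsg.Agent.S1059.result rfl]
  simp only [List.map_cons, List.map_nil, List.prod_cons, List.prod_nil]
  ring

theorem tor_eq : 1 * Nat.card ↥(chevG2.diagonalSubgroup K) = (Fintype.card K - 1) ^ [2, 6].length :=
  Cfsg.Agent.S1035.result (F := K) rfl (chevG2, 1) (by simp)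

end

/-- the index of the torus of `G₂` -/
theorem index_ok {K : Type u} [Field K] [Fintype K] {ℓ : ℕ} (hl : ℓ.Prime) (hq : ℓ ∣ Fintype.card K - 1)
    (hds : ∀ k ∈ [2, 6], ¬ ℓ ∣ k) : ¬ ℓ ∣ (TG chevG2 K).index :=
  not_dvd_index inG2 [2, 6] (d := 1) (N := 6) one_ne_zero (ord_eq K) (tor_eq K) hl hq hds

theorem weyl {K : Type u} [Field K] {n : ↥(chevG2.group K)} (hn : n ∈ NG chevG2 K) :
    ∀ t ∈ TG chevG2 K, n ^ 6 * t * (n ^ 6)⁻¹ = t :=
  conj_pow_eq inG2 hn (WG2.order _ (pw_mem inG2 hn WG2.gensG2 gens_ok))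

/-- no section `A₇` if `p ≠ 5` -/
theorem no_seven {F : Type u} [Field F] [Fintype F] (p : ℕ) [hp : Fact p.Prime] [CharP F p] (h5 : p ≠ 5)
    (r : ℕ) (hr : 7 ≤ r) (H : Subgroup ↥(chevG2.group F)) (K : Subgroup ↥H) [K.Normal]
    (h : Nonempty (↥H ⧸ K ≃* ↥(alternatingGroup (Fin r)))) : False := by
  have : Fact (Nat.Prime 5) := ⟨by norm_num⟩
  have hm : ¬ p ∣ 5 := fun hd => h5 ((Nat.prime_dvd_prime_iff_eq hp.out (by norm_num)).1 hd)
  obtain ⟨K', _, _, f, hK'⟩ := field_ext' F p hm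
  obtain ⟨H', ι, φ, hι, hφ⟩ := start chevG2 f hr H K h
  have hidx := index_ok (K := K') (ℓ := 5) (by norm_num) hK' (by decide)
  obtain ⟨n, hn, hA⟩ := one_prime (torusData inG2 K') hidx ι hι φ hφ
    (x := ⟨x7, x7_mem⟩) (y := ⟨y7, y7_mem⟩) (k := 2) (by rw [Subgroup.orderOf_mk]; exact x7_order)
    (Subtype.ext rel7)
  exact absurd (hA.pow_eq_one (weyl hn)) (by decide)

theorem cartan_comb : ∀ s < chevG2.nroots, ∃ a ∈ [(-3 : ℤ), -2, -1, 0, 1, 2, 3], ∃ b ∈ [(-3 : ℤ), -2, -1, 0, 1, 2, 3],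
    ∀ i < chevG2.rank, chevG2.cartan i s = a * chevG2.cartan i (chevG2.simple 0) + b * chevG2.cartan i (chevG2.simple 1) := by
  decide +kernel

theorem simple_lt : chevG2.simple 0 < chevG2.nroots ∧ chevG2.simple 1 < chevG2.nroots := by decide +kernel

theorem ent_simple (K : Type u) [Field K] (s : Fin chevG2.nroots) : ∃ a b : ℤ, ∀ t ∈ chevG2.diagonalSubgroup K,
      ent t s = ent t ⟨_, simple_lt.1⟩ ^ a * ent t ⟨_, simple_lt.2⟩ ^ b := by
  obtain ⟨a, -, b, -, h⟩ := cartan_comb s s.2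
  refine ⟨a, b, fun t ht => ?_⟩
  obtain ⟨e, he, h1, -⟩ := torus_form inG2 ht
  rw [ent_of_dmat h1, ent_of_dmat h1, ent_of_dmat h1, ← Finset.prod_zpow, ← Finset.prod_zpow, ← Finset.prod_mul_distrib]
  refine Finset.prod_congr rfl fun i hi => ?_
  have hi' := Finset.mem_range.1 hi
  rw [h i hi', ← zpow_mul, ← zpow_mul, ← zpow_add₀ (he i hi'), mul_comm a, mul_comm b]

theorem two_torsion (K : Type u) [Field K] [Fintype K] : Nat.card {t : TG chevG2 K // t ^ 2 = 1} ≤ 4 := by
  classical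
  have hent : ∀ t : {t : TG chevG2 K // t ^ 2 = 1}, ∀ s, ent ((t.1 : ↥(chevG2.group K)) : GL chevG2.Idx K) s ∈ ({1, -1} : Finset K) := by
    intro t s
    have ht : ((t.1 : ↥(chevG2.group K)) : GL chevG2.Idx K) ∈ chevG2.diagonalSubgroup K := t.1.2
    have h1 := ent_mul inG2 ht ht s
    have h2 : ((t.1 : ↥(chevG2.group K)) : GL chevG2.Idx K) * ((t.1 : ↥(chevG2.group K)) : GL chevG2.Idx K) = 1 := by
      have h0 : t.1 * t.1 = 1 := by rw [← pow_two]; exact t.2
      exact congrArg (fun x : TG chevG2 K => ((x : ↥(chevG2.group K)) : GL chevG2.Idx K)) h0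
    rw [h2] at h1
    have h3 : ent (1 : GL chevG2.Idx K) s = 1 := by
      unfold ent
      rw [Units.val_one, Matrix.one_apply_eq]
    rw [h3] at h1
    rw [Finset.mem_insert, Finset.mem_singleton]
    exact mul_self_eq_one_iff.1 h1.symm
  have hcard : Nat.card (({1, -1} : Finset K) × ({1, -1} : Finset K)) ≤ 4 := by
    rw [Nat.card_prod, Nat.card_eq_fintype_card, Fintype.card_coe]
    have : ({1, -1} : Finset K).card ≤ 2 := Finset.card_le_two
    nlinarith
  refine le_trans (Nat.card_le_card_of_injective (fun t : {t : TG chevG2 K // t ^ 2 = 1} =>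
    ((⟨_, hent t ⟨_, simple_lt.1⟩⟩, ⟨_, hent t ⟨_, simple_lt.2⟩⟩) : ({1, -1} : Finset K) × ({1, -1} : Finset K))) ?_) hcard
  intro t t' h
  rw [Prod.mk.injEq, Subtype.mk.injEq, Subtype.mk.injEq] at h
  apply Subtype.ext
  apply Subtype.ext
  apply Subtype.ext
  have ht : ((t.1 : ↥(chevG2.group K)) : GL chevG2.Idx K) ∈ chevG2.diagonalSubgroup K := t.1.2
  have ht' : ((t'.1 : ↥(chevG2.group K)) : GL chevG2.Idx K) ∈ chevG2.diagonalSubgroup K := t'.1.2
  refine torus_ext inG2 ht ht' fun s => ?_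
  obtain ⟨a, b, hs⟩ := ent_simple K s
  rw [hs _ ht, hs _ ht', h.1, h.2]

theorem index_four {K : Type u} [Field K] [Fintype K] (h4 : 4 ∣ Fintype.card K - 1) : ¬ 8 ∣ (TG chevG2 K).index := by
  rw [index_eq inG2 [2, 6] one_ne_zero (ord_eq K) (tor_eq K)]
  have h1 : 1 < Fintype.card K := Fintype.one_lt_card
  obtain ⟨m, hm⟩ := h4
  have hq : Fintype.card K = 4 * m + 1 := by omega
  rw [← ZMod.natCast_eq_zero_iff, hq]
  simp only [List.map_cons, List.map_nil, List.prod_cons, List.prod_nil, Finset.sum_range_succ, Finset.sum_range_zero]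
  push_cast
  generalize (m : ZMod 8) = x
  revert x
  decide

/-- no section `A₈` in characteristic 5 -/
theorem no_eight {F : Type u} [Field F] [Fintype F] (p : ℕ) [hp : Fact p.Prime] [CharP F p] (h5 : p = 5)
    (r : ℕ) (hr : 8 ≤ r) (H : Subgroup ↥(chevG2.group F)) (K : Subgroup ↥H) [K.Normal]
    (h : Nonempty (↥H ⧸ K ≃* ↥(alternatingGroup (Fin r)))) : False := by
  have hm : ¬ p ∣ 4 := by rw [h5]; decide
  obtain ⟨K', _, _, f, hK'⟩ := field_ext' F p hm
  obtain ⟨H', ι, φ, hι, hφ⟩ := start chevG2 f hr H K h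
  let e := MonoidHom.ofInjective hι
  have := Cfsg.Agent.H191.AltTwo.le_seven (TG chevG2 K') (torusData inG2 K').comm (two_torsion K') (index_four hK')
    ι.range (φ.comp e.symm.toMonoidHom) (hφ.comp e.symm.surjective)
  omega

/-- Alternating sections of the groups of type G₂. Let `F` be a finite field of characteristic `p` and let `G` be the Chevalley group of type G₂ over `F`. If some subgroup of `G` has a quotient isomorphic to the alternating group of degree `r`, then `r` is at most 6, or 7 in characteristic 5. (Only an upper bound is asserted.) -/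
theorem result {F : Type*} [Field F] [Fintype F] (p : ℕ) [Fact p.Prime] [CharP F p]
    (r : ℕ) (H : Subgroup ↥(Cfsg.Lie.chevG2.group F)) (K : Subgroup ↥H) [K.Normal]
    (h : Nonempty (↥H ⧸ K ≃* ↥(alternatingGroup (Fin r)))) :
    r ≤ 6 + (if p = 5 then 1 else 0) := by
  by_contra hlt
  split_ifs at hlt with hp
  · exact no_eight p hp r (by omega) H K h
  · exact no_seven p hp r (by omega) H K h

end Cfsg.Agent.S2658
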