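import Cfsg.Statements.S2761
import Cfsg.Agent.H460.QdAlt
import Cfsg.Agent.H275.QdSylow

set_option autoImplicit false
open Cfsg

namespace Cfsg.Agent.S2761

/-- The group Qd(2), the natural semidirect product of an elementary abelian group of order 4 by SL₂(2) (realised as the affine subgroup of SL₃(2)), is isomorphic to the symmetric group of degree 4. -/
theorem result : Nonempty (↥(Cfsg.qd 2) ≃* Equiv.Perm (Fin 4)) := by
  classical
  haveI : Fact (Nat.Prime 2) := ⟨Nat.prime_two⟩
  have hc : Fintype.card (Cfsg.Agent.H460.QdAlt.Pl 2) = Fintype.card (Fin 4) := by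
    rw [Cfsg.Agent.H460.QdAlt.card_plane, Fintype.card_fin]
    norm_num
  let e : Cfsg.Agent.H460.QdAlt.Pl 2 ≃ Fin 4 := Fintype.equivOfCardEq hc
  let F : ↥(Cfsg.qd 2) →* Equiv.Perm (Fin 4) :=
    (e.permCongrHom.toMonoidHom).comp (Cfsg.Agent.H460.QdAlt.planeHom 2)
  have hF : Function.Injective F :=
    e.permCongrHom.injective.comp (Cfsg.Agent.H460.QdAlt.planeHom_injective 2)
  have hcard : Nat.card ↥(Cfsg.qd 2) = Nat.card (Equiv.Perm (Fin 4)) := by
    rw [Cfsg.Agent.H275.QdSylow.card_qd, Nat.card_perm, Nat.card_eq_fintype_card, Fintype.card_fin]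
    decide
  have hb : Function.Bijective F := (Nat.bijective_iff_injective_and_card F).2 ⟨hF, hcard⟩
  exact ⟨MulEquiv.ofBijective F hb⟩

end Cfsg.Agent.S2761
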