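import Cfsg.Statements.S2794
import Cfsg.Agent.S1989
import Cfsg.Agent.S2763
import Cfsg.Agent.S3081
import Cfsg.Agent.H40.ZJFunctor

set_option autoImplicit false
universe u
open Cfsg

namespace Cfsg.Agent.S2794

open Subgroup

theorem zj_char {p : ℕ} [Fact p.Prime] {Q : Type u} [Group Q] [Finite Q] (hQ : IsPGroup p Q) :
    (H40.ZJFunctor.zj Q).Characteristic := by
  rw [characteristic_iff_map_eq]
  intro φ
  exact (H40.ZJFunctor.isCharPFunctor_zj p).2 Q Q hQ φ

/-- In a group isomorphic to `Qd(p)` the centre of the Thompson subgroup does not control strong fusion. -/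
theorem not_controls_qd {p : ℕ} [Fact p.Prime] (hp : p ≠ 2) (P : Sylow p ↥(Cfsg.qd p)) :
    ¬ ControlsStrongFusion p (centerThompsonAOf (P : Subgroup ↥(Cfsg.qd p))) := by
  rintro ⟨T, hUT, hT⟩
  have hU : (H40.ZJFunctor.zj ↥(P : Subgroup ↥(Cfsg.qd p))).map (P : Subgroup ↥(Cfsg.qd p)).subtype =
      centerThompsonAOf (P : Subgroup ↥(Cfsg.qd p)) := H40.ZJFunctor.induced_zj _
  have hPn : Nontrivial ↥(P : Subgroup ↥(Cfsg.qd p)) := by
    rw [← Finite.one_lt_card_iff_nontrivial, H37.QdK.card_sylow_of_equiv (MulEquiv.refl _) P]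
    exact Nat.one_lt_pow (by norm_num) (Fact.out : p.Prime).one_lt
  have h1 := S2763.result P (H40.ZJFunctor.zj ↥(P : Subgroup ↥(Cfsg.qd p)))
    ((H40.ZJFunctor.isCharPFunctor_zj p).1 _ P.isPGroup' hPn) (zj_char P.isPGroup')
  rw [hU] at h1
  have hTn := H37.Control.le_normalizer_of_controls hUT hT
  rw [h1.1] at hTn
  -- `T = P`
  have hTP : (T : Subgroup ↥(Cfsg.qd p)) ≤ P := by
    have h2 : IsPGroup p ↥((T : Subgroup ↥(Cfsg.qd p)) ⊔ (P : Subgroup ↥(Cfsg.qd p))) :=
      IsPGroup.to_sup_of_normal_right' T.isPGroup' P.isPGroup' hTn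
    have h3 := P.3 h2 le_sup_right
    exact le_sup_left.trans h3.le
  have hTP' : T = P := Sylow.ext (T.3 P.isPGroup' hTP).symm
  subst hTP'
  refine H37.QdK.not_controls_sylow hp T ⟨T, le_rfl, fun A hA => ?_⟩
  have := hT A hA
  rwa [h1.1] at this

theorem not_controls {X : Type u} [Group X] [Finite X] {p : ℕ} [Fact p.Prime] (hp : p ≠ 2)
    (e : X ≃* ↥(Cfsg.qd p)) (T : Sylow p X) :
    ¬ Cfsg.ControlsStrongFusion p (centerThompsonAOf (T : Subgroup X)) := by
  intro h
  have h2 := H37.Control.controlsStrongFusion_congr e h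
  rw [PLocal.ThompsonJA.map_centerThompsonAOf _ e.injective] at h2
  obtain ⟨T', hT'⟩ := H37.SecControl.exists_sylow_comap e.symm T
  have h3 : (T : Subgroup X).comap e.symm.toMonoidHom = (T : Subgroup X).map e.toMonoidHom := by
    ext y
    constructor
    · intro hy
      exact ⟨e.symm y, hy, e.apply_symm_apply y⟩
    · rintro ⟨x, hx, rfl⟩
      change e.symm (e x) ∈ (T : Subgroup X)
      rw [e.symm_apply_apply]; exact hx
  rw [← h3, ← hT'] at h2
  exact not_controls_qd hp T' h2

/-- For an odd prime p and a finite group G, the group Qd(p) is not involved in G if and only if in every section K/R of G, for every Sylow p-subgroup S* of K/R, the centre of J(S*) (J generated by the abelian subgroups of largest order) controls strong fusion in K/R. -/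
theorem result {G : Type*} [Group G] [Finite G] {p : ℕ} [Fact p.Prime] (hp : p ≠ 2) : ¬ Cfsg.Involves ↥(Cfsg.qd p) G ↔ ∀ (K R : Subgroup G) [hR : (R.subgroupOf K).Normal], ∀ T : Sylow p (K ⧸ R.subgroupOf K), Cfsg.ControlsStrongFusion p (Cfsg.centerThompsonAOf (T : Subgroup (K ⧸ R.subgroupOf K))) := by
  constructor
  · intro h K R hR T
    have h1 : ¬ Cfsg.Involves ↥(Cfsg.qd p) (↥K ⧸ R.subgroupOf K) := by
      intro h2
      exact h (Lib.Involves.involves_iff.1
        (Lib.Involves.trans (H37.Stable.involves_section K R) (Lib.Involves.involves_iff.2 h2)))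
    refine ⟨T, ?_, (S3081.result hp T (T : Subgroup (↥K ⧸ R.subgroupOf K)) ?_ h1).1⟩
    · rw [← H40.ZJFunctor.induced_zj]
      exact Subgroup.map_subtype_le _
    · exact ⟨le_rfl, fun x _ g hg => hg⟩
  · intro h hinv
    obtain ⟨K, R, hR, ⟨e⟩⟩ := hinv
    obtain ⟨T⟩ : Nonempty (Sylow p (↥K ⧸ R.subgroupOf K)) := inferInstance
    exact not_controls hp e T (h K R T)

end Cfsg.Agent.S2794
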