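import Cfsg.Statements.S2991
import Cfsg.Agent.H260.GN14

set_option autoImplicit false
universe u
open scoped Pointwise
open Cfsg

namespace Cfsg.Agent.S2991

/-- Let p be a prime and S a nontrivial finite p-group; write J(S) for the subgroup generated by the abelian subgroups of S of largest order and J̃(S) = C_S(Z(J(S))), and call a subgroup R of a p-group X centrally large in X if |R|·|Z(R)| is as large as possible among subgroups of X. Unless S satisfies all of: S is non-abelian; J(S) = S; Z(S) and Φ(S) are elementary abelian; Φ(S) ≤ Z(S) if p = 2, Φ(S) ≤ Z₂(S) if p = 3, Φ(S) ≤ Z(S) with S of exponent p if p > 3; and for all abelian subgroups A, B of largest order and all subgroups Q of S, |A|² = |S|·|Z(S)| ≥ |Q|·|Z(Q)| and ⟨A, B⟩ = AB = C_S(A ∩ B) — there exist nontrivial characteristic subgroups S₁ ≤ Z(S) and S₂ ≤ J̃(S) of S, S₂ characteristic in J̃(S) and containing a centrally large subgroup of J̃(S) (the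 largest value of |R|·|Z(R)| over subgroups R of S₂ equals that over subgroups of J̃(S)), such that whenever S is embedded as a Sylow p-subgroup of a finite group G in the basic pushing-up situation, the image of S₁ or of S₂ is normal in G. -/
theorem result {p : ℕ} [Fact p.Prime] (S : Type u) [Group S] [Finite S] [Nontrivial S] (hS : IsPGroup p S) (hexc : ¬ (¬ IsMulCommutative S ∧ Cfsg.thompsonSubgroupA S = ⊤ ∧ Cfsg.IsElementaryAbelian p (Subgroup.center S) ∧ Cfsg.IsElementaryAbelian p (frattini S) ∧ (p = 2 → frattini S ≤ Subgroup.center S) ∧ (p = 3 → frattini S ≤ Subgroup.upperCentralSeries S 2) ∧ (3 < p → frattini S ≤ Subgroup.center S ∧ Monoid.exponent S = p) ∧ (∀ A ∈ Cfsg.maxAbelianSubgroups S, ∀ B ∈ Cfsg.maxAbelianSubgroups S, ∀ Q : Subgroup S, Nat.card ↥A ^ 2 = Nat.card S * Nat.card ↥(Subgroup.center S) ∧ Nat.card ↥Q * Nat.card ↥(Subgroup.center ↥Q) ≤ Nat.card S * Nat.card ↥(Subgroup.center S) ∧ ((A ⊔ B :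 Subgroup S) : Set S) = (A : Set S) * (B : Set S) ∧ A ⊔ B = Subgroup.centralizer ((A ⊓ B : Subgroup S) : Set S)))) : ∃ S₁ S₂ : Subgroup S, S₁ ≠ ⊥ ∧ S₂ ≠ ⊥ ∧ S₁.Characteristic ∧ S₂.Characteristic ∧ S₁ ≤ Subgroup.center S ∧ S₂ ≤ Subgroup.centralizer ((Cfsg.thompsonSubgroupA S ⊓ Subgroup.centralizer (Cfsg.thompsonSubgroupA S : Set S) : Subgroup S) : Set S) ∧ (S₂.subgroupOf (Subgroup.centralizer ((Cfsg.thompsonSubgroupA S ⊓ Subgroup.centralizer (Cfsg.thompsonSubgroupA S : Set S) : Subgroup S) : Set S))).Characteristic ∧ Cfsg.maxCentralProduct ↥S₂ = Cfsg.maxCentralProduct ↥(Subgroup.centralizer ((Cfsg.thompsonSubgroupA S ⊓ Subgroup.centralizer (Cfsg.thompsonSubgroupA S : Set S) : Subgroup S) : Set S)) ∧ ∀ (G : Type u) [Group G] [Finite G] (P : Subgroup G) (e : S ≃* ↥P), Cfsg.IsPushingUpSituation p P → ((S₁).map ((P.subtype).comp (e : S ≃* ↥P).toMonoidHom)).Normal ∨ ((S₂).map ((P.subtype).comp (e : S ≃* ↥P).toMonoidHom)).Normal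 := by
  by_cases h1 : ⁅H260.GN.zj S, (⊤ : Subgroup S)⁆ = ⊥
  swap
  · have h := H260.GN.pair_case1 hS h1
    exact ⟨_, _, h.ne1, h.ne2, h.ch1, h.ch2, h.le1, h.le2, h.ch2', rfl, h.nrm⟩
  by_cases h2 : ∀ z ∈ Subgroup.center S, z ^ p = 1
  swap
  · push Not at h2
    obtain ⟨z, hz, hz'⟩ := h2
    have h := H260.GN.pair_case2 hS hz hz'
    exact ⟨_, _, h.ne1, h.ne2, h.ch1, h.ch2, h.le1, h.le2, h.ch2', rfl, h.nrm⟩
  have ht : Subgroup.centralizer (H260.GN.zj S : Set S) = ⊤ := by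
    rw [eq_top_iff, Subgroup.le_centralizer_iff]
    exact (H260.GN.comm_top_bot h1).trans (H260.GN.center_le_centralizer _)
  by_cases h3 : ∀ x y : S, x * y = y * x
  · have h := H260.GN.pair_abelian (p := p) h3
    refine ⟨_, _, h.ne1, h.ne2, h.ch1, h.ch2, h.le1, h.le2, h.ch2', ?_, h.nrm⟩
    rw [H260.GN.mcp_top ht, H260.GN.mcp_top rfl]
  obtain ⟨Q, hQ⟩ := H264.CD.exists_min (G := S)
  by_cases h4 : ⁅Q, Q⁆ = ⊥
  swap
  · have h := H260.GN.pair_case4 hS ht hQ h4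
    refine ⟨_, _, h.ne1, h.ne2, h.ch1, h.ch2, h.le1, h.le2, h.ch2', ?_, h.nrm⟩
    rw [H260.GN.mcp_top ht, H260.GN.mcp_eq H264.CD.isCentrallyLarge_minJoin]
  obtain ⟨hJ, hCL, hmin⟩ := H260.GN.thompson_top ht hQ h4
  by_cases h0 : H260.GN.s0 p (⊤ : Subgroup S) = ⊥
  swap
  · obtain ⟨S₂, h, hS₂⟩ := H260.GN.pair_last hS hJ h2 hCL ht h0
    refine ⟨_, _, h.ne1, h.ne2, h.ch1, h.ch2, h.le1, h.le2, h.ch2', ?_, h.nrm⟩
    rw [H260.GN.mcp_top ht, H260.GN.mcp_eq hS₂]
  exfalso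
  apply hexc
  obtain ⟨e1, e2, e3, e4⟩ := H260.GN.exc_of_s0 hS h0
  refine ⟨?_, hJ, ⟨inferInstance, h2⟩, e1, e2, e3, e4, H260.GN.num_of hCL hmin⟩
  intro hcomm
  exact h3 fun x y => hcomm.is_comm.comm x y

end Cfsg.Agent.S2991
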