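import Cfsg.Statements.S2896
import Cfsg.Agent.H239.CharPLocal
import Cfsg.Agent.Lib.NormalAbelian

set_option autoImplicit false
open Cfsg

namespace Cfsg.Agent.S2896

open Subgroup Cfsg.Agent.H239.CharPLocal

/-- A nontrivial finite `p`-group contains a central element of order `p`. -/
theorem exists_central {p : ℕ} [hp : Fact p.Prime] {G : Type*} [Group G] [Finite G]
    {T : Subgroup G} (hT : IsPGroup p T) (hT1 : T ≠ ⊥) :
    ∃ z ∈ T, orderOf z = p ∧ ∀ x ∈ T, x * z = z * x := by
  have hTn : Nontrivial T := (Subgroup.nontrivial_iff_ne_bot T).mpr hT1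
  have hc : Nontrivial (Subgroup.center T) := hT.center_nontrivial
  have hcard : p ∣ Nat.card (Subgroup.center T) := by
    have h1 : IsPGroup p (Subgroup.center T) := hT.to_subgroup _
    obtain ⟨n, hn⟩ := IsPGroup.iff_card.mp h1
    have h2 : n ≠ 0 := by
      rintro rfl
      rw [pow_zero] at hn
      exact (Finite.one_lt_card (α := Subgroup.center T)).ne' hn
    rw [hn]
    exact dvd_pow_self p h2
  obtain ⟨z, hz⟩ := exists_prime_orderOf_dvd_card' p hcard
  refine ⟨((z : T) : G), (z : T).2, ?_, ?_⟩
  · rw [Subgroup.orderOf_coe, Subgroup.orderOf_coe, hz]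
  · intro x hx
    have h1 := Subgroup.mem_center_iff.mp z.2 ⟨x, hx⟩
    exact (congrArg Subtype.val h1)

/-- A nontrivial subgroup normalized by a `p`-group `T` containing it contains an element of order `p` central in `T`. -/
theorem exists_central_mem {p : ℕ} [hp : Fact p.Prime] {G : Type*} [Group G] [Finite G]
    {T R : Subgroup G} (hT : IsPGroup p T) (hR : R ≠ ⊥) (hRT : R ≤ T)
    (hn : T ≤ normalizer (R : Set G)) :
    ∃ z ∈ R, orderOf z = p ∧ ∀ x ∈ T, x * z = z * x := by
  have hRn : (R.subgroupOf T).Normal := by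
    rwa [Subgroup.normal_subgroupOf_iff_le_normalizer hRT]
  have hnil : Group.IsNilpotent T := hT.isNilpotent
  have hne : R.subgroupOf T ≠ ⊥ := by
    intro h
    apply hR
    rw [← Subgroup.map_subgroupOf_eq_of_le hRT, h, Subgroup.map_bot]
  have h1 := Cfsg.Agent.Lib.NormalAbelian.normal_inf_center_ne_bot (R.subgroupOf T) hne
  have h2 : IsPGroup p (R.subgroupOf T ⊓ Subgroup.center T : Subgroup T) := hT.to_subgroup _
  obtain ⟨w, hw, hwo, -⟩ := exists_central h2 h1
  refine ⟨(w : G), hw.1, ?_, ?_⟩
  · rw [Subgroup.orderOf_coe, hwo]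
  · intro x hx
    have h3 := Subgroup.mem_center_iff.mp hw.2 ⟨x, hx⟩
    exact (congrArg Subtype.val h3)

/-- Let p be a prime dividing the order of the finite group G, S a Sylow p-subgroup of G and X a subgroup of S. (i) If some nontrivial element z of the centre of X has F*(C_G(z)) = O_p(C_G(z)), then F*(N_G(X)) = O_p(N_G(X)). (ii) G has parabolic characteristic p if and only if F*(C_G(z)) = O_p(C_G(z)) for every nontrivial z ∈ Ω₁(Z(S)). (iii) If F*(C_G(z)) = O_p(C_G(z)) for every element z of S of order p, then G has local characteristic p. -/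
theorem result {G : Type*} [Group G] [Finite G] {p : ℕ} [Fact p.Prime] (hdiv : p ∣ Nat.card G) (S : Sylow p G) (X : Subgroup G) (hX : X ≤ (S : Subgroup G)) : (∀ z : G, z ≠ 1 → z ∈ X → (∀ x ∈ X, x * z = z * x) → Cfsg.generalizedFittingSubgroup ↥(Subgroup.centralizer ({z} : Set G)) = Cfsg.pCore p ↥(Subgroup.centralizer ({z} : Set G)) → Cfsg.generalizedFittingSubgroup ↥(Subgroup.normalizer (X : Set G)) = Cfsg.pCore p ↥(Subgroup.normalizer (X : Set G))) ∧ (Cfsg.IsOfParabolicCharacteristic p G ↔ ∀ z : G, z ≠ 1 → z ∈ Cfsg.omegaOne p ((S : Subgroup G) ⊓ Subgroup.centralizer ((S : Subgroup G) : Set G)) → Cfsg.generalizedFittingSubgroup ↥(Subgroup.centralizer ({z} : Set G)) = Cfsg.pCore p ↥(Subgroup.centralizer ({z} : Set G))) ∧ ((∀ z : G, z ∈ (S : Subgroup G) → orderOf z = p → Cfsg.generalizedFittingSubgroup ↥(Subgroup.centralizer ({z} : Set G)) = Cfsg.pCore p ↥(Subgroup.centralizer ({z} : Set G))) → Cfsg.IsOfLocalCharacteristic p G) := by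
  have hXp : IsPGroup p X := S.isPGroup'.to_le hX
  refine ⟨?_, ?_, ?_⟩
  · intro z _ hzX hzc h
    rw [cp_iff_genFitting] at h ⊢
    exact cp_normalizer_of_centralizer hXp hzX hzc h
  · constructor
    · intro h z hz1 hz
      rw [cp_iff_genFitting]
      -- `z` centralizes `S` and has order `p`
      have hab : ∀ w ∈ Cfsg.omegaOne p ((S : Subgroup G) ⊓ Subgroup.centralizer ((S : Subgroup G) : Set G)),
          w ∈ (S : Subgroup G) ⊓ Subgroup.centralizer ((S : Subgroup G) : Set G) ∧ w ^ p = 1 := by
        intro w hw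
        refine Subgroup.closure_induction (p := fun w _ =>
          w ∈ (S : Subgroup G) ⊓ Subgroup.centralizer ((S : Subgroup G) : Set G) ∧ w ^ p = 1)
          ?_ ?_ ?_ ?_ hw
        · intro x hx; exact hx
        · exact ⟨one_mem _, one_pow _⟩
        · rintro x y - - ⟨hx, hxp⟩ ⟨hy, hyp⟩
          refine ⟨mul_mem hx hy, ?_⟩
          have hc : Commute x y := (mem_centralizer_iff.mp hy.2 x hx.1)
          rw [hc.mul_pow, hxp, hyp, one_mul]
        · rintro x - ⟨hx, hxp⟩
          exact ⟨inv_mem hx, by rw [inv_pow, hxp, inv_one]⟩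
      obtain ⟨⟨hzS, hzc⟩, hzp⟩ := hab z hz
      have hord : orderOf z = p := orderOf_eq_prime hzp hz1
      have hZp : IsPGroup p (zpowers z) := S.isPGroup'.to_le (zpowers_le.mpr hzS)
      have hZ1 : zpowers z ≠ ⊥ := by
        rw [Ne, zpowers_eq_bot]; exact hz1
      have hCz : Subgroup.centralizer ({z} : Set G) = Subgroup.centralizer (zpowers z : Set G) := by
        ext x
        rw [mem_centralizer_singleton_iff, mem_centralizer_iff]
        constructor
        · rintro hx w ⟨k, rfl⟩
          have : Commute x z := hx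
          exact (this.zpow_right k).eq.symm
        · intro hx
          exact (hx z (mem_zpowers z)).symm
      have hCN : Subgroup.centralizer ({z} : Set G) ≤ Subgroup.normalizer (zpowers z : Set G) := by
        rw [hCz]
        exact centralizer_le_normalizer _
      have hSC : (S : Subgroup G) ≤ Subgroup.centralizer ({z} : Set G) := by
        intro x hx
        rw [mem_centralizer_singleton_iff]
        exact mem_centralizer_iff.mp hzc x hx
      have h1 : CP p ↥(Subgroup.normalizer (zpowers z : Set G)) :=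
        h (zpowers z) hZp hZ1 ⟨S, hSC.trans hCN⟩
      have hn : ((Subgroup.centralizer ({z} : Set G)).subgroupOf
          (Subgroup.normalizer (zpowers z : Set G))).Normal := by
        rw [hCz]
        infer_instance
      exact (h1.normal _).of_equiv (subgroupOfEquivOfLe hCN)
    · intro h R hR hR1 hpar
      obtain ⟨T, hT⟩ := hpar
      -- `R ≤ T`
      have hRT : R ≤ (T : Subgroup G) := by
        have h1 : IsPGroup p (R ⊔ (T : Subgroup G) : Subgroup G) :=
          hR.to_sup_of_normal_left' T.isPGroup' hT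
        have h2 := T.is_maximal' h1 le_sup_right
        rw [← h2]
        exact le_sup_left
      obtain ⟨z, hzR, hzo, hzc⟩ := exists_central_mem T.isPGroup' hR1 hRT hT
      obtain ⟨g, hg⟩ := MulAction.exists_smul_eq G T S
      refine cp_normalizer_of_centralizer hR hzR (fun x hx => hzc x (hRT hx)) ?_
      have h3 : ∀ x : G, x ∈ (T : Subgroup G) → g * x * g⁻¹ ∈ (S : Subgroup G) := by
        intro x hx
        rw [← hg]
        exact ⟨x, hx, rfl⟩
      have h3' : ∀ x : G, x ∈ (S : Subgroup G) → g⁻¹ * x * g ∈ (T : Subgroup G) := by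
        intro x hx
        rw [← hg] at hx
        obtain ⟨y, hy, rfl⟩ := hx
        have h4 : g⁻¹ * (g * y * g⁻¹) * g = y := by group
        change g⁻¹ * (g * y * g⁻¹) * g ∈ (T : Subgroup G)
        rw [h4]
        exact hy
      have h4 : g * z * g⁻¹ ∈ Cfsg.omegaOne p ((S : Subgroup G) ⊓ Subgroup.centralizer ((S : Subgroup G) : Set G)) := by
        refine Subgroup.subset_closure ⟨⟨h3 z (hRT hzR), ?_⟩, ?_⟩
        · refine mem_centralizer_iff.mpr ?_
          intro x hx
          have h5 := hzc _ (h3' x hx)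
          calc x * (g * z * g⁻¹) = g * (g⁻¹ * x * g * z) * g⁻¹ := by group
            _ = g * (z * (g⁻¹ * x * g)) * g⁻¹ := by rw [h5]
            _ = g * z * g⁻¹ * x := by group
        · rw [conj_pow, ← hzo, pow_orderOf_eq_one]
          group
      have h5 : g * z * g⁻¹ ≠ 1 := by
        intro h6
        have h7 : z = 1 := by
          have : z = g⁻¹ * (g * z * g⁻¹) * g := by group
          rw [this, h6]; group
        rw [h7, orderOf_one] at hzo
        exact (Fact.out : p.Prime).one_lt.ne hzo
      have h6 := h _ h5 h4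
      rw [cp_iff_genFitting] at h6
      have h7 := cp_centralizer_conj g⁻¹ _ h6
      have h8 : g⁻¹ * (g * z * g⁻¹) * g⁻¹⁻¹ = z := by group
      rwa [h8] at h7
  · intro h
    refine ⟨hdiv, ?_⟩
    intro T hT hT1
    obtain ⟨z, hzT, hzo, hzc⟩ := exists_central hT hT1
    refine cp_normalizer_of_centralizer hT hzT hzc ?_
    obtain ⟨P, hP⟩ := hT.exists_le_sylow
    obtain ⟨g, hg⟩ := MulAction.exists_smul_eq G P S
    have h3 : g * z * g⁻¹ ∈ (S : Subgroup G) := by
      rw [← hg]
      exact ⟨z, hP hzT, rfl⟩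
    have h4 : orderOf (g * z * g⁻¹) = p := by
      rw [← hzo]
      exact (MulAut.conj g).orderOf_eq z
    have h6 := h _ h3 h4
    rw [cp_iff_genFitting] at h6
    have h7 := cp_centralizer_conj g⁻¹ _ h6
    have h8 : g⁻¹ * (g * z * g⁻¹) * g⁻¹⁻¹ = z := by group
    rwa [h8] at h7

end Cfsg.Agent.S2896
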