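import Cfsg.Statements.S2898
import Cfsg.Agent.H240.StrongP
import Cfsg.Agent.Lib.Cores
import Cfsg.Agent.Transfer.PGroupNormal
import Cfsg.Agent.TwoFusion.IsolatedSylow

set_option autoImplicit false
open Cfsg

namespace Cfsg.Agent.S2898

open Subgroup

theorem eq_bot_of_odd {G : Type*} [Group G] [Finite G] {K : Subgroup G} (h : IsPGroup 2 K)
    (ho : Odd (Nat.card K)) : K = ⊥ := by
  have hp : Fact (Nat.Prime 2) := ⟨Nat.prime_two⟩
  obtain ⟨n, hn⟩ := IsPGroup.iff_card.mp h
  rw [← Subgroup.card_eq_one, hn]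
  rcases Nat.eq_zero_or_pos n with h0 | h0
  · rw [h0, pow_zero]
  · rw [hn] at ho
    exact absurd (Nat.even_pow.mpr ⟨even_two, h0.ne'⟩) (Nat.not_even_iff_odd.mpr ho)

/-- Let G be a finite group of even order with parabolic characteristic 2. If the centre of G ⧸ O(G) is trivial, then O(G) = 1. -/
theorem result {G : Type*} [Group G] [Finite G] (h2 : 2 ∣ Nat.card G) (hG : Cfsg.IsOfParabolicCharacteristic 2 G) [hN : (Cfsg.oddCore G).Normal] (hZ : Subgroup.center (G ⧸ Cfsg.oddCore G) = ⊥) : Cfsg.oddCore G = ⊥ := by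
  by_contra hO
  have hp : Fact (Nat.Prime 2) := ⟨Nat.prime_two⟩
  have hOodd : Odd (Nat.card (Cfsg.oddCore G)) := by
    have h1 : (Nat.card (Cfsg.oddCore G)).Coprime 2 := Lib.Cores.pPrimeCore_coprime (G := G) 2
    exact Nat.coprime_two_right.1 h1
  -- the elements of `O` inverted by `z`
  have key : ∀ (S : Sylow 2 G) (z : G), orderOf z = 2 → (∀ s ∈ (S : Subgroup G), s * z = z * s) →
      ∀ x ∈ Cfsg.oddCore G, z * x * z⁻¹ = x⁻¹ := by
    intro S z hz2 hzS
    set N : Subgroup G := normalizer ((zpowers z : Subgroup G) : Set G) with hNdef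
    have hcN : centralizer ({z} : Set G) ≤ N := H240.StrongP.centralizer_le_normalizer_zpowers _
    have hSN : (S : Subgroup G) ≤ N := fun x hx => hcN (mem_centralizer_singleton_iff.2 (hzS x hx))
    have hz1 : z ≠ 1 := by
      intro h
      rw [h, orderOf_one] at hz2
      omega
    have hchar := hG (zpowers z) (H240.StrongP.zpowers_isPGroup hz2) (by
      rw [Ne, zpowers_eq_bot]; exact hz1) ⟨S, hSN⟩
    -- `C_O(z) = 1`
    have hC : Cfsg.oddCore G ⊓ centralizer ({z} : Set G) = ⊥ := by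
      set D : Subgroup G := Cfsg.oddCore G ⊓ centralizer ({z} : Set G) with hD
      have hDN : D ≤ N := inf_le_right.trans hcN
      have hDn : (D.subgroupOf N).Normal := by
        constructor
        rintro ⟨y, hyN⟩ hy ⟨n, hn⟩
        rw [mem_subgroupOf] at hy ⊢
        have hy1 : y ∈ Cfsg.oddCore G := hy.1
        have hy2 : y * z = z * y := mem_centralizer_singleton_iff.1 hy.2
        refine ⟨hN.conj_mem y hy1 n, ?_⟩
        refine mem_centralizer_singleton_iff.2 ?_
        have h1 : n⁻¹ * z * n⁻¹⁻¹ ∈ zpowers z :=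
          (mem_normalizer_iff.1 (N.inv_mem hn) z).1 (mem_zpowers _)
        rw [inv_inv] at h1
        obtain ⟨j, hj⟩ := mem_zpowers_iff.1 h1
        have h2 : Commute y (z ^ j) := (show Commute y z from hy2).zpow_right j
        have h3 : y * (n⁻¹ * z * n) = n⁻¹ * z * n * y := by rw [← hj]; exact h2
        change n * y * n⁻¹ * z = z * (n * y * n⁻¹)
        calc n * y * n⁻¹ * z = n * (y * (n⁻¹ * z * n)) * n⁻¹ := by group
          _ = n * (n⁻¹ * z * n * y) * n⁻¹ := by rw [h3]
          _ = _ := by group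
      have hDodd : Odd (Nat.card (D.subgroupOf N)) := by
        have h1 : Nat.card (D.subgroupOf N) = Nat.card D :=
          Nat.card_congr (Subgroup.subgroupOfEquivOfLe hDN).toEquiv
        rw [h1]
        exact Odd.of_dvd_nat hOodd (Subgroup.card_dvd_of_le inf_le_left)
      have hdisj : Disjoint (D.subgroupOf N) (pCore 2 ↥N) := by
        rw [disjoint_iff]
        exact eq_bot_of_odd ((Lib.Cores.pCore_isPGroup 2).to_le inf_le_right)
          (Odd.of_dvd_nat hDodd (Subgroup.card_dvd_of_le inf_le_left))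
      have hle : D.subgroupOf N ≤ pCore 2 ↥N := by
        refine le_trans ?_ hchar
        intro d hd
        rw [mem_centralizer_iff]
        intro y hy
        exact (Subgroup.commute_of_normal_of_disjoint _ _ hDn (Lib.Cores.pCore_normal 2) hdisj d y hd hy).eq.symm
      have hbot : D.subgroupOf N = ⊥ := by
        rw [eq_bot_iff]
        exact hdisj le_rfl hle
      rw [eq_bot_iff]
      intro x hx
      have h1 : (⟨x, hDN hx⟩ : N) ∈ D.subgroupOf N := mem_subgroupOf.2 hx
      rw [hbot, mem_bot] at h1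
      exact mem_bot.2 (congrArg Subtype.val h1)
    have hzz : z * z = 1 := by rw [← pow_two, ← hz2, pow_orderOf_eq_one]
    have hcount := TwoFusion.IsolatedSylow.relIndex_centralizer_eq_card_inverted hzz (Cfsg.oddCore G) hOodd
      (by rw [Subgroup.normalizer_eq_top]; trivial)
    rw [hC, Subgroup.relIndex_bot_left] at hcount
    -- all of `O` is inverted
    have hfin : Function.Injective (fun y : {x : G // x ∈ Cfsg.oddCore G ∧ z * x * z⁻¹ = x⁻¹} =>
        (⟨y.1, y.2.1⟩ : Cfsg.oddCore G)) := by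
      intro a b hab
      exact Subtype.ext (congrArg (fun y : Cfsg.oddCore G => (y : G)) hab)
    have hbij := (Nat.bijective_iff_injective_and_card _).2 ⟨hfin, hcount.symm⟩
    intro x hx
    obtain ⟨⟨y, hy1, hy2⟩, hyx⟩ := hbij.2 ⟨x, hx⟩
    have : y = x := congrArg Subtype.val hyx
    rw [← this]
    exact hy2
  -- nontrivial elements are not equal to their inverses
  have hno : ∀ x ∈ Cfsg.oddCore G, x = x⁻¹ → x = 1 := by
    intro x hx h
    have h1 : x ^ 2 = 1 := by
      rw [pow_two]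
      nth_rewrite 2 [h]
      rw [mul_inv_cancel]
    have h3 : orderOf x ∣ 2 := orderOf_dvd_of_pow_eq_one h1
    have h4 : orderOf x ∣ Nat.card (Cfsg.oddCore G) := Subgroup.orderOf_dvd_natCard _ hx
    have h5 : (Nat.card (Cfsg.oddCore G)).Coprime 2 := Nat.coprime_two_right.2 hOodd
    exact orderOf_eq_one_iff.1 (Nat.dvd_one.1 (h5 ▸ Nat.dvd_gcd h4 h3))
  obtain ⟨S⟩ : Nonempty (Sylow 2 G) := inferInstance
  have hSne : (S : Subgroup G) ≠ ⊥ := S.ne_bot_of_dvd_card h2
  obtain ⟨z, hzS, hz2, hzc⟩ := H240.StrongP.exists_central_order_p S.isPGroup' hSne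
  have hinv := key S z hz2 hzc
  -- the centralizer of `O` has odd order
  have hCodd : Odd (Nat.card (centralizer ((Cfsg.oddCore G : Subgroup G) : Set G))) := by
    set C : Subgroup G := centralizer ((Cfsg.oddCore G : Subgroup G) : Set G) with hC
    rw [← Nat.not_even_iff_odd]
    intro hev
    have hCn : C.Normal := inferInstance
    obtain ⟨c, hc⟩ := exists_prime_orderOf_dvd_card' (G := C) 2 hev.two_dvd
    have hc2 : orderOf (c : G) = 2 := (Subgroup.orderOf_coe c).trans hc
    obtain ⟨Q, hQ⟩ := (H240.StrongP.zpowers_isPGroup hc2).exists_le_sylow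
    have hne : (C.subgroupOf (Q : Subgroup G)) ≠ ⊥ := by
      intro h
      have h1 : (⟨(c : G), hQ (mem_zpowers _)⟩ : (Q : Subgroup G)) ∈ C.subgroupOf (Q : Subgroup G) :=
        mem_subgroupOf.2 c.2
      rw [h, mem_bot] at h1
      have h3 : (c : G) = 1 := congrArg Subtype.val h1
      rw [h3, orderOf_one] at hc2
      omega
    obtain ⟨w, hwC, hwc, hwp⟩ := Transfer.PGroupNormal.exists_mem_inf_center_orderOf Q.isPGroup' _ hne
    have hw2 : orderOf (w : G) = 2 := (Subgroup.orderOf_coe w).trans hwp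
    have hwinv := key Q w hw2 fun s hs => congrArg Subtype.val (mem_center_iff.1 hwc ⟨s, hs⟩)
    apply hO
    rw [eq_bot_iff]
    intro x hx
    rw [mem_bot]
    apply hno x hx
    have h1 : x * w = w * x := mem_centralizer_iff.1 (mem_subgroupOf.1 hwC) x hx
    have h2 := hwinv x hx
    rw [← h1, mul_assoc, mul_inv_cancel, mul_one] at h2
    exact h2
  have hCO : centralizer ((Cfsg.oddCore G : Subgroup G) : Set G) ≤ Cfsg.oddCore G :=
    Lib.Cores.le_pPrimeCore inferInstance (Nat.coprime_two_right.2 hCodd)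
  -- `z` is central modulo `O`
  have hzO : z ∈ Cfsg.oddCore G := by
    have h1 : (QuotientGroup.mk z : G ⧸ Cfsg.oddCore G) ∈ Subgroup.center (G ⧸ Cfsg.oddCore G) := by
      rw [mem_center_iff]
      intro q
      obtain ⟨g, rfl⟩ := QuotientGroup.mk_surjective q
      rw [← QuotientGroup.mk_mul, ← QuotientGroup.mk_mul, QuotientGroup.eq]
      apply hCO
      rw [mem_centralizer_iff]
      intro x hx
      -- `(g z)⁻¹ (z g) = z⁻¹ (g⁻¹ z g)`
      have hx' : x ∈ Cfsg.oddCore G := hx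
      have h1 : ∀ y ∈ Cfsg.oddCore G, (g⁻¹ * z * g) * y * (g⁻¹ * z * g)⁻¹ = y⁻¹ := by
        intro y hy
        have h2 := hinv _ (hN.conj_mem y hy g)
        calc (g⁻¹ * z * g) * y * (g⁻¹ * z * g)⁻¹ = g⁻¹ * (z * (g * y * g⁻¹) * z⁻¹) * g := by group
          _ = g⁻¹ * (g * y * g⁻¹)⁻¹ * g := by rw [h2]
          _ = y⁻¹ := by group
      have h3 : ∀ y ∈ Cfsg.oddCore G, z⁻¹ * y * z = y⁻¹ := by
        intro y hy
        have h4 := hinv _ hy
        have h5 : z⁻¹ * (z * y * z⁻¹)⁻¹ * z = z⁻¹ * (y⁻¹)⁻¹ * z := by rw [h4]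
        rw [inv_inv] at h5
        rw [← h5]
        group
      have h6 : (z⁻¹ * (g⁻¹ * z * g)) * x * (z⁻¹ * (g⁻¹ * z * g))⁻¹ = x := by
        calc (z⁻¹ * (g⁻¹ * z * g)) * x * (z⁻¹ * (g⁻¹ * z * g))⁻¹ =
            z⁻¹ * ((g⁻¹ * z * g) * x * (g⁻¹ * z * g)⁻¹) * z := by group
          _ = z⁻¹ * x⁻¹ * z := by rw [h1 x hx']
          _ = x := by rw [h3 _ ((Cfsg.oddCore G).inv_mem hx'), inv_inv]
      have h7 : (g * z)⁻¹ * (z * g) = z⁻¹ * (g⁻¹ * z * g) := by group
      rw [h7]
      calc x * (z⁻¹ * (g⁻¹ * z * g)) =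
          ((z⁻¹ * (g⁻¹ * z * g)) * x * (z⁻¹ * (g⁻¹ * z * g))⁻¹) * (z⁻¹ * (g⁻¹ * z * g)) := by rw [h6]
        _ = _ := by group
    rw [hZ, mem_bot, QuotientGroup.eq_one_iff] at h1
    exact h1
  have h8 : orderOf z ∣ Nat.card (Cfsg.oddCore G) := Subgroup.orderOf_dvd_natCard _ hzO
  rw [hz2] at h8
  rw [Nat.odd_iff] at hOodd
  omega

end Cfsg.Agent.S2898
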