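import Cfsg.Statements.S2908
import Cfsg.Agent.Lib.CoprimeCommutator
import Cfsg.Agent.S0026
import Cfsg.Agent.H240.CommP
-- import your own Cfsg.Agent.* helpers here

set_option autoImplicit false
open Cfsg

namespace Cfsg.Agent.S2908

open scoped commutatorElement

/-- Let P be a p-subgroup of a finite group, normalized by a p-subgroup A and by a subgroup B of order prime to p that commutes elementwise with A. If [P, B] ≤ [P, A], then B centralizes P. -/
theorem result {G : Type*} [Group G] [Finite G] {p : ℕ} [Fact p.Prime] (P A B : Subgroup G) (hP : IsPGroup p ↥P) (hA : IsPGroup p ↥A) (hB : ¬ p ∣ Nat.card ↥B) (hnA : A ≤ Subgroup.normalizer (P : Set G)) (hnB : B ≤ Subgroup.normalizer (P : Set G)) (hAB : ⁅A, B⁆ = ⊥) (hcomm : ⁅P, B⁆ ≤ ⁅P, A⁆) : ⁅P, B⁆ = ⊥ := by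
  have hcomAB : ∀ a ∈ A, ∀ b ∈ B, a * b = b * a := by
    intro a ha b hb
    have h1 : ⁅a, b⁆ ∈ (⁅A, B⁆ : Subgroup G) := Subgroup.commutator_mem_commutator ha hb
    rw [hAB, Subgroup.mem_bot, commutatorElement_eq_one_iff_mul_comm] at h1
    exact h1
  have hcop : (Nat.card B).Coprime (Nat.card P) := by
    obtain ⟨n, hn⟩ := IsPGroup.iff_card.mp hP
    rw [hn]
    exact Nat.Coprime.pow_right n
      (((Fact.out : p.Prime).coprime_iff_not_dvd.mpr hB).symm)
  have hsolv : Group.IsSolvable P := by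
    haveI := hP.isNilpotent
    infer_instance
  set Q : Subgroup G := ⁅P, B⁆ with hQdef
  have hQP : Q ≤ P := Lib.CoprimeCommutator.commutator_le_left hnB
  have hQQ : ⁅Q, B⁆ = Q := Lib.CoprimeCommutator.commutator_commutator_eq B P hnB hcop
  set C : Subgroup G := P ⊓ Subgroup.centralizer (B : Set G) with hCdef
  have hQC : Q ⊔ C = P := S0026.result B P hnB hcop (Or.inr hsolv)
  have hPQ : P ≤ Subgroup.normalizer (Q : Set G) :=
    Lib.CoprimeCommutator.left_le_normalizer_commutator P B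
  have hBQ : B ≤ Subgroup.normalizer (Q : Set G) :=
    Lib.CoprimeCommutator.right_le_normalizer_commutator P B
  have hCP : C ≤ P := inf_le_left
  have hCc : ∀ c ∈ C, ∀ b ∈ B, b * c = c * b := fun c hc b hb =>
    Subgroup.mem_centralizer_iff.mp hc.2 b hb
  -- A normalises Q and C
  have hAconj : ∀ a ∈ A, ∀ x ∈ P, a * x * a⁻¹ ∈ P := fun a ha x hx =>
    (Subgroup.mem_normalizer_iff.mp (hnA ha) x).mp hx
  have hAQ' : ∀ a ∈ A, ∀ x ∈ Q, a * x * a⁻¹ ∈ Q := by
    intro a ha x hx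
    rw [hQdef, Subgroup.commutator_def] at hx
    induction hx using Subgroup.closure_induction with
    | mem y hy =>
      obtain ⟨k, hk, b, hb, rfl⟩ := hy
      have h1 : a * ⁅k, b⁆ * a⁻¹ = ⁅a * k * a⁻¹, b⁆ := by
        have h2 : a * b * a⁻¹ = b := by rw [hcomAB a ha b hb]; group
        have h3 : a * ⁅k, b⁆ * a⁻¹ = ⁅a * k * a⁻¹, a * b * a⁻¹⁆ := by
          simp only [commutatorElement_def]; group
        rw [h3, h2]
      rw [h1]
      exact Subgroup.commutator_mem_commutator (hAconj a ha k hk) hb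
    | one => simp
    | mul y z _ _ hy hz =>
      have h1 : a * (y * z) * a⁻¹ = (a * y * a⁻¹) * (a * z * a⁻¹) := by group
      rw [h1]; exact Subgroup.mul_mem _ hy hz
    | inv y _ hy =>
      have h1 : a * y⁻¹ * a⁻¹ = (a * y * a⁻¹)⁻¹ := by group
      rw [h1]; exact Subgroup.inv_mem _ hy
  have hAC' : ∀ a ∈ A, ∀ x ∈ C, a * x * a⁻¹ ∈ C := by
    intro a ha x hx
    refine ⟨hAconj a ha x hx.1, Subgroup.mem_centralizer_iff.mpr fun b hb => ?_⟩
    have h1 := hcomAB a ha b hb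
    have h2 := hCc x hx b hb
    have h3 : a⁻¹ * b = b * a⁻¹ := by
      have := hcomAB a⁻¹ (A.inv_mem ha) b hb
      exact this
    calc b * (a * x * a⁻¹) = (b * a) * x * a⁻¹ := by group
      _ = (a * b) * x * a⁻¹ := by rw [h1]
      _ = a * (b * x) * a⁻¹ := by group
      _ = a * (x * b) * a⁻¹ := by rw [h2]
      _ = a * x * (b * a⁻¹) := by group
      _ = a * x * (a⁻¹ * b) := by rw [h3]
      _ = a * x * a⁻¹ * b := by group
  have norm_of : ∀ {K H : Subgroup G}, (∀ a ∈ K, ∀ x ∈ H, a * x * a⁻¹ ∈ H) →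
      K ≤ Subgroup.normalizer (H : Set G) := by
    intro K H h a ha
    rw [Subgroup.mem_normalizer_iff]
    intro x
    refine ⟨h a ha x, fun hx => ?_⟩
    have h2 := h a⁻¹ (K.inv_mem ha) _ hx
    have h1 : a⁻¹ * (a * x * a⁻¹) * a⁻¹⁻¹ = x := by group
    rwa [h1] at h2
  have hAQ : A ≤ Subgroup.normalizer (Q : Set G) := norm_of hAQ'
  have hAC : A ≤ Subgroup.normalizer (C : Set G) := norm_of hAC'
  have hCp : IsPGroup p C := hP.to_le hCP
  have hQp : IsPGroup p Q := hP.to_le hQP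
  set R : Subgroup G := A ⊔ C with hRdef
  have hR : IsPGroup p R := IsPGroup.to_sup_of_normal_right' hA hCp hAC
  have hRQ : R ≤ Subgroup.normalizer (Q : Set G) := sup_le hAQ (hCP.trans hPQ)
  set W : Subgroup G := ⁅Q, R⁆ with hWdef
  have hWQ : W ≤ Q := Lib.CoprimeCommutator.commutator_le_left hRQ
  have hRW : R ≤ Subgroup.normalizer (W : Set G) :=
    Lib.CoprimeCommutator.right_le_normalizer_commutator Q R
  have hRB : ∀ r ∈ R, ∀ b ∈ B, r * b = b * r := by
    have h1 : R ≤ Subgroup.centralizer (B : Set G) := by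
      refine sup_le ?_ inf_le_right
      intro a ha
      exact Subgroup.mem_centralizer_iff.mpr fun b hb => (hcomAB a ha b hb).symm
    intro r hr b hb
    exact (Subgroup.mem_centralizer_iff.mp (h1 hr) b hb).symm
  have hBconj : ∀ b ∈ B, ∀ x ∈ Q, b * x * b⁻¹ ∈ Q := fun b hb x hx =>
    (Subgroup.mem_normalizer_iff.mp (hBQ hb) x).mp hx
  have hBW' : ∀ b ∈ B, ∀ x ∈ W, b * x * b⁻¹ ∈ W := by
    intro b hb x hx
    rw [hWdef, Subgroup.commutator_def] at hx
    induction hx using Subgroup.closure_induction with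
    | mem y hy =>
      obtain ⟨k, hk, r, hr, rfl⟩ := hy
      have h1 : b * ⁅k, r⁆ * b⁻¹ = ⁅b * k * b⁻¹, r⁆ := by
        have h2 : b * r * b⁻¹ = r := by rw [← hRB r hr b hb]; group
        have h3 : b * ⁅k, r⁆ * b⁻¹ = ⁅b * k * b⁻¹, b * r * b⁻¹⁆ := by
          simp only [commutatorElement_def]; group
        rw [h3, h2]
      rw [h1]
      exact Subgroup.commutator_mem_commutator (hBconj b hb k hk) hr
    | one => simp
    | mul y z _ _ hy hz =>
      have h1 : b * (y * z) * b⁻¹ = (b * y * b⁻¹) * (b * z * b⁻¹) := by group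
      rw [h1]; exact Subgroup.mul_mem _ hy hz
    | inv y _ hy =>
      have h1 : b * y⁻¹ * b⁻¹ = (b * y * b⁻¹)⁻¹ := by group
      rw [h1]; exact Subgroup.inv_mem _ hy
  have hBW : B ≤ Subgroup.normalizer (W : Set G) := norm_of hBW'
  have hPA : ⁅P, A⁆ ≤ W ⊔ C := by
    rw [Subgroup.commutator_le]
    intro x hx a ha
    rw [← hQC] at hx
    obtain ⟨q, hq, c, hc, rfl⟩ := H240.CommP.exists_mul_of_mem_sup (hCP.trans hPQ) hx
    have hd : ⁅c, a⁆ ∈ C := by
      have h1 : ⁅c, a⁆ = c * (a * c⁻¹ * a⁻¹) := by simp only [commutatorElement_def]; group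
      rw [h1]
      exact C.mul_mem hc (hAC' a ha _ (C.inv_mem hc))
    have h1 : ⁅q * c, a⁆ = ⁅q, ⁅c, a⁆⁆ * ⁅c, a⁆ * ⁅q, a⁆ := by
      simp only [commutatorElement_def]; group
    rw [h1]
    refine Subgroup.mul_mem _ (Subgroup.mul_mem _ ?_ ?_) ?_
    · exact (le_sup_left : W ≤ W ⊔ C) (Subgroup.commutator_mem_commutator hq
        ((le_sup_right : C ≤ A ⊔ C) hd))
    · exact (le_sup_right : C ≤ W ⊔ C) hd
    · exact (le_sup_left : W ≤ W ⊔ C) (Subgroup.commutator_mem_commutator hq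
        ((le_sup_left : A ≤ A ⊔ C) ha))
  have hWC : ⁅W ⊔ C, B⁆ ≤ W := by
    rw [Subgroup.commutator_le]
    intro x hx b hb
    obtain ⟨w, hw, c, hc, rfl⟩ := H240.CommP.exists_mul_of_mem_sup
      ((le_sup_right : C ≤ A ⊔ C).trans hRW) hx
    have h1 : ⁅w * c, b⁆ = w * (c * b * c⁻¹) * w⁻¹ * b⁻¹ := by
      simp only [commutatorElement_def]; group
    have h2 : c * b * c⁻¹ = b := by rw [← hCc c hc b hb]; group
    have h3 : w * b * w⁻¹ * b⁻¹ = w * (b * w⁻¹ * b⁻¹) := by group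
    rw [h1, h2, h3]
    exact W.mul_mem hw (hBW' b hb _ (W.inv_mem hw))
  have hfin : Q ≤ ⁅Q, R⁆ := by
    calc Q = ⁅Q, B⁆ := hQQ.symm
      _ ≤ ⁅W ⊔ C, B⁆ := Subgroup.commutator_mono (hcomm.trans hPA) le_rfl
      _ ≤ W := hWC
  exact H240.CommP.eq_bot_of_le_commutator hQp hR hRQ hfin

end Cfsg.Agent.S2908
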