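import Cfsg.Statements.S2910
import Cfsg.Agent.S0071
import Cfsg.Agent.Lib.CoprimeStab

set_option autoImplicit false
open Cfsg

namespace Cfsg.Agent.S2910

/-- Let p be an odd prime dividing the order of the finite group G and P a Sylow p-subgroup of G. If Ω₁(P) (generated by the elements of order dividing p) is contained in the centre of G, then G has a normal p-complement. In particular, if G is quasisimple then Ω₁(P) is not central in G. -/
theorem result {G : Type*} [Group G] [Finite G] {p : ℕ} [Fact p.Prime] (hp : p ≠ 2) (hdiv : p ∣ Nat.card G) (P : Sylow p G) (hZ : Cfsg.omegaOne p (P : Subgroup G) ≤ Subgroup.center G) : Cfsg.HasNormalPComplement p G ∧ ¬ Cfsg.IsQuasisimple G := by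
  have hfac : Fact p.Prime := inferInstance
  have hex : ∃ N : Subgroup G, N.Normal ∧ N.IsComplement' (P : Subgroup G) := by
    rw [Cfsg.Agent.S0071.result P]
    intro Q hQ g hg hcop
    have h1 : Subgroup.zpowers g ≤ Subgroup.centralizer (Q : Set G) := by
      refine Cfsg.Agent.Lib.CoprimeStab.le_centralizer_of_omega p hp (Subgroup.zpowers g)
        (by rw [Nat.card_zpowers]; exact hcop) Q (P.isPGroup'.to_le hQ)
        (by rw [Subgroup.zpowers_le]; exact hg) ?_
      intro x hx hxp a _
      have h2 : x ∈ Subgroup.center G := hZ (Subgroup.subset_closure ⟨hQ hx, hxp⟩)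
      exact (Subgroup.mem_center_iff.1 h2 a).symm
    exact h1 (Subgroup.mem_zpowers g)
  refine ⟨?_, ?_⟩
  · obtain ⟨N, hN, hc⟩ := hex
    exact ⟨P, N, hN, hc⟩
  · rintro ⟨hperf, -⟩
    obtain ⟨N, hN, hc⟩ := hex
    have hidx : N.index = Nat.card (P : Subgroup G) := hc.symm.index_eq_card
    have hQp : IsPGroup p (G ⧸ N) := by
      obtain ⟨k, hk⟩ := IsPGroup.iff_card.1 P.isPGroup'
      exact IsPGroup.of_card (n := k) (by rw [← Subgroup.index_eq_card, hidx, hk])
    have hnt : Nontrivial (G ⧸ N) := by
      rw [← Finite.one_lt_card_iff_nontrivial, ← Subgroup.index_eq_card, hidx]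
      have h3 : p ∣ Nat.card (P : Subgroup G) := by
        rw [Sylow.card_eq_multiplicity]
        exact dvd_pow_self p ((Nat.Prime.factorization_pos_of_dvd hfac.out Nat.card_pos.ne' hdiv).ne')
      exact lt_of_lt_of_le hfac.out.one_lt (Nat.le_of_dvd Nat.card_pos h3)
    have hperf2 : Group.IsPerfect (G ⧸ N) := inferInstance
    exact absurd hQp.isNilpotent (Group.IsPerfect.not_isNilpotent (G := G ⧸ N))

end Cfsg.Agent.S2910
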