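import Cfsg.Statements.S2911
import Cfsg.Agent.GTwoFour.TransferTL
import Cfsg.Agent.Transfer.ThompsonTransfer

set_option autoImplicit false
open Cfsg

namespace Cfsg.Agent.S2911

theorem dih_center : ∀ d : DihedralGroup 4, (∀ x : DihedralGroup 4, x * d = d * x) →
    d = 1 ∨ d = DihedralGroup.r 2 := by decide

theorem zmod_cases : ∀ x : Multiplicative (ZMod 2), x ≠ 1 → x = Multiplicative.ofAdd 1 := by decide

theorem dih_sq : ∀ x : Multiplicative (ZMod 2) × DihedralGroup 4, x * x = 1 ∨
    x * x = (1, DihedralGroup.r 2) := by decide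

/-- A finite group whose Sylow 2-subgroups are isomorphic to the direct product of a group of order 2 and a dihedral group of order 8 has a subgroup of index two. -/
theorem result {G : Type*} [Group G] [Finite G] (S : Sylow 2 G) (hS : Nonempty (↥(S : Subgroup G) ≃* Multiplicative (ZMod 2) × DihedralGroup 4)) : ∃ H : Subgroup G, H.index = 2 := by
  by_contra hno
  obtain ⟨e⟩ := hS
  -- the elements `a` and `z`
  set a' : S := e.symm (Multiplicative.ofAdd 1, 1) with ha'
  set z' : S := e.symm (1, DihedralGroup.r 2) with hz'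
  set a : G := (a' : G) with ha
  set z : G := (z' : G) with hz
  have haS : a ∈ (S : Subgroup G) := a'.2
  have hzS : z ∈ (S : Subgroup G) := z'.2
  have haa : a * a = 1 := by
    have : a' * a' = 1 := by
      apply e.injective
      rw [map_mul, ha', e.apply_symm_apply, e.map_one]
      decide
    exact congrArg Subtype.val this
  have hzz : z * z = 1 := by
    have : z' * z' = 1 := by
      apply e.injective
      rw [map_mul, hz', e.apply_symm_apply, map_one]
      decide
    exact congrArg Subtype.val this
  have hz1 : z ≠ 1 := by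
    intro h
    have h1 : z' = 1 := Subtype.ext h
    have h2 := congrArg e h1
    rw [hz', e.apply_symm_apply, map_one] at h2
    revert h2
    decide
  have hac : ∀ s ∈ (S : Subgroup G), s * a = a * s := by
    intro s hs
    have : (⟨s, hs⟩ : S) * a' = a' * ⟨s, hs⟩ := by
      apply e.injective
      rw [map_mul, map_mul, ha', e.apply_symm_apply]
      generalize e ⟨s, hs⟩ = y
      revert y
      decide
    exact congrArg Subtype.val this
  -- squares
  have hsq : ∀ s ∈ (S : Subgroup G), s * s = 1 ∨ s * s = z := by
    intro s hs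
    rcases dih_sq (e ⟨s, hs⟩) with h | h
    · left
      have h1 : (⟨s, hs⟩ : S) * ⟨s, hs⟩ = 1 := by
        apply e.injective
        rw [map_mul, h, map_one]
      exact congrArg Subtype.val h1
    · right
      have h1 : (⟨s, hs⟩ : S) * ⟨s, hs⟩ = z' := by
        apply e.injective
        rw [map_mul, h, hz', e.apply_symm_apply]
      exact congrArg Subtype.val h1
  obtain ⟨r, hrS, hrr⟩ : ∃ r ∈ (S : Subgroup G), r * r = z := by
    refine ⟨(e.symm (1, DihedralGroup.r 1) : S), Subtype.mem _, ?_⟩
    have : e.symm (1, DihedralGroup.r 1) * e.symm (1, DihedralGroup.r 1) = z' := by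
      apply e.injective
      rw [map_mul, hz', e.apply_symm_apply, e.apply_symm_apply]
      decide
    exact congrArg Subtype.val this
  -- the subgroup of index two
  let S₁ : Subgroup S := ((MonoidHom.fst (Multiplicative (ZMod 2)) (DihedralGroup 4)).comp e.toMonoidHom).ker
  have hidx : S₁.index = 2 := by
    rw [Subgroup.index_ker]
    have : ((MonoidHom.fst (Multiplicative (ZMod 2)) (DihedralGroup 4)).comp e.toMonoidHom).range = ⊤ := by
      rw [MonoidHom.range_eq_top]
      intro x
      exact ⟨e.symm (x, 1), by simp⟩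
    rw [this, Subgroup.card_top, Nat.card_eq_fintype_card]
    rfl
  have haS₁ : (⟨a, haS⟩ : S) ∉ S₁ := by
    rw [MonoidHom.mem_ker]
    show (e a').1 ≠ 1
    rw [ha', e.apply_symm_apply]
    decide
  have hG : ∀ f : G →* ℤˣ, f a = 1 := by
    intro f
    by_contra hf
    obtain ⟨M, -, hM, -⟩ := Transfer.ThompsonTransfer.exists_normal_index_two f a
      ((Int.units_eq_one_or (f a)).resolve_left hf)
    exact hno ⟨M, hM⟩
  have hSC : (S : Subgroup G) ≤ Subgroup.centralizer ({a} : Set G) := by
    intro s hs
    rw [Subgroup.mem_centralizer_singleton_iff]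
    exact hac s hs
  have hfact : Fact (Nat.Prime 2) := ⟨Nat.prime_two⟩
  have hodd : Odd ((S : Subgroup G).relIndex (Subgroup.centralizer ({a} : Set G))) := by
    have h1 : ¬ 2 ∣ (S : Subgroup G).index := S.not_dvd_index
    have h2 := Subgroup.relIndex_mul_index hSC
    rw [← Nat.not_even_iff_odd, even_iff_two_dvd]
    intro h3
    exact h1 (h2 ▸ Dvd.dvd.mul_right h3 _)
  obtain ⟨g, hg, h1, h3, h4⟩ := GTwoFour.TransferTL.exists_extremal_index (S : Subgroup G) S₁ hidx a
    hG haa haS haS₁ hodd
  set b : G := g⁻¹ * a * g with hb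
  -- `b` is central in `S`
  have hbC : (S : Subgroup G) ≤ Subgroup.centralizer ({b} : Set G) := by
    have h5 : (S : Subgroup G).map (MulAut.conj g⁻¹).toMonoidHom ≤
        Subgroup.centralizer ({b} : Set G) := by
      rintro _ ⟨s, hs, rfl⟩
      rw [Subgroup.mem_centralizer_singleton_iff]
      have h6 := hac s hs
      simp only [MulEquiv.coe_toMonoidHom, MulAut.conj_apply, inv_inv, hb]
      calc g⁻¹ * s * g * (g⁻¹ * a * g) = g⁻¹ * (s * a) * g := by group
        _ = g⁻¹ * (a * s) * g := by rw [h6]
        _ = g⁻¹ * a * g * (g⁻¹ * s * g) := by group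
    have h6 : Nat.card S ∣ Nat.card (Subgroup.centralizer ({b} : Set G)) := by
      have h7 := Subgroup.card_dvd_of_le h5
      rwa [Subgroup.card_map_of_injective (MulEquiv.injective _)] at h7
    have h7 : Nat.card S ∣ Nat.card ((S : Subgroup G) ⊓ Subgroup.centralizer ({b} : Set G) : Subgroup G) := by
      have h8 := Subgroup.relIndex_mul_relIndex ⊥
        ((S : Subgroup G) ⊓ Subgroup.centralizer ({b} : Set G))
        (Subgroup.centralizer ({b} : Set G)) bot_le inf_le_right
      rw [Subgroup.relIndex_bot_left, Subgroup.relIndex_bot_left,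
        Subgroup.inf_relIndex_right] at h8
      rw [← h8] at h6
      refine Nat.Coprime.dvd_of_dvd_mul_right ?_ h6
      obtain ⟨k, hk⟩ := (IsPGroup.iff_card).1 S.2
      rw [hk]
      exact Nat.Coprime.pow_left k (Nat.coprime_two_left.2 h3)
    have h8 : (S : Subgroup G) ⊓ Subgroup.centralizer ({b} : Set G) = S := by
      apply Subgroup.eq_of_le_of_card_ge inf_le_left
      exact Nat.le_of_dvd Nat.card_pos h7
    rw [← h8]
    exact inf_le_right
  -- `b = a * z`
  have hbaz : b = a * z := by
    have hcen : ∀ x, x * e ⟨b, hg⟩ = e ⟨b, hg⟩ * x := by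
      intro x
      obtain ⟨s, rfl⟩ := e.surjective x
      rw [← map_mul, ← map_mul]
      congr 1
      apply Subtype.ext
      have := hbC s.2
      rw [Subgroup.mem_centralizer_singleton_iff] at this
      exact this
    have hb1 : (e ⟨b, hg⟩).1 = Multiplicative.ofAdd 1 := by
      apply zmod_cases
      intro h
      exact h1 h
    have hb2 : (e ⟨b, hg⟩).2 = 1 ∨ (e ⟨b, hg⟩).2 = DihedralGroup.r 2 := by
      apply dih_center
      intro x
      exact congrArg Prod.snd (hcen (1, x))
    rcases hb2 with h | h
    · exfalso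
      apply h4 1 (one_mem _)
      have : (⟨b, hg⟩ : S) = a' := by
        apply e.injective
        rw [ha', e.apply_symm_apply]
        exact Prod.ext hb1 h
      have h5 := congrArg Subtype.val this
      simpa using h5
    · have : (⟨b, hg⟩ : S) = a' * z' := by
        apply e.injective
        rw [map_mul, ha', hz', e.apply_symm_apply, e.apply_symm_apply]
        exact Prod.ext (by simp [hb1]) (by simp [h])
      exact congrArg Subtype.val this
  -- Burnside
  obtain ⟨n, hn, hnb⟩ := Sylow.conj_eq_normalizer_conj_of_mem_centralizer S a g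
    (by rw [Subgroup.mem_centralizer_iff]; exact hac)
    (by
      rw [Subgroup.mem_centralizer_iff]
      intro s hs
      have := hbC hs
      rwa [Subgroup.mem_centralizer_singleton_iff] at this)
  rw [← hb, hbaz] at hnb
  have hnz : n⁻¹ * z * n = z := by
    have h5 : n⁻¹ * r * n ∈ (S : Subgroup G) := by
      have := (Subgroup.mem_normalizer_iff.1 (inv_mem hn) r).1 hrS
      simpa using this
    have h6 : (n⁻¹ * r * n) * (n⁻¹ * r * n) = n⁻¹ * z * n := by
      rw [← hrr]
      group
    rcases hsq _ h5 with h7 | h7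
    · exfalso
      rw [h6] at h7
      apply hz1
      have : n * (n⁻¹ * z * n) * n⁻¹ = n * 1 * n⁻¹ := by rw [h7]
      simpa [mul_assoc] using this
    · rw [← h6, h7]
  obtain ⟨k, m, hm, hkm⟩ := Nat.exists_eq_two_pow_mul_odd (orderOf_pos n).ne'
  have hpow : ∀ j : ℕ, (Even j → (n ^ j)⁻¹ * a * n ^ j = a) ∧
      (Odd j → (n ^ j)⁻¹ * a * n ^ j = a * z) := by
    intro j
    induction j with
    | zero => simp
    | succ j ih =>
      have h5 : (n ^ (j + 1))⁻¹ * a * n ^ (j + 1) = n⁻¹ * ((n ^ j)⁻¹ * a * n ^ j) * n := by
        rw [pow_succ]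
        group
      constructor
      · intro h
        rw [h5, ih.2 (by rcases Nat.even_or_odd j with h' | h'; · exact absurd h (by
            rw [Nat.even_add_one]; simpa using h')
                         · exact h')]
        calc n⁻¹ * (a * z) * n = (n⁻¹ * a * n) * (n⁻¹ * z * n) := by group
          _ = a * z * z := by rw [← hnb, hnz]
          _ = a := by rw [mul_assoc, hzz, mul_one]
      · intro h
        rw [h5, ih.1 (by rcases Nat.even_or_odd j with h' | h'; · exact h'
                         · exact absurd h (by rw [Nat.odd_add_one]; simpa using h')), ← hnb]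
  have hn' : n ^ m ∈ (S : Subgroup G) := by
    have h5 : IsPGroup 2 (Subgroup.zpowers (n ^ m)) := by
      apply IsPGroup.of_card (n := k)
      rw [Nat.card_zpowers, orderOf_pow, hkm, Nat.gcd_eq_right (Dvd.intro_left _ rfl),
        Nat.mul_div_cancel _ hm.pos]
    have h6 := IsPGroup.inf_normalizer_sylow h5 S
    have h7 : n ^ m ∈ Subgroup.zpowers (n ^ m) ⊓ Subgroup.normalizer (S : Set G) :=
      ⟨Subgroup.mem_zpowers _, Subgroup.pow_mem _ hn _⟩
    have h8 : n ^ m ∈ Subgroup.zpowers (n ^ m) ⊓ (S : Subgroup G) := by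
      rw [← h6]
      exact h7
    exact h8.2
  have h5 := (hpow m).2 hm
  have h6 := hac _ (inv_mem hn')
  rw [h6, mul_assoc, inv_mul_cancel, mul_one] at h5
  exact hz1 (mul_left_cancel (a := a) (by rw [mul_one]; exact h5.symm))

end Cfsg.Agent.S2911
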