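import Cfsg.Statements.S2912
import Cfsg.Agent.H240.ExtraBound
import Cfsg.Agent.Lib.CoprimeAbelian
import Cfsg.Agent.Transfer.Extraspecial
-- import your own Cfsg.Agent.* helpers here

set_option autoImplicit false
open Cfsg

namespace Cfsg.Agent.S2912

open scoped commutatorElement

/-- `E` acts by conjugation on a subgroup it normalises (written additively). -/
noncomputable def act {G : Type*} [Group G] (E A0 : Subgroup G)
    (hc : ∀ x ∈ A0, ∀ y ∈ A0, x * y = y * x) (h : E ≤ Subgroup.normalizer (A0 : Set G)) :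
    letI : CommGroup A0 := { (inferInstance : Group A0) with
      mul_comm := fun x y => Subtype.ext (hc x x.2 y y.2) }
    DistribMulAction E (Additive A0) :=
  letI : CommGroup A0 := { (inferInstance : Group A0) with
    mul_comm := fun x y => Subtype.ext (hc x x.2 y y.2) }
  { smul := fun e v => Additive.ofMul (((Subgroup.normalizerMonoidHom A0).comp
      (Subgroup.inclusion h)) e (Additive.toMul v))
    one_smul := fun v => by
      change Additive.ofMul (((Subgroup.normalizerMonoidHom A0).comp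
        (Subgroup.inclusion h)) 1 (Additive.toMul v)) = v
      rw [map_one]; rfl
    mul_smul := fun a b v => by
      change Additive.ofMul (((Subgroup.normalizerMonoidHom A0).comp
        (Subgroup.inclusion h)) (a * b) (Additive.toMul v)) = _
      rw [map_mul]; rfl
    smul_zero := fun a => by
      change Additive.ofMul (((Subgroup.normalizerMonoidHom A0).comp
        (Subgroup.inclusion h)) a 1) = _
      rw [map_one]; rfl
    smul_add := fun a v w => by
      change Additive.ofMul (((Subgroup.normalizerMonoidHom A0).comp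
        (Subgroup.inclusion h)) a (Additive.toMul v * Additive.toMul w)) = _
      rw [map_mul]; rfl }

/-- Let p and r be distinct primes, let E be an extraspecial subgroup of order p^(2w+1) of a finite group, and let A be an elementary abelian r-subgroup normalized by E on which E acts faithfully (C_E(A) = 1). If n ≥ 1 is least with p dividing rⁿ − 1 (the smallest dimension of a faithful representation of a group of order p over the field with r elements), then the order of A is at least r^(n·p^w). -/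
theorem result {G : Type*} [Group G] [Finite G] {p r : ℕ} [Fact p.Prime] [hr : Fact r.Prime] (hpr : p ≠ r) (E A : Subgroup G) (w : ℕ) (hE : Cfsg.IsExtraspecial p ↥E) (hEcard : Nat.card ↥E = p ^ (2 * w + 1)) (hA : Cfsg.IsElementaryAbelian r A) (hnorm : E ≤ Subgroup.normalizer (A : Set G)) (hfaith : E ⊓ Subgroup.centralizer (A : Set G) = ⊥) (n : ℕ) (hn : 1 ≤ n) (hdiv : p ∣ r ^ n - 1) (hmin : ∀ k : ℕ, 1 ≤ k → p ∣ r ^ k - 1 → n ≤ k) : r ^ (n * p ^ w) ≤ Nat.card ↥A := by
  classical
  have hp : p.Prime := Fact.out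
  set Z : Subgroup G := (Subgroup.center E).map E.subtype with hZdef
  have hZE : Z ≤ E := Subgroup.map_subtype_le _
  have hZc : ∀ z ∈ Z, ∀ e ∈ E, e * z = z * e := by
    rintro _ ⟨z, hz, rfl⟩ e he
    exact congrArg Subtype.val (Subgroup.mem_center_iff.mp hz ⟨e, he⟩)
  have hZcard : Nat.card Z = p := by
    rw [hZdef, Subgroup.card_subtype]
    exact hE.2
  have hAc : ∀ x ∈ A, ∀ y ∈ A, x * y = y * x := fun x hx y hy =>
    congrArg Subtype.val (hA.1.is_comm.comm ⟨x, hx⟩ ⟨y, hy⟩)
  have hAr : IsPGroup r A := fun x => ⟨1, by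
    rw [pow_one]; exact Subtype.ext (hA.2 x x.2)⟩
  have hcop : (Nat.card Z).Coprime (Nat.card A) := by
    obtain ⟨k, hk⟩ := IsPGroup.iff_card.mp hAr
    rw [hZcard, hk]
    exact Nat.Coprime.pow_right k ((Nat.coprime_primes hp hr.out).mpr hpr)
  have hEconj : ∀ e ∈ E, ∀ x ∈ A, e * x * e⁻¹ ∈ A := fun e he x hx =>
    (Subgroup.mem_normalizer_iff.mp (hnorm he) x).mp hx
  set B : Subgroup G := ⁅A, Z⁆ with hBdef
  have hBA : B ≤ A := by
    rw [hBdef, Subgroup.commutator_le]
    intro a ha z hz
    have h1 : ⁅a, z⁆ = a * (z * a⁻¹ * z⁻¹) := by simp only [commutatorElement_def]; group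
    rw [h1]
    exact A.mul_mem ha (hEconj z (hZE hz) _ (A.inv_mem ha))
  have hEB : ∀ e ∈ E, ∀ x ∈ B, e * x * e⁻¹ ∈ B := by
    intro e he x hx
    rw [hBdef, Subgroup.commutator_def] at hx
    induction hx using Subgroup.closure_induction with
    | mem y hy =>
      obtain ⟨k, hk, z, hz, rfl⟩ := hy
      have h1 : e * ⁅k, z⁆ * e⁻¹ = ⁅e * k * e⁻¹, z⁆ := by
        have h2 : e * z * e⁻¹ = z := by rw [hZc z hz e he]; group
        have h3 : e * ⁅k, z⁆ * e⁻¹ = ⁅e * k * e⁻¹, e * z * e⁻¹⁆ := by
          simp only [commutatorElement_def]; group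
        rw [h3, h2]
      rw [h1]
      exact Subgroup.commutator_mem_commutator (hEconj e he k hk) hz
    | one => simp
    | mul y z _ _ hy hz =>
      have h1 : e * (y * z) * e⁻¹ = (e * y * e⁻¹) * (e * z * e⁻¹) := by group
      rw [h1]; exact Subgroup.mul_mem _ hy hz
    | inv y _ hy =>
      have h1 : e * y⁻¹ * e⁻¹ = (e * y * e⁻¹)⁻¹ := by group
      rw [h1]; exact Subgroup.inv_mem _ hy
  have norm_of : ∀ {K H : Subgroup G}, (∀ a ∈ K, ∀ x ∈ H, a * x * a⁻¹ ∈ H) →
      K ≤ Subgroup.normalizer (H : Set G) := by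
    intro K H h a ha
    rw [Subgroup.mem_normalizer_iff]
    intro x
    refine ⟨h a ha x, fun hx => ?_⟩
    have h2 := h a⁻¹ (K.inv_mem ha) _ hx
    have h1 : a⁻¹ * (a * x * a⁻¹) * a⁻¹⁻¹ = x := by group
    rwa [h1] at h2
  have hBne : B ≠ ⊥ := by
    intro hB0
    have h1 : Z ≤ E ⊓ Subgroup.centralizer (A : Set G) := by
      refine le_inf hZE fun z hz => ?_
      rw [Subgroup.mem_centralizer_iff]
      intro a ha
      have h2 : ⁅a, z⁆ ∈ B := Subgroup.commutator_mem_commutator ha hz
      rw [hB0, Subgroup.mem_bot, commutatorElement_eq_one_iff_mul_comm] at h2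
      exact h2
    rw [hfaith, le_bot_iff] at h1
    rw [h1, Subgroup.card_bot] at hZcard
    exact hp.ne_one hZcard.symm
  obtain ⟨A0, ⟨hA0B, hA0ne, hA0n⟩, hA0min⟩ :
      ∃ A0 : Subgroup G, (A0 ≤ B ∧ A0 ≠ ⊥ ∧ E ≤ Subgroup.normalizer (A0 : Set G)) ∧
        ∀ W : Subgroup G, (W ≤ B ∧ W ≠ ⊥ ∧ E ≤ Subgroup.normalizer (W : Set G)) → W ≤ A0 → W = A0 := by
    have hfin : {W : Subgroup G | W ≤ B ∧ W ≠ ⊥ ∧ E ≤ Subgroup.normalizer (W : Set G)}.Finite :=
      Set.toFinite _
    obtain ⟨A0, hA0⟩ := hfin.exists_minimal ⟨B, le_rfl, hBne, norm_of hEB⟩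
    exact ⟨A0, hA0.1, fun W hW hWle => le_antisymm hWle (hA0.2 hW hWle)⟩
  have hA0A : A0 ≤ A := hA0B.trans hBA
  have hA0c : ∀ x ∈ A0, ∀ y ∈ A0, x * y = y * x := fun x hx y hy => hAc x (hA0A hx) y (hA0A hy)
  letI : CommGroup A0 := { (inferInstance : Group A0) with
    mul_comm := fun x y => Subtype.ext (hA0c x x.2 y y.2) }
  letI : DistribMulAction E (Additive A0) := act E A0 hA0c hA0n
  have hact : ∀ (e : E) (v : Additive A0),
      ((Additive.toMul (e • v) : A0) : G) = e * (Additive.toMul v : A0) * (e : G)⁻¹ :=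
    fun e v => rfl
  have hnt0 : Nontrivial A0 := (Subgroup.nontrivial_iff_ne_bot A0).mpr hA0ne
  have hnt : Nontrivial (Additive A0) := inferInstance
  have hfinA : Finite (Additive A0) := inferInstanceAs (Finite A0)
  have hirr : ∀ W : AddSubgroup (Additive A0), (∀ e : E, ∀ w ∈ W, e • w ∈ W) → W = ⊥ ∨ W = ⊤ := by
    intro W hW
    set W' : Subgroup G := (AddSubgroup.toSubgroup' W).map A0.subtype with hW'
    have hmem : ∀ x : A0, ((x : G) ∈ W' ↔ Additive.ofMul x ∈ W) := by
      intro x
      constructor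
      · rintro ⟨y, hy, hyx⟩
        have : y = x := Subtype.ext hyx
        subst this
        exact hy
      · intro hx
        exact ⟨x, hx, rfl⟩
    have hW'A : W' ≤ A0 := Subgroup.map_subtype_le _
    by_cases hbot : W' = ⊥
    · left
      rw [eq_bot_iff]
      intro x hx
      have h1 : ((Additive.toMul x : A0) : G) ∈ W' := (hmem (Additive.toMul x)).mpr hx
      rw [hbot, Subgroup.mem_bot] at h1
      have h2 : Additive.toMul x = 1 := Subtype.ext h1
      exact h2
    · right
      have h1 : W' = A0 := by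
        refine hA0min W' ⟨hW'A.trans hA0B, hbot, norm_of ?_⟩ hW'A
        intro e he x hx
        have hxA := hW'A hx
        have h2 : Additive.ofMul (⟨x, hxA⟩ : A0) ∈ W := (hmem ⟨x, hxA⟩).mp hx
        have h3 := hW ⟨e, he⟩ _ h2
        exact (hmem (Additive.toMul ((⟨e, he⟩ : E) • Additive.ofMul (⟨x, hxA⟩ : A0)))).mpr h3
      rw [eq_top_iff]
      intro x _
      have h2 : ((Additive.toMul x : A0) : G) ∈ W' := by rw [h1]; exact (Additive.toMul x).2
      exact (hmem (Additive.toMul x)).mp h2
  have hrv : ∀ v : Additive A0, r • v = 0 := by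
    intro v
    have h1 : (Additive.toMul v) ^ r = 1 := Subtype.ext (hA.2 _ (hA0A (Additive.toMul v).2))
    exact h1
  have hntz : ∃ z ∈ Subgroup.center E, ∃ v : Additive A0, z • v ≠ v := by
    by_contra hcon
    push Not at hcon
    have h1 : A0 ≤ (A ⊓ Subgroup.centralizer (Z : Set G)) ⊓ ⁅A, Z⁆ := by
      refine le_inf (le_inf hA0A ?_) hA0B
      intro x hx
      rw [Subgroup.mem_centralizer_iff]
      rintro _ ⟨z, hz, rfl⟩
      have h2 := hcon z hz (Additive.ofMul ⟨x, hx⟩)
      have h3 : (z : G) * x * (z : G)⁻¹ = x := by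
        have := hact z (Additive.ofMul ⟨x, hx⟩)
        rw [h2] at this
        exact this.symm
      exact mul_inv_eq_iff_eq_mul.mp h3
    rw [Lib.CoprimeAbelian.inf_commutator_eq_bot Z A hAc (hZE.trans hnorm) hcop] at h1
    exact hA0ne (le_bot_iff.mp h1)
  have hfinal := H240.ExtraBound.bound (E := E) (V := Additive A0) hirr hrv hE.2 hntz
    (fun a b => Transfer.Extraspecial.comm_mem_center hE a b) w hEcard n hmin
  refine hfinal.trans ?_
  have h1 : Nat.card (Additive A0) = Nat.card A0 := rfl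
  rw [h1]
  exact Nat.card_le_card_of_injective _ (Subgroup.inclusion_injective hA0A)

end Cfsg.Agent.S2912
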