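import Cfsg.Statements.S2913
import Cfsg.Agent.H846.HypM

set_option autoImplicit false
open Cfsg

namespace Cfsg.Agent.S2913

/-- Let G be a finite group with O_{3'}(G) = 1, Z ≤ G a subgroup of order 3, M = C_G(Z), S a Sylow 3-subgroup of M and J an elementary abelian subgroup of S of order 3⁴. Suppose Q = F*(M) is extraspecial of order 3⁵ and exponent 3, F*(M ⧸ Q) ≅ SL₂(5), J = F*(N_G(J)), and the subgroup of N_G(J) ⧸ J generated by its 3-elements is isomorphic to the alternating group of degree 6. Then F*(G) is isomorphic to the McLaughlin group. -/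
theorem result {G : Type*} [Group G] [Finite G] (hO : Cfsg.pPrimeCore 3 G = ⊥) (Z : Subgroup G) (hZ : Nat.card ↥Z = 3) (S : Sylow 3 ↥(Subgroup.centralizer (Z : Set G))) (J : Subgroup G) (hJS : J ≤ ((S : Subgroup ↥(Subgroup.centralizer (Z : Set G))).map (Subgroup.centralizer (Z : Set G)).subtype)) (hJ : Cfsg.IsElementaryAbelian 3 J) (hJcard : Nat.card ↥J = 3 ^ 4) (hQ : Cfsg.IsExtraspecial 3 ↥(Cfsg.generalizedFittingSubgroup ↥(Subgroup.centralizer (Z : Set G)))) (hQcard : Nat.card ↥(Cfsg.generalizedFittingSubgroup ↥(Subgroup.centralizer (Z : Set G))) = 3 ^ 5) [hQn : (Cfsg.generalizedFittingSubgroup ↥(Subgroup.centralizer (Z : Set G))).Normal] (hexp : ∀ x ∈ Cfsg.generalizedFittingSubgroup ↥(Subgroup.centralizer (Z : Set G)), x ^ 3 = 1) (hFMQ : Nonempty (↥(Cfsg.generalizedFittingSubgroup (↥(Subgroup.centralizer (Z : Set G)) ⧸ Cfsg.generalizedFittingSubgroup ↥(Subgroup.centralizer (Z : Set G)))) ≃* Matrix.SpecialLinearGroup (Fin 2)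 (ZMod 5))) (hJF : ((Cfsg.generalizedFittingSubgroup ↥(Subgroup.normalizer (J : Set G))).map (Subgroup.normalizer (J : Set G)).subtype) = J) [hJn : (J.subgroupOf (Subgroup.normalizer (J : Set G))).Normal] (hA6 : Nonempty (↥(Subgroup.closure {x : ↥(Subgroup.normalizer (J : Set G)) ⧸ J.subgroupOf (Subgroup.normalizer (J : Set G)) | ∃ k : ℕ, orderOf x = 3 ^ k}) ≃* ↥(alternatingGroup (Fin 6)))) : Cfsg.Spor.IsoMcL ↥(Cfsg.generalizedFittingSubgroup G) := by
  obtain ⟨e⟩ := hFMQ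
  obtain ⟨e'⟩ := hA6
  obtain ⟨L, hn, h2⟩ := H846.hypM Z hZ _ rfl S _ rfl hQ hQcard hexp e
  obtain ⟨M, π, D⟩ := H846.jdatM J hJ hJcard _ rfl e'
  obtain ⟨K, hK, hs, hm, hC⟩ := D.mcl L hn hJS h2
  exact H846.genFitting_mcl hK hs hm hC

end Cfsg.Agent.S2913
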