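import Cfsg.Statements.S2917
import Cfsg.Agent.H244.G2.Main
import Cfsg.Agent.GTwoThree.Main

set_option autoImplicit false
open Cfsg

namespace Cfsg.Agent.S2917

/-- Let G be a finite group with subgroups H and M such that: H has normal subgroups H₁, H₂ both isomorphic to SL₂(3) with H₁ ∩ H₂ = Z(H₁) = Z(H₂), the product H₁H₂ has index 2 in H, and H = C_G(H₁ ∩ H₂); and M ⧸ O₂(M) ≅ SL₃(2) with O₂(M) elementary abelian of order 8 containing Z(H₁). Then G is isomorphic to the Chevalley group G₂(3). -/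
theorem result {G : Type*} [Group G] [Finite G] (H H₁ H₂ M : Subgroup G) (h1 : H₁ ≤ H) (h2 : H₂ ≤ H) (hn1 : (H₁.subgroupOf H).Normal) (hn2 : (H₂.subgroupOf H).Normal) (hiso1 : Nonempty (↥H₁ ≃* Matrix.SpecialLinearGroup (Fin 2) (ZMod 3))) (hiso2 : Nonempty (↥H₂ ≃* Matrix.SpecialLinearGroup (Fin 2) (ZMod 3))) (hidx : (H₁ ⊔ H₂).relIndex H = 2) (hint1 : H₁ ⊓ H₂ = H₁ ⊓ Subgroup.centralizer (H₁ : Set G)) (hint2 : H₁ ⊓ H₂ = H₂ ⊓ Subgroup.centralizer (H₂ : Set G)) (hHC : H = Subgroup.centralizer ((H₁ ⊓ H₂ : Subgroup G) : Set G)) [hOM : (Cfsg.pCore 2 ↥M).Normal] (hM : Nonempty ((↥M ⧸ Cfsg.pCore 2 ↥M) ≃* Matrix.SpecialLinearGroup (Fin 3) (ZMod 2))) (hOel : Cfsg.IsElementaryAbelian 2 (Cfsg.pCore 2 ↥M)) (hOcard : Nat.card ↥(Cfsg.pCore 2 ↥M) = 8) (hZin : H₁ ⊓ H₂ ≤ (Cfsg.pCore 2 ↥M).map M.subtype) : ∃ (F : Type) (_ : Field F) (_ : Fintype F), Fintype.card F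 = 3 ∧ Nonempty (G ≃* ↥(Cfsg.Lie.chevG2.group F)) := by
  obtain ⟨z, i, j, x, k, l, y, h, hc⟩ := Cfsg.Agent.H244.G2.exists_cfg H H₁ H₂ M h1 h2 hn1 hn2 hiso1 hiso2 hidx
    hint1 hint2 hHC hM hOel hOcard hZin
  have hs := h.isSimple
  obtain ⟨s, hs9⟩ := h.case9c hc
  exact Cfsg.Agent.GTwoThree.recognize hs9

end Cfsg.Agent.S2917
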