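import Cfsg.Statements.S2919
import Cfsg.Agent.LFour.ExtMain
import Cfsg.Agent.H245.SylS8
import Cfsg.Agent.H245.TypeA10

set_option autoImplicit false
open Cfsg

namespace Cfsg.Agent.S2919

open Subgroup Cfsg.Agent.LFourA.Model Cfsg.Agent.LFourA.Base Cfsg.Agent.H245 Cfsg.Agent.H245.TypeA10

/-- Let G be a finite group with O²(G) = G whose Sylow 2-subgroups are isomorphic to the wreath product of a dihedral group of order 8 by a group of order 2 (equivalently, to a Sylow 2-subgroup of the symmetric group of degree 8). Then G ⧸ O(G) has a normal subgroup of odd index which is isomorphic to A₁₀, A₁₁, PSL₄(q) with q ≡ 3 (mod 4), or PSU₄(q) with q ≡ 1 (mod 4). -/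
theorem result {G : Type*} [Group G] [Finite G] (hO2 : Cfsg.pResidual 2 G = ⊤) (T : Sylow 2 G) (hT : ∀ P : Sylow 2 (Equiv.Perm (Fin 8)), Nonempty (↥(T : Subgroup G) ≃* ↥(P : Subgroup (Equiv.Perm (Fin 8))))) [hN : (Cfsg.oddCore G).Normal] : ∃ N : Subgroup (G ⧸ Cfsg.oddCore G), N.Normal ∧ Odd N.index ∧ (Nonempty (↥N ≃* ↥(alternatingGroup (Fin 10))) ∨ Nonempty (↥N ≃* ↥(alternatingGroup (Fin 11))) ∨ (∃ (F : Type) (_ : Field F) (_ : Fintype F) (q : ℕ), Fintype.card F = q ∧ q % 4 = 3 ∧ Nonempty (↥N ≃* Matrix.ProjectiveSpecialLinearGroup (Fin 4) F)) ∨ (∃ (F : Type) (_ : Field F) (_ : Fintype F) (q : ℕ), Fintype.card F = q ^ 2 ∧ q % 4 = 1 ∧ Nonempty (↥N ≃* Cfsg.PSU 4 F q))) := by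
  have h2p : Fact (Nat.Prime 2) := ⟨Nat.prime_two⟩
  obtain ⟨f₀, w₀, h₀⟩ := SylS8.exists_dwr_of_equiv hT
  have h := Cfsg.Agent.LFourA.Quot.dwr h₀
  set P : Sylow 2 (G ⧸ Cfsg.oddCore G) := Cfsg.Agent.LFourA.Quot.syl T with hP
  -- no homomorphism onto a group of order two
  have hG : ∀ φ : G ⧸ Cfsg.oddCore G →* ℤˣ, ∀ x, φ x = 1 := by
    intro φ x
    obtain ⟨g, rfl⟩ := QuotientGroup.mk'_surjective (Cfsg.oddCore G) x
    have hg : g ∈ Cfsg.pResidual 2 G := by rw [hO2]; exact mem_top g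
    have key : Cfsg.pResidual 2 G ≤ (φ.comp (QuotientGroup.mk' (Cfsg.oddCore G))).ker := by
      refine (closure_le _).2 ?_
      intro y hy
      have hy' : Nat.Coprime (orderOf y) 2 := hy
      change (φ.comp (QuotientGroup.mk' (Cfsg.oddCore G))) y = 1
      set ψ := φ.comp (QuotientGroup.mk' (Cfsg.oddCore G)) with hψ
      have h1 : ψ y ^ orderOf y = 1 := by rw [← map_pow, pow_orderOf_eq_one, map_one]
      have h2 : ψ y ^ 2 = 1 := by rw [pow_two]; exact Int.units_mul_self _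
      have h3 := orderOf_dvd_of_pow_eq_one h1
      have h4 := orderOf_dvd_of_pow_eq_one h2
      have h5 : orderOf (ψ y) = 1 := Nat.Coprime.eq_one_of_dvd
        (Nat.Coprime.coprime_dvd_left h3 hy') h4
      exact orderOf_eq_one_iff.1 h5
    exact key hg
  have hO : Cfsg.oddCore (G ⧸ Cfsg.oddCore G) = ⊥ := Cfsg.Agent.LFourA.Quot.oddCore_quot
  obtain ⟨N, hNdef⟩ : ∃ N : Subgroup (G ⧸ Cfsg.oddCore G),
      N = normalClosure ((P : Subgroup (G ⧸ Cfsg.oddCore G)) : Set (G ⧸ Cfsg.oddCore G)) := ⟨_, rfl⟩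
  have hNn : N.Normal := hNdef ▸ normalClosure_normal
  have hPN : (P : Subgroup (G ⧸ Cfsg.oddCore G)) ≤ N := hNdef ▸ subset_normalClosure
  have hs : IsSimpleGroup N := isSimple h hG hO N hNdef
  refine ⟨N, hNn, ?_, ?_⟩
  · have h1 : N.index ∣ (P : Subgroup (G ⧸ Cfsg.oddCore G)).index := Subgroup.index_dvd_of_le hPN
    have h2 : ¬ 2 ∣ (P : Subgroup (G ⧸ Cfsg.oddCore G)).index := P.not_dvd_index
    exact Nat.not_even_iff_odd.1 fun he => h2 (he.two_dvd.trans h1)
  obtain ⟨Q, f', w', h', -⟩ := exists_sylow h hPN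
  have hom := no_hom h hG N hNdef
  obtain ⟨f, hf, hc | hc⟩ := Cfsg.Agent.LFourA.FusionMain.main h' hom
  · have hnt : ¬ Trans16.Trans16 N := not_trans hf hc.tz
    rcases Cfsg.Agent.LFour.ExtMain.branchA1 N Q 0 f w' hf hc with ⟨K, hK, hKf, hodd, ⟨e⟩⟩ |
      ⟨K, hK, hKf, q, hcard, hodd, ⟨e⟩⟩
    · right; right; left
      refine ⟨K, hK, hKf, Fintype.card K, rfl, ?_, ⟨e⟩⟩
      by_contra hne
      apply hnt
      refine Trans16.Trans16.of_equiv e.symm (Trans16.psl_four ?_)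
      rw [Nat.card_eq_fintype_card]
      have := Nat.odd_iff.1 hodd
      omega
    · right; right; right
      refine ⟨K, hK, hKf, q, hcard, ?_, ⟨e⟩⟩
      by_contra hne
      apply hnt
      refine Trans16.Trans16.of_equiv e.symm (Trans16.psu_four ?_ ?_)
      · rw [Nat.card_eq_fintype_card]
        exact hcard
      · have := Nat.odd_iff.1 hodd
        omega
  · rcases Cfsg.Agent.LFour.ExtMain.branchA2 N Q 0 f w' hf hc with e | e
    · exact Or.inl e
    · exact Or.inr (Or.inl e)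

end Cfsg.Agent.S2919
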