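import Cfsg.Statements.S2920
import Cfsg.Agent.H245.OmegaEight
import Cfsg.Agent.OrdDiv.Table
import Cfsg.Agent.S0000

set_option autoImplicit false
open Cfsg

namespace Cfsg.Agent.S2920

/-- Let G be a finite group of even order with parabolic characteristic 2 and H a subgroup of odd index such that F*(H) ≅ PΩ₈⁺(2) and H = N_G(F*(H)). Then F*(G) is isomorphic to PΩ₈⁺(2) or to PΩ₈⁺(3). -/
theorem result {G : Type*} [Group G] [Finite G] (h2 : 2 ∣ Nat.card G) (hG : Cfsg.IsOfParabolicCharacteristic 2 G) (H : Subgroup G) (hidx : ¬ 2 ∣ H.index) (hF : (∃ (F : Type) (_ : Field F) (_ : Fintype F), Fintype.card F = 2 ∧ Nonempty (↥(Cfsg.generalizedFittingSubgroup ↥H) ≃* Cfsg.POmega F (Cfsg.quadFormPlus 4 F)))) (hN : Subgroup.normalizer (((Cfsg.generalizedFittingSubgroup ↥H).map H.subtype : Subgroup G) : Set G) = H) : (∃ (F : Type) (_ : Field F) (_ : Fintype F), Fintype.card F = 2 ∧ Nonempty (↥(Cfsg.generalizedFittingSubgroup G) ≃* Cfsg.POmega F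 (Cfsg.quadFormPlus 4 F))) ∨ (∃ (F : Type) (_ : Field F) (_ : Fintype F), Fintype.card F = 3 ∧ Nonempty (↥(Cfsg.generalizedFittingSubgroup G) ≃* Cfsg.POmega F (Cfsg.quadFormPlus 4 F))) := by
  exact Cfsg.Agent.H245.OmegaEight.main Cfsg.Agent.OrdDiv.table (fun X _ _ _ => Cfsg.Agent.S0000.result) hG H hidx hF hN

end Cfsg.Agent.S2920
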