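import Cfsg.Statements.S2922
import Cfsg.Agent.H239.CharPLocal

set_option autoImplicit false
open Cfsg

namespace Cfsg.Agent.S2922

open Subgroup Cfsg.Agent.H239.CharPLocal

/-- Let p be a prime, X a finite group, B a p-subgroup of X and C a normal subgroup of B. If N_X(C) has characteristic p (its generalized Fitting subgroup is O_p(N_X(C))), then N_X(B) and C_X(B) have characteristic p. -/
theorem result {X : Type*} [Group X] [Finite X] {p : ℕ} [Fact p.Prime] (B C : Subgroup X) (hB : IsPGroup p ↥B) (hCB : C ≤ B) (hCn : (C.subgroupOf B).Normal) (hC : Cfsg.generalizedFittingSubgroup ↥(Subgroup.normalizer (C : Set X)) = Cfsg.pCore p ↥(Subgroup.normalizer (C : Set X))) : Cfsg.generalizedFittingSubgroup ↥(Subgroup.normalizer (B : Set X)) = Cfsg.pCore p ↥(Subgroup.normalizer (B : Set X)) ∧ Cfsg.generalizedFittingSubgroup ↥(Subgroup.centralizer (B : Set X)) = Cfsg.pCore p ↥(Subgroup.centralizer (B : Set X)) := by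
  rw [cp_iff_genFitting] at hC
  rw [cp_iff_genFitting, cp_iff_genFitting]
  have hBN : B ≤ normalizer (C : Set X) := by
    rwa [Subgroup.normal_subgroupOf_iff_le_normalizer hCB] at hCn
  have key : CP p ↥(normalizer (B : Set X)) := by
    refine SignalizersComponents.CharP.charP_normalizer
      (R := (Cfsg.pCore p ↥(Subgroup.normalizer (C : Set X))).map
        (Subgroup.normalizer (C : Set X)).subtype)
      (X := Subgroup.normalizer (C : Set X)) ?_ ?_ ?_ hB hBN ?_
    · exact (Lib.Cores.pCore_isPGroup p).map _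
    · intro g hg
      rw [Subgroup.mem_normalizer_iff]
      intro y
      constructor
      · rintro ⟨w, hw, rfl⟩
        exact ⟨⟨g, hg⟩ * w * ⟨g, hg⟩⁻¹, (Lib.Cores.pCore_normal p).conj_mem w hw ⟨g, hg⟩, rfl⟩
      · rintro ⟨w, hw, hwy⟩
        refine ⟨⟨g, hg⟩⁻¹ * w * ⟨g, hg⟩, ?_, ?_⟩
        · simpa using! (Lib.Cores.pCore_normal p).conj_mem w hw (⟨g, hg⟩⁻¹ : _)
        · change g⁻¹ * (w : X) * g = y
          have hwy' : (w : X) = g * y * g⁻¹ := hwy
          rw [hwy']
          group
    · rintro y ⟨hy1, hy2⟩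
      have h1 : (⟨y, hy1⟩ : Subgroup.normalizer (C : Set X)) ∈
          Subgroup.centralizer (Cfsg.pCore p ↥(Subgroup.normalizer (C : Set X)) : Set _) := by
        rw [Subgroup.mem_centralizer_iff]
        intro w hw
        apply Subtype.ext
        exact Subgroup.mem_centralizer_iff.mp hy2 (w : X) ⟨w, hw, rfl⟩
      exact ⟨_, hC h1, rfl⟩
    · exact (Subgroup.centralizer_le hCB).trans (centralizer_le_normalizer _)
  refine ⟨key, ?_⟩
  have h1 : CP p ↥((centralizer (B : Set X)).subgroupOf (normalizer (B : Set X))) :=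
    key.normal _
  exact h1.of_equiv (Subgroup.subgroupOfEquivOfLe (centralizer_le_normalizer _))

end Cfsg.Agent.S2922
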