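import Cfsg.Statements.S2928
import Cfsg.Agent.H247.PermQS
import Cfsg.Agent.H247.PermQS2
import Cfsg.Agent.H247.Matching

set_option autoImplicit false
set_option linter.style.haveILetI false
open Cfsg

namespace Cfsg.Agent.S2928

open Equiv Equiv.Perm Subgroup Cfsg.Agent.H247

/-- a block of four points with its regular four-group -/
theorem smallTrans_four {X : Type*} [DecidableEq X] {H : Subgroup (Perm X)} {b0 b1 b2 b3 : X}
    (h01 : b0 ≠ b1) (h02 : b0 ≠ b2) (h03 : b0 ≠ b3) (h12 : b1 ≠ b2) (h13 : b1 ≠ b3) (h23 : b2 ≠ b3)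
    (hv1 : swap b0 b1 * swap b2 b3 ∈ H) (hv2 : swap b0 b2 * swap b1 b3 ∈ H) :
    SmallTrans H.subtype {b0, b1, b2, b3} := by
  have h4 : ({b0, b1, b2, b3} : Set X).ncard = 4 := by
    rw [Set.ncard_insert_of_notMem, Set.ncard_insert_of_notMem, Set.ncard_pair h23]
    · simp [h12, h13]
    · simp [h01, h02, h03]
  refine ⟨by omega, by omega, ?_⟩
  have hv3 : (swap b0 b1 * swap b2 b3) * (swap b0 b2 * swap b1 b3) ∈ H := H.mul_mem hv1 hv2
  have hf : ∀ c, c ∉ ({b0, b1, b2, b3} : Set X) →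
      (swap b0 b1 * swap b2 b3) c = c ∧ (swap b0 b2 * swap b1 b3) c = c ∧
      ((swap b0 b1 * swap b2 b3) * (swap b0 b2 * swap b1 b3)) c = c := by
    intro c hc
    simp only [Set.mem_insert_iff, Set.mem_singleton_iff, not_or] at hc
    obtain ⟨h0, h1, h2, h3⟩ := hc
    have e1 : (swap b0 b1 * swap b2 b3) c = c := by
      rw [Perm.mul_apply, swap_apply_of_ne_of_ne h2 h3, swap_apply_of_ne_of_ne h0 h1]
    have e2 : (swap b0 b2 * swap b1 b3) c = c := by
      rw [Perm.mul_apply, swap_apply_of_ne_of_ne h1 h3, swap_apply_of_ne_of_ne h0 h2]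
    refine ⟨e1, e2, ?_⟩
    rw [Perm.mul_apply, e2, e1]
  have p0 : (swap b0 b1 * swap b2 b3) b0 = b1 := by
    rw [Perm.mul_apply, swap_apply_of_ne_of_ne h02 h03, swap_apply_left]
  have p1 : (swap b0 b1 * swap b2 b3) b1 = b0 := by
    rw [Perm.mul_apply, swap_apply_of_ne_of_ne h12 h13, swap_apply_right]
  have p2 : (swap b0 b1 * swap b2 b3) b2 = b3 := by
    rw [Perm.mul_apply, swap_apply_left, swap_apply_of_ne_of_ne h03.symm h13.symm]
  have p3 : (swap b0 b1 * swap b2 b3) b3 = b2 := by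
    rw [Perm.mul_apply, swap_apply_right, swap_apply_of_ne_of_ne h02.symm h12.symm]
  have q0 : (swap b0 b2 * swap b1 b3) b0 = b2 := by
    rw [Perm.mul_apply, swap_apply_of_ne_of_ne h01 h03, swap_apply_left]
  have q2 : (swap b0 b2 * swap b1 b3) b2 = b0 := by
    rw [Perm.mul_apply, swap_apply_of_ne_of_ne h12.symm h23, swap_apply_right]
  have q1 : (swap b0 b2 * swap b1 b3) b1 = b3 := by
    rw [Perm.mul_apply, swap_apply_left, swap_apply_of_ne_of_ne h03.symm h23.symm]
  have q3 : (swap b0 b2 * swap b1 b3) b3 = b1 := by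
    rw [Perm.mul_apply, swap_apply_right, swap_apply_of_ne_of_ne h01.symm h12]
  have r0 : ((swap b0 b1 * swap b2 b3) * (swap b0 b2 * swap b1 b3)) b0 = b3 := by
    rw [Perm.mul_apply, q0, p2]
  have r1 : ((swap b0 b1 * swap b2 b3) * (swap b0 b2 * swap b1 b3)) b1 = b2 := by
    rw [Perm.mul_apply, q1, p3]
  have r2 : ((swap b0 b1 * swap b2 b3) * (swap b0 b2 * swap b1 b3)) b2 = b1 := by
    rw [Perm.mul_apply, q2, p0]
  have r3 : ((swap b0 b1 * swap b2 b3) * (swap b0 b2 * swap b1 b3)) b3 = b0 := by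
    rw [Perm.mul_apply, q3, p1]
  intro a ha b hb hab
  simp only [Set.mem_insert_iff, Set.mem_singleton_iff] at ha hb
  rcases ha with rfl | rfl | rfl | rfl <;> rcases hb with rfl | rfl | rfl | rfl
  · exact absurd rfl hab
  · exact ⟨⟨_, hv1⟩, p0, fun c hc => (hf c hc).1⟩
  · exact ⟨⟨_, hv2⟩, q0, fun c hc => (hf c hc).2.1⟩
  · exact ⟨⟨_, hv3⟩, r0, fun c hc => (hf c hc).2.2⟩
  · exact ⟨⟨_, hv1⟩, p1, fun c hc => (hf c hc).1⟩
  · exact absurd rfl hab
  · exact ⟨⟨_, hv3⟩, r1, fun c hc => (hf c hc).2.2⟩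
  · exact ⟨⟨_, hv2⟩, q1, fun c hc => (hf c hc).2.1⟩
  · exact ⟨⟨_, hv2⟩, q2, fun c hc => (hf c hc).2.1⟩
  · exact ⟨⟨_, hv3⟩, r2, fun c hc => (hf c hc).2.2⟩
  · exact absurd rfl hab
  · exact ⟨⟨_, hv1⟩, p2, fun c hc => (hf c hc).1⟩
  · exact ⟨⟨_, hv3⟩, r3, fun c hc => (hf c hc).2.2⟩
  · exact ⟨⟨_, hv2⟩, q3, fun c hc => (hf c hc).2.1⟩
  · exact ⟨⟨_, hv1⟩, p3, fun c hc => (hf c hc).1⟩
  · exact absurd rfl hab

/-- permutations preserving each block of 4 and the system of blocks of 2 -/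
def U (n : ℕ) : Subgroup (Perm (Fin n)) where
  carrier := {σ | (∀ x, (σ x).1 / 4 = x.1 / 4) ∧ ∀ x y, x.1 / 2 = y.1 / 2 ↔ (σ x).1 / 2 = (σ y).1 / 2}
  mul_mem' := by
    intro a b ha hb
    refine ⟨fun x => ?_, fun x y => ?_⟩
    · rw [Perm.mul_apply, ha.1, hb.1]
    · rw [Perm.mul_apply, Perm.mul_apply, hb.2, ha.2]
  one_mem' := ⟨fun _ => rfl, fun _ _ => Iff.rfl⟩
  inv_mem' := by
    intro a ha
    refine ⟨fun x => ?_, fun x y => ?_⟩
    · have := ha.1 (a⁻¹ x)
      have h1 : a (a⁻¹ x) = x := a.apply_symm_apply x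
      rw [h1] at this
      exact this.symm
    · have := ha.2 (a⁻¹ x) (a⁻¹ y)
      have h1 : a (a⁻¹ x) = x := a.apply_symm_apply x
      have h2 : a (a⁻¹ y) = y := a.apply_symm_apply y
      rw [h1, h2] at this
      exact this.symm

theorem mem_U {n : ℕ} {σ : Perm (Fin n)} : σ ∈ U n ↔ (∀ x, (σ x).1 / 4 = x.1 / 4) ∧
    ∀ x y, x.1 / 2 = y.1 / 2 ↔ (σ x).1 / 2 = (σ y).1 / 2 := Iff.rfl

theorem U_pow {n : ℕ} {σ : Perm (Fin n)} (hσ : σ ∈ U n) : σ ^ 4 = 1 := by
  obtain ⟨h1, h2⟩ := mem_U.1 hσ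
  -- the square fixes the blocks of size two
  have h3 : ∀ x, (σ (σ x)).1 / 2 = x.1 / 2 := by
    intro x
    have a1 := h1 x
    have a2 := h1 (σ x)
    have a3 := h2 x (σ x)
    omega
  have h4 : ∀ x, σ (σ (σ (σ x))) = x := by
    intro x
    by_cases hx : σ (σ x) = x
    · rw [hx, hx]
    · have b1 := h3 x
      have b2 := h3 (σ (σ x))
      have b3 : σ (σ (σ (σ x))) ≠ σ (σ x) := by
        intro h
        exact hx (σ.injective (σ.injective h))
      rw [Fin.ext_iff] at hx
      rw [ne_eq, Fin.ext_iff] at b3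
      apply Fin.ext
      omega
  ext x
  have : (σ ^ 4) x = σ (σ (σ (σ x))) := rfl
  rw [this, h4]
  rfl

theorem U_pgroup (n : ℕ) : IsPGroup 2 ((U n).comap (alternatingGroup (Fin n)).subtype) := by
  intro x
  refine ⟨2, ?_⟩
  apply Subtype.ext
  apply Subtype.ext
  exact U_pow x.2

theorem swap_div {n : ℕ} {a b : Fin n} (h : a.1 / 2 = b.1 / 2) (x : Fin n) :
    (swap a b x).1 / 2 = x.1 / 2 := by
  rw [swap_apply_def]
  split_ifs with h1 h2
  · rw [h1, h]
  · rw [h2, h]
  · rfl

theorem swap_mul_swap_mem {n : ℕ} {a b c d : Fin n} (h : a.1 / 2 = b.1 / 2)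
    (h' : c.1 / 2 = d.1 / 2) : swap a b * swap c d ∈ U n := by
  have h1 : ∀ x, ((swap a b * swap c d) x).1 / 2 = x.1 / 2 := by
    intro x
    rw [Perm.mul_apply, swap_div h, swap_div h']
  rw [mem_U]
  refine ⟨fun x => ?_, fun x y => ?_⟩
  · have := h1 x; omega
  · rw [h1, h1]

/-- the second involution of the four-group on the `q`-th block of size four -/
def sq (n q : ℕ) (h : 4 * q + 3 < n) : Perm (Fin n) :=
  swap ⟨4 * q, by omega⟩ ⟨4 * q + 2, by omega⟩ * swap ⟨4 * q + 1, by omega⟩ ⟨4 * q + 3, h⟩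

theorem sq_apply (n q : ℕ) (h : 4 * q + 3 < n) (x : Fin n) :
    (sq n q h x).1 = if x.1 / 4 = q then (if x.1 / 2 = 2 * q then x.1 + 2 else x.1 - 2) else x.1 := by
  rw [sq, Perm.mul_apply, swap_apply_def (⟨4 * q + 1, by omega⟩ : Fin n)]
  split_ifs with a1 a2 a3 a4 a5 a6 a7 a8 a9
  all_goals simp only [Fin.ext_iff] at *
  all_goals try (exfalso; omega)
  all_goals rw [swap_apply_def]
  all_goals split_ifs with c1 c2
  all_goals simp only [Fin.ext_iff] at *
  all_goals omega

theorem sq_mem (n q : ℕ) (h : 4 * q + 3 < n) : sq n q h ∈ U n := by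
  rw [mem_U]
  refine ⟨fun x => ?_, fun x y => ?_⟩
  · rw [sq_apply]
    split_ifs <;> omega
  · rw [sq_apply, sq_apply]
    split_ifs <;> omega

/-- the partner -/
def par {n : ℕ} (x : Fin n) : Fin n :=
  if h : x.1 % 2 = 0 then (if h' : x.1 + 1 < n then ⟨x.1 + 1, h'⟩ else x)
  else ⟨x.1 - 1, by have := x.2; omega⟩

theorem par_div {n : ℕ} (x : Fin n) : (par x).1 / 2 = x.1 / 2 := by
  unfold par
  split_ifs with h h'
  · simp only; omega
  · rfl
  · simp only; omega

theorem par_par {n : ℕ} (x : Fin n) : par (par x) = x := by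
  by_cases h : x.1 % 2 = 0
  · by_cases h' : x.1 + 1 < n
    · have e : par x = ⟨x.1 + 1, h'⟩ := by rw [par, dif_pos h, dif_pos h']
      rw [e, par, dif_neg (by simp only; omega)]
      apply Fin.ext
      simp
    · have e : par x = x := by rw [par, dif_pos h, dif_neg h']
      rw [e, e]
  · have e : par x = ⟨x.1 - 1, by have := x.2; omega⟩ := by rw [par, dif_neg h]
    rw [e, par, dif_pos (by simp only; omega), dif_pos (by have := x.2; simp only; omega)]
    apply Fin.ext
    simp only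
    omega

theorem par_fix {n : ℕ} (x y : Fin n) (hx : par x = x) (hy : par y = y) : x = y := by
  have key : ∀ x : Fin n, par x = x → x.1 + 1 = n := by
    intro x hx
    have h2 := x.2
    rw [par] at hx
    split_ifs at hx with h h'
    · exfalso
      have := congrArg Fin.val hx
      simp at this
    · omega
    · exfalso
      have := congrArg Fin.val hx
      simp only at this
      omega
  have h1 := key x hx
  have h2 := key y hy
  apply Fin.ext
  omega

/-- Let n ≥ 8 and let H be a subgroup of the symmetric group of degree n whose generalized Fitting subgroup F*(H) is quasisimple. If H contains a Sylow 2-subgroup of the alternating group of degree n, then F*(H) is isomorphic to an alternating group of degree m for some m ∈ {n − 3, n − 2, n − 1, n}. -/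
theorem result (n : ℕ) (hn : 8 ≤ n) (H : Subgroup (Equiv.Perm (Fin n))) (hF : Cfsg.IsQuasisimple ↥(Cfsg.generalizedFittingSubgroup ↥H)) (hS : ∃ P : Sylow 2 ↥(alternatingGroup (Fin n)), ((P : Subgroup ↥(alternatingGroup (Fin n))).map (alternatingGroup (Fin n)).subtype) ≤ H) : ∃ m : ℕ, (m = n - 3 ∨ m = n - 2 ∨ m = n - 1 ∨ m = n) ∧ Nonempty (↥(Cfsg.generalizedFittingSubgroup ↥H) ≃* ↥(alternatingGroup (Fin m))) := by
  classical
  obtain ⟨P, hP⟩ := hS
  obtain ⟨γ, hγ⟩ := exists_conj_mem P (U_pgroup n)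
  obtain ⟨g, hgA⟩ := γ
  have hg : ∀ σ ∈ U n, sign σ = 1 → g * σ * g⁻¹ ∈ H := by
    intro σ hσ hs
    apply hP
    exact ⟨_, hγ ⟨σ, mem_alternatingGroup.2 hs⟩ hσ, rfl⟩
  have hQS := qs_of_quasisimple hF
  have hinj : Function.Injective H.subtype := H.subtype_injective
  -- products of two transpositions
  have hmem : ∀ a b c d : Fin n, a ≠ b → c ≠ d → swap a b * swap c d ∈ U n →
      swap (g a) (g b) * swap (g c) (g d) ∈ H := by
    intro a b c d hab hcd h
    have h1 := hg _ h (by rw [Perm.sign_mul, sign_swap hab, sign_swap hcd]; rfl)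
    rw [swap_apply_apply, swap_apply_apply]
    convert h1 using 1
    group
  have hpair : ∀ a b c d : Fin n, a ≠ b → c ≠ d → a.1 / 2 = b.1 / 2 → c.1 / 2 = d.1 / 2 →
      swap (g a) (g b) * swap (g c) (g d) ∈ H :=
    fun a b c d hab hcd h1 h2 => hmem a b c d hab hcd (swap_mul_swap_mem h1 h2)
  have hne : ∀ (a b : ℕ) (ha : a < n) (hb : b < n), a ≠ b → (⟨a, ha⟩ : Fin n) ≠ ⟨b, hb⟩ := by
    intro a b ha hb hab h
    rw [Fin.mk.injEq] at h
    exact hab h
  have hsm : ∀ (q : ℕ) (h : 4 * q + 3 < n), SmallTrans H.subtype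
      {g ⟨4 * q, by omega⟩, g ⟨4 * q + 1, by omega⟩, g ⟨4 * q + 2, by omega⟩, g ⟨4 * q + 3, h⟩} := by
    intro q h
    have hne' : ∀ (a b : ℕ) (ha : a < n) (hb : b < n), a ≠ b →
      g ⟨a, ha⟩ ≠ g ⟨b, hb⟩ := fun a b ha hb hab h => hne a b ha hb hab (g.injective h)
    refine smallTrans_four (hne' _ _ _ _ (by omega)) (hne' _ _ _ _ (by omega))
      (hne' _ _ _ _ (by omega)) (hne' _ _ _ _ (by omega)) (hne' _ _ _ _ (by omega))
      (hne' _ _ _ _ (by omega)) ?_ ?_
    · exact hpair _ _ _ _ (hne _ _ _ _ (by omega)) (hne _ _ _ _ (by omega))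
        (by simp only; omega) (by simp only; omega)
    · exact hmem _ _ _ _ (hne _ _ _ _ (by omega)) (hne _ _ _ _ (by omega)) (sq_mem n q h)
  obtain ⟨D, hD, hDinj, hDtr, hDB⟩ := hQS.exists_delta hinj (hsm 0 (by omega))
  have hs0 := (hsm 0 (by omega)).restr hD (hDB _ (hsm 0 (by omega)))
  have h5 := hQS.five_le hDinj
  haveI : Nonempty D := by
    by_contra hc
    rw [not_nonempty_iff] at hc
    simp at h5
  have hprim := hQS.isPreprimitive hDinj (by
    intro x y
    obtain ⟨k, hk, hkx⟩ := hDtr x x.2 y y.2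
    exact ⟨k, hk, Subtype.ext hkx⟩) hs0
  -- the degree
  have hcard : D.ncard ≤ n ∧ 4 * (n / 4) ≤ D.ncard := by
    constructor
    · have := Set.ncard_le_card (s := D)
      simpa using this
    · have hsub : g '' {i : Fin n | i.1 < 4 * (n / 4)} ⊆ D := by
        rintro _ ⟨i, hi, rfl⟩
        rw [Set.mem_ofPred_eq] at hi
        have hq : 4 * (i.1 / 4) + 3 < n := by omega
        apply hDB _ (hsm (i.1 / 4) hq)
        simp only [Set.mem_insert_iff, Set.mem_singleton_iff, EmbeddingLike.apply_eq_iff_eq,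
          Fin.ext_iff]
        omega
      have h1 := Set.ncard_le_ncard hsub
      rw [Set.ncard_image_of_injective _ g.injective] at h1
      have h2 : {i : Fin n | i.1 < 4 * (n / 4)}.ncard = 4 * (n / 4) := by
        have : {i : Fin n | i.1 < 4 * (n / 4)} =
            Set.range (fun j : Fin (4 * (n / 4)) => (⟨j.1, by have := j.2; omega⟩ : Fin n)) := by
          ext i
          simp only [Set.mem_ofPred_eq, Set.mem_range]
          constructor
          · intro h; exact ⟨⟨i.1, h⟩, rfl⟩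
          · rintro ⟨j, rfl⟩; exact j.2
        rw [this, ← Set.image_univ, Set.ncard_image_of_injective, Set.ncard_univ]
        · simp
        · intro a b hab
          rw [Fin.mk.injEq] at hab
          exact Fin.ext hab
      omega
  refine ⟨D.ncard, by omega, ?_⟩
  -- partners stay in `D`
  have hpar : ∀ i : Fin n, g i ∈ D → g (par i) ∈ D := by
    intro i hi
    by_cases hpi : par i = i
    · rw [hpi]; exact hi
    obtain ⟨c, d, hcd, hcd2, hci⟩ : ∃ c d : Fin n, c ≠ d ∧ c.1 / 2 = d.1 / 2 ∧ c.1 / 2 ≠ i.1 / 2 := by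
      by_cases h0 : i.1 / 2 = 0
      · exact ⟨⟨2, by omega⟩, ⟨3, by omega⟩, hne _ _ _ _ (by omega), by norm_num, by simp only; omega⟩
      · exact ⟨⟨0, by omega⟩, ⟨1, by omega⟩, hne _ _ _ _ (by omega), by norm_num, by simp only; omega⟩
    have h1 := hpair i (par i) c d (Ne.symm hpi) hcd (par_div i).symm hcd2
    have h2 := hD ⟨_, h1⟩ _ hi
    have h3 : (swap (g i) (g (par i)) * swap (g c) (g d)) (g i) = g (par i) := by
      have hc' : g i ≠ g c := by intro h; apply hci; rw [g.injective h]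
      have hd' : g i ≠ g d := by intro h; apply hci; rw [g.injective h]; exact hcd2
      rw [Perm.mul_apply, swap_apply_of_ne_of_ne hc' hd', swap_apply_left]
    rw [← h3]; exact h2
  let f : D → D := fun y => ⟨g (par (g.symm y)), hpar _ (by rw [g.apply_symm_apply]; exact y.2)⟩
  have hf : Function.Involutive f := by
    intro y
    apply Subtype.ext
    show g (par (g.symm (g (par (g.symm y))))) = y
    rw [g.symm_apply_apply, par_par, g.apply_symm_apply]
  let s : Perm D := hf.toPerm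
  have hsf : ∀ y, s y = f y := fun y => rfl
  haveI : Fintype D := Fintype.ofFinite D
  have hD8 : 8 ≤ Fintype.card D := by
    rw [← Nat.card_eq_fintype_card, Nat.card_coe_set_eq]
    omega
  rcases three_cycle_of_matching _ hprim s hf
    (by
      intro y z hy hz
      have hy' : g (par (g.symm y)) = y := congrArg Subtype.val hy
      have hz' : g (par (g.symm z)) = z := congrArg Subtype.val hz
      have h1 := par_fix (g.symm y) (g.symm z) (by rw [← g.injective.eq_iff, hy', g.apply_symm_apply])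
        (by rw [← g.injective.eq_iff, hz', g.apply_symm_apply])
      exact Subtype.ext (g.symm.injective h1))
    (by
      intro y z hy hz
      have hy' : par (g.symm y) ≠ g.symm y := by
        intro h
        apply hy
        apply Subtype.ext
        show g (par (g.symm y)) = y
        rw [h, g.apply_symm_apply]
      have hz' : par (g.symm z) ≠ g.symm z := by
        intro h
        apply hz
        apply Subtype.ext
        show g (par (g.symm z)) = z
        rw [h, g.apply_symm_apply]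
      refine ⟨⟨_, hpair (g.symm y) (par (g.symm y)) (g.symm z) (par (g.symm z)) (Ne.symm hy')
        (Ne.symm hz') (par_div _).symm (par_div _).symm⟩, ?_⟩
      ext w
      rw [restr_apply, Perm.mul_apply, coe_swap, coe_swap, hsf, hsf]
      show ((swap (g (g.symm y)) (g (par (g.symm y))) *
        swap (g (g.symm z)) (g (par (g.symm z)))) (w : Fin n) : Fin n).1 = _
      rw [g.apply_symm_apply, g.apply_symm_apply]
      rfl) hD8 with h3 | h8
  · -- three-cycle
    obtain ⟨c, hc, hc3⟩ := h3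
    have hle := alternatingGroup_le_of_isPreprimitive_of_isThreeCycle_mem hprim hc3 hc
    refine hQS.equiv_alternating hDinj _ rfl h5 ?_
    intro i1 i2
    convert hle
  · -- degree eight
    exfalso
    obtain ⟨-, ⟨g0, hg0⟩, hsfix, hcomm⟩ := h8
    have hN : (normalClosure ({g0} : Set H)) = ⊥ := by
      refine hQS.abelian_normal_eq_bot hDinj hprim inferInstance ?_
      rw [normalClosure]
      apply closure_commute
      intro a ha b hb
      rw [Group.mem_conjugatesOfSet_iff] at ha hb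
      obtain ⟨a', ha', ha⟩ := ha
      obtain ⟨b', hb', hb⟩ := hb
      rw [Set.mem_singleton_iff] at ha' hb'
      rw [isConj_iff, ha'] at ha
      rw [isConj_iff, hb'] at hb
      obtain ⟨x, rfl⟩ := ha
      obtain ⟨y, rfl⟩ := hb
      apply hDinj
      have h1 := hcomm (restr H.subtype D hD (x⁻¹ * y)) ⟨_, rfl⟩
      rw [← hg0] at h1
      simp only [← map_mul, ← map_inv] at h1
      have h2 := hDinj h1
      congr 1
      calc x * g0 * x⁻¹ * (y * g0 * y⁻¹) = x * (g0 * (x⁻¹ * y * g0 * (x⁻¹ * y)⁻¹)) * x⁻¹ := by group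
        _ = x * (x⁻¹ * y * g0 * (x⁻¹ * y)⁻¹ * g0) * x⁻¹ := by rw [h2]
        _ = _ := by group
    have h1 : g0 ∈ normalClosure ({g0} : Set H) := subset_normalClosure rfl
    rw [hN, Subgroup.mem_bot] at h1
    rw [h1, map_one] at hg0
    obtain ⟨y⟩ := ‹Nonempty D›
    apply hsfix y
    rw [← hg0]
    rfl

end Cfsg.Agent.S2928
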