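import Cfsg.Statements.S2930
import Cfsg.Agent.H247.PermQS2
import Cfsg.Agent.H247.ThreeMin
import Cfsg.Agent.StdAlt.Six.AutLemmas
import Cfsg.Agent.OddCyclic.EmpFFAlt
import Cfsg.Agent.StandardComponent.AltAut

set_option autoImplicit false
set_option linter.style.haveILetI false
open Cfsg

namespace Cfsg.Agent.S2930

open Equiv Equiv.Perm Subgroup Cfsg.Agent.H247

/-- the square of an automorphism of `A_n` is induced by a permutation -/
theorem sq_conj {n : ℕ} (hn : 5 ≤ n) (α : MulAut (alternatingGroup (Fin n))) :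
    ∃ σ : Perm (Fin n), ∀ x : alternatingGroup (Fin n), ((α (α x) : alternatingGroup (Fin n)) : Perm (Fin n)) = σ * x * σ⁻¹ := by
  have key : (∃ σ : Perm (Fin n), ∀ x : alternatingGroup (Fin n), (α x : Perm (Fin n)) = σ * x * σ⁻¹) →
      ∃ σ : Perm (Fin n), ∀ x : alternatingGroup (Fin n), ((α (α x) : alternatingGroup (Fin n)) : Perm (Fin n)) = σ * x * σ⁻¹ := by
    rintro ⟨σ, hσ⟩
    refine ⟨σ * σ, fun x => ?_⟩
    rw [hσ, hσ]; group
  by_cases h5 : n = 5
  · subst h5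
    exact key (Cfsg.Agent.OddCyclic.EmpFFAlt.exists_conj α)
  by_cases h6 : n = 6
  · subst h6
    by_cases hN : Cfsg.Agent.StdAlt.Six.NS α
    · exact key hN
    · exact Cfsg.Agent.StdAlt.Six.NS.mul_of_not hN hN
  · obtain ⟨m, rfl⟩ : ∃ m, n = m + 2 := ⟨n - 2, by omega⟩
    exact key (Cfsg.Agent.StandardComponent.AltAut.exists_conj (by omega) α)

theorem four_conj {n : ℕ} (hn : 5 ≤ n) (α : MulAut (alternatingGroup (Fin n))) :
    ∃ a : alternatingGroup (Fin n), ∀ x : alternatingGroup (Fin n), α (α (α (α x))) = a * x * a⁻¹ := by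
  obtain ⟨σ, hσ⟩ := sq_conj hn α
  refine ⟨⟨σ * σ, ?_⟩, fun x => ?_⟩
  · rw [mem_alternatingGroup, Perm.sign_mul]
    exact Int.units_mul_self _
  · apply Subtype.ext
    rw [hσ, hσ]
    show _ = σ * σ * x.1 * (σ * σ)⁻¹
    group

theorem pow_four_mem {X : Type*} [Group X] {K : Subgroup X} [K.Normal]
    (hC : centralizer (K : Set X) ≤ K) {n : ℕ} (hn : 5 ≤ n) (e : K ≃* alternatingGroup (Fin n)) (x : X) :
    x ^ 4 ∈ K := by
  let β : MulAut K := MulAut.conjNormal x
  let α : MulAut (alternatingGroup (Fin n)) := (e.symm.trans β).trans e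
  have hα : ∀ k : K, α (e k) = e (β k) := fun k => by simp [α]
  obtain ⟨a, ha⟩ := four_conj hn α
  have h1 : ∀ k : K, β (β (β (β k))) = e.symm a * k * (e.symm a)⁻¹ := by
    intro k
    apply e.injective
    rw [← hα, ← hα, ← hα, ← hα, ha]
    simp
  have h2 : ((e.symm a : K) : X)⁻¹ * x ^ 4 ∈ centralizer (K : Set X) := by
    rw [mem_centralizer_iff]
    intro k hk
    have h3 := congrArg Subtype.val (h1 ⟨k, hk⟩)
    simp only [β, MulAut.conjNormal_apply, Subgroup.coe_mul, InvMemClass.coe_inv] at h3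
    have h4 : x ^ 4 * k * (x ^ 4)⁻¹ = (e.symm a : X) * k * (e.symm a : X)⁻¹ := by
      rw [← h3, show x ^ 4 = x * x * x * x by simp [pow_succ, mul_assoc]]
      simp only [mul_inv_rev, mul_assoc]
    have h5 : x ^ 4 * k = (e.symm a : X) * k * (e.symm a : X)⁻¹ * x ^ 4 := by
      rw [← h4]; group
    rw [mul_assoc, h5]; group
  have h3 := hC h2
  have h4 := K.mul_mem (e.symm a).2 h3
  rwa [mul_inv_cancel_left] at h4

theorem mem_of_pow {X : Type*} [Group X] {K : Subgroup X} [K.Normal] {x : X} {k : ℕ}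
    (h4 : x ^ 4 ∈ K) (h3 : x ^ 3 ^ k = 1) : x ∈ K := by
  rw [← QuotientGroup.eq_one_iff]
  have h1 : (x : X ⧸ K) ^ 4 = 1 := by
    rw [← QuotientGroup.mk_pow]; exact (QuotientGroup.eq_one_iff _).2 h4
  have h2 : (x : X ⧸ K) ^ 3 ^ k = 1 := by
    rw [← QuotientGroup.mk_pow, h3]; rfl
  have h5 := Nat.dvd_gcd (orderOf_dvd_of_pow_eq_one h1) (orderOf_dvd_of_pow_eq_one h2)
  have h6 : Nat.gcd 4 (3 ^ k) = 1 := Nat.Coprime.pow_right _ (by norm_num)
  rw [h6, Nat.dvd_one, orderOf_eq_one_iff] at h5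
  exact h5

/-- Let X be a finite 3-minimal group (a Sylow 3-subgroup is not normal and lies in a unique maximal subgroup) whose generalized Fitting subgroup is isomorphic to an alternating group of degree n ≥ 5. Then X = F*(X), and n = 6, n = 9, or n = 3ᵃ + 1 for some a ≥ 2. -/
theorem result {X : Type*} [Group X] [Finite X] (hX : Cfsg.IsPMinimal 3 X) (n : ℕ) (hn : 5 ≤ n) (hF : Nonempty (↥(Cfsg.generalizedFittingSubgroup X) ≃* ↥(alternatingGroup (Fin n)))) : Cfsg.generalizedFittingSubgroup X = ⊤ ∧ (n = 6 ∨ n = 9 ∨ ∃ a : ℕ, 2 ≤ a ∧ n = 3 ^ a + 1) := by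
  classical
  haveI : Fact (Nat.Prime 3) := ⟨Nat.prime_three⟩
  obtain ⟨e⟩ := hF
  haveI hKn : (Cfsg.generalizedFittingSubgroup X).Normal := Lib.GenFitting.genFitting_normal
  have hC := Lib.GenFitting.centralizer_genFitting_le (G := X)
  have htop : Cfsg.generalizedFittingSubgroup X = ⊤ := by
    set K := Cfsg.generalizedFittingSubgroup X with hK
    by_contra hne
    let S : Sylow 3 X := default
    have hSK : (S : Subgroup X) ≤ K := by
      intro x hx
      obtain ⟨k, hk⟩ := S.isPGroup' ⟨x, hx⟩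
      exact mem_of_pow (pow_four_mem hC hn e x) (congrArg Subtype.val hk)
    obtain ⟨hS1, M, ⟨hM1, hM2⟩, hM3⟩ := hX S
    obtain ⟨M1, hM1c, hKM1⟩ := (eq_top_or_exists_le_coatom K).resolve_left hne
    have h1 := hM3 M1 ⟨hM1c, hSK.trans hKM1⟩
    have hNne : normalizer ((S : Subgroup X) : Set X) ≠ ⊤ := by
      intro h
      exact hS1 (Subgroup.normalizer_eq_top_iff.1 h)
    obtain ⟨M2, hM2c, hNM2⟩ := (eq_top_or_exists_le_coatom _).resolve_left hNne
    have h2 := hM3 M2 ⟨hM2c, le_normalizer.trans hNM2⟩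
    have h3 := Sylow.normalizer_sup_eq_top' S hSK
    apply hM1c.1
    rw [eq_top_iff, ← h3]
    apply sup_le
    · rw [h1, ← h2]; exact hNM2
    · exact hKM1
  refine ⟨htop, ?_⟩
  -- transport to the alternating group
  let φ : X ≃* alternatingGroup (Fin n) :=
    (Subgroup.topEquiv.symm.trans (MulEquiv.subgroupCongr htop.symm)).trans e
  let E : Subgroup (alternatingGroup (Fin n)) :=
    closure {c | ∃ q h, c.1 = ThreeMin.cyc n q h}
  have hE : IsPGroup 3 E := by
    intro x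
    refine ⟨1, ?_⟩
    apply Subtype.ext
    apply closure_pow_eq_one (S := {c : alternatingGroup (Fin n) | ∃ q h, c.1 = ThreeMin.cyc n q h})
      (p := 3 ^ 1) _ _ _ x.2
    · rintro a ⟨q, h, ha⟩ b ⟨r, h', hb⟩
      apply Subtype.ext
      show a.1 * b.1 = b.1 * a.1
      rw [ha, hb]
      exact ThreeMin.cyc_comm q r h h'
    · rintro a ⟨q, h, ha⟩
      have := (ThreeMin.cyc_three q h).orderOf
      apply Subtype.ext
      show a.1 ^ (3 ^ 1) = 1
      rw [ha, pow_one, ← this]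
      exact pow_orderOf_eq_one _
  obtain ⟨S0, hS0⟩ := hE.exists_le_sylow
  let S : Sylow 3 X := S0.mapSurjective (f := φ.symm.toMonoidHom) φ.symm.surjective
  have hS : (S : Subgroup X) = (S0 : Subgroup _).map φ.symm.toMonoidHom := rfl
  obtain ⟨-, M, ⟨hM1, hM2⟩, hM3⟩ := hX S
  refine ThreeMin.main (Q := S0) (M := φ.mapSubgroup M) hn S0.isPGroup' ?_ ?_ ?_ ?_
  · intro q h
    exact ⟨⟨ThreeMin.cyc n q h, mem_alternatingGroup.2 (ThreeMin.cyc_three q h).sign⟩,
      hS0 (subset_closure ⟨q, h, rfl⟩), rfl⟩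
  · exact (OrderIso.isCoatom_iff φ.mapSubgroup M).2 hM1
  · intro x hx
    refine ⟨φ.symm x, hM2 ?_, by simp⟩
    exact ⟨x, hx, rfl⟩
  · intro L hL hSL
    have h1 := hM3 (φ.symm.mapSubgroup L) ⟨(OrderIso.isCoatom_iff φ.symm.mapSubgroup L).2 hL, by
      rintro _ ⟨x, hx, rfl⟩
      exact ⟨x, hSL hx, rfl⟩⟩
    rw [← h1]
    ext x
    constructor
    · intro hx
      exact ⟨φ.symm x, ⟨x, hx, rfl⟩, by simp⟩
    · rintro ⟨_, ⟨y, hy, rfl⟩, rfl⟩
      simpa using hy

end Cfsg.Agent.S2930
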