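import Cfsg.Statements.S2932
import Cfsg.Agent.H247.NatSL
import Cfsg.Agent.H247.EmbedEight

set_option autoImplicit false
set_option linter.style.haveILetI false
open Cfsg

namespace Cfsg.Agent.S2932

open Cfsg.Agent.H247.NatSL

section

variable {X : Type*} [Group X] {F : Type} [Field F] {V G L : Subgroup X}

/-- the action of `G` on the natural module -/
noncomputable def theta (hGV : G ≤ Subgroup.normalizer (V : Set X)) (ψ : Additive V ≃+ (Fin 2 → F)) :
    G →* A F where
  toFun g := AddEquiv.toIntLinearEquiv (ψ.symm.trans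
    ((MulEquiv.toAdditive (V.normalizerMonoidHom ⟨g.1, hGV g.2⟩)).trans ψ))
  map_one' := by
    apply LinearEquiv.ext
    intro u
    obtain ⟨v, rfl⟩ := ψ.surjective u
    change ψ (MulEquiv.toAdditive (V.normalizerMonoidHom 1) (ψ.symm (ψ v))) = ψ v
    rw [map_one, ψ.symm_apply_apply]
    rfl
  map_mul' g h := by
    apply LinearEquiv.ext
    intro u
    obtain ⟨v, rfl⟩ := ψ.surjective u
    change ψ (MulEquiv.toAdditive (V.normalizerMonoidHom (⟨g.1, hGV g.2⟩ * ⟨h.1, hGV h.2⟩)) (ψ.symm (ψ v))) =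
      ψ (MulEquiv.toAdditive (V.normalizerMonoidHom ⟨g.1, hGV g.2⟩) (ψ.symm
        (ψ (MulEquiv.toAdditive (V.normalizerMonoidHom ⟨h.1, hGV h.2⟩) (ψ.symm (ψ v))))))
    rw [map_mul, ψ.symm_apply_apply, ψ.symm_apply_apply]
    rfl

theorem theta_apply (hGV : G ≤ Subgroup.normalizer (V : Set X)) (ψ : Additive V ≃+ (Fin 2 → F)) (g : G)
    (v w : V) (h : (w : X) = (g : X) * (v : X) * (g : X)⁻¹) :
    theta hGV ψ g (ψ (Additive.ofMul v)) = ψ (Additive.ofMul w) := by
  change ψ (MulEquiv.toAdditive (V.normalizerMonoidHom ⟨g.1, hGV g.2⟩) (ψ.symm (ψ (Additive.ofMul v)))) = _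
  rw [ψ.symm_apply_apply]
  congr 1
  apply Subtype.ext
  exact h.symm

theorem theta_injective (hGV : G ≤ Subgroup.normalizer (V : Set X)) (ψ : Additive V ≃+ (Fin 2 → F))
    (hfaith : G ⊓ Subgroup.centralizer (V : Set X) = ⊥) : Function.Injective (theta hGV ψ) := by
  rw [injective_iff_map_eq_one]
  intro g hg
  have h1 : g.1 ∈ G ⊓ Subgroup.centralizer (V : Set X) := by
    refine Subgroup.mem_inf.2 ⟨g.2, ?_⟩
    rw [Subgroup.mem_centralizer_iff]
    intro v hv
    have h2 : g.1 * v * g.1⁻¹ ∈ V := (Subgroup.mem_normalizer_iff.1 (hGV g.2) v).1 hv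
    have h3 := theta_apply hGV ψ g ⟨v, hv⟩ ⟨_, h2⟩ rfl
    rw [hg] at h3
    have h4 : (⟨v, hv⟩ : V) = ⟨_, h2⟩ := ψ.injective h3
    have h5 : v = g.1 * v * g.1⁻¹ := congrArg Subtype.val h4
    conv_lhs => rw [h5]
    group
  rw [hfaith, Subgroup.mem_bot] at h1
  exact Subtype.ext h1

end

theorem main {X : Type*} [Group X] [Finite X] {p : ℕ} [Fact p.Prime] (F : Type) [Field F] [Finite F]
    [CharP F p] (V G L : Subgroup X) (hGV : G ≤ Subgroup.normalizer (V : Set X))
    (hfaith : G ⊓ Subgroup.centralizer (V : Set X) = ⊥) (hLG : L ≤ G)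
    (hnat : Cfsg.IsNaturalSL2Module F V L)
    (hSyl : ∀ S : Sylow p ↥(G ⊓ Subgroup.normalizer (L : Set X)), ∀ P : Sylow p ↥G,
      Nat.card S = Nat.card P) :
    (L.subgroupOf G).Normal ∨ (Nat.card F = 4 ∧ Nonempty (↥G ≃* ↥(alternatingGroup (Fin 7)))) := by
  obtain ⟨-, ρ, ψ, hρs, -, hρψ⟩ := hnat
  let θ := theta hGV ψ
  have hθ : Function.Injective θ := theta_injective hGV ψ hfaith
  -- `L` acts as `SL₂(F)`
  have hθL : ∀ l : L, θ ⟨l.1, hLG l.2⟩ = act F (ρ l) := by
    intro l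
    apply LinearEquiv.ext
    intro u
    obtain ⟨v, rfl⟩ := ψ.surjective u
    obtain ⟨w, hw1, hw2⟩ := hρψ l (Additive.toMul v)
    have h1 := theta_apply hGV ψ ⟨l.1, hLG l.2⟩ (Additive.toMul v) w hw1
    change θ _ (ψ v) = ψ (Additive.ofMul w) at h1
    rw [h1, hw2]
    rfl
  have hLmem : ∀ g : G, θ g ∈ SLs F ↔ g.1 ∈ L := by
    intro g
    constructor
    · rintro ⟨s, hs⟩
      obtain ⟨l, rfl⟩ := hρs s
      rw [← hθL] at hs
      have h1 := hθ hs
      rw [← h1]
      exact l.2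
    · intro hg
      exact ⟨ρ ⟨g.1, hg⟩, (hθL ⟨g.1, hg⟩).symm⟩
  have hSLrange : SLs F ≤ θ.range := by
    rintro _ ⟨s, rfl⟩
    obtain ⟨l, rfl⟩ := hρs s
    exact ⟨_, hθL l⟩
  -- the normalizer
  let N := G ⊓ Subgroup.normalizer (L : Set X)
  let ι : N →* A F := θ.comp (Subgroup.inclusion inf_le_left)
  have hι : Function.Injective ι := hθ.comp (Subgroup.inclusion_injective _)
  have hQp : IsPGroup p (Q F) := (Rt_isPGroup (W F)).to_le Q_le_Rt
  obtain ⟨S₁, hS₁⟩ := (hQp.comap_of_injective ι hι).exists_le_sylow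
  have hcard : Nat.card ((S₁ : Subgroup N).map ι) = Nat.card S₁ :=
    Nat.card_congr ((S₁ : Subgroup N).equivMapOfInjective ι hι).symm.toEquiv
  have H : Setup p θ.range ((S₁ : Subgroup N).map ι) :=
    { hL := hSLrange
      hSG := by
        rintro _ ⟨s, -, rfl⟩
        exact ⟨_, rfl⟩
      hSp := S₁.isPGroup'.map ι
      hmax := by
        intro T hT hTp
        obtain ⟨P, hP⟩ := (hTp.comap_of_injective θ hθ).exists_le_sylow
        have h1 : T = (T.comap θ).map θ := by
          rw [Subgroup.map_comap_eq_self hT]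
        rw [hcard, hSyl S₁ P, h1,
          Nat.card_congr ((T.comap θ).equivMapOfInjective θ hθ).symm.toEquiv]
        exact Nat.card_le_card_of_injective _ (Subgroup.inclusion_injective hP)
      hQS := by
        intro x hx
        obtain ⟨g, rfl⟩ := hSLrange (Q_le F hx)
        have hgL : g.1 ∈ L := (hLmem g).1 (Q_le F hx)
        have hgN : g.1 ∈ N := Subgroup.mem_inf.2 ⟨g.2, Subgroup.le_normalizer hgL⟩
        exact ⟨⟨g.1, hgN⟩, hS₁ hx, rfl⟩
      hSN := by
        rintro _ ⟨s, -, rfl⟩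
        have hs := (Subgroup.mem_inf.1 s.2).2
        have key : ∀ n : G, n.1 ∈ Subgroup.normalizer (L : Set X) → ∀ l ∈ SLs F, θ n * l * (θ n)⁻¹ ∈ SLs F := by
          intro n hn l hl
          obtain ⟨g, rfl⟩ := hSLrange hl
          rw [hLmem] at hl
          rw [← map_inv, ← map_mul, ← map_mul, hLmem]
          exact (Subgroup.mem_normalizer_iff.1 hn g.1).1 hl
        rw [Subgroup.mem_normalizer_iff]
        intro l
        refine ⟨fun hl => key _ hs l hl, fun hl => ?_⟩
        have h1 := key (Subgroup.inclusion inf_le_left s)⁻¹ (inv_mem hs) _ hl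
        rw [map_inv] at h1
        have h2 : (θ (Subgroup.inclusion inf_le_left s))⁻¹ * (ι s * l * (ι s)⁻¹) *
            (θ (Subgroup.inclusion inf_le_left s))⁻¹⁻¹ = l := by
          change (ι s)⁻¹ * (ι s * l * (ι s)⁻¹) * (ι s)⁻¹⁻¹ = l
          group
        rwa [h2] at h1 }
  have hnormal : θ.range ≤ Subgroup.normalizer (SLs F : Set (A F)) → (L.subgroupOf G).Normal := by
    intro h
    refine ⟨fun l hl g => ?_⟩
    rw [Subgroup.mem_subgroupOf] at hl ⊢
    rw [← hLmem] at hl ⊢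
    rw [map_mul, map_mul, map_inv]
    exact (Subgroup.mem_normalizer_iff.1 (h ⟨g, rfl⟩) _).1 hl
  by_cases h4 : Nat.card F = 4
  · have hp2 : p = 2 := by
      haveI := Fintype.ofFinite F
      obtain ⟨n, hp, hn⟩ := FiniteField.card F p
      rw [← Nat.card_eq_fintype_card, h4] at hn
      have h1 : p ∣ 2 ^ 2 := by
        rw [show (2 : ℕ) ^ 2 = 4 by norm_num, hn]
        exact dvd_pow_self p n.2.ne'
      exact (Nat.prime_dvd_prime_iff_eq hp Nat.prime_two).1 (hp.dvd_of_dvd_pow h1)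
    subst hp2
    rcases Cfsg.Agent.H247.EmbedEight.four h4 H with h | ⟨⟨e⟩⟩
    · exact Or.inl (hnormal h)
    · exact Or.inr ⟨h4, ⟨(MonoidHom.ofInjective hθ).trans e⟩⟩
  · exact Or.inl (hnormal (normalizes H h4))

/-- Let p be a prime. Inside a finite ambient group let V be an elementary abelian p-subgroup and G a subgroup normalizing V and acting faithfully on it (G ∩ C(V) = 1), and let L ≤ G act on V as SL₂(F) on its natural module, F a finite field of characteristic p, with L ≅ SL₂(F). If every Sylow p-subgroup of N_G(L) is a Sylow p-subgroup of G, then either L is normal in G, or F has 4 elements and G is isomorphic to the alternating group of degree 7. -/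
theorem result {X : Type*} [Group X] [Finite X] {p : ℕ} [Fact p.Prime] (F : Type) [Field F] [Fintype F] [CharP F p] (V G L : Subgroup X) (hV : Cfsg.IsElementaryAbelian p V) (hGV : G ≤ Subgroup.normalizer (V : Set X)) (hfaith : G ⊓ Subgroup.centralizer (V : Set X) = ⊥) (hLG : L ≤ G) (hnat : Cfsg.IsNaturalSL2Module F V L) (hLiso : Nonempty (↥L ≃* Matrix.SpecialLinearGroup (Fin 2) F)) (hSyl : ∀ S : Sylow p ↥(G ⊓ Subgroup.normalizer (L : Set X)), ∀ P : Sylow p ↥G, Nat.card S = Nat.card P) : (L.subgroupOf G).Normal ∨ (Fintype.card F = 4 ∧ Nonempty (↥G ≃* ↥(alternatingGroup (Fin 7)))) := by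
  rw [← Nat.card_eq_fintype_card]
  exact main F V G L hGV hfaith hLG hnat hSyl

end Cfsg.Agent.S2932
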