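import Cfsg.Statements.S2937
import Cfsg.Agent.H223.PMinChev
import Cfsg.Agent.SignalizersComponents.LayerBasic

set_option autoImplicit false
open Cfsg

namespace Cfsg.Agent.S2937

/-- Let X be a finite p-minimal group whose generalized Fitting subgroup K = F*(X) is a simple group of Lie type in characteristic p, and let U be a Sylow p-subgroup of K. Then N_X(U) is a maximal subgroup of X, and either K has Lie rank one (K ≅ PSL₂(pᵉ), PSU₃(pᵉ), a Suzuki group for p = 2, or a Ree group or PSL₂(8) for p = 3), or p = 2, K ≠ X and K is isomorphic to PSL₃(2ᵉ) or to PSp₄(2ᵉ) (e ≥ 2) or to the alternating group of degree 6. -/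
theorem result {X : Type*} [Group X] [Finite X] {p : ℕ} [Fact p.Prime] (hX : Cfsg.IsPMinimal p X) (hK : Cfsg.IsChevSimple p ↥(Cfsg.generalizedFittingSubgroup X)) (U : Sylow p ↥(Cfsg.generalizedFittingSubgroup X)) : IsCoatom (Subgroup.normalizer (((U : Subgroup ↥(Cfsg.generalizedFittingSubgroup X)).map (Cfsg.generalizedFittingSubgroup X).subtype : Subgroup X) : Set X)) ∧ (Cfsg.IsLieRankOneChar p ↥(Cfsg.generalizedFittingSubgroup X) ∨ (p = 2 ∧ Cfsg.generalizedFittingSubgroup X ≠ ⊤ ∧ ((∃ (F : Type) (_ : Field F) (_ : Fintype F) (_ : CharP F 2), Nonempty (↥(Cfsg.generalizedFittingSubgroup X) ≃* Matrix.ProjectiveSpecialLinearGroup (Fin 3) F)) ∨ (∃ (F : Type) (_ : Field F) (_ : Fintype F) (_ : CharP F 2), 4 ≤ Fintype.card F ∧ Nonempty (↥(Cfsg.generalizedFittingSubgroup X) ≃* Cfsg.PSp 2 F)) ∨ Nonempty (↥(Cfsg.generalizedFittingSubgroup X) ≃* ↥(alternatingGroup (Fin 6)))))) := by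
  exact Cfsg.Agent.H223.PMinGood.PGood.final
    (Cfsg.Agent.SignalizersComponents.LayerBasic.generalizedFittingSubgroup_normal X)
    (Cfsg.Agent.H223.PMinChev.pgood_chev Fact.out hK) hX U

end Cfsg.Agent.S2937
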