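import Cfsg.Statements.S2939
import Cfsg.Agent.H555.SylChain

set_option autoImplicit false
open Cfsg

namespace Cfsg.Agent.S2939

/-- Let p be a prime dividing the order of the finite group G and 𝓕 a family of subgroups of G closed under conjugation, with conjugates taken as X^g = g⁻¹Xg. Then 𝓕 controls Sylow p-intersections in G (any two distinct Sylow p-subgroups S and T with S ∩ T ≠ 1 are joined by a chain S = S₀, S₁, …, Sₙ = T of Sylow p-subgroups where, for each i, some member Xᵢ of 𝓕 meets both S_{i-1} and Sᵢ in Sylow p-subgroups of Xᵢ, satisfies S ∩ T ≤ Sᵢ ∩ Xᵢ, and contains an element xᵢ with Sᵢ^{xᵢ} = S_{i-1}) if and only if 𝓕 strongly controls p-fusion in G (whenever A is a subset of a Sylow p-subgroup S, A contains an element other than 1, and A^g ⊆ S, the element g factorises as g = y₁⋯yₙy with y ∈ N_G(S) and each yᵢ in a member Yᵢ of 𝓕 that meets S in a Sylow p-subgroup of Yᵢ, with A^{y₁⋯yᵢ} ⊆ S ∩ Yᵢ for each i). -/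
theorem result {G : Type*} [Group G] [Finite G] {p : ℕ} [Fact p.Prime] (hdiv : p ∣ Nat.card G) (𝓕 : Set (Subgroup G)) (h𝓕 : Cfsg.IsNormalSet 𝓕) : Cfsg.ControlsSylowIntersections p 𝓕 ↔ Cfsg.FamilyStronglyControlsFusion p 𝓕 := by
  exact ⟨Cfsg.Agent.H555.SylChain.strong_of_controls h𝓕, Cfsg.Agent.H555.SylChain.controls_of_strong h𝓕⟩

end Cfsg.Agent.S2939
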