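import Cfsg.Statements.S2940
import Cfsg.Agent.H555.CharP

set_option autoImplicit false
open Cfsg

namespace Cfsg.Agent.S2940

/-- Let S be a Sylow p-subgroup of the finite group G and G₁, G₂ subgroups containing S with G = G₁G₂. Then for every g ∈ G there is a Sylow p-subgroup U of G with S ∩ S^g ≤ U ≤ G₁ ∩ G₂^g (conjugates taken as X^g = g⁻¹Xg). -/
theorem result {G : Type*} [Group G] [Finite G] {p : ℕ} [Fact p.Prime] (S : Sylow p G) (G₁ G₂ : Subgroup G) (h1 : (S : Subgroup G) ≤ G₁) (h2 : (S : Subgroup G) ≤ G₂) (hfact : ∀ g : G, ∃ g₁ ∈ G₁, ∃ g₂ ∈ G₂, g = g₁ * g₂) (g : G) : ∃ U : Sylow p G, (S : Subgroup G) ⊓ Cfsg.subgroupConjRight g (S : Subgroup G) ≤ (U : Subgroup G) ∧ (U : Subgroup G) ≤ G₁ ⊓ Cfsg.subgroupConjRight g G₂ := by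
  exact Cfsg.Agent.H555.CharP.exists_sylow_inf S G₁ G₂ h1 h2 hfact g

end Cfsg.Agent.S2940
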