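import Cfsg.Statements.S2955
import Cfsg.Agent.H251.JBasic

set_option autoImplicit false
open Cfsg

namespace Cfsg.Agent.S2955

open Subgroup Cfsg.Agent.H251

variable {G : Type*} [Group G]

theorem conjRight_eq (g : G) (X : Subgroup G) : subgroupConjRight g X = cj g⁻¹ X := rfl

/-- `𝓕(T)^g ⊆ 𝓕(T^g)`. -/
theorem cj_mem_sylowMembers [Finite G] {p : ℕ} [Fact p.Prime] {𝓕 : Set (Subgroup G)}
    (h𝓕 : Cfsg.IsNormalSet 𝓕) {T X : Subgroup G} (g : G) (hX : X ∈ sylowMembers p 𝓕 T) :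
    cj g X ∈ sylowMembers p 𝓕 (cj g T) := by
  obtain ⟨h1, P, hP⟩ := hX
  refine ⟨?_, ?_⟩
  · have := h𝓕 X h1 g⁻¹
    rwa [conjRight_eq, inv_inv] at this
  · let e : X ≃* cj g X := (MulAut.conj g).subgroupMap X
    refine ⟨P.mapSurjective (f := e.toMonoidHom) e.surjective, ?_⟩
    rw [← cj_inf, ← hP]
    ext y
    constructor
    · rintro ⟨⟨y', hy'⟩, ⟨z, hz, hzy⟩, rfl⟩
      refine ⟨(z : G), ⟨z, hz, rfl⟩, ?_⟩
      exact congrArg Subtype.val hzy
    · rintro ⟨_, ⟨z, hz, rfl⟩, rfl⟩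
      exact ⟨e z, ⟨z, hz, rfl⟩, rfl⟩

/-- The subgroup generated by `𝓕(T)` and `N_G(T)`. -/
def gen (p : ℕ) (𝓕 : Set (Subgroup G)) (T : Subgroup G) : Subgroup G :=
  (⨆ X ∈ sylowMembers p 𝓕 T, X) ⊔ normalizer (T : Set G)

theorem le_gen {p : ℕ} {𝓕 : Set (Subgroup G)} {T X : Subgroup G}
    (hX : X ∈ sylowMembers p 𝓕 T) : X ≤ gen p 𝓕 T :=
  le_sup_of_le_left (le_iSup₂_of_le X hX le_rfl)

theorem cj_gen_le [Finite G] {p : ℕ} [Fact p.Prime] {𝓕 : Set (Subgroup G)}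
    (h𝓕 : Cfsg.IsNormalSet 𝓕) (g : G) (T : Subgroup G) : cj g (gen p 𝓕 T) ≤ gen p 𝓕 (cj g T) := by
  rw [cj_le_iff]
  refine sup_le (iSup₂_le fun X hX => ?_) ?_
  · rw [← cj_le_iff]
    exact le_gen (cj_mem_sylowMembers h𝓕 g hX)
  · rw [← cj_le_iff, cj_normalizer]
    exact le_sup_right

theorem cj_gen [Finite G] {p : ℕ} [Fact p.Prime] {𝓕 : Set (Subgroup G)}
    (h𝓕 : Cfsg.IsNormalSet 𝓕) (g : G) (T : Subgroup G) : cj g (gen p 𝓕 T) = gen p 𝓕 (cj g T) := by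
  refine le_antisymm (cj_gen_le h𝓕 g T) ?_
  have h1 := cj_gen_le (p := p) h𝓕 g⁻¹ (cj g T)
  rw [cj_inv_cj, cj_le_iff, inv_inv] at h1
  exact h1

/-- The relation: `T` is conjugate to `S` in `gen S`, and `gen T = gen S`. -/
def Rel (p : ℕ) (𝓕 : Set (Subgroup G)) (S T : Subgroup G) : Prop :=
  gen p 𝓕 T = gen p 𝓕 S ∧ ∃ h ∈ gen p 𝓕 S, cj h T = S

theorem Rel.refl (p : ℕ) (𝓕 : Set (Subgroup G)) (S : Subgroup G) : Rel p 𝓕 S S :=
  ⟨rfl, 1, one_mem _, cj_one S⟩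

theorem Rel.trans {p : ℕ} {𝓕 : Set (Subgroup G)} {S T U : Subgroup G} (h1 : Rel p 𝓕 S T)
    (h2 : Rel p 𝓕 T U) : Rel p 𝓕 S U := by
  obtain ⟨h3, a, ha, hab⟩ := h1
  obtain ⟨h4, b, hb, hbc⟩ := h2
  refine ⟨h4.trans h3, a * b, mul_mem ha (by rwa [h3] at hb), ?_⟩
  rw [cj_mul, hbc, hab]

/-- A chain of related subgroups. -/
theorem Rel.chain {p : ℕ} {𝓕 : Set (Subgroup G)} {n : ℕ} (c : Fin (n + 1) → Subgroup G)
    (h : ∀ i : Fin n, Rel p 𝓕 (c i.castSucc) (c i.succ)) : ∀ i : Fin (n + 1), Rel p 𝓕 (c 0) (c i) := by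
  intro i
  induction i using Fin.induction with
  | zero => exact Rel.refl _ _ _
  | succ i ih => exact ih.trans (h i)

/-- One step. -/
theorem Rel.of_step [Finite G] {p : ℕ} [Fact p.Prime] {𝓕 : Set (Subgroup G)}
    (h𝓕 : Cfsg.IsNormalSet 𝓕) {S T X : Subgroup G} (h1 : X ∈ sylowMembers p 𝓕 S) {x : G}
    (hx : x ∈ X) (hxT : subgroupConjRight x T = S) : Rel p 𝓕 S T := by
  rw [conjRight_eq] at hxT
  have h2 : x ∈ gen p 𝓕 S := le_gen h1 hx
  refine ⟨?_, x⁻¹, inv_mem h2, hxT⟩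
  have h3 := cj_gen (p := p) h𝓕 x S
  rw [cj_self_of_mem h2] at h3
  rw [h3, ← hxT, cj_cj_inv]

theorem Rel.of_inf_ne_bot [Finite G] {p : ℕ} [Fact p.Prime] {𝓕 : Set (Subgroup G)}
    (h𝓕 : Cfsg.IsNormalSet 𝓕) (hc : Cfsg.ControlsSylowIntersections p 𝓕) {S T : Sylow p G}
    (hST : S ≠ T) (h1 : (S : Subgroup G) ⊓ (T : Subgroup G) ≠ ⊥) :
    Rel p 𝓕 (S : Subgroup G) (T : Subgroup G) := by
  obtain ⟨n, c, X, x, h0, hn, h⟩ := hc S T hST h1
  have := Rel.chain (p := p) (𝓕 := 𝓕) (fun i => (c i : Subgroup G)) (fun i =>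
    Rel.of_step h𝓕 (h i).1 (h i).2.2.1 (h i).2.2.2.1) (Fin.last n)
  simp only [h0, hn] at this
  exact this


/-- Let p be a prime dividing the order of the finite group G and 𝓕 a conjugation-closed family of subgroups that controls Sylow p-intersections in G. Suppose the Sylow p-subgroups of G are chain-connected: any two of them are joined by a chain of Sylow p-subgroups, consecutive ones distinct with nontrivial intersection, all containing the intersection of the two ends (equivalently, the graph on the Sylow p-subgroups whose edges are the distinct pairs meeting nontrivially is connected). Then for every Sylow p-subgroup S, G is generated by N_G(S) together with the members of 𝓕 that meet S in a Sylow p-subgroup of themselves. -/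
theorem result {G : Type*} [Group G] [Finite G] (p : ℕ) [Fact p.Prime] (hdiv : p ∣ Nat.card G)
    (𝓕 : Set (Subgroup G)) (h𝓕 : Cfsg.IsNormalSet 𝓕) (hc : Cfsg.ControlsSylowIntersections p 𝓕)
    (hconn : Cfsg.IsSylowChainConnected p G) (S : Sylow p G) :
    (⨆ X ∈ Cfsg.sylowMembers p 𝓕 (S : Subgroup G), X) ⊔ Subgroup.normalizer ((S : Subgroup G) : Set G) = ⊤ := by
  have key : ∀ T : Sylow p G, Rel p 𝓕 (S : Subgroup G) (T : Subgroup G) := by
    intro T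
    obtain ⟨n, c, h0, hn, -, h⟩ := hconn S T
    have := Rel.chain (p := p) (𝓕 := 𝓕) (fun i => (c i : Subgroup G)) (fun i =>
      Rel.of_inf_ne_bot h𝓕 hc (h i).1 (h i).2) (Fin.last n)
    simp only [h0, hn] at this
    exact this
  rw [eq_top_iff]
  intro g _
  show g ∈ gen p 𝓕 (S : Subgroup G)
  obtain ⟨-, h, hh, hhT⟩ := key (g • S)
  have h1 : ((g • S : Sylow p G) : Subgroup G) = cj g (S : Subgroup G) := rfl
  rw [h1, ← cj_mul, cj_eq_self_iff] at hhT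
  have h2 : h * g ∈ gen p 𝓕 (S : Subgroup G) := (le_sup_right : _ ≤ gen p 𝓕 (S : Subgroup G)) hhT
  have h3 := mul_mem (inv_mem hh) h2
  rwa [inv_mul_cancel_left] at h3

end Cfsg.Agent.S2955
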