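import Cfsg.Statements.S2956
import Cfsg.Agent.H555.SylChainThree

set_option autoImplicit false
open Cfsg

namespace Cfsg.Agent.S2956

/-- Let p be a prime dividing the order of the finite group G, and f an assignment to every p-subgroup P of a set f(P) of subgroups of P, each normalized by N_G(P), compatible with conjugation, such that for P ≠ 1 the members of f(P) are nontrivial. Let 𝓕 be the family of the normalizers N_G(F) of the members F of f(S) over the Sylow p-subgroups S of G, and 𝓕' the family of the maximal p-local subgroups M of G that are singular for f (the corresponding family of normalizers inside M does not control Sylow p-intersections in M). Then 𝓕 ∪ 𝓕' controls Sylow p-intersections in G. -/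
theorem result {G : Type*} [Group G] [Finite G] (p : ℕ) [Fact p.Prime] (hdiv : p ∣ Nat.card G)
    (f : Subgroup G → Set (Subgroup G)) (hf : Cfsg.IsNormalizerFunctor p f)
    (hf1 : ∀ P : Subgroup G, IsPGroup p ↥P → P ≠ ⊥ → ∀ F ∈ f P, F ≠ ⊥)
    (𝓕 𝓕' : Set (Subgroup G)) (h𝓕 : 𝓕 = Cfsg.functorFamily p f ⊤)
    (h𝓕' : 𝓕' = {M | Cfsg.IsMaximalPLocal p M ∧ ¬ Cfsg.IsFunctorRegular p f M}) :
    Cfsg.ControlsSylowIntersections p (𝓕 ∪ 𝓕') := by
  subst h𝓕 h𝓕'
  exact Cfsg.Agent.H555.SylChain.controls_main hf hf1 Set.subset_union_left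
    (fun M h1 h2 => Or.inr ⟨h1, h2⟩)

end Cfsg.Agent.S2956
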