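import Cfsg.Statements.S2958
import Cfsg.Agent.H555.CharP

set_option autoImplicit false
open Cfsg

namespace Cfsg.Agent.S2958

/-- Let X, A, B be subgroups of a group G such that G is generated by the conjugates of X and every conjugate of X is contained in A or in B. Then A = G or B = G. -/
theorem result {G : Type*} [Group G] (X A B : Subgroup G) (hgen : (⨆ g : G, X.map (MulAut.conj g).toMonoidHom) = ⊤) (hcover : ∀ g : G, X.map (MulAut.conj g).toMonoidHom ≤ A ∨ X.map (MulAut.conj g).toMonoidHom ≤ B) : A = ⊤ ∨ B = ⊤ := by
  exact Cfsg.Agent.H555.CharP.twoCover X A B hgen hcover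

end Cfsg.Agent.S2958
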