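import Cfsg.Statements.S2962
import Cfsg.Agent.H254.ZStarElt
import Cfsg.Agent.S0205

set_option autoImplicit false
open Cfsg Subgroup
open scoped Pointwise commutatorElement

namespace Cfsg.Agent.S2962

/-- Under the hypotheses of the statement `t` commutes with no other conjugate. -/
theorem isolated {G : Type*} [Group G] (N Q : Subgroup G) [N.Normal] (hG : Q ⊔ N = ⊤)
    (hdisj : Q ⊓ N = ⊥) (t : G) (htZ : t ∈ Q ⊓ Subgroup.centralizer (Q : Set G)) (htQ : t ∈ ⁅Q, Q⁆)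
    (hC : ∀ n ∈ N, n * t = t * n → ∀ q ∈ Q, n * q = q * n) (g : G)
    (hg : Commute (g * t * g⁻¹) t) : g * t * g⁻¹ = t := by
  have hdec : ∀ x : G, ∃ q ∈ Q, ∃ n ∈ N, x = q * n := by
    intro x
    have hx : x ∈ ((Q : Set G) * (N : Set G)) := by
      rw [← Subgroup.mul_normal, hG]; trivial
    obtain ⟨q, hq, n, hn, h⟩ := Set.mem_mul.1 hx
    exact ⟨q, hq, n, hn, h.symm⟩
  have htq : ∀ q ∈ Q, q * t = t * q := fun q hq => mem_centralizer_iff.1 htZ.2 q hq
  set y := g * t * g⁻¹ with hy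
  -- `s = t⁻¹ y ∈ N`
  have hsN : t⁻¹ * y ∈ N := by
    obtain ⟨q, hq, n, hn, rfl⟩ := hdec g
    have h1 : t⁻¹ * y = q * ((t⁻¹ * n * t) * n⁻¹) * q⁻¹ := by
      have h2 : q * t⁻¹ = t⁻¹ * q := by
        have := htq q hq
        calc q * t⁻¹ = t⁻¹ * (t * q) * t⁻¹ := by group
          _ = t⁻¹ * (q * t) * t⁻¹ := by rw [this]
          _ = _ := by group
      have h3 : t * q⁻¹ = q⁻¹ * t := by
        have := htq q hq
        calc t * q⁻¹ = q⁻¹ * (q * t) * q⁻¹ := by group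
          _ = q⁻¹ * (t * q) * q⁻¹ := by rw [this]
          _ = _ := by group
      calc t⁻¹ * y = t⁻¹ * q * (n * t * n⁻¹) * q⁻¹ := by rw [hy]; group
        _ = q * t⁻¹ * (n * t * n⁻¹) * q⁻¹ := by rw [h2]
        _ = _ := by group
    rw [h1]
    apply Normal.conj_mem inferInstance
    apply N.mul_mem _ (N.inv_mem hn)
    have := Normal.conj_mem (inferInstance : N.Normal) n hn t⁻¹
    simpa using this
  set s := t⁻¹ * y with hs
  have hst : s * t = t * s := by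
    have h1 : y * t = t * y := hg
    calc s * t = t⁻¹ * (y * t) := by rw [hs]; group
      _ = t⁻¹ * (t * y) := by rw [h1]
      _ = t * s := by rw [hs]; group
  have hsQ : ∀ q ∈ Q, s * q = q * s := hC s hsN hst
  -- the conjugate statement
  have hCg : ∀ n ∈ N, n * y = y * n → ∀ q ∈ Q, n * (g * q * g⁻¹) = (g * q * g⁻¹) * n := by
    intro n hn hny q hq
    have h1 : g⁻¹ * n * g ∈ N := by
      have := Normal.conj_mem (inferInstance : N.Normal) n hn g⁻¹
      simpa using this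
    have h2 : (g⁻¹ * n * g) * t = t * (g⁻¹ * n * g) := by
      calc (g⁻¹ * n * g) * t = g⁻¹ * (n * y) * g := by rw [hy]; group
        _ = g⁻¹ * (y * n) * g := by rw [hny]
        _ = _ := by rw [hy]; group
    have h3 := hC _ h1 h2 q hq
    calc n * (g * q * g⁻¹) = g * ((g⁻¹ * n * g) * q) * g⁻¹ := by group
      _ = g * (q * (g⁻¹ * n * g)) * g⁻¹ := by rw [h3]
      _ = _ := by group
  have hsy : s * y = y * s := by
    have h1 : y * t = t * y := hg
    calc s * y = t⁻¹ * y * y := by rw [hs]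
      _ = t⁻¹ * (y * t) * t⁻¹ * y := by group
      _ = t⁻¹ * (t * y) * t⁻¹ * y := by rw [h1]
      _ = y * s := by rw [hs]; group
  have hsQg := hCg s hsN hsy
  -- `Q` and its conjugate centralise `t` and `y`
  have hyQ : ∀ q ∈ Q, q * y = y * q := by
    intro q hq
    have e : y = t * s := by rw [hs]; group
    have c : Commute q (t * s) := Commute.mul_right (htq q hq) (hsQ q hq).symm
    rw [← e] at c
    exact c
  have hyQg : ∀ q ∈ Q, (g * q * g⁻¹) * y = y * (g * q * g⁻¹) := by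
    intro q hq
    calc (g * q * g⁻¹) * y = g * (q * t) * g⁻¹ := by rw [hy]; group
      _ = g * (t * q) * g⁻¹ := by rw [htq q hq]
      _ = _ := by rw [hy]; group
  have htQg : ∀ q ∈ Q, (g * q * g⁻¹) * t = t * (g * q * g⁻¹) := by
    intro q hq
    have e : y * s⁻¹ = t := by
      have h1 : y * t = t * y := hg
      calc y * s⁻¹ = y * (y⁻¹ * t) := by rw [hs]; group
        _ = t := by group
    have h1 : Commute s (g * q * g⁻¹) := hsQg q hq
    have c : Commute (g * q * g⁻¹) (y * s⁻¹) := Commute.mul_right (hyQg q hq) h1.symm.inv_right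
    rw [e] at c
    exact c
  -- the decomposition of the elements of the conjugate
  have key : ∀ q ∈ Q, ∃ a ∈ Q, ∃ n ∈ N, g * q * g⁻¹ = a * n ∧ (∀ b ∈ Q, n * b = b * n) ∧
      (∀ b ∈ Q, n * (g * b * g⁻¹) = (g * b * g⁻¹) * n) := by
    intro q hq
    obtain ⟨a, ha, n, hn, han⟩ := hdec (g * q * g⁻¹)
    have en : n = a⁻¹ * (g * q * g⁻¹) := by rw [han]; group
    have h1 : n * t = t * n := by
      have h2 : a⁻¹ * t = t * a⁻¹ := htq a⁻¹ (Q.inv_mem ha)
      rw [en, mul_assoc, htQg q hq, ← mul_assoc, h2, mul_assoc]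
    have h2 : n * y = y * n := by
      have h3 : a⁻¹ * y = y * a⁻¹ := hyQ a⁻¹ (Q.inv_mem ha)
      rw [en, mul_assoc, hyQg q hq, ← mul_assoc, h3, mul_assoc]
    exact ⟨a, ha, n, hn, han, hC n hn h1, hCg n hn h2⟩
  -- the derived subgroup of the conjugate lies in `Q`
  have hder : ∀ x ∈ ⁅Q, Q⁆, g * x * g⁻¹ ∈ Q := by
    have hle : ⁅Q, Q⁆ ≤ Q.comap (MulAut.conj g).toMonoidHom := by
      rw [commutator_le]
      intro q₁ hq₁ q₂ hq₂
      obtain ⟨a₁, ha₁, n₁, hn₁, h₁, hc₁, hd₁⟩ := key q₁ hq₁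
      obtain ⟨a₂, ha₂, n₂, hn₂, h₂, hc₂, hd₂⟩ := key q₂ hq₂
      have h12 : n₁ * n₂ = n₂ * n₁ := by
        have e2 : n₂ = a₂⁻¹ * (g * q₂ * g⁻¹) := by rw [h₂]; group
        have e3 := hc₁ _ (Q.inv_mem ha₂)
        have e4 := hd₁ q₂ hq₂
        calc n₁ * n₂ = n₁ * a₂⁻¹ * (g * q₂ * g⁻¹) := by rw [e2]; group
          _ = a₂⁻¹ * (n₁ * (g * q₂ * g⁻¹)) := by rw [e3]; group
          _ = n₂ * n₁ := by rw [e4, e2]; group
      have h3 : g * ⁅q₁, q₂⁆ * g⁻¹ = ⁅a₁, a₂⁆ := by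
        have e3 : g * ⁅q₁, q₂⁆ * g⁻¹ = ⁅g * q₁ * g⁻¹, g * q₂ * g⁻¹⁆ := by
          simp only [commutatorElement_def]; group
        rw [e3, h₁, h₂]
        have c1 : Commute n₁ a₁ := hc₁ a₁ ha₁
        have c2 : Commute n₁ a₂ := hc₁ a₂ ha₂
        have c3 : Commute n₂ a₁ := hc₂ a₁ ha₁
        have c4 : Commute n₂ a₂ := hc₂ a₂ ha₂
        have c5 : Commute n₁ n₂ := h12
        simp only [commutatorElement_def, mul_inv_rev]
        calc a₁ * n₁ * (a₂ * n₂) * (n₁⁻¹ * a₁⁻¹) * (n₂⁻¹ * a₂⁻¹)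
            = a₁ * (n₁ * a₂) * n₂ * n₁⁻¹ * a₁⁻¹ * n₂⁻¹ * a₂⁻¹ := by group
          _ = a₁ * a₂ * (n₁ * n₂) * n₁⁻¹ * a₁⁻¹ * n₂⁻¹ * a₂⁻¹ := by rw [c2.eq]; group
          _ = a₁ * a₂ * (n₂ * a₁⁻¹) * n₂⁻¹ * a₂⁻¹ := by rw [c5.eq]; group
          _ = a₁ * a₂ * a₁⁻¹ * a₂⁻¹ := by rw [(c3.inv_right).eq]; group
      have h4 : (MulAut.conj g).toMonoidHom ⁅q₁, q₂⁆ = g * ⁅q₁, q₂⁆ * g⁻¹ := rfl
      rw [mem_comap, h4, h3]
      exact Q.mul_mem (Q.mul_mem (Q.mul_mem ha₁ ha₂) (Q.inv_mem ha₁)) (Q.inv_mem ha₂)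
    intro x hx
    exact hle hx
  have hyQ' : y ∈ Q := hder t htQ
  have h1 : s ∈ Q ⊓ N := ⟨Q.mul_mem (Q.inv_mem htZ.1) hyQ', hsN⟩
  rw [hdisj, mem_bot] at h1
  have e : y = t * s := by rw [hs]; group
  rw [e, h1, mul_one]

/-- Let G be a finite group with G = QN, where N is a normal subgroup of G and Q is a non-abelian 2-subgroup with Q ∩ N = 1. Suppose that some nontrivial element t of Z(Q) ∩ [Q, Q] satisfies C_N(Q) = C_N(t). Then [N, Q] is solvable of odd order. -/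
theorem result {G : Type*} [Group G] [Finite G] (N Q : Subgroup G) [N.Normal] (hG : Q ⊔ N = ⊤) (hQ : IsPGroup 2 ↥Q) (hQna : ¬ IsMulCommutative ↥Q) (hdisj : Q ⊓ N = ⊥) (t : G) (ht1 : t ≠ 1) (htZ : t ∈ Q ⊓ Subgroup.centralizer (Q : Set G)) (htQ : t ∈ ⁅Q, Q⁆) (hC : N ⊓ Subgroup.centralizer (Q : Set G) = N ⊓ Subgroup.centralizer ({t} : Set G)) : Group.IsSolvable ↥⁅N, Q⁆ ∧ Odd (Nat.card ↥⁅N, Q⁆) := by
  have h2 : Fact (Nat.Prime 2) := ⟨Nat.prime_two⟩
  have hC' : ∀ n ∈ N, n * t = t * n → ∀ q ∈ Q, n * q = q * n := by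
    intro n hn hnt q hq
    have h1 : n ∈ N ⊓ centralizer (Q : Set G) := by
      rw [hC]; exact ⟨hn, mem_centralizer_singleton_iff.2 hnt⟩
    exact (mem_centralizer_iff.1 h1.2 q hq).symm
  have hiso := isolated N Q hG hdisj t htZ htQ hC'
  have htp : IsPGroup 2 (zpowers t) := hQ.to_le (zpowers_le.2 htZ.1)
  have hz := H254.ZStarElt.zstar_of_isolated htp hiso
  set K := pPrimeCore 2 G with hK
  have hKn : K.Normal := Lib.Cores.pPrimeCore_normal 2
  have hKodd : Odd (Nat.card K) := Nat.coprime_two_right.1 (Lib.Cores.pPrimeCore_coprime (G := G) 2)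
  -- `K ≤ N`
  have hKN : K ≤ N := by
    intro k hk
    have hx : k ∈ ((Q : Set G) * (N : Set G)) := by
      rw [← Subgroup.mul_normal, hG]; trivial
    obtain ⟨q, hq, n, hn, h⟩ := Set.mem_mul.1 hx
    have h' : q * n = k := h
    -- `q` is trivial mod `N`
    have h3 : QuotientGroup.mk' N k = QuotientGroup.mk' N q := by
      rw [← h', map_mul, (QuotientGroup.eq_one_iff n).2 hn |> (fun e => (e : QuotientGroup.mk' N n = 1)), mul_one]
    have h4 : orderOf (QuotientGroup.mk' N k) ∣ Nat.card K := by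
      have h5 : orderOf (QuotientGroup.mk' N k) ∣ orderOf k := orderOf_map_dvd _ k
      exact h5.trans (by
        have := orderOf_dvd_natCard (⟨k, hk⟩ : K)
        rwa [Subgroup.orderOf_mk] at this)
    have h6 : ∃ m, orderOf (QuotientGroup.mk' N k) ∣ 2 ^ m := by
      obtain ⟨m, hm⟩ := hQ ⟨q, hq⟩
      refine ⟨m, ?_⟩
      rw [h3]
      apply orderOf_dvd_of_pow_eq_one
      have h7 : q ^ 2 ^ m = 1 := congrArg Subtype.val hm
      rw [← map_pow, h7, map_one]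
    obtain ⟨m, hm⟩ := h6
    have h8 : orderOf (QuotientGroup.mk' N k) = 1 :=
      Nat.eq_one_of_dvd_coprimes (Nat.Coprime.pow_left m (Nat.coprime_two_left.mpr hKodd)) hm h4
    rw [orderOf_eq_one_iff] at h8
    exact (QuotientGroup.eq_one_iff k).1 h8
  -- `N = K C_N(t)`
  have hfac : ∀ n ∈ N, ∃ k ∈ K, ∀ q ∈ Q, (k * n) * q = q * (k * n) := by
    intro n hn
    set H : Subgroup G := zpowers t ⊔ K with hH
    -- a Sylow 2-subgroup of `H`
    have hTH : zpowers t ≤ H := le_sup_left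
    have hnt : n * t * n⁻¹ ∈ H := by
      have h1 := hz n
      have : n * t * n⁻¹ = (n * t * n⁻¹ * t⁻¹) * t := by group
      rw [this]
      exact H.mul_mem (le_sup_right (a := zpowers t) h1) (hTH (mem_zpowers t))
    obtain ⟨P, hP⟩ := (hQ.to_le (zpowers_le.2 htZ.1) : IsPGroup 2 (zpowers t)).exists_le_sylow
    -- Sylow in `H`
    have hTp : IsPGroup 2 ((zpowers t).subgroupOf H) := htp.of_equiv (Subgroup.subgroupOfEquivOfLe hTH).symm
    have hHdec : ∀ x ∈ H, ∃ a ∈ zpowers t, ∃ b ∈ K, a * b = x := by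
      intro x hx
      have hx' : x ∈ (((zpowers t : Subgroup G) : Set G) * (K : Set G)) := by
        rw [← Subgroup.mul_normal]; exact hx
      obtain ⟨a, ha, b, hb, h⟩ := Set.mem_mul.1 hx'
      exact ⟨a, ha, b, hb, h⟩
    have hmax : ∀ R : Subgroup H, IsPGroup 2 R → (zpowers t).subgroupOf H ≤ R → R = (zpowers t).subgroupOf H := by
      intro R hR hle
      apply le_antisymm _ hle
      intro x hx
      obtain ⟨a, ha, b, hb, hab⟩ := hHdec x x.2
      have hbH : b ∈ H := le_sup_right (a := zpowers t) hb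
      have haH : a ∈ H := hTH ha
      have hbR : (⟨b, hbH⟩ : H) ∈ R := by
        have e : (⟨b, hbH⟩ : H) = (⟨a, haH⟩ : H)⁻¹ * x := by
          apply Subtype.ext
          show b = a⁻¹ * x
          rw [← hab]; group
        rw [e]
        exact R.mul_mem (R.inv_mem (hle ha)) hx
      have hb1 : b = 1 := by
        obtain ⟨m, hm⟩ := hR ⟨_, hbR⟩
        have h7 : b ^ 2 ^ m = 1 := congrArg (fun z : R => ((z : H) : G)) hm
        have h8 : orderOf b ∣ 2 ^ m := orderOf_dvd_of_pow_eq_one h7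
        have h9 : orderOf b ∣ Nat.card K := by
          have := orderOf_dvd_natCard (⟨b, hb⟩ : K)
          rwa [Subgroup.orderOf_mk] at this
        have h10 : orderOf b = 1 :=
          Nat.eq_one_of_dvd_coprimes (Nat.Coprime.pow_left m (Nat.coprime_two_left.mpr hKodd)) h8 h9
        rwa [orderOf_eq_one_iff] at h10
      rw [hb1, mul_one] at hab
      show (x : G) ∈ zpowers t
      rw [← hab]; exact ha
    let T : Sylow 2 H :=
      { toSubgroup := (zpowers t).subgroupOf H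
        isPGroup' := hTp
        is_maximal' := fun {R} hR hle => hmax R hR hle }
    have h3 : IsPGroup 2 (zpowers (⟨n * t * n⁻¹, hnt⟩ : H)) := by
      have h4 : IsPGroup 2 (zpowers (n * t * n⁻¹)) := by
        have h2 : (zpowers t).map (MulAut.conj n).toMonoidHom = zpowers (n * t * n⁻¹) := by
          rw [MonoidHom.map_zpowers]; rfl
        rw [← h2]
        exact htp.map _
      have h2 : (zpowers (⟨n * t * n⁻¹, hnt⟩ : H)).map H.subtype = zpowers (n * t * n⁻¹) := by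
        rw [MonoidHom.map_zpowers]; rfl
      have h3 : IsPGroup 2 ((zpowers (⟨n * t * n⁻¹, hnt⟩ : H)).map H.subtype) := by rw [h2]; exact h4
      exact h3.of_equiv ((zpowers (⟨n * t * n⁻¹, hnt⟩ : H)).equivMapOfInjective H.subtype
        H.subtype_injective).symm
    obtain ⟨R, hR⟩ := h3.exists_le_sylow
    obtain ⟨c, hc⟩ := MulAction.exists_smul_eq H R T
    have h4 : c * (⟨n * t * n⁻¹, hnt⟩ : H) * c⁻¹ ∈ T := by
      rw [← hc]
      exact (Subgroup.mem_smul_pointwise_iff_exists _ _ _).2 ⟨_, hR (mem_zpowers _), rfl⟩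
    have h5 : (c : G) * (n * t * n⁻¹) * (c : G)⁻¹ ∈ zpowers t := h4
    obtain ⟨a, ha, b, hb, hab⟩ := hHdec c c.2
    -- `b n` normalises `⟨t⟩`
    have h6 : b * (n * t * n⁻¹) * b⁻¹ ∈ zpowers t := by
      have e : b * (n * t * n⁻¹) * b⁻¹ = a⁻¹ * ((c : G) * (n * t * n⁻¹) * (c : G)⁻¹) * a := by
        rw [← hab]; group
      rw [e]
      exact (zpowers t).mul_mem ((zpowers t).mul_mem ((zpowers t).inv_mem ha) h5) ha
    have h7 : (b * n) * t * (b * n)⁻¹ * t⁻¹ ∈ Q ⊓ N := by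
      constructor
      · have e : (b * n) * t * (b * n)⁻¹ * t⁻¹ = (b * (n * t * n⁻¹) * b⁻¹) * t⁻¹ := by group
        rw [e]
        exact Q.mul_mem ((zpowers_le.2 htZ.1) h6) (Q.inv_mem htZ.1)
      · have hbn : b * n ∈ N := N.mul_mem (hKN hb) hn
        have e : (b * n) * t * (b * n)⁻¹ * t⁻¹ = (b * n) * (t * (b * n)⁻¹ * t⁻¹) := by group
        rw [e]
        exact N.mul_mem hbn (Normal.conj_mem inferInstance _ (N.inv_mem hbn) t)
    rw [hdisj, mem_bot] at h7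
    refine ⟨b, hb, ?_⟩
    apply hC' _ (N.mul_mem (hKN hb) hn)
    calc (b * n) * t = ((b * n) * t * (b * n)⁻¹ * t⁻¹) * t * (b * n) := by group
      _ = t * (b * n) := by rw [h7, one_mul]
  -- `[N, Q] ≤ K`
  have hle : ⁅N, Q⁆ ≤ K := by
    rw [commutator_le]
    intro n hn q hq
    obtain ⟨k, hk, hkq⟩ := hfac n hn
    have e : ⁅n, q⁆ = k⁻¹ * (q * k * q⁻¹) := by
      rw [commutatorElement_def]
      calc n * q * n⁻¹ * q⁻¹ = k⁻¹ * ((k * n) * q) * n⁻¹ * q⁻¹ := by group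
        _ = k⁻¹ * (q * (k * n)) * n⁻¹ * q⁻¹ := by rw [hkq q hq]
        _ = _ := by group
    rw [e]
    exact K.mul_mem (K.inv_mem hk) (hKn.conj_mem k hk q)
  have hodd : Odd (Nat.card ↥⁅N, Q⁆) := Odd.of_dvd_nat hKodd (Subgroup.card_dvd_of_le hle)
  exact ⟨Cfsg.Agent.S0205.result hodd, hodd⟩

end Cfsg.Agent.S2962
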