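import Cfsg.Statements.S2965
import Cfsg.Agent.H566.Main
import Cfsg.Agent.S0000

set_option autoImplicit false
open Cfsg

namespace Cfsg.Agent.S2965

/-- Let r be a prime and let A and G be subgroups of a finite group, with A an elementary abelian r-group normalizing G and the orders of A and G coprime. Suppose that every non-abelian simple section of G is a known finite simple group. If C_G(A) is nilpotent or has odd order, then G is solvable. -/
theorem result {X : Type*} [Group X] [Finite X] {r : ℕ} [Fact r.Prime] (A G : Subgroup X) (hA : Cfsg.IsElementaryAbelian r A) (hAG : A ≤ Subgroup.normalizer (G : Set X)) (hcop : (Nat.card ↥A).Coprime (Nat.card ↥G)) (hK : Cfsg.IsKGroup ↥G) (hC : Group.IsNilpotent ↥(G ⊓ Subgroup.centralizer (A : Set X)) ∨ Odd (Nat.card ↥(G ⊓ Subgroup.centralizer (A : Set X)))) : Group.IsSolvable ↥G := by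
  by_contra hns
  have h1 := Cfsg.Agent.H566.rich_sub (fun X _ _ _ => Cfsg.Agent.S0000.result) hAG hcop hns
  rcases hC with h | h
  · exact h1.1 h
  · exact (Nat.not_even_iff_odd.2 h) h1.2

end Cfsg.Agent.S2965
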