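import Cfsg.Statements.S2966
import Cfsg.Agent.H961.CopCore
import Cfsg.Agent.H254.CopAll

set_option autoImplicit false
open Cfsg

namespace Cfsg.Agent.S2966

universe u

theorem rows : H961.CopCore.Rows.{u} where
  cyc K _ _ _ hna hk := H254.CopAll.known K hna hk
  spor _ _ h := H254.CopSpor.sporadic_triv h
  tits _ _ h := H254.CopSpor.tits_triv h

/-- Let r be a prime and let A and G be subgroups of a finite group, with A an elementary abelian r-group normalizing G and the orders of A and G coprime. Suppose that every non-abelian simple section of G is a known finite simple group and that C_G(A) is solvable. Then every non-abelian composition factor of G is isomorphic to PSL₂(2^r), PSL₂(3^r), PSU₃(2^r) or, when r is odd, the Suzuki group over the field with 2^r elements. -/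
theorem result {X : Type*} [Group X] [Finite X] {r : ℕ} [Fact r.Prime] (A G : Subgroup X) (hA : Cfsg.IsElementaryAbelian r A) (hAG : A ≤ Subgroup.normalizer (G : Set X)) (hcop : (Nat.card ↥A).Coprime (Nat.card ↥G)) (hK : Cfsg.IsKGroup ↥G) (hC : Group.IsSolvable ↥(G ⊓ Subgroup.centralizer (A : Set X))) : Cfsg.IsCompositionKGroupWith (Cfsg.IsRankOneOverDegreeRField r) ↥G :=
  H961.CopRed.compK_sub (H961.CopCore.inv_rank r) (H961.CopCore.sc_of rows r) hA hAG hcop hK hC

end Cfsg.Agent.S2966
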