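import Cfsg.Statements.S2967
import Cfsg.Agent.H255.Known
import Cfsg.Agent.H255.Red
import Cfsg.Agent.SignalizersComponents.ComponentExists

set_option autoImplicit false
open Cfsg

namespace Cfsg.Agent.S2967

open Cfsg.Agent.H255

/-- the largest solvable normal subgroup -/
theorem exists_rad (G : Type*) [Group G] [Finite G] : ∃ K : Subgroup G, K.Normal ∧ Group.IsSolvable ↥K ∧
    ∀ M : Subgroup G, M.Normal → Group.IsSolvable ↥M → M ≤ K := by
  classical
  obtain ⟨K, ⟨hK1, hK2⟩, hmax⟩ :=
    Set.Finite.exists_maximalFor (fun K : Subgroup G => Nat.card K)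
      {K : Subgroup G | K.Normal ∧ Group.IsSolvable ↥K} (Set.toFinite _)
      ⟨⊥, inferInstance, inferInstance⟩
  refine ⟨K, hK1, hK2, fun M hM1 hM2 => ?_⟩
  have h1 : (K ⊔ M).Normal := inferInstance
  have h2 : Group.IsSolvable ↥(K ⊔ M) :=
    SignalizersComponents.ComponentExists.isSolvable_sup_of_normal hK2 hM2
  have h3 := hmax ⟨h1, h2⟩ (Subgroup.card_le_of_le le_sup_left)
  have h4 : K = K ⊔ M := Subgroup.eq_of_le_of_card_ge le_sup_left h3
  rw [h4]
  exact le_sup_right

/-- the simple sections of a K-group -/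
theorem secZP_of_isKGroup {G : Type*} [Group G] [Finite G] (hK : IsKGroup G) : Red.SecZP G := by
  intro S _ _ hna M f hf
  have hS : Finite S := Finite.of_surjective f hf
  let e : M ⧸ f.ker ≃* S := QuotientGroup.quotientKerEquivOfSurjective f hf
  have h1 : IsSimpleGroup (M ⧸ f.ker) := e.isSimpleGroup
  have h2 : ¬ IsMulCommutative (M ⧸ f.ker) := by
    intro hc
    apply hna
    intro a b
    apply e.symm.injective
    rw [map_mul, map_mul]
    exact hc.is_comm.comm _ _
  exact (Known.zp_known _ h2 (hK M f.ker h1 h2)).of_equiv e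

/-- elements central modulo a solvable normal subgroup -/
theorem mem_rad {G : Type*} [Group G] {K : Subgroup G} (hK : ∀ M : Subgroup G, M.Normal → Group.IsSolvable ↥M → M ≤ K)
    {R : Subgroup G} (hRn : R.Normal) (hRs : Group.IsSolvable R) {g : G} (h : ∀ x : G, x⁻¹ * (g * x * g⁻¹) ∈ R) :
    g ∈ K := by
  have h1 : Group.IsSolvable (Subgroup.center (G ⧸ R)) :=
    Group.isSolvable_of_comm fun a b => Subtype.ext (Subgroup.mem_center_iff.1 b.2 a)
  apply hK ((Subgroup.center (G ⧸ R)).comap (QuotientGroup.mk' R)) inferInstance (Red.solv_comap_mk hRs h1)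
  rw [Subgroup.mem_comap, Subgroup.mem_center_iff]
  intro y
  induction y using QuotientGroup.induction_on with
  | H x =>
    rw [QuotientGroup.mk'_apply, ← QuotientGroup.mk_mul, ← QuotientGroup.mk_mul, QuotientGroup.eq]
    have h2 := hRn.conj_mem _ (h x) g⁻¹
    have h3 : g⁻¹ * (x⁻¹ * (g * x * g⁻¹)) * g⁻¹⁻¹ = (x * g)⁻¹ * (g * x) := by group
    rwa [h3] at h2

/-- The action of `A ≤ N(G)` on `G`. -/
def conjOn {X : Type*} [Group X] {A G : Subgroup X} (h : A ≤ Subgroup.normalizer (G : Set X)) : ↥A →* MulAut ↥G :=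
  G.normalizerMonoidHom.comp (Subgroup.inclusion h)

theorem conjOn_apply {X : Type*} [Group X] {A G : Subgroup X} (h : A ≤ Subgroup.normalizer (G : Set X)) (a : ↥A)
    (g : ↥G) : (conjOn h a g : X) = a * g * (a : X)⁻¹ := rfl

/-- Let r be a prime and let A and G be subgroups of a finite group, with A an elementary abelian r-group normalizing G and the orders of A and G coprime. Suppose that every non-abelian simple section of G is a known finite simple group. Then the centre of C_G(A) lies in the largest solvable normal subgroup of G; equivalently, the normal closure in G of Z(C_G(A)) is solvable. -/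
theorem result {X : Type*} [Group X] [Finite X] {r : ℕ} [Fact r.Prime] (A G : Subgroup X) (hA : Cfsg.IsElementaryAbelian r A) (hAG : A ≤ Subgroup.normalizer (G : Set X)) (hcop : (Nat.card ↥A).Coprime (Nat.card ↥G)) (hK : Cfsg.IsKGroup ↥G) : Group.IsSolvable ↥(Subgroup.normalClosure (((G ⊓ Subgroup.centralizer (A : Set X)) ⊓ Subgroup.centralizer ((G ⊓ Subgroup.centralizer (A : Set X) : Subgroup X) : Set X)).subgroupOf G : Set ↥G)) := by
  classical
  have hr : r.Prime := Fact.out
  obtain ⟨K, hKn, hKs, hKmax⟩ := exists_rad ↥G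
  suffices h : Subgroup.normalClosure (((G ⊓ Subgroup.centralizer (A : Set X)) ⊓
      Subgroup.centralizer ((G ⊓ Subgroup.centralizer (A : Set X) : Subgroup X) : Set X)).subgroupOf G : Set ↥G) ≤ K by
    exact Group.isSolvable_of_isSolvable_injective (f := Subgroup.inclusion h) (Subgroup.inclusion_injective h)
  apply Subgroup.normalClosure_le_normal
  rintro ⟨g, hgG⟩ hg
  have hg' : g ∈ (G ⊓ Subgroup.centralizer (A : Set X)) ⊓
      Subgroup.centralizer ((G ⊓ Subgroup.centralizer (A : Set X) : Subgroup X) : Set X) := hg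
  obtain ⟨⟨-, hgA⟩, hgC⟩ := hg'
  replace hgC := Subgroup.mem_centralizer_iff.1 hgC
  change (⟨g, hgG⟩ : ↥G) ∈ K
  have hAr : IsPGroup r A := fun a => ⟨1, by
    rw [pow_one]
    exact Subtype.ext (hA.2 a.1 a.2)⟩
  by_cases hrG : r ∣ Nat.card G
  · -- `A = 1`
    have h1 : ¬ r ∣ Nat.card A := fun h => hr.one_lt.ne' (Nat.dvd_one.1 (hcop ▸ Nat.dvd_gcd h hrG))
    have h2 : A = ⊥ := by
      obtain ⟨k, hk⟩ := (IsPGroup.iff_card (p := r)).1 hAr
      rcases Nat.eq_zero_or_pos k with h0 | h0
      · rw [h0, pow_zero] at hk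
        exact Subgroup.card_eq_one.1 hk
      · exact absurd (hk ▸ dvd_pow_self r h0.ne') h1
    apply mem_rad hKmax (R := ⊥) inferInstance inferInstance
    intro x
    rw [Subgroup.mem_bot]
    have h3 := hgC x.1 ⟨x.2, by
      rw [h2]
      refine Subgroup.mem_centralizer_iff.2 ?_
      intro y hy
      rw [show y = 1 from hy, one_mul, mul_one]⟩
    apply Subtype.ext
    change x.1⁻¹ * (g * x.1 * g⁻¹) = 1
    rw [← h3]
    group
  · let z : MulAut ↥G := MulAut.conj ⟨g, hgG⟩
    obtain ⟨R, hRc, hRs, hR⟩ := Red.red (r := r) _ ↥G rfl (secZP_of_isKGroup hK) hrG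
      (conjOn hAG).range (hAr.of_surjective (conjOn hAG).rangeRestrict (MonoidHom.rangeRestrict_surjective _)) z (by
        rintro _ ⟨a, rfl⟩
        ext x
        change g * (a.1 * x.1 * a.1⁻¹) * g⁻¹ = a.1 * (g * x.1 * g⁻¹) * a.1⁻¹
        have h1 : a.1 * g = g * a.1 := Subgroup.mem_centralizer_iff.1 hgA a.1 a.2
        have h2 : a.1⁻¹ * g⁻¹ = g⁻¹ * a.1⁻¹ := by rw [← mul_inv_rev, ← mul_inv_rev, h1]
        calc g * (a.1 * x.1 * a.1⁻¹) * g⁻¹ = (g * a.1) * x.1 * (a.1⁻¹ * g⁻¹) := by group
          _ = (a.1 * g) * x.1 * (g⁻¹ * a.1⁻¹) := by rw [h1, h2]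
          _ = a.1 * (g * x.1 * g⁻¹) * a.1⁻¹ := by group)
      (Nat.card G) hrG (by
        rw [← map_pow, pow_card_eq_one', map_one]) (by
        intro x hx
        apply Subtype.ext
        change g * x.1 * g⁻¹ = x.1
        rw [← hgC x.1 ⟨x.2, ?_⟩, mul_inv_cancel_right]
        refine Subgroup.mem_centralizer_iff.2 ?_
        intro a ha
        have h1 := congrArg Subtype.val (hx _ ⟨⟨a, ha⟩, rfl⟩)
        rw [conjOn_apply] at h1
        exact mul_inv_eq_iff_eq_mul.1 h1)
    exact mem_rad hKmax inferInstance hRs hR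

end Cfsg.Agent.S2967
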