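import Cfsg.Statements.S2978
import Cfsg.Agent.H257.LargeAb
import Cfsg.Agent.H257.LargeAltSeven
import Cfsg.Agent.S1764
import Cfsg.Agent.S0249
import Cfsg.Agent.S0256
import Cfsg.Agent.S0365
import Cfsg.Agent.S0542
import Cfsg.Agent.S2037
import Cfsg.Agent.SporadicA.MathieuRecog
import Cfsg.Agent.TypeU3Sz.Main
import Cfsg.Agent.Classification.PSLTwoEvenSylow
import Cfsg.Agent.FixBN.BTheorem

set_option autoImplicit false
open Cfsg

namespace Cfsg.Agent.S2978

open Subgroup Cfsg.Agent.H229 Cfsg.Agent.H257.LargeAb Cfsg.Agent.H257.LargeAltSeven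

/-- all involutions of a Sylow `2`-subgroup are central in it -/
def CS (L : Type*) [Group L] : Prop :=
  ∀ P : Sylow 2 L, ∀ x ∈ (P : Subgroup L), ∀ y ∈ (P : Subgroup L), x * x = 1 → x * y = y * x

variable {G : Type*} [Group G] [Finite G] {S : Sylow 2 G} {Q R M : Subgroup G}

theorem false_of_cs (c : Cfg S Q R) (hM : M.Normal) (hB : AbLarge.om Q ≤ M) {L : Type*} [Group L]
    (e : ↥M ≃* L) (h : CS L) : False := by
  have := Fact.mk Nat.prime_two
  have : Finite L := Finite.of_equiv _ e.toEquiv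
  refine c.false_of_central hM hB ?_
  obtain ⟨P, hP⟩ := S0542.result 2 M hM.isSubnormal S
  have hs : Function.Surjective e.toMonoidHom := e.surjective
  have hcoe : ((P.mapSurjective hs : Sylow 2 L) : Subgroup L) = (P : Subgroup ↥M).map e.toMonoidHom :=
    Sylow.coe_mapSurjective hs P
  have hmem : ∀ z (hz : z ∈ (S : Subgroup G) ⊓ M), e ⟨z, hz.2⟩ ∈ ((P.mapSurjective hs : Sylow 2 L) : Subgroup L) := by
    intro z hz
    rw [hcoe]
    exact ⟨⟨z, hz.2⟩, by rw [hP]; exact mem_subgroupOf.2 hz.1, rfl⟩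
  intro x hx y hy hxx
  have h1 := h _ _ (hmem x hx) _ (hmem y hy) (by
    rw [← map_mul]
    have : (⟨x, hx.2⟩ * ⟨x, hx.2⟩ : ↥M) = 1 := Subtype.ext hxx
    rw [this, map_one])
  rw [← map_mul, ← map_mul] at h1
  exact congrArg Subtype.val (e.injective h1)

theorem cs_psl {F : Type} [Field F] [Fintype F] [CharP F 2] :
    CS (Matrix.ProjectiveSpecialLinearGroup (Fin 2) F) := by
  intro P x hx y hy _
  have := Cfsg.Agent.Classification.PSLTwoEvenSylow.sylow_comm (MulEquiv.refl _) P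
  exact congrArg Subtype.val (this.is_comm.comm (⟨x, hx⟩ : ↥(P : Subgroup _)) ⟨y, hy⟩)

theorem cs_of_ty {L : Type*} [Group L] {q n : ℕ} (h : ∀ P : Sylow 2 L, TypeU3Sz.Main.Ty ↥(P : Subgroup L) q n) :
    CS L := by
  intro P x hx y hy hxx
  exact congrArg Subtype.val ((h P).comm ⟨x, hx⟩ ⟨y, hy⟩ (Subtype.ext hxx))

theorem false_seven (c : Cfg S Q R) (hB : AbLarge.om Q ≤ M) (e : ↥M ≃* alternatingGroup (Fin 7)) : False := by
  obtain ⟨t, ht⟩ := Subgroup.ne_bot_iff_exists_ne_one.1 c.ab.om_ne_bot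
  have htG : (t : G) ≠ 1 := fun h => ht (Subtype.ext h)
  have htQ := c.ab.mem_om.1 t.2
  have htM : (t : G) ∈ M := hB t.2
  obtain ⟨c', hc1, hc3, hct, hb⟩ := exists_three (t := e ⟨t, htM⟩)
    (by rw [← map_pow]; have : (⟨(t : G), htM⟩ : ↥M) ^ 2 = 1 := Subtype.ext htQ.2; rw [this, map_one])
    (fun h => htG (congrArg Subtype.val (e.injective (h.trans (map_one e).symm))))
  obtain ⟨x, rfl⟩ := e.surjective c'
  have hx1 : (x : G) ≠ 1 := fun h => hc1 (by rw [show x = 1 from Subtype.ext h, map_one])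
  have hx3 : (x : G) ^ 3 = 1 := by
    rw [← map_pow, ← map_one e] at hc3
    exact congrArg Subtype.val (e.injective hc3)
  have hxt : (x : G) * t = t * x := by
    rw [← map_mul, ← map_mul] at hct
    exact congrArg Subtype.val (e.injective hct)
  have hxN : (x : G) ∈ normalizer (AbLarge.om Q : Set G) := by
    rw [c.ab.norm_om]
    exact c.ab.cent_elt htQ.1 htG hxt
  have hxc : (x : G) ∈ centralizer (AbLarge.om Q : Set G) := by
    rw [mem_centralizer_iff]
    intro b hbB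
    have hbM : b ∈ M := hB hbB
    have hbt : b * t = t * b := ea_comm c.ab.om_ea hbB t.2
    have h1 := hb (e ⟨b, hbM⟩) (by
      rw [← map_mul, ← map_mul]
      exact congrArg e (Subtype.ext hbt))
    rw [← map_inv, ← map_inv, ← map_mul, ← map_mul, ← map_mul, ← map_pow, ← map_one e] at h1
    have h2 : (b * x * b⁻¹ * (x : G)⁻¹) ^ 3 = 1 := congrArg Subtype.val (e.injective h1)
    have h3 : b * x * b⁻¹ * (x : G)⁻¹ ∈ AbLarge.om Q := by
      have e1 : b * x * b⁻¹ * (x : G)⁻¹ = b * ((x : G) * b⁻¹ * (x : G)⁻¹) := by group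
      rw [e1]
      exact mul_mem hbB (le_norm_iff.1 le_rfl _ hxN _ (inv_mem hbB))
    have h4 := (c.ab.mem_om.1 h3).2
    have h5 : b * x * b⁻¹ * (x : G)⁻¹ = 1 := by
      rw [pow_succ, h4, one_mul] at h2
      exact h2
    have h6 : b * x * b⁻¹ = x := mul_inv_eq_one.1 h5
    exact mul_inv_eq_iff_eq_mul.1 h6
  rw [c.ab.cent_om] at hxc
  apply hx1
  apply c.ab.odd_eq_one hxc
  have : orderOf (x : G) ∣ 3 := orderOf_dvd_of_pow_eq_one hx3
  exact Nat.Coprime.coprime_dvd_left this (by norm_num)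

/-- The possible isomorphism types of the normal closure. -/
theorem iso_type (c : Cfg S Q R) :
    (∃ (F : Type) (_ : Field F) (_ : Fintype F) (_ : CharP F 2) (n : ℕ), 3 ≤ n ∧
        Nonempty (↥(Subgroup.normalClosure (AbLarge.om Q : Set G)) ≃* Matrix.ProjectiveSpecialLinearGroup (Fin n) F)) ∨
      Cfsg.Spor.IsoM22 ↥(Subgroup.normalClosure (AbLarge.om Q : Set G)) ∨
      Cfsg.Spor.IsoM23 ↥(Subgroup.normalClosure (AbLarge.om Q : Set G)) ∨
      Cfsg.Spor.IsoM24 ↥(Subgroup.normalClosure (AbLarge.om Q : Set G)) ∨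
      Nonempty (↥(Subgroup.normalClosure (AbLarge.om Q : Set G)) ≃* alternatingGroup (Fin 6)) ∨
      Nonempty (↥(Subgroup.normalClosure (AbLarge.om Q : Set G)) ≃* alternatingGroup (Fin 9)) := by
  obtain ⟨N, hN, hNea, h⟩ := S1764.result (AbLarge.om Q) c.ab.om_ea c.ab.om_ti c.ab.om_wc
  have hMn : (Subgroup.normalClosure (AbLarge.om Q : Set G)).Normal := inferInstance
  have hB : AbLarge.om Q ≤ Subgroup.normalClosure (AbLarge.om Q : Set G) := Subgroup.le_normalClosure
  have hcent := c.cent_bot hMn hB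
  generalize hM : Subgroup.normalClosure (AbLarge.om Q : Set G) = M at *
  clear hM
  have hnc : ∀ x : G, (∀ y ∈ M, x * y = y * x) → x = 1 := by
    intro x hx
    have : x ∈ centralizer (M : Set G) := by
      rw [mem_centralizer_iff]
      exact fun y hy => (hx y hy).symm
    rw [hcent] at this
    exact mem_bot.1 this
  -- `N = 1`
  have hNbot : N = ⊥ := by
    have h1 : N ≤ pCore 2 ↥M := Lib.Cores.le_pCore hN (ea_isPGroup hNea)
    have h2 := Lib.Cores.map_subtype_pCore 2 hMn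
    rw [c.two_bot (Lib.Cores.pCore_normal 2) (Lib.Cores.pCore_isPGroup 2), inf_bot_eq,
      Subgroup.map_eq_bot_iff_of_injective _ M.subtype_injective] at h2
    rw [h2] at h1
    exact le_bot_iff.1 h1
  have h := h hN
  subst hNbot
  let e0 : (↥M ⧸ (⊥ : Subgroup ↥M)) ≃* ↥M := QuotientGroup.quotientBot
  rcases h with h | ⟨Z, hZ, h⟩
  · exfalso
    have ho : oddCore (↥M ⧸ (⊥ : Subgroup ↥M)) = ⊥ := by
      have h1 := Lib.Cores.map_equiv_pPrimeCore e0 2
      have h2 := Lib.Cores.map_subtype_pPrimeCore 2 hMn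
      rw [c.odd_bot (Lib.Cores.pPrimeCore_normal 2) (Lib.Cores.pPrimeCore_coprime 2), inf_bot_eq,
        Subgroup.map_eq_bot_iff_of_injective _ M.subtype_injective] at h2
      rw [h2] at h1
      exact (Subgroup.map_eq_bot_iff_of_injective _ e0.injective).1 h1
    obtain ⟨t, ht⟩ := Subgroup.ne_bot_iff_exists_ne_one.1 c.ab.om_ne_bot
    have htG : (t : G) ≠ 1 := fun h => ht (Subtype.ext h)
    apply htG
    apply hnc
    intro y hy
    have h1 := h.is_comm.comm (QuotientGroup.mk (e0.symm ⟨t, hB t.2⟩)) (QuotientGroup.mk (e0.symm ⟨y, hy⟩))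
    rw [← QuotientGroup.mk_mul, ← QuotientGroup.mk_mul, QuotientGroup.eq, ho, mem_bot, inv_mul_eq_one,
      ← map_mul, ← map_mul] at h1
    exact congrArg Subtype.val (e0.symm.injective h1)
  · have hZbot : Z = ⊥ := by
      rw [eq_bot_iff]
      intro z hz
      have h1 := hZ hz
      rw [mem_center_iff] at h1
      have h2 : ((e0 z : ↥M) : G) = 1 := by
        apply hnc
        intro y hy
        have h3 := h1 (e0.symm ⟨y, hy⟩)
        have h4 := congrArg e0 h3
        rw [map_mul, map_mul, MulEquiv.apply_symm_apply] at h4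
        exact (congrArg Subtype.val h4).symm
      rw [mem_bot]
      have h3 : e0 z = e0 1 := by rw [map_one]; exact Subtype.ext h2
      exact e0.injective h3
    subst hZbot
    have h := h inferInstance
    let e1 : ↥M ≃* ((↥M ⧸ (⊥ : Subgroup ↥M)) ⧸ (⊥ : Subgroup (↥M ⧸ (⊥ : Subgroup ↥M)))) :=
      e0.symm.trans (QuotientGroup.quotientBot).symm
    rcases h with ⟨F, hF1, hF2, n, hch, hn, ⟨e⟩⟩ | ⟨F, hF1, hF2, m, hm, hF, ⟨e⟩⟩ | ⟨F, hF1, hF2, m, hF, ⟨e⟩⟩ |
      ⟨k, hk6, hk9, ⟨e⟩⟩ | ⟨⟨e⟩⟩ | ⟨⟨e⟩⟩ | ⟨⟨e⟩⟩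
    · have hcp : CharP F 2 := hch ▸ ringChar.charP F
      rcases Nat.lt_or_ge 2 n with h2 | h2
      · exact Or.inl ⟨F, hF1, hF2, hcp, n, h2, ⟨e1.trans e⟩⟩
      · have : n = 2 := le_antisymm h2 hn
        subst this
        exact (false_of_cs c hMn hB (e1.trans e) cs_psl).elim
    · exact (false_of_cs c hMn hB (e1.trans e) (cs_of_ty (TypeU3Sz.Main.ty_sz hm hF))).elim
    · exfalso
      rcases Nat.eq_zero_or_pos m with rfl | hm
      · rw [pow_zero] at hF
        have := Fintype.one_lt_card (α := F)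
        omega
      · refine false_of_cs c hMn hB (e1.trans e) (cs_of_ty (TypeU3Sz.Main.ty_psu hm ?_))
        rw [Nat.card_eq_fintype_card, hF, ← pow_mul, mul_comm m 2, pow_mul]
        norm_num
    · have : k = 6 ∨ k = 7 ∨ k = 8 ∨ k = 9 := by omega
      rcases this with rfl | rfl | rfl | rfl
      · exact Or.inr (Or.inr (Or.inr (Or.inr (Or.inl ⟨e1.trans e⟩))))
      · exact (false_seven c hB (e1.trans e)).elim
      · obtain ⟨e8⟩ := S0256.result (F := ZMod 2) (ZMod.card 2)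
        exact Or.inl ⟨ZMod 2, inferInstance, inferInstance, inferInstance, 4, by norm_num,
          ⟨(e1.trans e).trans e8.symm⟩⟩
      · exact Or.inr (Or.inr (Or.inr (Or.inr (Or.inr ⟨e1.trans e⟩))))
    · exact Or.inr (Or.inl ⟨e1.trans e⟩)
    · exact Or.inr (Or.inr (Or.inl ⟨e1.trans e⟩))
    · exact Or.inr (Or.inr (Or.inr (Or.inl ⟨e1.trans e⟩)))

/-- the generalized Fitting subgroup is the normal closure if that is simple -/
theorem fstar_eq (c : Cfg S Q R) (hM : M.Normal) (hB : AbLarge.om Q ≤ M) (hs : IsSimpleGroup ↥M) :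
    generalizedFittingSubgroup G = M := by
  have hcent := c.cent_bot hM hB
  refine Cfsg.Agent.FixBN.BTheorem.genFitting_eq hM hs ?_ hcent
  intro hc
  obtain ⟨t, ht⟩ := Subgroup.ne_bot_iff_exists_ne_one.1 c.ab.om_ne_bot
  apply ht
  apply Subtype.ext
  have : (t : G) ∈ centralizer (M : Set G) := by
    rw [mem_centralizer_iff]
    intro y hy
    exact congrArg Subtype.val (hc.is_comm.comm ⟨y, hy⟩ ⟨t, hB t.2⟩)
  rw [hcent] at this
  exact mem_bot.1 this

theorem simple_of (c : Cfg S Q R) : IsSimpleGroup ↥(Subgroup.normalClosure (AbLarge.om Q : Set G)) := by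
  rcases iso_type c with ⟨F, _, _, _, n, hn, ⟨e⟩⟩ | ⟨⟨e⟩⟩ | ⟨⟨e⟩⟩ | ⟨⟨e⟩⟩ | ⟨⟨e⟩⟩ | ⟨⟨e⟩⟩
  · exact (MulEquiv.isSimpleGroup_congr e).2 (S0249.result n hn)
  · exact (MulEquiv.isSimpleGroup_congr e).2 Cfsg.Agent.SporadicA.MathieuRecog.simple_M22
  · exact (MulEquiv.isSimpleGroup_congr e).2 S2037.simple
  · exact (MulEquiv.isSimpleGroup_congr e).2 S0365.result
  · exact (MulEquiv.isSimpleGroup_congr e).2 (alternatingGroup.isSimpleGroup (by simp))
  · exact (MulEquiv.isSimpleGroup_congr e).2 (alternatingGroup.isSimpleGroup (by simp))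

/-- Let G be a finite group all of whose 2-local subgroups have only known non-abelian simple sections, S a Sylow 2-subgroup of G, and Q ≤ S an abelian large subgroup of G, that is C_G(Q) ≤ Q and N_G(U) ≤ N_G(Q) for every nontrivial subgroup U of C_G(Q), with Q = O₂(N_G(Q)). Suppose that some 2-local subgroup of G containing S is not contained in N_G(Q). Then the generalized Fitting subgroup F*(G) is isomorphic to PSLₙ over a finite field of characteristic 2 with n ≥ 3, to one of the Mathieu groups of degree 22, 23 or 24, or to the alternating group of degree 6 or 9. -/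
theorem result {G : Type*} [Group G] [Finite G] (hK : Cfsg.IsKpGroup 2 G) (S : Sylow 2 G) (Q : Subgroup G) (hQS : Q ≤ (S : Subgroup G)) (hQab : IsMulCommutative ↥Q) (hlarge : Cfsg.IsLarge Q) (hQb : Q = Cfsg.largeBullet 2 Q) (hnotuniq : ∃ R : Subgroup G, IsPGroup 2 ↥R ∧ R ≠ ⊥ ∧ (S : Subgroup G) ≤ Subgroup.normalizer (R : Set G) ∧ ¬ Subgroup.normalizer (R : Set G) ≤ Subgroup.normalizer (Q : Set G)) : (∃ (F : Type) (_ : Field F) (_ : Fintype F) (_ : CharP F 2) (n : ℕ), 3 ≤ n ∧ Nonempty (↥(Cfsg.generalizedFittingSubgroup G) ≃* Matrix.ProjectiveSpecialLinearGroup (Fin n) F)) ∨ Cfsg.Spor.IsoM22 ↥(Cfsg.generalizedFittingSubgroup G) ∨ Cfsg.Spor.IsoM23 ↥(Cfsg.generalizedFittingSubgroup G) ∨ Cfsg.Spor.IsoM24 ↥(Cfsg.generalizedFittingSubgroup G) ∨ Nonempty (↥(Cfsg.generalizedFittingSubgroup G) ≃* alternatingGroup (Fin 6)) ∨ Nonempty (↥(Cfsg.generalizedFittingSubgroup G) ≃* alternatingGroup (Fin 9)) := by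
  obtain ⟨R, hRp, hR1, hSR, hnR⟩ := hnotuniq
  have hQ1 : Q ≠ ⊥ := by
    rintro rfl
    apply hR1
    rw [eq_bot_iff]
    refine le_trans ?_ hlarge.1
    intro x _
    rw [mem_centralizer_iff]
    intro y hy
    have : y = 1 := hy
    subst this
    simp
  have c : Cfg S Q R :=
    { ab :=
      { large := ⟨S.2.to_le hQS, hQ1, hlarge⟩
        comm := fun a ha b hb => congrArg Subtype.val (hQab.is_comm.comm (⟨a, ha⟩ : ↥Q) ⟨b, hb⟩)
        core := hQb }
      QS := hQS, Rp := hRp, R1 := hR1, SR := hSR, nR := hnR }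
  rw [fstar_eq c inferInstance Subgroup.le_normalClosure (simple_of c)]
  exact iso_type c

end Cfsg.Agent.S2978
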