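import Cfsg.Statements.S2998
import Cfsg.Agent.LFourB.RelExt
import Cfsg.Agent.CharactersDeep.QuatSylow
-- import your own Cfsg.Agent.* helpers here

set_option autoImplicit false
open Cfsg

namespace Cfsg.Agent.S2998

/-- a conjugate of a `p`-locally central element lying in `P` equals it -/
theorem conj_eq {G : Type*} [Group G] [Finite G] {p : ℕ} [Fact p.Prime] (P : Sylow p G) (x : G)
    (hxP : x ∈ (P : Subgroup G))
    (hlc : ∀ R : Subgroup G, R ≤ (P : Subgroup G) → R ≠ ⊥ →
      Subgroup.normalizer (R : Set G) ≤ Subgroup.centralizer ({x} : Set G)) (g : G)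
    (hg : g * x * g⁻¹ ∈ (P : Subgroup G)) : g * x * g⁻¹ = x := by
  classical
  rcases eq_or_ne x 1 with rfl | hx
  · simp
  have hPne : (P : Subgroup G) ≠ ⊥ := by
    intro h
    rw [h, Subgroup.mem_bot] at hxP
    exact hx hxP
  set y := g * x * g⁻¹ with hy
  have hy1 : y ≠ 1 := by
    intro h
    apply hx
    have : x = g⁻¹ * y * g := by rw [hy]; group
    rw [this, h]; group
  have hcy : Subgroup.centralizer ({y} : Set G) ≤ Subgroup.centralizer ({x} : Set G) := by
    refine le_trans ?_ (hlc (Subgroup.zpowers y) (by
      rw [Subgroup.zpowers_le]; exact hg) (by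
      rw [Ne, Subgroup.zpowers_eq_bot]; exact hy1))
    intro c hc
    rw [Subgroup.mem_centralizer_singleton_iff] at hc
    rw [Subgroup.mem_normalizer_iff]
    intro z
    constructor
    · intro hz
      obtain ⟨k, rfl⟩ := Subgroup.mem_zpowers_iff.1 hz
      have : c * y ^ k * c⁻¹ = y ^ k := by
        have hcomm : Commute c y := hc
        have := (hcomm.zpow_right k).eq
        rw [this]; group
      rw [this]; exact Subgroup.zpow_mem_zpowers y k
    · intro hz
      obtain ⟨k, hk⟩ := Subgroup.mem_zpowers_iff.1 hz
      have hcomm : Commute c y := hc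
      have h2 := (hcomm.zpow_right k).eq
      have : z = y ^ k := by
        have : z = c⁻¹ * y ^ k * c := by rw [hk]; group
        rw [this]
        rw [mul_assoc, ← h2]; group
      rw [this]; exact Subgroup.zpow_mem_zpowers y k
  have hPx : (P : Subgroup G) ≤ Subgroup.centralizer ({x} : Set G) :=
    le_trans (Subgroup.le_normalizer) (hlc P le_rfl hPne)
  -- the conjugate of `P` lies in `C(x)`
  have hgP : ((g • P : Sylow p G) : Subgroup G) ≤ Subgroup.centralizer ({x} : Set G) := by
    refine le_trans ?_ hcy
    intro z hz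
    rw [Sylow.coe_subgroup_smul, Subgroup.mem_pointwise_smul_iff_inv_smul_mem] at hz
    have h1 := hPx hz
    rw [Subgroup.mem_centralizer_singleton_iff] at h1 ⊢
    have h2 : (MulAut.conj g)⁻¹ • z = g⁻¹ * z * g := by
      rw [← map_inv]; simp [MulAut.smul_def]
    rw [h2] at h1
    rw [hy]
    calc z * (g * x * g⁻¹) = g * ((g⁻¹ * z * g) * x) * g⁻¹ := by group
      _ = g * (x * (g⁻¹ * z * g)) * g⁻¹ := by rw [h1]
      _ = g * x * g⁻¹ * z := by group
  obtain ⟨c, hc⟩ := MulAction.exists_smul_eq (Subgroup.centralizer ({x} : Set G))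
    ((g • P).subtype hgP) (P.subtype hPx)
  have hc' : ((c : G) * g) • P = P := by
    have h3 : (c : G) • (g • P) = P := by
      have h4 := congrArg (fun Q : Sylow p (Subgroup.centralizer ({x} : Set G)) =>
        (Q : Subgroup (Subgroup.centralizer ({x} : Set G)))) hc
      rw [Sylow.smul_subtype] at hc
      have h5 := Sylow.subtype_injective hc
      exact h5
    rw [mul_smul]; exact h3
  have hn : (c : G) * g ∈ Subgroup.normalizer ((P : Subgroup G) : Set G) := by
    exact Sylow.smul_eq_iff_mem_normalizer.1 hc'
  have h6 := hlc P le_rfl hPne hn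
  have h7 : g ∈ Subgroup.centralizer ({x} : Set G) := by
    have := (Subgroup.centralizer ({x} : Set G)).mul_mem
      ((Subgroup.centralizer ({x} : Set G)).inv_mem c.2) h6
    simpa [← mul_assoc] using this
  rw [Subgroup.mem_centralizer_singleton_iff] at h7
  rw [hy, h7]; group

/-- Let G be a finite group, p a prime, P a Sylow p-subgroup of G and x ∈ P an element such that N_G(R) ≤ C_G(x) for every nontrivial subgroup R of P. Then P ≤ C_G(x); every G-conjugate of x lying in P equals x (so g ∈ C_G(x) whenever g x g⁻¹ ∈ P); and for every normal subgroup N of G, the image of x in G ⧸ N has the same property with respect to the image of P: the normalizer of every nontrivial subgroup of the image of P centralizes the image of x. -/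
theorem result {G : Type*} [Group G] [Finite G] {p : ℕ} [Fact p.Prime] (P : Sylow p G) (x : G) (hxP : x ∈ (P : Subgroup G)) (hlc : ∀ R : Subgroup G, R ≤ (P : Subgroup G) → R ≠ ⊥ → Subgroup.normalizer (R : Set G) ≤ Subgroup.centralizer ({x} : Set G)) : (P : Subgroup G) ≤ Subgroup.centralizer ({x} : Set G) ∧ (∀ g : G, g * x * g⁻¹ ∈ (P : Subgroup G) → g * x * g⁻¹ = x) ∧ ∀ (N : Subgroup G) [N.Normal], ∀ R : Subgroup (G ⧸ N), R ≤ (P : Subgroup G).map (QuotientGroup.mk' N) → R ≠ ⊥ → Subgroup.normalizer (R : Set (G ⧸ N)) ≤ Subgroup.centralizer ({(QuotientGroup.mk x : G ⧸ N)} : Set (G ⧸ N)) := by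
  classical
  refine ⟨?_, fun g hg => conj_eq P x hxP hlc g hg, ?_⟩
  · by_cases hP : (P : Subgroup G) = ⊥
    · rw [hP]; exact bot_le
    · exact le_trans (Subgroup.le_normalizer) (hlc P le_rfl hP)
  · intro N hN R hR hR1
    set π := QuotientGroup.mk' N with hπ
    set K : Subgroup G := R.comap π with hK
    have hπs : Function.Surjective π := QuotientGroup.mk'_surjective N
    have hKmap : K.map π = R := Subgroup.map_comap_eq_self_of_surjective hπs R
    set R0 : Subgroup G := (P : Subgroup G) ⊓ K with hR0
    have hR0map : R0.map π = R := by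
      apply le_antisymm
      · rw [← hKmap]; exact Subgroup.map_mono inf_le_right
      · intro r hr
        obtain ⟨z, hz, rfl⟩ := Subgroup.mem_map.1 (hR hr)
        exact Subgroup.mem_map.2 ⟨z, ⟨hz, hr⟩, rfl⟩
    have hR0ne : R0 ≠ ⊥ := by
      intro h
      apply hR1
      rw [← hR0map, h, Subgroup.map_bot]
    -- `R0` is Sylow in `K`
    have hR0K : R0 ≤ K := inf_le_right
    have hnorm := hlc R0 inf_le_left hR0ne
    intro q hq
    obtain ⟨g, rfl⟩ := hπs q
    have hKeq : R0 ⊔ N = K := by
      apply le_antisymm
      · refine sup_le hR0K ?_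
        intro n hn
        have : π n = 1 := (QuotientGroup.eq_one_iff n).2 hn
        rw [hK, Subgroup.mem_comap, this]
        exact R.one_mem
      · intro k hk
        have hk' : π k ∈ R0.map π := by rw [hR0map]; exact hk
        obtain ⟨r, hr, hrk⟩ := Subgroup.mem_map.1 hk'
        have h1 : r⁻¹ * k ∈ N := by
          rw [← QuotientGroup.eq]; exact hrk
        have h2 : k = r * (r⁻¹ * k) := by group
        rw [h2]
        exact (R0 ⊔ N).mul_mem (Subgroup.mem_sup_left hr) (Subgroup.mem_sup_right h1)
    have hidx : ¬ p ∣ R0.relIndex K := by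
      have h0 := CharactersDeep.QuatSylow.not_dvd_relIndex_of_normal P N
      have h1 : N.relIndex (R0 ⊔ N) = N.relIndex R0 := Subgroup.relIndex_sup_right _ _
      have h2 := Subgroup.relIndex_mul_relIndex (R0 ⊓ N) R0 (R0 ⊔ N) inf_le_left le_sup_left
      have h3 := Subgroup.relIndex_mul_relIndex (R0 ⊓ N) N (R0 ⊔ N) inf_le_right le_sup_right
      rw [Subgroup.inf_relIndex_left] at h2
      rw [Subgroup.inf_relIndex_right, h1, ← h2, mul_comm] at h3
      have h4 : N.relIndex R0 ≠ 0 :=
        ne_zero_of_dvd_ne_zero Nat.card_pos.ne' (Subgroup.relIndex_dvd_card _ _)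
      have h5 := Nat.eq_of_mul_eq_mul_left (Nat.pos_of_ne_zero h4) h3
      have h6 : R0.relIndex N = (P : Subgroup G).relIndex N := by
        rw [← Subgroup.inf_relIndex_right R0 N, ← Subgroup.inf_relIndex_right (P : Subgroup G) N]
        congr 1
        apply le_antisymm
        · exact inf_le_inf_right _ inf_le_left
        · refine le_inf (le_inf inf_le_left ?_) inf_le_right
          exact inf_le_right.trans (le_sup_right.trans hKeq.le)
      rw [← hKeq, ← h5, h6]
      exact h0
    have hgK : K.map (MulAut.conj g).toMonoidHom = K := by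
      apply Subgroup.eq_of_le_of_card_ge
      · rintro _ ⟨k, hk, rfl⟩
        rw [hK, Subgroup.mem_comap]
        have h1 : π k ∈ R := hk
        rw [Subgroup.mem_normalizer_iff] at hq
        have h2 := (hq (π k)).1 h1
        simpa using h2
      · rw [Subgroup.card_map_of_injective (MulAut.conj g).injective]
    obtain ⟨k, hk, hkR⟩ : ∃ k ∈ K, R0.map (MulAut.conj (k * g)).toMonoidHom = R0 :=
      LFourB.RelExt.frattini (p := p) (P.isPGroup'.to_le inf_le_left) hR0K hidx hgK
    have hkg : k * g ∈ Subgroup.normalizer (R0 : Set G) := by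
      rw [Subgroup.mem_normalizer_iff]
      intro z
      constructor
      · intro hz
        rw [← hkR]
        exact Subgroup.mem_map.2 ⟨z, hz, rfl⟩
      · intro hz
        rw [← hkR] at hz
        obtain ⟨w, hw, hwz⟩ := Subgroup.mem_map.1 hz
        have : w = z := by
          apply (MulAut.conj (k * g)).injective
          exact hwz
        rw [← this]; exact hw
    have h1 := hnorm hkg
    rw [Subgroup.mem_centralizer_singleton_iff] at h1
    have hkx : π k * π x = π x * π k := by
      rw [← hKeq] at hk
      obtain ⟨r, hr, n, hn, rfl⟩ := Subgroup.mem_sup_of_normal_right.1 hk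
      have hn1 : π n = 1 := (QuotientGroup.eq_one_iff n).2 hn
      have hPx : (P : Subgroup G) ≤ Subgroup.centralizer ({x} : Set G) := by
        refine le_trans (Subgroup.le_normalizer) (hlc P le_rfl ?_)
        intro h
        apply hR0ne
        rw [eq_bot_iff, ← h]
        exact inf_le_left
      have h2 := hPx (inf_le_left (a := (P : Subgroup G)) hr)
      rw [Subgroup.mem_centralizer_singleton_iff] at h2
      rw [map_mul, hn1, mul_one, ← map_mul, h2, map_mul]
    have h3 : π k * π g * π x = π x * (π k * π g) := by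
      rw [← map_mul, ← map_mul, h1, map_mul]
    rw [Subgroup.mem_centralizer_singleton_iff]
    show π g * π x = π x * π g
    have h4 : π k * (π g * π x) = π k * (π x * π g) := by
      rw [← mul_assoc, h3, ← mul_assoc, ← mul_assoc, hkx]
    exact mul_left_cancel h4

end Cfsg.Agent.S2998
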