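import Cfsg.Statements.S2999
import Cfsg.Agent.H262.Conj
import Cfsg.Agent.S0598

set_option autoImplicit false
open Cfsg
open scoped commutatorElement

namespace Cfsg.Agent.S2999

open Cfsg.Agent.H262.Pair Cfsg.Agent.H262.Core Cfsg.Agent.H262.Conj

/-- Let p be a prime and let P and V be subgroups of a finite group with V elementary abelian, P normalizing V and acting faithfully on it (P ∩ C(V) = 1). Suppose P is p-minimal (a Sylow p-subgroup T of P is not normal and lies in a unique maximal subgroup M of P) and A ≤ T is an elementary abelian subgroup such that: |V/C_V(A)| ≤ |A| while |A₀|·|C_V(A₀)| < |A|·|C_V(A)| for every nontrivial proper subgroup A₀ of A; [C_V(T), P] ≠ 1; and P = ⟨A, xAx⁻¹⟩ for every x ∈ P outside M. Then, with q = |A|, there is a field F with q elements such that P ≅ SL₂(F), C_V(A) = [V, A]·C_V(P), and P acts on V/C_V(P) as SL₂(F) on its natural two-dimensional module. -/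
theorem result {G : Type*} [Group G] [Finite G] {p : ℕ} [Fact p.Prime] (V P : Subgroup G) (hV : Cfsg.IsElementaryAbelian p V) (hPV : P ≤ Subgroup.normalizer (V : Set G)) (hfaith : P ⊓ Subgroup.centralizer (V : Set G) = ⊥) (hmin : Cfsg.IsPMinimal p ↥P) (T : Sylow p ↥P) (M : Subgroup ↥P) (hM : IsCoatom M) (hTM : (T : Subgroup ↥P) ≤ M) (A : Subgroup G) (hAT : A ≤ ((T : Subgroup ↥P).map P.subtype)) (hAel : Cfsg.IsElementaryAbelian p A) (hi : Nat.card ↥V ≤ Nat.card ↥A * Nat.card ↥(V ⊓ Subgroup.centralizer ((A : Subgroup G) : Set G)) ∧ ∀ A₀ : Subgroup G, A₀ ≤ A → A₀ ≠ ⊥ → A₀ ≠ A → Nat.card ↥A₀ * Nat.card ↥(V ⊓ Subgroup.centralizer ((A₀ : Subgroup G) : Set G)) < Nat.card ↥A * Nat.card ↥(V ⊓ Subgroup.centralizer ((A : Subgroup G) : Set G))) (hii : ⁅(V ⊓ Subgroup.centralizer ((((T : Subgroup ↥P).map P.subtype) : Subgroup G) : Set G)), P⁆ ≠ ⊥) (hiii : ∀ x : ↥P, x ∉ M → A ⊔ A.map (MulAut.conj (x : G)).toMonoidHom = P) : ∃ (F : Type) (_ : Field F) (_ : Fintype F), Fintype.card F =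 Nat.card ↥A ∧ Nonempty (↥P ≃* Matrix.SpecialLinearGroup (Fin 2) F) ∧ (V ⊓ Subgroup.centralizer ((A : Subgroup G) : Set G)) = ⁅V, A⁆ ⊔ (V ⊓ Subgroup.centralizer ((P : Subgroup G) : Set G)) ∧ Cfsg.ActsAsSL2OnSection F ⊤ P V (V ⊓ Subgroup.centralizer ((P : Subgroup G) : Set G)) := by
  classical
  have hVc : IsMulCommutative ↥V := hV.1
  let inst : DistribMulAction ↥P (Ad V hVc) := act hVc hPV
  have hsm : ∀ (g : ↥P) (v : Ad V hVc), val (g • v) = g * val v * (g : G)⁻¹ := fun g v => rfl
  have hTG : (T : Subgroup ↥P).map P.subtype ≤ P := by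
    rintro _ ⟨t, _, rfl⟩; exact t.2
  have hAP : A ≤ P := hAT.trans hTG
  set A' : Subgroup ↥P := A.subgroupOf P with hA'
  have hA'map : A'.map P.subtype = A := by
    rw [hA', Subgroup.map_subgroupOf_eq_of_le hAP]
  have hA'T : A' ≤ T := by
    intro a ha
    obtain ⟨t, ht, hta⟩ := hAT (show (a : G) ∈ A from ha)
    have : t = a := Subtype.ext hta
    rw [← this]; exact ht
  have hp : ∀ v : Ad V hVc, p • v = 0 := fun v => val_inj (by
    rw [val_nsmul, val_zero]; exact hV.2 _ (val_mem v))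
  -- the unique maximal subgroup
  obtain ⟨hTn, M', ⟨hM'1, hM'2⟩, hM'u⟩ := hmin T
  have hMM' : M = M' := hM'u M ⟨hM, hTM⟩
  have huniq : ∀ H : Subgroup ↥P, (T : Subgroup ↥P) ≤ H → H ≠ ⊤ → H ≤ M := by
    intro H hTH hH
    obtain ⟨M₂, hM₂, hle⟩ := (eq_top_or_exists_le_coatom H).resolve_left hH
    rw [hMM', ← hM'u M₂ ⟨hM₂, hTH.trans hle⟩]
    exact hle
  have hgen' : ∀ x : ↥P, x ∉ M → A' ⊔ cj x A' = ⊤ := by
    intro x hx
    have h1 := hiii x hx
    have h2 : (A' ⊔ cj x A').map P.subtype = P := by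
      rw [Subgroup.map_sup, hA'map]
      have h3 : (cj x A').map P.subtype = A.map (MulAut.conj (x : G)).toMonoidHom := by
        rw [← hA'map, Subgroup.map_map, Subgroup.map_map]
        rfl
      rw [h3, h1]
    have h4 : (⊤ : Subgroup ↥P).map P.subtype = P := by
      rw [← MonoidHom.range_eq_map, Subgroup.range_subtype]
    exact Subgroup.map_injective P.subtype_injective (h2.trans h4.symm)
  -- translation of the measure
  have hfixc : ∀ H : Subgroup ↥P, Nat.card (fix (Ad V hVc) H) =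
      Nat.card (V ⊓ Subgroup.centralizer ((H.map P.subtype : Subgroup G) : Set G) : Subgroup G) :=
    fun H => card_fix hVc hPV H
  have hmapc : ∀ H : Subgroup ↥P, Nat.card (H.map P.subtype) = Nat.card H := fun H =>
    Subgroup.card_map_of_injective P.subtype_injective
  have hi1 : Nat.card (Ad V hVc) ≤ Nat.card A' * Nat.card (fix (Ad V hVc) A') := by
    rw [hfixc, hA'map, ← hmapc A', hA'map]
    exact hi.1
  have hi2 : ∀ H : Subgroup ↥P, H ≤ A' → H ≠ ⊥ → H ≠ A' →
      Nat.card H * Nat.card (fix (Ad V hVc) H) < Nat.card A' * Nat.card (fix (Ad V hVc) A') := by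
    intro H h1 h2 h3
    rw [hfixc, hfixc, hA'map, ← hmapc A', hA'map, ← hmapc H]
    apply hi.2
    · rw [← hA'map]; exact Subgroup.map_mono h1
    · intro h0
      apply h2
      rwa [Subgroup.map_eq_bot_iff_of_injective _ P.subtype_injective] at h0
    · intro h0
      apply h3
      apply Subgroup.map_injective P.subtype_injective
      rw [h0, hA'map]
  have hfaithV : ∀ g : ↥P, (∀ v : Ad V hVc, g • v = v) → g = 1 := by
    intro g hg
    have h1 : (g : G) ∈ P ⊓ Subgroup.centralizer (V : Set G) := by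
      refine ⟨g.2, ?_⟩
      show (g : G) ∈ Subgroup.centralizer (V : Set G)
      rw [Subgroup.mem_centralizer_iff]
      intro v hv
      have h2 := congrArg val (hg (mk ⟨v, hv⟩))
      rw [hsm] at h2
      have h3 : (g : G) * v * (g : G)⁻¹ = v := h2
      exact (mul_inv_eq_iff_eq_mul.1 h3).symm
    rw [hfaith, Subgroup.mem_bot] at h1
    exact Subtype.ext h1
  have hApg : IsPGroup p A' := T.isPGroup'.to_le hA'T
  -- the fixed point `z`
  obtain ⟨z, hzT, hz0⟩ : ∃ z : Ad V hVc, z ∈ fix (Ad V hVc) (T : Subgroup ↥P) ∧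
      z ∉ fix (Ad V hVc) (⊤ : Subgroup ↥P) := by
    by_contra hcon
    push Not at hcon
    apply hii
    rw [eq_bot_iff, Subgroup.commutator_le]
    rintro v ⟨hv, hvT⟩ g hg
    have h1 : (mk ⟨v, hv⟩ : Ad V hVc) ∈ fix (Ad V hVc) (T : Subgroup ↥P) :=
      (mem_fix_iff hVc hPV _ _).2 hvT
    have h2 := hcon _ h1 ⟨g, hg⟩ (Subgroup.mem_top _)
    have h3 := congrArg val h2
    rw [hsm] at h3
    have h4 : g * v * g⁻¹ = v := h3
    rw [Subgroup.mem_bot, commutatorElement_eq_one_iff_mul_comm]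
    exact (mul_inv_eq_iff_eq_mul.1 h4).symm
  obtain ⟨x0, hx0⟩ : ∃ x : ↥P, x ∉ M := by
    by_contra hcon
    push Not at hcon
    exact hM.1 (by rw [eq_top_iff]; intro g _; exact hcon g)
  have hA'ne : A' ≠ ⊥ := by
    intro h0
    have h1 := hgen' x0 hx0
    have hcb : cj x0 (⊥ : Subgroup ↥P) = ⊥ := Subgroup.map_bot _
    rw [h0, hcb, sup_bot_eq] at h1
    apply hTn
    have : (T : Subgroup ↥P) = ⊤ := by
      rw [eq_top_iff, ← h1]; exact bot_le
    rw [this]; infer_instance
  -- quadratic action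
  have hquadV : ∀ a ∈ A', ∀ v : Ad V hVc, a • v - v ∈ fix (Ad V hVc) A' := by
    obtain ⟨B, hBA, hB⟩ := S0598.result (p := p) V A hV (hAP.trans hPV) (by
      have : ⁅A, A⁆ = ⊥ := by
        rw [eq_bot_iff, Subgroup.commutator_le]
        intro a ha b hb
        rw [Subgroup.mem_bot, commutatorElement_eq_one_iff_mul_comm]
        exact congrArg Subtype.val (hAel.1.is_comm.comm (⟨a, ha⟩ : A) ⟨b, hb⟩)
      rw [this]; exact bot_le) V le_rfl
    have hBcases : B = ⊥ ∨ B = A ∨ (Nat.card B * Nat.card (V ⊓ Subgroup.centralizer (B : Set G) : Subgroup G)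
        < Nat.card A * Nat.card (V ⊓ Subgroup.centralizer (A : Set G) : Subgroup G)) := by
      by_cases h1 : B = ⊥
      · exact Or.inl h1
      by_cases h2 : B = A
      · exact Or.inr (Or.inl h2)
      · exact Or.inr (Or.inr (hi.2 B hBA h1 h2))
    have hVb : V ⊓ Subgroup.centralizer (((⊥ : Subgroup G)) : Set G) = V := by
      rw [inf_eq_left]
      intro v _
      rw [Subgroup.mem_centralizer_iff]
      intro b hb
      rw [Subgroup.coe_bot, Set.mem_singleton_iff] at hb
      rw [hb]; simp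
    rcases hB with hlt | ⟨hBeq, hBfix, hBcard⟩
    · exfalso
      rcases hBcases with rfl | rfl | h1
      · rw [Subgroup.card_bot, one_mul, hVb] at hlt
        exact absurd hi.1 (not_le_of_gt hlt)
      · exact lt_irrefl _ hlt
      · exact lt_asymm h1 hlt
    · rcases hBcases with rfl | rfl | h1
      · -- `V = [V, A] C_V(A)`: then `A` acts trivially
        exfalso
        rw [hVb] at hBfix
        have hlt : fix (Ad V hVc) A' < ⊤ := by
          rw [lt_top_iff_ne_top]
          intro h0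
          apply hA'ne
          rw [eq_bot_iff]
          intro a ha
          rw [Subgroup.mem_bot]
          apply hfaithV
          intro v
          have : v ∈ fix (Ad V hVc) A' := by rw [h0]; exact AddSubgroup.mem_top v
          exact this a ha
        obtain ⟨X, hX0, hXt, hXa⟩ := exists_proper hp A' hApg ⊤ (fix (Ad V hVc) A')
          (fun _ _ _ _ => AddSubgroup.mem_top _)
          (fun t ht w hw => by rw [hw t ht]; exact hw) hlt
        -- the subgroup of `G` corresponding to `X`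
        let XG : Subgroup G :=
          { carrier := {g | ∃ h : g ∈ V, (mk ⟨g, h⟩ : Ad V hVc) ∈ X}
            one_mem' := ⟨V.one_mem, X.zero_mem⟩
            mul_mem' := by
              rintro a b ⟨ha, ha'⟩ ⟨hb, hb'⟩
              exact ⟨V.mul_mem ha hb, X.add_mem ha' hb'⟩
            inv_mem' := by
              rintro a ⟨ha, ha'⟩
              exact ⟨V.inv_mem ha, X.neg_mem ha'⟩ }
        have h2 : V ≤ XG := by
          rw [hBfix]
          refine sup_le ?_ ?_
          · rw [Subgroup.commutator_comm, Subgroup.commutator_le]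
            intro a ha v hv
            have h3 := hXa ⟨a, hAP ha⟩ ha (mk ⟨v, hv⟩) (AddSubgroup.mem_top _)
            have h4 := val_mem ((⟨a, hAP ha⟩ : ↥P) • (mk ⟨v, hv⟩ : Ad V hVc) - mk ⟨v, hv⟩)
            have h5 : val ((⟨a, hAP ha⟩ : ↥P) • (mk ⟨v, hv⟩ : Ad V hVc) - mk ⟨v, hv⟩) = ⁅a, v⁆ := by
              rw [val_sub, hsm]; rfl
            have h6 : ⁅a, v⁆ ∈ V := by rw [← h5]; exact h4
            refine ⟨h6, ?_⟩
            have h7 : (mk ⟨⁅a, v⁆, h6⟩ : Ad V hVc) =
                (⟨a, hAP ha⟩ : ↥P) • (mk ⟨v, hv⟩ : Ad V hVc) - mk ⟨v, hv⟩ := val_inj h5.symm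
            rw [h7]; exact h3
          · rintro v ⟨hv, hvA⟩
            refine ⟨hv, hX0 ?_⟩
            rw [mem_fix_iff hVc hPV, hA'map]
            exact hvA
        apply hXt.ne
        rw [eq_top_iff]
        intro v _
        obtain ⟨_, h3⟩ := h2 (val_mem v)
        exact h3
      · -- `A` centralises `[V, A]`
        intro a ha v
        rw [mem_fix_iff hVc hPV, hA'map]
        have h2 : B ≤ Subgroup.centralizer ((⁅V, B⁆ : Subgroup G) : Set G) := by
          rw [← left_eq_inf]; exact hBeq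
        rw [Subgroup.le_centralizer_iff] at h2
        apply h2
        have h3 := comm_mem hVc hPV ha v
        rw [hA'map] at h3
        exact h3
      · exact absurd hBcard.symm h1.ne
  -- the submodule `W` generated by the fixed points of `T`
  let W : AddSubgroup (Ad V hVc) := AddSubgroup.closure
    {v | ∃ g : ↥P, ∃ u ∈ fix (Ad V hVc) (T : Subgroup ↥P), v = g • u}
  have hWinv : ∀ (g : ↥P), ∀ w ∈ W, g • w ∈ W := by
    intro g w hw
    refine AddSubgroup.closure_induction ?_ ?_ ?_ ?_ hw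
    · rintro _ ⟨k, u, hu, rfl⟩
      exact AddSubgroup.subset_closure ⟨g * k, u, hu, (mul_smul g k u).symm⟩
    · rw [smul_zero]; exact W.zero_mem
    · intro a b _ _ ha hb
      rw [smul_add]; exact W.add_mem ha hb
    · intro a _ ha
      rw [smul_neg]; exact W.neg_mem ha
  have hZW : fix (Ad V hVc) (T : Subgroup ↥P) ≤ W := fun u hu =>
    AddSubgroup.subset_closure ⟨1, u, hu, (one_smul _ u).symm⟩
  have H : Hyp p M ⊥ A' T W :=
    { hp := hp
      Winv := hWinv
      TM := hTM
      Mtop := hM.1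
      uniq := huniq
      AT := hA'T
      Rn := inferInstance
      Rtriv := by
        intro r hr w _
        rw [Subgroup.mem_bot] at hr
        rw [hr, one_smul]
      gen := by
        intro x hx K h1 h2 _
        rw [eq_top_iff, ← hgen' x hx]
        exact sup_le h1 h2
      Wgen := by
        intro X hX hZX
        rw [AddSubgroup.closure_le]
        rintro _ ⟨g, u, hu, rfl⟩
        exact hX g u (hZX ⟨hZW hu, hu⟩)
      Zne := ⟨z, hZW hzT, hzT, hz0⟩
      quad := fun a ha w _ => hquadV a ha w }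
  -- the numerical condition
  set A1 := A' ⊓ Hyp.tw W with hA1
  have hA1A : A1 ≤ A' := inf_le_left
  have hWA1 : W ⊔ fix (Ad V hVc) A' ≤ fix (Ad V hVc) A1 :=
    sup_le (fun w hw a ha => ha.2 w hw) (fix_anti hA1A)
  have hA1ne : A1 ≠ A' := by
    intro h0
    apply hz0
    have h1 : A' ≤ MulAction.stabilizer ↥P z := by
      intro a ha
      rw [← h0] at ha
      exact ha.2 z (hZW hzT)
    have h2 : cj x0 A' ≤ MulAction.stabilizer ↥P z := by
      intro b hb
      rw [mem_cj, ← h0] at hb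
      have h3 := hb.2 _ (hWinv x0⁻¹ z (hZW hzT))
      show b • z = z
      have e : b • z = x0 • ((x0⁻¹ * b * x0) • x0⁻¹ • z) := by
        rw [← mul_smul, ← mul_smul]; congr 1; group
      rw [e, h3, smul_inv_smul]
    have h3 : MulAction.stabilizer ↥P z = ⊤ := by
      rw [eq_top_iff, ← hgen' x0 hx0]
      exact sup_le h1 h2
    exact Hyp.fix_of_stab h3
  have hA1m : Nat.card A1 * Nat.card (fix (Ad V hVc) A1) ≤
      Nat.card A' * Nat.card (fix (Ad V hVc) A') := by
    by_cases h0 : A1 = ⊥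
    · rw [h0, Subgroup.card_bot, one_mul]
      refine le_trans ?_ hi1
      exact Nat.card_le_card_of_injective Subtype.val Subtype.val_injective
    · exact (hi2 A1 hA1A h0 hA1ne).le
  have hsup := card_sup_mul_card_inf W (fix (Ad V hVc) A')
  have hle1 : Nat.card (W ⊔ fix (Ad V hVc) A' : AddSubgroup (Ad V hVc)) ≤
      Nat.card (fix (Ad V hVc) A1) :=
    Nat.card_le_card_of_injective (AddSubgroup.inclusion hWA1) (AddSubgroup.inclusion_injective _)
  have hposY : 0 < Nat.card (fix (Ad V hVc) A') := Nat.card_pos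
  have hposWY : 0 < Nat.card (W ⊓ fix (Ad V hVc) A' : AddSubgroup (Ad V hVc)) := Nat.card_pos
  have hs : Nat.card W * Nat.card A1 ≤
      Nat.card A' * Nat.card (W ⊓ fix (Ad V hVc) A' : AddSubgroup (Ad V hVc)) := by
    have h1 : Nat.card (fix (Ad V hVc) A') * (Nat.card W * Nat.card A1) ≤
        Nat.card (fix (Ad V hVc) A') *
          (Nat.card A' * Nat.card (W ⊓ fix (Ad V hVc) A' : AddSubgroup (Ad V hVc))) := by
      calc Nat.card (fix (Ad V hVc) A') * (Nat.card W * Nat.card A1)
          = Nat.card A1 * (Nat.card W * Nat.card (fix (Ad V hVc) A')) := by ring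
        _ = Nat.card A1 * (Nat.card (W ⊔ fix (Ad V hVc) A' : AddSubgroup (Ad V hVc)) *
            Nat.card (W ⊓ fix (Ad V hVc) A' : AddSubgroup (Ad V hVc))) := by rw [hsup]
        _ ≤ Nat.card A1 * (Nat.card (fix (Ad V hVc) A1) *
            Nat.card (W ⊓ fix (Ad V hVc) A' : AddSubgroup (Ad V hVc))) :=
            Nat.mul_le_mul_left _ (Nat.mul_le_mul_right _ hle1)
        _ = (Nat.card A1 * Nat.card (fix (Ad V hVc) A1)) *
            Nat.card (W ⊓ fix (Ad V hVc) A' : AddSubgroup (Ad V hVc)) := by ring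
        _ ≤ (Nat.card A' * Nat.card (fix (Ad V hVc) A')) *
            Nat.card (W ⊓ fix (Ad V hVc) A' : AddSubgroup (Ad V hVc)) :=
            Nat.mul_le_mul_right _ hA1m
        _ = _ := by ring
    exact Nat.le_of_mul_le_mul_left h1 hposY
  have hc4 := H.c4 hs
  rw [← hA1] at hc4
  have hA1bot : A1 = ⊥ := by
    by_contra h0
    have h1 := hi2 A1 hA1A h0 hA1ne
    have h2 : Nat.card (fix (Ad V hVc) A') * (Nat.card W * Nat.card A1) <
        Nat.card (fix (Ad V hVc) A') *
          (Nat.card A' * Nat.card (W ⊓ fix (Ad V hVc) A' : AddSubgroup (Ad V hVc))) := by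
      calc Nat.card (fix (Ad V hVc) A') * (Nat.card W * Nat.card A1)
          = Nat.card A1 * (Nat.card W * Nat.card (fix (Ad V hVc) A')) := by ring
        _ = Nat.card A1 * (Nat.card (W ⊔ fix (Ad V hVc) A' : AddSubgroup (Ad V hVc)) *
            Nat.card (W ⊓ fix (Ad V hVc) A' : AddSubgroup (Ad V hVc))) := by rw [hsup]
        _ ≤ Nat.card A1 * (Nat.card (fix (Ad V hVc) A1) *
            Nat.card (W ⊓ fix (Ad V hVc) A' : AddSubgroup (Ad V hVc))) :=
            Nat.mul_le_mul_left _ (Nat.mul_le_mul_right _ hle1)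
        _ = (Nat.card A1 * Nat.card (fix (Ad V hVc) A1)) *
            Nat.card (W ⊓ fix (Ad V hVc) A' : AddSubgroup (Ad V hVc)) := by ring
        _ < (Nat.card A' * Nat.card (fix (Ad V hVc) A')) *
            Nat.card (W ⊓ fix (Ad V hVc) A' : AddSubgroup (Ad V hVc)) :=
            Nat.mul_lt_mul_of_pos_right h1 hposWY
        _ = _ := by ring
    rw [hc4] at h2
    exact lt_irrefl _ h2
  rw [hA1bot, Subgroup.card_bot, mul_one] at hc4
  have hfaithA : ∀ a ∈ A', (∀ w ∈ W, a • w = w) → a = 1 := by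
    intro a ha haW
    have : a ∈ A1 := ⟨ha, haW⟩
    rw [hA1bot, Subgroup.mem_bot] at this
    exact this
  have hVtop : W ⊔ fix (Ad V hVc) A' = ⊤ := by
    apply AddSubgroup.eq_top_of_le_card
    have h1 : Nat.card (W ⊔ fix (Ad V hVc) A' : AddSubgroup (Ad V hVc)) =
        Nat.card A' * Nat.card (fix (Ad V hVc) A') := by
      have h2 : Nat.card (W ⊓ fix (Ad V hVc) A' : AddSubgroup (Ad V hVc)) *
          Nat.card (W ⊔ fix (Ad V hVc) A' : AddSubgroup (Ad V hVc)) =
          Nat.card (W ⊓ fix (Ad V hVc) A' : AddSubgroup (Ad V hVc)) *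
          (Nat.card A' * Nat.card (fix (Ad V hVc) A')) := by
        rw [mul_comm, hsup, hc4]; ring
      exact Nat.eq_of_mul_eq_mul_left hposWY h2
    rw [h1]; exact hi1
  have hs' : Nat.card W * Nat.card (A' ⊓ Hyp.tw W : Subgroup ↥P) ≤
      Nat.card A' * Nat.card (W ⊓ fix (Ad V hVc) A' : AddSubgroup (Ad V hVc)) := hs
  obtain ⟨hWtop, F, iF, iFin, ρ, ψ, hFc, hρ, hψ, hψk, hact⟩ := H.main hs' hfaithA hVtop hx0
  have hLtop : A' ⊔ cj x0 A' = ⊤ := hgen' x0 hx0
  -- move to `P`
  have hLmem : ∀ g : ↥P, g ∈ A' ⊔ cj x0 A' := fun g => by rw [hLtop]; exact Subgroup.mem_top g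
  let toL : ↥P →* ↥(A' ⊔ cj x0 A') :=
    { toFun := fun g => ⟨g, hLmem g⟩
      map_one' := rfl
      map_mul' := fun _ _ => rfl }
  let σ : ↥P →* Matrix.SpecialLinearGroup (Fin 2) F := ρ.comp toL
  have hσact : ∀ (g : ↥P) (v : Ad V hVc), ψ (g • v) = ((σ g : Matrix.SpecialLinearGroup (Fin 2) F) :
      Matrix (Fin 2) (Fin 2) F).mulVec (ψ v) := fun g v => hact (toL g) v
  have hσs : Function.Surjective σ := by
    intro m
    obtain ⟨g, hg⟩ := hρ m
    exact ⟨g, hg⟩
  have hψk' : ∀ v, ψ v = 0 ↔ v ∈ fix (Ad V hVc) (⊤ : Subgroup ↥P) := by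
    intro v
    rw [hψk, hLtop]
  rw [hLtop] at hWtop
  -- the kernel is trivial
  have hσk : ∀ g : ↥P, σ g = 1 → g = 1 := by
    set N := σ.ker with hN
    have hNact : ∀ g ∈ N, ∀ v : Ad V hVc, g • v - v ∈ fix (Ad V hVc) (⊤ : Subgroup ↥P) := by
      intro g hg v
      rw [← hψk', map_sub, hσact, hg]
      simp
    have hNp : IsPGroup p N := by
      intro g
      refine ⟨1, ?_⟩
      apply Subtype.ext
      apply hfaithV
      intro v
      rw [pow_one]
      have h1 : ∀ n : ℕ, ((g : ↥P) ^ n) • v = v + n • ((g : ↥P) • v - v) := by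
        intro n
        induction n with
        | zero => simp
        | succ n ih =>
          rw [pow_succ', mul_smul, ih, smul_add]
          have h2 : (g : ↥P) • (n • ((g : ↥P) • v - v)) = n • ((g : ↥P) • v - v) :=
            mem_fix_top_smul (AddSubgroup.nsmul_mem _ (hNact g g.2 v) n)
          rw [h2, succ_nsmul]; abel
      show ((g : ↥P) ^ p) • v = v
      rw [h1, hp, add_zero]
    have hNT : N ≤ T := IsPGroup.le_sylow_of_normal hNp T
    have hNW : ∀ g ∈ N, ∀ w ∈ W, g • w = w := by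
      intro g hg w hw
      refine AddSubgroup.closure_induction ?_ ?_ ?_ ?_ hw
      · rintro _ ⟨k, u, hu, rfl⟩
        have h1 : k⁻¹ * g * k ∈ N := by
          have := (inferInstance : N.Normal).conj_mem g hg k⁻¹
          simpa using this
        have h2 := hu _ (hNT h1)
        have e : g • k • u = k • ((k⁻¹ * g * k) • u) := by
          rw [← mul_smul, ← mul_smul]; congr 1; group
        rw [e, h2]
      · rw [smul_zero]
      · intro a b _ _ ha hb
        rw [smul_add, ha, hb]
      · intro a _ ha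
        rw [smul_neg, ha]
    intro g hg
    apply hfaithV
    intro v
    have h1 : v ∈ W ⊔ fix (Ad V hVc) (⊤ : Subgroup ↥P) := by
      rw [hWtop]; exact AddSubgroup.mem_top v
    obtain ⟨w, hw, u, hu, rfl⟩ := AddSubgroup.mem_sup.1 h1
    rw [smul_add, hNW g hg w hw, mem_fix_top_smul hu]
  have hσi : Function.Injective σ := (injective_iff_map_eq_one σ).2 hσk
  have hmaptop : (⊤ : Subgroup ↥P).map P.subtype = P := by
    rw [← MonoidHom.range_eq_map, Subgroup.range_subtype]
  have hfixP : ∀ v : Ad V hVc, v ∈ fix (Ad V hVc) (⊤ : Subgroup ↥P) ↔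
      val v ∈ Subgroup.centralizer (P : Set G) := by
    intro v
    rw [mem_fix_iff hVc hPV, hmaptop]
  refine ⟨F, iF, iFin, ?_, ⟨MulEquiv.ofBijective σ ⟨hσi, hσs⟩⟩, ?_, ?_⟩
  · rw [hFc, ← hmapc A', hA'map]
  · apply le_antisymm
    · rintro v ⟨hv, hvA⟩
      have hvf : (mk ⟨v, hv⟩ : Ad V hVc) ∈ fix (Ad V hVc) A' := by
        rw [mem_fix_iff hVc hPV, hA'map]; exact hvA
      have h1 : (mk ⟨v, hv⟩ : Ad V hVc) ∈ W ⊔ fix (Ad V hVc) (⊤ : Subgroup ↥P) := by
        rw [hWtop]; exact AddSubgroup.mem_top _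
      obtain ⟨w, hw, u, hu, hwu⟩ := AddSubgroup.mem_sup.1 h1
      have hwA : w ∈ fix (Ad V hVc) A' := by
        have : w = (mk ⟨v, hv⟩ : Ad V hVc) - u := by rw [← hwu]; abel
        rw [this]
        exact AddSubgroup.sub_mem _ hvf (fix_anti le_top hu)
      obtain ⟨a, ha, ha1⟩ : ∃ a : ↥P, a ∈ A' ∧ a ≠ 1 := by
        by_contra hcon
        push Not at hcon
        exact hA'ne ((Subgroup.eq_bot_iff_forall A').2 hcon)
      obtain ⟨w', hw', h2⟩ := H.comm_eq ha (fun h0 => ha1 (hfaithA a ha h0)) ⟨hw, hwA⟩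
      have e : v = val (a • w' - w') * val (w - (a • w' - w') + u) := by
        rw [← val_add]
        have : a • w' - w' + (w - (a • w' - w') + u) = mk ⟨v, hv⟩ := by
          rw [← hwu]; abel
        rw [this]; rfl
      rw [e]
      have m1 : val (a • w' - w') ∈ ⁅V, A⁆ := by
        have := comm_mem hVc hPV ha w'
        rw [hA'map] at this
        exact this
      have m2 : val (w - (a • w' - w') + u) ∈ V ⊓ Subgroup.centralizer (P : Set G) :=
        ⟨val_mem _, (hfixP _).1 (AddSubgroup.add_mem _ h2 hu)⟩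
      exact Subgroup.mul_mem_sup m1 m2
    · refine sup_le ?_ ?_
      · rw [Subgroup.commutator_comm, Subgroup.commutator_le]
        intro a ha v hv
        have h1 := hquadV ⟨a, hAP ha⟩ ha (mk ⟨v, hv⟩)
        rw [mem_fix_iff hVc hPV, hA'map] at h1
        have h2 := val_mem ((⟨a, hAP ha⟩ : ↥P) • (mk ⟨v, hv⟩ : Ad V hVc) - mk ⟨v, hv⟩)
        have h5 : val ((⟨a, hAP ha⟩ : ↥P) • (mk ⟨v, hv⟩ : Ad V hVc) - mk ⟨v, hv⟩) = ⁅a, v⁆ := by
          rw [val_sub, hsm]; rfl
        rw [h5] at h1 h2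
        exact ⟨h2, h1⟩
      · exact inf_le_inf_left V (Subgroup.centralizer_le hAP)
  · refine ⟨hPV, inf_le_left, σ, ?_, ?_, ?_, ?_, ?_⟩
    · exact
        { toFun := fun u => Multiplicative.ofAdd (ψ (mk u))
          map_one' := by
            have : (mk (1 : ↥V) : Ad V hVc) = 0 := rfl
            rw [this, map_zero]; rfl
          map_mul' := fun u v => by
            have : (mk (u * v) : Ad V hVc) = mk u + mk v := rfl
            rw [this, map_add]; rfl }
    · exact MonoidHom.range_eq_top.2 hσs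
    · intro f
      obtain ⟨v, hv⟩ := hψ (Multiplicative.toAdd f)
      exact ⟨Additive.toMul v, congrArg Multiplicative.ofAdd hv⟩
    · intro u
      show Multiplicative.ofAdd (ψ (mk u)) = 1 ↔ _
      rw [ofAdd_eq_one, hψk', hfixP]
      constructor
      · intro h
        exact ⟨u.2, h⟩
      · intro h
        exact h.2
    · intro e u
      refine ⟨⟨e * u * (e : G)⁻¹, conj_mem hPV e.2 u.2⟩, rfl, ?_⟩
      exact hσact e (mk u)

end Cfsg.Agent.S2999
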