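import Cfsg.Statements.S3003
import Cfsg.Agent.Lib.CoprimeHyperplane

set_option autoImplicit false
open Cfsg

namespace Cfsg.Agent.S3003

/-- Let G be a finite group, p a prime and Q a large p-subgroup of G: C_G(Q) ≤ Q and N_G(U) ≤ N_G(Q) for every nontrivial subgroup U of C_G(Q). Let Q ≤ G₁ ≤ G, let R be a subgroup of order prime to p normalized by G₁, and let U ≤ G₁ be a p-subgroup. If U contains a nontrivial element which is G₁-conjugate to an element of Z(Q), then C_R(U) = 1. In particular, if U is elementary abelian of order at least p² and every maximal subgroup of U contains a nontrivial element G₁-conjugate into Z(Q), then R = 1. -/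
theorem result {G : Type*} [Group G] [Finite G] {p : ℕ} [Fact p.Prime] (Q : Subgroup G) (hQp : IsPGroup p ↥Q) (hlarge : Cfsg.IsLarge Q) (G₁ : Subgroup G) (hQG : Q ≤ G₁) (R : Subgroup G) (hR : (Nat.card ↥R).Coprime p) (hGR : G₁ ≤ Subgroup.normalizer (R : Set G)) (U : Subgroup G) (hUG : U ≤ G₁) (hUp : IsPGroup p ↥U) : ((∃ x ∈ U, x ≠ 1 ∧ ∃ g ∈ G₁, g * x * g⁻¹ ∈ Q ⊓ Subgroup.centralizer (Q : Set G)) → R ⊓ Subgroup.centralizer (U : Set G) = ⊥) ∧ (Cfsg.IsElementaryAbelian p U → p ^ 2 ≤ Nat.card ↥U → (∀ U₀ : Subgroup G, U₀ ≤ U → IsCoatom (U₀.subgroupOf U) → ∃ x ∈ U₀, x ≠ 1 ∧ ∃ g ∈ G₁, g * x * g⁻¹ ∈ Q ⊓ Subgroup.centralizer (Q : Set G)) → R = ⊥) := by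
  classical
  have hp : p.Prime := Fact.out
  -- `Q ∩ R = 1`
  have hQR : ∀ y : G, y ∈ Q → y ∈ R → y = 1 := by
    intro y hyQ hyR
    obtain ⟨k, hk⟩ := hQp ⟨y, hyQ⟩
    have hk' : y ^ p ^ k = 1 := by simpa using congrArg Subtype.val hk
    have h1 : orderOf y ∣ p ^ k := orderOf_dvd_of_pow_eq_one hk'
    have h2 : orderOf y ∣ Nat.card R := by
      rw [← Subgroup.orderOf_mk y hyR]; exact orderOf_dvd_natCard _
    have h3 : (orderOf y).Coprime (p ^ k) :=
      Nat.Coprime.pow_right k (Nat.Coprime.coprime_dvd_left h2 hR)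
    have h4 : orderOf y = 1 := Nat.Coprime.eq_one_of_dvd h3 h1
    exact orderOf_eq_one_iff.1 h4
  -- the key step: one element
  have key : ∀ x : G, x ≠ 1 → (∃ g ∈ G₁, g * x * g⁻¹ ∈ Q ⊓ Subgroup.centralizer (Q : Set G)) →
      ∀ r ∈ R, r * x = x * r → r = 1 := by
    rintro x hx ⟨g, hg, hz⟩ r hr hrx
    set z := g * x * g⁻¹ with hzdef
    have hz1 : z ≠ 1 := by
      intro h
      apply hx
      have : x = g⁻¹ * z * g := by rw [hzdef]; group
      rw [this, h]; group
    set s := g * r * g⁻¹ with hs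
    have hsR : s ∈ R := (Subgroup.mem_normalizer_iff.1 (hGR hg) r).1 hr
    have hsz : s * z = z * s := by
      rw [hs, hzdef]
      calc g * r * g⁻¹ * (g * x * g⁻¹) = g * (r * x) * g⁻¹ := by group
        _ = g * (x * r) * g⁻¹ := by rw [hrx]
        _ = _ := by group
    have hsN : s ∈ Subgroup.normalizer (Q : Set G) := by
      apply hlarge.2 (Subgroup.zpowers z)
      · rw [Subgroup.zpowers_le]; exact hz.2
      · rw [Ne, Subgroup.zpowers_eq_bot]; exact hz1
      · have hc : s ∈ Subgroup.centralizer ((Subgroup.zpowers z : Subgroup G) : Set G) := by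
          rw [Subgroup.mem_centralizer_iff]
          intro h hh
          obtain ⟨n, rfl⟩ := Subgroup.mem_zpowers_iff.1 hh
          have : Commute s z := hsz
          exact ((this.zpow_right n).eq).symm
        exact Subgroup.centralizer_le_normalizer _ hc
    have hsC : s ∈ Subgroup.centralizer (Q : Set G) := by
      rw [Subgroup.mem_centralizer_iff]
      intro q hq
      have hqR : q ∈ Subgroup.normalizer (R : Set G) := hGR (hQG hq)
      have h1 : q * s * q⁻¹ * s⁻¹ ∈ R :=
        R.mul_mem ((Subgroup.mem_normalizer_iff.1 hqR s).1 hsR) (R.inv_mem hsR)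
      have h2 : q * s * q⁻¹ * s⁻¹ ∈ Q := by
        have : q * (s * q⁻¹ * s⁻¹) ∈ Q :=
          Q.mul_mem hq ((Subgroup.mem_normalizer_iff.1 hsN q⁻¹).1 (Q.inv_mem hq))
        convert this using 1; group
      have h3 := hQR _ h2 h1
      have : q * s = s * q := by
        calc q * s = (q * s * q⁻¹ * s⁻¹) * (s * q) := by group
          _ = s * q := by rw [h3, one_mul]
      exact this
    have hs1 : s = 1 := hQR s (hlarge.1 hsC) hsR
    have : r = g⁻¹ * s * g := by rw [hs]; group
    rw [this, hs1]; group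
  refine ⟨?_, ?_⟩
  · rintro ⟨x, hxU, hx1, hx⟩
    rw [eq_bot_iff]
    rintro r ⟨hrR, hrC⟩
    rw [Subgroup.mem_bot]
    exact key x hx1 hx r hrR ((Subgroup.mem_centralizer_iff.1 hrC x hxU).symm)
  · intro hUe hcard hmax
    have hU1 : U ≠ ⊥ := by
      rintro rfl
      rw [Subgroup.card_bot] at hcard
      have : 2 ^ 2 ≤ p ^ 2 := Nat.pow_le_pow_left hp.two_le 2
      omega
    rw [Cfsg.Agent.Lib.CoprimeHyperplane.le_iSup_hyperplane U R hUe hU1 hR
      (hUG.trans hGR)]
    rw [eq_bot_iff]
    refine iSup_le ?_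
    rintro ⟨B, hBU, hBi⟩
    have hco : IsCoatom (B.subgroupOf U) := by
      have hidx : (B.subgroupOf U).index = p := hBi
      constructor
      · intro h
        rw [h, Subgroup.index_top] at hidx
        exact hp.one_lt.ne hidx
      · intro K hK
        have h1 : K.index ∣ p := hidx ▸ Subgroup.index_dvd_of_le hK.le
        rcases (Nat.dvd_prime hp).1 h1 with h | h
        · exact Subgroup.index_eq_one.1 h
        · exfalso
          have h2 := Subgroup.relIndex_mul_index hK.le
          rw [hidx, h] at h2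
          have h3 : (B.subgroupOf U).relIndex K = 1 := by
            have := hp.pos
            exact Nat.eq_of_mul_eq_mul_right this (by rw [h2, one_mul])
          exact hK.not_ge (Subgroup.relIndex_eq_one.1 h3)
    obtain ⟨x, hxB, hx1, hx⟩ := hmax B hBU hco
    rintro r ⟨hrR, hrC⟩
    rw [Subgroup.mem_bot]
    exact key x hx1 hx r hrR ((Subgroup.mem_centralizer_iff.1 hrC x hxB).symm)

end Cfsg.Agent.S3003
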