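import Cfsg.Statements.S3008
import Cfsg.Agent.H264.MinNormal

set_option autoImplicit false
open Cfsg

namespace Cfsg.Agent.S3008

open Cfsg.Agent.H264.CD

/-- Let P be a finite p-group, with J(P) generated by its abelian subgroups of largest order and J̃(P) = C_P(Z(J(P))); call R ≤ P centrally large if |R|·|Z(R)| is as large as possible, and let P_MCL be generated by the minimal centrally large subgroups. Then: for every centrally large Q, Q·J(P) ⊇ J̃(P); some minimal centrally large subgroup of P is normalized by both J(P) and P_MCL; if P = J(P) and d(P)² = |P|·|Z(P)|, where d(P) is the largest order of an abelian subgroup, then every minimal centrally large subgroup of P is abelian; and if every minimal centrally large subgroup is abelian then J̃(P) = J(P). -/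
theorem result {p : ℕ} [Fact p.Prime] (P : Type*) [Group P] [Finite P] (hP : IsPGroup p P) : (∀ Q : Subgroup P, Cfsg.IsCentrallyLarge Q → Subgroup.centralizer ((Cfsg.thompsonSubgroupA P ⊓ Subgroup.centralizer (Cfsg.thompsonSubgroupA P : Set P) : Subgroup P) : Set P) ≤ Q ⊔ Cfsg.thompsonSubgroupA P) ∧ (∃ Q : Subgroup P, Cfsg.IsMinimalCentrallyLarge Q ∧ Cfsg.thompsonSubgroupA P ≤ Subgroup.normalizer (Q : Set P) ∧ Cfsg.minimalCentrallyLargeJoin P ≤ Subgroup.normalizer (Q : Set P)) ∧ (Cfsg.thompsonSubgroupA P = ⊤ → (∀ A ∈ Cfsg.maxAbelianSubgroups P, Nat.card ↥A ^ 2 = Nat.card P * Nat.card ↥(Subgroup.center P)) → ∀ Q : Subgroup P, Cfsg.IsMinimalCentrallyLarge Q → IsMulCommutative ↥Q) ∧ ((∀ Q : Subgroup P, Cfsg.IsMinimalCentrallyLarge Q → IsMulCommutative ↥Q) → Subgroup.centralizer ((Cfsg.thompsonSubgroupA P ⊓ Subgroup.centralizer (Cfsg.thompsonSubgroupA P : Set P) : Subgroup P) : Set P) = Cfsg.thompsonSubgroupA P) := by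
  refine ⟨fun Q hQ => thompson_le hQ, Cfsg.Agent.H264.MinNormal.exists_min_normal hP, ?_, ?_⟩
  · intro hJ hd Q hQ
    -- `P` itself is centrally large
    have h1 : IsCentrallyLarge (⊤ : Subgroup P) := by
      have h2 := centralizer_le_of_thompson_le (G := P) isCentrallyLarge_join thompson_le_join
      rw [hJ, top_inf_eq] at h2
      have h3 : Subgroup.centralizer ((Subgroup.centralizer ((⊤ : Subgroup P) : Set P) : Subgroup P) : Set P) = ⊤ := by
        rw [eq_top_iff]
        exact le_cc ⊤
      rw [h3, top_le_iff] at h2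
      rw [← h2]
      exact isCentrallyLarge_join
    obtain ⟨A, hA⟩ := MA.exists_mem (G := P)
    have h2 := ((isCentrallyLarge_iff _).mp h1).1
    unfold IsCentralizerLarge at h2
    rw [Subgroup.coe_top, Subgroup.centralizer_univ] at h2
    have h3 : Nat.card (⊤ : Subgroup P) = Nat.card P := Subgroup.card_top
    rw [h3, ← hd A hA] at h2
    have hAcl : IsCentrallyLarge A := by
      rw [isCentrallyLarge_iff]
      refine ⟨?_, (MA.centralizer_eq hA).le⟩
      unfold IsCentralizerLarge
      rw [MA.centralizer_eq hA, ← h2, sq]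
    obtain ⟨R, hRA, hR⟩ := exists_min_le hAcl
    have hRc : R ≤ Subgroup.centralizer (R : Set P) :=
      hRA.trans ((MA.le_cent hA).trans (Subgroup.centralizer_le (SetLike.coe_subset_coe.mpr hRA)))
    exact ((min_iff_of_comm hR hRc Q).mp hQ).1
  · intro hall
    obtain ⟨Q, hQ⟩ := exists_min (G := P)
    have hQc := (isMulCommutative_iff Q).mp (hall Q hQ)
    have h1 : minimalCentrallyLargeJoin P = thompsonSubgroupA P := by
      unfold minimalCentrallyLargeJoin thompsonSubgroupA
      congr 1
      ext X
      exact min_iff_of_comm hQ hQc X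
    have h2 := isCentrallyLarge_minJoin (G := P)
    rw [h1] at h2
    rw [inf_centralizer_eq h2]
    exact CL.cc ((isCentrallyLarge_iff _).mp h2).1

end Cfsg.Agent.S3008
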