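import Cfsg.Statements.S3009
import Cfsg.Agent.H264.NatSL2

set_option autoImplicit false
set_option linter.style.haveILetI false
open Cfsg

namespace Cfsg.Agent.S3009

open Cfsg.Agent.H264.NatSL2

section Aux

variable {X : Type*} [Group X] (G V : Subgroup X) {F : Type*} [Field F]

/-- the commutative group structure -/
@[reducible] def cgV (hV : IsMulCommutative ↥V) : CommGroup ↥V :=
  { (inferInstance : Group ↥V) with mul_comm := hV.is_comm.comm }

/-- the action of `SL₂(F)` on the module -/
@[reducible] def actV (hV : IsMulCommutative ↥V) (hGV : G ≤ Subgroup.normalizer (V : Set X))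
    (e : ↥G ≃* Matrix.SpecialLinearGroup (Fin 2) F) :
    letI := cgV V hV
    DistribMulAction (Matrix.SpecialLinearGroup (Fin 2) F) (Additive ↥V) :=
  letI := cgV V hV
  { smul := fun g m => Additive.ofMul ⟨(e.symm g : X) * m.toMul * (e.symm g : X)⁻¹,
      (Subgroup.mem_normalizer_iff.mp (hGV (e.symm g).2) _).mp m.toMul.2⟩
    one_smul := by
      intro m
      refine Additive.toMul.injective (Subtype.ext ?_)
      change (e.symm 1 : X) * m.toMul * (e.symm 1 : X)⁻¹ = m.toMul
      simp
    mul_smul := by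
      intro g h m
      refine Additive.toMul.injective (Subtype.ext ?_)
      change (e.symm (g * h) : X) * m.toMul * (e.symm (g * h) : X)⁻¹ =
        (e.symm g : X) * ((e.symm h : X) * m.toMul * (e.symm h : X)⁻¹) * (e.symm g : X)⁻¹
      rw [map_mul, Subgroup.coe_mul]
      group
    smul_zero := by
      intro g
      refine Additive.toMul.injective (Subtype.ext ?_)
      change (e.symm g : X) * ((1 : ↥V) : X) * (e.symm g : X)⁻¹ = ((1 : ↥V) : X)
      simp
    smul_add := by
      intro g x y
      refine Additive.toMul.injective (Subtype.ext ?_)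
      change (e.symm g : X) * ((x.toMul * y.toMul : ↥V) : X) * (e.symm g : X)⁻¹ =
        ((e.symm g : X) * x.toMul * (e.symm g : X)⁻¹) * ((e.symm g : X) * y.toMul * (e.symm g : X)⁻¹)
      rw [Subgroup.coe_mul]
      group }

open scoped Pointwise in
/-- an isomorphism under which the upper unitriangular group corresponds to a subgroup of a given Sylow subgroup -/
theorem exists_iso {G : Type*} [Group G] [Finite G] {p : ℕ} [Fact p.Prime] {F : Type*} [Field F] [Fintype F] {n : ℕ}
    (hF : Fintype.card F = p ^ n) (hG : Nonempty (G ≃* Matrix.SpecialLinearGroup (Fin 2) F)) (S : Sylow p G) :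
    ∃ e : G ≃* Matrix.SpecialLinearGroup (Fin 2) F, ∀ s : F, e.symm (u s) ∈ (S : Subgroup G) := by
  obtain ⟨e⟩ := hG
  let f : Multiplicative F →* G :=
    { toFun := fun s => e.symm (u s.toAdd)
      map_one' := by
        change e.symm (u (0 : F)) = 1
        rw [u_zero, map_one]
      map_mul' := fun s t => by
        change e.symm (u (s.toAdd + t.toAdd)) = _
        rw [u_add, map_mul] }
  have hpg : IsPGroup p (Multiplicative F) := IsPGroup.of_card (n := n) (by
    rw [← hF, ← Nat.card_eq_fintype_card]; rfl)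
  have hf : IsPGroup p f.range := hpg.of_surjective f.rangeRestrict f.rangeRestrict_surjective
  obtain ⟨Q, hQ⟩ := hf.exists_le_sylow
  obtain ⟨x, hx⟩ := MulAction.exists_smul_eq G S Q
  refine ⟨(MulAut.conj x).trans e, fun s => ?_⟩
  have h1 : e.symm (u s) ∈ (Q : Subgroup G) := hQ ⟨Multiplicative.ofAdd s, rfl⟩
  rw [← hx] at h1
  have h2 : e.symm (u s) ∈ MulAut.conj x • (S : Subgroup G) := h1
  rw [Subgroup.mem_pointwise_smul_iff_inv_smul_mem] at h2
  exact h2

end Aux

/-- Let p be a prime and let G and V be subgroups of a finite group with V elementary abelian and normalized by G, and G isomorphic to SL₂(F) for a finite field F with pⁿ elements. Suppose G acts irreducibly and nontrivially on V by conjugation (no G-invariant subgroups of V other than 1 and V, and [V, G] ≠ 1), and let S be a Sylow p-subgroup of G and V₀ = C_V(S). If [V, S, S] = 1 or |V| ≤ |V₀|², then G acts on V as SL₂(F) on its natural two-dimensional module; in particular |V| = |F|². -/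
theorem result {X : Type*} [Group X] [Finite X] {p : ℕ} [Fact p.Prime] (G V : Subgroup X) (hV : Cfsg.IsElementaryAbelian p V) (hGV : G ≤ Subgroup.normalizer (V : Set X)) (F : Type) [Field F] [Fintype F] (n : ℕ) (hF : Fintype.card F = p ^ n) (hG : Nonempty (↥G ≃* Matrix.SpecialLinearGroup (Fin 2) F)) (hirr : ∀ U : Subgroup X, U ≤ V → G ≤ Subgroup.normalizer (U : Set X) → U = ⊥ ∨ U = V) (hnt : ⁅V, G⁆ ≠ ⊥) (S : Sylow p ↥G) (hyp : ⁅⁅V, (S : Subgroup ↥G).map G.subtype⁆, (S : Subgroup ↥G).map G.subtype⁆ = ⊥ ∨ Nat.card ↥V ≤ Nat.card ↥(V ⊓ Subgroup.centralizer (((S : Subgroup ↥G).map G.subtype : Subgroup X) : Set X)) ^ 2) : Cfsg.ActsAsSL2OnSection F ⊤ G V ⊥ := by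
  -- an isomorphism under which the upper unitriangular group corresponds to a subgroup of `S`
  obtain ⟨e, he⟩ : ∃ e : ↥G ≃* Matrix.SpecialLinearGroup (Fin 2) F, ∀ s : F, e.symm (u s) ∈ (S : Subgroup ↥G) := by
    exact exists_iso hF hG S
  letI := cgV V hV.1
  letI : DistribMulAction (Matrix.SpecialLinearGroup (Fin 2) F) (Additive ↥V) := actV G V hV.1 hGV e
  have hsm : ∀ (g : Matrix.SpecialLinearGroup (Fin 2) F) (m : Additive ↥V),
      (((g • m).toMul : ↥V) : X) = (e.symm g : X) * m.toMul * (e.symm g : X)⁻¹ := fun _ _ => rfl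
  have hsme : ∀ (g : ↥G) (m : Additive ↥V),
      (((e g • m).toMul : ↥V) : X) = (g : X) * m.toMul * (g : X)⁻¹ := by
    intro g m
    rw [hsm, e.symm_apply_apply]
  have hext : ∀ m m' : Additive ↥V, ((m.toMul : ↥V) : X) = ((m'.toMul : ↥V) : X) → m = m' :=
    fun m m' h => Additive.toMul.injective (Subtype.ext h)
  have hI : Irr F (Additive ↥V) := by
    constructor
    · intro U hU
      let U' : Subgroup X := (AddSubgroup.toSubgroup' U).map V.subtype
      have hUV : U' ≤ V := by
        rintro _ ⟨y, -, rfl⟩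
        exact y.2
      have hmem : ∀ (x : X) (hx : x ∈ V), x ∈ U' ↔ Additive.ofMul (⟨x, hx⟩ : ↥V) ∈ U := by
        intro x hx
        constructor
        · rintro ⟨y, hy, hyx⟩
          have : y = ⟨x, hx⟩ := Subtype.ext hyx
          rw [← this]
          exact hy
        · intro h
          exact ⟨⟨x, hx⟩, h, rfl⟩
      have hinv : ∀ g : ↥G, ∀ x ∈ U', (g : X) * x * (g : X)⁻¹ ∈ U' := by
        intro g x hx
        have hxV := hUV hx
        have h1 := hU (e g) _ ((hmem x hxV).mp hx)
        have h2 : (g : X) * x * (g : X)⁻¹ ∈ V := (Subgroup.mem_normalizer_iff.mp (hGV g.2) _).mp hxV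
        refine (hmem _ h2).mpr ?_
        have h3 : (e g • Additive.ofMul (⟨x, hxV⟩ : ↥V)) = Additive.ofMul ⟨(g : X) * x * (g : X)⁻¹, h2⟩ := by
          apply hext
          rw [hsme]
          rfl
        rwa [h3] at h1
      have hN : G ≤ Subgroup.normalizer (U' : Set X) := by
        intro g hg
        rw [Subgroup.mem_normalizer_iff]
        intro x
        constructor
        · exact hinv ⟨g, hg⟩ x
        · intro hx
          have := hinv (⟨g, hg⟩⁻¹) _ hx
          have h4 : (((⟨g, hg⟩ : ↥G)⁻¹ : ↥G) : X) * (g * x * g⁻¹) * (((⟨g, hg⟩ : ↥G)⁻¹ : ↥G) : X)⁻¹ = x := by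
            simp only [Subgroup.coe_inv]
            group
          rwa [h4] at this
      rcases hirr U' hUV hN with h | h
      · left
        rw [eq_bot_iff]
        intro m hm
        have h1 : ((m.toMul : ↥V) : X) ∈ U' := (hmem _ m.toMul.2).mpr hm
        rw [h, Subgroup.mem_bot] at h1
        rw [AddSubgroup.mem_bot]
        exact hext m 0 h1
      · right
        rw [eq_top_iff]
        intro m _
        have h1 : ((m.toMul : ↥V) : X) ∈ U' := by rw [h]; exact m.toMul.2
        exact (hmem _ m.toMul.2).mp h1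
    · by_contra hcon
      push Not at hcon
      apply hnt
      rw [Subgroup.commutator_eq_bot_iff_le_centralizer]
      intro v hv
      rw [Subgroup.mem_centralizer_iff]
      intro g hg
      have h1 := hcon (e ⟨g, hg⟩) (Additive.ofMul ⟨v, hv⟩)
      have h2 := congrArg (fun m : Additive ↥V => ((m.toMul : ↥V) : X)) h1
      rw [hsme] at h2
      have h3 : g * v * g⁻¹ = v := h2
      rw [mul_inv_eq_iff_eq_mul] at h3
      exact h3
  have hcard : ∃ k, Nat.card (Additive ↥V) = p ^ k := by
    have hpg : IsPGroup p ↥V := by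
      intro v
      refine ⟨1, ?_⟩
      rw [pow_one]
      exact Subtype.ext (hV.2 v v.2)
    obtain ⟨k, hk⟩ := IsPGroup.iff_card.mp hpg
    exact ⟨k, hk⟩
  have hq : Quad F (Additive ↥V) := by
    rcases hyp with hyp | hyp
    · intro s m t
      apply hext
      have hs := he s
      have ht := he t
      set a : X := (e.symm (u s) : X) with ha
      set b : X := (e.symm (u t) : X) with hb
      have haS : a ∈ (S : Subgroup ↥G).map G.subtype := ⟨_, hs, rfl⟩
      have hbS : b ∈ (S : Subgroup ↥G).map G.subtype := ⟨_, ht, rfl⟩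
      set v : X := ((m.toMul : ↥V) : X) with hv
      have hvV : v ∈ V := m.toMul.2
      have h1 : v * a * v⁻¹ * a⁻¹ ∈ ⁅V, (S : Subgroup ↥G).map G.subtype⁆ :=
        Subgroup.commutator_mem_commutator hvV haS
      have h2 : (v * a * v⁻¹ * a⁻¹) * b * (v * a * v⁻¹ * a⁻¹)⁻¹ * b⁻¹ = 1 := by
        have := Subgroup.commutator_mem_commutator h1 hbS
        rw [hyp, Subgroup.mem_bot] at this
        exact this
      have h3 : (((u s • m - m).toMul : ↥V) : X) = (v * a * v⁻¹ * a⁻¹)⁻¹ := by
        have h4 : (((u s • m - m).toMul : ↥V) : X) = (((u s • m).toMul : ↥V) : X) * ((m.toMul : ↥V) : X)⁻¹ := by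
          rw [sub_eq_add_neg]
          rfl
        rw [h4, hsm, ← ha, ← hv]
        group
      rw [hsm, h3, ← hb]
      rw [mul_inv_eq_one] at h2
      rw [mul_inv_eq_iff_eq_mul] at h2
      rw [mul_inv_eq_iff_eq_mul]
      -- c b = b c ⟹ b c⁻¹ = c⁻¹ b
      set c := v * a * v⁻¹ * a⁻¹ with hc
      rw [eq_inv_mul_iff_mul_eq, ← mul_assoc, h2, mul_inv_cancel_right]
    · refine quad_of_card (p := p) hI ⟨n, by rw [← hF, Nat.card_eq_fintype_card]⟩ hcard ?_
      refine le_trans (le_of_eq rfl) (hyp.trans (Nat.pow_le_pow_left ?_ 2))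
      refine Nat.card_le_card_of_injective (fun x : ↥(V ⊓ Subgroup.centralizer
        (((S : Subgroup ↥G).map G.subtype : Subgroup X) : Set X)) => (⟨Additive.ofMul ⟨(x : X), x.2.1⟩, ?_⟩ :
          VA F (Additive ↥V))) ?_
      · intro s
        apply hext
        rw [hsm]
        have h1 := Subgroup.mem_centralizer_iff.mp x.2.2 (e.symm (u s) : X) ⟨_, he s, rfl⟩
        change (e.symm (u s) : X) * (x : X) * (e.symm (u s) : X)⁻¹ = x
        rw [h1, mul_inv_cancel_right]
      · intro x y hxy
        have h1 := congrArg (fun m : VA F (Additive ↥V) => (((m : Additive ↥V).toMul : ↥V) : X)) hxy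
        exact Subtype.ext h1
  obtain ⟨φ, hφ, hequiv⟩ := exists_equiv hI hq
  let Φ : (Fin 2 → F) ≃+ Additive ↥V := AddEquiv.ofBijective φ hφ
  have hΦ : ∀ v, Φ v = φ v := fun v => rfl
  refine ⟨hGV, bot_le, e.toMonoidHom,
    { toFun := fun v => Multiplicative.ofAdd (Φ.symm (Additive.ofMul v))
      map_one' := by
        change Multiplicative.ofAdd (Φ.symm 0) = 1
        rw [map_zero]; rfl
      map_mul' := fun x y => by
        change Multiplicative.ofAdd (Φ.symm (Additive.ofMul x + Additive.ofMul y)) = _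
        rw [map_add]; rfl }, ?_, ?_, ?_, ?_⟩
  · exact MonoidHom.range_eq_top.mpr e.surjective
  · intro v
    refine ⟨(Φ v.toAdd).toMul, ?_⟩
    change Multiplicative.ofAdd (Φ.symm (Φ v.toAdd)) = v
    rw [Φ.symm_apply_apply]; rfl
  · intro v
    rw [Subgroup.mem_bot]
    change Multiplicative.ofAdd (Φ.symm (Additive.ofMul v)) = 1 ↔ _
    constructor
    · intro h
      have h1 : Φ.symm (Additive.ofMul v) = 0 := h
      rw [EmbeddingLike.map_eq_zero_iff] at h1
      have h2 : v = 1 := h1
      rw [h2]; rfl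
    · intro h
      have h2 : v = 1 := Subtype.ext h
      rw [h2]
      change Multiplicative.ofAdd (Φ.symm 0) = 1
      rw [map_zero]; rfl
  · intro g v
    refine ⟨(e g • Additive.ofMul v).toMul, ?_, ?_⟩
    · rw [hsme]; rfl
    · change Φ.symm (e g • Additive.ofMul v) = ((e g : Matrix.SpecialLinearGroup (Fin 2) F) :
        Matrix (Fin 2) (Fin 2) F).mulVec (Φ.symm (Additive.ofMul v))
      rw [AddEquiv.symm_apply_eq, hΦ, hequiv, ← hΦ, Φ.apply_symm_apply]

end Cfsg.Agent.S3009
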