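import Cfsg.Statements.S3015
import Cfsg.Agent.H266.TransferIdx

set_option autoImplicit false
open Cfsg

namespace Cfsg.Agent.S3015

/-- An element outside `M` such that `M ∩ gMg⁻¹` is contained neither in `H` nor in `gHg⁻¹`. -/
theorem exists_bad {G : Type*} [Group G] [Finite G] [IsSimpleGroup G] (hG : ¬ IsMulCommutative G)
    (M H : Subgroup G) (hHn : (H.subgroupOf M).Normal)
    (hidx : (H.relIndex M).Prime) :
    ∃ g : G, g ∉ M ∧ (∃ x ∈ M, g⁻¹ * x * g ∈ M ∧ x ∉ H ∧ g⁻¹ * x * g ∉ H) := by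
  by_contra hcon
  push Not at hcon
  have := hHn
  have : Fact (H.relIndex M).Prime := ⟨hidx⟩
  have hcard : Nat.card (M ⧸ H.subgroupOf M) = H.relIndex M := rfl
  have : IsCyclic (M ⧸ H.subgroupOf M) := isCyclic_of_prime_card (p := H.relIndex M) hcard
  let _ : CommGroup (M ⧸ H.subgroupOf M) := IsCyclic.commGroup
  let φ : M →* (M ⧸ H.subgroupOf M) := QuotientGroup.mk' (H.subgroupOf M)
  have hker : ∀ m : M, φ m = 1 ↔ (m : G) ∈ H := by
    intro m
    change (m : M ⧸ H.subgroupOf M) = 1 ↔ _
    rw [QuotientGroup.eq_one_iff, Subgroup.mem_subgroupOf]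
  have hne : ∃ m, φ m ≠ 1 := by
    by_contra hall
    push Not at hall
    have hle : M ≤ H := fun x hx => (hker ⟨x, hx⟩).mp (hall ⟨x, hx⟩)
    have : H.relIndex M = 1 := Subgroup.relIndex_eq_one.mpr hle
    exact hidx.one_lt.ne' this
  obtain ⟨x, hx⟩ := H266.TransferIdx.transfer_ne_one M φ hne (by
    intro g hg x hx hx'
    by_cases h1 : x ∈ H
    · left
      exact (hker ⟨x, hx⟩).mpr h1
    · right
      exact (hker ⟨_, hx'⟩).mpr (hcon g hg x hx hx' h1))
  have hkn : (MonoidHom.ker (MonoidHom.transfer φ)).Normal := MonoidHom.normal_ker _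
  rcases hkn.eq_bot_or_eq_top with hb | ht
  · apply hG
    have hinj := (MonoidHom.ker_eq_bot_iff _).mp hb
    refine ⟨⟨fun a b => hinj ?_⟩⟩
    rw [map_mul, map_mul, mul_comm]
  · apply hx
    have : x ∈ MonoidHom.ker (MonoidHom.transfer φ) := by rw [ht]; trivial
    exact this

/-- Let G be a finite non-abelian simple group, M a maximal subgroup of G and H a normal subgroup of M of prime index in M. Then G is generated by H together with one of its conjugates. -/
theorem result {G : Type*} [Group G] [Finite G] [IsSimpleGroup G] (hG : ¬ IsMulCommutative G) (M H : Subgroup G) (hmaxM : IsCoatom M) (hHM : H ≤ M) (hHn : (H.subgroupOf M).Normal) (hidx : (H.relIndex M).Prime) : ∃ g : G, H ⊔ H.map (MulAut.conj g).toMonoidHom = ⊤ := by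
  obtain ⟨g, hgM, x, hxM, hxM', hxH, hxH'⟩ := exists_bad hG M H hHn hidx
  refine ⟨g, ?_⟩
  set K := H ⊔ H.map (MulAut.conj g).toMonoidHom with hK
  -- M is not normal and self-normalizing
  have hMtop : M ≠ ⊤ := hmaxM.1
  have hMbot : M ≠ ⊥ := by
    intro h
    rw [h] at hxM
    rw [Subgroup.mem_bot] at hxM
    exact hxH (hxM ▸ H.one_mem)
  have hnorm : ∀ y : G, y ∈ M → ∀ h ∈ H, y * h * y⁻¹ ∈ H := by
    intro y hy h hh
    have := hHn.conj_mem ⟨h, hHM hh⟩ (Subgroup.mem_subgroupOf.mpr hh) ⟨y, hy⟩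
    exact Subgroup.mem_subgroupOf.mp this
  have hsup : ∀ y : G, y ∈ M → y ∉ H → H ⊔ Subgroup.zpowers y = M := by
    intro y hy hyH
    have hle : H ⊔ Subgroup.zpowers y ≤ M := sup_le hHM (Subgroup.zpowers_le.mpr hy)
    have hlt : ¬ (H ⊔ Subgroup.zpowers y ≤ H) := fun hh => hyH (hh (Subgroup.mem_sup_right (Subgroup.mem_zpowers y)))
    have hmul : H.relIndex (H ⊔ Subgroup.zpowers y) * (H ⊔ Subgroup.zpowers y).relIndex M = H.relIndex M :=
      Subgroup.relIndex_mul_relIndex _ _ _ le_sup_left hle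
    have hd : H.relIndex (H ⊔ Subgroup.zpowers y) ∣ H.relIndex M := ⟨_, hmul.symm⟩
    rcases (Nat.dvd_prime hidx).mp hd with h1 | h1
    · exact absurd (Subgroup.relIndex_eq_one.mp h1) hlt
    · rw [h1] at hmul
      have h2 : (H ⊔ Subgroup.zpowers y).relIndex M = 1 := by
        have hp := hidx.pos
        exact Nat.eq_of_mul_eq_mul_left hp (by rw [hmul, mul_one])
      exact le_antisymm hle (Subgroup.relIndex_eq_one.mp h2)
  -- the normalizer of `K` contains `M`
  have hxK : ∀ k ∈ K, x * k * x⁻¹ ∈ K := by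
    have hconj : K.map (MulAut.conj x).toMonoidHom ≤ K := by
      rw [hK, Subgroup.map_sup]
      apply sup_le
      · refine le_trans ?_ le_sup_left
        rintro _ ⟨h, hh, rfl⟩
        exact hnorm x hxM h hh
      · refine le_trans ?_ le_sup_right
        rintro _ ⟨_, ⟨h, hh, rfl⟩, rfl⟩
        refine ⟨(g⁻¹ * x * g) * h * (g⁻¹ * x * g)⁻¹, hnorm _ hxM' h hh, ?_⟩
        simp only [MulEquiv.toMonoidHom_eq_coe, MonoidHom.coe_coe, MulAut.conj_apply]
        group
    intro k hk
    exact hconj ⟨k, hk, rfl⟩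
  have hNx : x ∈ Subgroup.normalizer (K : Set G) := by
    apply Subgroup.mem_normalizer_fintype
    intro k hk
    exact hxK k hk
  have hKN : K ≤ Subgroup.normalizer (K : Set G) := Subgroup.le_normalizer
  have hMN : M ≤ Subgroup.normalizer (K : Set G) := by
    rw [← hsup x hxM hxH]
    exact sup_le (le_trans le_sup_left hKN) (Subgroup.zpowers_le.mpr hNx)
  have hMN' : M.map (MulAut.conj g).toMonoidHom ≤ Subgroup.normalizer (K : Set G) := by
    rw [← hsup (g⁻¹ * x * g) hxM' hxH', Subgroup.map_sup]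
    apply sup_le (le_trans le_sup_right hKN)
    rw [MonoidHom.map_zpowers, Subgroup.zpowers_le]
    have : (MulAut.conj g).toMonoidHom (g⁻¹ * x * g) = x := by
      simp only [MulEquiv.toMonoidHom_eq_coe, MonoidHom.coe_coe, MulAut.conj_apply]
      group
    rw [this]
    exact hNx
  -- the normalizer of `M` is `M`
  have hMself : ∀ y : G, M.map (MulAut.conj y).toMonoidHom ≤ M → y ∈ M := by
    intro y hy
    by_contra hyM
    have hyN : y ∈ Subgroup.normalizer (M : Set G) := by
      apply Subgroup.mem_normalizer_fintype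
      intro k hk
      exact hy ⟨k, hk, rfl⟩
    have hlt : M < Subgroup.normalizer (M : Set G) :=
      lt_of_le_of_ne Subgroup.le_normalizer (fun h => hyM (h ▸ hyN))
    have htop := hmaxM.2 _ hlt
    have hMn : M.Normal := Subgroup.normalizer_eq_top_iff.mp htop
    rcases hMn.eq_bot_or_eq_top with h | h
    · exact hMbot h
    · exact hMtop h
  have hNtop : Subgroup.normalizer (K : Set G) = ⊤ := by
    apply hmaxM.2
    apply lt_of_le_of_ne hMN
    intro h
    rw [← h] at hMN'
    exact hgM (hMself g hMN')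
  have hKn : K.Normal := Subgroup.normalizer_eq_top_iff.mp hNtop
  rcases hKn.eq_bot_or_eq_top with h | h
  · -- `H = 1`: then `M` has prime order, and `M = gMg⁻¹`
    exfalso
    have hHbot : H = ⊥ := le_bot_iff.mp (h ▸ (le_sup_left : H ≤ K))
    have hMx : Subgroup.zpowers x = M := by
      have := hsup x hxM hxH
      rwa [hHbot, bot_sup_eq] at this
    have hMx' : Subgroup.zpowers (g⁻¹ * x * g) = M := by
      have := hsup (g⁻¹ * x * g) hxM' hxH'
      rwa [hHbot, bot_sup_eq] at this
    apply hgM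
    apply hMself
    conv_lhs => rw [← hMx']
    rw [MonoidHom.map_zpowers, Subgroup.zpowers_le]
    have : (MulAut.conj g).toMonoidHom (g⁻¹ * x * g) = x := by
      simp only [MulEquiv.toMonoidHom_eq_coe, MonoidHom.coe_coe, MulAut.conj_apply]
      group
    rw [this]
    exact hxM
  · exact h

end Cfsg.Agent.S3015
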