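import Cfsg.Statements.S3019
import Cfsg.Agent.H267.TwoSylow

set_option autoImplicit false
open Cfsg

namespace Cfsg.Agent.S3019

/-- Let G be a finite group, p a prime and P a Sylow p-subgroup of G. Then G is p-solvable if and only if, for every g ∈ G, the subgroup generated by P and g P g⁻¹ is p-solvable. -/
theorem result {G : Type*} [Group G] [Finite G] {p : ℕ} [Fact p.Prime] (P : Sylow p G) : Cfsg.IsPSolvable p G ↔ ∀ g : G, Cfsg.IsPSolvable p ↥((P : Subgroup G) ⊔ (P : Subgroup G).map (MulAut.conj g).toMonoidHom) := by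
  constructor
  · intro h g
    exact Cfsg.Agent.Lib.PSolvable.IsPSolvable_of_injective p h
      ((P : Subgroup G) ⊔ (P : Subgroup G).map (MulAut.conj g).toMonoidHom).subtype
      (Subgroup.subtype_injective _)
  · intro h
    apply Cfsg.Agent.H267.TwoSylow.isPSolvable_of_pairs
    intro P₁ P₂
    obtain ⟨a, rfl⟩ := MulAction.exists_smul_eq G P P₁
    obtain ⟨b, rfl⟩ := MulAction.exists_smul_eq G P P₂
    have h1 := h (a⁻¹ * b)
    have hle : (((a • P : Sylow p G) : Subgroup G) ⊔ ((b • P : Sylow p G) : Subgroup G)).map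
        (MulAut.conj a⁻¹).toMonoidHom ≤
        (P : Subgroup G) ⊔ (P : Subgroup G).map (MulAut.conj (a⁻¹ * b)).toMonoidHom := by
      rw [Subgroup.map_sup]
      refine sup_le_sup ?_ ?_
      · rintro _ ⟨x, hx, rfl⟩
        rw [SetLike.mem_coe, Cfsg.Agent.H267.Invar.mem_smul_sylow] at hx
        show a⁻¹ * x * (a⁻¹)⁻¹ ∈ (P : Subgroup G)
        rwa [inv_inv]
      · rintro _ ⟨x, hx, rfl⟩
        rw [SetLike.mem_coe, Cfsg.Agent.H267.Invar.mem_smul_sylow] at hx
        refine ⟨b⁻¹ * x * b, hx, ?_⟩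
        show (a⁻¹ * b) * (b⁻¹ * x * b) * (a⁻¹ * b)⁻¹ = a⁻¹ * x * (a⁻¹)⁻¹
        group
    refine Cfsg.Agent.Lib.PSolvable.IsPSolvable_of_injective p h1
      ((Subgroup.inclusion hle).comp
        ((((a • P : Sylow p G) : Subgroup G) ⊔ ((b • P : Sylow p G) : Subgroup G)).equivMapOfInjective
          (MulAut.conj a⁻¹).toMonoidHom (MulAut.conj a⁻¹).injective).toMonoidHom) ?_
    exact (Subgroup.inclusion_injective hle).comp (MulEquiv.injective _)

end Cfsg.Agent.S3019
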