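import Cfsg.Statements.S3023
import Cfsg.Agent.H267.CharP
import Cfsg.Agent.S0542
import Cfsg.Agent.Lib.NormalAbelian

set_option autoImplicit false
open Cfsg

namespace Cfsg.Agent.S3023

open Subgroup H267.ChP

/-- A nontrivial `p`-subgroup `R` normalized by a Sylow `p`-subgroup `T` meets the centre of `T`. -/
theorem exists_central {H : Type*} [Group H] [Finite H] {p : ℕ} [Fact p.Prime] (R : Subgroup H)
    (hR : IsPGroup p R) (hR1 : R ≠ ⊥) (T : Sylow p H)
    (hT : (T : Subgroup H) ≤ Subgroup.normalizer (R : Set H)) :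
    R ≤ (T : Subgroup H) ∧ ∃ z : H, z ∈ R ∧ z ≠ 1 ∧ ∀ t ∈ (T : Subgroup H), z * t = t * z := by
  have hRT : R ≤ (T : Subgroup H) := by
    have hRn : (R.subgroupOf (Subgroup.normalizer (R : Set H))).Normal :=
      Subgroup.normal_in_normalizer
    have h1 : R.subgroupOf (Subgroup.normalizer (R : Set H)) ≤
        ((T.subtype hT : Sylow p ↥(Subgroup.normalizer (R : Set H))) :
          Subgroup ↥(Subgroup.normalizer (R : Set H))) :=
      (Lib.Cores.le_pCore hRn (hR.of_equiv
        (subgroupOfEquivOfLe Subgroup.le_normalizer).symm)).trans (Lib.Cores.pCore_le_sylow _)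
    intro r hr
    exact h1 (show (⟨r, Subgroup.le_normalizer hr⟩ :
      ↥(Subgroup.normalizer (R : Set H))) ∈ R.subgroupOf _ from hr)
  refine ⟨hRT, ?_⟩
  have hne : R.subgroupOf (T : Subgroup H) ≠ ⊥ := by
    intro h
    rw [Subgroup.subgroupOf_eq_bot, disjoint_iff, inf_eq_left.mpr hRT] at h
    exact hR1 h
  haveI : (R.subgroupOf (T : Subgroup H)).Normal :=
    Subgroup.normal_subgroupOf_of_le_normalizer hT
  haveI : Group.IsNilpotent ↥(T : Subgroup H) := T.isPGroup'.isNilpotent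
  have hnt := Lib.NormalAbelian.normal_inf_center_ne_bot (R.subgroupOf (T : Subgroup H)) hne
  rw [Subgroup.ne_bot_iff_exists_ne_one] at hnt
  obtain ⟨⟨z, hz1, hz2⟩, hz3⟩ := hnt
  refine ⟨z, hz1, ?_, ?_⟩
  · intro h
    apply hz3
    apply Subtype.ext
    apply Subtype.ext
    exact h
  · intro t ht
    have := Subgroup.mem_center_iff.1 hz2 ⟨t, ht⟩
    exact (congrArg Subtype.val this).symm

/-- Let G be a finite group, S a Sylow p-subgroup. -/
theorem charP_centralizer {G : Type*} [Group G] [Finite G] {p : ℕ} [Fact p.Prime]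
    (hG : Cfsg.IsOfParabolicCharacteristic p G) (S : Sylow p G) (z : G) (hz1 : z ≠ 1)
    (hzp : IsPGroup p ↥(Subgroup.zpowers z))
    (hzS : (S : Subgroup G) ≤ Subgroup.centralizer ({z} : Set G)) :
    H267.ChP.CharP p ↥(Subgroup.centralizer ({z} : Set G)) := by
  have hcn : Subgroup.centralizer ({z} : Set G) ≤
      Subgroup.normalizer ((Subgroup.zpowers z : Subgroup G) : Set G) := by
    have h : Subgroup.centralizer ({z} : Set G) =
        Subgroup.centralizer ((Subgroup.zpowers z : Subgroup G) : Set G) := by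
      rw [Subgroup.zpowers_eq_closure, Subgroup.centralizer_closure]
    rw [h]
    exact Subgroup.centralizer_le_normalizer _
  have h1 : H267.ChP.CharP p
      ↥(Subgroup.normalizer ((Subgroup.zpowers z : Subgroup G) : Set G)) := by
    refine hG (Subgroup.zpowers z) hzp ?_ ⟨S, hzS.trans hcn⟩
    rwa [Ne, Subgroup.zpowers_eq_bot]
  have hnorm : ((Subgroup.centralizer ({z} : Set G)).subgroupOf
      (Subgroup.normalizer ((Subgroup.zpowers z : Subgroup G) : Set G))).Normal := by
    refine Subgroup.normal_subgroupOf_of_le_normalizer ?_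
    have h : Subgroup.centralizer ({z} : Set G) =
        Subgroup.centralizer ((Subgroup.zpowers z : Subgroup G) : Set G) := by
      rw [Subgroup.zpowers_eq_closure, Subgroup.centralizer_closure]
    rw [h]
    exact OddOrderLocal.NilParts.normalizer_le_normalizer_centralizer _
  exact charP_congr (Subgroup.subgroupOfEquivOfLe hcn) (charP_normal h1 _ hnorm)

/-- Let p be a prime, G a finite group of parabolic characteristic p (every p-local subgroup containing a Sylow p-subgroup of G has characteristic p), S a Sylow p-subgroup of G and G₁ a subnormal subgroup of G. If the centre of S ∩ G₁ is nontrivial and contained in the centre of S, then G₁ has parabolic characteristic p. -/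
theorem result {G : Type*} [Group G] [Finite G] {p : ℕ} [Fact p.Prime] (hG : Cfsg.IsOfParabolicCharacteristic p G) (S : Sylow p G) (G₁ : Subgroup G) (hsn : G₁.IsSubnormal) (hne : ((S : Subgroup G) ⊓ G₁) ⊓ Subgroup.centralizer (((S : Subgroup G) ⊓ G₁ : Subgroup G) : Set G) ≠ ⊥) (hle : ((S : Subgroup G) ⊓ G₁) ⊓ Subgroup.centralizer (((S : Subgroup G) ⊓ G₁ : Subgroup G) : Set G) ≤ (S : Subgroup G) ⊓ Subgroup.centralizer ((S : Subgroup G) : Set G)) : Cfsg.IsOfParabolicCharacteristic p ↥G₁ := by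
  intro R hR hR1 hpar
  obtain ⟨T, hT⟩ := hpar
  -- `R ∩ Z(T) ≠ 1`
  obtain ⟨hRT, z, hzR, hz1, hzT⟩ := exists_central R hR hR1 T hT
  -- a conjugate of `T` is `S ∩ G₁`
  obtain ⟨Q, hQ⟩ := S0542.result p G₁ hsn S
  obtain ⟨g, hg⟩ := MulAction.exists_smul_eq ↥G₁ Q T
  have hzTm : z ∈ (T : Subgroup ↥G₁) := hRT hzR
  have hmemQ : ∀ x : ↥G₁, x ∈ (Q : Subgroup ↥G₁) ↔ g * x * g⁻¹ ∈ (T : Subgroup ↥G₁) := by
    intro x
    rw [← hg, Sylow.coe_subgroup_smul, Subgroup.mem_pointwise_smul_iff_inv_smul_mem]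
    simp [MulAut.smul_def, ← mul_assoc]
  have hQS : ∀ x : ↥G₁, x ∈ (Q : Subgroup ↥G₁) ↔ (x : G) ∈ (S : Subgroup G) := by
    intro x
    rw [hQ]; rfl
  -- the element `w = g⁻¹ z g` is in `Z(S ∩ G₁)`
  set w : ↥G₁ := g⁻¹ * z * g with hw
  have hwQ : w ∈ (Q : Subgroup ↥G₁) := by
    rw [hmemQ, hw]
    have : g * (g⁻¹ * z * g) * g⁻¹ = z := by group
    rw [this]; exact hzTm
  have hwc : (w : G) ∈ (S : Subgroup G) ⊓ Subgroup.centralizer ((S : Subgroup G) : Set G) := by
    apply hle
    refine ⟨⟨(hQS w).1 hwQ, w.2⟩, ?_⟩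
    show (w : G) ∈ Subgroup.centralizer _
    rw [Subgroup.mem_centralizer_iff]
    intro x hx
    have hxQ : (⟨x, hx.2⟩ : ↥G₁) ∈ (Q : Subgroup ↥G₁) := (hQS _).2 hx.1
    have h1 := (hmemQ _).1 hxQ
    have h2 := hzT _ h1
    have h3 : (⟨x, hx.2⟩ : ↥G₁) * w = w * ⟨x, hx.2⟩ := by
      rw [hw]
      have h4 : g⁻¹ * (z * (g * ⟨x, hx.2⟩ * g⁻¹)) * g = g⁻¹ * ((g * ⟨x, hx.2⟩ * g⁻¹) * z) * g := by
        rw [h2]
      have e1 : g⁻¹ * (z * (g * ⟨x, hx.2⟩ * g⁻¹)) * g = g⁻¹ * z * g * ⟨x, hx.2⟩ := by group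
      have e2 : g⁻¹ * ((g * ⟨x, hx.2⟩ * g⁻¹) * z) * g = ⟨x, hx.2⟩ * (g⁻¹ * z * g) := by group
      rw [← e1, ← e2, h4]
    exact congrArg Subtype.val h3
  -- so the Sylow subgroup `gSg⁻¹` centralizes `z`
  have hzS : ((((g : G) • S : Sylow p G)) : Subgroup G) ≤
      Subgroup.centralizer ({(z : G)} : Set G) := by
    intro y hy
    rw [Sylow.coe_subgroup_smul, Subgroup.mem_pointwise_smul_iff_inv_smul_mem] at hy
    have hy' : (g : G)⁻¹ * y * (g : G) ∈ (S : Subgroup G) := by
      simpa [MulAut.smul_def] using hy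
    have h1 := (Subgroup.mem_centralizer_iff.1 hwc.2) _ hy'
    rw [Subgroup.mem_centralizer_singleton_iff]
    have hwe : (w : G) = (g : G)⁻¹ * z * g := by rw [hw]; simp
    rw [hwe] at h1
    have e1 : (g : G) * ((g : G)⁻¹ * y * (g : G) * ((g : G)⁻¹ * z * g)) * (g : G)⁻¹ = y * z := by
      group
    have e2 : (g : G) * ((g : G)⁻¹ * z * g * ((g : G)⁻¹ * y * (g : G))) * (g : G)⁻¹ = z * y := by
      group
    rw [← e1, ← e2, h1]
  have hz1' : (z : G) ≠ 1 := by
    intro h
    exact hz1 (Subtype.ext h)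
  have hzp : IsPGroup p ↥(Subgroup.zpowers (z : G)) := by
    have h1 : IsPGroup p ↥(Subgroup.zpowers z) :=
      hR.to_le (by rw [Subgroup.zpowers_le]; exact hzR)
    have h2 := h1.map G₁.subtype
    rwa [MonoidHom.map_zpowers] at h2
  have hC := charP_centralizer hG _ (z : G) hz1' hzp hzS
  -- intersect with `G₁`
  have hsub : ((G₁.subgroupOf (Subgroup.centralizer ({(z : G)} : Set G)))).IsSubnormal :=
    hsn.subgroupOf
  have hD1 := charP_subnormal hC _ hsub
  have hD : H267.ChP.CharP p ↥(Subgroup.centralizer ({z} : Set ↥G₁)) := by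
    refine charP_congr ?_ hD1
    exact
      { toFun := fun x => ⟨⟨(x : ↥(Subgroup.centralizer ({(z : G)} : Set G))), x.2⟩, by
          have h := x.1.2
          rw [Subgroup.mem_centralizer_singleton_iff] at h ⊢
          exact Subtype.ext h⟩
        invFun := fun x => ⟨⟨((x : ↥G₁) : G), by
          have h := x.2
          rw [Subgroup.mem_centralizer_singleton_iff] at h ⊢
          exact congrArg Subtype.val h⟩, x.1.2⟩
        left_inv := fun x => rfl
        right_inv := fun x => rfl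
        map_mul' := fun a b => rfl }
  exact charP_normalizer_of_central R hR T hT z hzR hzT hD

end Cfsg.Agent.S3023
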