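import Cfsg.Statements.S3039
import Cfsg.Agent.S4319

set_option autoImplicit false
open Cfsg

namespace Cfsg.Agent.S3039

/-- Let G be a finite group admitting a fixed-point-free automorphism α whose order rst is a product of three distinct primes, is coprime to |G|, and is not divisible by any integer of the form 2^m + 1 with m ≥ 1. Then G is solvable. -/
theorem result {G : Type*} [Group G] [Finite G] (α : MulAut G) (r s t : ℕ) (hr : r.Prime) (hs : s.Prime) (ht : t.Prime)
    (hrs : r ≠ s) (hrt : r ≠ t) (hst : s ≠ t) (hord : orderOf α = r * s * t) (hcop : (r * s * t).Coprime (Nat.card G))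
    (hnf : ∀ m : ℕ, 1 ≤ m → ¬ (2 ^ m + 1) ∣ r * s * t) (hfpf : ∀ g : G, α g = g → g = 1) :
    Group.IsSolvable G := by
  refine Cfsg.Agent.S4319.result (A := Subgroup.zpowers α) (G := G) ?_ (Or.inr ?_)
  · rw [Nat.card_zpowers, hord]
    exact hcop.symm
  · have h : FixedPoints.subgroup (Subgroup.zpowers α) G = ⊥ := by
      rw [eq_bot_iff]
      intro g hg
      rw [Subgroup.mem_bot]
      exact hfpf g (hg ⟨α, Subgroup.mem_zpowers α⟩)
    rw [h, Subgroup.card_bot]
    exact odd_one

end Cfsg.Agent.S3039
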