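import Cfsg.Statements.S3040
import Cfsg.Agent.H271.FpfSThree
import Cfsg.Agent.S4319

set_option autoImplicit false
open Cfsg

namespace Cfsg.Agent.S3040

/-- Let G be a finite group of even order coprime to 3, and let Σ be a group of automorphisms of G isomorphic to the symmetric group of degree 3 that is fixed-point-free (only the identity of G is fixed by every element of Σ). Then G is solvable, O_{2′,2}(G) (the preimage in G of O₂(G/O(G))) has odd index in G, and G = O_{2′,2}(G) C_G(σ) for every element σ of Σ of order 3; that is, O₂(G/O(G)) is a Sylow 2-subgroup of G/O(G) and G/O(G) = O₂(G/O(G)) C_{G/O(G)}(σ). -/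
theorem result {G : Type*} [Group G] [Finite G] (heven : 2 ∣ Nat.card G) (h3 : ¬ 3 ∣ Nat.card G)
    (Sig : Subgroup (MulAut G)) (hS3 : Nonempty (↥Sig ≃* Equiv.Perm (Fin 3))) (hfpf : ∀ g : G, (∀ σ ∈ Sig, σ g = g) → g = 1) :
    Group.IsSolvable G ∧ ¬ 2 ∣ (Cfsg.pPrimePCore 2 G).index ∧ ∀ σ ∈ Sig, orderOf σ = 3 →
      Cfsg.pPrimePCore 2 G ⊔ Subgroup.closure {g : G | σ g = g} = ⊤ := by
  -- the group of fixed points
  have hF : ∀ σ : MulAut G, ∃ F : Subgroup G, ∀ g, g ∈ F ↔ σ g = g := fun σ =>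
    ⟨{ carrier := {g | σ g = g}
       mul_mem' := fun {a b} ha hb => by
        show σ (a * b) = a * b
        rw [map_mul]; rw [show σ a = a from ha, show σ b = b from hb]
       one_mem' := map_one σ
       inv_mem' := fun {a} ha => by
        show σ a⁻¹ = a⁻¹
        rw [map_inv]; rw [show σ a = a from ha] }, fun g => Iff.rfl⟩
  have hodd : ∀ σ ∈ Sig, orderOf σ = 3 → ∀ g, σ g = g → ¬ 2 ∣ orderOf g := by
    intro σ hσ ho g hg h
    obtain ⟨F, hFm⟩ := hF σ
    apply Cfsg.Agent.H271.FpfSThree.odd_of_fix Sig hS3 hfpf σ hσ ho F hFm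
    have := orderOf_dvd_natCard (⟨g, (hFm g).mpr hg⟩ : F)
    rw [Subgroup.orderOf_mk] at this
    exact h.trans this
  -- solvability
  have hsol : Group.IsSolvable G := by
    obtain ⟨e⟩ := hS3
    obtain ⟨s, hs⟩ : ∃ s : Equiv.Perm (Fin 3), orderOf s = 3 := by
      refine ⟨finRotate 3, ?_⟩
      have hp : Fact (Nat.Prime 3) := ⟨Nat.prime_three⟩
      apply orderOf_eq_prime
      · decide
      · decide
    have ho : orderOf ((e.symm s : Sig) : MulAut G) = 3 := by
      rw [Subgroup.orderOf_coe, MulEquiv.orderOf_eq, hs]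
    obtain ⟨F, hFm⟩ := hF ((e.symm s : Sig) : MulAut G)
    have h2 := Cfsg.Agent.H271.FpfSThree.odd_of_fix Sig ⟨e⟩ hfpf _ (e.symm s).2 ho F hFm
    refine Cfsg.Agent.S4319.result (A := Subgroup.zpowers ((e.symm s : Sig) : MulAut G)) (G := G) ?_ (Or.inr ?_)
    · rw [Nat.card_zpowers, ho, Nat.coprime_comm, Nat.Prime.coprime_iff_not_dvd Nat.prime_three]
      exact h3
    · rw [← Nat.not_even_iff_odd, even_iff_two_dvd]
      intro h
      apply h2
      have hle : FixedPoints.subgroup (Subgroup.zpowers ((e.symm s : Sig) : MulAut G)) G ≤ F := by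
        intro g hg
        rw [hFm]
        exact hg ⟨_, Subgroup.mem_zpowers _⟩
      exact h.trans (Subgroup.card_dvd_of_le hle)
  refine ⟨hsol, ?_, ?_⟩
  · obtain ⟨e⟩ := hS3
    obtain ⟨s, hs⟩ : ∃ s : Equiv.Perm (Fin 3), orderOf s = 3 := by
      refine ⟨finRotate 3, ?_⟩
      have hp : Fact (Nat.Prime 3) := ⟨Nat.prime_three⟩
      apply orderOf_eq_prime
      · decide
      · decide
    have ho : orderOf ((e.symm s : Sig) : MulAut G) = 3 := by
      rw [Subgroup.orderOf_coe, MulEquiv.orderOf_eq, hs]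
    exact (Cfsg.Agent.H271.FpfSThree.main h3 _ (orderOf_dvd_iff_pow_eq_one.mp ho.dvd)
      (hodd _ (e.symm s).2 ho)).1
  · intro σ hσ ho
    exact (Cfsg.Agent.H271.FpfSThree.main h3 σ (by rw [← ho]; exact pow_orderOf_eq_one _)
      (hodd σ hσ ho)).2

end Cfsg.Agent.S3040
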