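import Cfsg.Statements.S3043
import Cfsg.Agent.H272.TIInv.PGL
import Cfsg.Agent.H272.TIInv.CaseE
import Cfsg.Agent.H272.TIInv.CaseL

set_option autoImplicit false
open Cfsg

namespace Cfsg.Agent.S3043

open Cfsg.Agent.H272.TIInv in
theorem mkHyp {G : Type*} [Group G] [Finite G] (M : Subgroup G) (hM1 : M ≠ ⊥)
    (hTI : ∀ g : G, M ⊓ M.map (MulAut.conj g).toMonoidHom ≠ ⊥ → M.map (MulAut.conj g).toMonoidHom = M)
    (z : G) (hz : orderOf z = 2) (hzN : z ∈ Subgroup.normalizer (M : Set G))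
    (hfac : M ⊔ (Subgroup.normalizer (M : Set G) ⊓ Subgroup.centralizer ({z} : Set G)) = Subgroup.normalizer (M : Set G))
    (hodd : ∀ x ∈ M, x ≠ 1 → Odd (Nat.card ↥(Subgroup.centralizer ({x} : Set G)))) : Hyp M z := by
  have hord : ∀ g : G, orderOf g = 2 ↔ g * g = 1 ∧ g ≠ 1 := by
    intro g
    constructor
    · intro h
      refine ⟨by rw [← pow_two, ← h]; exact pow_orderOf_eq_one g, ?_⟩
      rintro rfl
      rw [orderOf_one] at h
      norm_num at h
    · rintro ⟨h1, h2⟩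
      exact orderOf_eq_prime (by rw [pow_two]; exact h1) h2
  refine ⟨hM1, ?_, ((hord z).mp hz).1, ((hord z).mp hz).2, hzN, ?_, ?_⟩
  · intro g x hx hx1 hgx
    have h1 : M.map (MulAut.conj g).toMonoidHom = M := by
      apply hTI
      intro h2
      have h3 : g * x * g⁻¹ ∈ M ⊓ M.map (MulAut.conj g).toMonoidHom :=
        ⟨hgx, ⟨x, hx, rfl⟩⟩
      rw [h2, Subgroup.mem_bot] at h3
      apply hx1
      calc x = g⁻¹ * (g * x * g⁻¹) * g := by group
        _ = 1 := by rw [h3]; group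
    rw [Subgroup.mem_normalizer_iff]
    intro w
    constructor
    · intro hw
      have h2 : g * w * g⁻¹ ∈ M.map (MulAut.conj g).toMonoidHom := ⟨w, hw, rfl⟩
      rwa [h1] at h2
    · intro hw
      have h2 : g * w * g⁻¹ ∈ (M : Subgroup G) := hw
      rw [← h1] at h2
      obtain ⟨v, hv, hvw⟩ := h2
      have h3 : g * v * g⁻¹ = g * w * g⁻¹ := hvw
      have h4 : v = w := by
        calc v = g⁻¹ * (g * v * g⁻¹) * g := by group
          _ = w := by rw [h3]; group
      rw [← h4]; exact hv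
  · intro g hg
    rw [← hfac] at hg
    have h1 := Subgroup.coe_mul_of_right_le_normalizer_left M
      (Subgroup.normalizer (M : Set G) ⊓ Subgroup.centralizer ({z} : Set G)) inf_le_left
    have h2 : g ∈ ((M ⊔ (Subgroup.normalizer (M : Set G) ⊓ Subgroup.centralizer ({z} : Set G)) : Subgroup G) : Set G) := hg
    rw [h1] at h2
    obtain ⟨y, hy, k, hk, rfl⟩ := h2
    refine ⟨y, hy, k, hk.1, ?_, rfl⟩
    exact (Subgroup.mem_centralizer_singleton_iff.mp hk.2)
  · intro x hx hx1 t ht htx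
    by_contra ht1
    have h1 := hodd x hx hx1
    have h2 : t ∈ Subgroup.centralizer ({x} : Set G) := Subgroup.mem_centralizer_singleton_iff.mpr htx
    have h3 : orderOf (⟨t, h2⟩ : Subgroup.centralizer ({x} : Set G)) = 2 := by
      rw [← (hord t).mpr ⟨ht, ht1⟩]
      exact Subgroup.orderOf_mk t h2
    have h4 := orderOf_dvd_natCard (⟨t, h2⟩ : Subgroup.centralizer ({x} : Set G))
    rw [h3] at h4
    exact (Nat.not_even_iff_odd.mpr h1) (even_iff_two_dvd.mpr h4)

/-- Let M be a nontrivial subgroup of a finite group G meeting each of its other conjugates trivially, with N_G(M) = M · C_{N_G(M)}(z) for some involution z ∈ N_G(M), and with C_G(x) of odd order for every nontrivial x ∈ M. Then one of the following holds: M is normal in G; the number of involutions of G is at most |G : M|; G is isomorphic to PGL₂(F) or to PSL₂(F) for a finite field F with |F| = |M|, M is an elementary abelian p-group for the characteristic p of F, and |F| ≡ 1 (mod 4) in the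 PSL₂ case; G is isomorphic to PSL₂(F) with |F| = 2^e, e > 1, and M is cyclic of order 2^e + 1; or for some d ≥ 1, G has an elementary abelian normal subgroup of order 2^{2d} complemented by N_G(M), and N_G(M) is dihedral of order 2(2^d + 1). -/
theorem result {G : Type*} [Group G] [Finite G] (M : Subgroup G) (hM1 : M ≠ ⊥)
    (hTI : ∀ g : G, M ⊓ M.map (MulAut.conj g).toMonoidHom ≠ ⊥ → M.map (MulAut.conj g).toMonoidHom = M)
    (z : G) (hz : orderOf z = 2) (hzN : z ∈ Subgroup.normalizer (M : Set G))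
    (hfac : M ⊔ (Subgroup.normalizer (M : Set G) ⊓ Subgroup.centralizer ({z} : Set G)) = Subgroup.normalizer (M : Set G))
    (hodd : ∀ x ∈ M, x ≠ 1 → Odd (Nat.card ↥(Subgroup.centralizer ({x} : Set G)))) :
    M.Normal ∨
    Nat.card {g : G // orderOf g = 2} ≤ M.index ∨
    (∃ (F : Type) (_ : Field F) (_ : Fintype F) (p : ℕ) (_ : Fact p.Prime) (_ : CharP F p), Fintype.card F = Nat.card M ∧ Cfsg.IsElementaryAbelian p M ∧
        (Nonempty (G ≃* (GL (Fin 2) F ⧸ Subgroup.center (GL (Fin 2) F))) ∨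
         (Fintype.card F % 4 = 1 ∧ Nonempty (G ≃* Matrix.ProjectiveSpecialLinearGroup (Fin 2) F)))) ∨
    (∃ (F : Type) (_ : Field F) (_ : Fintype F) (e : ℕ), 1 < e ∧ Fintype.card F = 2 ^ e ∧ IsCyclic ↥M ∧ Nat.card M = 2 ^ e + 1 ∧
        Nonempty (G ≃* Matrix.ProjectiveSpecialLinearGroup (Fin 2) F)) ∨
    (∃ (d : ℕ) (E : Subgroup G), 1 ≤ d ∧ E.Normal ∧ Cfsg.IsElementaryAbelian 2 E ∧ Nat.card E = 2 ^ (2 * d) ∧
        E ⊓ Subgroup.normalizer (M : Set G) = ⊥ ∧ E ⊔ Subgroup.normalizer (M : Set G) = ⊤ ∧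
        Nonempty (↥(Subgroup.normalizer (M : Set G)) ≃* DihedralGroup (2 ^ d + 1))) := by
  classical
  by_cases hn : Subgroup.normalizer (M : Set G) = ⊤
  · exact Or.inl (Subgroup.normalizer_eq_top_iff.mp hn)
  by_cases hI : Nat.card {g : G // orderOf g = 2} ≤ M.index
  · exact Or.inr (Or.inl hI)
  right; right
  push Not at hI
  have hyp := mkHyp M hM1 hTI z hz hzN hfac hodd
  have hIc : Nat.card {g : G // orderOf g = 2} = Nat.card {g : G // g * g = 1 ∧ g ≠ 1} := by
    apply Nat.card_congr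
    apply Equiv.subtypeEquivRight
    intro g
    constructor
    · intro h
      refine ⟨by rw [← pow_two, ← h]; exact pow_orderOf_eq_one g, ?_⟩
      rintro rfl
      rw [orderOf_one] at h
      norm_num at h
    · rintro ⟨h1, h2⟩
      exact orderOf_eq_prime (by rw [pow_two]; exact h1) h2
  rw [hIc] at hI
  have hcov : Cfsg.Agent.H272.TIInv.Cov M z := { hyp with cov := fun x hx => hyp.cover hI hx }
  by_cases h2 : Nat.card (Cfsg.Agent.H272.TIInv.HH M z) = 2
  · obtain ⟨d, hd, hC, hIn, hcase⟩ := hcov.exists_numbers h2 hn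
    rcases hcase with ⟨hM, hi⟩ | ⟨hM, hi⟩
    · exact Or.inr (Or.inl (hcov.caseL h2 hd hC hM hi))
    · obtain ⟨E, hE1, hE2, hE3, hE4, hE5, hE6⟩ := hcov.caseE h2 hd hC hIn hM hi
      exact Or.inr (Or.inr ⟨d, E, hd, hE1, hE2, hE3, hE4, hE5, hE6⟩)
  · left
    obtain ⟨u, hu⟩ := hcov.exists_big hn h2
    have hlt := hcov.card_HH_lt hI
    by_cases hle : 2 * Nat.card (Cfsg.Agent.H272.TIInv.HH M z) ≤ Nat.card M - 1
    · obtain ⟨F, i1, i2, p, i3, i4, h5, h6, h7, h8⟩ := hu.psl hlt hle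
      exact ⟨F, i1, i2, p, i3, i4, h5, h6, Or.inr ⟨h7, h8⟩⟩
    · push Not at hle
      obtain ⟨F, i1, i2, p, i3, i4, h5, h6, h7⟩ := hu.pgl hlt hle
      exact ⟨F, i1, i2, p, i3, i4, h5, h6, Or.inl h7⟩

end Cfsg.Agent.S3043
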