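import Cfsg.Statements.S3047
import Cfsg.Agent.H273.CentralRankOne
import Cfsg.Agent.H273.VecSL2
import Cfsg.Agent.H273.VecSU3

set_option autoImplicit false
open Cfsg

namespace Cfsg.Agent.S3047

/-- Let p ≥ 5 be a prime, G a finite group all of whose composition factors are known simple groups, S a Sylow p-subgroup and P a p-minimal subgroup of G containing S such that O^p(P/O_p(P)) is isomorphic to SL₂(pᵃ), PSL₂(pᵃ), SU₃(pᵃ) or PSU₃(pᵃ) for some a ≥ 1. Let L be the subgroup generated by N_G(S) and the p-minimal subgroups of G containing S other than P. Then either O^p(P) is normal in G, or every p-element of the centre of L lies in O_p(P). -/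
theorem result {G : Type*} [Group G] [Finite G] {p : ℕ} [Fact p.Prime] (hp : 5 ≤ p) (hK : Cfsg.IsCompositionKGroup G)
    (S : Sylow p G) (P : Subgroup G) (hSP : (S : Subgroup G) ≤ P) (hPmin : Cfsg.IsPMinimal p ↥P) [hn : (Cfsg.pCore p ↥P).Normal]
    (hrk1 : ∃ (F : Type) (_ : Field F) (_ : Fintype F) (a : ℕ), 1 ≤ a ∧
      ((Fintype.card F = p ^ a ∧ (Nonempty (↥(Cfsg.pResidual p (↥P ⧸ Cfsg.pCore p ↥P)) ≃* Matrix.SpecialLinearGroup (Fin 2) F) ∨
                                  Nonempty (↥(Cfsg.pResidual p (↥P ⧸ Cfsg.pCore p ↥P)) ≃* Matrix.ProjectiveSpecialLinearGroup (Fin 2) F))) ∨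
       (Fintype.card F = p ^ (2 * a) ∧ (Nonempty (↥(Cfsg.pResidual p (↥P ⧸ Cfsg.pCore p ↥P)) ≃* ↥(Cfsg.SU 3 F (p ^ a))) ∨
                                        Nonempty (↥(Cfsg.pResidual p (↥P ⧸ Cfsg.pCore p ↥P)) ≃* Cfsg.PSU 3 F (p ^ a))))))
    (L : Subgroup G)
    (hL : L = Subgroup.normalizer ((S : Subgroup G) : Set G) ⊔ ⨆ P' : {P' : Subgroup G // (S : Subgroup G) ≤ P' ∧ Cfsg.IsPMinimal p ↥P' ∧ P' ≠ P}, (P' : Subgroup G)) :
    ((Cfsg.pResidual p ↥P).map P.subtype).Normal ∨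
    ∀ z ∈ L ⊓ Subgroup.centralizer (L : Set G), (∃ k : ℕ, orderOf z = p ^ k) → z ∈ (Cfsg.pCore p ↥P).map P.subtype := by
  subst hL
  right
  rintro z hz ⟨k, hk⟩
  refine Cfsg.Agent.H273.CentralRankOne.main S hSP ?_ (Subgroup.mem_inf.1 hz).2 hk
  obtain ⟨F, _, _, a, ha, h | h⟩ := hrk1
  · obtain ⟨hF, he⟩ := h
    rcases he with ⟨⟨e⟩⟩ | ⟨⟨e⟩⟩
    · exact (Cfsg.Agent.H273.VecSL2.vecData hp ha hF).rankOneSyl.of_equiv e.symm
    · haveI : Finite (Matrix.ProjectiveSpecialLinearGroup (Fin 2) F) := Finite.of_equiv _ e.toEquiv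
      exact (Cfsg.Agent.H273.VecSL2.vecData hp ha hF).rankOneSyl_quot.of_equiv e.symm
  · obtain ⟨hF, he⟩ := h
    rcases he with ⟨⟨e⟩⟩ | ⟨⟨e⟩⟩
    · exact (Cfsg.Agent.H273.VecSU3.vecData hp hF).rankOneSyl.of_equiv e.symm
    · haveI : Finite (Cfsg.PSU 3 F (p ^ a)) := Finite.of_equiv _ e.toEquiv
      exact (Cfsg.Agent.H273.VecSU3.vecData hp hF).rankOneSyl_quot.of_equiv e.symm

end Cfsg.Agent.S3047
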