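import Cfsg.Statements.S3048
import Cfsg.Agent.H273.Sidki

set_option autoImplicit false
universe u
open Cfsg

namespace Cfsg.Agent.S3048

/-- Minimal counterexample reduction for the Sidki pair problem. Let G be a finite group and V a nontrivial elementary abelian 2-subgroup satisfying the Sidki pair condition with V ∩ O₂(G) = 1. Suppose that for every finite group H of smaller order, every nontrivial elementary abelian 2-subgroup W of H satisfying the Sidki pair condition meets O₂(H) nontrivially, and that the same holds in G for every such subgroup W of order smaller than that of V. Then the generalized Fitting subgroup F*(G) is a non-abelian simple group and G = V F*(G). -/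
theorem result {G : Type u} [Group G] [Finite G] (V : Subgroup G) (hV : Cfsg.IsElementaryAbelian 2 V) (hV1 : V ≠ ⊥) (hS : Cfsg.IsSidkiPair V) (hVO : V ⊓ Cfsg.pCore 2 G = ⊥) (hminG : ∀ (H : Type u) [Group H] [Finite H] (W : Subgroup H), Nat.card H < Nat.card G → Cfsg.IsElementaryAbelian 2 W → W ≠ ⊥ → Cfsg.IsSidkiPair W → W ⊓ Cfsg.pCore 2 H ≠ ⊥) (hminV : ∀ W : Subgroup G, Nat.card W < Nat.card V → Cfsg.IsElementaryAbelian 2 W → W ≠ ⊥ → Cfsg.IsSidkiPair W → W ⊓ Cfsg.pCore 2 G ≠ ⊥) : IsSimpleGroup ↥(Cfsg.generalizedFittingSubgroup G) ∧ ¬ IsMulCommutative ↥(Cfsg.generalizedFittingSubgroup G) ∧ V ⊔ Cfsg.generalizedFittingSubgroup G = ⊤ := by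
  exact Cfsg.Agent.H273.Sidki.main V hV hV1 hS hVO hminG

end Cfsg.Agent.S3048
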