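import Cfsg.Statements.S3049
import Cfsg.Agent.H271.IsolatedFStar

set_option autoImplicit false
open Cfsg

namespace Cfsg.Agent.S3049

open Cfsg.Agent.H271.Isolated Cfsg.Agent.H271.IsolatedFStar Cfsg.Agent.SignalizersComponents.Components
  Cfsg.Agent.SignalizersComponents.CompBasic Cfsg.Agent.Lib.GenFitting

/-- Let G be a finite group and p an odd prime with O_{p'}(G) = 1. Suppose that G has p-rank at most 2 (no elementary abelian subgroup of order p³) and that some element x of order p is isolated in G (no G-conjugate of x other than x commutes with x) and not central. Then the generalized Fitting subgroup F*(G) is a non-abelian simple group. Since O_{p'}(G) = 1, such an x is not central modulo O_{p'}(G): the hypotheses describe a counterexample to the Z*_p statement in p-rank at most 2. -/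
theorem result {G : Type*} [Group G] [Finite G] {p : ℕ} [Fact p.Prime] (hp : p ≠ 2) (hcore : Cfsg.pPrimeCore p G = ⊥)
    (hrank : Cfsg.PRankLE p 2 G) (x : G) (hx : orderOf x = p) (hiso : Cfsg.IsIsolated x) (hnc : x ∉ Subgroup.center G) :
    IsSimpleGroup ↥(Cfsg.generalizedFittingSubgroup G) ∧ ¬ IsMulCommutative ↥(Cfsg.generalizedFittingSubgroup G) := by
  have hxp : IsPGroup p (Subgroup.zpowers x) := by
    apply IsPGroup.of_card (n := 1)
    rw [Nat.card_zpowers, hx, pow_one]
  obtain ⟨T, hT⟩ := hxp.exists_le_sylow
  have hxT : x ∈ T := hT (Subgroup.mem_zpowers x)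
  obtain ⟨L, hL, hxL⟩ := exists_component hcore hx hiso hnc T hxT
  obtain ⟨h1, h2⟩ := fstar_eq hp hcore hrank hx hiso T hxT hL hxL
  rw [h1]
  rw [h1] at h2
  have hz : Subgroup.center L = ⊥ := by
    rw [eq_bot_iff]
    intro z hz
    rw [Subgroup.mem_bot]
    apply Subtype.ext
    have h3 : (z : G) ∈ L ⊓ Subgroup.centralizer (L : Set G) := by
      refine Subgroup.mem_inf.mpr ⟨z.2, ?_⟩
      rw [Subgroup.mem_centralizer_iff]
      intro l hl
      have h4 := (Subgroup.mem_center_iff.mp hz) ⟨l, hl⟩
      exact congrArg Subtype.val h4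
    rw [h2, Subgroup.mem_bot] at h3
    exact h3
  refine ⟨isSimple_of_center_eq_bot hL.2 hz, ?_⟩
  exact quasisimple_not_isMulCommutative hL.2

end Cfsg.Agent.S3049
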