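import Cfsg.Statements.S3051
-- import your own Cfsg.Agent.* helpers here
import Cfsg.Agent.S0000
import Cfsg.Agent.H274.CStarList

set_option autoImplicit false
open Cfsg

namespace Cfsg.Agent.S3051

/-- The global C*(G,T) Theorem for p = 2. Let G be a non-abelian finite simple group of local characteristic 2 (every 2-local subgroup N satisfies C_N(O₂(N)) ≤ O₂(N)) and T a Sylow 2-subgroup, and suppose G is not generated by the centralizer of Ω₁(Z(T)) together with the normalizers of the nontrivial characteristic subgroups of the Baumann subgroup B(T), that is G ≠ C*(G,T). Then G is isomorphic to one of: PSL(2,q) with q = 11 or q of the form 2ᵏ + 1 or 2ᵏ − 1; PSL(3,3); PSU(4,3); the Mathieu groups M₁₁, M₂₂, M₂₃; the Janko group J₃; or PSL(2,2ⁿ), Sz(2²ⁿ⁻¹), PSU(3,2ⁿ), PSL(3,2ⁿ), PSp(4,2ⁿ) with n ≥ 2. -/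
theorem result {G : Type*} [Group G] [Finite G] [IsSimpleGroup G] (hG : ¬ IsMulCommutative G)
    (hloc : Cfsg.IsOfLocalCharacteristic 2 G) (T : Sylow 2 G) (hC : Cfsg.cStarOf 2 (T : Subgroup G) ≠ ⊤) :
    (∃ (F : Type) (_ : Field F) (_ : Fintype F) (q : ℕ), Fintype.card F = q ∧
        (q = 11 ∨ ∃ k : ℕ, q = 2 ^ k + 1 ∨ q + 1 = 2 ^ k) ∧
        Nonempty (G ≃* Matrix.ProjectiveSpecialLinearGroup (Fin 2) F)) ∨
      Nonempty (G ≃* Matrix.ProjectiveSpecialLinearGroup (Fin 3) (ZMod 3)) ∨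
      (∃ (F : Type) (_ : Field F) (_ : Fintype F), Fintype.card F = 9 ∧ Nonempty (G ≃* Cfsg.PSU 4 F 3)) ∨
      Cfsg.Spor.IsoM11 G ∨ Cfsg.Spor.IsoM22 G ∨ Cfsg.Spor.IsoM23 G ∨ Cfsg.Spor.IsoJ3 G ∨
      (∃ (F : Type) (_ : Field F) (_ : Fintype F) (n : ℕ), 2 ≤ n ∧ Fintype.card F = 2 ^ n ∧
        (Nonempty (G ≃* Matrix.ProjectiveSpecialLinearGroup (Fin 2) F) ∨
          Nonempty (G ≃* Matrix.ProjectiveSpecialLinearGroup (Fin 3) F) ∨ Nonempty (G ≃* Cfsg.PSp 2 F))) ∨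
      (∃ (F : Type) (_ : Field F) (_ : Fintype F) (n : ℕ), 2 ≤ n ∧ Fintype.card F = 2 ^ (2 * n) ∧
        Nonempty (G ≃* Cfsg.PSU 3 F (2 ^ n))) ∨
      (∃ (F : Type) (_ : Field F) (_ : Fintype F) (n : ℕ), 2 ≤ n ∧ Fintype.card F = 2 ^ (2 * n - 1) ∧
        Nonempty (G ≃* ↥(Cfsg.Lie.Sz F (2 ^ n)))) := by
  exact H274.CStarList.main (fun X _ _ _ => Cfsg.Agent.S0000.result) hG hloc T hC

end Cfsg.Agent.S3051
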