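import Cfsg.Statements.S3064
import Cfsg.Agent.H276.Isolated

set_option autoImplicit false
open Cfsg

namespace Cfsg.Agent.S3064

/-- Let S be a Sylow p-subgroup of the finite group G and x an element of S such that (i) x is the only G-conjugate of x lying in S, and (ii) x centralizes every subgroup of order prime to p that it normalizes. Then x lies in the centre of G. -/
theorem result {G : Type*} [Group G] [Finite G] {p : ℕ} [Fact p.Prime]
    (S : Sylow p G) (x : G) (hx : x ∈ S)
    (hU : ∀ g : G, g⁻¹ * x * g ∈ S → g⁻¹ * x * g = x)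
    (hb : ∀ H : Subgroup G, (Nat.card H).Coprime p → (∀ h ∈ H, x * h * x⁻¹ ∈ H) → ∀ h ∈ H, x * h = h * x) :
    x ∈ Subgroup.center G :=
  Cfsg.Agent.H276.mem_center_of_isolated S x hx hU hb

end Cfsg.Agent.S3064
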