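import Mathlib.GroupTheory.Sylow
import Cfsg.Prelude.Def_Transfer
import Cfsg.Prelude.Def_PLocal
import Cfsg.Agent.H278.JComplement

set_option autoImplicit false

namespace Cfsg.Agent.S3070

open Subgroup
open Cfsg.Agent.PLocal.ThompsonJA

/-- Let p ≥ 5 be a prime, S a Sylow p-subgroup of the finite group G and J(S) the subgroup generated by the abelian subgroups of S of largest order. Then G has a normal p-complement if and only if N_G(J(S))/C_G(J(S)) is a p-group (every element of N_G(J(S)) of order prime to p centralizes J(S)). -/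
theorem result {G : Type*} [Group G] [Finite G] {p : ℕ} [Fact p.Prime]
    (hp : 5 ≤ p) (S : Sylow p G) :
    Cfsg.HasNormalPComplement p G ↔
      ∀ g ∈ Subgroup.normalizer (Cfsg.thompsonSubgroupAOf (S : Subgroup G) : Set G), (orderOf g).Coprime p →
        g ∈ Subgroup.centralizer (Cfsg.thompsonSubgroupAOf (S : Subgroup G) : Set G) := by
  have h1 := Cfsg.Agent.H278.Automizer.hnc_normalizer_iff S
    (Cfsg.thompsonSubgroupAOf (S : Subgroup G)) (thompsonSubgroupAOf_le _)
    (le_normalizer.trans (normalizer_le_normalizer_thompsonSubgroupAOf _))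
    (by
      rw [inf_centralizer_thompsonSubgroupAOf_eq]
      exact centerThompsonAOf_le_thompsonSubgroupAOf _)
  rw [← h1]
  constructor
  · intro h
    exact Cfsg.Agent.Transfer.PNilpotentBasic.hnc_subgroup _ h
  · exact Cfsg.Agent.H278.JComplement.hasNormalPComplement G hp S

end Cfsg.Agent.S3070
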