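import Cfsg.Statements.S3073
import Cfsg.Agent.H278.CharComplement

set_option autoImplicit false
universe u
open Cfsg

namespace Cfsg.Agent.S3073

open Cfsg.Agent.H278.Automizer
open Cfsg.Agent.H278.RelZJ
open Cfsg.Agent.H278.CharComplement

theorem map_centralizer_eq {S G : Type*} [Group S] [Group G] (f : S →* G)
    (hf : Function.Injective f) (K : Subgroup S) :
    (Subgroup.centralizer (K : Set S)).map f =
      f.range ⊓ Subgroup.centralizer ((K.map f : Subgroup G) : Set G) := by
  ext x
  constructor
  · rintro ⟨y, hy, rfl⟩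
    refine ⟨⟨y, rfl⟩, ?_⟩
    change f y ∈ Subgroup.centralizer _
    have hy' : y ∈ Subgroup.centralizer (K : Set S) := hy
    rw [Subgroup.mem_centralizer_iff] at hy' ⊢
    rintro _ ⟨k, hk, rfl⟩
    rw [← map_mul, ← map_mul, hy' k hk]
  · rintro ⟨⟨y, rfl⟩, hy⟩
    refine ⟨y, ?_, rfl⟩
    change y ∈ Subgroup.centralizer _
    have hy' : f y ∈ Subgroup.centralizer _ := hy
    rw [Subgroup.mem_centralizer_iff] at hy' ⊢
    intro k hk
    apply hf
    rw [map_mul, map_mul]
    exact hy' _ ⟨k, hk, rfl⟩

/-- For an odd prime p, every finite p-group S has a characteristic subgroup K with C_S(K) ≤ K such that, whenever S is (isomorphic to) a Sylow p-subgroup of a finite group G, G has a normal p-complement if and only if N_G(K)/C_G(K) is a p-group, i.e. every element of N_G(K) of order prime to p centralizes K (K transported into G along the isomorphism). -/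
theorem result (p : ℕ) [Fact p.Prime] (hp : p ≠ 2)
    (S : Type u) [Group S] [Finite S] (hS : IsPGroup p S) :
    ∃ K : Subgroup S, K.Characteristic ∧ Subgroup.centralizer (K : Set S) ≤ K ∧
      ∀ (G : Type u) [Group G] [Finite G] (P : Sylow p G) (e : ↥(P : Subgroup G) ≃* S),
        Cfsg.HasNormalPComplement p G ↔
          ∀ g ∈ Subgroup.normalizer (((K.comap (e : ↥(P : Subgroup G) →* S)).map (P : Subgroup G).subtype : Subgroup G) : Set G),
            (orderOf g).Coprime p →
              g ∈ Subgroup.centralizer (((K.comap (e : ↥(P : Subgroup G) →* S)).map (P : Subgroup G).subtype : Subgroup G) : Set G) := by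
  classical
  -- the embedding of `S` in `G`
  have hι : ∀ (G : Type u) [Group G] (P : Subgroup G) (e : ↥P ≃* S) (K : Subgroup S),
      (K.comap (e : ↥P →* S)).map P.subtype = K.map (P.subtype.comp (e.symm : S →* ↥P)) := by
    intro G _ P e K
    rw [← Subgroup.map_map]
    congr 1
    exact Subgroup.comap_equiv_eq_map_symm e K
  let Good : Subgroup S → Prop := fun K => K.Characteristic ∧
    ∀ (G : Type u) [Group G] [Finite G] (P : Sylow p G) (e : ↥(P : Subgroup G) ≃* S),
      HasNormalPComplement p (Subgroup.normalizer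
        ((K.map ((P : Subgroup G).subtype.comp (e.symm : S →* ↥(P : Subgroup G))) : Subgroup G) :
          Set G)) → HasNormalPComplement p G
  have hbot : Good ⊥ := by
    refine ⟨inferInstance, fun G _ _ P e h => ?_⟩
    rw [Subgroup.map_bot, Subgroup.normalizer_eq_top] at h
    exact (Transfer.PNilpotentBasic.hnc_top).mp h
  obtain ⟨K, hKmax⟩ := Set.Finite.exists_maximal (Set.toFinite {K | Good K}) ⟨⊥, hbot⟩
  obtain ⟨hKchar, hKgood⟩ := hKmax.1
  have hcent : Subgroup.centralizer (K : Set S) ≤ K := by
    by_contra hnot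
    obtain ⟨C₀, hC₀⟩ : ∃ C₀, C₀ = Subgroup.centralizer (K : Set S) := ⟨_, rfl⟩
    obtain ⟨Z, hZ⟩ : ∃ Z, Z = C₀ ⊓ K := ⟨_, rfl⟩
    have hZC₀ : Z ≤ C₀ := by rw [hZ]; exact inf_le_left
    have hC₀char : C₀.Characteristic := by rw [hC₀]; infer_instance
    have hmapK : ∀ φ : S ≃* S, K.map (φ : S →* S) = K := fun φ =>
      (Subgroup.characteristic_iff_map_eq.mp hKchar φ)
    have hmapC₀ : ∀ φ : S ≃* S, C₀.map (φ : S →* S) = C₀ := fun φ =>
      (Subgroup.characteristic_iff_map_eq.mp hC₀char φ)
    have hmapZ : ∀ φ : S ≃* S, Z.map (φ : S →* S) = Z := by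
      intro φ
      have := Subgroup.map_inf C₀ K (φ : S →* S) φ.injective
      rw [hmapK, hmapC₀] at this
      rw [hZ]; exact this
    have hZn : Z.Normal := by
      have : Z.Characteristic := Subgroup.characteristic_iff_map_eq.mpr hmapZ
      infer_instance
    obtain ⟨D, hD⟩ : ∃ D, D = relD Z C₀ := ⟨_, rfl⟩
    have hmapD : ∀ φ : S ≃* S, D.map (φ : S →* S) = D := by
      intro φ
      rw [hD, map_relD (φ : S →* S) φ.injective hZC₀, hmapZ, hmapC₀]
    have hDne : D ≠ Z := by
      rw [hD]
      refine relD_ne Z C₀ hZC₀ (hS.to_subgroup C₀) ?_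
      intro h
      apply hnot
      rw [← hC₀, h, hZ]
      exact inf_le_right
    have hgood : Good (K ⊔ D) := by
      refine ⟨?_, ?_⟩
      · apply Subgroup.characteristic_iff_map_eq.mpr
        intro φ
        have := Subgroup.map_sup K D (φ : S →* S)
        rw [hmapK, hmapD] at this
        exact this
      · intro G _ _ P e h
        apply hKgood G P e
        obtain ⟨f, hf⟩ : ∃ f, f = (P : Subgroup G).subtype.comp (e.symm : S →* ↥(P : Subgroup G)) :=
          ⟨_, rfl⟩
        have hfinj : Function.Injective f := by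
          rw [hf]
          exact (Subgroup.subtype_injective _).comp e.symm.injective
        have hfrange : f.range = (P : Subgroup G) := by
          rw [hf, MonoidHom.range_comp, MonoidHom.range_eq_top.mpr e.symm.surjective,
            ← MonoidHom.range_eq_map, Subgroup.range_subtype]
        rw [← hf] at h ⊢
        have hKle : K.map f ≤ (P : Subgroup G) := by
          rw [← hfrange]; exact Subgroup.map_le_range _ _
        have hPK : (P : Subgroup G) ≤ Subgroup.normalizer ((K.map f : Subgroup G) : Set G) := by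
          have h1 : (⊤ : Subgroup S) ≤ Subgroup.normalizer (K : Set S) := by
            rw [Subgroup.normalizer_eq_top]
          have h2 := Subgroup.map_mono (f := f) h1
          rw [← MonoidHom.range_eq_map, hfrange] at h2
          exact h2.trans (Subgroup.le_normalizer_map f)
        refine step hp P (K.map f) hPK (C₀.map f) (Z.map f) ?_ ?_ ?_
        · rw [hC₀, map_centralizer_eq f hfinj, hfrange]
        · rw [hZ, Subgroup.map_inf _ _ _ hfinj]
        · rwa [← map_relD f hfinj hZC₀, ← hD, ← Subgroup.map_sup]
    have h1 := hKmax.2 hgood le_sup_left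
    have h2 : D ≤ K := le_sup_right.trans h1
    apply hDne
    refine le_antisymm ?_ (by rw [hD]; exact le_relD Z C₀)
    rw [hZ]
    exact le_inf (by rw [hD]; exact relD_le hZC₀) h2
  refine ⟨K, hKchar, hcent, fun G _ _ P e => ?_⟩
  rw [hι G (P : Subgroup G) e K]
  obtain ⟨f, hf⟩ : ∃ f, f = (P : Subgroup G).subtype.comp (e.symm : S →* ↥(P : Subgroup G)) :=
    ⟨_, rfl⟩
  have hfinj : Function.Injective f := by
    rw [hf]
    exact (Subgroup.subtype_injective _).comp e.symm.injective
  have hfrange : f.range = (P : Subgroup G) := by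
    rw [hf, MonoidHom.range_comp, MonoidHom.range_eq_top.mpr e.symm.surjective,
      ← MonoidHom.range_eq_map, Subgroup.range_subtype]
  have hKG := hKgood G P e
  rw [← hf] at hKG ⊢
  have hKle : K.map f ≤ (P : Subgroup G) := by
    rw [← hfrange]; exact Subgroup.map_le_range _ _
  have hPK : (P : Subgroup G) ≤ Subgroup.normalizer ((K.map f : Subgroup G) : Set G) := by
    have h1 : (⊤ : Subgroup S) ≤ Subgroup.normalizer (K : Set S) := by
      rw [Subgroup.normalizer_eq_top]
    have h2 := Subgroup.map_mono (f := f) h1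
    rw [← MonoidHom.range_eq_map, hfrange] at h2
    exact h2.trans (Subgroup.le_normalizer_map f)
  have hC : (P : Subgroup G) ⊓ Subgroup.centralizer ((K.map f : Subgroup G) : Set G) ≤ K.map f := by
    rw [← hfrange, ← map_centralizer_eq f hfinj]
    exact Subgroup.map_mono hcent
  rw [← hnc_normalizer_iff P (K.map f) hKle hPK hC]
  exact ⟨fun h => Transfer.PNilpotentBasic.hnc_subgroup _ h, hKG⟩

end Cfsg.Agent.S3073
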