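import Cfsg.Statements.S3075
import Cfsg.Agent.H275.PlaneSplit

set_option autoImplicit false
open Cfsg

namespace Cfsg.Agent.S3075

/-- Let p be an odd prime and N a finite group with a normal elementary abelian subgroup A of order p² that is its own centralizer in N, such that N/A is isomorphic to SL₂(p) (over any field F with p elements). Then N splits over A: some subgroup U of N satisfies A ∩ U = 1 and AU = N. -/
theorem result {N : Type*} [Group N] [Finite N] {p : ℕ} [Fact p.Prime] (hp : p ≠ 2)
    (A : Subgroup N) [A.Normal] (hAcomm : IsMulCommutative A) (hAcard : Nat.card A = p ^ 2) (hAexp : Monoid.exponent ↥A = p)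
    (hAself : Subgroup.centralizer (A : Set N) = A)
    {F : Type*} [Field F] [Fintype F] (hF : Fintype.card F = p) (e : N ⧸ A ≃* Matrix.SpecialLinearGroup (Fin 2) F) :
    ∃ U : Subgroup N, A ⊓ U = ⊥ ∧ A ⊔ U = ⊤ := by
  exact Cfsg.Agent.H275.PlaneSplit.main hp A hAcomm hAcard hAself hF e

end Cfsg.Agent.S3075
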