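import Cfsg.Statements.S3086
import Cfsg.Agent.H281.PGV.Top
import Cfsg.Agent.SignalizersComponents.Components

set_option autoImplicit false
open Cfsg

namespace Cfsg.Agent.S3086

open Cfsg.Agent.H281.PGV Cfsg.Agent.SignalizersComponents.Components

universe u v

theorem fixed_card {G : Type u} {V : Type v} [Group G] [AddCommGroup V] {p : ℕ} [Module (ZMod p) V]
    (ρ : Representation (ZMod p) G V) (B : Subgroup G) :
    Nat.card {v : V // ∀ b ∈ B, ρ b v = v} = Nat.card (fx ρ B) := rfl

theorem main {G : Type u} {V : Type v} [Group G] [Finite G] [AddCommGroup V] [Finite V] (p : ℕ)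
    [Fact p.Prime] [Module (ZMod p) V]
    (ρ : Representation (ZMod p) G V) (hρ : Function.Injective ρ)
    (A : Subgroup G) (hAel : Cfsg.IsElementaryAbelian p A)
    (hP : ∀ B : Subgroup G, B ≤ A →
      Nat.card ↥B * Nat.card {v : V // ∀ b ∈ B, ρ b v = v} ≤ Nat.card ↥A * Nat.card {v : V // ∀ a ∈ A, ρ a v = v})
    (K : Subgroup G) (hK : Cfsg.IsComponent K) (a₀ : G) (ha₀ : a₀ ∈ A)
    (ha₀K : a₀ ∉ Subgroup.normalizer (K : Set G)) : False := by
  classical
  have hcomm : ∀ a ∈ A, ∀ b ∈ A, a * b = b * a := fun a ha b hb =>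
    congrArg Subtype.val (hAel.1.is_comm.comm (⟨a, ha⟩ : A) ⟨b, hb⟩)
  have hKperf : commutator K = ⊤ := hK.2.1.commutator_eq_top
  have hKK : ⁅K, K⁆ = K := by
    have := congrArg (Subgroup.map K.subtype) hKperf
    rwa [Subgroup.map_subtype_commutator, ← MonoidHom.range_eq_map, Subgroup.range_subtype] at this
  have hconj : ∀ a : G, a ∈ Subgroup.normalizer (K : Set G) ∨
      (∀ x ∈ K, ∀ y ∈ K, (a * x * a⁻¹) * y = y * (a * x * a⁻¹)) := by
    intro a
    by_cases h : K.map (MulAut.conj a).toMonoidHom = K
    · left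
      rw [Subgroup.mem_normalizer_iff]
      intro x
      constructor
      · intro hx
        rw [← h]
        exact ⟨x, hx, rfl⟩
      · intro hx
        rw [← h] at hx
        obtain ⟨y, hy, hyx⟩ := hx
        have h2 : a * y * a⁻¹ = a * x * a⁻¹ := hyx
        have h3 : y = x := mul_left_cancel (mul_right_cancel h2)
        exact h3 ▸ hy
    · right
      have h1 := component_commutator_eq_bot_of_ne (isComponent_conj a hK) hK h
      rw [Subgroup.commutator_eq_bot_iff_le_centralizer] at h1
      intro x hx y hy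
      have h2 := Subgroup.mem_centralizer_iff.1 (h1 ⟨x, hx, rfl⟩) y hy
      exact h2.symm
  -- pass to the subgroup generated by `A` and `K`
  set D := A ⊔ K with hD
  have hAD : A ≤ D := le_sup_left
  have hKD : K ≤ D := le_sup_right
  set K' := K.subgroupOf D with hK'
  set A' := A.subgroupOf D with hA'
  let ρ' : Representation (ZMod p) D V := ρ.comp D.subtype
  have hfx : ∀ B : Subgroup D, fx ρ' B = fx ρ (B.map D.subtype) := by
    intro B
    ext v
    constructor
    · rintro h _ ⟨b, hb, rfl⟩
      exact h b hb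
    · intro h b hb
      exact h b ⟨b, hb, rfl⟩
  have hcard : ∀ B : Subgroup D, Nat.card B = Nat.card (B.map D.subtype) := by
    intro B
    exact Nat.card_congr (B.equivMapOfInjective _ D.subtype_injective).toEquiv
  have hbest : Best ρ' A' := by
    intro B hB
    rw [hfx, hfx, hcard, hcard A']
    have e1 : A'.map D.subtype = A := by
      rw [hA', Subgroup.map_subgroupOf_eq_of_le hAD]
    rw [e1]
    exact hP (B.map D.subtype) (by rw [← e1]; exact Subgroup.map_mono hB)
  have hVD : VD p K' A' :=
    { comm := fun a ha b hb => Subtype.ext (hcomm a.1 ha b.1 hb)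
      exp := fun a ha => Subtype.ext (hAel.2 a.1 ha)
      gen := by
        rw [hA', hK', ← Subgroup.subgroupOf_sup hAD hKD, Subgroup.subgroupOf_eq_top]
      conj := by
        intro a ha
        rcases hconj a.1 with h | h
        · left
          rw [Subgroup.mem_normalizer_iff] at h ⊢
          intro x
          exact h x.1
        · right
          intro x hx y hy
          exact Subtype.ext (h x.1 hx y.1 hy)
      perf := by
        apply Subgroup.map_injective D.subtype_injective
        rw [Subgroup.map_commutator, hK', Subgroup.map_subgroupOf_eq_of_le hKD, hKK]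
      qs := by
        intro N hNK hN
        -- as a subgroup of `K`
        let N' : Subgroup K := (N.map D.subtype).subgroupOf K
        have hN'n : N'.Normal := by
          constructor
          intro n hn x
          obtain ⟨m, hm, hmn⟩ : n.1 ∈ N.map D.subtype := hn
          refine ⟨⟨x.1, hKD x.2⟩ * m * ⟨x.1, hKD x.2⟩⁻¹, hN ⟨x.1, hKD x.2⟩ x.2 m hm, ?_⟩
          rw [map_mul, map_mul, hmn]
          rfl
        rcases quasisimple_normal hK.2 N' hN'n with h | h
        · left
          apply le_antisymm hNK
          intro x hx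
          have h1 : (⟨x.1, hx⟩ : K) ∈ N' := h ▸ Subgroup.mem_top _
          obtain ⟨m, hm, hmx⟩ : x.1 ∈ N.map D.subtype := h1
          have : m = x := Subtype.ext hmx
          exact this ▸ hm
        · right
          intro n hn k hk
          have h1 : (⟨n.1, hNK hn⟩ : K) ∈ N' := ⟨n, hn, rfl⟩
          have h2 := Subgroup.mem_center_iff.1 (h h1) ⟨k.1, hk⟩
          exact Subtype.ext (congrArg Subtype.val h2).symm }
  have hmain := main_V hVD (a₀ := ⟨a₀, hAD ha₀⟩) ha₀ (by
    intro h
    apply ha₀K
    rw [Subgroup.mem_normalizer_iff] at h ⊢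
    intro x
    constructor
    · intro hx
      exact (h ⟨x, hKD hx⟩).1 hx
    · intro hx
      have h1 : a₀⁻¹ * (a₀ * x * a₀⁻¹) * a₀ ∈ D :=
        mul_mem (mul_mem (inv_mem (hAD ha₀)) (hKD hx)) (hAD ha₀)
      have h2 : a₀⁻¹ * (a₀ * x * a₀⁻¹) * a₀ = x := by group
      rw [h2] at h1
      exact (h ⟨x, h1⟩).2 hx) (Nat.card V) V ρ' le_rfl hbest
  -- `K` is trivial
  have hKtriv : ∀ x ∈ K, x = 1 := by
    intro x hx
    apply hρ
    apply LinearMap.ext
    intro v
    have := hmain ⟨x, hKD hx⟩ hx v
    rw [map_one]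
    exact this
  apply ha₀K
  rw [Subgroup.mem_normalizer_iff]
  intro x
  constructor
  · intro hx
    rw [hKtriv x hx]
    simp
  · intro hx
    have h1 := hKtriv _ hx
    have h2 : x = 1 := by
      have h3 : a₀ * x * a₀⁻¹ = a₀ * 1 * a₀⁻¹ := by rw [h1]; simp
      exact mul_left_cancel (mul_right_cancel h3)
    rw [h2]
    exact one_mem _

/-- The P(G,V)-theorem. Let p be a prime, G a finite group acting faithfully and linearly on a finite vector space V over the field with p elements, and A a nontrivial elementary abelian p-subgroup of G such that |A|·|C_V(A)| ≥ |B|·|C_V(B)| for every subgroup B of A. Then A normalizes every component (subnormal quasisimple subgroup) of G. -/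
theorem result {G V : Type*} [Group G] [Finite G] [AddCommGroup V] [Finite V] (p : ℕ) [Fact p.Prime] [Module (ZMod p) V]
    (ρ : Representation (ZMod p) G V) (hρ : Function.Injective ρ)
    (A : Subgroup G) (hA : A ≠ ⊥) (hAel : Cfsg.IsElementaryAbelian p A)
    (hP : ∀ B : Subgroup G, B ≤ A →
      Nat.card ↥B * Nat.card {v : V // ∀ b ∈ B, ρ b v = v} ≤ Nat.card ↥A * Nat.card {v : V // ∀ a ∈ A, ρ a v = v}) :
    ∀ K : Subgroup G, Cfsg.IsComponent K → A ≤ Subgroup.normalizer (K : Set G) := by
  intro K hK a₀ ha₀
  by_contra ha₀K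
  exact main p ρ hρ A hAel hP K hK a₀ ha₀ ha₀K

end Cfsg.Agent.S3086
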