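import Cfsg.Statements.S3087

set_option autoImplicit false
open Cfsg

namespace Cfsg.Agent.S3087

/-- Let p be a prime, G a finite group acting linearly on a finite vector space V over the field with p elements, W a G-invariant subspace, and A a subgroup of G with |A|·|C_V(A)| ≥ |B|·|C_V(B)| for every subgroup B of A. Then |A|·|C_W(A)| ≥ |B|·|C_W(B)| for every subgroup B of A that contains C_A(W); that is, the image of A in the group induced on W satisfies the same maximality condition. -/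
theorem result {G V : Type*} [Group G] [Finite G] [AddCommGroup V] [Finite V] (p : ℕ) [Fact p.Prime] [Module (ZMod p) V]
    (ρ : Representation (ZMod p) G V) (W : Submodule (ZMod p) V) (hW : ∀ g : G, ∀ w ∈ W, ρ g w ∈ W)
    (A : Subgroup G)
    (hP : ∀ B : Subgroup G, B ≤ A →
      Nat.card ↥B * Nat.card {v : V // ∀ b ∈ B, ρ b v = v} ≤ Nat.card ↥A * Nat.card {v : V // ∀ a ∈ A, ρ a v = v})
    (B : Subgroup G) (hBA : B ≤ A) (hCB : ∀ a ∈ A, (∀ w ∈ W, ρ a w = w) → a ∈ B) :
    Nat.card ↥B * Nat.card {w : W // ∀ b ∈ B, ρ b w = w} ≤ Nat.card ↥A * Nat.card {w : W // ∀ a ∈ A, ρ a w = w} := by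
  classical
  -- fixed point subgroups
  let FB : AddSubgroup V :=
    { carrier := {v | ∀ b ∈ B, ρ b v = v}
      add_mem' := fun {x y} hx hy b hb => by rw [map_add, hx b hb, hy b hb]
      zero_mem' := fun b _ => map_zero _
      neg_mem' := fun {x} hx b hb => by rw [map_neg, hx b hb] }
  let FA : AddSubgroup V :=
    { carrier := {v | ∀ b ∈ A, ρ b v = v}
      add_mem' := fun {x y} hx hy b hb => by rw [map_add, hx b hb, hy b hb]
      zero_mem' := fun b _ => map_zero _
      neg_mem' := fun {x} hx b hb => by rw [map_neg, hx b hb] }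
  have hAB : FA ≤ FB := fun v hv b hb => hv b (hBA hb)
  have h0 := hP B hBA
  have e1 : Nat.card {v : V // ∀ b ∈ B, ρ b v = v} = Nat.card FB := rfl
  have e2 : Nat.card {v : V // ∀ b ∈ A, ρ b v = v} = Nat.card FA := rfl
  let W' : AddSubgroup V := W.toAddSubgroup
  have e3 : Nat.card {w : W // ∀ b ∈ B, ρ b w = w} = Nat.card (FB ⊓ W' : AddSubgroup V) := by
    refine Nat.card_congr ⟨fun w => ⟨w.1.1, w.2, w.1.2⟩, fun w => ⟨⟨w.1, w.2.2⟩, w.2.1⟩, fun _ => rfl, fun _ => rfl⟩
  have e4 : Nat.card {w : W // ∀ b ∈ A, ρ b w = w} = Nat.card (FA ⊓ W' : AddSubgroup V) := by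
    refine Nat.card_congr ⟨fun w => ⟨w.1.1, w.2, w.1.2⟩, fun w => ⟨⟨w.1, w.2.2⟩, w.2.1⟩, fun _ => rfl, fun _ => rfl⟩
  rw [e1, e2] at h0
  rw [e3, e4]
  -- |FA| * |FB ⊓ W| ≤ |FB| * |FA ⊓ W|
  have key : Nat.card FA * Nat.card (FB ⊓ W' : AddSubgroup V) ≤ Nat.card FB * Nat.card (FA ⊓ W' : AddSubgroup V) := by
    have h1 : Nat.card FA * (FA.relIndex (FB ⊓ W')) ≤ Nat.card FA * (FA.relIndex FB) := by
      apply Nat.mul_le_mul_left
      apply AddSubgroup.relIndex_le_of_le_right inf_le_left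
      intro h0'
      have := AddSubgroup.relIndex_mul_relIndex (⊥ : AddSubgroup V) FA FB bot_le hAB
      rw [h0', mul_zero, AddSubgroup.relIndex_bot_left] at this
      exact (Nat.card_pos (α := FB)).ne this
    have h2 : Nat.card FA * FA.relIndex FB = Nat.card FB := by
      have := AddSubgroup.relIndex_mul_relIndex (⊥ : AddSubgroup V) FA FB bot_le hAB
      rwa [AddSubgroup.relIndex_bot_left, AddSubgroup.relIndex_bot_left] at this
    have h3 : Nat.card (FA ⊓ W' : AddSubgroup V) * FA.relIndex (FB ⊓ W') = Nat.card (FB ⊓ W' : AddSubgroup V) := by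
      have h4 : FA.relIndex (FB ⊓ W') = (FA ⊓ W' : AddSubgroup V).relIndex (FB ⊓ W') := by
        rw [← AddSubgroup.inf_relIndex_right FA (FB ⊓ W')]
        congr 1
        rw [← inf_assoc, inf_eq_left.mpr hAB]
      rw [h4]
      have := AddSubgroup.relIndex_mul_relIndex (⊥ : AddSubgroup V) (FA ⊓ W') (FB ⊓ W') bot_le (inf_le_inf_right _ hAB)
      rwa [AddSubgroup.relIndex_bot_left, AddSubgroup.relIndex_bot_left] at this
    calc Nat.card FA * Nat.card (FB ⊓ W' : AddSubgroup V)
        = Nat.card FA * FA.relIndex (FB ⊓ W') * Nat.card (FA ⊓ W' : AddSubgroup V) := by rw [← h3]; ring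
      _ ≤ Nat.card FA * FA.relIndex FB * Nat.card (FA ⊓ W' : AddSubgroup V) := Nat.mul_le_mul_right _ h1
      _ = _ := by rw [h2]
  have hpos : 0 < Nat.card FB := Nat.card_pos
  have hpos' : 0 < Nat.card FA := Nat.card_pos
  refine Nat.le_of_mul_le_mul_left ?_ (Nat.mul_pos hpos hpos')
  calc Nat.card FB * Nat.card FA * (Nat.card B * Nat.card (FB ⊓ W' : AddSubgroup V))
      = (Nat.card B * Nat.card FB) * (Nat.card FA * Nat.card (FB ⊓ W' : AddSubgroup V)) := by ring
    _ ≤ (Nat.card A * Nat.card FA) * (Nat.card FB * Nat.card (FA ⊓ W' : AddSubgroup V)) := Nat.mul_le_mul h0 key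
    _ = _ := by ring

end Cfsg.Agent.S3087
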