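import Cfsg.Statements.S3091
import Cfsg.Agent.H282.Raw

set_option autoImplicit false
open Cfsg

namespace Cfsg.Agent.S3091

/-- Let G be a finite group of characteristic 2 type and q = 2ᵉ > 2, F the field with q elements. Let L₁ ≠ L₂ be subgroups of G such that, for i = 1, 2, V_i = O₂(L_i) is elementary abelian with L_i/V_i ≅ SL(2, q) acting on V_i as on its natural 2-dimensional module F² (an additive isomorphism V_i ≅ F² carrying conjugation by g ∈ L_i to multiplication by the matrix of gV_i), and such that J = V₁V₂ is a Sylow 2-subgroup of both L₁ and L₂. Assume that N_G(L₁) and N_G(L₂) are maximal 2-local subgroups of G and that, for a Sylow 2-subgroup T of N_G(L₁), the subgroup generated by T, L₁ and L₂ has no nontrivial normal 2-subgroup. Then G has sectional 2-rank at most 4, or F*(G) ≅ L₃(q). -/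
theorem result
    {G : Type*} [Group G] [Finite G] (hG : Cfsg.IsCharacteristicTwoType G)
    {F : Type*} [Field F] [Fintype F] (e : ℕ) (he : 2 ≤ e) (hF : Fintype.card F = 2 ^ e)
    (L₁ L₂ : Subgroup G) (hne : L₁ ≠ L₂)
    (φ₁ : ↥L₁ ⧸ Cfsg.pCore 2 ↥L₁ ≃* Matrix.SpecialLinearGroup (Fin 2) F)
    (ψ₁ : Additive ↥(Cfsg.pCore 2 ↥L₁) ≃+ (Fin 2 → F))
    (h₁ : ∀ (g : ↥L₁) (v : ↥(Cfsg.pCore 2 ↥L₁)),
      ψ₁ (Additive.ofMul ⟨g * v * g⁻¹, Subgroup.Normal.conj_mem inferInstance (v : ↥L₁) v.2 g⟩)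
        = Matrix.mulVec ((φ₁ (QuotientGroup.mk g) : Matrix.SpecialLinearGroup (Fin 2) F) : Matrix (Fin 2) (Fin 2) F) (ψ₁ (Additive.ofMul v)))
    (φ₂ : ↥L₂ ⧸ Cfsg.pCore 2 ↥L₂ ≃* Matrix.SpecialLinearGroup (Fin 2) F)
    (ψ₂ : Additive ↥(Cfsg.pCore 2 ↥L₂) ≃+ (Fin 2 → F))
    (h₂ : ∀ (g : ↥L₂) (v : ↥(Cfsg.pCore 2 ↥L₂)),
      ψ₂ (Additive.ofMul ⟨g * v * g⁻¹, Subgroup.Normal.conj_mem inferInstance (v : ↥L₂) v.2 g⟩)
        = Matrix.mulVec ((φ₂ (QuotientGroup.mk g) : Matrix.SpecialLinearGroup (Fin 2) F) : Matrix (Fin 2) (Fin 2) F) (ψ₂ (Additive.ofMul v)))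
    (hJ₁ : ∃ S : Sylow 2 ↥L₁, (S : Subgroup ↥L₁).map L₁.subtype = (Cfsg.pCore 2 ↥L₁).map L₁.subtype ⊔ (Cfsg.pCore 2 ↥L₂).map L₂.subtype)
    (hJ₂ : ∃ S : Sylow 2 ↥L₂, (S : Subgroup ↥L₂).map L₂.subtype = (Cfsg.pCore 2 ↥L₁).map L₁.subtype ⊔ (Cfsg.pCore 2 ↥L₂).map L₂.subtype)
    (hM₁ : Cfsg.IsMaximalTwoLocal (Subgroup.normalizer (L₁ : Set G))) (hM₂ : Cfsg.IsMaximalTwoLocal (Subgroup.normalizer (L₂ : Set G)))
    (T : Sylow 2 ↥(Subgroup.normalizer (L₁ : Set G)))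
    (hO : Cfsg.pCore 2 ↥(((T : Subgroup ↥(Subgroup.normalizer (L₁ : Set G))).map (Subgroup.normalizer (L₁ : Set G)).subtype) ⊔ L₁ ⊔ L₂) = ⊥) :
    Cfsg.SectionalPRankLE 2 4 G ∨
      Nonempty (↥(Cfsg.generalizedFittingSubgroup G) ≃* Matrix.ProjectiveSpecialLinearGroup (Fin 3) F) := by
  have hf : Fact (Nat.Prime 2) := ⟨Nat.prime_two⟩
  have _ : CharP F 2 := by
    obtain ⟨p, hp⟩ := CharP.exists F
    obtain ⟨n, hpp, hn⟩ := FiniteField.card F p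
    rw [hF] at hn
    have h1 : p ∣ 2 ^ e := by
      rw [hn]
      exact dvd_pow_self p n.2.ne'
    have h2 : p = 2 := (Nat.prime_dvd_prime_iff_eq hpp Nat.prime_two).1 (hpp.dvd_of_dvd_pow h1)
    rw [← h2]
    exact hp
  have hcard : Nat.card F = 2 ^ e := by rw [Nat.card_eq_fintype_card, hF]
  have h4 : 4 ≤ Nat.card F := by
    rw [hcard]
    calc 4 = 2 ^ 2 := by norm_num
      _ ≤ 2 ^ e := Nat.pow_le_pow_right (by norm_num) he
  obtain ⟨S₁, hS₁⟩ := hJ₁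
  obtain ⟨S₂, hS₂⟩ := hJ₂
  obtain ⟨π₁, s₁⟩ := Cfsg.Agent.H282.side_of L₁ φ₁ ψ₁ h₁ S₁ hS₁
  obtain ⟨π₂, s₂⟩ := Cfsg.Agent.H282.side_of L₂ φ₂ ψ₂ h₂ S₂ hS₂
  set V₁ : Subgroup G := (Cfsg.pCore 2 ↥L₁).map L₁.subtype with hV₁
  set V₂ : Subgroup G := (Cfsg.pCore 2 ↥L₂).map L₂.subtype with hV₂
  have hp : Cfsg.Agent.H282.Pair F L₁ L₂ V₁ V₂ (V₁ ⊔ V₂) π₁ π₂ := Cfsg.Agent.H282.pair_of s₁ s₂
  -- `N_G(V_i) = N_G(L_i)`
  have hmax : ∀ (L : Subgroup G), Cfsg.IsMaximalTwoLocal (Subgroup.normalizer (L : Set G)) →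
      (∃ z ∈ (Cfsg.pCore 2 ↥L).map L.subtype, z ≠ 1) →
      ∀ g, (∀ v ∈ (Cfsg.pCore 2 ↥L).map L.subtype, g * v * g⁻¹ ∈ (Cfsg.pCore 2 ↥L).map L.subtype) →
        ∀ l ∈ L, g * l * g⁻¹ ∈ L := by
    rintro L hM ⟨z, hz, hz1⟩ g hg
    have h7 : Subgroup.normalizer (((Cfsg.pCore 2 ↥L).map L.subtype : Subgroup G) : Set G) =
        Subgroup.normalizer (L : Set G) := by
      refine hM.2 _ ⟨_, Cfsg.Agent.ZN.isPGroup_o2 L, ?_, rfl⟩ (Cfsg.Agent.ZN.normalizer_le_normalizer_o2 L)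
      intro h8
      apply hz1
      have h9 : z ∈ Cfsg.Agent.ZN.o2 L := hz
      rw [h8, Subgroup.mem_bot] at h9
      exact h9
    have h8 := Cfsg.Agent.H282.mem_norm_iff.2 hg
    rw [h7] at h8
    exact Cfsg.Agent.H282.mem_norm_iff.1 h8
  obtain ⟨z, hz, hz1⟩ := hp.exists_z
  have hs : Cfsg.Agent.H282.Sit F L₁ L₂ V₁ V₂ (V₁ ⊔ V₂) π₁ π₂ :=
    { toPair := hp
      ct := hG
      nrm₁ := hmax L₁ hM₁ ⟨z, hz.1, hz1⟩
      nrm₂ := hmax L₂ hM₂ ⟨z, hz.2, hz1⟩ }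
  obtain ⟨ω, hω, hω1⟩ := Cfsg.Agent.H282.exists_ne_of_card h4
  have hd := hs.dat hω hω1 (by
    intro R hR hRn hR1 hR2
    have hRN : R ≤ Subgroup.normalizer (L₁ : Set G) := by
      intro r hr
      rw [Cfsg.Agent.H282.mem_norm_iff]
      intro l hl
      rw [← Subgroup.mem_centralizer_iff.1 (hR1 hr) l hl, mul_inv_cancel_right]
      exact hl
    have hn : (R.subgroupOf (Subgroup.normalizer (L₁ : Set G))).Normal :=
      Subgroup.normal_subgroupOf_of_le_normalizer hRn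
    have hRp : IsPGroup 2 (R.subgroupOf (Subgroup.normalizer (L₁ : Set G))) := hR.comap_subtype
    have hRT := IsPGroup.le_sylow_of_normal hRp T
    have hRT' : R ≤ (T : Subgroup ↥(Subgroup.normalizer (L₁ : Set G))).map
        (Subgroup.normalizer (L₁ : Set G)).subtype := fun r hr =>
      ⟨⟨r, hRN hr⟩, hRT (Subgroup.mem_subgroupOf.2 hr), rfl⟩
    set Y : Subgroup G := ((T : Subgroup ↥(Subgroup.normalizer (L₁ : Set G))).map
      (Subgroup.normalizer (L₁ : Set G)).subtype) ⊔ L₁ ⊔ L₂ with hY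
    have hcR : ∀ L : Subgroup G, R ≤ Subgroup.centralizer (L : Set G) → L ≤ Subgroup.normalizer (R : Set G) := by
      intro L hL l hl
      rw [Cfsg.Agent.H282.mem_norm_iff]
      intro r hr
      rw [Subgroup.mem_centralizer_iff.1 (hL hr) l hl, mul_inv_cancel_right]
      exact hr
    have hYR : Y ≤ Subgroup.normalizer (R : Set G) :=
      sup_le (sup_le ((Subgroup.map_subtype_le _).trans hRn) (hcR L₁ hR1)) (hcR L₂ hR2)
    have hRY : R ≤ Y := hRT'.trans (le_sup_left.trans le_sup_left)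
    have hn2 : (R.subgroupOf Y).Normal := Subgroup.normal_subgroupOf_of_le_normalizer hYR
    have h5 := Cfsg.Agent.Lib.Cores.le_pCore hn2 (hR.comap_subtype : IsPGroup 2 (R.subgroupOf Y))
    rw [hO, le_bot_iff, Subgroup.subgroupOf_eq_bot, disjoint_iff, inf_eq_left.2 hRY] at h5
    exact h5)
  rcases h4.eq_or_lt with h5 | h5
  · exact Or.inl (hd.rank h5.symm)
  · right
    have _ : Fintype (GaloisField 2 e) := Fintype.ofFinite _
    have h6 : Fintype.card F = Fintype.card (GaloisField 2 e) := by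
      rw [hF, ← Nat.card_eq_fintype_card, GaloisField.card 2 e (by omega)]
    exact hd.main hG h5 (FiniteField.ringEquivOfCardEq h6)

end Cfsg.Agent.S3091
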