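import Cfsg.Statements.S3100
import Cfsg.Agent.H285.LyEnd

set_option autoImplicit false
open Cfsg

namespace Cfsg.Agent.S3100

/-- Let G be a non-abelian finite simple group whose Sylow 2-subgroups are isomorphic to those of the Lyons group. Then G is isomorphic to the Lyons group. -/
theorem result {G : Type*} [Group G] [Finite G] [IsSimpleGroup G] (hG : ¬ IsMulCommutative G) (S : Sylow 2 G)
    (hS : ∃ P : Sylow 2 Cfsg.Spor.Ly, Nonempty (↥(S : Subgroup G) ≃* ↥(P : Subgroup Cfsg.Spor.Ly))) :
    Cfsg.Spor.IsoLy G := by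
  exact Cfsg.Agent.H285.LyEnd.main hG S hS

end Cfsg.Agent.S3100
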