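import Cfsg.Statements.S3122
import Cfsg.Agent.CoThreeStd.Core.Main
import Cfsg.Agent.CoThreeStd.Bound.BetaFin

set_option autoImplicit false
open Cfsg

namespace Cfsg.Agent.S3122

open Cfsg.Agent.CoThreeStd

theorem exists_noncomm {G : Type*} [Group G] (hG : ¬ IsMulCommutative G) : ∃ a b : G, a * b ≠ b * a := by
  by_contra h
  push Not at h
  exact hG ⟨⟨h⟩⟩

theorem exists_cen {G : Type*} [Group G] [Finite G] (t : G) (ht : orderOf t = 2)
    (e : ↥(Subgroup.centralizer ({t} : Set G)) ≃* Multiplicative (ZMod 2) × ↥Cfsg.Spor.M12) :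
    ∃ ι : ↥Cfsg.Spor.M12 →* G, Core.Cen Core.Ain t ι (⊥ : Subgroup G) := by
  have t1 : t ≠ 1 := by
    rintro rfl
    rw [orderOf_one] at ht
    exact absurd ht (by norm_num)
  have tt : t * t = 1 := by rw [← pow_two, ← ht]; exact pow_orderOf_eq_one t
  have htZ : t ∈ Subgroup.centralizer ({t} : Set G) := Subgroup.mem_centralizer_singleton_iff.2 rfl
  set ι : ↥Cfsg.Spor.M12 →* G := (Subgroup.centralizer ({t} : Set G)).subtype.comp
    (e.symm.toMonoidHom.comp (MonoidHom.inr (Multiplicative (ZMod 2)) ↥Cfsg.Spor.M12)) with hι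
  have hιm : ∀ m, ι m = ((e.symm (1, m) : ↥(Subgroup.centralizer ({t} : Set G))) : G) := fun m => rfl
  have hcen : ∀ m : ↥Cfsg.Spor.M12, (∀ x, m * x = x * m) → m = 1 := fun m h => Core.mfacts_in.center m h
  -- elements of the centralizer commuting with `ι M`
  have hone : ∀ g (hg : g ∈ Subgroup.centralizer ({t} : Set G)), (∀ m, g * ι m = ι m * g) →
      (e ⟨g, hg⟩).2 = 1 := by
    intro g hg h
    apply hcen
    intro x
    have h1 : (⟨g, hg⟩ : ↥(Subgroup.centralizer ({t} : Set G))) * e.symm (1, x) = e.symm (1, x) * ⟨g, hg⟩ :=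
      Subtype.ext (h x)
    have h2 := congrArg e h1
    rw [map_mul, map_mul, e.apply_symm_apply] at h2
    exact congrArg Prod.snd h2
  have hcomm : ∀ m, ι m * t = t * ι m := fun m =>
    Subgroup.mem_centralizer_singleton_iff.1 (e.symm (1, m)).2
  have ht2 : (e ⟨t, htZ⟩).2 = 1 := hone t htZ (fun m => (hcomm m).symm)
  have ht3 : (e ⟨t, htZ⟩).1 ≠ 1 := by
    intro h
    apply t1
    have h1 : e ⟨t, htZ⟩ = 1 := Prod.ext h ht2
    have h2 := (map_eq_one_iff e e.injective).1 h1
    exact congrArg Subtype.val h2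
  refine ⟨ι, ?_, tt, t1, hcomm, ?_, ?_, ?_, ?_, ?_⟩
  · intro a b hab
    have h1 : e.symm (1, a) = e.symm (1, b) := Subtype.ext hab
    exact congrArg Prod.snd (e.symm.injective h1)
  · intro d hd
    rw [Subgroup.mem_bot.1 hd, one_mul, mul_one]
  · intro d hd m
    rw [Subgroup.mem_bot.1 hd, one_mul, mul_one]
  · rw [Subgroup.card_bot]; exact odd_one
  · intro g hg
    have hgZ : g ∈ Subgroup.centralizer ({t} : Set G) := Subgroup.mem_centralizer_singleton_iff.2 hg
    refine ⟨MulAut.conj (e ⟨g, hgZ⟩).2, ⟨(e ⟨g, hgZ⟩).2, fun x => rfl⟩, ?_⟩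
    intro m
    have h1 : (⟨g, hgZ⟩ : ↥(Subgroup.centralizer ({t} : Set G))) * e.symm (1, m) * (⟨g, hgZ⟩)⁻¹ =
        e.symm (1, MulAut.conj (e ⟨g, hgZ⟩).2 m) := by
      apply e.injective
      rw [map_mul, map_mul, map_inv, e.apply_symm_apply, e.apply_symm_apply]
      refine Prod.ext ?_ rfl
      show (e ⟨g, hgZ⟩).1 * 1 * (e ⟨g, hgZ⟩).1⁻¹ = 1
      group
    exact congrArg Subtype.val h1
  · intro g hg hgm
    have hgZ : g ∈ Subgroup.centralizer ({t} : Set G) := Subgroup.mem_centralizer_singleton_iff.2 hg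
    have h2 := hone g hgZ hgm
    by_cases h1 : (e ⟨g, hgZ⟩).1 = 1
    · left
      have h3 : e ⟨g, hgZ⟩ = 1 := Prod.ext h1 h2
      have h4 := (map_eq_one_iff e e.injective).1 h3
      exact Subgroup.mem_bot.2 (congrArg Subtype.val h4)
    · right
      have key : ∀ a b : Multiplicative (ZMod 2), a ≠ 1 → b ≠ 1 → a * b = 1 := by decide
      have h3 : e (⟨t, htZ⟩ * ⟨g, hgZ⟩) = 1 := by
        rw [map_mul]
        exact Prod.ext (key _ _ ht3 h1) (by
          show (e ⟨t, htZ⟩).2 * (e ⟨g, hgZ⟩).2 = 1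
          rw [ht2, h2, one_mul])
      have h4 := (map_eq_one_iff e e.injective).1 h3
      exact Subgroup.mem_bot.2 (congrArg Subtype.val h4)

/-- Let G be a non-abelian finite simple group containing an involution t whose centralizer is isomorphic to the direct product of a group of order 2 and the Mathieu group of degree 12. Then G is isomorphic to the third Conway group. -/
theorem result {G : Type*} [Group G] [Finite G] [IsSimpleGroup G] (hG : ¬ IsMulCommutative G)
    (t : G) (ht : orderOf t = 2)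
    (hC : Nonempty (↥(Subgroup.centralizer ({t} : Set G)) ≃* Multiplicative (ZMod 2) × ↥Cfsg.Spor.M12)) :
    Cfsg.Spor.IsoCo3 G := by
  obtain ⟨e⟩ := hC
  obtain ⟨ι, h⟩ := exists_cen t ht e
  exact Core.isoCo3_of_cen (Parity.index_ne_two_of_noncomm (exists_noncomm hG)) Bound.BetaFin.betaIso h

end Cfsg.Agent.S3122
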