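import Cfsg.Statements.S3136
import Cfsg.Agent.H294.D4Std

set_option autoImplicit false
open Cfsg

namespace Cfsg.Agent.S3136

/-- Let G be a finite group with a standard subgroup L isomorphic to the triality-twisted group of type D₄ with parameter q = 2^n ≥ 2 (realised over the field with q³ elements), such that the centralizer of L in G has cyclic Sylow 2-subgroups. Assume moreover that for every section X of G (a quotient of a subgroup of G by a normal subgroup of that subgroup), every 2-local subgroup of X/O(X) has its 2-layer equal to its layer (all its 2-components are quasisimple), O(X) being the largest normal odd-order subgroup. Then one of the following holds: L·O(G) is normal in G; the layer E(G) is isomorphic to the triality-twisted group of type D₄ with parameter q² (realised over the field with q⁶ elements); or E(G) is isomorphic to L × L. -/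
theorem result {G : Type*} [Group G] [Finite G] (L : Subgroup G) (hL : Cfsg.IsStandardSubgroup L)
    {K : Type*} [Field K] [Fintype K] (n : ℕ) (hn : 1 ≤ n) (hK : Fintype.card K = 8 ^ n)
    (hLX : Nonempty (↥L ≃* ↥(Cfsg.Lie.twistedD4 K (2 ^ n))))
    (hR : ∀ R : Sylow 2 ↥(Subgroup.centralizer (L : Set G)), IsCyclic ↥(R : Subgroup ↥(Subgroup.centralizer (L : Set G))))
    (hS : ∀ (H : Subgroup G) (N : Subgroup ↥H) [N.Normal] (M : Subgroup ((↥H ⧸ N) ⧸ Cfsg.oddCore (↥H ⧸ N))),
      Cfsg.IsTwoLocal M → Cfsg.pLayer 2 ↥M = Cfsg.layer ↥M) :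
    (L ⊔ Cfsg.oddCore G).Normal ∨
      (∃ (E : Type) (_ : Field E) (_ : Fintype E), Fintype.card E = 64 ^ n ∧ Nonempty (↥(Cfsg.layer G) ≃* ↥(Cfsg.Lie.twistedD4 E (4 ^ n)))) ∨
      Nonempty (↥(Cfsg.layer G) ≃* ↥L × ↥L) :=
  Cfsg.Agent.H294.D4Std.main L hL n hn hK hLX hR

end Cfsg.Agent.S3136
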