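import Cfsg.Statements.S3149
import Cfsg.Agent.H297.FrameB
import Cfsg.Agent.H297.Solv
import Cfsg.Agent.H297.RuFr
import Cfsg.Agent.OddHalf.D9.Plug.Ru

set_option autoImplicit false
open Cfsg

namespace Cfsg.Agent.S3149

open Subgroup

/-- Let G be a finite group with no nontrivial normal subgroup of odd order and A a standard subgroup of G which is a double cover of the Rudvalis group (the centre of A has order 2 and A modulo its centre is isomorphic to the Rudvalis group). If the centralizer of A in G has cyclic Sylow 2-subgroups, then A is normal in G. -/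
theorem result {G : Type*} [Group G] [Finite G] (hO : Cfsg.oddCore G = ⊥) (A : Subgroup G) (hA : Cfsg.IsStandardSubgroup A)
    (hZ : Nat.card ↥(Subgroup.center ↥A) = 2) (hAX : Cfsg.Spor.IsoRu (↥A ⧸ Subgroup.center ↥A))
    (hR : ∀ R : Sylow 2 ↥(Subgroup.centralizer (A : Set G)), IsCyclic ↥(R : Subgroup ↥(Subgroup.centralizer (A : Set G)))) : A.Normal := by
  have : Fact (Nat.Prime 2) := ⟨Nat.prime_two⟩
  -- the central involution
  obtain ⟨c, hc1⟩ : ∃ c : center ↥A, orderOf c = 2 :=
    exists_prime_orderOf_dvd_card' 2 (by rw [hZ])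
  have hcc : (c : ↥A) ∈ center ↥A := c.2
  have hc1' : (c : ↥A) ≠ 1 := by
    intro h
    have : c = 1 := Subtype.ext h
    rw [this, orderOf_one] at hc1
    exact absurd hc1 (by norm_num)
  have hperf : commutator ↥A = ⊤ := hA.1.1.commutator_eq_top
  obtain ⟨ℓ, hℓ, hF⟩ := Cfsg.Agent.OddHalf.D9.Ru.RowFin.facts ↥A inferInstance hperf hZ hAX c hcc hc1'
  have hz1 : ((c : ↥A) : G) ≠ 1 := fun h => hc1' (Subtype.ext h)
  have hzz : ((c : ↥A) : G) * ((c : ↥A) : G) = 1 := congrArg Subtype.val hF.cc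
  have hzC : ((c : ↥A) : G) ∈ centralizer (A : Set G) := by
    rw [mem_centralizer_iff]
    intro a ha
    exact congrArg Subtype.val (mem_center_iff.1 hcc ⟨a, ha⟩)
  have hzcen : ∀ g ∈ centralizer (A : Set G), g * ((c : ↥A) : G) = ((c : ↥A) : G) * g := fun g hg =>
    (mem_centralizer_iff.1 hg _ (c : ↥A).2).symm
  have hle := (Cfsg.Agent.S1754.result A hA ((c : ↥A) : G) (orderOf_eq_prime (by rw [pow_two, hzz]) hz1) hzC).1
  have hnorm : ∀ h : G, h * ((c : ↥A) : G) = ((c : ↥A) : G) * h → h ∈ normalizer (A : Set G) := fun h hh =>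
    hle (mem_centralizer_singleton_iff.2 hh)
  have amb : H297.RuFr.Amb' ((c : ↥A) : G) A := by
    refine ⟨(c : ↥A).2, fun h hh k hk => (mem_normalizer_iff.1 (hnorm h hh) k).1 hk, ?_, ?_⟩
    · intro r hr hrr
      exact H297.Frame.uniq hR hzC hzcen hzz hz1 (mem_centralizer_iff.2 fun k hk => (hr k hk).symm) hrr
    · intro Y hY hYz
      refine H297.Solv.perf_le (B := centralizer (A : Set G)) (fun b hb a ha => (mem_centralizer_iff.1 hb a ha).symm)
        (H297.Solv.solvable hR) hY ?_
      intro y hy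
      have hn := hnorm y (hYz y hy)
      obtain ⟨s, hs⟩ := hF.inn (H297.Frame.act hn)
      refine ⟨s, s.2, _, H297.Frame.exists_mul hn (s := s) fun k => ?_, (mul_inv_cancel_left _ _).symm⟩
      rw [← hs, MulAut.conj_apply]
  have fr : H297.RuFr.Fr ℓ ((c : ↥A) : G) A := ⟨hℓ, amb, hF⟩
  exact H297.Frame.normal_of_isolated hO hA hz1 hzz hzC fun g hg => fr.isolated g hg

end Cfsg.Agent.S3149
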