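import Cfsg.Statements.S3150
import Cfsg.Agent.H297.FrameB
import Cfsg.Agent.H297.Isolated
import Cfsg.Agent.ConwayFacts.AutCo1

set_option autoImplicit false
open Cfsg

namespace Cfsg.Agent.S3150

open Subgroup Cfsg.Agent.OddHalf.D9.Co1.Facts

/-- Let G be a finite group with no nontrivial normal subgroup of odd order and A a standard subgroup of G isomorphic to the automorphism group of the Leech lattice (the double cover of the first Conway group). If the centralizer of A in G has cyclic Sylow 2-subgroups, then A is normal in G. -/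
theorem result {G : Type*} [Group G] [Finite G] (hO : Cfsg.oddCore G = ⊥) (A : Subgroup G) (hA : Cfsg.IsStandardSubgroup A)
    (hAX : Nonempty (↥A ≃* ↥Cfsg.Co0)) (hR : ∀ R : Sylow 2 ↥(Subgroup.centralizer (A : Set G)), IsCyclic ↥(R : Subgroup ↥(Subgroup.centralizer (A : Set G)))) : A.Normal := by
  obtain ⟨θ⟩ := hAX
  let φ : Co0 →* G := A.subtype.comp θ.symm.toMonoidHom
  have hφ : ∀ x, φ x = ((θ.symm x : ↥A) : G) := fun _ => rfl
  have hφA : ∀ x, φ x ∈ A := fun x => (θ.symm x).2
  have hinj : Function.Injective φ := fun a b h => θ.symm.injective (Subtype.ext h)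
  have hsurj : ∀ a ∈ A, ∃ x, φ x = a := fun a ha => ⟨θ ⟨a, ha⟩, by rw [hφ, θ.symm_apply_apply]⟩
  have hz1 : φ ζ ≠ 1 := fun h => facts.one (hinj (by rw [h, map_one]))
  have hzz : φ ζ * φ ζ = 1 := by rw [← map_mul, facts.sq, map_one]
  have hzC : φ ζ ∈ centralizer (A : Set G) := by
    rw [mem_centralizer_iff]
    intro a ha
    obtain ⟨x, rfl⟩ := hsurj a ha
    rw [← map_mul, ← map_mul, facts.cen]
  have hzcen : ∀ g ∈ centralizer (A : Set G), g * φ ζ = φ ζ * g := fun g hg =>
    (mem_centralizer_iff.1 hg _ (hφA ζ)).symm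
  have : Fact (Nat.Prime 2) := ⟨Nat.prime_two⟩
  have hle := (Cfsg.Agent.S1754.result A hA (φ ζ) (orderOf_eq_prime (by rw [pow_two, hzz]) hz1) hzC).1
  have cfg : H297.Isolated.Cfg ζ φ (centralizer (A : Set G)) := by
    refine ⟨hinj, hzC, fun r hr h => H297.Frame.der hR hr h,
      fun r hr hrr => H297.Frame.uniq hR hzC hzcen hzz hz1 hr hrr, ?_, ?_⟩
    · intro r hr k
      exact (mem_centralizer_iff.1 hr _ (hφA k)).symm
    · intro c hc
      have hn := hle (mem_centralizer_singleton_iff.2 hc)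
      obtain ⟨s, hs⟩ := Cfsg.Agent.ConwayFacts.AutCo1.inner_Co0 ((θ.symm.trans (H297.Frame.act hn)).trans θ)
      refine ⟨s, (φ s)⁻¹ * c, ?_, by group⟩
      refine H297.Frame.exists_mul hn (s := θ.symm s) fun k => ?_
      apply θ.injective
      have h3 := hs (θ k)
      rw [MulEquiv.trans_apply, MulEquiv.trans_apply, MulEquiv.symm_apply_apply] at h3
      rw [h3, map_mul, map_mul, map_inv, θ.apply_symm_apply]
  exact H297.Frame.normal_of_isolated hO hA hz1 hzz hzC fun g hg => cfg.isolated facts g hg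

end Cfsg.Agent.S3150
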