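import Cfsg.Statements.S3151
import Cfsg.Agent.H298.UThree.Final

set_option autoImplicit false
open Cfsg

namespace Cfsg.Agent.S3151

/-- Let G be a finite group and t an involution of G whose centralizer C is the internal direct product of a nontrivial elementary abelian 2-subgroup E and a subgroup U, where U has a normal quasisimple subgroup U₀ with U₀ modulo its centre isomorphic to the projective special unitary group of dimension 3 with parameter 2^n (realised over the field with 4^n elements) and with the centralizer of U₀ in U equal to the centre of U₀; suppose moreover that C is the centralizer of every involution of E. Then either G has a nontrivial elementary abelian 2-subgroup that is strongly closed in a Sylow 2-subgroup containing it, or E has order 2 and has a complement in G. -/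
theorem result {G : Type*} [Group G] [Finite G] (t : G) (ht : orderOf t = 2) (E U U₀ : Subgroup G)
    (hEU : Cfsg.IsInternalDirectProduct E U (Subgroup.centralizer ({t} : Set G)))
    (hE : Cfsg.IsElementaryAbelian 2 E) (hE1 : E ≠ ⊥)
    (hU₀ : U₀ ≤ U) (hU₀n : (U₀.subgroupOf U).Normal) (hq : Cfsg.IsQuasisimple ↥U₀)
    {F : Type*} [Field F] [Fintype F] (n : ℕ) (hF : Fintype.card F = 4 ^ n)
    (hUX : Nonempty ((↥U₀ ⧸ Subgroup.center ↥U₀) ≃* Cfsg.PSU 3 F (2 ^ n)))
    (hCU : U ⊓ Subgroup.centralizer (U₀ : Set G) = (Subgroup.center ↥U₀).map U₀.subtype)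
    (hC : ∀ e ∈ E, orderOf e = 2 → Subgroup.centralizer ({e} : Set G) = Subgroup.centralizer ({t} : Set G)) :
    (∃ (P : Sylow 2 G) (Q : Subgroup G), Q ≠ ⊥ ∧ Cfsg.IsElementaryAbelian 2 Q ∧ Cfsg.IsStronglyClosed Q (P : Subgroup G)) ∨
      (Nat.card ↥E = 2 ∧ ∃ H : Subgroup G, Subgroup.IsComplement' E H) := by
  exact (Cfsg.Agent.H298.UThree.hyp_of hEU hE hE1 hU₀ hU₀n hq hF hUX hCU hC).concl

end Cfsg.Agent.S3151
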