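import Cfsg.Statements.S3154
import Cfsg.Agent.H298.LFourCover

set_option autoImplicit false
open Cfsg

namespace Cfsg.Agent.S3154

open Cfsg.Agent.SporadicA.FieldFour
open Cfsg.Agent.StdLThreeFour.Base
open Cfsg.Agent.StdLThreeFour.Facts1
open Cfsg.Agent.H298.LFour
open Cfsg.Agent.H298.LFourCover

theorem part {X : Type*} [Group X] [Finite X] {F : Type*} [Field F] [Fintype F] (hF : Fintype.card F = 4)
    {π : X →* L0} (hs : Function.Surjective π) (hk : π.ker = Subgroup.center X)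
    (hz : ∀ z ∈ Subgroup.center X, z * z = 1) {H : Subgroup X} {j : Bool} (hH : H = (A j).comap π) :
    Cfsg.IsElementaryAbelian 2 H ∧
      (∃ C : Subgroup X, C ≤ Subgroup.normalizer (H : Set X) ∧ C ⊓ H = ⊥ ∧ H ⊔ C = Subgroup.normalizer (H : Set X) ∧
        Nonempty (↥C ≃* Matrix.ProjectiveSpecialLinearGroup (Fin 2) F)) := by
  subst hH
  refine ⟨⟨⟨⟨?_⟩⟩, ?_⟩, ?_⟩
  · rintro ⟨a, ha⟩ ⟨b, hb⟩
    exact Subtype.ext (comm_of_sq (fun x hx => sq_eq_one hs hk hz j hx) a ha b hb)
  · intro a ha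
    rw [pow_two]
    exact sq_eq_one hs hk hz j ha
  · obtain ⟨C, h1, h2, h3, ⟨e⟩⟩ := exists_compl hs hk hz j
    obtain ⟨e'⟩ := nonempty_psl_equiv (n := Fin 2) F hF
    exact ⟨C, h1, h2, h3, ⟨e.trans e'⟩⟩

theorem inf_eq {X : Type*} [Group X] [Finite X]
    {π : X →* L0} (hs : Function.Surjective π) (hk : π.ker = Subgroup.center X)
    (hz : ∀ z ∈ Subgroup.center X, z * z = 1) (j : Bool) :
    (A j).comap π ⊓ (A (!j)).comap π =
      (Subgroup.center ↥((A j).comap π ⊔ (A (!j)).comap π)).map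
        ((A j).comap π ⊔ (A (!j)).comap π).subtype := by
  have h6 : (A j).comap π ⊔ (A (!j)).comap π = S0.comap π := by
    have h7 : A j ⊔ A (!j) = S0 := by
      cases j
      · exact A_sup
      · rw [sup_comm]; exact A_sup
    rw [← h7]
    exact (Subgroup.comap_sup_eq_of_le_range π
      (by rw [MonoidHom.range_eq_top.2 hs]; exact le_top)
      (by rw [MonoidHom.range_eq_top.2 hs]; exact le_top))
  have hinf : A j ⊓ A (!j) = Z0 := by
    cases j
    · exact A_inf
    · rw [inf_comm]; exact A_inf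
  have hcommj : ∀ i, ∀ x ∈ (A i).comap π, ∀ y ∈ (A i).comap π, x * y = y * x := fun i =>
    comm_of_sq (fun x hx => sq_eq_one hs hk hz i hx)
  apply le_antisymm
  · rintro x ⟨hx1, hx2⟩
    have hx : x ∈ (A j).comap π ⊔ (A (!j)).comap π := le_sup_left (α := Subgroup X) hx1
    refine ⟨⟨x, hx⟩, ?_, rfl⟩
    have h1 : (A j).comap π ⊔ (A (!j)).comap π ≤ Subgroup.centralizer ({x} : Set X) := by
      apply sup_le
      · intro y hy
        rw [Subgroup.mem_centralizer_iff]
        rintro _ rfl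
        exact hcommj j _ hx1 y hy
      · intro y hy
        rw [Subgroup.mem_centralizer_iff]
        rintro _ rfl
        exact hcommj (!j) _ hx2 y hy
    rw [SetLike.mem_coe, Subgroup.mem_center_iff]
    rintro ⟨y, hy⟩
    apply Subtype.ext
    exact (Subgroup.mem_centralizer_iff.1 (h1 hy) x rfl).symm
  · rintro _ ⟨⟨x, hx⟩, hxc, rfl⟩
    rw [SetLike.mem_coe, Subgroup.mem_center_iff] at hxc
    have hx' : x ∈ S0.comap π := h6 ▸ hx
    have h2 := mem_comap_Z0 hs hx' (fun y hy => by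
      have hy' : y ∈ (A j).comap π ⊔ (A (!j)).comap π := h6.symm ▸ hy
      exact (congrArg Subtype.val (hxc ⟨y, hy'⟩)).symm)
    have h3 : x ∈ (A j ⊓ A (!j)).comap π := by rw [hinf]; exact h2
    exact h3

theorem result {X : Type*} [Group X] [Finite X] (hq : Cfsg.IsQuasisimple X) (hZ : Cfsg.IsElementaryAbelian 2 (Subgroup.center X))
    {F : Type*} [Field F] [Fintype F] (hF : Fintype.card F = 4) (hXL : Nonempty ((X ⧸ Subgroup.center X) ≃* Matrix.ProjectiveSpecialLinearGroup (Fin 3) F))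
    (T : Sylow 2 X) (H K : Subgroup X) (hHK : H ≠ K) (hHT : H ≤ T) (hKT : K ≤ T) (hZH : Subgroup.center X ≤ H) (hZK : Subgroup.center X ≤ K)
    (hH : Cfsg.IsElementaryAbelian 2 (H.map (QuotientGroup.mk' (Subgroup.center X))) ∧ Nat.card ↥(H.map (QuotientGroup.mk' (Subgroup.center X))) = 16)
    (hK : Cfsg.IsElementaryAbelian 2 (K.map (QuotientGroup.mk' (Subgroup.center X))) ∧ Nat.card ↥(K.map (QuotientGroup.mk' (Subgroup.center X))) = 16) :
    Cfsg.IsElementaryAbelian 2 H ∧ Cfsg.IsElementaryAbelian 2 K ∧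
      H ⊓ K = (Subgroup.center ↥(H ⊔ K)).map (H ⊔ K).subtype ∧
      (∃ C : Subgroup X, C ≤ Subgroup.normalizer (H : Set X) ∧ C ⊓ H = ⊥ ∧ H ⊔ C = Subgroup.normalizer (H : Set X) ∧
        Nonempty (↥C ≃* Matrix.ProjectiveSpecialLinearGroup (Fin 2) F)) ∧
      (∃ C : Subgroup X, C ≤ Subgroup.normalizer (K : Set X) ∧ C ⊓ K = ⊥ ∧ K ⊔ C = Subgroup.normalizer (K : Set X) ∧
        Nonempty (↥C ≃* Matrix.ProjectiveSpecialLinearGroup (Fin 2) F)) := by
  obtain ⟨e⟩ := hXL
  obtain ⟨e'⟩ := nonempty_psl_equiv (n := Fin 3) F hF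
  have hz : ∀ z ∈ Subgroup.center X, z * z = 1 := fun z hz => by
    have := hZ.2 z hz
    rwa [pow_two] at this
  set E : (X ⧸ Subgroup.center X) ≃* L0 := e.trans e'.symm with hE
  set π₀ : X →* L0 := E.toMonoidHom.comp (QuotientGroup.mk' (Subgroup.center X)) with hπ₀
  obtain ⟨l, hl⟩ := exists_conj_S0 (P := (T : Subgroup X).map π₀) (T.2.map π₀)
  set E' : (X ⧸ Subgroup.center X) ≃* L0 := E.trans (MulAut.conj l) with hE'
  set π : X →* L0 := E'.toMonoidHom.comp (QuotientGroup.mk' (Subgroup.center X)) with hπ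
  have hs : Function.Surjective π := E'.surjective.comp (QuotientGroup.mk'_surjective _)
  have hk : π.ker = Subgroup.center X := by
    ext x
    rw [MonoidHom.mem_ker]
    constructor
    · intro h
      have h1 : E' (QuotientGroup.mk' (Subgroup.center X) x) = 1 := h
      rw [map_eq_one_iff E' E'.injective] at h1
      exact (QuotientGroup.eq_one_iff x).1 h1
    · intro h
      have h1 : QuotientGroup.mk' (Subgroup.center X) x = 1 := (QuotientGroup.eq_one_iff x).2 h
      rw [hπ, MonoidHom.comp_apply, h1, map_one]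
  have hTS : (T : Subgroup X) ≤ S0.comap π := fun x hx => hl (π₀ x) ⟨x, hx, rfl⟩
  have key : ∀ H : Subgroup X, H ≤ T → Subgroup.center X ≤ H →
      (Cfsg.IsElementaryAbelian 2 (H.map (QuotientGroup.mk' (Subgroup.center X))) ∧
        Nat.card ↥(H.map (QuotientGroup.mk' (Subgroup.center X))) = 16) →
      ∃ j, H = (A j).comap π := by
    intro H hHT hZH hH
    have h1 : H.map π = (H.map (QuotientGroup.mk' (Subgroup.center X))).map E'.toMonoidHom := by
      rw [Subgroup.map_map]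
    obtain ⟨j, hj⟩ := eq_A_of_card (V := H.map π) (by
        rw [Subgroup.map_le_iff_le_comap]
        exact hHT.trans hTS) (by
        rw [h1]
        rintro _ ⟨y, hy, rfl⟩
        have := hH.1.2 y hy
        rw [← map_mul, ← pow_two, this, map_one]) (by
        rw [h1, Subgroup.card_map_of_injective E'.injective, hH.2])
    refine ⟨j, ?_⟩
    rw [← hj, Subgroup.comap_map_eq_self]
    rw [hk]
    exact hZH
  obtain ⟨j, hj⟩ := key H hHT hZH hH
  obtain ⟨j', hj'⟩ := key K hKT hZK hK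
  have hjj : j' = !j := by
    have : j ≠ j' := by
      rintro rfl
      exact hHK (hj.trans hj'.symm)
    revert this
    cases j <;> cases j' <;> simp
  obtain ⟨a1, a2⟩ := part hF hs hk hz hj
  obtain ⟨b1, b2⟩ := part hF hs hk hz hj'
  refine ⟨a1, b1, ?_, a2, b2⟩
  subst hjj
  subst hj
  subst hj'
  exact inf_eq hs hk hz j

end Cfsg.Agent.S3154
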