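import Cfsg.Statements.S3155
import Mathlib

set_option autoImplicit false
open Cfsg

namespace Cfsg.Agent.S3155

theorem no_sq_neg_one : ∀ d : ZMod 4, d * d ≠ -1 := by decide

theorem no_linear (f : (ZMod 4 × ZMod 4 × ZMod 4) →ₗ[ZMod 4] (ZMod 4 × ZMod 4 × ZMod 4))
    (h : f ∘ₗ f = (-1 : ZMod 4) • LinearMap.id) : False := by
  haveI : Fact (1 < 4) := ⟨by norm_num⟩
  have h1 := congrArg LinearMap.det h
  rw [LinearMap.det_comp, LinearMap.det_smul, LinearMap.det_id, mul_one] at h1
  have h2 : Module.finrank (ZMod 4) (ZMod 4 × ZMod 4 × ZMod 4) = 3 := by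
    rw [Module.finrank_prod, Module.finrank_prod, Module.finrank_self]
  rw [h2] at h1
  have h3 : ((-1 : ZMod 4)) ^ 3 = -1 := by decide
  rw [h3] at h1
  exact no_sq_neg_one _ h1

/-- Let B be the direct product of three cyclic groups of order 4. Then the automorphism of B inverting every element is not the square of any automorphism of B. -/
theorem result {B : Type*} [CommGroup B] [Finite B] (hB : Nonempty (B ≃* Multiplicative (ZMod 4 × ZMod 4 × ZMod 4)))
    (τ : B ≃* B) : τ.trans τ ≠ MulEquiv.inv B := by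
  obtain ⟨e⟩ := hB
  intro h
  let g : (ZMod 4 × ZMod 4 × ZMod 4) →+ (ZMod 4 × ZMod 4 × ZMod 4) :=
    { toFun := fun a => Multiplicative.toAdd (e (τ (e.symm (Multiplicative.ofAdd a))))
      map_zero' := by simp
      map_add' := by
        intro a b
        simp [ofAdd_add, map_mul, toAdd_mul] }
  let f : (ZMod 4 × ZMod 4 × ZMod 4) →ₗ[ZMod 4] (ZMod 4 × ZMod 4 × ZMod 4) := g.toZModLinearMap 4
  apply no_linear f
  apply LinearMap.ext
  intro a
  have h2 : ∀ b : B, τ (τ b) = b⁻¹ := fun b => by
    have := DFunLike.congr_fun h b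
    simpa using this
  have : f (f a) = -a := by
    change Multiplicative.toAdd (e (τ (e.symm (Multiplicative.ofAdd (Multiplicative.toAdd (e (τ (e.symm (Multiplicative.ofAdd a))))))))) = -a
    rw [ofAdd_toAdd, MulEquiv.symm_apply_apply, h2, map_inv, MulEquiv.apply_symm_apply]
    simp
  simp [this]

end Cfsg.Agent.S3155
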