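import Cfsg.Statements.S3157
import Cfsg.Agent.H299.UTRecog
import Cfsg.Agent.SmallSimple.OrderEight

set_option autoImplicit false
open Cfsg

namespace Cfsg.Agent.S3157

open scoped commutatorElement
open Cfsg.Agent.H299.UTRecog
open Cfsg.Agent.SporadicA.FieldFour

theorem d8_elements : ∃ a b : DihedralGroup 4, a * a = 1 ∧ b * b = 1 ∧ ⁅b, a⁆ ≠ 1 :=
  ⟨DihedralGroup.sr 0, DihedralGroup.sr 1, by decide, by decide, by decide⟩

theorem q8_elements : ∃ u v : QuaternionGroup 2, u * u = ⁅u, v⁆ ∧ v * v = ⁅u, v⁆ ∧ ⁅u, v⁆ ≠ 1 ∧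
    ⁅u, v⁆ * ⁅u, v⁆ = 1 :=
  ⟨QuaternionGroup.a 1, QuaternionGroup.xa 0, by decide, by decide, by decide, by decide⟩

/-- Let T be a non-abelian group of order 64 admitting automorphisms ρ of order 3 and x of order 2 with x ρ x⁻¹ = ρ⁻¹ (so they generate a symmetric group of degree 3), where ρ fixes only the identity. Then T is isomorphic to a Sylow 2-subgroup of the projective special linear group of dimension 3 over the field with 4 elements, and the subgroup of fixed points of x is dihedral of order 8 or quaternion of order 8. -/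
theorem result {T : Type*} [Group T] [Finite T] (hT : Nat.card T = 64) (hna : ¬ IsMulCommutative T) (ρ x : MulAut T) (hρ : orderOf ρ = 3) (hx : orderOf x = 2)
    (hxr : x * ρ * x⁻¹ = ρ⁻¹) (hfp : ∀ y : T, ρ y = y → y = 1) (C : Subgroup T) (hC : ∀ y : T, y ∈ C ↔ x y = y) :
    (∃ (F : Type) (_ : Field F) (_ : Fintype F), Fintype.card F = 4 ∧
        ∃ S : Sylow 2 (Matrix.ProjectiveSpecialLinearGroup (Fin 3) F), Nonempty (T ≃* ↥(S : Subgroup (Matrix.ProjectiveSpecialLinearGroup (Fin 3) F)))) ∧
      (Nonempty (↥C ≃* DihedralGroup 4) ∨ Nonempty (↥C ≃* QuaternionGroup 2)) := by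
  have hQ : IsPGroup 2 T := IsPGroup.of_card (n := 6) (by rw [hT]; norm_num)
  have hρ3 : ρ * ρ * ρ = 1 := by
    have := pow_orderOf_eq_one ρ
    rw [hρ] at this
    simpa [pow_succ] using this
  have hx2 : x * x = 1 := by
    have := pow_orderOf_eq_one x
    rw [hx, sq] at this
    exact this
  let α : T →* T := ρ.toMonoidHom
  let b : T →* T := x.toMonoidHom
  have hαρ : ∀ t, α t = ρ t := fun t => rfl
  have hbx : ∀ t, b t = x t := fun t => rfl
  have h3 : ∀ t, α (α (α t)) = t := fun t => by
    exact DFunLike.congr_fun hρ3 t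
  have h : TwoFusion.FpfThree.Fpf3 α := ⟨h3, hfp⟩
  have hact : J2Sylow.SThree.Act α b := by
    refine ⟨fun t => ?_, h3, fun t => ?_, hfp⟩
    · exact DFunLike.congr_fun hx2 t
    · have h1 : x * ρ = ρ * ρ * x := by
        have h2 : ρ⁻¹ = ρ * ρ := inv_eq_of_mul_eq_one_left hρ3
        rw [← h2, ← hxr]; group
      exact DFunLike.congr_fun h1 t
  have hCf : C = J2Sylow.SThree.fixed b := by
    ext y
    rw [hC]
    exact Iff.rfl
  have hC8 : Nat.card C = 8 := by
    have h1 := hact.card_eq
    rw [hT, ← hCf] at h1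
    have : (8 : ℕ) ^ 2 = Nat.card C ^ 2 := by rw [← h1]; norm_num
    exact (Nat.pow_left_injective (n := 2) (by norm_num) this).symm
  -- C is not commutative
  have hlemC : ∀ n c : T, n * c = c * n → n * α c = α c * n := fun n c hnc =>
    OddCyclic.FpfThree.commute_map h hQ hnc
  have hCna : ¬ IsMulCommutative C := by
    intro hCc
    apply hna
    have hcc : ∀ c d : T, c ∈ C → d ∈ C → c * d = d * c := fun c d hc hd => by
      have := hCc.is_comm.comm (⟨c, hc⟩ : C) ⟨d, hd⟩
      exact congrArg Subtype.val this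
    refine ⟨⟨fun t s => ?_⟩⟩
    obtain ⟨c, d, hc, hd, rfl⟩ := hact.exists_mul t
    obtain ⟨c', d', hc', hd', rfl⟩ := hact.exists_mul s
    have mc : c ∈ C := (hC c).2 hc
    have md : d ∈ C := (hC d).2 hd
    have mc' : c' ∈ C := (hC c').2 hc'
    have md' : d' ∈ C := (hC d').2 hd'
    have e1 : Commute c c' := hcc c c' mc mc'
    have e2 : Commute c (α d') := hlemC c d' (hcc c d' mc md')
    have e3 : Commute (α d) c' := (hlemC c' d (hcc c' d mc' md)).symm
    have e4 : Commute (α d) (α d') := by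
      show α d * α d' = α d' * α d
      rw [← map_mul, ← map_mul, hcc d d' md md']
    exact ((e1.mul_right e2).mul_left (e3.mul_right e4)).eq
  have hCcase := SmallSimple.OrderEight.dihedral_or_quaternion_of_card_eight hC8 hCna
  refine ⟨?_, hCcase⟩
  -- it suffices to find two involutions
  suffices hab : ∃ a b : T, a * a = 1 ∧ b * b = 1 ∧ ⁅b, a⁆ ≠ 1 by
    obtain ⟨a, b, ha, hb, hab⟩ := hab
    obtain ⟨f⟩ := exists_mulEquiv_of_fpf hT h ha hb hab
    refine ⟨F4, inferInstance, inferInstance, rfl, StdLThreeFour.Facts1.syl, ⟨f.trans ?_⟩⟩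
    exact MulEquiv.subgroupCongr StdLThreeFour.Facts1.coe_syl.symm
  rcases hCcase with ⟨⟨f⟩⟩ | ⟨⟨f⟩⟩
  · obtain ⟨a, b, ha, hb, hab⟩ := d8_elements
    refine ⟨(f.symm a : C), (f.symm b : C), ?_, ?_, ?_⟩
    · rw [← Subgroup.coe_mul, ← map_mul, ha, map_one, Subgroup.coe_one]
    · rw [← Subgroup.coe_mul, ← map_mul, hb, map_one, Subgroup.coe_one]
    · intro h1
      apply hab
      have h2 : ((⁅f.symm b, f.symm a⁆ : C) : T) = 1 := h1
      have h3 : ⁅f.symm b, f.symm a⁆ = 1 := Subtype.ext h2
      rw [← map_commutatorElement] at h3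
      exact (MulEquiv.map_eq_one_iff f.symm).mp h3
  · obtain ⟨u, v, hu, hv, huv, hzz⟩ := q8_elements
    set U : T := ((f.symm u : C) : T) with hU
    set V : T := ((f.symm v : C) : T) with hV
    have hUV : ⁅U, V⁆ = ((f.symm ⁅u, v⁆ : C) : T) := by
      rw [map_commutatorElement]; rfl
    set z := ⁅U, V⁆ with hz
    have hUU : U * U = z := by
      rw [hUV, ← hu, map_mul]; rfl
    have hVV : V * V = z := by
      rw [hUV, ← hv, map_mul]; rfl
    have hz1 : z ≠ 1 := by
      rw [hUV]
      intro h1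
      apply huv
      have h3 : f.symm ⁅u, v⁆ = 1 := Subtype.ext h1
      exact (MulEquiv.map_eq_one_iff f.symm).mp h3
    have hzz' : z * z = 1 := by
      rw [hUV, ← Subgroup.coe_mul, ← map_mul, hzz, map_one, Subgroup.coe_one]
    have hcen : ∀ x y : T, ⁅x, y⁆ ∈ Subgroup.center T := OddCyclic.FpfThree.comm_mem_center h hQ
    have hzc : ∀ g, z * g = g * z := fun g => (Subgroup.mem_center_iff.mp (hcen U V) g).symm
    have hαz : ∀ g, α z * g = g * α z := fun g => by
      rw [hz, map_commutatorElement]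
      exact (Subgroup.mem_center_iff.mp (hcen _ _) g).symm
    have hααz : ∀ g, α (α z) * g = g * α (α z) := fun g => by
      rw [hz, map_commutatorElement, map_commutatorElement]
      exact (Subgroup.mem_center_iff.mp (hcen _ _) g).symm
    have c01 : ⁅U, α V⁆ = α (α z) := comm_map_right h hQ U V
    have c02 : ⁅U, α (α V)⁆ = α z := by rw [comm_map_right h hQ, c01, h.cube]
    have hprod := h.prod_eq_one z
    -- squares
    have sq : ∀ y w : T, y * y = w → (∀ g, w * g = g * w) → ∀ c, ⁅U, y⁆ = c →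
        (U * y) * (U * y) = z * w * c := by
      intro y w hy hw c hc
      have hcc : ∀ g, c * g = g * c := fun g => by
        rw [← hc]; exact (Subgroup.mem_center_iff.mp (hcen _ _) g).symm
      have h1 : y * U = c⁻¹ * (U * y) := by
        rw [← hc, commutatorElement_def]; group
      have hcci : c⁻¹ * (U * y) = (U * y) * c⁻¹ := by
        have := hcc (U * y)
        rw [inv_mul_eq_iff_eq_mul, ← mul_assoc, this]; group
      -- y U = c⁻¹ U y ; U y U y = U (c⁻¹ U y) y = c⁻¹ z w
      have hc2 : c * c = 1 := by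
        have h5 := OddCyclic.FpfThree.comm_mul_left h hQ U U y
        rw [hUU, hc] at h5
        rw [← h5]
        exact commutatorElement_eq_one_iff_mul_comm.mpr (hzc y)
      have hci : c⁻¹ = c := inv_eq_of_mul_eq_one_right hc2
      calc (U * y) * (U * y) = U * (y * U) * y := by group
        _ = U * (c⁻¹ * (U * y)) * y := by rw [h1]
        _ = U * ((U * y) * c⁻¹) * y := by rw [hcci]
        _ = (U * U) * y * (c⁻¹ * y) := by group
        _ = z * y * (y * c) := by rw [hUU, hci, hcc y]
        _ = z * (y * y) * c := by group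
        _ = z * w * c := by rw [hy]
    have ha2 : α V * α V = α z := by rw [← map_mul, hVV]
    have hb2 : α (α V) * α (α V) = α (α z) := by rw [← map_mul, ha2]
    refine ⟨U * α V, U * α (α V), ?_, ?_, ?_⟩
    · rw [sq (α V) (α z) ha2 hαz _ c01, hprod]
    · rw [sq (α (α V)) (α (α z)) hb2 hααz _ c02, mul_assoc, ← hαz, ← mul_assoc, hprod]
    · intro h1
      rw [OddCyclic.FpfThree.comm_mul_left h hQ, OddCyclic.FpfThree.comm_mul_right h hQ,
        OddCyclic.FpfThree.comm_mul_right h hQ, commutatorElement_self, one_mul, c01] at h1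
      have h2 : ⁅α (α V), α V⁆ = 1 := by
        rw [← map_commutatorElement, commutatorElement_eq_one_iff_mul_comm.mpr (h.comm V).symm, map_one]
      have h3 : ⁅α (α V), U⁆ = (α z)⁻¹ := by
        rw [← c02, commutatorElement_inv]
      rw [h2, h3, mul_one] at h1
      have h4 : α (α z) = α z := by
        rw [mul_inv_eq_one] at h1; exact h1
      exact hz1 (hfp z (h.injective h4))

end Cfsg.Agent.S3157
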