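import Cfsg.Statements.S3167
import Cfsg.Agent.H301.FourFactor

set_option autoImplicit false
open Cfsg

namespace Cfsg.Agent.S3167

open Cfsg.Agent.H301.Data

/-- Fusion-simple groups whose Sylow 2-subgroup is a direct product of a dihedral and a semidihedral group. Let G be a finite group with no subgroup of index 2, no nontrivial normal subgroup of odd order and trivial centre, and suppose a Sylow 2-subgroup S of G is the internal direct product of a subgroup isomorphic to a dihedral group of order at least 4 and a semidihedral (quasi-dihedral) subgroup. Then G has a normal subgroup N of odd index which is an internal direct product F₁ × F₂, where F₁ is isomorphic to the alternating group of degree 7 or to PSL(2, q) for some odd prime power q ≥ 5, or is a Klein four-group, and F₂ is simple of order 7920 (the order of the smallest Mathieu group) or isomorphic to PSL(3, q) for some q ≡ 3 mod 4 or to PSU(3, q) for some q ≡ 1 mod 4. -/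
theorem result {G : Type*} [Group G] [Finite G]
    (h2 : ∀ H : Subgroup G, H.index ≠ 2) (hO : Cfsg.oddCore G = ⊥) (hZ : Subgroup.center G = ⊥)
    (S : Sylow 2 G) (S₁ S₂ : Subgroup G) (hS : Cfsg.IsInternalDirectProduct S₁ S₂ (S : Subgroup G))
    (m : ℕ) (hm : 2 ≤ m) (e₁ : Nonempty (↥S₁ ≃* DihedralGroup m)) (h₂ : Cfsg.IsQuasiDihedral ↥S₂) :
    ∃ N : Subgroup G, N.Normal ∧ Odd N.index ∧ ∃ F₁ F₂ : Subgroup G, Cfsg.IsInternalDirectProduct F₁ F₂ N ∧
      (Nonempty (↥F₁ ≃* ↥(alternatingGroup (Fin 7))) ∨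
        (∃ (F : Type) (_ : Field F) (_ : Fintype F), Odd (Fintype.card F) ∧ 5 ≤ Fintype.card F ∧
          Nonempty (↥F₁ ≃* Matrix.ProjectiveSpecialLinearGroup (Fin 2) F)) ∨
        IsKleinFour ↥F₁) ∧
      (Cfsg.IsM11 ↥F₂ ∨
        (∃ (F : Type) (_ : Field F) (_ : Fintype F), Fintype.card F % 4 = 3 ∧
          Nonempty (↥F₂ ≃* Matrix.ProjectiveSpecialLinearGroup (Fin 3) F)) ∨
        (∃ (F : Type) (_ : Field F) (_ : Fintype F) (q : ℕ), Fintype.card F = q ^ 2 ∧ q % 4 = 1 ∧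
          Nonempty (↥F₂ ≃* Cfsg.PSU 3 F q))) := by
  have hp : Fact (Nat.Prime 2) := ⟨Nat.prime_two⟩
  have hS₁ : IsPGroup 2 S₁ := S.isPGroup'.to_le hS.1
  obtain ⟨C₂, z₂, hF₂⟩ := full_of_quasiDihedral h₂
  rcases Nat.lt_or_ge m 3 with hm3 | hm3
  · have hm2 : m = 2 := by omega
    subst hm2
    obtain ⟨e₁⟩ := e₁
    have h : PA (S : Subgroup G) S₁ S₂ C₂ z₂ :=
      ⟨TwoFusion.ProdFromComm.prod_symm hS, hF₂, kleinFour_of_mulEquiv e₁ inferInstance⟩
    obtain ⟨A, B, hSpl, ⟨eA⟩, ⟨eB⟩, hno⟩ := main_four h2 hO h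
    refine ⟨_, Subgroup.sup_normal _ _, hSpl.odd, _, _, hSpl.prod, ?_, ?_⟩
    · rcases four_factor S rfl hSpl.infA (kleinFour_of_mulEquiv (eA.trans e₁) inferInstance) hSpl.coreA with h | h | h
      · exact Or.inr (Or.inr h)
      · exact Or.inl h
      · exact Or.inr (Or.inl h)
    · exact sd_factor S rfl hSpl.infB
        (TwoFusion.SylowTypeTransfer.isQuasiDihedral_of_mulEquiv eB.symm h₂) hno hSpl.coreB
  · obtain ⟨C₁, z₁, hF₁, -⟩ := full_of_dihedral hS₁ hm3 e₁
    obtain ⟨e₁⟩ := e₁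
    have h : PD (S : Subgroup G) S₁ C₁ z₁ S₂ C₂ z₂ := ⟨hS, hF₁, hF₂⟩
    obtain ⟨A, B, hSpl, ⟨eA⟩, ⟨eB⟩⟩ := main h2 hO hZ h
    refine ⟨_, Subgroup.sup_normal _ _, hSpl.odd, _, _, hSpl.prod, ?_, ?_⟩
    · rcases dih_factor S rfl hSpl.infA hm3 ⟨eA.trans e₁⟩ hSpl.noA hSpl.coreA with h | h
      · exact Or.inl h
      · exact Or.inr (Or.inl h)
    · exact sd_factor S rfl hSpl.infB
        (TwoFusion.SylowTypeTransfer.isQuasiDihedral_of_mulEquiv eB.symm h₂) hSpl.noB hSpl.coreB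

end Cfsg.Agent.S3167
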