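import Cfsg.Statements.S3168
import Cfsg.Agent.H301.Factors

set_option autoImplicit false
open Cfsg

namespace Cfsg.Agent.S3168

open Cfsg.Agent.H301.Data

/-- Fusion-simple groups whose Sylow 2-subgroup is a direct product of two semidihedral groups. Let G be a finite group with no subgroup of index 2, no nontrivial normal subgroup of odd order and trivial centre, and suppose a Sylow 2-subgroup S of G is the internal direct product of two semidihedral (quasi-dihedral) subgroups. Then G has a normal subgroup N of odd index which is an internal direct product F₁ × F₂ in which each factor is simple of order 7920 (the order of the smallest Mathieu group), or isomorphic to PSL(3, q) for some q ≡ 3 mod 4, or to PSU(3, q) for some q ≡ 1 mod 4. -/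
theorem result {G : Type*} [Group G] [Finite G]
    (h2 : ∀ H : Subgroup G, H.index ≠ 2) (hO : Cfsg.oddCore G = ⊥) (hZ : Subgroup.center G = ⊥)
    (S : Sylow 2 G) (S₁ S₂ : Subgroup G) (hS : Cfsg.IsInternalDirectProduct S₁ S₂ (S : Subgroup G))
    (h₁ : Cfsg.IsQuasiDihedral ↥S₁) (h₂ : Cfsg.IsQuasiDihedral ↥S₂) :
    ∃ N : Subgroup G, N.Normal ∧ Odd N.index ∧ ∃ F₁ F₂ : Subgroup G, Cfsg.IsInternalDirectProduct F₁ F₂ N ∧
      (Cfsg.IsM11 ↥F₁ ∨
        (∃ (F : Type) (_ : Field F) (_ : Fintype F), Fintype.card F % 4 = 3 ∧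
          Nonempty (↥F₁ ≃* Matrix.ProjectiveSpecialLinearGroup (Fin 3) F)) ∨
        (∃ (F : Type) (_ : Field F) (_ : Fintype F) (q : ℕ), Fintype.card F = q ^ 2 ∧ q % 4 = 1 ∧
          Nonempty (↥F₁ ≃* Cfsg.PSU 3 F q))) ∧
      (Cfsg.IsM11 ↥F₂ ∨
        (∃ (F : Type) (_ : Field F) (_ : Fintype F), Fintype.card F % 4 = 3 ∧
          Nonempty (↥F₂ ≃* Matrix.ProjectiveSpecialLinearGroup (Fin 3) F)) ∨
        (∃ (F : Type) (_ : Field F) (_ : Fintype F) (q : ℕ), Fintype.card F = q ^ 2 ∧ q % 4 = 1 ∧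
          Nonempty (↥F₂ ≃* Cfsg.PSU 3 F q))) := by
  obtain ⟨C₁, z₁, hF₁⟩ := full_of_quasiDihedral h₁
  obtain ⟨C₂, z₂, hF₂⟩ := full_of_quasiDihedral h₂
  have h : PD (S : Subgroup G) S₁ C₁ z₁ S₂ C₂ z₂ := ⟨hS, hF₁, hF₂⟩
  obtain ⟨A, B, hSpl, ⟨eA⟩, ⟨eB⟩⟩ := main h2 hO hZ h
  refine ⟨_, Subgroup.sup_normal _ _, hSpl.odd, _, _, hSpl.prod, ?_, ?_⟩
  · exact sd_factor S rfl hSpl.infA
      (TwoFusion.SylowTypeTransfer.isQuasiDihedral_of_mulEquiv eA.symm h₁) hSpl.noA hSpl.coreA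
  · exact sd_factor S rfl hSpl.infB
      (TwoFusion.SylowTypeTransfer.isQuasiDihedral_of_mulEquiv eB.symm h₂) hSpl.noB hSpl.coreB

end Cfsg.Agent.S3168
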