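import Cfsg.Statements.S3169
import Cfsg.Agent.H302.NoComp
import Cfsg.Agent.SylowL.GoldHypOf
import Cfsg.Agent.TwoFusion.GoldFinal
import Cfsg.Agent.S1174

set_option autoImplicit false
open Cfsg

namespace Cfsg.Agent.S3169

universe u

theorem goldHyp : Cfsg.Agent.SylowL.CompFacts.GoldHyp.{u} := by
  apply Cfsg.Agent.SylowL.GoldHypOf.goldHyp_of
  intro L _ _ hL hna
  exact Cfsg.Agent.TwoFusion.GoldFinal.tprop
    (fun K _ _ hK => by
      haveI := hK
      intro T B hB hBT hprop
      exact Cfsg.Agent.S1174.result T B hB hBT hprop) L hL hna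

/-- Let P be a Sylow 2-subgroup of the Mathieu group of degree 24 and let G be a finite group with no nontrivial normal subgroup of odd order whose Sylow 2-subgroup S is isomorphic to the quotient of P by its centre. If A is an abelian subgroup of S of order 64 and is the only abelian subgroup of S of that order, then A is normal in G. -/
theorem result {G : Type*} [Group G] [Finite G]
    (hO : Cfsg.oddCore G = ⊥) (S : Sylow 2 G) (P : Sylow 2 ↥Cfsg.M24)
    (hS : Nonempty (↥(S : Subgroup G) ≃* (↥(P : Subgroup ↥Cfsg.M24) ⧸ Subgroup.center ↥(P : Subgroup ↥Cfsg.M24))))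
    (A : Subgroup G) (hA : A ≤ (S : Subgroup G)) (hAc : IsMulCommutative ↥A) (hA64 : Nat.card ↥A = 64)
    (huniq : ∀ B : Subgroup G, B ≤ (S : Subgroup G) → IsMulCommutative ↥B → Nat.card ↥B = 64 → B = A) :
    A.Normal := by
  obtain ⟨e⟩ := hS
  obtain ⟨u, hu⟩ := Cfsg.Agent.H302.exists_emb_quot P
  have h := hu.of_equiv (Subgroup.topEquiv.trans e.symm)
  rw [h.unique hA hAc hA64]
  exact Cfsg.Agent.H302.NC.A_normal goldHyp hO h

end Cfsg.Agent.S3169
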