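import Cfsg.Statements.S3170
import Cfsg.Agent.H302.Center
import Cfsg.Agent.H302.Gold
import Cfsg.Agent.Transfer.TausskyTwoGroup

set_option autoImplicit false
open Cfsg

namespace Cfsg.Agent.S3170

/-- Let H be a finite group with no nontrivial normal subgroup of odd order whose Sylow 2-subgroup T is isomorphic to a Sylow 2-subgroup of the Mathieu group of degree 24, and suppose that the centre of T lies in the centre of H. If E is a subgroup of T that is normal in T and extraspecial of order 2^7, and E is the only such subgroup of T, then E is normal in H. -/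
theorem result {H : Type*} [Group H] [Finite H]
    (hO : Cfsg.oddCore H = ⊥) (T : Sylow 2 H) (P : Sylow 2 ↥Cfsg.M24)
    (hT : Nonempty (↥(T : Subgroup H) ≃* ↥(P : Subgroup ↥Cfsg.M24)))
    (hZ : ∀ z ∈ (T : Subgroup H), (∀ t ∈ (T : Subgroup H), z * t = t * z) → z ∈ Subgroup.center H)
    (E : Subgroup H) (hE : E ≤ (T : Subgroup H)) (hEn : (E.subgroupOf (T : Subgroup H)).Normal)
    (hEx : Cfsg.IsExtraspecial 2 ↥E) (hE7 : Nat.card ↥E = 2 ^ 7)
    (huniq : ∀ E' : Subgroup H, E' ≤ (T : Subgroup H) → (E'.subgroupOf (T : Subgroup H)).Normal →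
      Cfsg.IsExtraspecial 2 ↥E' → Nat.card ↥E' = 2 ^ 7 → E' = E) :
    E.Normal := by
  have f2 : Fact (Nat.Prime 2) := ⟨Nat.prime_two⟩
  obtain ⟨e⟩ := hT
  obtain ⟨u, hu⟩ := Cfsg.Agent.H302.exists_cod P
  have h := hu.of_equiv e.symm
  have hT2 : IsPGroup 2 (T : Subgroup H) := T.2
  have hcard := Cfsg.Agent.H302.card_ZT h
  -- the centre of `T` lies in `E`
  have hE1 : E.subgroupOf (T : Subgroup H) ≠ ⊥ := by
    intro h1
    have h2 : Nat.card (E.subgroupOf (T : Subgroup H)) = 1 := by rw [h1]; simp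
    rw [Nat.card_congr (Subgroup.subgroupOfEquivOfLe hE).toEquiv, hE7] at h2
    norm_num at h2
  obtain ⟨z, hzE, hzc, hz1⟩ :=
    Cfsg.Agent.Transfer.TausskyTwoGroup.exists_ne_one_mem_inf_center hT2 (E.subgroupOf (T : Subgroup H)) hE1
  have hzZ : (z : H) ∈ Cfsg.Agent.H302.ZT T := ⟨z, hzc, rfl⟩
  have hZE : Cfsg.Agent.H302.ZT T ≤ E := by
    have h1 : Subgroup.zpowers (z : H) = Cfsg.Agent.H302.ZT T := by
      have h2 : Subgroup.zpowers (z : H) ≤ Cfsg.Agent.H302.ZT T := by
        rw [Subgroup.zpowers_le]; exact hzZ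
      apply Subgroup.eq_of_le_of_card_ge h2
      rw [hcard, Nat.card_zpowers]
      have h3 : orderOf (z : H) ≠ 1 := by
        rw [Ne, orderOf_eq_one_iff]
        exact fun h4 => hz1 (Subtype.ext h4)
      have h4 := orderOf_pos (z : H)
      omega
    rw [← h1, Subgroup.zpowers_le]
    exact hzE
  refine Cfsg.Agent.H302.normal_of_center Cfsg.Agent.H302.goldHyp hO h ?_ hE hZE ?_ hE7
  · intro x hx
    rw [Cfsg.Agent.H302.mem_ZT] at hx
    exact hZ x hx.1 hx.2
  · -- the centre of `E` is the centre of `T`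
    have h1 : (Cfsg.Agent.H302.ZT T).subgroupOf E = Subgroup.center E := by
      apply Subgroup.eq_of_le_of_card_ge
      · intro x hx
        have h2 := (Cfsg.Agent.H302.mem_ZT.1 (Subgroup.mem_subgroupOf.1 hx)).2
        rw [Subgroup.mem_center_iff]
        intro y
        exact Subtype.ext (h2 y (hE y.2)).symm
      · rw [hEx.2, Nat.card_congr (Subgroup.subgroupOfEquivOfLe hZE).toEquiv, hcard]
    intro x hx y hy
    have h2 : (⟨x, hx⟩ * ⟨y, hy⟩ * (⟨x, hx⟩ : E)⁻¹ * (⟨y, hy⟩ : E)⁻¹ : E) ∈ commutator E :=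
      Subgroup.commutator_mem_commutator (Subgroup.mem_top _) (Subgroup.mem_top _)
    rw [hEx.1.2.2, ← h1] at h2
    exact h2

end Cfsg.Agent.S3170
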