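import Cfsg.Statements.S3172
import Cfsg.Agent.S0000
import Cfsg.Agent.H303.RsEnd

set_option autoImplicit false
open Cfsg

namespace Cfsg.Agent.S3172

/-- A finite simple group whose Sylow 2-subgroups are isomorphic to those of the Rudvalis group is isomorphic to the Rudvalis group. -/
theorem result {G : Type*} [Group G] [Finite G] [IsSimpleGroup G]
    (S : Sylow 2 G) (P : Sylow 2 Cfsg.Spor.Ru) (hS : Nonempty (↥(S : Subgroup G) ≃* ↥(P : Subgroup Cfsg.Spor.Ru))) :
    Cfsg.Spor.IsoRu G :=
  Cfsg.Agent.H303.RsEnd.iso_of_equiv S P hS Cfsg.Agent.S0000.result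

end Cfsg.Agent.S3172
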