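import Cfsg.Statements.S3180
-- import your own Cfsg.Agent.* helpers here

set_option autoImplicit false
open Cfsg

namespace Cfsg.Agent.S3180

/-- Let P be a Sylow p-subgroup of a finite group J and P₁ a subgroup of P that is weakly closed in P with respect to J. If J acts on a set and two points, each fixed by every element of P₁, lie in one J-orbit, then they lie in one orbit of the normalizer of P₁ in J. -/
theorem result {J : Type*} [Group J] [Finite J]
    {p : ℕ} [Fact p.Prime] (P : Sylow p J) (P₁ : Subgroup J) (hW : Cfsg.IsWeaklyClosed P₁ (P : Subgroup J))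
    {Ω : Type*} [MulAction J Ω] (x y : Ω) (hx : ∀ g ∈ P₁, g • x = x) (hy : ∀ g ∈ P₁, g • y = y)
    (hc : ∃ g : J, g • x = y) :
    ∃ g ∈ Subgroup.normalizer (P₁ : Set J), g • x = y := by
  classical
  obtain ⟨g, hg⟩ := hc
  obtain ⟨hle, hwc⟩ := hW
  -- the conjugate `g P₁ g⁻¹` also fixes `y`
  have hP₁p : IsPGroup p ↥P₁ := P.isPGroup'.to_le hle
  have h1 : P₁ ≤ MulAction.stabilizer J y := fun k hk => hy k hk
  have h2 : P₁.map (MulAut.conj g).toMonoidHom ≤ MulAction.stabilizer J y := by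
    rintro _ ⟨k, hk, rfl⟩
    rw [MulAction.mem_stabilizer_iff]
    show (g * k * g⁻¹) • y = y
    rw [← hg, mul_smul, inv_smul_smul, mul_smul, hx k hk]
  -- Sylow subgroups of the stabiliser of `y`
  set H := MulAction.stabilizer J y with hH
  have h1p : IsPGroup p ↥(P₁.subgroupOf H) := hP₁p.comap_subtype
  have h2p : IsPGroup p ↥((P₁.map (MulAut.conj g).toMonoidHom).subgroupOf H) :=
    (hP₁p.map _).comap_subtype
  obtain ⟨Q, hQ⟩ := h1p.exists_le_sylow
  obtain ⟨R, hR⟩ := h2p.exists_le_sylow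
  obtain ⟨h, hh⟩ := MulAction.exists_smul_eq H R Q
  -- `h g P₁ g⁻¹ h⁻¹ ≤ Q`
  have hQJ : IsPGroup p ↥((Q : Subgroup ↥H).map H.subtype) := Q.isPGroup'.map _
  obtain ⟨T, hT⟩ := hQJ.exists_le_sylow
  obtain ⟨k, hk⟩ := MulAction.exists_smul_eq J T P
  have key : ∀ K : Subgroup J, K ≤ (T : Subgroup J) → K.map (MulAut.conj k).toMonoidHom ≤ (P : Subgroup J) := by
    intro K hK
    rw [← hk]
    exact Subgroup.map_mono hK
  have hP₁T : P₁ ≤ (T : Subgroup J) := by
    refine le_trans ?_ hT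
    intro u hu
    exact ⟨⟨u, h1 hu⟩, hQ (by simpa [Subgroup.mem_subgroupOf] using hu), rfl⟩
  have hhgT : P₁.map (MulAut.conj ((h : J) * g)).toMonoidHom ≤ (T : Subgroup J) := by
    refine le_trans ?_ hT
    rintro _ ⟨u, hu, rfl⟩
    have hu' : g * u * g⁻¹ ∈ H := h2 ⟨u, hu, rfl⟩
    have hu'' : (⟨g * u * g⁻¹, hu'⟩ : ↥H) ∈ (R : Subgroup ↥H) := hR (by
      rw [Subgroup.mem_subgroupOf]
      exact ⟨u, hu, rfl⟩)
    have h3 : h * (⟨g * u * g⁻¹, hu'⟩ : ↥H) * h⁻¹ ∈ (Q : Subgroup ↥H) := by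
      rw [← hh]
      exact ⟨_, hu'', rfl⟩
    refine ⟨_, h3, ?_⟩
    simp [mul_assoc]
  have e1 := hwc k (key _ hP₁T)
  have e2 : P₁.map (MulAut.conj (k * ((h : J) * g))).toMonoidHom = P₁ := by
    apply hwc
    have := key _ hhgT
    rw [Subgroup.map_map] at this
    convert this using 2
    ext u
    simp [mul_assoc]
  have e3 : P₁.map (MulAut.conj ((h : J) * g)).toMonoidHom = P₁ := by
    have h4 : (P₁.map (MulAut.conj ((h : J) * g)).toMonoidHom).map (MulAut.conj k).toMonoidHom =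
        P₁.map (MulAut.conj k).toMonoidHom := by
      rw [e1, Subgroup.map_map]
      conv_rhs => rw [← e2]
      congr 1
      ext u
      simp [mul_assoc]
    exact Subgroup.map_injective (MulEquiv.injective (MulAut.conj k)) h4
  refine ⟨(h : J) * g, ?_, ?_⟩
  · rw [Subgroup.mem_normalizer_iff]
    intro u
    constructor
    · intro hu
      have : (h : J) * g * u * ((h : J) * g)⁻¹ ∈ P₁.map (MulAut.conj ((h : J) * g)).toMonoidHom :=
        ⟨u, hu, rfl⟩
      rwa [e3] at this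
    · intro hu
      have hu2 : (h : J) * g * u * ((h : J) * g)⁻¹ ∈ P₁.map (MulAut.conj ((h : J) * g)).toMonoidHom := by
        rw [e3]; exact hu
      obtain ⟨v, hv, hv'⟩ := hu2
      have : v = u := (MulEquiv.injective (MulAut.conj ((h : J) * g))) hv'
      rw [← this]
      exact hv
  · rw [mul_smul, hg]
    exact h.2

end Cfsg.Agent.S3180
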