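import Cfsg.Statements.S3181
import Cfsg.Agent.H304.Final

set_option autoImplicit false
open Cfsg

namespace Cfsg.Agent.S3181

/-- Structure of finite groups with central Sylow 2-intersections. Let G be a finite group in which the intersection of any two distinct Sylow 2-subgroups is contained in the centre of some Sylow 2-subgroup. Then one of the following holds: G is solvable of 2-length at most one; the Sylow 2-subgroups of G are abelian; G has normal subgroups N < M with N of odd order and M of odd index such that M/N is a central product of an abelian 2-group and a group isomorphic to SL(2, 5); or G has a normal subgroup M of odd index which is either the direct product of an abelian 2-group with a group isomorphic to a Suzuki group Sz(2^(2m+1)) for some m ≥ 1, or to PSU(3, q) or SU(3, q) for some q = 2^n ≥ 4, or a central product of an abelian 2-group with a perfect group L with nontrivial centre whose central quotient is isomorphic to the Suzuki group Sz(8). -/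
theorem result {G : Type*} [Group G] [Finite G]
    (hCI : ∀ S T : Sylow 2 G, S ≠ T → ∃ U : Sylow 2 G,
      (S : Subgroup G) ⊓ (T : Subgroup G) ≤ (Subgroup.center ↥(U : Subgroup G)).map (U : Subgroup G).subtype) :
    (Group.IsSolvable G ∧ Cfsg.PLengthLE 2 1 G) ∨
    (∀ S : Sylow 2 G, IsMulCommutative ↥(S : Subgroup G)) ∨
    (∃ (N M : Subgroup G) (_ : N.Normal) (_ : M.Normal) (_ : (N.subgroupOf M).Normal), N < M ∧ Odd (Nat.card ↥N) ∧ Odd M.index ∧
      ∃ A L : Subgroup (↥M ⧸ N.subgroupOf M), IsMulCommutative ↥A ∧ IsPGroup 2 ↥A ∧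
        Nonempty (↥L ≃* Matrix.SpecialLinearGroup (Fin 2) (ZMod 5)) ∧ (∀ a ∈ A, ∀ l ∈ L, a * l = l * a) ∧ A ⊔ L = ⊤) ∨
    (∃ (M : Subgroup G), M.Normal ∧ Odd M.index ∧ ∃ A L : Subgroup G, IsMulCommutative ↥A ∧ IsPGroup 2 ↥A ∧
      ((Cfsg.IsInternalDirectProduct A L M ∧
          ((∃ (m : ℕ) (F : Type) (_ : Field F) (_ : Fintype F), 1 ≤ m ∧ Fintype.card F = 2 ^ (2 * m + 1) ∧
              Nonempty (↥L ≃* ↥(Cfsg.Lie.Sz F (2 ^ (m + 1))))) ∨
            (∃ (n : ℕ) (F : Type) (_ : Field F) (_ : Fintype F), 2 ≤ n ∧ Fintype.card F = 4 ^ n ∧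
              (Nonempty (↥L ≃* Cfsg.PSU 3 F (2 ^ n)) ∨ Nonempty (↥L ≃* ↥(Cfsg.SU 3 F (2 ^ n))))))) ∨
        (A ≤ M ∧ L ≤ M ∧ (∀ a ∈ A, ∀ l ∈ L, a * l = l * a) ∧ A ⊔ L = M ∧ Group.IsPerfect ↥L ∧
          Subgroup.center ↥L ≠ ⊥ ∧
          ∃ (F : Type) (_ : Field F) (_ : Fintype F), Fintype.card F = 8 ∧
            Nonempty (↥L ⧸ Subgroup.center ↥L ≃* ↥(Cfsg.Lie.Sz F 4))))) := by
  classical
  by_cases hab : ∀ S : Sylow 2 G, IsMulCommutative ↥(S : Subgroup G)
  · exact Or.inr (Or.inl hab)
  · push Not at hab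
    obtain ⟨S, hS⟩ := hab
    rcases Cfsg.Agent.H304.Final.main hCI S hS with h | h | h
    · exact Or.inl h
    · exact Or.inr (Or.inr (Or.inl h))
    · exact Or.inr (Or.inr (Or.inr h))

end Cfsg.Agent.S3181
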