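import Cfsg.Statements.S3182
import Cfsg.Agent.H304.CIBasic
import Cfsg.Agent.S1169
import Cfsg.Agent.S1245
import Cfsg.Agent.S0252
import Cfsg.Agent.S0253
import Cfsg.Agent.StrongEmb.Strong
import Cfsg.Agent.TwoFusion.SLTwoFacts
import Cfsg.Agent.Walter.Main
import Cfsg.Agent.Walter.StepAll

set_option autoImplicit false
open Cfsg

namespace Cfsg.Agent.S3182

open Subgroup

/-- `PSL(2,4) ≅ PSL(2,5)`. -/
theorem four_to_five {F : Type} [Field F] [Fintype F] (hF : Fintype.card F = 4) {G : Type*} [Group G]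
    (e : G ≃* Matrix.ProjectiveSpecialLinearGroup (Fin 2) F) :
    ∃ (F : Type) (_ : Field F) (_ : Fintype F),
        (Fintype.card F % 8 = 0 ∨ Fintype.card F % 8 = 3 ∨ Fintype.card F % 8 = 5) ∧
        Nonempty (G ≃* Matrix.ProjectiveSpecialLinearGroup (Fin 2) F) := by
  have : Fact (Nat.Prime 5) := ⟨by norm_num⟩
  obtain ⟨e4⟩ := Cfsg.Agent.S0252.result hF
  obtain ⟨e5⟩ := Cfsg.Agent.S0253.result (F := ZMod 5) (by rw [ZMod.card])
  exact ⟨ZMod 5, inferInstance, inferInstance, by rw [ZMod.card]; norm_num,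
    ⟨(e.trans e4).trans e5.symm⟩⟩

/-- `PSL(2,2^n)`, `n ≥ 2`, in the form of the conclusion. -/
theorem even_case {n : ℕ} (hn : 2 ≤ n) {F : Type} [Field F] [Fintype F] (hF : Fintype.card F = 2 ^ n)
    {G : Type*} [Group G] (e : G ≃* Matrix.ProjectiveSpecialLinearGroup (Fin 2) F) :
    ∃ (F : Type) (_ : Field F) (_ : Fintype F),
        (Fintype.card F % 8 = 0 ∨ Fintype.card F % 8 = 3 ∨ Fintype.card F % 8 = 5) ∧
        Nonempty (G ≃* Matrix.ProjectiveSpecialLinearGroup (Fin 2) F) := by
  rcases Nat.lt_or_ge n 3 with h | h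
  · have : n = 2 := by omega
    subst this
    exact four_to_five (by rw [hF]; norm_num) e
  · refine ⟨F, inferInstance, inferInstance, Or.inl ?_, ⟨e⟩⟩
    obtain ⟨k, rfl⟩ := Nat.exists_eq_add_of_le h
    rw [hF, pow_add]
    omega

theorem psl_facts {F : Type*} [Field F] [Fintype F] (h : 3 < Fintype.card F) :
    Nontrivial (Matrix.ProjectiveSpecialLinearGroup (Fin 2) F) ∧
      center (Matrix.ProjectiveSpecialLinearGroup (Fin 2) F) = ⊥ := by
  have hs := Cfsg.Agent.TwoFusion.SLTwoFacts.isSimpleGroup_psl h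
  have hnt : Nontrivial (Matrix.ProjectiveSpecialLinearGroup (Fin 2) F) := hs.toNontrivial
  refine ⟨hnt, ?_⟩
  rcases IsSimpleGroup.eq_bot_or_eq_top_of_normal (center (Matrix.ProjectiveSpecialLinearGroup (Fin 2) F))
    inferInstance with h1 | h1
  · exact h1
  · exfalso
    have h2 : commutator (Matrix.ProjectiveSpecialLinearGroup (Fin 2) F) = ⊤ := by
      have h3 := Cfsg.Agent.TwoFusion.SLTwoFacts.commutator_eq_top h
      have h4 : Function.Surjective (QuotientGroup.mk' (center (Matrix.SpecialLinearGroup (Fin 2) F))) :=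
        QuotientGroup.mk'_surjective _
      have h5 := congrArg (Subgroup.map (QuotientGroup.mk' (center (Matrix.SpecialLinearGroup (Fin 2) F)))) h3
      rw [commutator_def, map_commutator, ← MonoidHom.range_eq_map,
        MonoidHom.range_eq_top_of_surjective _ h4] at h5
      exact h5
    have h3 : commutator (Matrix.ProjectiveSpecialLinearGroup (Fin 2) F) = ⊥ := by
      rw [commutator_def, commutator_eq_bot_iff_le_centralizer]
      intro x _
      rw [mem_centralizer_iff]
      intro y _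
      exact mem_center_iff.mp (by rw [h1]; trivial : x ∈ center _) y
    rw [h2] at h3
    exact top_ne_bot h3

/-- A centralizer isomorphic to `Z₂ × PSL(2,q)` is an internal direct product `⟨t⟩ × E`. -/
theorem internal {G : Type*} [Group G] {L : Type} [Group L] [Nontrivial L] (hL : center L = ⊥) {t : G}
    (ht : orderOf t = 2) (e : centralizer ({t} : Set G) ≃* Multiplicative (ZMod 2) × L) :
    ∃ E : Subgroup G, IsInternalDirectProduct (zpowers t) E (centralizer ({t} : Set G)) ∧
      Nonempty (L ≃* ↥E) ∧ center ↥E = ⊥ := by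
  set C := centralizer ({t} : Set G) with hC
  have htC : t ∈ C := by rw [hC, mem_centralizer_iff]; simp
  -- `t` is central in `C`, so it corresponds to the generator of the first factor
  have hcent : ∀ c : ↥C, c * ⟨t, htC⟩ = ⟨t, htC⟩ * c := by
    rintro ⟨c, hc⟩
    apply Subtype.ext
    exact (mem_centralizer_iff.mp hc t rfl).symm
  set τ : Multiplicative (ZMod 2) × L := e ⟨t, htC⟩ with hτ
  have hτc : ∀ y, y * τ = τ * y := by
    intro y
    obtain ⟨c, rfl⟩ := e.surjective y
    rw [hτ, ← map_mul, ← map_mul, hcent]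
  have hτ2 : τ.2 = 1 := by
    have : τ.2 ∈ center L := by
      rw [mem_center_iff]
      intro y
      exact congrArg Prod.snd (hτc (1, y))
    rwa [hL, mem_bot] at this
  have hτ1 : τ.1 ≠ 1 := by
    intro h1
    have h2 : τ = 1 := Prod.ext h1 hτ2
    have h3 : (⟨t, htC⟩ : ↥C) = 1 := e.injective (by rw [map_one]; exact h2)
    have h4 : t = 1 := congrArg Subtype.val h3
    rw [h4, orderOf_one] at ht
    omega
  let f : L →* G := C.subtype.comp (e.symm.toMonoidHom.comp (MonoidHom.inr _ _))
  have hf : Function.Injective f := by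
    intro a b hab
    have h1 : e.symm (1, a) = e.symm (1, b) := Subtype.ext hab
    exact congrArg Prod.snd (e.symm.injective h1)
  have ht2 : t * t = 1 := by
    have := pow_orderOf_eq_one t
    rw [ht, pow_two] at this
    exact this
  refine ⟨f.range, ⟨?_, ?_, ?_, ?_, ?_⟩, ⟨MonoidHom.ofInjective hf⟩, ?_⟩
  · rw [zpowers_le]; exact htC
  · rintro _ ⟨l, rfl⟩
    exact (e.symm (1, l)).2
  · rintro a ha _ ⟨l, rfl⟩
    obtain ⟨k, rfl⟩ := mem_zpowers_iff.mp ha
    have h1 : Commute t (f l) := by
      exact mem_centralizer_iff.mp (e.symm (1, l)).2 t rfl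
    exact h1.zpow_left k
  · rw [eq_bot_iff]
    rintro a ⟨ha, l, rfl⟩
    have h1 : f l = 1 ∨ f l = t := by
      obtain ⟨k, hk⟩ := mem_zpowers_iff.mp ha
      rcases Int.even_or_odd' k with ⟨m, rfl | rfl⟩
      · left
        rw [← hk, zpow_mul]
        have : t ^ (2 : ℤ) = 1 := by
          rw [show (2 : ℤ) = ((2 : ℕ) : ℤ) from rfl, zpow_natCast, pow_two, ht2]
        rw [this, one_zpow]
      · right
        rw [← hk, zpow_add, zpow_mul]
        have : t ^ (2 : ℤ) = 1 := by
          rw [show (2 : ℤ) = ((2 : ℕ) : ℤ) from rfl, zpow_natCast, pow_two, ht2]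
        rw [this, one_zpow, one_mul, zpow_one]
    rcases h1 with h1 | h1
    · rw [mem_bot]; exact h1
    · exfalso
      apply hτ1
      have h2 : e.symm (1, l) = ⟨t, htC⟩ := Subtype.ext h1
      have h3 : τ = (1, l) := by rw [hτ, ← h2, MulEquiv.apply_symm_apply]
      rw [h3]
  · apply le_antisymm
    · rw [sup_le_iff]
      constructor
      · rw [zpowers_le]; exact htC
      · rintro _ ⟨l, rfl⟩
        exact (e.symm (1, l)).2
    · intro c hc
      set y := e ⟨c, hc⟩ with hy
      have h1 : y.1 = 1 ∨ y.1 = τ.1 := by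
        have hall : ∀ u v : Multiplicative (ZMod 2), u ≠ 1 → v = 1 ∨ v = u := by decide
        exact hall τ.1 y.1 hτ1
      rcases h1 with h1 | h1
      · have h2 : c = f y.2 := by
          have : e.symm (1, y.2) = ⟨c, hc⟩ := by
            rw [MulEquiv.symm_apply_eq, ← hy]
            exact Prod.ext h1.symm rfl
          exact (congrArg Subtype.val this).symm
        rw [h2]
        exact mem_sup_right ⟨_, rfl⟩
      · have h2 : c = t * f y.2 := by
          have : (⟨t, htC⟩ : ↥C) * e.symm (1, y.2) = ⟨c, hc⟩ := by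
            apply e.injective
            rw [map_mul, MulEquiv.apply_symm_apply, ← hy, ← hτ]
            exact Prod.ext (by rw [Prod.fst_mul, mul_one]; exact h1.symm)
              (by rw [Prod.snd_mul, hτ2, one_mul])
          exact (congrArg Subtype.val this).symm
        rw [h2]
        exact mul_mem (mem_sup_left (mem_zpowers t)) (mem_sup_right ⟨_, rfl⟩)
  · have e' : L ≃* ↥f.range := MonoidHom.ofInjective hf
    rw [eq_bot_iff]
    intro z hz
    have h1 : e'.symm z ∈ center L := by
      rw [mem_center_iff]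
      intro y
      apply e'.injective
      rw [map_mul, map_mul, MulEquiv.apply_symm_apply]
      exact mem_center_iff.mp hz (e' y)
    rw [hL, mem_bot, MulEquiv.symm_apply_eq, map_one] at h1
    rw [mem_bot]
    exact h1

/-- Simple groups with central Sylow 2-intersections. Let G be a non-abelian finite simple group in which the intersection of any two distinct Sylow 2-subgroups is contained in the centre of some Sylow 2-subgroup. Then G is isomorphic to PSL(2, q) for some prime power q ≡ 0, 3 or 5 mod 8; or G has abelian Sylow 2-subgroups and an involution t whose centralizer is a maximal subgroup of G and is the direct product of the subgroup generated by t with a subgroup E having a normal subgroup isomorphic to PSL(2, q), q odd and greater than 3, with trivial centralizer in E; or G is isomorphic to a Suzuki group Sz(2^(2m+1)) with m ≥ 1, or to PSU(3, 2^n) with n ≥ 2. -/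
theorem result {G : Type*} [Group G] [Finite G] [IsSimpleGroup G]
    (hG : ¬ IsMulCommutative G)
    (hCI : ∀ S T : Sylow 2 G, S ≠ T → ∃ U : Sylow 2 G,
      (S : Subgroup G) ⊓ (T : Subgroup G) ≤ (Subgroup.center ↥(U : Subgroup G)).map (U : Subgroup G).subtype) :
    (∃ (F : Type) (_ : Field F) (_ : Fintype F),
        (Fintype.card F % 8 = 0 ∨ Fintype.card F % 8 = 3 ∨ Fintype.card F % 8 = 5) ∧
        Nonempty (G ≃* Matrix.ProjectiveSpecialLinearGroup (Fin 2) F)) ∨
    ((∀ S : Sylow 2 G, IsMulCommutative ↥(S : Subgroup G)) ∧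
      ∃ t : G, orderOf t = 2 ∧ IsCoatom (Subgroup.centralizer ({t} : Set G)) ∧
        ∃ E : Subgroup G, Cfsg.IsInternalDirectProduct (Subgroup.zpowers t) E (Subgroup.centralizer ({t} : Set G)) ∧
          ∃ (F : Type) (_ : Field F) (_ : Fintype F), Odd (Fintype.card F) ∧ 3 < Fintype.card F ∧
            ∃ N : Subgroup ↥E, N.Normal ∧ Nonempty (↥N ≃* Matrix.ProjectiveSpecialLinearGroup (Fin 2) F) ∧
              Subgroup.centralizer (N : Set ↥E) = ⊥) ∨
    (∃ (m : ℕ) (F : Type) (_ : Field F) (_ : Fintype F), 1 ≤ m ∧ Fintype.card F = 2 ^ (2 * m + 1) ∧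
        Nonempty (G ≃* ↥(Cfsg.Lie.Sz F (2 ^ (m + 1))))) ∨
    (∃ (n : ℕ) (F : Type) (_ : Field F) (_ : Fintype F), 2 ≤ n ∧ Fintype.card F = 4 ^ n ∧
        Nonempty (G ≃* Cfsg.PSU 3 F (2 ^ n))) := by
  classical
  have : Fact (Nat.Prime 2) := ⟨Nat.prime_two⟩
  have hna : ∃ a b : G, a * b ≠ b * a := by
    by_contra h
    push Not at h
    exact hG ⟨⟨h⟩⟩
  have hCI' : Cfsg.Agent.H304.CIBasic.CI 2 G := hCI
  obtain ⟨S⟩ : Nonempty (Sylow 2 G) := inferInstance
  have hdich : IsMulCommutative (S : Subgroup G) ∨ ∃ H : Subgroup G, Cfsg.IsStronglyEmbedded H := by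
    by_cases hS : (S : Subgroup G) = ⊥
    · left
      rw [hS]
      infer_instance
    · exact Cfsg.Agent.S1169.result S _ (Cfsg.Agent.H304.CIBasic.ctr_ne_bot hS)
        (Cfsg.Agent.H304.CIBasic.ctr_comm _) (hCI'.isStronglyClosed S)
  rcases hdich with hS | ⟨H, hH⟩
  · have hS' := Cfsg.Agent.Walter.Main.comm_of_isMulCommutative hS
    have hall : ∀ P : Sylow 2 G, IsMulCommutative ↥(P : Subgroup G) := fun P =>
      ⟨⟨Cfsg.Agent.Walter.Main.all_comm hS' P⟩⟩
    rcases Cfsg.Agent.Walter.Main.centralizer_of_wType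
      (Cfsg.Agent.Walter.Main.wType_of_step Cfsg.Agent.Walter.StepAll.step G inferInstance hG S hS') with
      ⟨n, hn, F, i1, i2, hF, ⟨e⟩⟩ | ⟨F, i1, i2, hF, -, ⟨e⟩⟩ | ⟨F, i1, i2, h35, h5, ⟨t, ht⟩, hc⟩
    · exact Or.inl (even_case hn hF e)
    · exact Or.inl ⟨F, i1, i2, Or.inr hF, ⟨e⟩⟩
    · right; left
      refine ⟨hall, t, ht, ?_⟩
      obtain ⟨e⟩ := hc t ht
      obtain ⟨hnt, hcen⟩ := psl_facts (F := F) (by omega)
      obtain ⟨E, hE, ⟨e'⟩, hEc⟩ := internal hcen ht e
      have hodd : Odd (Fintype.card F) := by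
        rw [Nat.odd_iff]
        omega
      have hctop : centralizer ((⊤ : Subgroup ↥E) : Set ↥E) = ⊥ := by
        rw [← hEc, eq_comm]
        exact Subgroup.centralizer_univ.symm
      refine ⟨?_, E, hE, F, i1, i2, hodd, by omega, ⊤, inferInstance,
        ⟨(Subgroup.topEquiv).trans e'.symm⟩, hctop⟩
      refine Cfsg.Agent.S1245.result hG S hS t ht E E hE le_rfl ?_
        ⟨F, i1, i2, hodd, ⟨e'.symm⟩⟩ ?_
      · rw [subgroupOf_self]
        infer_instance
      · rw [eq_bot_iff]
        intro x hx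
        have h1 : (⟨x, hx.1⟩ : ↥E) ∈ center ↥E := by
          rw [mem_center_iff]
          intro y
          exact Subtype.ext (mem_centralizer_iff.mp hx.2 y y.2)
        rw [hEc, mem_bot] at h1
        rw [mem_bot]
        exact congrArg Subtype.val h1
  · rcases Cfsg.Agent.StrongEmb.Strong.result hna H hH with ⟨F, i1, i2, ⟨n, hn, hF⟩, ⟨e⟩⟩ |
      ⟨F, i1, i2, m, hm, hF, he⟩ | ⟨F, i1, i2, n, hn, hF, he⟩
    · exact Or.inl (even_case hn hF e)
    · exact Or.inr (Or.inr (Or.inl ⟨m, F, i1, i2, hm, hF, he⟩))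
    · refine Or.inr (Or.inr (Or.inr ⟨n, F, i1, i2, hn, ?_, he⟩))
      rw [hF, ← pow_mul, mul_comm, pow_mul]
      norm_num

end Cfsg.Agent.S3182
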