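-- Statement S3184
import Cfsg.Statements.S3184
import Cfsg.Agent.H305.CentralInter
import Cfsg.Agent.S0215
import Cfsg.Agent.Lib.Cores

set_option autoImplicit false
open Cfsg

namespace Cfsg.Agent.S3184

open Pointwise

/-- In a finite cyclic group there is at most one element of order two. -/
theorem eq_of_orderOf_two {C : Type*} [Group C] [Finite C] [IsCyclic C] (a b : C)
    (ha : orderOf a = 2) (hb : orderOf b = 2) : a = b := by
  classical
  haveI := Fintype.ofFinite C
  by_contra hne
  have h := IsCyclic.card_pow_eq_one_le (α := C) (n := 2) (by norm_num)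
  have ha1 : a ≠ 1 := by rintro rfl; simp at ha
  have hb1 : b ≠ 1 := by rintro rfl; simp at hb
  have hsub : ({1, a, b} : Finset C) ⊆ (Finset.univ.filter fun x : C => x ^ 2 = 1) := by
    intro x hx
    simp only [Finset.mem_insert, Finset.mem_singleton] at hx
    simp only [Finset.mem_filter, Finset.mem_univ, true_and]
    rcases hx with rfl | rfl | rfl
    · simp
    · rw [← ha]; exact pow_orderOf_eq_one _
    · rw [← hb]; exact pow_orderOf_eq_one _
  have h3 : ({1, a, b} : Finset C).card = 3 := by
    rw [Finset.card_eq_three]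
    exact ⟨1, a, b, ha1.symm, hb1.symm, hne, rfl⟩
  have := Finset.card_le_card hsub
  rw [h3] at this
  omega

/-- the involution of a cyclic characteristic subgroup is fixed by every automorphism -/
theorem fixed_of_char {P : Type*} [Group P] [Finite P] (C : Subgroup P) (hCc : IsCyclic ↥C)
    (hCh : C.Characteristic) (c : P) (hc : c ∈ C) (hc2 : orderOf c = 2) (φ : P ≃* P) :
    φ c = c := by
  have hφ : φ c ∈ C := by
    have h1 : C.map φ.toMonoidHom = C := Subgroup.characteristic_iff_map_eq.1 hCh φ
    have h2 : φ.toMonoidHom c ∈ C.map φ.toMonoidHom := Subgroup.mem_map_of_mem _ hc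
    rw [h1] at h2
    exact h2
  have ho : orderOf (φ c) = 2 := by
    rw [← hc2]; exact orderOf_injective φ.toMonoidHom φ.injective c
  have := eq_of_orderOf_two (⟨φ c, hφ⟩ : C) ⟨c, hc⟩ (by rw [Subgroup.orderOf_mk]; exact ho)
    (by rw [Subgroup.orderOf_mk]; exact hc2)
  exact congrArg Subtype.val this

/-- Let G be a finite group in which the intersection of any two distinct Sylow 2-subgroups is contained in the centre of some Sylow 2-subgroup, and let S be a Sylow 2-subgroup. If C is a nontrivial cyclic characteristic subgroup of S, then the involution of C is central modulo the largest normal subgroup of odd order of G: each of its conjugates has the same image in G/O(G). -/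
theorem result {G : Type*} [Group G] [Finite G]
    (hCI : ∀ S T : Sylow 2 G, S ≠ T → ∃ U : Sylow 2 G,
      (S : Subgroup G) ⊓ (T : Subgroup G) ≤ (Subgroup.center ↥(U : Subgroup G)).map (U : Subgroup G).subtype)
    (S : Sylow 2 G) (C : Subgroup ↥(S : Subgroup G)) (hC : C ≠ ⊥) (hCc : IsCyclic ↥C) (hCh : C.Characteristic)
    (c : ↥(S : Subgroup G)) (hc : c ∈ C) (hc2 : orderOf c = 2) :
    ∀ g : G, (QuotientGroup.mk (s := Cfsg.oddCore G) (g * (c : G) * g⁻¹)) =
      QuotientGroup.mk (s := Cfsg.oddCore G) (c : G) := by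
  have h2 : Fact (Nat.Prime 2) := ⟨Nat.prime_two⟩
  -- elements of the normalizer fix `c`
  have hN : ∀ n ∈ Subgroup.normalizer ((S : Subgroup G) : Set G), n * (c : G) * n⁻¹ = c := by
    intro n hn
    have h := fixed_of_char C hCc hCh c hc hc2
      ((Subgroup.normalizerMonoidHom (S : Subgroup G)) ⟨n, hn⟩)
    exact congrArg Subtype.val h
  have hNS : ∀ n ∈ (S : Subgroup G), n * (c : G) * n⁻¹ = c :=
    fun n hn => hN n (Subgroup.le_normalizer hn)
  have hcent : (c : G) ∈ Subgroup.centralizer ((S : Subgroup G) : Set G) := by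
    rw [Subgroup.mem_centralizer_iff]
    intro s hs
    have := hNS s hs
    exact mul_inv_eq_iff_eq_mul.1 this
  -- `c` is isolated
  have hiso : ∀ g : G, g * (c : G) * g⁻¹ ∈ (S : Subgroup G) → g * (c : G) * g⁻¹ = c := by
    intro g hg
    by_cases hT : S = g • S
    · exact hN g (Sylow.smul_eq_iff_mem_normalizer.1 hT.symm)
    · have hmem : g * (c : G) * g⁻¹ ∈ ((g • S : Sylow 2 G) : Subgroup G) := by
        rw [Sylow.coe_subgroup_smul]
        exact ⟨(c : G), c.2, by simp [MulAut.conj_apply]⟩
      have hz := H305.mem_centerMap.1 (H305.inter_le_center hCI S (g • S) hT ⟨hg, hmem⟩)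
      have hy : g⁻¹⁻¹ * (c : G) * g⁻¹ ∈ Subgroup.centralizer ((S : Subgroup G) : Set G) := by
        rw [inv_inv, Subgroup.mem_centralizer_iff]
        intro s hs
        exact hz.2 s hs
      obtain ⟨n, hn, hn'⟩ := Sylow.conj_eq_normalizer_conj_of_mem_centralizer S (c : G) g⁻¹ hcent hy
      rw [inv_inv] at hn'
      rw [hn']
      have := hN n⁻¹ (Subgroup.inv_mem _ hn)
      rwa [inv_inv] at this
  have hoc : orderOf (c : G) = 2 := (Subgroup.orderOf_coe c).trans hc2
  obtain ⟨N, hNn, hNo, hNc⟩ := Cfsg.Agent.S0215.result S (c : G) hoc c.2 hiso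
  have hle : N ≤ Cfsg.oddCore G :=
    Cfsg.Agent.Lib.Cores.le_pPrimeCore hNn (Nat.coprime_two_right.mpr hNo)
  intro g
  rw [QuotientGroup.eq]
  refine hle ?_
  have h1 := hNn.conj_mem _ (hNc g) (c : G)⁻¹
  have h3 : (c : G)⁻¹ * ((c : G) * g * (c : G)⁻¹ * g⁻¹) * (c : G)⁻¹⁻¹ = (g * (c : G) * g⁻¹)⁻¹ * (c : G) := by
    group
  rwa [h3] at h1

end Cfsg.Agent.S3184
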