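import Cfsg.Statements.S3186
import Cfsg.Agent.H305.EndG
import Cfsg.Agent.H305.SylClassTwo

set_option autoImplicit false
open Cfsg

namespace Cfsg.Agent.S3186

/-- Let G be a non-abelian finite simple group in which the intersection of any two distinct Sylow 2-subgroups is abelian. Then a Sylow 2-subgroup of G is either dihedral (of order at least 4) or of nilpotency class at most two (its derived subgroup is central). -/
theorem result {G : Type*} [Group G] [Finite G] [IsSimpleGroup G]
    (hG : ¬ IsMulCommutative G)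
    (hA : ∀ S T : Sylow 2 G, S ≠ T → IsMulCommutative ↥((S : Subgroup G) ⊓ (T : Subgroup G))) (S : Sylow 2 G) :
    (∃ m : ℕ, 2 ≤ m ∧ Nonempty (↥(S : Subgroup G) ≃* DihedralGroup m)) ∨
      commutator ↥(S : Subgroup G) ≤ Subgroup.center ↥(S : Subgroup G) := by
  have hna : ∃ a b : G, a * b ≠ b * a := by
    by_contra hcon
    push Not at hcon
    exact hG ⟨⟨hcon⟩⟩
  have hAI := Cfsg.Agent.H305.Ess.ai_of hA
  have conv : Cfsg.Agent.H305.SylClassTwo.C2 (S : Subgroup G) →
      commutator ↥(S : Subgroup G) ≤ Subgroup.center ↥(S : Subgroup G) := by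
    intro h
    rw [commutator_def, Subgroup.commutator_le]
    intro a _ b _
    rw [Subgroup.mem_center_iff]
    intro c
    rw [commutatorElement_def]
    exact h a b c
  by_cases hS : (S : Subgroup G) = ⊥
  · right
    apply conv
    intro a b c
    have hsub : ∀ x : (S : Subgroup G), x = 1 := by
      rintro ⟨x, hx⟩
      apply Subtype.ext
      rw [hS, Subgroup.mem_bot] at hx
      exact hx
    rw [hsub a, hsub b, hsub c]
    group
  have hend : (∃ B : Subgroup G, B ≠ ⊥ ∧ (∀ x ∈ B, ∀ y ∈ B, x * y = y * x) ∧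
      Cfsg.IsStronglyClosed B (S : Subgroup G)) → commutator ↥(S : Subgroup G) ≤ Subgroup.center ↥(S : Subgroup G) := by
    rintro ⟨B, hB, hc, hsc⟩
    exact conv (Cfsg.Agent.H305.SylClassTwo.c2_of_strongly_closed hna S B hB hc hsc)
  by_cases hall : ∀ E, Cfsg.Agent.H305.Ess.IsE S E → (S : Subgroup G) ≤ Subgroup.normalizer (E : Set G)
  · rcases Cfsg.Agent.H305.Ess.normal_case hAI hS hall with h | h
    · right
      apply conv
      intro a b c
      apply Subtype.ext
      exact h a a.2 b b.2 c c.2
    · exact Or.inr (hend h)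
  · push Not at hall
    obtain ⟨E, hE, hEn⟩ := hall
    obtain ⟨x, hx⟩ := Cfsg.Agent.H305.Ess.exists_NN hE hEn
    rcases Cfsg.Agent.H305.Ess.endgame hAI hna hx with h | h
    · exact Or.inl h
    · exact Or.inr (hend h)

end Cfsg.Agent.S3186
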