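import Cfsg.Statements.S3198
import Cfsg.Agent.H306.AB.FromS1170
import Cfsg.Agent.H306.AB.Final
import Cfsg.Agent.Walter.StepAll
import Cfsg.Agent.H308.LFTop
import Cfsg.Agent.H308.LFBig

set_option autoImplicit false
open Cfsg

namespace Cfsg.Agent.S3198

/-- If G is a finite group whose Sylow 2-subgroups are isomorphic to those of PSL(3, 4), then G modulo its largest normal subgroup of odd order is isomorphic to a subgroup of PGL(3, 4) (the general linear group of dimension 3 over the field with 4 elements modulo its centre). -/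
theorem result {G : Type*} [Group G] [Finite G]
    {F : Type*} [Field F] [Fintype F] (hF : Fintype.card F = 4) (S : Sylow 2 G)
    (P : Sylow 2 (Matrix.ProjectiveSpecialLinearGroup (Fin 3) F))
    (hS : Nonempty (↥(S : Subgroup G) ≃* ↥(P : Subgroup (Matrix.ProjectiveSpecialLinearGroup (Fin 3) F)))) :
    ∃ f : G ⧸ Cfsg.oddCore G →* GL (Fin 3) F ⧸ Subgroup.center (GL (Fin 3) F), Function.Injective f := by
  have hp2 : Fact (Nat.Prime 2) := ⟨Nat.prime_two⟩
  have hchar : CharP F 2 := by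
    have h1 : ((Fintype.card F : ℕ) : F) = 0 := FiniteField.cast_card_eq_zero F
    rw [hF] at h1
    have h3 : (2 : F) * 2 = 0 := by
      have : ((4 : ℕ) : F) = 2 * 2 := by norm_num
      rw [← this]; exact h1
    have h2 : (2 : F) = 0 := by rcases mul_eq_zero.1 h3 with h | h <;> exact h
    exact CharTwo.of_one_ne_zero_of_two_eq_zero one_ne_zero h2
  obtain ⟨e0⟩ := hS
  obtain ⟨e1⟩ := Cfsg.Agent.SylowL.SylowPSL.sylow_equiv 2 P
  obtain ⟨A, B, x, y, z, h, hc⟩ := Cfsg.Agent.TypeL3.exists_isL3 (e0.trans e1)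
  -- pass to `G / O(G)`
  have hO : Cfsg.pPrimeCore 2 (G ⧸ Cfsg.pPrimeCore 2 G) = ⊥ :=
    Cfsg.Agent.Lib.Cores.pPrimeCore_quotient_pPrimeCore 2
  have hinj := Cfsg.Agent.H306.AB.inj_of_sylow S
  have h' := h.map (QuotientGroup.mk' (Cfsg.pPrimeCore 2 G)) hinj
  have hc' : Cfsg.Agent.TypeL3.Local.LThreeCoord (A.map (QuotientGroup.mk' (Cfsg.pPrimeCore 2 G)))
      (B.map (QuotientGroup.mk' (Cfsg.pPrimeCore 2 G))) (fun a => QuotientGroup.mk' (Cfsg.pPrimeCore 2 G) (x a))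
      (fun a => QuotientGroup.mk' (Cfsg.pPrimeCore 2 G) (y a))
      (fun a => QuotientGroup.mk' (Cfsg.pPrimeCore 2 G) (z a)) := by
    refine ⟨fun a b => ?_, fun a b => ?_, fun a b => ?_, fun g => ?_, fun g => ?_, fun a b => ?_⟩
    · rw [hc.x_add, map_mul]
    · rw [hc.y_add, map_mul]
    · rw [hc.z_add, map_mul]
    · constructor
      · rintro ⟨a, ha, rfl⟩
        obtain ⟨u, v, rfl⟩ := (hc.mem_A a).1 ha
        exact ⟨u, v, map_mul _ _ _⟩
      · rintro ⟨u, v, rfl⟩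
        exact ⟨_, (hc.mem_A _).2 ⟨u, v, rfl⟩, map_mul _ _ _⟩
    · constructor
      · rintro ⟨a, ha, rfl⟩
        obtain ⟨u, v, rfl⟩ := (hc.mem_B a).1 ha
        exact ⟨u, v, map_mul _ _ _⟩
      · rintro ⟨u, v, rfl⟩
        exact ⟨_, (hc.mem_B _).2 ⟨u, v, rfl⟩, map_mul _ _ _⟩
    · rw [← hc.comm]
      simp only [map_mul, map_inv]
  let T : Sylow 2 (G ⧸ Cfsg.pPrimeCore 2 G) := S.mapSurjective (QuotientGroup.mk'_surjective (Cfsg.pPrimeCore 2 G))
  have hT : (T : Subgroup (G ⧸ Cfsg.pPrimeCore 2 G)) = (S : Subgroup G).map (QuotientGroup.mk' (Cfsg.pPrimeCore 2 G)) := rfl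
  rw [← hT] at h'
  set A' := A.map (QuotientGroup.mk' (Cfsg.pPrimeCore 2 G)) with hA'
  set B' := B.map (QuotientGroup.mk' (Cfsg.pPrimeCore 2 G)) with hB'
  have h4 : Cfsg.Agent.TypeL3.IsL3 (T : Subgroup (G ⧸ Cfsg.pPrimeCore 2 G)) A' B' 4 := by rw [← hF]; exact h'
  have hW : Cfsg.Agent.H306.AB.WalThm := fun K _ _ h3 h4 T h5 =>
    Cfsg.Agent.Walter.Main.wType_of_step Cfsg.Agent.Walter.StepAll.step K h3 h4 T h5
  by_cases hNA : Cfsg.Agent.H306.AB.NoN (T : Subgroup (G ⧸ Cfsg.pPrimeCore 2 G)) A'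
  swap
  · exact Cfsg.Agent.H308.LFour.embedding_of_normal hF hO
      (Cfsg.Agent.H308.LFour.A_normal hW hO h4 hNA) h' hc'
  by_cases hNB : Cfsg.Agent.H306.AB.NoN (T : Subgroup (G ⧸ Cfsg.pPrimeCore 2 G)) B'
  swap
  · exact Cfsg.Agent.H308.LFour.embedding_of_normal hF hO
      (Cfsg.Agent.H308.LFour.A_normal hW hO h4.symm hNB) h'.symm (Cfsg.Agent.H308.LFour.coord_symm h' hc')
  rcases Cfsg.Agent.H306.AB.main (S := T) hW Cfsg.Agent.H306.AB.cl2Thm hO
    (Cfsg.Agent.H308.LFour.toAB h4.toIsAB) hNA hNB with h5 | h5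
  · have h6 := Cfsg.Agent.H308.LFour.relIndex_eq_four h4
    rw [h5.1] at h6
    norm_num at h6
  · exact Cfsg.Agent.H308.LFour.embedding_of_big hF hO h4 h5

end Cfsg.Agent.S3198
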