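import Cfsg.Statements.S3199
import Cfsg.Agent.J2Sylow.InstZ
import Cfsg.Agent.H308.JFour
import Cfsg.Agent.H308.JModel
import Cfsg.Agent.H308.JSetup

set_option autoImplicit false
open Cfsg

namespace Cfsg.Agent.S3199

open Cfsg.Agent.J2Sylow Cfsg.Agent.J2Sylow.Model Cfsg.Agent.H308 in
/-- the centralizer of `z` modulo its core, for any two groups with Sylow 2-subgroup of J2 type -/
theorem aux {G : Type*} {G' : Type*} [Group G] [Finite G] [Group G'] [Finite G'] (h : Setup G)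
    (h' : Setup G') (hG : ∀ H : Subgroup G, H.index ≠ 2) (hG' : ∀ H : Subgroup G', H.index ≠ 2) :
    Nonempty ((↥(Subgroup.centralizer ({h.z} : Set G)) ⧸
        Cfsg.oddCore ↥(Subgroup.centralizer ({h.z} : Set G))) ≃*
      (↥(Subgroup.centralizer ({h'.z} : Set G')) ⧸
        Cfsg.oddCore ↥(Subgroup.centralizer ({h'.z} : Set G')))) ∧
    Nat.card (↥(Subgroup.centralizer ({h'.z} : Set G')) ⧸
        Cfsg.oddCore ↥(Subgroup.centralizer ({h'.z} : Set G'))) = 1920 := by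
  obtain ⟨ρ, hρ⟩ := JModel.mod_of_f2 InstZ.solvFun InstZ.oddSolv InstZ.zStar h (JFour.f2 h hG)
  obtain ⟨ρ', hρ'⟩ := JModel.mod_of_f2 InstZ.solvFun InstZ.oddSolv InstZ.zStar h' (JFour.f2 h' hG')
  exact ⟨JModel.unique hρ hρ', hρ'.card⟩

/-- Let G be a finite group with no normal subgroup of index 2 whose Sylow 2-subgroups are isomorphic to those of the Hall–Janko group J₂, and let z be an involution central in a Sylow 2-subgroup of G. Then the centralizer of z modulo its largest normal subgroup of odd order is isomorphic to the centralizer of a 2-central involution in J₂ or to the centralizer of a 2-central involution in the third Janko group J₃. -/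
theorem result {G : Type*} [Group G] [Finite G]
    (S : Sylow 2 G) (P : Sylow 2 Cfsg.Spor.J2) (hS : Nonempty (↥(S : Subgroup G) ≃* ↥(P : Subgroup Cfsg.Spor.J2)))
    (h2 : ∀ H : Subgroup G, H.Normal → H.index ≠ 2)
    (z : G) (hz : orderOf z = 2) (hzS : z ∈ (S : Subgroup G)) (hzc : ∀ s ∈ (S : Subgroup G), s * z = z * s) :
    (∃ (z' : Cfsg.Spor.J2) (Q : Sylow 2 Cfsg.Spor.J2), orderOf z' = 2 ∧ z' ∈ (Q : Subgroup Cfsg.Spor.J2) ∧
        (∀ s ∈ (Q : Subgroup Cfsg.Spor.J2), s * z' = z' * s) ∧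
        Nonempty ((↥(Subgroup.centralizer ({z} : Set G)) ⧸ Cfsg.oddCore ↥(Subgroup.centralizer ({z} : Set G))) ≃*
          ↥(Subgroup.centralizer ({z'} : Set Cfsg.Spor.J2)))) ∨
      (∃ (F : Type) (_ : Field F) (_ : Fintype F) (ω : F), Fintype.card F = 4 ∧ ω ^ 2 + ω + 1 = 0 ∧
        ∃ (z' : Cfsg.Spor.J3 F ω) (Q : Sylow 2 (Cfsg.Spor.J3 F ω)), orderOf z' = 2 ∧ z' ∈ (Q : Subgroup (Cfsg.Spor.J3 F ω)) ∧
          (∀ s ∈ (Q : Subgroup (Cfsg.Spor.J3 F ω)), s * z' = z' * s) ∧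
          Nonempty ((↥(Subgroup.centralizer ({z} : Set G)) ⧸ Cfsg.oddCore ↥(Subgroup.centralizer ({z} : Set G))) ≃*
            ↥(Subgroup.centralizer ({z'} : Set (Cfsg.Spor.J3 F ω))))) := by
  left
  obtain ⟨z', Q, hz', hzQ', hzc', hcard⟩ := Cfsg.Agent.H308.JSetup.exists_invol
  have hJf : Finite Cfsg.Spor.J2 :=
    Nat.finite_of_card_ne_zero (by rw [Cfsg.Agent.J2Sylow.SporSylow.card_J2]; norm_num)
  obtain ⟨eP⟩ := Cfsg.Agent.J2Sylow.SporSylow.exists_equiv P
  obtain ⟨eS⟩ := hS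
  obtain ⟨h, -, hhz⟩ := Cfsg.Agent.H308.JSetup.exists_setup S ⟨eP.trans eS.symm⟩ hz hzS hzc
  obtain ⟨h', -, hhz'⟩ := Cfsg.Agent.H308.JSetup.exists_setup Q
    (Cfsg.Agent.J2Sylow.SporSylow.exists_equiv Q) hz' hzQ' hzc'
  have hidx : ∀ H : Subgroup G, H.index ≠ 2 := by
    intro H hH
    exact h2 H (Subgroup.normal_of_index_eq_two hH) hH
  obtain ⟨⟨e⟩, hc⟩ := aux h h' hidx Cfsg.Agent.H308.JSetup.index_ne_two
  refine ⟨z', Q, hz', hzQ', hzc', ?_⟩
  subst hhz
  subst hhz'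
  -- the core of the centralizer in `J₂` is trivial
  have hbij : Function.Bijective (QuotientGroup.mk' (Cfsg.oddCore
      ↥(Subgroup.centralizer ({h'.z} : Set Cfsg.Spor.J2)))) := by
    rw [Nat.bijective_iff_surjective_and_card]
    exact ⟨QuotientGroup.mk'_surjective _, by rw [hcard, hc]⟩
  exact ⟨e.trans (MulEquiv.ofBijective _ hbij).symm⟩

end Cfsg.Agent.S3199
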