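import Cfsg.Statements.S3200
import Cfsg.Agent.S0563
import Cfsg.Agent.S0003
import Cfsg.Agent.S0004
import Cfsg.Agent.S0005
import Cfsg.Agent.H309.Conj

set_option autoImplicit false
open Cfsg

namespace Cfsg.Agent.S3200

open Pointwise Cfsg.Agent.H309

/-- Let H be a finite group in which a Sylow 2-subgroup has an abelian complement (an abelian subgroup meeting it trivially whose product with it is all of H). Then H is solvable, and every subgroup and every quotient group of H again has a Sylow 2-subgroup with an abelian complement. -/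
theorem result {H : Type*} [Group H] [Finite H]
    (S : Sylow 2 H) (C : Subgroup H) (hC : IsMulCommutative ↥C) (hSC : Subgroup.IsComplement' (S : Subgroup H) C) :
    Group.IsSolvable H ∧
    (∀ L : Subgroup H, ∃ (P : Sylow 2 ↥L) (D : Subgroup ↥L), IsMulCommutative ↥D ∧ Subgroup.IsComplement' (P : Subgroup ↥L) D) ∧
    (∀ (N : Subgroup H) [N.Normal], ∃ (P : Sylow 2 (H ⧸ N)) (D : Subgroup (H ⧸ N)),
      IsMulCommutative ↥D ∧ Subgroup.IsComplement' (P : Subgroup (H ⧸ N)) D) := by
  classical
  have : Fact (Nat.Prime 2) := ⟨Nat.prime_two⟩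
  have hcard : Nat.card (S : Subgroup H) * Nat.card C = Nat.card H := hSC.card_mul_card
  have hCidx : Nat.card C = (S : Subgroup H).index := by
    rw [Nat.card_congr (Equiv.refl C)]
    exact hSC.symm.index_eq_card.symm
  have hCodd : ¬ 2 ∣ Nat.card C := by
    rw [hCidx]; exact S.not_dvd_index
  obtain ⟨k, hk⟩ := IsPGroup.iff_card.1 S.2
  have hcop : (Nat.card (S : Subgroup H)).Coprime (Nat.card C) := by
    have hk' : Nat.card (S : Subgroup H) = 2 ^ k := hk
    rw [hk']
    exact Nat.Coprime.pow_left k ((Nat.Prime.coprime_iff_not_dvd Nat.prime_two).2 hCodd)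
  have hCcomm : ∀ x ∈ C, ∀ y ∈ C, x * y = y * x := by
    intro x hx y hy
    exact congrArg Subtype.val (hC.is_comm.comm ⟨x, hx⟩ ⟨y, hy⟩)
  have hCnil : Group.IsNilpotent C := by
    let _ : CommGroup C := { (inferInstance : Group C) with mul_comm := hC.is_comm.comm }
    exact CommGroup.isNilpotent
  have hprod : ∀ g : H, ∃ a ∈ (S : Subgroup H), ∃ b ∈ C, g = a * b := by
    intro g
    obtain ⟨⟨a, b⟩, hab⟩ := hSC.surjective g
    exact ⟨a, a.2, b, b.2, hab.symm⟩
  have hsol : Group.IsSolvable H :=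
    (Cfsg.Agent.S0563.result (S : Subgroup H) C S.2.isNilpotent hCnil hcop hprod).1
  refine ⟨hsol, ?_, ?_⟩
  · intro L
    have hLsol : Group.IsSolvable L := inferInstance
    let P : Sylow 2 L := default
    have hP : Nat.card (P : Subgroup L) * (P : Subgroup L).index = Nat.card L :=
      (P : Subgroup L).card_mul_index
    obtain ⟨j, hj⟩ := IsPGroup.iff_card.1 P.2
    have hPodd : ¬ 2 ∣ (P : Subgroup L).index := P.not_dvd_index
    have hcopP : (Nat.card (P : Subgroup L)).Coprime (P : Subgroup L).index := by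
      have hj' : Nat.card (P : Subgroup L) = 2 ^ j := hj
      rw [hj']
      exact Nat.Coprime.pow_left j ((Nat.Prime.coprime_iff_not_dvd Nat.prime_two).2 hPodd)
    obtain ⟨D, hD⟩ := Cfsg.Agent.S0003.result (G := L) (P : Subgroup L).index (Nat.card (P : Subgroup L))
      (by rw [mul_comm]; exact hP.symm) hcopP.symm
    have hDodd : ¬ 2 ∣ Nat.card D := by rw [hD]; exact hPodd
    have hDcard : Nat.card (D.map L.subtype) = Nat.card D :=
      Subgroup.card_map_of_injective L.subtype_injective
    have hDcop : (Nat.card (D.map L.subtype)).Coprime (Nat.card (S : Subgroup H)) := by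
      have hk' : Nat.card (S : Subgroup H) = 2 ^ k := hk
      rw [hDcard, hk']
      exact (Nat.Coprime.pow_left k ((Nat.Prime.coprime_iff_not_dvd Nat.prime_two).2 hDodd)).symm
    obtain ⟨K, hK, hDK⟩ := Cfsg.Agent.S0005.result (G := H) (Nat.card C) (Nat.card (S : Subgroup H))
      (by rw [mul_comm]; exact hcard.symm) hcop.symm (D.map L.subtype) hDcop
    obtain ⟨g, hg⟩ := Cfsg.Agent.S0004.result (G := H) (Nat.card C) (Nat.card (S : Subgroup H))
      (by rw [mul_comm]; exact hcard.symm) hcop.symm C K rfl hK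
    have hKcomm : ∀ x ∈ K, ∀ y ∈ K, x * y = y * x := by
      rw [← hg]; exact comm_conj_smul hCcomm
    refine ⟨P, D, ⟨⟨?_⟩⟩, ?_⟩
    · rintro ⟨x, hx⟩ ⟨y, hy⟩
      apply Subtype.ext
      apply Subtype.ext
      exact hKcomm _ (hDK ⟨x, hx, rfl⟩) _ (hDK ⟨y, hy, rfl⟩)
    · apply Subgroup.isComplement'_of_coprime
      · rw [hD, hP]
      · rw [hD]; exact hcopP
  · intro N hN
    have hsurj : Function.Surjective (QuotientGroup.mk' N) := QuotientGroup.mk'_surjective N
    refine ⟨S.mapSurjective hsurj, C.map (QuotientGroup.mk' N), ⟨⟨?_⟩⟩, ?_⟩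
    · rintro ⟨_, x, hx, rfl⟩ ⟨_, y, hy, rfl⟩
      apply Subtype.ext
      show QuotientGroup.mk' N x * QuotientGroup.mk' N y = QuotientGroup.mk' N y * QuotientGroup.mk' N x
      rw [← map_mul, ← map_mul, hCcomm x hx y hy]
    · apply Subgroup.isComplement'_of_disjoint_and_mul_eq_univ
      · apply Subgroup.disjoint_of_coprime_natCard
        rw [Sylow.coe_mapSurjective]
        exact Nat.Coprime.of_dvd (Subgroup.card_map_dvd _ _) (Subgroup.card_map_dvd _ _) hcop
      · rw [Set.eq_univ_iff_forall]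
        intro x
        obtain ⟨g, rfl⟩ := hsurj x
        obtain ⟨a, ha, b, hb, rfl⟩ := hprod g
        exact ⟨QuotientGroup.mk' N a, ⟨a, ha, rfl⟩, QuotientGroup.mk' N b, ⟨b, hb, rfl⟩, (map_mul _ a b).symm⟩

end Cfsg.Agent.S3200
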