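import Cfsg.Statements.S3202
import Cfsg.Agent.H309.QuatQuot

set_option autoImplicit false
open Cfsg
open scoped commutatorElement

namespace Cfsg.Agent.S3202

/-- Let S be a finite 2-group of 2-rank exactly 2 and D a maximal subgroup of the centre of S such that S/D is a non-abelian group with exactly one involution (a generalized quaternion group). Then S has a nontrivial cyclic characteristic subgroup. -/
theorem result {S : Type*} [Group S]
    [Finite S] (hS : IsPGroup 2 S) (hr2 : Cfsg.PRankLE 2 2 S) (hr1 : ¬ Cfsg.PRankLE 2 1 S)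
    (D : Subgroup ↥(Subgroup.center S)) (hD : IsCoatom D)
    (hq : ∃ (_ : (D.map (Subgroup.center S).subtype).Normal),
      ¬ IsMulCommutative (S ⧸ D.map (Subgroup.center S).subtype) ∧
      ∃! x : S ⧸ D.map (Subgroup.center S).subtype, orderOf x = 2) :
    ∃ C : Subgroup S, C ≠ ⊥ ∧ IsCyclic ↥C ∧ C.Characteristic := by
  obtain ⟨hn, hna, hu⟩ := hq
  obtain ⟨m, f, hm, hf, hker⟩ := Cfsg.Agent.H309.exists_quaternion_hom hS _ hna hu
  have hle : f.ker ≤ Subgroup.center S := by
    rw [hker]; exact Subgroup.map_subtype_le D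
  refine ⟨commutator S, ?_, Cfsg.Agent.H309.commutator_cyclic_of_quaternion f hf hle, inferInstance⟩
  intro h
  apply hna
  refine ⟨⟨fun a b => ?_⟩⟩
  obtain ⟨x, rfl⟩ := QuotientGroup.mk_surjective a
  obtain ⟨y, rfl⟩ := QuotientGroup.mk_surjective b
  rw [← QuotientGroup.mk_mul, ← QuotientGroup.mk_mul]
  congr 1
  have h1 : ⁅x, y⁆ ∈ commutator S :=
    Subgroup.commutator_mem_commutator (Subgroup.mem_top x) (Subgroup.mem_top y)
  rw [h, Subgroup.mem_bot, commutatorElement_eq_one_iff_mul_comm] at h1
  exact h1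

end Cfsg.Agent.S3202
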