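import Cfsg.Statements.S3204
import Cfsg.Agent.H309.Ru.AbsE
import Cfsg.Agent.H309.Ru.Final

set_option autoImplicit false
open Cfsg

namespace Cfsg.Agent.S3204

/-- Let G be a finite group whose Sylow 2-subgroup T has order at least 2^14 with the fourth term of its upper central series of order 16; let W be the centralizer in T of the third term, and suppose the Frattini subgroup of W has order at most 8 and lies in every subgroup of W of index at most 16. Suppose G has no subgroup of index 2, and write W′ for the derived subgroup of W. Then the normalizer of W′ is the product of the normalizer of W with the largest normal odd-order subgroup of the normalizer of W′, and the normalizer N of W has N/(O(N)W) isomorphic to GL(3, 2). -/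
theorem result {G : Type*} [Group G] [Finite G]
    (T : Sylow 2 G) (ha : 2 ^ 14 ≤ Nat.card ↥(T : Subgroup G))
    (hb : Nat.card ↥(Subgroup.upperCentralSeries ↥(T : Subgroup G) 4) = 16)
    (W : Subgroup ↥(T : Subgroup G))
    (hW : W = Subgroup.centralizer ((Subgroup.upperCentralSeries ↥(T : Subgroup G) 3 : Subgroup ↥(T : Subgroup G)) : Set ↥(T : Subgroup G)))
    (hc : Nat.card ↥(frattini ↥W) ≤ 8)
    (hd : ∀ U : Subgroup ↥W, U.index ≤ 16 → frattini ↥W ≤ U)
    (h2 : ∀ H : Subgroup G, H.index ≠ 2)
    (WG D N M : Subgroup G) (hWG : WG = W.map (T : Subgroup G).subtype)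
    (hDW : D = ((commutator ↥W).map W.subtype).map (T : Subgroup G).subtype)
    (hN : N = Subgroup.normalizer (WG : Set G)) (hM : M = Subgroup.normalizer (D : Set G)) :
    (N.subgroupOf M ⊔ Cfsg.oddCore ↥M = ⊤) ∧
      ∃ (_ : (WG.subgroupOf N ⊔ Cfsg.oddCore ↥N).Normal),
        Nonempty (↥N ⧸ (WG.subgroupOf N ⊔ Cfsg.oddCore ↥N) ≃* GL (Fin 3) (ZMod 2)) := by
  obtain ⟨T1, T2, h, hcomm⟩ := Cfsg.Agent.H309.Ru.hyp_of (P := ↥(T : Subgroup G)) T.2 ha hb W hW hc hd
  have h' := h.map (T : Subgroup G).subtype (T : Subgroup G).subtype_injective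
  subst hWG
  rw [hcomm] at hDW
  subst hDW
  refine Cfsg.Agent.H309.Ru.final h' T ?_ h2 M N hM hN
  rw [← MonoidHom.range_eq_map, Subgroup.range_subtype]

end Cfsg.Agent.S3204
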