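import Cfsg.Statements.S3206
import Cfsg.Agent.TwoFusion.AbelianJanko
import Cfsg.Agent.S0215
import Cfsg.Agent.S0105
import Cfsg.Agent.H310.CoverEight
import Cfsg.Agent.H310.FixSylow

set_option autoImplicit false
open Cfsg

namespace Cfsg.Agent.S3206

open Cfsg.Agent.TwoFusion.AbelianJanko in
/-- The abelian Sylow 2-subgroup is elementary of order 8 with `N(S)` transitive on its involutions. -/
theorem exists_sylow {G : Type*} [Group G] [Finite G] [IsSimpleGroup G]
    (hG : ¬ IsMulCommutative G) (hab : ∀ S : Sylow 2 G, IsMulCommutative ↥(S : Subgroup G))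
    (t : G) (ht : orderOf t = 2)
    (E : Subgroup G) (hE : Cfsg.IsInternalDirectProduct (Subgroup.zpowers t) E (Subgroup.centralizer ({t} : Set G)))
    {F : Type*} [Field F] [Fintype F] (hFo : Odd (Fintype.card F))
    (N : Subgroup ↥E) [N.Normal] (hN : Nonempty (↥N ≃* Matrix.ProjectiveSpecialLinearGroup (Fin 2) F))
    (hNc : Subgroup.centralizer (N : Set ↥E) = ⊥) :
    ∃ S : Sylow 2 G, Nat.card (S : Subgroup G) = 8 ∧ (∀ x ∈ (S : Subgroup G), x * x = 1) ∧
      ∀ x ∈ (S : Subgroup G), ∀ y ∈ (S : Subgroup G), x ≠ 1 → y ≠ 1 →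
        ∃ n ∈ Subgroup.normalizer ((S : Subgroup G) : Set G), n * x * n⁻¹ = y := by
  have h2 : Fact (Nat.Prime 2) := ⟨Nat.prime_two⟩
  have htt : t * t = 1 := by
    have := pow_orderOf_eq_one t
    rwa [ht, pow_two] at this
  have ht1 : t ≠ 1 := by
    intro h
    rw [h, orderOf_one] at ht
    omega
  have hcomm : ∀ Q : Subgroup G, IsPGroup 2 Q → IsMulCommutative Q := by
    intro Q hQ
    obtain ⟨P, hP⟩ := hQ.exists_le_sylow
    refine ⟨⟨fun x y => Subtype.ext ?_⟩⟩
    have h1 : (⟨x, hP x.2⟩ : P) * ⟨y, hP y.2⟩ = ⟨y, hP y.2⟩ * ⟨x, hP x.2⟩ := (hab P).is_comm.comm _ _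
    have h2 : (x : G) * y = y * x := congrArg Subtype.val h1
    exact h2
  obtain ⟨-, hEC, hcom, hinf, hsup⟩ := hE
  have hEt : ∀ e ∈ E, t * e = e * t := fun e he => hcom t (Subgroup.mem_zpowers t) e he
  have htE : t ∉ E := by
    intro h
    have : t ∈ (Subgroup.zpowers t ⊓ E : Subgroup G) := ⟨Subgroup.mem_zpowers t, h⟩
    rw [hinf, Subgroup.mem_bot] at this
    exact ht1 this
  let E₀ : Subgroup G := N.map E.subtype
  have hE₀E : E₀ ≤ E := Subgroup.map_subtype_le _
  have hE₀ : Nonempty (E₀ ≃* Matrix.ProjectiveSpecialLinearGroup (Fin 2) F) := by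
    obtain ⟨e⟩ := hN
    exact ⟨(N.equivMapOfInjective _ E.subtype_injective).symm.trans e⟩
  have good : Cfsg.Agent.TwoFusion.PSLTwoGood.Good E₀ := by
    obtain ⟨e⟩ := hE₀
    obtain ⟨P⟩ : Nonempty (Sylow 2 (Matrix.ProjectiveSpecialLinearGroup (Fin 2) F)) := inferInstance
    refine Cfsg.Agent.TwoFusion.PSLTwoGood.Good.of_mulEquiv e
      (Cfsg.Agent.TwoFusion.PSLTwoGood.good_psl hFo P ?_)
    let f : Matrix.ProjectiveSpecialLinearGroup (Fin 2) F →* G := E₀.subtype.comp e.symm.toMonoidHom
    have hf : Function.Injective f := E₀.subtype_injective.comp e.symm.injective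
    have h3 := hcomm _ (P.isPGroup'.map f)
    refine ⟨⟨fun x y => Subtype.ext (hf ?_)⟩⟩
    change f ((x : Matrix.ProjectiveSpecialLinearGroup (Fin 2) F) * y) = f (y * x)
    rw [map_mul, map_mul]
    exact comm_of h3 ⟨x, x.2, rfl⟩ ⟨y, y.2, rfl⟩
  have S₁ : Setup t E E₀ :=
    { ht := ht
      hEC := hEt
      htE := htE
      dec := by
        intro x hx
        have hxC : x ∈ Subgroup.zpowers t ⊔ E := by
          rw [hsup]; exact Subgroup.mem_centralizer_singleton_iff.2 hx
        have hcl : Subgroup.zpowers t ⊔ E = Subgroup.closure ({t} ∪ (E : Set G)) := by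
          rw [Subgroup.closure_union, Subgroup.closure_eq, Subgroup.zpowers_eq_closure]
        rw [hcl] at hxC
        induction hxC using Subgroup.closure_induction with
        | mem y hy =>
          rcases hy with hy | hy
          · rw [Set.mem_singleton_iff] at hy
            right; rw [hy, htt]; exact E.one_mem
          · exact Or.inl hy
        | one => exact Or.inl E.one_mem
        | mul a b ha hb iha ihb =>
          have hac : a * t = t * a := by
            rw [← hcl, hsup] at ha
            exact Subgroup.mem_centralizer_singleton_iff.1 ha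
          have hbc : b * t = t * b := by
            rw [← hcl, hsup] at hb
            exact Subgroup.mem_centralizer_singleton_iff.1 hb
          rcases iha hac with h3 | h3 <;> rcases ihb hbc with h4 | h4
          · exact Or.inl (E.mul_mem h3 h4)
          · right
            rw [← mul_assoc, ← hac, mul_assoc]
            exact E.mul_mem h3 h4
          · right
            rw [← mul_assoc]
            exact E.mul_mem h3 h4
          · left
            have h5 : a * b = (t * a) * (t * b) := by
              rw [← hac, mul_assoc, ← mul_assoc t t b, htt, one_mul]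
            rw [h5]
            exact E.mul_mem h3 h4
        | inv a ha iha =>
          have hac : a * t = t * a := by
            rw [← hcl, hsup] at ha
            exact Subgroup.mem_centralizer_singleton_iff.1 ha
          rcases iha hac with h3 | h3
          · exact Or.inl (E.inv_mem h3)
          · right
            have h4 := E.inv_mem h3
            rw [← hac, mul_inv_rev, inv_eq_of_mul_eq_one_left htt] at h4
            exact h4
      hle := hE₀E
      hn := by
        rintro c hc _ ⟨x, hx, rfl⟩
        exact ⟨⟨c, hc⟩ * x * ⟨c, hc⟩⁻¹, (inferInstance : N.Normal).conj_mem x hx ⟨c, hc⟩, rfl⟩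
      good := good
      hCE := by
        intro x hx hxy
        have h3 : (⟨x, hx⟩ : E) ∈ Subgroup.centralizer (N : Set ↥E) := by
          rw [Subgroup.mem_centralizer_iff]
          intro y hy
          apply Subtype.ext
          exact (hxy y ⟨y, hy, rfl⟩).symm
        rw [hNc, Subgroup.mem_bot] at h3
        exact congrArg Subtype.val h3
      hcomm := hcomm
      zs := fun Γ _ _ P w hw hwP hiso => Cfsg.Agent.S0215.result P w hw hwP hiso }
  obtain ⟨V, hV1, hV2, hV3, P, hP⟩ := S₁.exists_V
  have S₂ : Setup' t E E₀ V P := { S₁ with hVE₀ := hV1, hV := hV2, hVtr := hV3, hP := hP }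
  have hPc : IsMulCommutative (P : Subgroup G) := hcomm _ P.isPGroup'
  -- one class of involutions
  have hconj : ∀ x ∈ P, x ≠ 1 → ∃ g : G, g * t * g⁻¹ = x := by
    rcases S₂.dichotomy ⊤ le_top with h3 | ⟨h3, -⟩
    · exfalso
      obtain ⟨N, hN, ⟨e⟩⟩ := Cfsg.Agent.S0105.result P hPc
      have htD : t ∈ ((P : Subgroup G) ⊓ Subgroup.centralizer
          (Subgroup.normalizer (P : Set G) : Set G) : Subgroup G) := by
        refine ⟨S₂.t_mem, Subgroup.mem_centralizer_iff.2 fun n hn => ?_⟩
        have := h3 n (Subgroup.mem_top n) hn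
        rwa [mul_inv_eq_iff_eq_mul] at this
      rcases hN.eq_bot_or_eq_top with h4 | h4
      · apply hG
        refine ⟨⟨fun x y => ?_⟩⟩
        have h5 : ((x * y : G) : G ⧸ N) = ((y * x : G) : G ⧸ N) := by
          apply e.injective
          have : ((x * y : G) : G ⧸ N) = (x : G ⧸ N) * (y : G ⧸ N) := rfl
          rw [this]
          have : ((y * x : G) : G ⧸ N) = (y : G ⧸ N) * (x : G ⧸ N) := rfl
          rw [this, map_mul, map_mul]
          apply Subtype.ext
          exact comm_of hPc (e _).2.1 (e _).2.1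
        rw [QuotientGroup.eq, h4, Subgroup.mem_bot, inv_mul_eq_one] at h5
        exact h5
      · have h5 : Subsingleton (G ⧸ N) := by
          rw [h4]; exact QuotientGroup.subsingleton_quotient_top
        have h6 : (⟨t, htD⟩ : ((P : Subgroup G) ⊓ Subgroup.centralizer
          (Subgroup.normalizer (P : Set G) : Set G) : Subgroup G)) = 1 := by
          apply e.symm.injective
          exact Subsingleton.elim _ _
        exact ht1 (congrArg Subtype.val h6)
    · intro x hx hx1
      obtain ⟨g, -, hg⟩ := h3 x hx hx1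
      exact ⟨g, hg⟩
  refine ⟨P, S₂.card_P, ?_, ?_⟩
  · intro x hx
    by_cases hx1 : x = 1
    · rw [hx1, one_mul]
    · obtain ⟨g, rfl⟩ := hconj x hx hx1
      calc g * t * g⁻¹ * (g * t * g⁻¹) = g * (t * t) * g⁻¹ := by group
        _ = 1 := by rw [htt]; group
  · intro x hx y hy hx1 hy1
    obtain ⟨g, hg⟩ := hconj x hx hx1
    obtain ⟨h, hh⟩ := hconj y hy hy1
    have h3 : (g * h⁻¹)⁻¹ * x * (g * h⁻¹) = y := by rw [← hg, ← hh]; group
    obtain ⟨n, hn, hn'⟩ := Sylow.conj_eq_normalizer_conj_of_mem P x (g * h⁻¹) hx (by rw [h3]; exact hy)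
    refine ⟨n⁻¹, inv_mem hn, ?_⟩
    rw [inv_inv, ← hn', h3]

/-- Let G be a non-abelian finite simple group with abelian Sylow 2-subgroups, and let t be an involution of G whose centralizer is a maximal subgroup of G and is the direct product of the subgroup generated by t with a subgroup E having a normal subgroup isomorphic to PSL(2, q), q odd and greater than 3, with trivial centralizer in E. Then every finite perfect group having a central 2-subgroup with quotient isomorphic to G has that central subgroup trivial (G has no nontrivial perfect central extension by a 2-group), and every automorphism of G of 2-power order that fixes every element of some Sylow 2-subgroup of G is inner. -/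
theorem result {G : Type*} [Group G] [Finite G] [IsSimpleGroup G]
    (hG : ¬ IsMulCommutative G) (hab : ∀ S : Sylow 2 G, IsMulCommutative ↥(S : Subgroup G))
    (t : G) (ht : orderOf t = 2) (hmax : IsCoatom (Subgroup.centralizer ({t} : Set G)))
    (E : Subgroup G) (hE : Cfsg.IsInternalDirectProduct (Subgroup.zpowers t) E (Subgroup.centralizer ({t} : Set G)))
    {F : Type*} [Field F] [Fintype F] (hFo : Odd (Fintype.card F)) (hF3 : 3 < Fintype.card F)
    (N : Subgroup ↥E) [N.Normal] (hN : Nonempty (↥N ≃* Matrix.ProjectiveSpecialLinearGroup (Fin 2) F))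
    (hNc : Subgroup.centralizer (N : Set ↥E) = ⊥) :
    (∀ (L : Type) (_ : Group L) (_ : Finite L) (Z : Subgroup L) (_ : Z.Normal), commutator L = ⊤ → Z ≤ Subgroup.center L →
        IsPGroup 2 ↥Z → Nonempty (L ⧸ Z ≃* G) → Z = ⊥) ∧
    (∀ (φ : G ≃* G) (k : ℕ), φ ^ (2 ^ k) = 1 → (∃ S : Sylow 2 G, ∀ s ∈ (S : Subgroup G), φ s = s) →
        ∃ g : G, ∀ x : G, φ x = g * x * g⁻¹) := by
  constructor
  · intro L _ _ Z _ hL hZc hZ2 ⟨e⟩
    obtain ⟨S, hS8, hS2, htr⟩ := exists_sylow hG hab t ht E hE hFo N hN hNc
    let σ : L →* G := e.toMonoidHom.comp (QuotientGroup.mk' Z)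
    have hker : σ.ker = Z := by
      ext x
      rw [MonoidHom.mem_ker]
      change e (QuotientGroup.mk' Z x) = 1 ↔ x ∈ Z
      rw [map_eq_one_iff e e.injective, QuotientGroup.mk'_apply, QuotientGroup.eq_one_iff]
    have hσ : Function.Surjective σ := e.surjective.comp (QuotientGroup.mk'_surjective Z)
    rw [← hker]
    exact Cfsg.Agent.H310.CoverEight.ker_eq_bot σ hσ (by rw [hker]; exact hZc) (by rw [hker]; exact hZ2)
      hL S hS8 hS2 htr
  · rintro φ k hφ ⟨S, hS⟩
    have hcen : Subgroup.center G = ⊥ := by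
      rcases (inferInstance : (Subgroup.center G).Normal).eq_bot_or_eq_top with h | h
      · exact h
      · exfalso
        apply hG
        refine ⟨⟨fun x y => ?_⟩⟩
        have : y ∈ Subgroup.center G := by rw [h]; exact Subgroup.mem_top y
        exact Subgroup.mem_center_iff.1 this x
    refine Cfsg.Agent.H310.FixSylow.inner_of_fix
      (fun Γ _ _ P w hw hwP hiso => Cfsg.Agent.S0215.result P w hw hwP hiso) hcen ?_ S ?_ φ k hφ hS
    · intro X hX hodd
      rcases hX.eq_bot_or_eq_top with h | h
      · exact h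
      · exfalso
        rw [h, Subgroup.card_top] at hodd
        have h3 : 2 ∣ Nat.card G := by rw [← ht]; exact orderOf_dvd_natCard t
        exact (Nat.not_even_iff_odd.2 hodd) (even_iff_two_dvd.2 h3)
    · intro a ha b hb
      exact congrArg Subtype.val ((hab S).is_comm.comm ⟨a, ha⟩ ⟨b, hb⟩)

end Cfsg.Agent.S3206
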