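import Cfsg.Statements.S3208
import Mathlib.GroupTheory.Sylow
import Mathlib.Tactic

set_option autoImplicit false
open Cfsg

namespace Cfsg.Agent.S3208

/-- Let j be an involution of a finite group G, H a subgroup of G, and T a Sylow 2-subgroup of H ∩ C_G(j) containing j such that ⟨j⟩ is a characteristic subgroup of T. Then T is a Sylow 2-subgroup of H. -/
theorem result {G : Type*} [Group G] [Finite G]
    (j : G) (hj : orderOf j = 2) (H T : Subgroup G) (hT : T ≤ H ⊓ Subgroup.centralizer ({j} : Set G)) (h2 : IsPGroup 2 ↥T)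
    (hSyl : ¬ 2 ∣ T.relIndex (H ⊓ Subgroup.centralizer ({j} : Set G))) (hjT : j ∈ T)
    (hchar : ((Subgroup.zpowers j).subgroupOf T).Characteristic) :
    ¬ 2 ∣ T.relIndex H := by
  classical
  intro hdvd
  apply hSyl
  have hTH : T ≤ H := hT.trans inf_le_left
  -- elements normalizing `T` centralize `j`
  have hcent : ∀ x : G, (∀ t : G, t ∈ T ↔ x * t * x⁻¹ ∈ T) → x ∈ Subgroup.centralizer ({j} : Set G) := by
    intro x hx
    let φ : ↥T ≃* ↥T :=
      { toFun := fun t => ⟨x * t * x⁻¹, (hx t).1 t.2⟩
        invFun := fun t => ⟨x⁻¹ * t * x, (hx _).2 (by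
          have : x * (x⁻¹ * (t : G) * x) * x⁻¹ = t := by group
          rw [this]; exact t.2)⟩
        left_inv := fun t => by ext; simp [mul_assoc]
        right_inv := fun t => by ext; simp [mul_assoc]
        map_mul' := fun s t => by ext; simp [mul_assoc] }
    have h1 := hchar.fixed φ
    have hjm : (⟨j, hjT⟩ : ↥T) ∈ (Subgroup.zpowers j).subgroupOf T := by
      rw [Subgroup.mem_subgroupOf]; exact Subgroup.mem_zpowers j
    rw [← h1] at hjm
    rw [Subgroup.mem_comap, Subgroup.mem_subgroupOf] at hjm
    have h3 : x * j * x⁻¹ ∈ Subgroup.zpowers j := hjm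
    rw [Subgroup.mem_centralizer_singleton_iff]
    rw [Subgroup.mem_zpowers_iff] at h3
    obtain ⟨k, hk⟩ := h3
    have hjj : j * j = 1 := by
      have := pow_orderOf_eq_one j
      rw [hj, pow_two] at this
      exact this
    have hne : j ≠ 1 := by
      intro h
      rw [h, orderOf_one] at hj
      exact absurd hj (by norm_num)
    rcases Int.even_or_odd' k with ⟨m, hm | hm⟩
    · exfalso
      apply hne
      have : j ^ k = 1 := by
        rw [hm, zpow_mul, zpow_two, hjj, one_zpow]
      rw [this] at hk
      have h4 : x * j = x := by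
        have := congrArg (· * x) hk
        simpa [mul_assoc] using this.symm
      simpa using h4
    · have : j ^ k = j := by
        rw [hm, zpow_add, zpow_mul, zpow_two, hjj, one_zpow, one_mul, zpow_one]
      rw [this] at hk
      have h4 : j * x = x * j := by
        have := congrArg (· * x) hk
        simpa [mul_assoc] using this
      exact h4.symm
  have : Fact (Nat.Prime 2) := ⟨Nat.prime_two⟩
  obtain ⟨n, hn⟩ := IsPGroup.iff_card.mp h2
  have hcard' : Nat.card ↥(T.subgroupOf H) = 2 ^ n := by
    rw [← hn]; exact Nat.card_congr (Subgroup.subgroupOfEquivOfLe hTH).toEquiv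
  have hdvd' : 2 ^ (n + 1) ∣ Nat.card ↥H := by
    have h5 := Subgroup.card_mul_index (T.subgroupOf H)
    rw [← h5, hcard', pow_succ]
    exact Nat.mul_dvd_mul_left _ hdvd
  have h6 := Sylow.prime_dvd_card_quotient_normalizer hdvd' hcard'
  -- the normalizer in `H`
  set N : Subgroup ↥H := Subgroup.normalizer (T.subgroupOf H : Set ↥H) with hN
  have h7 : 2 ∣ (T.subgroupOf H).relIndex N := h6
  have hNle : N.map H.subtype ≤ H ⊓ Subgroup.centralizer ({j} : Set G) := by
    rintro y ⟨x, hx, rfl⟩
    refine ⟨x.2, hcent _ fun t => ?_⟩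
    have hx' := fun t => Subgroup.mem_normalizer_iff.mp hx t
    constructor
    · intro ht
      have := (hx' ⟨t, hTH ht⟩).1 (by rw [Subgroup.mem_subgroupOf]; exact ht)
      rw [Subgroup.mem_subgroupOf] at this
      exact this
    · intro ht
      have htH : t ∈ H := by
        have h8 : (x : G) * t * (x : G)⁻¹ ∈ H := hTH ht
        have h9 := H.mul_mem (H.mul_mem (H.inv_mem x.2) h8) x.2
        have h10 : (x : G)⁻¹ * ((x : G) * t * (x : G)⁻¹) * x = t := by group
        rwa [h10] at h9
      have := (hx' ⟨t, htH⟩).2 (by rw [Subgroup.mem_subgroupOf]; exact ht)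
      rw [Subgroup.mem_subgroupOf] at this
      exact this
  have h11 : (T.subgroupOf H).relIndex N = T.relIndex (N.map H.subtype) := by
    have h12 := Subgroup.relIndex_map_map_of_injective (T.subgroupOf H) N (f := H.subtype) H.subtype_injective
    rw [← h12, Subgroup.subgroupOf_map_subtype, inf_eq_left.mpr hTH]
  rw [h11] at h7
  have hTN : T ≤ N.map H.subtype := by
    intro t ht
    refine ⟨⟨t, hTH ht⟩, ?_, rfl⟩
    exact Subgroup.le_normalizer (by rw [Subgroup.mem_subgroupOf]; exact ht)
  exact h7.trans (Dvd.intro _ (Subgroup.relIndex_mul_relIndex T (N.map H.subtype) _ hTN hNle))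

end Cfsg.Agent.S3208
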