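import Cfsg.Statements.S3209
import Cfsg.Agent.H311.Duo

set_option autoImplicit false
open Cfsg

namespace Cfsg.Agent.S3209

/-- Let L₁ ≅ SL₂(q₁) and L₂ ≅ SL₂(q₂), q₁ and q₂ odd, be elementwise-commuting subgroups of a finite group meeting in ⟨j⟩ for an involution j. Then L₁L₂ has exactly two conjugacy classes of involutions: the central involution j, and one further class (there is an involution x ≠ j in L₁L₂, and every involution of L₁L₂ other than j is conjugate to x by an element of L₁L₂). -/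
theorem result {G : Type*} [Group G] [Finite G]
    {F₁ : Type*} [Field F₁] [Fintype F₁] {F₂ : Type*} [Field F₂] [Fintype F₂]
    (hF₁ : Odd (Fintype.card F₁)) (hF₂ : Odd (Fintype.card F₂)) (L₁ L₂ : Subgroup G)
    (e₁ : ↥L₁ ≃* Matrix.SpecialLinearGroup (Fin 2) F₁) (e₂ : ↥L₂ ≃* Matrix.SpecialLinearGroup (Fin 2) F₂)
    (hc : ∀ x ∈ L₁, ∀ y ∈ L₂, x * y = y * x) (j : G) (hj : orderOf j = 2) (hm : L₁ ⊓ L₂ = Subgroup.zpowers j) :
    ∃ x ∈ L₁ ⊔ L₂, orderOf x = 2 ∧ x ≠ j ∧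
      ∀ y ∈ L₁ ⊔ L₂, orderOf y = 2 → y = j ∨ ∃ g ∈ L₁ ⊔ L₂, g * x * g⁻¹ = y := by
  have h1 := Cfsg.Agent.ClassicalGeometry.SLTwoFour.two_ne_zero_of_odd (F := F₁) hF₁
  have h2 := Cfsg.Agent.ClassicalGeometry.SLTwoFour.two_ne_zero_of_odd (F := F₂) hF₂
  set D := Cfsg.Agent.H311.mkDuo h1 h2 L₁ L₂ e₁ e₂ hc j hj hm with hD
  have hY : D.Y = L₁ ⊔ L₂ := Cfsg.Agent.H311.Y_mkDuo h1 h2 L₁ L₂ e₁ e₂ hc j hj hm
  rw [← hY]
  have hw1 := Cfsg.Agent.ClassicalGeometry.SLTwoFour.w_mul_self (F := F₁)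
  have hw2 := Cfsg.Agent.ClassicalGeometry.SLTwoFour.w_mul_self (F := F₂)
  have n1 := Cfsg.Agent.ClassicalGeometry.SLTwoFour.neg_one_ne_one h1
  have n2 := Cfsg.Agent.ClassicalGeometry.SLTwoFour.neg_one_ne_one h2
  refine ⟨_, ⟨Cfsg.Agent.ClassicalGeometry.SLTwoFour.w, Cfsg.Agent.ClassicalGeometry.SLTwoFour.w, rfl⟩, ?_, ?_, ?_⟩
  · apply orderOf_eq_prime
    · rw [pow_two, D.mul_mul, hw1, hw2, D.neg1, D.neg2]
      exact D.jj
    · intro h
      rcases D.mul_eq_one h with ⟨h3, -⟩ | ⟨h3, -⟩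
      · rw [h3, one_mul] at hw1
        exact n1 hw1.symm
      · rw [h3, neg_mul_neg, one_mul] at hw1
        exact n1 hw1.symm
  · intro h
    rcases D.mul_eq_j h with ⟨h3, -⟩ | ⟨h3, -⟩
    · rw [h3, neg_mul_neg, one_mul] at hw1
      exact n1 hw1.symm
    · rw [h3, one_mul] at hw1
      exact n1 hw1.symm
  · rintro _ ⟨a, b, rfl⟩ hy
    have hyy : (D.e1 a * D.e2 b) * (D.e1 a * D.e2 b) = 1 := by
      have h5 := pow_orderOf_eq_one (D.e1 a * D.e2 b)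
      rwa [hy, pow_two] at h5
    rcases D.sq_eq_one h1 h2 hyy with h3 | h3 | ⟨h3, h4⟩
    · rw [h3, orderOf_one] at hy
      omega
    · exact Or.inl h3
    · exact Or.inr (D.conj_of_sq hF₁ hF₂ hw1 h3 hw2 h4)

end Cfsg.Agent.S3209
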