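import Cfsg.Statements.S3213
import Cfsg.Agent.H311.SpFourThree
import Cfsg.Agent.H311.SLTwoFive

set_option autoImplicit false
open Cfsg

namespace Cfsg.Agent.S3213

/-- Let F be the field with 3 elements and K the field with 5 elements. For every injective homomorphism φ from SL₂(K) into the symplectic group Sp₄(F) (4 × 4 matrices g with g J gᵀ = J for the standard alternating matrix J) and every element x of order 3 of SL₂(K), the vectors of F⁴ fixed by φ(x) form a 2-dimensional subspace that is totally isotropic for the alternating form defined by J. -/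
theorem result {F : Type*} [Field F] [Fintype F] (hF : Fintype.card F = 3)
    {K : Type*} [Field K] [Fintype K] (hK : Fintype.card K = 5)
    (φ : Matrix.SpecialLinearGroup (Fin 2) K →* ↥(Matrix.symplecticGroup (Fin 2) F)) (hφ : Function.Injective φ)
    (x : Matrix.SpecialLinearGroup (Fin 2) K) (hx : orderOf x = 3) :
    Module.finrank F ↥(LinearMap.ker (Matrix.toLin' ((φ x : Matrix (Fin 2 ⊕ Fin 2) (Fin 2 ⊕ Fin 2) F)) - LinearMap.id)) = 2 ∧
      ∀ v w : Fin 2 ⊕ Fin 2 → F, (φ x : Matrix (Fin 2 ⊕ Fin 2) (Fin 2 ⊕ Fin 2) F).mulVec v = v →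
        (φ x : Matrix (Fin 2 ⊕ Fin 2) (Fin 2 ⊕ Fin 2) F).mulVec w = w →
          dotProduct v ((Matrix.J (Fin 2) F).mulVec w) = 0 := by
  classical
  have h3 : (3 : F) = 0 := by
    have := FiniteField.cast_card_eq_zero F
    rw [hF] at this
    exact_mod_cast this
  have h5 : (5 : K) = 0 := by
    have := FiniteField.cast_card_eq_zero K
    rw [hK] at this
    exact_mod_cast this
  have h2 : (2 : F) ≠ 0 := by
    intro h
    have h1 : (1 : F) = 0 := by linear_combination h3 - h
    exact one_ne_zero h1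
  -- the representation
  let ρ : Matrix.SpecialLinearGroup (Fin 2) K →* Module.End F (Fin 2 ⊕ Fin 2 → F) :=
    { toFun := fun g => Matrix.toLin' ((φ g : Matrix (Fin 2 ⊕ Fin 2) (Fin 2 ⊕ Fin 2) F))
      map_one' := by
        rw [map_one]
        exact Matrix.toLin'_one
      map_mul' := by
        intro a b
        rw [map_mul]
        exact Matrix.toLin'_mul _ _ }
  have hρ : ∀ g v, ρ g v = ((φ g : Matrix (Fin 2 ⊕ Fin 2) (Fin 2 ⊕ Fin 2) F)).mulVec v := fun g v => rfl
  have hρinj : ∀ g, ρ g = 1 → g = 1 := by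
    intro g hg
    apply hφ
    apply Subtype.ext
    rw [map_one]
    apply Matrix.toLin'.injective
    change ρ g = _
    rw [hg]
    exact Matrix.toLin'_one.symm
  -- the form
  let B : (Fin 2 ⊕ Fin 2 → F) →ₗ[F] (Fin 2 ⊕ Fin 2 → F) →ₗ[F] F := Matrix.toLinearMap₂' F (Matrix.J (Fin 2) F)
  have hBdef : ∀ v w, B v w = dotProduct v ((Matrix.J (Fin 2) F).mulVec w) := fun v w =>
    Matrix.toLinearMap₂'_apply' _ _ _
  have hB : ∀ v, B v v = 0 := by
    intro v
    rw [hBdef]
    simp [Matrix.J, Matrix.mulVec, dotProduct, Fin.sum_univ_two, Matrix.fromBlocks]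
    ring
  have hnd : ∀ v, (∀ w, B w v = 0) → v = 0 := by
    intro v hv
    have h1 : (Matrix.J (Fin 2) F).mulVec v = 0 := by
      funext i
      have := hv (Pi.single i 1)
      rw [hBdef, single_dotProduct, one_mul] at this
      exact this
    have h2' : (Matrix.J (Fin 2) F).mulVec ((Matrix.J (Fin 2) F).mulVec v) = - v := by
      rw [Matrix.mulVec_mulVec, Matrix.J_squared, Matrix.neg_mulVec, Matrix.one_mulVec]
    rw [h1, Matrix.mulVec_zero] at h2'
    exact neg_eq_zero.1 h2'.symm
  have hpres : ∀ g v w, B (ρ g v) (ρ g w) = B v w := by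
    intro g v w
    rw [hBdef, hBdef, hρ, hρ, Matrix.mulVec_mulVec]
    have h1 := (SymplecticGroup.mem_iff').1 (φ g).2
    rw [Matrix.dotProduct_mulVec, Matrix.vecMul_mulVec, ← Matrix.dotProduct_mulVec, ← Matrix.mul_assoc, h1]
  have hx3 : x ^ 3 = 1 := by rw [← hx]; exact pow_orderOf_eq_one x
  set N : Module.End F (Fin 2 ⊕ Fin 2 → F) := ρ x - 1 with hNdef
  have hV : Module.finrank F (Fin 2 ⊕ Fin 2 → F) = 4 := by
    rw [Module.finrank_pi]
    rfl
  have hiso : ∀ v w, B (v + N v) (w + N w) = B v w := by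
    intro v w
    have e : ∀ v, v + N v = ρ x v := by
      intro v
      rw [hNdef, LinearMap.sub_apply, Module.End.one_apply, add_sub_cancel]
    rw [e, e]
    exact hpres x v w
  have hN3 : ∀ v, N (N (N v)) = 0 := by
    intro v
    have h3' : (3 : Module.End F (Fin 2 ⊕ Fin 2 → F)) = 0 := by
      rw [← map_ofNat (algebraMap F (Module.End F (Fin 2 ⊕ Fin 2 → F))) 3]
      rw [show (OfNat.ofNat 3 : F) = 0 from h3, map_zero]
    have e : N * N * N = 0 := by
      rw [hNdef, Cfsg.Agent.H311.SpFourThree.cube_eq h3', ← map_pow, hx3, map_one, sub_self]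
    exact congrArg (fun X : Module.End F (Fin 2 ⊕ Fin 2 → F) => X v) e
  have hN2 : ∀ v, N (N v) = 0 :=
    Cfsg.Agent.H311.SpFourThree.sq_eq_zero h2 hV B hB hnd N hN3 hiso
  have hr : 2 ≤ Module.finrank F (LinearMap.range N) := by
    by_contra hcon
    obtain ⟨s, hs5, hs1⟩ := Cfsg.Agent.H311.SLTwoFive.exists_five h5 x hx
    have h4 := Cfsg.Agent.H311.SpFourThree.rank_le ρ x s (by
      have h6 : Module.finrank F (LinearMap.range (ρ x - 1)) = Module.finrank F (LinearMap.range N) := rfl
      rw [h6]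
      omega)
    apply hs1
    apply hρinj
    exact Cfsg.Agent.H311.SpFourThree.eq_one_of_rank hF _ (by rw [← map_pow, hs5, map_one]) h4
  obtain ⟨hfin, hiso2⟩ := Cfsg.Agent.H311.SpFourThree.concl hV B N hN2 hiso hr
  refine ⟨hfin, fun v w hv hw => ?_⟩
  rw [← hBdef]
  apply hiso2
  · rw [hNdef, LinearMap.sub_apply, Module.End.one_apply, sub_eq_zero]
    exact hv
  · rw [hNdef, LinearMap.sub_apply, Module.End.one_apply, sub_eq_zero]
    exact hw

end Cfsg.Agent.S3213
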