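import Cfsg.Statements.S3215
import Cfsg.Agent.Transfer.NormalPComplement
import Cfsg.Agent.Transfer.PGroupNormal
import Cfsg.Agent.Lib.Cores
import Cfsg.Agent.S0040
import Cfsg.Agent.S0044
import Cfsg.Agent.Classification.LocalCore
import Cfsg.Agent.SignalizersComponents.CoprimeBasic
import Cfsg.Agent.Lib.GenFitting
import Cfsg.Agent.Characters.CNBasic

set_option autoImplicit false
set_option linter.style.haveILetI false
open Cfsg

namespace Cfsg.Agent.S3215

open Subgroup
open Cfsg.Agent.Lib.Cores (le_pCore pCore_normal pCore_isPGroup le_pPrimeCore pPrimeCore_coprime)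

/-- an element whose order is odd and a power of two is trivial -/
theorem eq_one_of_odd_two {C : Type*} [Group C] {y : C} {n : ℕ} (hn : Odd n) (h1 : y ^ n = 1) {k : ℕ}
    (h2 : y ^ (2 ^ k) = 1) : y = 1 := by
  have hc : Nat.Coprime n (2 ^ k) := Nat.Coprime.pow_right _ (Nat.coprime_two_right.2 hn)
  have := Nat.dvd_gcd (orderOf_dvd_of_pow_eq_one h1) (orderOf_dvd_of_pow_eq_one h2)
  rw [hc] at this
  exact orderOf_eq_one_iff.1 (Nat.dvd_one.1 this)

/-- In a group with a normal 2-complement: if `x` has odd order and `[v, x]` is a 2-element then `[v, x] = 1`. -/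
theorem comm_of_npc {C : Type*} [Group C] [Finite C] (h : HasNormalPComplement 2 C) {x v : C}
    (hx : Odd (orderOf x)) {k : ℕ} (hv : (v * x * v⁻¹ * x⁻¹) ^ (2 ^ k) = 1) : v * x * v⁻¹ * x⁻¹ = 1 := by
  obtain ⟨N, hN, hc, hp⟩ := Transfer.NormalPComplement.hasNormalPComplement_iff.1 h
  have hxN : x ∈ N := by
    obtain ⟨j, hj⟩ := hp (QuotientGroup.mk x)
    have h1 : (QuotientGroup.mk x : C ⧸ N) ^ (orderOf x) = 1 := by
      rw [← QuotientGroup.mk_pow, pow_orderOf_eq_one, QuotientGroup.mk_one]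
    exact (QuotientGroup.eq_one_iff x).1 (eq_one_of_odd_two hx h1 hj)
  have hmem : v * x * v⁻¹ * x⁻¹ ∈ N := N.mul_mem (hN.conj_mem x hxN v) (N.inv_mem hxN)
  have h1 : (v * x * v⁻¹ * x⁻¹) ^ (Nat.card N) = 1 := by
    have := pow_card_eq_one' (x := (⟨_, hmem⟩ : N))
    exact congrArg Subtype.val this
  exact eq_one_of_odd_two (Nat.coprime_two_right.1 hc) h1 hv

section Main

variable {H : Type*} [Group H] [Finite H]

/-- `x` of odd order commuting with the involution `t` and normalizing the 2-group `Q` centralizes `C_Q(t)`. -/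
theorem comm_fix (hI : ∀ t : H, orderOf t = 2 → Cfsg.HasNormalPComplement 2 ↥(Subgroup.centralizer ({t} : Set H)))
    {t x : H} (ht : orderOf t = 2) (hx : Odd (orderOf x)) (hxt : x * t = t * x) {Q : Subgroup H}
    (hQ : IsPGroup 2 Q) (hn : ∀ q ∈ Q, x * q * x⁻¹ ∈ Q) {q : H} (hq : q ∈ Q) (hqt : q * t = t * q) :
    q * x = x * q := by
  have h1 := hI t ht
  have hxc : x ∈ Subgroup.centralizer ({t} : Set H) := by
    rw [Subgroup.mem_centralizer_singleton_iff]; exact hxt
  have hqc : q ∈ Subgroup.centralizer ({t} : Set H) := by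
    rw [Subgroup.mem_centralizer_singleton_iff]; exact hqt
  have hmem : q * x * q⁻¹ * x⁻¹ ∈ Q := by
    have : q * x * q⁻¹ * x⁻¹ = q * (x * q⁻¹ * x⁻¹) := by group
    rw [this]
    exact Q.mul_mem hq (hn _ (Q.inv_mem hq))
  obtain ⟨k, hk⟩ := hQ ⟨_, hmem⟩
  have hk' : (q * x * q⁻¹ * x⁻¹) ^ (2 ^ k) = 1 := congrArg Subtype.val hk
  have hxo : Odd (orderOf (⟨x, hxc⟩ : ↥(Subgroup.centralizer ({t} : Set H)))) := by
    rwa [Subgroup.orderOf_mk]
  have := comm_of_npc h1 (x := ⟨x, hxc⟩) (v := ⟨q, hqc⟩) hxo (k := k) (by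
    apply Subtype.ext
    simpa using hk')
  have h2 : q * x * q⁻¹ * x⁻¹ = 1 := congrArg Subtype.val this
  calc q * x = (q * x * q⁻¹ * x⁻¹) * (x * q) := by group
    _ = x * q := by rw [h2, one_mul]

/-- a nontrivial 2-group contains an involution in its centre -/
theorem exists_central_involution {Y : Subgroup H} (hY : IsPGroup 2 Y) (h1 : Y ≠ ⊥) :
    ∃ z ∈ Y, orderOf z = 2 ∧ ∀ y ∈ Y, y * z = z * y := by
  haveI : Nontrivial Y := (Subgroup.nontrivial_iff_ne_bot Y).2 h1
  haveI : Nontrivial (Subgroup.center Y) := hY.center_nontrivial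
  have hcp : IsPGroup 2 (Subgroup.center Y) := hY.to_subgroup _
  have hdvd : 2 ∣ Nat.card (Subgroup.center Y) := by
    obtain ⟨n, hn⟩ := IsPGroup.iff_card.1 hcp
    rw [hn]
    refine dvd_pow_self 2 ?_
    rintro rfl
    have : 1 < Nat.card (Subgroup.center Y) := Finite.one_lt_card
    omega
  obtain ⟨z, hz⟩ := exists_prime_orderOf_dvd_card' 2 hdvd
  refine ⟨((z : Y) : H), (z : Y).2, ?_, ?_⟩
  · rw [Subgroup.orderOf_coe, Subgroup.orderOf_coe, hz]
  · intro y hy
    have := Subgroup.mem_center_iff.1 z.2 ⟨y, hy⟩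
    exact congrArg Subtype.val this

theorem exists_involution_of_two_elt {y : H} {k : ℕ} (hy : y ^ (2 ^ k) = 1) (h1 : y ≠ 1) :
    ∃ n : ℕ, orderOf (y ^ n) = 2 := by
  have h2 : 2 ∣ orderOf y := by
    obtain ⟨j, hj, hj'⟩ := (Nat.dvd_prime_pow Nat.prime_two).1 (orderOf_dvd_of_pow_eq_one hy)
    rw [hj']
    refine dvd_pow_self 2 ?_
    rintro rfl
    exact h1 (orderOf_eq_one_iff.1 (by simpa using hj'))
  refine ⟨orderOf y / 2, ?_⟩
  rw [orderOf_pow_of_dvd (Nat.div_pos (Nat.le_of_dvd (orderOf_pos y) h2) two_pos).ne' (Nat.div_dvd_of_dvd h2)]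
  exact Nat.div_div_self h2 (orderOf_pos y).ne'

/-- **Nontrivial elements of odd order act fixed-point-freely on `O₂(H)`.** -/
theorem fpf (hsol : Group.IsSolvable H) (hO : Cfsg.oddCore H = ⊥)
    (hI : ∀ t : H, orderOf t = 2 → Cfsg.HasNormalPComplement 2 ↥(Subgroup.centralizer ({t} : Set H)))
    {x y : H} (hx : Odd (orderOf x)) (hx1 : x ≠ 1) (hy : y ∈ pCore 2 H) (hy1 : y ≠ 1) : x * y ≠ y * x := by
  intro hxy
  haveI := hsol
  have hP : IsPGroup 2 (pCore 2 H) := pCore_isPGroup 2
  haveI := pCore_normal (G := H) 2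
  have hn : ∀ q ∈ pCore 2 H, x * q * x⁻¹ ∈ pCore 2 H := fun q hq => (pCore_normal (G := H) 2).conj_mem q hq x
  obtain ⟨k, hk⟩ := hP ⟨y, hy⟩
  have hk' : y ^ (2 ^ k) = 1 := congrArg Subtype.val hk
  obtain ⟨n, hn2⟩ := exists_involution_of_two_elt hk' hy1
  set t := y ^ n with htdef
  have htx : x * t = t * x := ((show Commute x y from hxy).pow_right n).eq
  obtain ⟨z, hzY, hz2, hzc⟩ := exists_central_involution hP (by
    intro h
    rw [h, Subgroup.mem_bot] at hy
    exact hy1 hy)
  have htY : t ∈ pCore 2 H := (pCore 2 H).pow_mem hy n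
  have hzx : z * x = x * z := comm_fix hI hn2 hx htx hP hn hzY (hzc t htY).symm
  have hall : x ∈ Subgroup.centralizer (pCore 2 H : Set H) := by
    rw [Subgroup.mem_centralizer_iff]
    intro q hq
    exact comm_fix hI hz2 hx hzx.symm hP hn hq (hzc q hq)
  have hxY := Classification.LocalCore.centralizer_pCore_le 2 hO hall
  obtain ⟨j, hj⟩ := hP ⟨x, hxY⟩
  exact hx1 (eq_one_of_odd_two hx (pow_orderOf_eq_one x) (congrArg Subtype.val hj))

end Main

/-- a normal subgroup of odd order is contained in every subgroup of 2-power index -/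
theorem le_of_odd_normal {Q : Type*} [Group Q] [Finite Q] (F X : Subgroup Q) [F.Normal] (hF : Odd (Nat.card F))
    {k : ℕ} (hX : X.index = 2 ^ k) : F ≤ X := by
  have h1 : X.relIndex (X ⊔ F) * (X ⊔ F).index = X.index := relIndex_mul_index le_sup_left
  have h2 : Nat.card X * X.relIndex (X ⊔ F) = Nat.card ↥(X ⊔ F) := by
    rw [← relIndex_bot_left, ← relIndex_bot_left]
    exact relIndex_mul_relIndex _ _ _ bot_le le_sup_left
  have h3 : Nat.card F * F.relIndex (X ⊔ F) = Nat.card ↥(X ⊔ F) := by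
    rw [← relIndex_bot_left, ← relIndex_bot_left]
    exact relIndex_mul_relIndex _ _ _ bot_le le_sup_right
  rw [relIndex_sup_right] at h3
  have h4 : Nat.card ↥(F ⊓ X) * F.relIndex X = Nat.card X := by
    rw [← inf_relIndex_right, ← relIndex_bot_left, ← relIndex_bot_left]
    exact relIndex_mul_relIndex _ _ _ bot_le inf_le_right
  have hpos : 0 < F.relIndex X := Nat.pos_of_ne_zero (by
    intro h
    rw [h, mul_zero] at h4
    exact Nat.card_pos.ne h4)
  have h5 : Nat.card ↥(F ⊓ X) * X.relIndex (X ⊔ F) = Nat.card F := by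
    have : F.relIndex X * (Nat.card ↥(F ⊓ X) * X.relIndex (X ⊔ F)) = F.relIndex X * Nat.card F := by
      calc F.relIndex X * (Nat.card ↥(F ⊓ X) * X.relIndex (X ⊔ F))
          = (Nat.card ↥(F ⊓ X) * F.relIndex X) * X.relIndex (X ⊔ F) := by ring
        _ = Nat.card F * F.relIndex X := by rw [h4, h2, h3]
        _ = _ := by ring
    exact Nat.eq_of_mul_eq_mul_left hpos this
  have h6 : Odd (X.relIndex (X ⊔ F)) := by
    rw [← h5] at hF
    exact Nat.Odd.of_mul_right hF
  have h7 : X.relIndex (X ⊔ F) = 1 := by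
    have h8 : X.relIndex (X ⊔ F) ∣ 2 ^ k := hX ▸ Dvd.intro _ h1
    obtain ⟨j, -, hj⟩ := (Nat.dvd_prime_pow Nat.prime_two).1 h8
    rcases Nat.eq_zero_or_pos j with h0 | h0
    · rw [hj, h0, pow_zero]
    · exfalso
      rw [hj] at h6
      exact (Nat.not_even_iff_odd.2 h6) ((Nat.even_pow.2 ⟨even_two, h0.ne'⟩))
  exact le_sup_right.trans (relIndex_eq_one.1 h7)

/-- the Fitting subgroup has odd order if `O₂ = 1` -/
theorem odd_card_fitting {Q : Type*} [Group Q] [Finite Q] (h : pCore 2 Q = ⊥) : Odd (Nat.card (fittingSubgroup Q)) := by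
  rw [← Nat.not_even_iff_odd, even_iff_two_dvd]
  intro hd
  obtain ⟨z, hz⟩ := exists_prime_orderOf_dvd_card' 2 hd
  have h1 : (z : Q) ∈ pCore 2 Q := by
    refine Lib.GenFitting.mem_pCore_of_mem_fitting z.2 (k := 1) ?_
    have := pow_orderOf_eq_one z
    rw [hz] at this
    simpa using congrArg Subtype.val this
  rw [h, Subgroup.mem_bot] at h1
  have : z = 1 := Subtype.ext h1
  rw [this, orderOf_one] at hz
  omega

theorem pCore_quot_eq_bot {H : Type*} [Group H] [Finite H] (hY : (pCore 2 H).Normal) : pCore 2 (H ⧸ pCore 2 H) = ⊥ := by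
  have h := Lib.Cores.comap_mk_pCore (G := H) 2 (N := pCore 2 H) (pCore_isPGroup 2)
  have h2 := map_comap_eq_self_of_surjective (QuotientGroup.mk'_surjective (pCore 2 H)) (pCore 2 (H ⧸ pCore 2 H))
  rw [h, QuotientGroup.map_mk'_self] at h2
  exact h2.symm

section Struct

variable {H : Type*} [Group H] [Finite H]

/-- all Sylow subgroups of a subgroup of odd order acting fixed-point-freely on `O₂(H)` are cyclic -/
theorem isZGroup {X Y : Subgroup H} [Y.Normal] (hX : Odd (Nat.card X)) (hY : IsPGroup 2 Y) (hY1 : Y ≠ ⊥)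
    (hf : ∀ x ∈ X, x ≠ 1 → ∀ y ∈ Y, y ≠ 1 → x * y ≠ y * x) : IsZGroup X := by
  have hdis : Disjoint Y X := by
    rw [disjoint_iff_inf_le]
    intro y hy
    obtain ⟨k, hk⟩ := hY ⟨y, hy.1⟩
    have h1 : y ^ Nat.card X = 1 := congrArg Subtype.val (pow_card_eq_one' (x := (⟨y, hy.2⟩ : X)))
    exact eq_one_of_odd_two hX h1 (congrArg Subtype.val hk)
  have hYW : Y ≤ Y ⊔ X := le_sup_left
  have hXW : X ≤ Y ⊔ X := le_sup_right
  have hc : IsComplement' (Y.subgroupOf (Y ⊔ X)) (X.subgroupOf (Y ⊔ X)) := by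
    refine isComplement'_of_disjoint_and_mul_eq_univ ?_ ?_
    · rw [disjoint_iff_inf_le]
      intro w hw
      have h1 : (w : H) ∈ (Y ⊓ X : Subgroup H) :=
        ⟨Subgroup.mem_subgroupOf.1 hw.1, Subgroup.mem_subgroupOf.1 hw.2⟩
      exact Subtype.ext (Subgroup.mem_bot.1 (hdis.le_bot h1))
    · rw [Set.eq_univ_iff_forall]
      intro w
      have hw0 : (w : H) ∈ ((Y ⊔ X : Subgroup H) : Set H) := w.2
      rw [Subgroup.normal_mul] at hw0
      obtain ⟨y, hy, x, hx, hw⟩ := hw0
      exact ⟨⟨y, hYW hy⟩, Subgroup.mem_subgroupOf.2 hy, ⟨x, hXW hx⟩, Subgroup.mem_subgroupOf.2 hx,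
        Subtype.ext hw⟩
  have hne : Y.subgroupOf (Y ⊔ X) ≠ ⊥ := by
    intro h
    apply hY1
    rw [subgroupOf_eq_bot] at h
    exact le_bot_iff.1 (h.le_bot.trans' (le_inf le_rfl hYW))
  let e := subgroupOfEquivOfLe hXW
  have hcard : Nat.card ↥(X.subgroupOf (Y ⊔ X)) = Nat.card X := Nat.card_congr e.toEquiv
  haveI : IsZGroup ↥(X.subgroupOf (Y ⊔ X)) := by
    refine ⟨fun p hp P => ?_⟩
    haveI := Fact.mk hp
    have hfp : ∀ x ∈ X.subgroupOf (Y ⊔ X), x ≠ 1 → Y.subgroupOf (Y ⊔ X) ⊓ Subgroup.centralizer {x} = ⊥ := by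
      intro x hx hx1
      rw [eq_bot_iff]
      intro y hy
      rw [Subgroup.mem_inf, Subgroup.mem_subgroupOf, Subgroup.mem_centralizer_singleton_iff] at hy
      rw [Subgroup.mem_bot]
      by_contra hne1
      exact hf x hx (fun h => hx1 (Subtype.ext h)) y hy.1 (fun h => hne1 (Subtype.ext h))
        (congrArg Subtype.val hy.2).symm
    rcases S0040.result (Y.subgroupOf (Y ⊔ X)) (X.subgroupOf (Y ⊔ X)) hc hne hfp p P with h | ⟨n, ⟨f⟩⟩
    · exact h
    · exfalso
      have h1 : Nat.card ↥(P : Subgroup ↥(X.subgroupOf (Y ⊔ X))) ∣ Nat.card X := by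
        rw [← hcard]; exact Subgroup.card_subgroup_dvd_card _
      have h2 : Nat.card ↥(P : Subgroup ↥(X.subgroupOf (Y ⊔ X))) = 4 * 2 ^ n := by
        rw [Nat.card_congr f.toEquiv, Nat.card_eq_fintype_card]
        haveI : NeZero (2 ^ n) := ⟨by positivity⟩
        exact QuaternionGroup.card
      rw [h2] at h1
      have h3 : 2 ∣ Nat.card X := (Dvd.intro (2 * 2 ^ n) (by ring)).trans h1
      exact (Nat.not_even_iff_odd.2 hX) (even_iff_two_dvd.2 h3)
  exact IsZGroup.of_injective (f := e.symm.toMonoidHom) e.symm.injective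

end Struct

section Main2

variable {H : Type*} [Group H] [Finite H]

/-- the case `O₂(H) ≠ 1`: the remaining assertions -/
theorem struct (hsol : Group.IsSolvable H) (hO : Cfsg.oddCore H = ⊥)
    (hI : ∀ t : H, orderOf t = 2 → Cfsg.HasNormalPComplement 2 ↥(Subgroup.centralizer ({t} : Set H)))
    (X : Subgroup H) (hXodd : Odd (Nat.card X)) (hXidx : ∃ k : ℕ, X.index = 2 ^ k) (Y : Subgroup H) [hYn : Y.Normal]
    (hYe : Y = pCore 2 H) (hY1 : Y ≠ ⊥) (hZ : IsZGroup X) :
    commutator H ≤ X ⊔ Y ∧ ∀ u v : H, (∃ a : ℕ, u ^ (2 ^ a) = 1) → (∃ a : ℕ, v ^ (2 ^ a) = 1) →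
      u ∉ X ⊔ Y → v ∉ X ⊔ Y → u ^ 2 ∈ X ⊔ Y → v ^ 2 ∈ X ⊔ Y → u * v⁻¹ ∈ X ⊔ Y := by
  have hY : IsPGroup 2 Y := hYe ▸ pCore_isPGroup 2
  have hf : ∀ x y : H, Odd (orderOf x) → x ≠ 1 → y ∈ Y → y ≠ 1 → x * y ≠ y * x := by
    intro x y h1 h2 h3 h4
    exact fpf hsol hO hI h1 h2 (hYe ▸ h3) h4
  obtain ⟨k, hk⟩ := hXidx
  set π := QuotientGroup.mk' Y with hπ
  have hπs : Function.Surjective π := QuotientGroup.mk'_surjective Y
  have hker : ∀ x : H, π x = 1 ↔ x ∈ Y := fun x => QuotientGroup.eq_one_iff x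
  set F := fittingSubgroup (H ⧸ Y) with hF
  haveI hFn : F.Normal := Lib.Cores.fittingSubgroup_normal
  haveI hFnil : Group.IsNilpotent F := Lib.Cores.fittingSubgroup_isNilpotent
  have hFodd : Odd (Nat.card F) := by
    refine odd_card_fitting ?_
    subst hYe
    exact pCore_quot_eq_bot hYn
  set X' := X.map π with hX'
  have hX'idx : ∃ j : ℕ, X'.index = 2 ^ j := by
    have h1 : X'.index ∣ X.index := Subgroup.index_map_dvd X hπs
    rw [hk] at h1
    obtain ⟨j, -, hj⟩ := (Nat.dvd_prime_pow Nat.prime_two).1 h1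
    exact ⟨j, hj⟩
  obtain ⟨j, hj⟩ := hX'idx
  have hFX : F ≤ X' := le_of_odd_normal F X' hFodd hj
  have hX'odd : Odd (Nat.card X') := by
    have h1 : Nat.card X' ∣ Nat.card X := Subgroup.card_map_dvd X π
    exact Odd.of_dvd_nat hXodd h1
  haveI hZX' : IsZGroup X' := IsZGroup.of_surjective (f := π.subgroupMap X) (π.subgroupMap_surjective X)
  haveI hZF : IsZGroup F := IsZGroup.of_injective (f := Subgroup.inclusion hFX) (Subgroup.inclusion_injective hFX)
  haveI hcyc : IsCyclic F := inferInstance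
  have hFcomm : ∀ a ∈ F, ∀ b ∈ F, a * b = b * a := by
    intro a ha b hb
    haveI : IsMulCommutative F := inferInstance
    have := mul_comm' (⟨a, ha⟩ : F) ⟨b, hb⟩
    exact congrArg Subtype.val this
  have hcC : commutator (H ⧸ Y) ≤ Subgroup.centralizer (F : Set (H ⧸ Y)) := by
    intro x hx
    have h1 := Abelianization.commutator_subset_ker
      ((IsCyclic.mulAutMulEquiv F).toMonoidHom.comp (MulAut.conjNormal (H := F))) hx
    rw [MonoidHom.mem_ker, MonoidHom.comp_apply] at h1
    have h2 : (MulAut.conjNormal (H := F)) x = 1 := (IsCyclic.mulAutMulEquiv F).map_eq_one_iff.1 h1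
    rw [Subgroup.mem_centralizer_iff]
    intro f hf
    have h3 := DFunLike.congr_fun h2 (⟨f, hf⟩ : F)
    have h4 := congrArg Subtype.val h3
    rw [MulAut.conjNormal_apply] at h4
    simp only [MulAut.one_apply] at h4
    calc f * x = (x * f * x⁻¹) * x := by rw [h4]
      _ = x * f := by group
  haveI : Group.IsSolvable (H ⧸ Y) := by haveI := hsol; infer_instance
  have hCF : Subgroup.centralizer (F : Set (H ⧸ Y)) ≤ F := S0044.result
  have hmem : ∀ h : H, π h ∈ X' ↔ h ∈ X ⊔ Y := by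
    intro h
    have h1 : (X.map π).comap π = X ⊔ π.ker := comap_map_eq π X
    rw [QuotientGroup.ker_mk'] at h1
    rw [← h1]
    rfl
  refine ⟨?_, ?_⟩
  · intro h hh
    rw [← hmem]
    apply hFX
    apply hCF
    apply hcC
    have h1 : (commutator H).map π ≤ commutator (H ⧸ Y) := by
      rw [_root_.commutator_def, _root_.commutator_def, map_commutator]
      exact commutator_mono le_top le_top
    exact h1 (Subgroup.mem_map_of_mem _ hh)
  · -- `2`-elements which are involutions modulo `XY` invert `F`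
    have key : ∀ u : H, (∃ a : ℕ, u ^ (2 ^ a) = 1) → u ∉ X ⊔ Y → u ^ 2 ∈ X ⊔ Y →
        ∀ f ∈ F, π u * f * (π u)⁻¹ = f⁻¹ := by
      rintro u ⟨a, ha⟩ hu hu2 f hfF
      have hsq : π u ^ 2 = 1 := by
        have h1 : π u ^ 2 ∈ X' := by rw [← map_pow, hmem]; exact hu2
        have h2 : (π u ^ 2) ^ Nat.card X' = 1 :=
          congrArg Subtype.val (pow_card_eq_one' (x := (⟨_, h1⟩ : X')))
        refine eq_one_of_odd_two hX'odd h2 (k := a) ?_
        rw [← map_pow, ← map_pow, ← pow_mul, mul_comm, pow_mul, ha, one_pow, map_one]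
      set s := π u with hs
      have hss : s * s = 1 := by rw [← pow_two]; exact hsq
      have hsinv : s⁻¹ = s := inv_eq_of_mul_eq_one_right hss
      set g := f * (s * f * s⁻¹) with hg
      have hf' : s * f * s⁻¹ ∈ F := hFn.conj_mem f hfF s
      have hgF : g ∈ F := F.mul_mem hfF hf'
      have hgs : s * g = g * s := by
        have h1 : s * g * s⁻¹ = g := by
          calc s * g * s⁻¹ = (s * f * s⁻¹) * ((s * s) * f * (s * s)⁻¹) := by rw [hg]; group
            _ = (s * f * s⁻¹) * f := by rw [hss]; simp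
            _ = g := by rw [hg]; exact hFcomm _ hf' _ hfF
        calc s * g = (s * g * s⁻¹) * s := by group
          _ = g * s := by rw [h1]
      by_cases hg1 : g = 1
      · rw [hg] at hg1
        exact (eq_inv_of_mul_eq_one_right hg1)
      · exfalso
        -- an element of prime order in `⟨g⟩`
        have hog : orderOf g ≠ 1 := fun h => hg1 (orderOf_eq_one_iff.1 h)
        obtain ⟨p, hp, hpd⟩ := Nat.exists_prime_and_dvd hog
        haveI := Fact.mk hp
        set g' := g ^ (orderOf g / p) with hg'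
        have hog' : orderOf g' = p := by
          rw [hg', orderOf_pow_of_dvd (Nat.div_pos (Nat.le_of_dvd (orderOf_pos g) hpd) hp.pos).ne'
            (Nat.div_dvd_of_dvd hpd)]
          exact Nat.div_div_self hpd (orderOf_pos g).ne'
        have hg'F : g' ∈ F := F.pow_mem hgF _
        have hg's : s * g' = g' * s := ((show Commute s g from hgs).pow_right _).eq
        have hp2 : Odd p := by
          have h1 : orderOf g' ∣ Nat.card F := by
            have := orderOf_dvd_natCard (⟨g', hg'F⟩ : F)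
            rwa [Subgroup.orderOf_mk] at this
          rw [hog'] at h1
          exact Odd.of_dvd_nat hFodd h1
        obtain ⟨x, hxX, hxg⟩ := hFX hg'F
        have hxo : Odd (orderOf x) := by
          have h1 : orderOf x ∣ Nat.card X := by
            have := orderOf_dvd_natCard (⟨x, hxX⟩ : X)
            rwa [Subgroup.orderOf_mk] at this
          exact Odd.of_dvd_nat hXodd h1
        have hx1 : x ≠ 1 := by
          rintro rfl
          rw [map_one] at hxg
          rw [← hxg, orderOf_one] at hog'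
          exact hp.one_lt.ne hog'
        have hxp : x ^ p = 1 := by
          have h1 : x ^ p ∈ Y := by
            rw [← hker, map_pow, hxg, ← hog', pow_orderOf_eq_one]
          obtain ⟨b, hb⟩ := hY ⟨_, h1⟩
          have hb' : (x ^ p) ^ 2 ^ b = 1 := congrArg Subtype.val hb
          refine eq_one_of_odd_two hxo ?_ hb'
          rw [← pow_mul, mul_comm, pow_mul, pow_orderOf_eq_one, one_pow]
        have hpY : ¬ p ∣ Nat.card Y := by
          intro h
          obtain ⟨c, hc⟩ := IsPGroup.iff_card.1 hY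
          rw [hc] at h
          have := (Nat.prime_dvd_prime_iff_eq hp Nat.prime_two).1 (hp.dvd_of_dvd_pow h)
          rw [this] at hp2
          exact (Nat.not_even_iff_odd.2 hp2) even_two
        obtain ⟨d, hdY, hd⟩ := SignalizersComponents.CoprimeBasic.exists_fixed_in_coset_of_pow x 1
          (by rw [pow_one]; exact hxp) Y hpY (fun d hd => hYn.conj_mem d hd x) u (by
            rw [← hker, map_mul, map_mul, map_mul, map_inv, map_inv, hxg, ← hs]
            rw [← hg's]
            group)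
        set w := u * d with hw
        have hπw : π w = s := by rw [hw, map_mul, (hker d).2 hdY, mul_one]
        have hw1 : w ≠ 1 := by
          intro h
          apply hu
          rw [← hmem, ← hs, ← hπw, h, map_one]
          exact X'.one_mem
        have hw2Y : w * w ∈ Y := by rw [← hker, map_mul, hπw, hss]
        have hw2 : w * w = 1 := by
          by_contra hne
          refine hf x (w * w) hxo hx1 hw2Y hne ?_
          calc x * (w * w) = (x * w) * w := (mul_assoc _ _ _).symm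
            _ = (w * x) * w := by rw [hd]
            _ = w * (x * w) := mul_assoc _ _ _
            _ = w * (w * x) := by rw [hd]
            _ = (w * w) * x := (mul_assoc _ _ _).symm
        have how : orderOf w = 2 := orderOf_eq_prime (by rw [pow_two]; exact hw2) hw1
        have hwp : IsPGroup 2 (Subgroup.zpowers w) := by
          rw [IsPGroup.iff_card]
          exact ⟨1, by rw [Nat.card_zpowers, how, pow_one]⟩
        obtain ⟨q, hqY, hq1, hqw⟩ := Characters.CNBasic.exists_mem_center_of_normal (Subgroup.zpowers w) hwp Y hY hY1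
          (fun t _ d hd => hYn.conj_mem d hd t)
        have h5 := comm_fix hI how hxo hd hY (fun q hq => hYn.conj_mem q hq x) hqY
          (hqw w (Subgroup.mem_zpowers w)).symm
        exact hf x q hxo hx1 hqY hq1 h5.symm
    intro u v hua hva hu hv hu2 hv2
    have h1 := key u hua hu hu2
    have h2 := key v hva hv hv2
    rw [← hmem]
    apply hFX
    apply hCF
    rw [Subgroup.mem_centralizer_iff]
    intro f hfF
    have h3 : (π v)⁻¹ * f * π v = f⁻¹ := by
      have h4 := h2 _ (F.inv_mem hfF)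
      rw [inv_inv] at h4
      calc (π v)⁻¹ * f * π v = (π v)⁻¹ * (π v * f⁻¹ * (π v)⁻¹) * π v := by rw [h4]
        _ = f⁻¹ := by group
    have h4 := h1 _ (F.inv_mem hfF)
    rw [inv_inv] at h4
    rw [map_mul, map_inv]
    symm
    calc π u * (π v)⁻¹ * f = (π u * ((π v)⁻¹ * f * π v) * (π u)⁻¹) * (π u * (π v)⁻¹) := by group
      _ = f * (π u * (π v)⁻¹) := by rw [h3, h4]

end Main2

/-- Let H be a finite solvable group with no nontrivial normal subgroup of odd order in which the centralizer of every involution has a normal 2-complement. Let X be a Hall 2'-subgroup of H (odd order, index a power of 2) and Y = O₂(H). Then no non-identity element of X commutes with a non-identity element of Y (so for X ≠ 1 the group XY is a Frobenius group with kernel Y), every Sylow subgroup of X is cyclic, XY is normal in H, and H/XY is a cyclic 2-group. -/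
theorem result {H : Type*} [Group H] [Finite H] (hsol : Group.IsSolvable H)
    (hO : Cfsg.oddCore H = ⊥)
    (hI : ∀ t : H, orderOf t = 2 → Cfsg.HasNormalPComplement 2 ↥(Subgroup.centralizer ({t} : Set H)))
    (X : Subgroup H) (hXodd : Odd (Nat.card X)) (hXidx : ∃ k : ℕ, X.index = 2 ^ k) :
    (∀ x ∈ X, x ≠ 1 → ∀ y ∈ Cfsg.pCore 2 H, y ≠ 1 → x * y ≠ y * x) ∧
      (∀ (p : ℕ) [Fact p.Prime] (P : Sylow p ↥X), IsCyclic ↥(P : Subgroup ↥X)) ∧
      (X ⊔ Cfsg.pCore 2 H).Normal ∧
      ∀ hN : (X ⊔ Cfsg.pCore 2 H).Normal, IsCyclic (H ⧸ (X ⊔ Cfsg.pCore 2 H)) ∧ IsPGroup 2 (H ⧸ (X ⊔ Cfsg.pCore 2 H)) := by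
  haveI := hsol
  have hodd : ∀ x ∈ X, Odd (orderOf x) := by
    intro x hx
    have h1 : orderOf x ∣ Nat.card X := by
      have := orderOf_dvd_natCard (⟨x, hx⟩ : X)
      rwa [Subgroup.orderOf_mk] at this
    exact Odd.of_dvd_nat hXodd h1
  have h1 : ∀ x ∈ X, x ≠ 1 → ∀ y ∈ Cfsg.pCore 2 H, y ≠ 1 → x * y ≠ y * x := by
    intro x hx hx1 y hy hy1
    exact fpf hsol hO hI (hodd x hx) hx1 hy hy1
  have hYn : (pCore 2 H).Normal := Lib.Cores.pCore_normal 2
  have hYp : IsPGroup 2 (pCore 2 H) := pCore_isPGroup 2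
  by_cases hY1 : pCore 2 H = ⊥
  · -- `H = 1`
    have hle := Classification.LocalCore.centralizer_pCore_le 2 hO
    have hall : ∀ h : H, h = 1 := by
      intro h
      have h2 : h ∈ Subgroup.centralizer (pCore 2 H : Set H) := by
        rw [hY1, Subgroup.mem_centralizer_iff]
        intro g hg
        have : g = 1 := by simpa using hg
        rw [this, one_mul, mul_one]
      have h3 := hle h2
      rwa [hY1, Subgroup.mem_bot] at h3
    have hsub : Subsingleton H := ⟨fun a b => by rw [hall a, hall b]⟩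
    refine ⟨h1, fun p _ P => ?_, ?_, fun hN => ⟨?_, ?_⟩⟩
    · infer_instance
    · have : X ⊔ pCore 2 H = ⊤ := by
        rw [eq_top_iff]
        intro g _
        rw [hall g]
        exact Subgroup.one_mem _
      rw [this]
      infer_instance
    · infer_instance
    · intro g
      exact ⟨0, Subsingleton.elim _ _⟩
  · have hZ : IsZGroup X := isZGroup hXodd hYp hY1 h1
    obtain ⟨hc, hinv⟩ := struct hsol hO hI X hXodd hXidx (pCore 2 H) rfl hY1 hZ
    have hNn : (X ⊔ pCore 2 H).Normal := by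
      refine ⟨fun n hn g => ?_⟩
      have h2 : g * n * g⁻¹ * n⁻¹ ∈ X ⊔ pCore 2 H := by
        apply hc
        have := commutator_mem_commutator (G := H) (H₁ := ⊤) (H₂ := ⊤) (g₁ := g) (g₂ := n) trivial trivial
        rwa [commutatorElement_def, ← _root_.commutator_def] at this
      have h3 := (X ⊔ pCore 2 H).mul_mem h2 hn
      have h4 : g * n * g⁻¹ * n⁻¹ * n = g * n * g⁻¹ := by group
      rwa [h4] at h3
    refine ⟨h1, fun p _ P => inferInstance, hNn, fun hN => ?_⟩
    set N := X ⊔ pCore 2 H with hNdef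
    have hp : IsPGroup 2 (H ⧸ N) := by
      rw [IsPGroup.iff_card]
      obtain ⟨k, hk⟩ := hXidx
      have h2 : N.index ∣ X.index := Subgroup.index_dvd_of_le le_sup_left
      rw [hk] at h2
      obtain ⟨j, -, hj⟩ := (Nat.dvd_prime_pow Nat.prime_two).1 h2
      exact ⟨j, hj⟩
    refine ⟨?_, hp⟩
    have hcomm : ∀ a b : H ⧸ N, a * b = b * a := by
      intro a b
      obtain ⟨a, rfl⟩ := QuotientGroup.mk_surjective a
      obtain ⟨b, rfl⟩ := QuotientGroup.mk_surjective b
      rw [← QuotientGroup.mk_mul, ← QuotientGroup.mk_mul, QuotientGroup.eq]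
      apply hc
      have := commutator_mem_commutator (G := H) (H₁ := ⊤) (H₂ := ⊤) (g₁ := b⁻¹) (g₂ := a⁻¹) trivial trivial
      rw [commutatorElement_def, ← _root_.commutator_def, inv_inv, inv_inv] at this
      rwa [mul_inv_rev, ← mul_assoc]
    letI : CommGroup (H ⧸ N) := { (inferInstance : Group (H ⧸ N)) with mul_comm := hcomm }
    refine Transfer.PGroupNormal.isCyclic_of_card_ker_pow_le hp ?_
    -- lift
    have hlift : ∀ a : H ⧸ N, a ^ 2 = 1 → a ≠ 1 → ∃ u : H, (∃ b : ℕ, u ^ (2 ^ b) = 1) ∧ (u : H ⧸ N) = a ∧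
        u ∉ N ∧ u ^ 2 ∈ N := by
      intro a ha ha1
      obtain ⟨u, rfl⟩ := QuotientGroup.mk_surjective a
      obtain ⟨b, m, hm, hum⟩ := Nat.exists_eq_two_pow_mul_odd (orderOf_pos u).ne'
      obtain ⟨c, hc'⟩ := hm
      have hum' : (QuotientGroup.mk (u ^ m) : H ⧸ N) = QuotientGroup.mk u := by
        rw [QuotientGroup.mk_pow, hc', pow_succ, pow_mul, ha, one_pow, one_mul]
      refine ⟨u ^ m, ⟨b, ?_⟩, hum', ?_, ?_⟩
      · rw [← pow_mul, mul_comm, ← hum, pow_orderOf_eq_one]
      · intro h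
        apply ha1
        rw [← hum']
        exact (QuotientGroup.eq_one_iff _).2 h
      · rw [← QuotientGroup.eq_one_iff, QuotientGroup.mk_pow, hum', ha]
    have huniq : ∀ a b : H ⧸ N, a ^ 2 = 1 → b ^ 2 = 1 → a ≠ 1 → b ≠ 1 → a = b := by
      intro a b ha hb ha1 hb1
      obtain ⟨u, h2, hu, h3, h4⟩ := hlift a ha ha1
      obtain ⟨v, h2', hv, h3', h4'⟩ := hlift b hb hb1
      have h5 := hinv u v h2 h2' h3 h3' h4 h4'
      rw [← hu, ← hv]
      have h6 := (QuotientGroup.eq_one_iff (N := N) (u * v⁻¹)).2 h5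
      rw [QuotientGroup.mk_mul, QuotientGroup.mk_inv, mul_inv_eq_one] at h6
      exact h6
    by_cases hex : ∃ a : H ⧸ N, a ^ 2 = 1 ∧ a ≠ 1
    · obtain ⟨a, ha, ha1⟩ := hex
      have hsub : ((powMonoidHom 2 : (H ⧸ N) →* (H ⧸ N)).ker : Set (H ⧸ N)) ⊆ {1, a} := by
        intro b hb
        have hb2 : b ^ 2 = 1 := hb
        by_cases hb1 : b = 1
        · left; exact hb1
        · right; exact huniq b a hb2 ha hb1 ha1
      calc Nat.card (powMonoidHom 2 : (H ⧸ N) →* (H ⧸ N)).ker
          = ((powMonoidHom 2 : (H ⧸ N) →* (H ⧸ N)).ker : Set (H ⧸ N)).ncard := rfl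
        _ ≤ ({1, a} : Set (H ⧸ N)).ncard := Set.ncard_le_ncard hsub
        _ ≤ ({a} : Set (H ⧸ N)).ncard + 1 := Set.ncard_insert_le 1 _
        _ = 2 := by rw [Set.ncard_singleton]
    · push Not at hex
      have hsub : ((powMonoidHom 2 : (H ⧸ N) →* (H ⧸ N)).ker : Set (H ⧸ N)) ⊆ {1} := by
        intro b hb
        exact hex b hb
      calc Nat.card (powMonoidHom 2 : (H ⧸ N) →* (H ⧸ N)).ker
          = ((powMonoidHom 2 : (H ⧸ N) →* (H ⧸ N)).ker : Set (H ⧸ N)).ncard := rfl
        _ ≤ ({1} : Set (H ⧸ N)).ncard := Set.ncard_le_ncard hsub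
        _ ≤ 2 := by rw [Set.ncard_singleton]; norm_num

end Cfsg.Agent.S3215
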