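import Cfsg.Statements.S3220
import Cfsg.Agent.H313.LFourFinal
import Cfsg.Agent.LFour.ExtAll

set_option autoImplicit false
open Cfsg

namespace Cfsg.Agent.S3220

/-- Let q be an odd prime power, F the field with q elements, and t₀ the image in L₄(q) = PSL₄(F) of the diagonal matrix diag(−1, −1, 1, 1) (an involution lying in the centre of a Sylow 2-subgroup of L₄(q)). If G is a finite group of even order that has no subgroup of index 2 and contains an involution t with C_G(t) ≅ C_{L₄(q)}(t₀), then G ≅ L₄(q). -/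
theorem result {G : Type*} [Group G] [Finite G] (hev : Even (Nat.card G))
    (hG : ∀ H : Subgroup G, H.index ≠ 2) {F : Type*} [Field F] [Fintype F] (hF : Odd (Fintype.card F))
    (d : Matrix.SpecialLinearGroup (Fin 4) F) (hd : (d : Matrix (Fin 4) (Fin 4) F) = Matrix.diagonal ![-1, -1, 1, 1])
    (t : G) (ht : orderOf t = 2)
    (e : ↥(Subgroup.centralizer ({t} : Set G)) ≃*
      ↥(Subgroup.centralizer ({(QuotientGroup.mk d : Matrix.ProjectiveSpecialLinearGroup (Fin 4) F)} : Set (Matrix.ProjectiveSpecialLinearGroup (Fin 4) F)))) :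
    Nonempty (G ≃* Matrix.ProjectiveSpecialLinearGroup (Fin 4) F) := by
  exact Cfsg.Agent.H313.LFourFinal.main Cfsg.Agent.LFour.ExtMain.branchA1 Cfsg.Agent.LFour.ExtMain.branchA2
    Cfsg.Agent.LFour.ExtAll.branchB1 Cfsg.Agent.LFour.ExtAll.branchB5 hG hF d hd t ht e

end Cfsg.Agent.S3220
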