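import Cfsg.Statements.S3227
import Cfsg.Agent.ThType.Final
import Cfsg.Agent.ThType.ModMain
import Cfsg.Agent.H315.ZStarTop

set_option autoImplicit false
open Cfsg

namespace Cfsg.Agent.S3227

open Cfsg.Agent.ThType.SpinData Cfsg.Agent.ThType.NatData Cfsg.Agent.ThType.Squares
  Cfsg.Agent.ThType.ElemE

open Cfsg.Agent.ThType.FusN in
/-- the natural module does not occur (as `FusN.false_of_nat`, with a commuting conjugate of `t` instead
of simplicity) -/
theorem false_of_nat {G : Type*} [Group G] [Finite G] {t : G} (S : NatAt G t)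
    (hc : ∃ g, (g * t * g⁻¹) * t = t * (g * t * g⁻¹) ∧ g * t * g⁻¹ ≠ t) : False := by
  have hmem : ∃ g, g * t * g⁻¹ ∈ S.Q ∧ g * t * g⁻¹ ≠ t := by
    by_contra hcon
    push Not at hcon
    obtain ⟨g, hg, hgne⟩ := hc
    obtain ⟨w, hw⟩ : ∃ w, w = g * t * g⁻¹ := ⟨_, rfl⟩
    rw [← hw] at hg hgne
    obtain ⟨S', hS'⟩ : ∃ S' : NatAt G w, ∀ x, x ∈ S'.Q ↔ g⁻¹ * x * g ∈ S.Q := by
      subst hw
      exact ⟨conj S g, mem_conj S g⟩
    have htQ : t ∉ S'.Q := by
      rw [hS']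
      intro h
      have h1 := hcon g⁻¹ (by rwa [inv_inv])
      rw [inv_inv] at h1
      apply hgne
      calc w = g * (g⁻¹ * t * g) * g⁻¹ := by rw [h1, hw]
        _ = t := by group
    obtain ⟨y, d, hd, hd2, hd1, hdw, hsd, hcd⟩ := P2 S' hg.symm S.z_sq htQ
    have hdQ : d ∉ S.Q := by
      intro h
      have h1 := hcon y (by rw [← hsd]; exact mul_mem S.z_mem h)
      rw [← hsd] at h1
      exact hd1 (mul_eq_left.1 h1)
    obtain ⟨e, he⟩ := P1 S hcd.symm hd2 hdQ
    rw [← hcd, hsd] at he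
    have h1 : d = (e * y) * t * (e * y)⁻¹ := by
      calc d = e * (e⁻¹ * d * e) * e⁻¹ := by group
        _ = e * (y * t * y⁻¹) * e⁻¹ := by rw [he]
        _ = _ := by group
    have h2 : (g⁻¹ * (e * y)) * t * (g⁻¹ * (e * y))⁻¹ = g⁻¹ * d * g := by
      rw [h1]; group
    have h3 := hcon (g⁻¹ * (e * y)) (by rw [h2]; exact (hS' d).1 hd)
    rw [h2] at h3
    apply hdw
    calc d = g * (g⁻¹ * d * g) * g⁻¹ := by group
      _ = w := by rw [h3, hw]
  obtain ⟨g, hg, hne⟩ := hmem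
  exact B2 S (conj S g) hne hg (B1 S (conj S g) hne hg)

/-- the spin case -/
theorem of_spin {G : Type*} [Group G] [Finite G] {t : G} (S : SpinAt G t)
    (hc : ∃ g, (g * t * g⁻¹) * t = t * (g * t * g⁻¹) ∧ g * t * g⁻¹ ≠ t) :
    IsSimpleGroup G ∧ Nat.card G = 90745943887872000 ∧ (∀ x y : G, orderOf x = 2 → orderOf y = 2 → IsConj x y) ∧
      Cfsg.Spor.IsoTh G := by
  have hF : ∃ g, g * t * g⁻¹ ∈ S.Q ∧ g * t * g⁻¹ ≠ t := by
    by_contra hcon
    push Not at hcon
    obtain ⟨g, hg1, hg2⟩ := hc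
    exact Cfsg.Agent.ThType.FusS.false_of_comm S hcon hg1 hg2
  obtain ⟨f⟩ := Cfsg.Agent.ThType.BDataInst.iso_Th S hF Cfsg.Agent.S1700.result
  have hTh := Cfsg.Agent.S1700.result
  have hsT : IsSimpleGroup Cfsg.Spor.Th := hTh.1
  have hnt : Nontrivial G := f.toEquiv.nontrivial
  have hs : IsSimpleGroup G := IsSimpleGroup.isSimpleGroup_of_surjective f.symm.toMonoidHom f.symm.surjective
  obtain ⟨h1, h2, h3⟩ := Cfsg.Agent.ThType.Final.final_of_spin S
  exact ⟨hs, h2.2, h3, h1⟩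

/-- Let G be a finite group with an involution z and H = C_G(z), such that G ≠ H·O(G), where O(G) is the largest normal subgroup of G of odd order, and such that J, the largest normal 2-subgroup of H, is extraspecial of order 2⁹ with C_H(J) ≤ J and H/J ≅ A₉. Then G is a simple group of order 2¹⁵·3¹⁰·5³·7²·13·19·31 with a single conjugacy class of involutions, and G is isomorphic to the Thompson sporadic group. -/
theorem result {G : Type*} [Group G] [Finite G]
    (z : G) (hz : orderOf z = 2) (hG : Subgroup.centralizer ({z} : Set G) ⊔ Cfsg.oddCore G ≠ ⊤)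
    (hJ : Cfsg.IsExtraspecial 2 ↥(Cfsg.pCore 2 ↥(Subgroup.centralizer ({z} : Set G)))) (hJc : Nat.card ↥(Cfsg.pCore 2 ↥(Subgroup.centralizer ({z} : Set G))) = 2 ^ 9)
    (hCJ : Subgroup.centralizer ((Cfsg.pCore 2 ↥(Subgroup.centralizer ({z} : Set G))) : Set ↥(Subgroup.centralizer ({z} : Set G))) ≤ Cfsg.pCore 2 ↥(Subgroup.centralizer ({z} : Set G)))
    [hn : (Cfsg.pCore 2 ↥(Subgroup.centralizer ({z} : Set G))).Normal]
    (e : (↥(Subgroup.centralizer ({z} : Set G)) ⧸ Cfsg.pCore 2 ↥(Subgroup.centralizer ({z} : Set G))) ≃* ↥(alternatingGroup (Fin 9))) :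
    IsSimpleGroup G ∧ Nat.card G = 90745943887872000 ∧ (∀ x y : G, orderOf x = 2 → orderOf y = 2 → IsConj x y) ∧
      Cfsg.Spor.IsoTh G := by
  have hc := Cfsg.Agent.H315.ZStarTop.exists_comm_conj hz hG
  rcases Cfsg.Agent.ThType.ModMain.main z hz _ hJ hJc hCJ e with ⟨S, -⟩ | ⟨S, -⟩
  · exact of_spin S hc
  · exact (false_of_nat S hc).elim

end Cfsg.Agent.S3227
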