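import Cfsg.Statements.S3228
import Cfsg.Agent.S0000
import Cfsg.Agent.NotCT.Orders
import Cfsg.Agent.H315.OrderCube
import Cfsg.Agent.H315.JThreeFact
import Cfsg.Agent.PreUniq.Cases
import Cfsg.Agent.OrthAut.Fix

set_option autoImplicit false
open Cfsg

namespace Cfsg.Agent.S3228

open Subgroup

theorem cube_bound {N p a : ℕ} (hN : N ≠ 0) (hp : p.Prime) (h : ¬ p ^ (a + 1) ∣ N) (h3 : (p ^ a) ^ 3 ≤ N) :
    (ordProj[p] N) ^ 3 ≤ N := by
  refine le_trans (Nat.pow_le_pow_left (Nat.pow_le_pow_right hp.pos ?_) 3) h3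
  by_contra hcon
  exact h ((hp.pow_dvd_iff_le_factorization hN).2 (by omega))

theorem not_lie {G : Type*} [Group G] (hcard : Nat.card G = 50232960) {p : ℕ} (hp : p.Prime) :
    ¬ IsLieTypeChar p G := by
  refine Cfsg.Agent.H315.OrderCube.not_lie hcard (by norm_num) ?_ hp
  intro q hq
  rw [Nat.mem_primeFactors] at hq
  obtain ⟨hq, hd, -⟩ := hq
  have h1 : 50232960 = 2 ^ 7 * 3 ^ 5 * 5 * 17 * 19 := by norm_num
  have h2 : q = 2 ∨ q = 3 ∨ q = 5 ∨ q = 17 ∨ q = 19 := by
    rw [h1, hq.dvd_mul, hq.dvd_mul, hq.dvd_mul, hq.dvd_mul] at hd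
    rcases hd with (((hd | hd) | hd) | hd) | hd
    · exact Or.inl ((Nat.prime_dvd_prime_iff_eq hq Nat.prime_two).1 (hq.dvd_of_dvd_pow hd))
    · exact Or.inr (Or.inl ((Nat.prime_dvd_prime_iff_eq hq Nat.prime_three).1 (hq.dvd_of_dvd_pow hd)))
    · exact Or.inr (Or.inr (Or.inl ((Nat.prime_dvd_prime_iff_eq hq Nat.prime_five).1 hd)))
    · exact Or.inr (Or.inr (Or.inr (Or.inl ((Nat.prime_dvd_prime_iff_eq hq (by norm_num)).1 hd))))
    · exact Or.inr (Or.inr (Or.inr (Or.inr ((Nat.prime_dvd_prime_iff_eq hq (by norm_num)).1 hd))))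
  rcases h2 with rfl | rfl | rfl | rfl | rfl
  · exact cube_bound (a := 7) (by norm_num) hq (by norm_num) (by norm_num)
  · exact cube_bound (a := 5) (by norm_num) hq (by norm_num) (by norm_num)
  · exact cube_bound (a := 1) (by norm_num) hq (by norm_num) (by norm_num)
  · exact cube_bound (a := 1) (by norm_num) hq (by norm_num) (by norm_num)
  · exact cube_bound (a := 1) (by norm_num) hq (by norm_num) (by norm_num)

theorem not_alt {G : Type*} [Group G] (hcard : Nat.card G = 50232960) : ¬ IsAlternating G := by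
  rintro ⟨n, hn, ⟨e⟩⟩
  have h1 := Nat.card_congr e.toEquiv
  have h2 := Cfsg.Agent.OrdCrit.two_mul_card_alt n (by omega)
  rw [← h1, hcard] at h2
  have h5 : (11 : ℕ).factorial = 39916800 := by decide +kernel
  have h6 : (12 : ℕ).factorial = 479001600 := by decide +kernel
  rcases Nat.lt_or_ge n 12 with h7 | h7
  · have := Nat.factorial_le (show n ≤ 11 by omega)
    omega
  · have := Nat.factorial_le h7
    omega

/-- a simple group of order 50232960 is `J₃` -/
theorem isoJ3 {G : Type*} [Group G] [Finite G] [IsSimpleGroup G] (hcard : Nat.card G = 50232960) :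
    Spor.IsoJ3 G := by
  rcases Cfsg.Agent.PreUniq.known_cases (Cfsg.Agent.S0000.result (G := G)) with h | h | ⟨p, hp, h⟩ | h | h
  · exfalso
    have h1 : (Nat.card G).Prime := h
    rw [hcard] at h1
    exact absurd h1 (by norm_num)
  · exact absurd h (not_alt hcard)
  · exact absurd h (not_lie hcard hp)
  · exfalso
    have := Cfsg.Agent.NotCT.Orders.tits h
    omega
  · unfold IsSporadicGroup at h
    rcases h with h | h | h | h | h | h | h | h | h | h | h | h | h | h | h | h | h | h | h | h | h | h |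
      h | h | h | h
    · exact absurd (Cfsg.Agent.NotCT.Orders.m11 h) (by rw [hcard]; norm_num)
    · exact absurd (Cfsg.Agent.NotCT.Orders.m12 h) (by rw [hcard]; norm_num)
    · exact absurd (Cfsg.Agent.NotCT.Orders.m22 h) (by rw [hcard]; norm_num)
    · exact absurd (Cfsg.Agent.NotCT.Orders.m23 h) (by rw [hcard]; norm_num)
    · exact absurd (Cfsg.Agent.NotCT.Orders.m24 h) (by rw [hcard]; norm_num)
    · exact absurd (Cfsg.Agent.NotCT.Orders.j1 h) (by rw [hcard]; norm_num)
    · exact absurd (Cfsg.Agent.NotCT.Orders.j2 h) (by rw [hcard]; norm_num)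
    · exact h
    · exact absurd (Cfsg.Agent.NotCT.Orders.j4 h) (by rw [hcard]; norm_num)
    · exact absurd (Cfsg.Agent.NotCT.Orders.co1 h) (by rw [hcard]; norm_num)
    · exact absurd (Cfsg.Agent.NotCT.Orders.co2 h) (by rw [hcard]; norm_num)
    · exact absurd (Cfsg.Agent.NotCT.Orders.co3 h) (by rw [hcard]; norm_num)
    · exact absurd (Cfsg.Agent.NotCT.Orders.mcl h) (by rw [hcard]; norm_num)
    · exact absurd (Cfsg.Agent.NotCT.Orders.hs h) (by rw [hcard]; norm_num)
    · exact absurd (Cfsg.Agent.NotCT.Orders.suz h) (by rw [hcard]; norm_num)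
    · exact absurd (Cfsg.Agent.NotCT.Orders.he h) (by rw [hcard]; norm_num)
    · exact absurd (Cfsg.Agent.NotCT.Orders.ru h) (by rw [hcard]; norm_num)
    · exact absurd (Cfsg.Agent.NotCT.Orders.on h) (by rw [hcard]; norm_num)
    · exact absurd (Cfsg.Agent.NotCT.Orders.ly h) (by rw [hcard]; norm_num)
    · exact absurd (Cfsg.Agent.NotCT.Orders.fi22 h) (by rw [hcard]; norm_num)
    · exact absurd (Cfsg.Agent.NotCT.Orders.fi23 h) (by rw [hcard]; norm_num)
    · exact absurd (Cfsg.Agent.NotCT.Orders.fi24 h) (by rw [hcard]; norm_num)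
    · exact absurd (Cfsg.Agent.NotCT.Orders.hn h) (by rw [hcard]; norm_num)
    · exact absurd (Cfsg.Agent.NotCT.Orders.th h) (by rw [hcard]; norm_num)
    · exact absurd (Cfsg.Agent.NotCT.Orders.b h) (by rw [hcard]; norm_num)
    · exact absurd (Cfsg.Agent.NotCT.Orders.m h) (by rw [hcard]; norm_num)

/-- Let G be a non-abelian simple group of order 50232960. Then the centre of a Sylow 2-subgroup S of G is cyclic, and if z is the involution of Z(S), the centralizer C_G(z) has a normal subgroup E of order 32 with C_G(z)/E ≅ A₅. -/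
theorem result {G : Type*} [Group G] [Finite G] [IsSimpleGroup G]
    (hG : ¬ IsMulCommutative G) (hcard : Nat.card G = 50232960) (S : Sylow 2 G) :
    IsCyclic ↥(Subgroup.center ↥(S : Subgroup G)) ∧
      ∀ z : G, z ∈ (S : Subgroup G) → (∀ s ∈ (S : Subgroup G), s * z = z * s) → orderOf z = 2 →
        ∃ (E : Subgroup ↥(Subgroup.centralizer ({z} : Set G))) (hE : E.Normal), Nat.card ↥E = 32 ∧
          Nonempty ((↥(Subgroup.centralizer ({z} : Set G)) ⧸ E) ≃* ↥(alternatingGroup (Fin 5))) := by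
  have hf : Fact (Nat.Prime 2) := ⟨Nat.prime_two⟩
  have hJ := isoJ3 hcard
  refine ⟨?_, ?_⟩
  · -- the centre of `S`
    have hSne : Nontrivial ↥(S : Subgroup G) := by
      rw [← Finite.one_lt_card_iff_nontrivial]
      have h1 : 2 ∣ Nat.card ↥(S : Subgroup G) := by
        apply S.dvd_card_of_dvd_card
        rw [hcard]; norm_num
      exact lt_of_lt_of_le (by norm_num) (Nat.le_of_dvd Nat.card_pos h1)
    have hSp : IsPGroup 2 ↥(S : Subgroup G) := S.isPGroup'
    have hcn : Nontrivial ↥(Subgroup.center ↥(S : Subgroup G)) := hSp.center_nontrivial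
    have hcp : IsPGroup 2 ↥(Subgroup.center ↥(S : Subgroup G)) := hSp.to_subgroup _
    obtain ⟨x, hx⟩ : ∃ x : ↥(Subgroup.center ↥(S : Subgroup G)), orderOf x = 2 := by
      apply exists_prime_orderOf_dvd_card'
      obtain ⟨n, hn⟩ := hcp.exists_card_eq
      have h2 : 1 < Nat.card ↥(Subgroup.center ↥(S : Subgroup G)) := Finite.one_lt_card
      rw [hn] at h2 ⊢
      rcases Nat.eq_zero_or_pos n with h0 | h0
      · rw [h0] at h2; exact absurd h2 (by norm_num)
      · exact dvd_pow_self 2 (by omega)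
    obtain ⟨x0, hx0⟩ : ∃ x0 : G, x0 = ((x : ↥(S : Subgroup G)) : G) := ⟨_, rfl⟩
    have hx0o : orderOf x0 = 2 := by
      rw [hx0, Subgroup.orderOf_coe, Subgroup.orderOf_coe, hx]
    have hSC : ∀ s ∈ (S : Subgroup G), s * x0 = x0 * s := by
      intro s hs
      rw [hx0]
      exact congrArg Subtype.val (Subgroup.mem_center_iff.1 x.2 ⟨s, hs⟩)
    obtain ⟨ψ, hran, hker, hcen⟩ := Cfsg.Agent.H315.JThreeFact.exists_psi hJ x0 hx0o
    -- the kernel lies in `S`
    have hKS : ψ.ker.map (centralizer ({x0} : Set G)).subtype ≤ (S : Subgroup G) := by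
      apply Cfsg.Agent.OrthAut.Fix.le_sylow_of_normalised
      · apply IsPGroup.of_card (n := 5)
        rw [Subgroup.card_map_of_injective (Subgroup.subtype_injective _), hker]; norm_num
      · rintro s hs _ ⟨k, hk, rfl⟩
        have hsC : s ∈ centralizer ({x0} : Set G) := mem_centralizer_singleton_iff.2 (hSC s hs)
        refine ⟨⟨s, hsC⟩ * k * ⟨s, hsC⟩⁻¹, ?_, rfl⟩
        exact (MonoidHom.normal_ker ψ).conj_mem k hk ⟨s, hsC⟩
    have hle : ∀ y : ↥(Subgroup.center ↥(S : Subgroup G)), y ∈ Subgroup.zpowers x := by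
      intro y
      have hyS : ∀ s ∈ (S : Subgroup G), s * ((y : ↥(S : Subgroup G)) : G) = ((y : ↥(S : Subgroup G)) : G) * s := by
        intro s hs
        exact congrArg Subtype.val (Subgroup.mem_center_iff.1 y.2 ⟨s, hs⟩)
      have hyC : ((y : ↥(S : Subgroup G)) : G) ∈ centralizer ({x0} : Set G) := by
        rw [mem_centralizer_singleton_iff, hx0]
        exact (hyS _ (x : ↥(S : Subgroup G)).2).symm
      rcases hcen ⟨_, hyC⟩ (by
        intro k hk
        apply Subtype.ext
        exact (hyS _ (hKS ⟨k, hk, rfl⟩)).symm) with h1 | h1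
      · have h2 : y = 1 := Subtype.ext (Subtype.ext h1)
        rw [h2]; exact one_mem _
      · have h2 : y = x := Subtype.ext (Subtype.ext (h1.trans hx0))
        rw [h2]; exact Subgroup.mem_zpowers x
    exact ⟨⟨x, hle⟩⟩
  · intro z _ _ hz
    obtain ⟨ψ, hran, hker, -⟩ := Cfsg.Agent.H315.JThreeFact.exists_psi hJ z hz
    refine ⟨ψ.ker, MonoidHom.normal_ker ψ, hker, ⟨?_⟩⟩
    exact (QuotientGroup.quotientKerEquivRange ψ).trans (MulEquiv.subgroupCongr hran)

end Cfsg.Agent.S3228
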