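import Cfsg.Statements.S3230
import Cfsg.Agent.S0000
import Cfsg.Agent.H316.Final
-- import your own Cfsg.Agent.* helpers here

set_option autoImplicit false
open Cfsg

namespace Cfsg.Agent.S3230

/-- Let G be a finite group with an involution z, H = C_G(z), such that J = O₂(H) is extraspecial of order 2⁹ with C_H(J) ≤ J and H/J ≅ PSp₄(3). Then G ≅ U₆(2) or G = H·O(G). -/
theorem result {G : Type*} [Group G] [Finite G] (z : G) (hz : orderOf z = 2)
    {F : Type*} [Field F] [Fintype F] (hF : Fintype.card F = 3) {K : Type*} [Field K] [Fintype K] (hK : Fintype.card K = 4)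
    (hJ : Cfsg.IsExtraspecial 2 ↥(Cfsg.pCore 2 ↥(Subgroup.centralizer ({z} : Set G)))) (hJc : Nat.card ↥(Cfsg.pCore 2 ↥(Subgroup.centralizer ({z} : Set G))) = 2 ^ 9)
    (hCJ : Subgroup.centralizer ((Cfsg.pCore 2 ↥(Subgroup.centralizer ({z} : Set G))) : Set ↥(Subgroup.centralizer ({z} : Set G))) ≤ Cfsg.pCore 2 ↥(Subgroup.centralizer ({z} : Set G))) [hJn : (Cfsg.pCore 2 ↥(Subgroup.centralizer ({z} : Set G))).Normal]
    (e : (↥(Subgroup.centralizer ({z} : Set G)) ⧸ Cfsg.pCore 2 ↥(Subgroup.centralizer ({z} : Set G))) ≃* Cfsg.PSp 2 F) :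
    Nonempty (G ≃* Cfsg.PSU 6 K 2) ∨ Subgroup.centralizer ({z} : Set G) ⊔ Cfsg.oddCore G = ⊤ := by
  exact Cfsg.Agent.H316.Fin.result3230 z hz hF hK hJ hJc hCJ e fun X _ _ _ => Cfsg.Agent.S0000.result

end Cfsg.Agent.S3230
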