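import Cfsg.Statements.S3232
import Cfsg.Agent.S0000
import Cfsg.Agent.H316.Final2
-- import your own Cfsg.Agent.* helpers here

set_option autoImplicit false
open Cfsg

namespace Cfsg.Agent.S3232

/-- Let G be a finite group with an involution z, H = C_G(z), such that J = O₂(H) is an (internal) direct product of a group of order 2 and an extraspecial group of order 2⁹, with derived subgroup J′ = ⟨z⟩, C_H(J) ≤ J and H/J ≅ Aut(PSp₄(3)). Then G = H·O(G); or some involution z₁ ∈ Z(J) outside ⟨z⟩ generates a normal subgroup of G and G has a subgroup G₀ of index 2 containing z₁ with G₀/⟨z₁⟩ ≅ U₆(2); or G is isomorphic to the Fischer group Fi₂₂. -/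
theorem result {G : Type*} [Group G] [Finite G] (z : G) (hz : orderOf z = 2)
    {F : Type*} [Field F] [Fintype F] (hF : Fintype.card F = 3) {K : Type*} [Field K] [Fintype K] (hK : Fintype.card K = 4)
    (A E : Subgroup ↥(Subgroup.centralizer ({z} : Set G))) (hAE : Cfsg.IsInternalDirectProduct A E (Cfsg.pCore 2 ↥(Subgroup.centralizer ({z} : Set G)))) (hA : Nat.card ↥A = 2)
    (hE : Cfsg.IsExtraspecial 2 ↥E) (hEc : Nat.card ↥E = 2 ^ 9)
    (zc : ↥(Subgroup.centralizer ({z} : Set G))) (hzc : (zc : G) = z) (hJ' : ⁅(Cfsg.pCore 2 ↥(Subgroup.centralizer ({z} : Set G))), (Cfsg.pCore 2 ↥(Subgroup.centralizer ({z} : Set G)))⁆ = Subgroup.zpowers zc)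
    (hCJ : Subgroup.centralizer ((Cfsg.pCore 2 ↥(Subgroup.centralizer ({z} : Set G))) : Set ↥(Subgroup.centralizer ({z} : Set G))) ≤ Cfsg.pCore 2 ↥(Subgroup.centralizer ({z} : Set G))) [hJn : (Cfsg.pCore 2 ↥(Subgroup.centralizer ({z} : Set G))).Normal]
    (e : (↥(Subgroup.centralizer ({z} : Set G)) ⧸ Cfsg.pCore 2 ↥(Subgroup.centralizer ({z} : Set G))) ≃* MulAut (Cfsg.PSp 2 F)) :
    Subgroup.centralizer ({z} : Set G) ⊔ Cfsg.oddCore G = ⊤ ∨
      (∃ z₁ : G, orderOf z₁ = 2 ∧ z₁ ∉ Subgroup.zpowers z ∧ (∃ h₁ : z₁ ∈ Subgroup.centralizer ({z} : Set G), (⟨z₁, h₁⟩ : ↥(Subgroup.centralizer ({z} : Set G))) ∈ Cfsg.pCore 2 ↥(Subgroup.centralizer ({z} : Set G)) ∧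
          ∀ j ∈ Cfsg.pCore 2 ↥(Subgroup.centralizer ({z} : Set G)), j * ⟨z₁, h₁⟩ = ⟨z₁, h₁⟩ * j) ∧ (Subgroup.zpowers z₁).Normal ∧
        ∃ (G₀ : Subgroup G) (hz₁ : z₁ ∈ G₀), G₀.index = 2 ∧
          ∃ hn : ((Subgroup.zpowers z₁).subgroupOf G₀).Normal,
            Nonempty ((↥G₀ ⧸ (Subgroup.zpowers z₁).subgroupOf G₀) ≃* Cfsg.PSU 6 K 2)) ∨
      Cfsg.Spor.IsoFi22 G := by
  exact Cfsg.Agent.H316.Fin.result3232 z hz hF hK A E hAE hA hE hEc zc hzc hJ' hCJ e fun X _ _ _ => Cfsg.Agent.S0000.result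

end Cfsg.Agent.S3232
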