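import Cfsg.Statements.S3246
import Cfsg.Agent.H320.Early
import Cfsg.Agent.EvenType.CharTwoCent

set_option autoImplicit false
open Cfsg

namespace Cfsg.Agent.S3246

open Subgroup Cfsg.Agent.PLocal.PConstrained Cfsg.Agent.PLocal.PConstrainedLocal

/-- In both cases the centralizers of involutions have characteristic 2. -/
theorem charTwo {G : Type*} [Group G] [Finite G]
    (h : (∀ M : Subgroup G, Cfsg.IsMaximalTwoLocal M → Cfsg.IsPConstrained 2 ↥M ∧ Cfsg.oddCore ↥M = ⊥) ∨
      (∀ t : G, orderOf t = 2 → Cfsg.IsPConstrained 2 ↥(Subgroup.centralizer ({t} : Set G)) ∧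
        Cfsg.oddCore ↥(Subgroup.centralizer ({t} : Set G)) = ⊥)) (t : G) (ht : orderOf t = 2) :
    centralizer (pCore 2 ↥(centralizer ({t} : Set G)) : Set ↥(centralizer ({t} : Set G))) ≤
        pCore 2 ↥(centralizer ({t} : Set G)) := by
  have hF : Fact (Nat.Prime 2) := ⟨Nat.prime_two⟩
  rcases h with h | h
  · have htt : t * t = 1 := by rw [← pow_two, ← ht, pow_orderOf_eq_one]
    have ht1 : t ≠ 1 := by
      rintro rfl
      simp at ht
    have htp : IsPGroup 2 ↥(zpowers t) :=
      IsPGroup.of_card (n := 1) (by rw [Nat.card_zpowers, ht, pow_one])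
    obtain ⟨M, hM, hmax⟩ := Set.Finite.exists_le_maximal
      (s := {M : Subgroup G | Cfsg.IsTwoLocal M}) (Set.toFinite _)
      (a := Subgroup.normalizer ((zpowers t : Subgroup G) : Set G))
      ⟨zpowers t, htp, fun h => ht1 (zpowers_eq_bot.mp h), rfl⟩
    obtain ⟨hMc, hMo⟩ := h M ⟨hmax.prop, fun N hN hMN => le_antisymm (hmax.le_of_ge hN hMN) hMN⟩
    have hch := (isPConstrained_iff_of_pPrimeCore_eq_bot hMo).mp hMc
    rw [EvenType.CharTwoCent.normalizer_zpowers_eq htt] at hM
    have htM : zpowers t ≤ M := by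
      refine le_trans ?_ hM
      rw [Subgroup.zpowers_le]
      exact Subgroup.mem_centralizer_singleton_iff.mpr rfl
    have h1 := charP_centralizer hch (P := (zpowers t).subgroupOf M) htp.comap_subtype
    rw [← H320.PCon.centralizer_subgroupOf htM] at h1
    have e : centralizer ((zpowers t : Subgroup G) : Set G) = centralizer ({t} : Set G) := by
      rw [Subgroup.zpowers_eq_closure, Subgroup.centralizer_closure]
    rw [e] at h1
    exact charP_congr (Subgroup.subgroupOfEquivOfLe hM) h1
  · exact (isPConstrained_iff_of_pPrimeCore_eq_bot (h t ht).2).mp (h t ht).1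

/-- Let G be a finite group whose Sylow 2-subgroup S has a self-centralizing normal subgroup of rank at least 3. Suppose that either every maximal 2-local subgroup of G is 2-constrained with no nontrivial normal subgroup of odd order, or the centralizer of every involution of G is 2-constrained with no nontrivial normal subgroup of odd order. Then S normalizes no nontrivial subgroup of G of odd order and every 2-local subgroup of G is 2-constrained. -/
theorem result {G : Type*} [Group G] [Finite G]
    (S : Sylow 2 G) (A : Subgroup G) (hA : Cfsg.IsSCN (S : Subgroup G) A) (hA3 : ¬ Cfsg.PRankLE 2 2 ↥A)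
    (h : (∀ M : Subgroup G, Cfsg.IsMaximalTwoLocal M → Cfsg.IsPConstrained 2 ↥M ∧ Cfsg.oddCore ↥M = ⊥) ∨
      (∀ t : G, orderOf t = 2 → Cfsg.IsPConstrained 2 ↥(Subgroup.centralizer ({t} : Set G)) ∧
        Cfsg.oddCore ↥(Subgroup.centralizer ({t} : Set G)) = ⊥)) :
    (∀ X : Subgroup G, Odd (Nat.card ↥X) → (S : Subgroup G) ≤ Subgroup.normalizer (X : Set G) → X = ⊥) ∧
      (∀ T : Subgroup G, IsPGroup 2 ↥T → T ≠ ⊥ → Cfsg.IsPConstrained 2 ↥(Subgroup.normalizer (T : Set G))) := by
  have hF : Fact (Nat.Prime 2) := ⟨Nat.prime_two⟩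
  have hch := charTwo h
  constructor
  · intro X hX hSX
    have hA1 : ¬ Cfsg.PRankLE 2 1 ↥A := fun h1 =>
      hA3 fun B hB hB2 => (h1 B hB hB2).trans (by norm_num)
    obtain ⟨U, hUn, hU4, hU2, -⟩ := H320.Early.exists_normal_four_of_scn hA hA1
    exact H320.Early.eq_bot_of_normal_four S hch U hUn hU4 hU2 X hX hSX
  · intro T hT hT1
    obtain ⟨x, hxT, hx, hc⟩ := H320.PCon.exists_central_orderOf hT hT1
    exact H320.PCon.isPConstrained_normalizer_of_mem hT hxT hc (isPConstrained_of_charP (hch x hx))

end Cfsg.Agent.S3246
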