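import Cfsg.Statements.S3248
import Cfsg.Agent.S0000
import Cfsg.Agent.S0205
import Cfsg.Agent.OddTab.GenRowsDone
import Cfsg.Agent.OddTab.BRowsDone
import Cfsg.Agent.NotResT.All
import Cfsg.Agent.GTwoRows.ONFin
import Cfsg.Agent.ResEven.Base
import Cfsg.Agent.H320.Kill.GoodOf
import Cfsg.Agent.H320.Kill.Table

set_option autoImplicit false
open Cfsg

namespace Cfsg.Agent.S3248

/-- Say that a finite group G is of characteristic 2 type in the early sense when a Sylow 2-subgroup S of G has a self-centralizing normal subgroup of rank at least 3, S normalizes no nontrivial subgroup of odd order, and every 2-local subgroup of G is 2-constrained. Let G be a non-abelian simple group of characteristic 2 type in this sense such that a Sylow 3-subgroup P of G has a self-centralizing normal subgroup of rank at least 3 and normalizes no nontrivial 2-subgroup of G, every 3-local subgroup of G is 3-constrained, and some 2-local subgroup of G contains an elementary abelian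 subgroup of order 9. Then G is isomorphic to G₂(3), PSp₄(3) or U₄(3). -/
theorem result {G : Type*} [Group G] [Finite G] [IsSimpleGroup G]
    (hG : ¬ IsMulCommutative G) (S : Sylow 2 G) (A : Subgroup G) (hA : Cfsg.IsSCN (S : Subgroup G) A) (hA3 : ¬ Cfsg.PRankLE 2 2 ↥A)
    (hinv : ∀ X : Subgroup G, Odd (Nat.card ↥X) → (S : Subgroup G) ≤ Subgroup.normalizer (X : Set G) → X = ⊥)
    (hcon : ∀ T : Subgroup G, IsPGroup 2 ↥T → T ≠ ⊥ → Cfsg.IsPConstrained 2 ↥(Subgroup.normalizer (T : Set G)))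
    (P : Sylow 3 G) (B : Subgroup G) (hB : Cfsg.IsSCN (P : Subgroup G) B) (hB3 : ¬ Cfsg.PRankLE 3 2 ↥B)
    (hPinv : ∀ X : Subgroup G, IsPGroup 2 ↥X → (P : Subgroup G) ≤ Subgroup.normalizer (X : Set G) → X = ⊥)
    (h3con : ∀ R : Subgroup G, IsPGroup 3 ↥R → R ≠ ⊥ → Subgroup.normalizer (R : Set G) ≠ ⊤ → Cfsg.IsPConstrained 3 ↥(Subgroup.normalizer (R : Set G)))
    (h9 : ∃ (T E : Subgroup G), IsPGroup 2 ↥T ∧ T ≠ ⊥ ∧ E ≤ Subgroup.normalizer (T : Set G) ∧ Cfsg.IsElementaryAbelian 3 E ∧ Nat.card ↥E = 9) :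
    ∃ (F : Type) (_ : Field F) (_ : Fintype F), Fintype.card F = 3 ∧
      (Nonempty (G ≃* ↥(Cfsg.Lie.chevG2.group F)) ∨ Nonempty (G ≃* Cfsg.PSp 2 F) ∨
        ∃ (K : Type) (_ : Field K) (_ : Fintype K), Fintype.card K = 9 ∧ Nonempty (G ≃* Cfsg.PSU 4 K 3)) := by
  have hgood : Cfsg.Agent.H320.Kill.Good G :=
    Cfsg.Agent.H320.Kill.good_of hG (fun X hX => S0205.result hX) S A hA hA3 hinv hcon B hB3 h3con
  have hR : IsOfRestrictedEvenType G := Cfsg.Agent.ResEven.Base.restricted_of_charTwo hgood.char2 hgood.two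
  have hN := Cfsg.Agent.NotResT.All.notResMore_of (fun _ _ _ h => Cfsg.Agent.GTwoRows.lpExists_on h)
  exact Cfsg.Agent.H320.Kill.table hgood hN hR
    (Cfsg.Agent.SigTab.restList (Cfsg.Agent.OddTab.Rows.genRows fun X _ _ _ => Cfsg.Agent.S0000.result)
      Cfsg.Agent.OddTab.Rows.bRows Cfsg.Agent.NotResT.Inst.bNotC hN Cfsg.Agent.S0000.result hG hR)

end Cfsg.Agent.S3248
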