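import Cfsg.Statements.S3249
import Cfsg.Agent.H321.Seven

set_option autoImplicit false
open Cfsg

namespace Cfsg.Agent.S3249

open Cfsg.Agent.H321 Cfsg.Agent.H321.Chain

/-- Say a finite group has length at most k when it has no strictly decreasing chain of k + 2 subgroups (every chain G = G₀ > G₁ > ⋯ > G_n = 1 of subgroups has n ≤ k). A finite non-abelian simple group of length at most 7 is isomorphic to PSL₂(q) for some prime power q, to PSU₃(3), to A₇, to the Mathieu group M₁₁, to the Janko group J₁, or has order 126000. -/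
theorem result {G : Type*} [Group G] [Finite G] [IsSimpleGroup G]
    (hG : ¬ IsMulCommutative G) (hlen : ∀ c : Fin 9 → Subgroup G, ¬ StrictAnti c) :
    (∃ (F : Type) (_ : Field F) (_ : Fintype F), Nonempty (G ≃* Matrix.ProjectiveSpecialLinearGroup (Fin 2) F)) ∨
      (∃ (F : Type) (_ : Field F) (_ : Fintype F), Fintype.card F = 9 ∧ Nonempty (G ≃* Cfsg.PSU 3 F 3)) ∨
      Nonempty (G ≃* ↥(alternatingGroup (Fin 7))) ∨ Cfsg.Spor.IsoM11 G ∨ Cfsg.Spor.IsoJ1 G ∨ Nat.card G = 126000 := by
  have hp2 : Fact (Nat.Prime 2) := ⟨Nat.prime_two⟩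
  have hno : ¬ Has G 8 := fun h => by
    obtain ⟨c, hc⟩ := h.exists_strictAnti
    exact hlen c hc
  have hnp : ¬ IsPGroup 2 G := by
    intro h1
    have : Nontrivial (Subgroup.center G) := h1.center_nontrivial
    rcases (inferInstance : (Subgroup.center G).Normal).eq_bot_or_eq_top with h2 | h2
    · exact (Subgroup.nontrivial_iff_ne_bot _).1 this h2
    · apply hG
      exact ⟨⟨fun a b => (Subgroup.mem_center_iff.1 (h2 ▸ Subgroup.mem_top b : b ∈ Subgroup.center G) a)⟩⟩
  rcases Seven.main hG with h | h | h | h | h | h | h | h6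
  · exact Or.inl h
  · exact Or.inr (Or.inl h)
  · exact Or.inr (Or.inr (Or.inl h))
  · exact Or.inr (Or.inr (Or.inr (Or.inl h)))
  · exact Or.inr (Or.inr (Or.inr (Or.inr (Or.inl h))))
  · exact Or.inr (Or.inr (Or.inr (Or.inr (Or.inr h))))
  · exact absurd h hno
  · have h7 : ¬ 2 ^ 7 ∣ Nat.card G := by
      intro h7
      refine hno (has_succ_of_pow_dvd Nat.prime_two h7 ?_)
      intro h8
      exact hnp (IsPGroup.of_card h8)
    obtain ⟨S⟩ : Nonempty (Sylow 2 G) := inferInstance
    have hS : Nat.card ↥(S : Subgroup G) = 2 ^ 6 := by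
      rw [S.card_eq_multiplicity]
      congr 1
      apply le_antisymm
      · by_contra hcon
        push Not at hcon
        exact h7 ((Nat.prime_two.pow_dvd_iff_le_factorization Nat.card_pos.ne').2 hcon)
      · exact (Nat.prime_two.pow_dvd_iff_le_factorization Nat.card_pos.ne').1 h6
    have htop : (S : Subgroup G) ≠ ⊤ := by
      intro h
      apply hnp
      have h2 : Nat.card G = 2 ^ 6 := by rw [← hS, h, Subgroup.card_top]
      exact IsPGroup.of_card h2
    have hco : IsCoatom (S : Subgroup G) := by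
      by_contra hcon
      exact hno (has_of_sylow_not_coatom S hS htop hcon)
    rcases MaxSylow.main hG S hco with ⟨F, i1, i2, -, -, -, ⟨e⟩⟩ | ⟨F, i1, i2, hF, ⟨e⟩⟩ | h | h | h
    · exact Or.inl ⟨F, i1, i2, ⟨e⟩⟩
    · exfalso
      have hc := Orders.psl_eq (F := F) (n := 3) (by norm_num)
      rw [← Nat.card_congr e.toEquiv, hF] at hc
      have h2 : OrdDiv.glN 3 3 = 11232 := by decide
      have h3 : OrdDiv.fPSL.den 3 3 = 2 := by decide
      rw [h2, h3] at hc
      have h3 : Nat.card G = 5616 := by omega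
      rw [h3] at h6
      exact absurd h6 (by decide)
    · exact Or.inr (Or.inr (Or.inr (Or.inl h)))
    · exact absurd (h.mono (by norm_num)) hno
    · exact absurd ((pow_dvd_pow 2 (by norm_num : 7 ≤ 8)).trans h) h7

end Cfsg.Agent.S3249
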