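import Cfsg.Statements.S3250
import Cfsg.Agent.H321.MaxSylow

set_option autoImplicit false
open Cfsg

namespace Cfsg.Agent.S3250

open Cfsg.Agent.H321 Cfsg.Agent.H321.Chain

/-- the order of `PSL₂(q)`, `q` odd -/
theorem card_psl2 {F : Type} [Field F] [Fintype F] (hF : Odd (Fintype.card F)) :
    2 * Nat.card (Matrix.ProjectiveSpecialLinearGroup (Fin 2) F) =
      Fintype.card F * ((Fintype.card F - 1) * (Fintype.card F + 1)) := by
  have h := Orders.psl_eq (F := F) (n := 2) le_rfl
  have hq : 1 < Fintype.card F := Fintype.one_lt_card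
  obtain ⟨k, hk⟩ := hF
  change Nat.gcd 2 (Fintype.card F - 1) * (Fintype.card F - 1) * _ = OrdDiv.glN 2 (Fintype.card F) at h
  have h2 : Nat.gcd 2 (Fintype.card F - 1) = 2 :=
    Nat.gcd_eq_left ⟨k, by omega⟩
  rw [h2] at h
  have h3 : OrdDiv.glN 2 (Fintype.card F) = (Fintype.card F ^ 2 - 1) * (Fintype.card F ^ 2 - Fintype.card F) := by
    simp [OrdDiv.glN, List.range_succ]
  rw [h3] at h
  obtain ⟨j, hj⟩ : ∃ j, Fintype.card F = j + 1 := ⟨Fintype.card F - 1, by omega⟩
  rw [hj] at h ⊢
  have h4 : (j + 1) ^ 2 - 1 = j * (j + 2) := by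
    rw [show (j + 1) ^ 2 = j * (j + 2) + 1 by ring, Nat.add_sub_cancel]
  have h5 : (j + 1) ^ 2 - (j + 1) = j * (j + 1) := by
    rw [show (j + 1) ^ 2 = j * (j + 1) + (j + 1) by ring, Nat.add_sub_cancel]
  rw [h4, h5, Nat.add_sub_cancel] at h
  rw [Nat.add_sub_cancel]
  have hj0 : 0 < j := by omega
  apply Nat.eq_of_mul_eq_mul_left hj0
  nlinarith [h]

/-- With the length of a finite group defined as the maximum n for which there is a chain G = G₀ > G₁ > ⋯ > G_n = 1 of subgroups: a finite non-abelian simple group of length exactly 8 whose Sylow 2-subgroups have order 2⁷ is isomorphic to PSL₂(127). -/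
theorem result {G : Type*} [Group G] [Finite G] [IsSimpleGroup G]
    (hG : ¬ IsMulCommutative G) (h8 : ∃ c : Fin 9 → Subgroup G, StrictAnti c) (h9 : ∀ c : Fin 10 → Subgroup G, ¬ StrictAnti c)
    (S : Sylow 2 G) (hS : Nat.card ↥(S : Subgroup G) = 2 ^ 7) :
    ∃ (F : Type) (_ : Field F) (_ : Fintype F), Fintype.card F = 127 ∧ Nonempty (G ≃* Matrix.ProjectiveSpecialLinearGroup (Fin 2) F) := by
  have hp2 : Fact (Nat.Prime 2) := ⟨Nat.prime_two⟩
  have hno : ¬ Has G 9 := fun h => by
    obtain ⟨c, hc⟩ := h.exists_strictAnti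
    exact h9 c hc
  have hn8 : ¬ 2 ^ 8 ∣ Nat.card G := by
    intro h
    have h1 := S.card_eq_multiplicity
    rw [hS] at h1
    have h2 := Nat.pow_right_injective (le_refl 2) h1
    have h3 : 8 ≤ (Nat.card G).factorization 2 :=
      (Nat.prime_two.pow_dvd_iff_le_factorization Nat.card_pos.ne').1 h
    omega
  have hd7 : 2 ^ 7 ∣ Nat.card G := by
    rw [← hS]
    exact Subgroup.card_subgroup_dvd_card _
  have htop : (S : Subgroup G) ≠ ⊤ := by
    intro h
    have h1 : IsPGroup 2 G := by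
      have h2 : Nat.card G = 2 ^ 7 := by rw [← hS, h, Subgroup.card_top]
      exact IsPGroup.of_card h2
    have : Nontrivial (Subgroup.center G) := h1.center_nontrivial
    rcases (inferInstance : (Subgroup.center G).Normal).eq_bot_or_eq_top with h2 | h2
    · exact (Subgroup.nontrivial_iff_ne_bot _).1 this h2
    · apply hG
      exact ⟨⟨fun a b => (Subgroup.mem_center_iff.1 (h2 ▸ Subgroup.mem_top b : b ∈ Subgroup.center G) a)⟩⟩
  have hco : IsCoatom (S : Subgroup G) := by
    by_contra hcon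
    exact hno (has_of_sylow_not_coatom S hS htop hcon)
  rcases MaxSylow.main hG S hco with ⟨F, i1, i2, hF, hF3, hor, ⟨e⟩⟩ | ⟨F, i1, i2, hF, ⟨e⟩⟩ | h | h | h
  · refine ⟨F, i1, i2, ?_, ⟨e⟩⟩
    have hc := card_psl2 hF
    rw [← Nat.card_congr e.toEquiv] at hc
    rcases hor with ⟨hpr, ⟨k, hk1, hk⟩ | ⟨k, hk⟩⟩ | h9'
    · -- `q = 2 ^ k + 1`
      exfalso
      have hk2 : 2 ≤ k := by
        by_contra hcon
        have : k = 1 := by omega
        rw [hk, this] at hF3
        omega
      obtain ⟨j, rfl⟩ : ∃ j, k = j + 1 := ⟨k - 1, by omega⟩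
      rw [hk, Nat.add_sub_cancel] at hc
      have hc' : Nat.card G = 2 ^ (j + 1) * ((2 ^ (j + 1) + 1) * (2 ^ j + 1)) := by
        apply Nat.eq_of_mul_eq_mul_left (by norm_num : 0 < 2)
        rw [hc]
        ring
      have hodd : ¬ 2 ∣ (2 ^ (j + 1) + 1) * (2 ^ j + 1) := by
        intro h
        rcases Nat.prime_two.dvd_mul.1 h with h | h
        · have : 2 ∣ 2 ^ (j + 1) := dvd_pow_self 2 (by omega)
          omega
        · have : 2 ∣ 2 ^ j := dvd_pow_self 2 (by omega)
          omega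
      have hcop : ∀ e : ℕ, (2 ^ e).Coprime ((2 ^ (j + 1) + 1) * (2 ^ j + 1)) := fun e =>
        Nat.Coprime.pow_left e ((Nat.prime_two.coprime_iff_not_dvd).2 hodd)
      have h1 : 7 ≤ j + 1 := by
        rw [hc'] at hd7
        exact (Nat.pow_dvd_pow_iff_le_right (le_refl 2)).1 ((hcop 7).dvd_of_dvd_mul_right hd7)
      have h2 : j + 1 < 8 := by
        by_contra hcon
        apply hn8
        rw [hc']
        exact (pow_dvd_pow 2 (by omega)).trans (Dvd.intro _ rfl)
      have h3 : j = 6 := by omega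
      subst h3
      rw [hk] at hpr
      exact absurd hpr (by norm_num)
    · -- `q = 2 ^ k - 1`
      have hk3 : 3 ≤ k := by
        by_contra hcon
        have : k = 0 ∨ k = 1 ∨ k = 2 := by omega
        rcases this with rfl | rfl | rfl <;> omega
      obtain ⟨j, rfl⟩ : ∃ j, k = j + 2 := ⟨k - 2, by omega⟩
      have hj1 : 1 ≤ j := by omega
      have hpos : 1 ≤ 2 ^ j := Nat.one_le_two_pow
      have hpos1 : 2 ^ (j + 1) = 2 * 2 ^ j := by ring
      have hpos2 : 2 ^ (j + 2) = 4 * 2 ^ j := by ring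
      obtain ⟨m, hm⟩ : ∃ m, 2 ^ j = m + 1 := ⟨2 ^ j - 1, by omega⟩
      have hq1 : Fintype.card F = 4 * m + 3 := by omega
      rw [hk, hpos2, hm] at hc
      have hc' : Nat.card G = 2 ^ (j + 2) * ((4 * m + 3) * (2 * m + 1)) := by
        apply Nat.eq_of_mul_eq_mul_left (by norm_num : 0 < 2)
        rw [hc, hpos2, hm, hq1, show 4 * m + 3 - 1 = 2 * (2 * m + 1) by omega]
        ring
      have hodd : ¬ 2 ∣ (4 * m + 3) * (2 * m + 1) := by
        intro h
        rcases Nat.prime_two.dvd_mul.1 h with h | h <;> omega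
      have hcop : ∀ e : ℕ, (2 ^ e).Coprime ((4 * m + 3) * (2 * m + 1)) := fun e =>
        Nat.Coprime.pow_left e ((Nat.prime_two.coprime_iff_not_dvd).2 hodd)
      have h1 : 7 ≤ j + 2 := by
        rw [hc'] at hd7
        exact (Nat.pow_dvd_pow_iff_le_right (le_refl 2)).1 ((hcop 7).dvd_of_dvd_mul_right hd7)
      have h2 : j + 2 < 8 := by
        by_contra hcon
        apply hn8
        rw [hc']
        exact (pow_dvd_pow 2 (by omega)).trans (Dvd.intro _ rfl)
      have h3 : j = 5 := by omega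
      subst h3
      norm_num at hk
      omega
    · exfalso
      rw [h9'] at hc
      have h3 : Nat.card G = 360 := by omega
      rw [h3] at hd7
      exact absurd hd7 (by decide)
  · exfalso
    have hc := Orders.psl_eq (F := F) (n := 3) (by norm_num)
    rw [← Nat.card_congr e.toEquiv, hF] at hc
    have h2 : OrdDiv.glN 3 3 = 11232 := by decide
    have h3 : OrdDiv.fPSL.den 3 3 = 2 := by decide
    rw [h2, h3] at hc
    have h3 : Nat.card G = 5616 := by omega
    rw [h3] at hd7
    exact absurd hd7 (by decide)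
  · exfalso
    have h3 : Nat.card G = 7920 := OrdDiv.table.spor G (.m11, 7920) (by decide) h
    rw [h3] at hd7
    exact absurd hd7 (by decide)
  · exact absurd h hno
  · exact absurd h hn8

end Cfsg.Agent.S3250
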