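import Cfsg.Statements.S3251
import Cfsg.Agent.H321.Smooth
import Cfsg.Agent.H436.Simple
import Cfsg.Agent.S0252
import Cfsg.Agent.S0253
import Cfsg.Agent.S0254
import Cfsg.Agent.S0255
import Cfsg.Agent.S0256

set_option autoImplicit false
open Cfsg

namespace Cfsg.Agent.S3251

open Subgroup Cfsg.Agent.OrdDiv Cfsg.Agent.H436 Cfsg.Agent.H321.Smooth

universe u

variable {G : Type u} [Group G] [Finite G]

theorem card_normalizer {p : ℕ} [Fact p.Prime] (P : Sylow p G) (hPp : Nat.card ↥(P : Subgroup G) = p)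
    (hN : (P : Subgroup G).relIndex (normalizer ((P : Subgroup G) : Set G)) = 2) (Q : Sylow p G) :
    Nat.card (normalizer ((Q : Subgroup G) : Set G)) = 2 * p := by
  have h1 : Nat.card (normalizer ((P : Subgroup G) : Set G)) = 2 * p := by
    have h := ((P : Subgroup G).subgroupOf (normalizer ((P : Subgroup G) : Set G))).card_mul_index
    rw [Nat.card_congr (Subgroup.subgroupOfEquivOfLe le_normalizer).toEquiv, hPp] at h
    change p * (P : Subgroup G).relIndex (normalizer ((P : Subgroup G) : Set G)) = _ at h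
    rw [hN] at h
    rw [← h, mul_comm]
  have h2 := (normalizer ((P : Subgroup G) : Set G)).card_mul_index
  have h3 := (normalizer ((Q : Subgroup G) : Set G)).card_mul_index
  have h4 : (normalizer ((P : Subgroup G) : Set G)).index = Nat.card (Sylow p G) := (P.card_eq_index_normalizer).symm
  have h5 : (normalizer ((Q : Subgroup G) : Set G)).index = Nat.card (Sylow p G) := (Q.card_eq_index_normalizer).symm
  rw [h4] at h2
  rw [h5] at h3
  rw [← h2] at h3
  rw [← h1]
  exact Nat.eq_of_mul_eq_mul_right Nat.card_pos h3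

theorem ctx {p : ℕ} [hp : Fact p.Prime] (hp2 : p ≠ 2) (a b c d : ℕ)
    (hord : Nat.card G = 2 ^ a * 3 ^ b * 5 ^ c * 7 ^ d * p)
    (P : Sylow p G) (hPp : Nat.card ↥(P : Subgroup G) = p)
    (hN : (P : Subgroup G).relIndex (normalizer ((P : Subgroup G) : Set G)) = 2) : Ctx (Nat.card G) p where
  form := ⟨a, b, c, d, hord⟩
  prime := hp.out
  ne_two := hp2
  sq h := by
    have h1 := P.card_eq_multiplicity
    rw [hPp] at h1
    have h2 : 2 ≤ (Nat.card G).factorization p := (hp.out.pow_dvd_iff_le_factorization Nat.card_pos.ne').1 h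
    have h3 : p ^ 2 ≤ p := by
      calc p ^ 2 ≤ p ^ (Nat.card G).factorization p := Nat.pow_le_pow_right hp.out.pos h2
        _ = p := h1.symm
    have := hp.out.two_le
    nlinarith
  syl := by
    have h1 := card_normalizer P hPp hN P
    have h2 := (normalizer ((P : Subgroup G) : Set G)).card_mul_index
    have h6 : (normalizer ((P : Subgroup G) : Set G)).index = Nat.card (Sylow p G) :=
      (P.card_eq_index_normalizer).symm
    rw [h6, h1] at h2
    have h3 := card_sylow_modEq_one p G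
    refine ⟨Nat.card (Sylow p G) / p, ?_⟩
    rw [← h2]
    congr 1
    have h4 : Nat.card (Sylow p G) % p = 1 := by
      rw [h3]
      exact Nat.mod_eq_of_lt hp.out.one_lt
    have h5 := Nat.div_add_mod (Nat.card (Sylow p G)) p
    rw [h4] at h5
    rw [mul_comm, add_comm]
    exact h5.symm

/-- an element of order 15 -/
theorem no_fifteen [Fact (Nat.Prime 5)] (P : Sylow 5 G) (hPp : Nat.card ↥(P : Subgroup G) = 5)
    (hN : (P : Subgroup G).relIndex (normalizer ((P : Subgroup G) : Set G)) = 2) (x : G) (hx : orderOf x = 15) :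
    False := by
  have h3 : orderOf (x ^ 3) = 5 := by
    rw [orderOf_pow, hx]
    norm_num
  have hc : Nat.card (zpowers (x ^ 3)) = 5 := by rw [Nat.card_zpowers, h3]
  have hpg : IsPGroup 5 (zpowers (x ^ 3)) := IsPGroup.of_card (n := 1) (by rw [hc, pow_one])
  obtain ⟨Q, hQ⟩ := hpg.exists_le_sylow
  have hQc : Nat.card (Q : Subgroup G) = 5 := by
    rw [Q.card_eq_multiplicity, ← P.card_eq_multiplicity, hPp]
  have hQe : zpowers (x ^ 3) = (Q : Subgroup G) := by
    apply Subgroup.eq_of_le_of_card_ge hQ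
    rw [hQc, hc]
  have hle : zpowers x ≤ normalizer ((Q : Subgroup G) : Set G) := by
    rw [← hQe, zpowers_le, mem_normalizer_iff]
    intro h
    have key : ∀ y : G, y ∈ zpowers (x ^ 3) → x * y * x⁻¹ = y := by
      intro y hy
      obtain ⟨k, rfl⟩ := mem_zpowers_iff.1 hy
      have : Commute x ((x ^ 3) ^ k) := ((Commute.refl x).pow_right 3).zpow_right k
      rw [this.eq, mul_inv_cancel_right]
    constructor
    · intro hh
      rw [key h hh]
      exact hh
    · intro hh
      have h1 := key _ hh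
      have h2 : x * h * x⁻¹ = h := by
        have h3 : x * (x * h * x⁻¹) * x⁻¹ = x * h * x⁻¹ := h1
        have h4 : x * (x * h * x⁻¹) = x * h := mul_right_cancel h3
        exact mul_left_cancel h4
      rwa [h2] at hh
  have h1 := Subgroup.card_dvd_of_le hle
  rw [Nat.card_zpowers, hx, card_normalizer P hPp hN Q] at h1
  exact absurd h1 (by norm_num)

/-- the element `(0 1 2 3 4)(5 6 7)` of `A₈` -/
def el : alternatingGroup (Fin 8) :=
  ⟨c[0, 1, 2, 3, 4] * c[5, 6, 7], by rw [Equiv.Perm.mem_alternatingGroup]; decide⟩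

theorem order_el : orderOf el = 15 := by
  rw [orderOf_eq_iff (by norm_num)]
  refine ⟨by decide +kernel, ?_⟩
  intro m hm hm0
  interval_cases m <;> decide +kernel

/-- `A₈` -/
theorem no_alt_eight {p : ℕ} [hp : Fact p.Prime] (hc : Ctx (Nat.card G) p) (ho : Nat.card G = 20160)
    (P : Sylow p G) (hPp : Nat.card ↥(P : Subgroup G) = p)
    (hN : (P : Subgroup G).relIndex (normalizer ((P : Subgroup G) : Set G)) = 2)
    (e : G ≃* alternatingGroup (Fin 8)) : False := by
  have h1 := hc.dvd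
  have h2 := hc.sq
  have h3 := hc.syl_div
  rw [ho] at h1 h2 h3
  have h4 : p = 2 ∨ p = 3 ∨ p = 5 ∨ p = 7 := by
    have h5 : p ∣ 2 ^ 6 * 3 ^ 2 * 5 * 7 := by norm_num; exact h1
    rcases hp.out.dvd_mul.1 h5 with h5 | h5
    · rcases hp.out.dvd_mul.1 h5 with h5 | h5
      · rcases hp.out.dvd_mul.1 h5 with h5 | h5
        · exact Or.inl ((Nat.prime_dvd_prime_iff_eq hp.out Nat.prime_two).1 (hp.out.dvd_of_dvd_pow h5))
        · exact Or.inr (Or.inl ((Nat.prime_dvd_prime_iff_eq hp.out Nat.prime_three).1 (hp.out.dvd_of_dvd_pow h5)))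
      · exact Or.inr (Or.inr (Or.inl ((Nat.prime_dvd_prime_iff_eq hp.out Nat.prime_five).1 h5)))
    · exact Or.inr (Or.inr (Or.inr ((Nat.prime_dvd_prime_iff_eq hp.out (by norm_num)).1 h5)))
  rcases h4 with rfl | rfl | rfl | rfl
  · exact hc.ne_two rfl
  · exact h2 (by norm_num)
  · refine no_fifteen P hPp hN (e.symm el) ?_
    rw [MulEquiv.orderOf_eq, order_el]
  · norm_num at h3

/-- Let G be a finite non-abelian simple group of order 2^a·3^b·5^c·7^d·p with a > 0 and p an odd prime occurring to the first power (a Sylow p-subgroup of G has order p), such that a Sylow p-subgroup of G has index 2 in its normalizer. Then G is isomorphic to one of PSL₂(5), PSL₂(7), PSL₂(9), PSL₂(8), PSL₂(16), PSL₂(25), PSL₂(27), PSL₂(81), PSL₂(2401), PSL₃(4). -/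
theorem result {G : Type*} [Group G] [Finite G] [IsSimpleGroup G]
    (hG : ¬ IsMulCommutative G) (a b c d p : ℕ) (ha : 0 < a) (hp : p.Prime) (hp2 : p ≠ 2)
    (hord : Nat.card G = 2 ^ a * 3 ^ b * 5 ^ c * 7 ^ d * p)
    (P : Sylow p G) (hPp : Nat.card ↥(P : Subgroup G) = p) (hN : (P : Subgroup G).relIndex (Subgroup.normalizer ((P : Subgroup G) : Set G)) = 2) :
    (∃ (F : Type) (_ : Field F) (_ : Fintype F), Fintype.card F = 5 ∧ Nonempty (G ≃* Matrix.ProjectiveSpecialLinearGroup (Fin 2) F)) ∨ (∃ (F : Type) (_ : Field F) (_ : Fintype F), Fintype.card F = 7 ∧ Nonempty (G ≃* Matrix.ProjectiveSpecialLinearGroup (Fin 2) F)) ∨ (∃ (F : Type) (_ : Field F) (_ : Fintype F), Fintype.card F = 9 ∧ Nonempty (G ≃* Matrix.ProjectiveSpecialLinearGroup (Fin 2) F)) ∨ (∃ (F : Type) (_ : Field F) (_ : Fintype F), Fintype.card F = 8 ∧ Nonempty (G ≃* Matrix.ProjectiveSpecialLinearGroup (Fin 2) F)) ∨ (∃ (F : Type) (_ : Field F) (_ : Fintype F), Fintype.card F = 16 ∧ Nonempty (G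 ≃* Matrix.ProjectiveSpecialLinearGroup (Fin 2) F)) ∨ (∃ (F : Type) (_ : Field F) (_ : Fintype F), Fintype.card F = 25 ∧ Nonempty (G ≃* Matrix.ProjectiveSpecialLinearGroup (Fin 2) F)) ∨ (∃ (F : Type) (_ : Field F) (_ : Fintype F), Fintype.card F = 27 ∧ Nonempty (G ≃* Matrix.ProjectiveSpecialLinearGroup (Fin 2) F)) ∨ (∃ (F : Type) (_ : Field F) (_ : Fintype F), Fintype.card F = 81 ∧ Nonempty (G ≃* Matrix.ProjectiveSpecialLinearGroup (Fin 2) F)) ∨ (∃ (F : Type) (_ : Field F) (_ : Fintype F), Fintype.card F = 2401 ∧ Nonempty (G ≃* Matrix.ProjectiveSpecialLinearGroup (Fin 2) F)) ∨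
      (∃ (F : Type) (_ : Field F) (_ : Fintype F), Fintype.card F = 4 ∧ Nonempty (G ≃* Matrix.ProjectiveSpecialLinearGroup (Fin 3) F)) := by
  have hpf : Fact p.Prime := ⟨hp⟩
  have hc := ctx hp2 a b c d hord P hPp hN
  obtain ⟨g, hg⟩ := name hG
  have hm := main hc hg.cond hg.eq hg.ord
  have hr := hg.real
  have ho := hg.ord
  have five : ∀ (e : G ≃* alternatingGroup (Fin 5)), ∃ (F : Type) (_ : Field F) (_ : Fintype F),
      Fintype.card F = 5 ∧ Nonempty (G ≃* Matrix.ProjectiveSpecialLinearGroup (Fin 2) F) := by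
    intro e
    have : Fact (Nat.Prime 5) := ⟨by norm_num⟩
    obtain ⟨f⟩ := S0253.result (F := ZMod 5) (ZMod.card 5)
    exact ⟨ZMod 5, inferInstance, inferInstance, ZMod.card 5, ⟨e.trans f.symm⟩⟩
  unfold EXC at hm
  simp only [List.mem_cons, List.not_mem_nil, or_false] at hm
  rcases hm with rfl | rfl | rfl | rfl | rfl | rfl | rfl | rfl | rfl | rfl | rfl | rfl | rfl | rfl | rfl | rfl
  · obtain ⟨e⟩ := hr
    exact Or.inl (five e)
  · obtain ⟨e⟩ := hr
    have : Fact (Nat.Prime 3) := ⟨Nat.prime_three⟩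
    have _ : Fintype (GaloisField 3 2) := Fintype.ofFinite _
    have hc : Fintype.card (GaloisField 3 2) = 9 := by
      rw [← Nat.card_eq_fintype_card, GaloisField.card 3 2 (by norm_num)]; norm_num
    obtain ⟨f⟩ := S0254.result (F := GaloisField 3 2) hc
    exact Or.inr (Or.inr (Or.inl ⟨GaloisField 3 2, inferInstance, inferInstance, hc, ⟨e.trans f.symm⟩⟩))
  · obtain ⟨e⟩ := hr
    exact (no_alt_eight hc (ho.trans (by decide)) P hPp hN e).elim
  · obtain ⟨F, i1, i2, hF, ⟨e⟩⟩ := hr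
    have : Fact (Nat.Prime 7) := ⟨by norm_num⟩
    obtain ⟨f⟩ := S0255.result (F := ZMod 7) (K := F) (ZMod.card 7) hF
    exact Or.inr (Or.inl ⟨ZMod 7, inferInstance, inferInstance, ZMod.card 7, ⟨e.trans f.symm⟩⟩)
  · obtain ⟨F, i1, i2, hF, ⟨e⟩⟩ := hr
    obtain ⟨f⟩ := S0256.result hF
    exact (no_alt_eight hc (ho.trans (by decide)) P hPp hN (e.trans f)).elim
  · exact Or.inr (Or.inr (Or.inr (Or.inr (Or.inr (Or.inr (Or.inr (Or.inr (Or.inr hr))))))))
  · obtain ⟨F, i1, i2, hF, ⟨e⟩⟩ := hr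
    obtain ⟨f⟩ := S0252.result hF
    exact Or.inl (five (e.trans f))
  · exact Or.inr (Or.inr (Or.inr (Or.inl hr)))
  · exact Or.inr (Or.inr (Or.inr (Or.inr (Or.inl hr))))
  · exact Or.inr (Or.inr (Or.inl hr))
  · exact Or.inr (Or.inr (Or.inr (Or.inr (Or.inr (Or.inr (Or.inl hr))))))
  · exact Or.inr (Or.inr (Or.inr (Or.inr (Or.inr (Or.inr (Or.inr (Or.inl hr)))))))
  · exact Or.inl hr
  · exact Or.inr (Or.inr (Or.inr (Or.inr (Or.inr (Or.inl hr)))))
  · exact Or.inr (Or.inl hr)
  · exact Or.inr (Or.inr (Or.inr (Or.inr (Or.inr (Or.inr (Or.inr (Or.inr (Or.inl hr))))))))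

end Cfsg.Agent.S3251
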