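import Cfsg.Statements.S3253
import Cfsg.Agent.H322.Cent.Exc
import Cfsg.Agent.H322.Cent.Spor
import Cfsg.Agent.OrdDiv.Table
import Cfsg.Agent.S0000

set_option autoImplicit false
open Cfsg

namespace Cfsg.Agent.S3253

/-- Let G be a finite non-abelian simple group containing an element of order 3, in which the centralizer of every element of order 3 is isomorphic to Z₃ × Z₃ or to Z₃ × A₄. Then G is isomorphic to A₆, A₇, L₃(4), L₃(7), U₃(5), or the Mathieu group M₂₂. -/
theorem result {G : Type*} [Group G] [Finite G] [IsSimpleGroup G]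
    (hG : ¬ IsMulCommutative G) (h3ex : ∃ s : G, orderOf s = 3)
    (h3 : ∀ s : G, orderOf s = 3 →
      Nonempty (↥(Subgroup.centralizer ({s} : Set G)) ≃* (Multiplicative (ZMod 3) × Multiplicative (ZMod 3))) ∨
      Nonempty (↥(Subgroup.centralizer ({s} : Set G)) ≃* (Multiplicative (ZMod 3) × ↥(alternatingGroup (Fin 4))))) :
    Nonempty (G ≃* ↥(alternatingGroup (Fin 6))) ∨ Nonempty (G ≃* ↥(alternatingGroup (Fin 7))) ∨
      (∃ (F : Type) (_ : Field F) (_ : Fintype F), (Fintype.card F = 4 ∨ Fintype.card F = 7) ∧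
        Nonempty (G ≃* Matrix.ProjectiveSpecialLinearGroup (Fin 3) F)) ∨
      (∃ (F : Type) (_ : Field F) (_ : Fintype F), Fintype.card F = 25 ∧ Nonempty (G ≃* Cfsg.PSU 3 F 5)) ∨
      Cfsg.Spor.IsoM22 G := by
  have h := Cfsg.Agent.H322.Cent.Q.of_hyp h3ex h3
  exact Cfsg.Agent.H322.Cent.final Cfsg.Agent.OrdDiv.table Cfsg.Agent.S0000.result h
    (Cfsg.Agent.H322.Cent.not_m11 h) (Cfsg.Agent.H322.Cent.not_m23 h) (Cfsg.Agent.H322.Cent.not_hs h)

end Cfsg.Agent.S3253
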