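import Cfsg.Statements.S3255
import Cfsg.Agent.H322.Tri.Fin2
import Cfsg.Agent.HKS.AllOf
import Cfsg.Agent.HKS.GoalRee
import Cfsg.Agent.ThreePrime.Main
import Cfsg.Agent.S0205

set_option autoImplicit false
open Cfsg

namespace Cfsg.Agent.S3255

/-- Let G be a finite triply transitive permutation group on a set Ω of more than 3 points whose size is divisible by 3. Then every nontrivial normal subgroup H of G has at most two orbits on the set of ordered triples of distinct points of Ω; and if moreover |Ω| ≢ 2 (mod 4), then H is triply transitive or H contains a normal subgroup isomorphic to PSL₂(q) with q = |Ω| − 1. -/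
theorem result {G : Type*} [Group G] [Finite G]
    {Ω : Type*} [Fintype Ω] [MulAction G Ω] [FaithfulSMul G Ω] (h3 : MulAction.IsMultiplyPretransitive G Ω 3)
    (hΩ : 3 ∣ Fintype.card Ω) (hΩ3 : 3 < Fintype.card Ω) (H : Subgroup G) [hHn : H.Normal] (hH : H ≠ ⊥) :
    Nat.card (MulAction.orbitRel.Quotient ↥H (Fin 3 ↪ Ω)) ≤ 2 ∧
      (Fintype.card Ω % 4 ≠ 2 → MulAction.IsMultiplyPretransitive ↥H Ω 3 ∨
        ∃ (N : Subgroup ↥H) (F : Type) (_ : Field F) (_ : Fintype F), N.Normal ∧ Fintype.card F + 1 = Fintype.card Ω ∧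
          Nonempty (↥N ≃* Matrix.ProjectiveSpecialLinearGroup (Fin 2) F)) := by
  have h3' : Cfsg.Agent.H322.Tri.T3 G Ω := by
    intro a b c a' b' c' hab hac hbc hab' hac' hbc'
    obtain ⟨x, hx0, hx1, hx2⟩ := Cfsg.Agent.S0699.exists_embedding a b c hab hac hbc
    obtain ⟨y, hy0, hy1, hy2⟩ := Cfsg.Agent.S0699.exists_embedding a' b' c' hab' hac' hbc'
    obtain ⟨g, hg⟩ := (MulAction.isMultiplyPretransitive_iff.mp h3) x y
    have hg' : ∀ i, g • x i = y i := fun i => by rw [← hg]; rfl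
    exact ⟨g, by rw [← hx0, ← hy0, hg'], by rw [← hx1, ← hy1, hg'], by rw [← hx2, ← hy2, hg']⟩
  rw [← Nat.card_eq_fintype_card] at hΩ hΩ3 ⊢
  obtain ⟨h4, h5⟩ := Cfsg.Agent.H322.Tri.final (Cfsg.Agent.HKS.all_of Cfsg.Agent.HKS.goalRee)
    (fun J _ _ _ hna h3 => Cfsg.Agent.ThreePrime.Main.isoSuzuki hna h3)
    (fun J _ _ hJ => Cfsg.Agent.S0205.result hJ) h3' hΩ hΩ3 H hH
  refine ⟨h4, fun h => ?_⟩
  rcases h5 h with h6 | h6
  swap
  · exact Or.inr h6
  left
  rw [MulAction.isMultiplyPretransitive_iff]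
  intro x y
  have hx : ∀ i j, i ≠ j → x i ≠ x j := fun i j hij h => hij (x.injective h)
  have hy : ∀ i j, i ≠ j → y i ≠ y j := fun i j hij h => hij (y.injective h)
  obtain ⟨g, hgN, hg0, hg1, hg2⟩ := h6 (x 0) (x 1) (x 2) (y 0) (y 1)
    (y 2) (hx _ _ (by decide)) (hx _ _ (by decide)) (hx _ _ (by decide)) (hy _ _ (by decide))
    (hy _ _ (by decide)) (hy _ _ (by decide))
  refine ⟨⟨g, hgN⟩, ?_⟩
  ext i
  fin_cases i
  · exact hg0
  · exact hg1
  · exact hg2

end Cfsg.Agent.S3255
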