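import Cfsg.Statements.S3258
import Cfsg.Agent.H323.PiHomPSL
import Cfsg.Agent.S0205
import Cfsg.Agent.Classification.MinSimpleStrong

set_option autoImplicit false
open Cfsg

namespace Cfsg.Agent.S3258

open Cfsg.Agent.H323.PiHom

universe u

variable {π : Set ℕ}

/-- an odd prime divisor of `2 ^ p - 1` -/
theorem exists_odd_prime_two {p : ℕ} (hp : p.Prime) :
    ∃ s : ℕ, s.Prime ∧ s ≠ 2 ∧ s ∣ 2 ^ p - 1 := by
  have h1 : 2 ^ 2 ≤ 2 ^ p := Nat.pow_le_pow_right (by norm_num) hp.two_le
  have h2 : 2 ^ p - 1 ≠ 1 := by omega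
  refine ⟨(2 ^ p - 1).minFac, Nat.minFac_prime h2, ?_, Nat.minFac_dvd _⟩
  intro h
  have h3 := Nat.minFac_dvd (2 ^ p - 1)
  rw [h] at h3
  have h4 : 2 ∣ 2 ^ p := dvd_pow_self 2 hp.ne_zero
  omega

/-- an odd prime divisor of `3 ^ p - 1` -/
theorem exists_odd_prime_three {p : ℕ} (hp : p.Prime) (hp2 : p ≠ 2) :
    ∃ s : ℕ, s.Prime ∧ s ≠ 2 ∧ s ∣ 3 ^ p - 1 := by
  obtain ⟨k, hk⟩ := hp.odd_of_ne_two hp2
  have hk0 : k ≠ 0 := by
    rintro rfl
    exact hp.one_lt.ne (by omega)
  have h1 : 3 ^ p % 4 = 3 := by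
    rw [hk, pow_succ, pow_mul, Nat.mul_mod, Nat.pow_mod]
    norm_num
  have h2 : 3 ^ 2 ≤ 3 ^ p := Nat.pow_le_pow_right (by norm_num) hp.two_le
  obtain ⟨m, hm⟩ : ∃ m, 3 ^ p - 1 = 2 * m := ⟨(3 ^ p - 1) / 2, by omega⟩
  have hm1 : m ≠ 1 := by omega
  refine ⟨m.minFac, Nat.minFac_prime hm1, ?_, ?_⟩
  · intro h
    have h3 := Nat.minFac_dvd m
    rw [h] at h3
    omega
  · rw [hm]
    exact (Nat.minFac_dvd m).mul_left 2

theorem no_minimal_simple (h2 : 2 ∈ π) {G : Type u} [Group G] [Finite G] (hT : TwoClosed π G)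
    (hH : Homog π G) (hG : IsMinimalSimple G) : False := by
  rcases Cfsg.Agent.Classification.MinSimpleStrong.concl hG with
    ⟨p, hp, F, _, _, hF, ⟨e⟩⟩ | ⟨p, hp, hp2, F, _, _, hF, ⟨e⟩⟩ | ⟨p, hp, hp5, F, _, _, hF, ⟨e⟩⟩ |
      ⟨F, _, _, hF, ⟨e⟩⟩ | ⟨F, _, _, m, hm, -, hF, ⟨e⟩⟩
  · obtain ⟨s, hs, hs2, hsd⟩ := exists_odd_prime_two hp
    exact not_psl2_of_dvd h2 Nat.prime_two h2 hF hs hs2 (by rw [hF]; exact hsd)
      (hT.of_equiv e) (hH.of_equiv e)
  · obtain ⟨s, hs, hs2, hsd⟩ := exists_odd_prime_three hp hp2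
    have hodd : Fintype.card F % 2 = 1 := by
      rw [hF, Nat.pow_mod]; norm_num
    exact not_psl2_of_dvd h2 Nat.prime_three (three_mem_psl2 h2 hodd (hH.of_equiv e)) hF hs hs2
      (by rw [hF]; exact hsd) (hT.of_equiv e) (hH.of_equiv e)
  · have hp5' : 5 ≤ p := by omega
    have hodd : Fintype.card F % 2 = 1 := by
      rw [hF]
      rcases hp.eq_two_or_odd with h | h
      · omega
      · exact h
    have h30 : (3 : F) ≠ 0 := by
      intro h3
      have hc : CharP F p := by
        have : Fact p.Prime := ⟨hp⟩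
        exact charP_of_card_eq_prime (R := F) hF
      have h4 : ((3 : ℕ) : F) = 0 := by exact_mod_cast h3
      rw [CharP.cast_eq_zero_iff F p] at h4
      have := Nat.le_of_dvd (by norm_num) h4
      omega
    exact three_not_mem_psl2 h2 hodd h30 (hT.of_equiv e) (three_mem_psl2 h2 hodd (hH.of_equiv e))
  · have h20 : (2 : F) ≠ 0 := by
      have h1 : ringChar F ≠ 2 := by
        intro h
        have := FiniteField.even_card_iff_char_two.1 h
        rw [hF] at this
        omega
      exact Ring.two_ne_zero h1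
    exact not_psl3 h2 h20 (hT.of_equiv e) (hH.of_equiv e)
  · exact not_suzuki h2 hm hF (hT.of_equiv e) (hH.of_equiv e)

theorem pc_of_simple (h2 : 2 ∈ π) (G : Type u) [Group G] [Finite G] (hG : IsSimpleGroup G)
    (hT : TwoClosed π G) (hH : Homog π G) (hsub : ∀ H : Subgroup G, H ≠ ⊤ → PC π ↥H) : PC π G := by
  by_cases hc : IsMulCommutative G
  · let _ : CommGroup G := { mul_comm := hc.is_comm.comm }
    have hp : (Nat.card G).Prime := IsSimpleGroup.prime_card
    by_cases hpi : Nat.card G ∈ π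
    · refine ⟨⊥, inferInstance, ?_, ?_⟩
      · rw [Subgroup.card_bot]; exact piNum'_one
      · rw [Subgroup.index_bot]
        intro q hq hd
        rw [(Nat.prime_dvd_prime_iff_eq hq hp).1 hd]; exact hpi
    · refine ⟨⊤, inferInstance, ?_, ?_⟩
      · rw [Subgroup.card_top]
        intro q hq hd
        rw [(Nat.prime_dvd_prime_iff_eq hq hp).1 hd]; exact hpi
      · rw [Subgroup.index_top]; exact piNum_one
  · exfalso
    refine no_minimal_simple h2 hT hH ⟨hG, hc, fun H hne => ?_⟩
    exact solvable_of_pc h2 (fun X _ _ hX => Cfsg.Agent.S0205.result hX) (hT.subgroup H) (hsub H hne)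

/-- Let π be a set of primes containing 2 and G a finite group all of whose π-subgroups (subgroups whose order is divisible only by primes in π) have a normal Sylow 2-subgroup. Then the π'-elements of G (elements whose order is divisible by no prime in π) form a subgroup if and only if N_G(H)/C_G(H) is a π-group for every nontrivial π-subgroup H of G. -/
theorem result {G : Type*} [Group G] [Finite G] (π : Set ℕ) (h2 : 2 ∈ π)
    (hcl : ∀ H : Subgroup G, (∀ p : ℕ, p.Prime → p ∣ Nat.card ↥H → p ∈ π) → ∀ P : Sylow 2 ↥H, (P : Subgroup ↥H).Normal) :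
    (∃ K : Subgroup G, ∀ x : G, x ∈ K ↔ ∀ p : ℕ, p.Prime → p ∣ orderOf x → p ∉ π) ↔
      (∀ H : Subgroup G, H ≠ ⊥ → (∀ p : ℕ, p.Prime → p ∣ Nat.card ↥H → p ∈ π) →
        ∀ p : ℕ, p.Prime → p ∣ (Subgroup.centralizer (H : Set G)).relIndex (Subgroup.normalizer (H : Set G)) → p ∈ π) := by
  constructor
  · rintro ⟨K, hK⟩ H hne hHpi p hp hd
    by_contra hpn
    -- `K` is normal and a `π'`-group
    have hKn : ∀ x ∈ K, ∀ g : G, g * x * g⁻¹ ∈ K := by
      intro x hx g
      rw [hK] at hx ⊢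
      have h3 : orderOf (g * x * g⁻¹) = orderOf x := by
        have h4 : g * x * g⁻¹ = MulAut.conj g x := by rw [MulAut.conj_apply]
        rw [h4]
        exact (MulAut.conj g).orderOf_eq x
      rwa [h3]
    set N := Subgroup.normalizer (H : Set G) with hN
    set C := Subgroup.centralizer (H : Set G) with hC
    have hCn : (C.subgroupOf N).Normal := by
      refine ⟨fun x hx g => ?_⟩
      rw [Subgroup.mem_subgroupOf, hC, Subgroup.mem_centralizer_iff] at hx ⊢
      intro h hh
      have h1 : (g : G)⁻¹ * h * g ∈ (H : Set G) := by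
        have hg : ((g : G))⁻¹ ∈ Subgroup.normalizer (H : Set G) := N.inv_mem g.2
        have := (Subgroup.mem_normalizer_iff.1 hg h).1 hh
        simpa using this
      have h3 := hx _ h1
      calc h * ((g * x * g⁻¹ : ↥N) : G) = g * ((g : G)⁻¹ * h * g * x) * (g : G)⁻¹ := by
            simp [mul_assoc]
        _ = g * (x * ((g : G)⁻¹ * h * g)) * (g : G)⁻¹ := by rw [h3]
        _ = ((g * x * g⁻¹ : ↥N) : G) * h := by simp [mul_assoc]
    have : Fact p.Prime := ⟨hp⟩
    obtain ⟨y, hy⟩ := exists_prime_orderOf_dvd_card' (G := ↥N ⧸ C.subgroupOf N) p hd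
    obtain ⟨x, rfl⟩ := QuotientGroup.mk'_surjective (C.subgroupOf N) y
    -- replace `x` by a `p`-element
    obtain ⟨P⟩ : Nonempty (Sylow p ↥N) := inferInstance
    -- the Sylow `p`-subgroup of `N` centralizes `H`
    have hPC : (P : Subgroup ↥N) ≤ C.subgroupOf N := by
      intro z hz
      rw [Subgroup.mem_subgroupOf, hC, Subgroup.mem_centralizer_iff]
      intro h hh
      have hzK : (z : G) ∈ K := by
        rw [hK]
        intro r hr hrd
        obtain ⟨k, hk⟩ := P.isPGroup' ⟨z, hz⟩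
        have h4 : (z : G) ^ p ^ k = 1 := by
          have := congrArg (fun t => (((t : ↥(P : Subgroup ↥N)) : ↥N) : G)) hk
          exact this
        have h5 := orderOf_dvd_of_pow_eq_one h4
        have h6 := (Nat.prime_dvd_prime_iff_eq hr hp).1 (hr.dvd_of_dvd_pow (hrd.trans h5))
        rw [h6]; exact hpn
      -- the commutator lies in `H ∩ K = 1`
      have hcK : h * z * h⁻¹ * (z : G)⁻¹ ∈ K := K.mul_mem (hKn _ hzK h) (K.inv_mem hzK)
      have hcH : h * z * h⁻¹ * (z : G)⁻¹ ∈ H := by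
        have h6 : (z : G) * h⁻¹ * (z : G)⁻¹ ∈ H := by
          have := (Subgroup.mem_normalizer_iff.1 z.2 h⁻¹).1 (H.inv_mem hh)
          exact this
        have h7 := H.mul_mem hh h6
        simpa [mul_assoc] using h7
      have h1 : orderOf (h * z * h⁻¹ * (z : G)⁻¹) = 1 := by
        by_contra hne1
        obtain ⟨r, hr, hrd⟩ := Nat.exists_prime_and_dvd hne1
        have h8 := (hK _).1 hcK r hr hrd
        apply h8
        apply hHpi r hr
        refine hrd.trans ?_
        have := orderOf_dvd_natCard (⟨_, hcH⟩ : ↥H)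
        rwa [Subgroup.orderOf_mk] at this
      rw [orderOf_eq_one_iff, mul_inv_eq_one, mul_inv_eq_iff_eq_mul] at h1
      exact h1
    have h3 : ¬ p ∣ (P : Subgroup ↥N).index := P.not_dvd_index
    apply h3
    have h4 : (C.subgroupOf N).index ∣ (P : Subgroup ↥N).index := Subgroup.index_dvd_of_le hPC
    exact dvd_trans hd h4
  · intro hhom
    have hT : TwoClosed π G := hcl
    have hH : Homog π G := by
      intro H hHpi x hx
      by_cases hne : H = ⊥
      · refine ⟨1, one_ne_zero, piNum_one, ?_⟩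
        rw [hne, Subgroup.mem_centralizer_iff]
        intro y hy
        have : y = 1 := by simpa using hy
        rw [this]; simp
      set N := Subgroup.normalizer (H : Set G) with hN
      set C := Subgroup.centralizer (H : Set G) with hC
      have hCn : (C.subgroupOf N).Normal := by
        refine ⟨fun x hx g => ?_⟩
        rw [Subgroup.mem_subgroupOf, hC, Subgroup.mem_centralizer_iff] at hx ⊢
        intro h hh
        have h1 : (g : G)⁻¹ * h * g ∈ (H : Set G) := by
          have hg : ((g : G))⁻¹ ∈ Subgroup.normalizer (H : Set G) := N.inv_mem g.2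
          have := (Subgroup.mem_normalizer_iff.1 hg h).1 hh
          simpa using this
        have h3 := hx _ h1
        calc h * ((g * x * g⁻¹ : ↥N) : G) = g * ((g : G)⁻¹ * h * g * x) * (g : G)⁻¹ := by
              simp [mul_assoc]
          _ = g * (x * ((g : G)⁻¹ * h * g)) * (g : G)⁻¹ := by rw [h3]
          _ = ((g * x * g⁻¹ : ↥N) : G) * h := by simp [mul_assoc]
      refine ⟨C.relIndex N, ?_, hhom H hne hHpi, ?_⟩
      · exact Subgroup.index_ne_zero_of_finite
      · have h1 : (QuotientGroup.mk' (C.subgroupOf N) ⟨x, hx⟩) ^ (C.subgroupOf N).index = 1 :=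
          pow_card_eq_one'
        rw [← map_pow] at h1
        have h3 := (QuotientGroup.eq_one_iff _).1 h1
        rw [Subgroup.mem_subgroupOf] at h3
        exact h3
    obtain ⟨K, hKn, hKc, hKi⟩ := pc_of_homog h2 (fun X _ _ hX => Cfsg.Agent.S0205.result hX)
      (pc_of_simple h2) (Nat.card G) G rfl hT hH
    refine ⟨K, fun x => ⟨fun hx => ?_, fun hx => ?_⟩⟩
    · refine PiNum'.dvd hKc ?_
      have := orderOf_dvd_natCard (⟨x, hx⟩ : ↥K)
      rwa [Subgroup.orderOf_mk] at this
    · rw [← QuotientGroup.eq_one_iff, ← orderOf_eq_one_iff]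
      have h1 : orderOf (x : G ⧸ K) ∣ K.index := orderOf_dvd_natCard _
      have h3 : orderOf (x : G ⧸ K) ∣ orderOf x := orderOf_map_dvd (QuotientGroup.mk' K) x
      exact Nat.eq_one_of_dvd_coprimes (coprime hKi hx) h1 h3

end Cfsg.Agent.S3258
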