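import Cfsg.Statements.S3259
import Cfsg.Agent.H323.DivFinal

set_option autoImplicit false
open Cfsg

namespace Cfsg.Agent.S3259

open Cfsg.Agent.H323.DivLin

/-- Let D be a division ring of characteristic 0, G a finite subgroup of the group of invertible 2 × 2 matrices over D, and N a normal subgroup of G such that G/N is a non-abelian simple group S. Then S is isomorphic to PSL₂(5) or PSL₂(9), and N ≠ 1. -/
theorem result
    {D : Type*} [DivisionRing D] [CharZero D] (G : Subgroup (Matrix (Fin 2) (Fin 2) D)ˣ) [Finite ↥G]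
    (N : Subgroup ↥G) [hN : N.Normal] (hS : IsSimpleGroup (↥G ⧸ N)) (hna : ¬ IsMulCommutative (↥G ⧸ N)) :
    (∃ (F : Type) (_ : Field F) (_ : Fintype F), (Fintype.card F = 5 ∨ Fintype.card F = 9) ∧
        Nonempty ((↥G ⧸ N) ≃* Matrix.ProjectiveSpecialLinearGroup (Fin 2) F)) ∧ N ≠ ⊥ := by
  have hna' : ∃ a b : ↥G ⧸ N, a * b ≠ b * a := by
    by_contra hcon
    push Not at hcon
    exact hna ⟨⟨hcon⟩⟩
  let r : ↥G →* Matrix (Fin 2) (Fin 2) D := (Units.coeHom _).comp G.subtype
  have hr : Function.Injective r := fun a b hab => Subtype.ext (Units.ext hab)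
  obtain ⟨H, i, f, hmin, hcard⟩ := exists_min (D := D) (V := Fin 2 → D)
    (by rw [Module.finrank_fin_fun]) (rowRep r) (rowRep_injective hr) hna' (QuotientGroup.mk' N)
    (QuotientGroup.mk'_surjective N)
  refine ⟨hmin.main hna', ?_⟩
  rintro rfl
  have hfin := hmin.fin
  apply hmin.ker_ne_bot hna'
  rw [MonoidHom.ker_eq_bot_iff]
  have h1 : Nat.card (↥G ⧸ (⊥ : Subgroup ↥G)) = Nat.card ↥G :=
    Nat.card_congr (QuotientGroup.quotientBot (G := ↥G)).toEquiv
  have h2 : Nat.card H ≤ Nat.card (↥G ⧸ (⊥ : Subgroup ↥G)) := by rw [h1]; exact hcard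
  exact (Function.Surjective.bijective_of_nat_card_le hmin.surj h2).1

end Cfsg.Agent.S3259
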