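import Cfsg.Statements.S3263
import Cfsg.Agent.S0000
import Cfsg.Agent.H762.Main

set_option autoImplicit false
open Cfsg

namespace Cfsg.Agent.S3263

/-- Let q = 2^(2m+1) and let C_q denote the centralizer, in the Ree group ²F₄(q), of an involution lying in the centre of a Sylow 2-subgroup. Let G be a finite group of even order with an involution τ central in some Sylow 2-subgroup of G, such that C_G(τ) has no nontrivial normal subgroup of odd order and has a normal subgroup C ≅ C_q of odd index ρ. If G is a non-abelian simple group, then q > 2 and G ≅ ²F₄(q). -/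
theorem result {G : Type*} [Group G] [Finite G] (hev : Even (Nat.card G))
    (τ : G) (hτ : orderOf τ = 2) (S : Sylow 2 G) (hτS : τ ∈ (S : Subgroup G)) (hτc : ∀ s ∈ (S : Subgroup G), s * τ = τ * s)
    {K : Type*} [Field K] [Fintype K] (m : ℕ) (hK : Fintype.card K = 2 ^ (2 * m + 1))
    (U : Sylow 2 ↥(Cfsg.Lie.twistedF4 K (2 ^ m))) (z : ↥(Cfsg.Lie.twistedF4 K (2 ^ m))) (hz : orderOf z = 2) (hzU : z ∈ (U : Subgroup ↥(Cfsg.Lie.twistedF4 K (2 ^ m))))
    (hzc : ∀ u ∈ (U : Subgroup ↥(Cfsg.Lie.twistedF4 K (2 ^ m))), u * z = z * u)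
    (C : Subgroup G) (hCle : C ≤ Subgroup.centralizer ({τ} : Set G))
    (hCn : (C.subgroupOf (Subgroup.centralizer ({τ} : Set G))).Normal) (ρ : ℕ) (hρ : Odd ρ)
    (hCi : C.relIndex (Subgroup.centralizer ({τ} : Set G)) = ρ)
    (e : ↥C ≃* ↥(Subgroup.centralizer ({z} : Set ↥(Cfsg.Lie.twistedF4 K (2 ^ m)))))
    (hO : Cfsg.oddCore ↥(Subgroup.centralizer ({τ} : Set G)) = ⊥) (hsimp : IsSimpleGroup G) (hna : ¬ IsMulCommutative G) :
    1 ≤ m ∧ Nonempty (G ≃* ↥(Cfsg.Lie.twistedF4 K (2 ^ m))) := by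
  have hfact : Fact (Nat.Prime 2) := ⟨Nat.prime_two⟩
  have h : H762.GHyp τ S C m :=
    { ord := hτ
      mem := hτS
      comm := hτc
      le := hCle
      norm := hCn
      odd := by rw [hCi]; exact hρ
      hyp := H762.chyp_twistedF4 m hK U z hz hzU hzc e }
  exact h.main hna (Cfsg.Agent.S0000.result (G := G)) hK

end Cfsg.Agent.S3263
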