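import Cfsg.Statements.S3265
import Cfsg.Agent.H325.OddInsert
import Cfsg.Agent.H325.OddProductGraph

set_option autoImplicit false
open Cfsg

namespace Cfsg.Agent.S3265

open Equiv Equiv.Perm Cfsg.Agent.H325

section perm

variable {Ω : Type*} [Fintype Ω] [DecidableEq Ω]

theorem via_swap {k : ℕ} (f : Fin k ↪ Ω) (i j : Fin k) :
    viaEmbeddingHom f (swap i j) = swap (f i) (f j) := by
  ext w
  rw [viaEmbeddingHom_apply]
  by_cases hw : w ∈ Set.range f
  · obtain ⟨u, rfl⟩ := hw
    rw [viaEmbedding_apply]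
    by_cases h1 : u = i
    · subst h1; simp
    by_cases h2 : u = j
    · subst h2; simp
    rw [swap_apply_of_ne_of_ne h1 h2, swap_apply_of_ne_of_ne (f.injective.ne h1) (f.injective.ne h2)]
  · rw [viaEmbedding_apply_of_notMem _ _ _ hw, swap_apply_of_ne_of_ne]
    · rintro rfl; exact hw ⟨_, rfl⟩
    · rintro rfl; exact hw ⟨_, rfl⟩

/-- embedding given by a nodup list -/
theorem exists_emb {k : ℕ} (l : List Ω) (hl : l.Nodup) (hk : l.length = k) :
    ∃ f : Fin k ↪ Ω, ∀ i : Fin k, f i = l[i.val]'(hk ▸ i.isLt) := by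
  subst hk
  exact ⟨⟨l.get, List.nodup_iff_injective_get.1 hl⟩, fun i => rfl⟩

theorem id_II {a b c d p q : Ω} (h : [a, b, c, d, p, q].Nodup) :
    (swap a b * swap c d * (swap p q * swap p a * swap b d * swap c q) : Perm Ω) =
      (swap p b * swap b c) * (swap q d * swap d a) := by
  obtain ⟨f, hf⟩ := exists_emb (k := 6) _ h rfl
  have h0 : f 0 = a := hf 0
  have h1 : f 1 = b := hf 1
  have h2 : f 2 = c := hf 2
  have h3 : f 3 = d := hf 3
  have h4 : f 4 = p := hf 4
  have h5 : f 5 = q := hf 5
  rw [← h0, ← h1, ← h2, ← h3, ← h4, ← h5]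
  simp only [← via_swap, ← map_mul]
  refine congrArg _ ?_
  apply Equiv.ext
  decide +kernel

theorem id_II' {a b c d p q : Ω} (h : [a, b, c, d, p, q].Nodup) :
    (swap b c * swap a d * (swap p q * swap p a * swap b d * swap c q) : Perm Ω) =
      (swap p d * swap d c) * (swap q b * swap b a) := by
  obtain ⟨f, hf⟩ := exists_emb (k := 6) _ h rfl
  have h0 : f 0 = a := hf 0
  have h1 : f 1 = b := hf 1
  have h2 : f 2 = c := hf 2
  have h3 : f 3 = d := hf 3
  have h4 : f 4 = p := hf 4
  have h5 : f 5 = q := hf 5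
  rw [← h0, ← h1, ← h2, ← h3, ← h4, ← h5]
  simp only [← via_swap, ← map_mul]
  refine congrArg _ ?_
  apply Equiv.ext
  decide +kernel

theorem id_IV {a b c d p q : Ω} (h : [a, b, c, d, p, q].Nodup) :
    (swap a b * swap c d * (swap p q * swap p a * swap b c * swap d q) : Perm Ω) =
      (swap p b * swap b d) * (swap q c * swap c a) := by
  obtain ⟨f, hf⟩ := exists_emb (k := 6) _ h rfl
  have h0 : f 0 = a := hf 0
  have h1 : f 1 = b := hf 1
  have h2 : f 2 = c := hf 2
  have h3 : f 3 = d := hf 3
  have h4 : f 4 = p := hf 4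
  have h5 : f 5 = q := hf 5
  rw [← h0, ← h1, ← h2, ← h3, ← h4, ← h5]
  simp only [← via_swap, ← map_mul]
  refine congrArg _ ?_
  apply Equiv.ext
  decide +kernel


theorem id_E3a {a b c d e : Ω} (hn : [a, b, c, d, e].Nodup) :
    (swap a b * swap c d * (swap a e * swap b c) : Perm Ω) = (swap e c * swap c a) * (swap e b * swap b d) := by
  obtain ⟨F, hf⟩ := exists_emb (k := 5) _ hn rfl
  have h0 : F 0 = a := hf 0
  have h1 : F 1 = b := hf 1
  have h2 : F 2 = c := hf 2
  have h3 : F 3 = d := hf 3
  have h4 : F 4 = e := hf 4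
  rw [← h0, ← h1, ← h2, ← h3, ← h4]
  simp only [← via_swap, ← map_mul]
  refine congrArg _ ?_
  apply Equiv.ext
  decide +kernel

theorem id_E3b {a b c d e : Ω} (hn : [a, b, c, d, e].Nodup) :
    (swap a e * swap b c * (swap b c * swap a d) : Perm Ω) = swap a d * swap d e := by
  obtain ⟨F, hf⟩ := exists_emb (k := 5) _ hn rfl
  have h0 : F 0 = a := hf 0
  have h1 : F 1 = b := hf 1
  have h2 : F 2 = c := hf 2
  have h3 : F 3 = d := hf 3
  have h4 : F 4 = e := hf 4
  rw [← h0, ← h1, ← h2, ← h3, ← h4]
  simp only [← via_swap, ← map_mul]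
  refine congrArg _ ?_
  apply Equiv.ext
  decide +kernel


theorem id_E2x {a b c d q s r p : Ω} (hn : [a, b, c, d, q, s, r, p].Nodup) :
    (swap p r * swap s q * (swap a b * swap c d) : Perm Ω) = swap a b * swap c d * (swap q s * swap r p) := by
  obtain ⟨F, hf⟩ := exists_emb (k := 8) _ hn rfl
  have h0 : F 0 = a := hf 0
  have h1 : F 1 = b := hf 1
  have h2 : F 2 = c := hf 2
  have h3 : F 3 = d := hf 3
  have h4 : F 4 = q := hf 4
  have h5 : F 5 = s := hf 5
  have h6 : F 6 = r := hf 6
  have h7 : F 7 = p := hf 7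
  rw [← h0, ← h1, ← h2, ← h3, ← h4, ← h5, ← h6, ← h7]
  simp only [← via_swap, ← map_mul]
  refine congrArg _ ?_
  apply Equiv.ext
  decide +kernel

theorem id_E2y {a b c d q s r p : Ω} (hn : [a, b, c, d, q, s, r, p].Nodup) :
    (swap r s * swap p q * (swap p q * swap p a * swap b c * swap d q) : Perm Ω) = swap b c * swap d q * swap s r * swap p a := by
  obtain ⟨F, hf⟩ := exists_emb (k := 8) _ hn rfl
  have h0 : F 0 = a := hf 0
  have h1 : F 1 = b := hf 1
  have h2 : F 2 = c := hf 2
  have h3 : F 3 = d := hf 3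
  have h4 : F 4 = q := hf 4
  have h5 : F 5 = s := hf 5
  have h6 : F 6 = r := hf 6
  have h7 : F 7 = p := hf 7
  rw [← h0, ← h1, ← h2, ← h3, ← h4, ← h5, ← h6, ← h7]
  simp only [← via_swap, ← map_mul]
  refine congrArg _ ?_
  apply Equiv.ext
  decide +kernel

theorem id_comm4 {a b c d : Ω} (hn : [a, b, c, d].Nodup) :
    (swap a b * swap c d : Perm Ω) = swap c d * swap a b := by
  obtain ⟨F, hf⟩ := exists_emb (k := 4) _ hn rfl
  have h0 : F 0 = a := hf 0
  have h1 : F 1 = b := hf 1
  have h2 : F 2 = c := hf 2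
  have h3 : F 3 = d := hf 3
  rw [← h0, ← h1, ← h2, ← h3]
  simp only [← via_swap, ← map_mul]
  refine congrArg _ ?_
  apply Equiv.ext
  decide +kernel


theorem comm_swap {z : Perm Ω} {a b : Ω} (ha : z a = a) (hb : z b = b) :
    z * swap a b = swap a b * z := by
  rw [mul_swap_eq_swap_mul, ha, hb]

theorem card_add {z : Perm Ω} {a b : Ω} (ha : z a = a) (hb : z b = b) (hab : a ≠ b) :
    (z * swap a b).support.card = z.support.card + 2 := by
  have hd : Disjoint z (swap a b) := by
    intro w
    by_cases h1 : w = a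
    · left; rw [h1, ha]
    by_cases h2 : w = b
    · left; rw [h2, hb]
    right
    exact swap_apply_of_ne_of_ne h1 h2
  rw [hd.card_support_mul, card_support_swap hab]

theorem sq_swap {z : Perm Ω} (hz : z * z = 1) {a b : Ω} (ha : z a = a) (hb : z b = b) :
    (z * swap a b) * (z * swap a b) = 1 := by
  calc (z * swap a b) * (z * swap a b) = z * (swap a b * z) * swap a b := by simp only [mul_assoc]
    _ = z * (z * swap a b) * swap a b := by rw [comm_swap ha hb]
    _ = (z * z) * (swap a b * swap a b) := by simp only [mul_assoc]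
    _ = 1 := by rw [hz, swap_mul_self, one_mul]

theorem mul_swap_fix {g : Perm Ω} {a b w : Ω} (h1 : w ≠ a) (h2 : w ≠ b) : (g * swap a b) w = g w := by
  rw [Perm.mul_apply, swap_apply_of_ne_of_ne h1 h2]

theorem mul_swap_left {g : Perm Ω} {a b : Ω} : (g * swap a b) a = g b := by
  rw [Perm.mul_apply, swap_apply_left]

theorem mul_swap_right {g : Perm Ω} {a b : Ω} : (g * swap a b) b = g a := by
  rw [Perm.mul_apply, swap_apply_right]

theorem odd_one_order : Odd (orderOf (1 : Perm Ω)) := by simp

/-- `x` and `y` have a common neighbour `z` of the same type. -/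
def Good (x y : Perm Ω) : Prop :=
  ∃ z : Perm Ω, z * z = 1 ∧ (∀ w, x w = w → y w = w → z w = w) ∧
    z.support.card = x.support.card ∧ Odd (orderOf (x * z)) ∧ Odd (orderOf (z * y))

theorem Good.symm {x y : Perm Ω} (h : x.support.card = y.support.card) (hg : Good x y) :
    Good y x := by
  obtain ⟨z, hz, hs, hc, h1, h2⟩ := hg
  refine ⟨z, hz, fun w a b => hs w b a, hc.trans h, ?_, ?_⟩
  · rw [orderOf_mul_swap']; exact h2
  · rw [orderOf_mul_swap']; exact h1

theorem R_I {x y : Perm Ω} {p q : Ω} (hxp : x p = p) (hxq : x q = q) (hyp : y p = p) (hyq : y q = q)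
    (hpq : p ≠ q) (h : Good x y) : Good (x * swap p q) (y * swap p q) := by
  obtain ⟨z, hz, hs, hc, h1, h2⟩ := h
  have hzp := hs p hxp hyp
  have hzq := hs q hxq hyq
  refine ⟨z * swap p q, sq_swap hz hzp hzq, ?_, ?_, ?_, ?_⟩
  · intro w hx hy
    by_cases e1 : w = p
    · subst e1; rw [mul_swap_left, hxq] at hx; exact absurd hx hpq.symm
    by_cases e2 : w = q
    · subst e2; rw [mul_swap_right, hxp] at hx; exact absurd hx hpq
    rw [mul_swap_fix e1 e2] at hx hy ⊢
    exact hs w hx hy
  · rw [card_add hzp hzq hpq, card_add hxp hxq hpq, hc]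
  · have : x * swap p q * (z * swap p q) = x * z := by
      rw [comm_swap hzp hzq, mul_assoc, ← mul_assoc (swap p q), swap_mul_self, one_mul]
    rw [this]; exact h1
  · have : z * swap p q * (y * swap p q) = z * y := by
      rw [comm_swap hyp hyq, mul_assoc, ← mul_assoc (swap p q), swap_mul_self, one_mul]
    rw [this]; exact h2

theorem R_V {x y : Perm Ω} {a b c : Ω} (hxa : x a = a) (hxb : x b = b) (hya : y a = a) (hyb : y b = b)
    (hyc : y c = c) (hab : a ≠ b) (hac : a ≠ c) (hbc : b ≠ c) (h : Good x y) :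
    Good (x * swap a b) (y * swap b c) := by
  obtain ⟨z, hz, hs, hc, h1, h2⟩ := h
  have hza := hs a hxa hya
  have hzb := hs b hxb hyb
  refine ⟨z * swap a b, sq_swap hz hza hzb, ?_, ?_, ?_, ?_⟩
  · intro w hx hy
    by_cases e1 : w = a
    · subst e1; rw [mul_swap_left, hxb] at hx; exact absurd hx hab.symm
    by_cases e2 : w = b
    · subst e2; rw [mul_swap_right, hxa] at hx; exact absurd hx hab
    by_cases e3 : w = c
    · subst e3; rw [mul_swap_right, hyb] at hy; exact absurd hy hbc
    rw [mul_swap_fix e1 e2] at hx ⊢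
    rw [mul_swap_fix e2 e3] at hy
    exact hs w hx hy
  · rw [card_add hza hzb hab, card_add hxa hxb hab, hc]
  · have : x * swap a b * (z * swap a b) = x * z := by
      rw [comm_swap hza hzb, mul_assoc, ← mul_assoc (swap a b), swap_mul_self, one_mul]
    rw [this]; exact h1
  · have e : z * swap a b * (y * swap b c) = z * y * (swap a b * swap b c) := by
      rw [mul_assoc, ← mul_assoc (swap a b), ← comm_swap hya hyb]; simp only [mul_assoc]
    rw [e]
    exact odd_insert h2 (by rw [Perm.mul_apply, hya, hza]) (by rw [Perm.mul_apply, hyb, hzb]) hab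
      hac.symm hbc.symm

theorem R_III {x y : Perm Ω} {a b c d : Ω} (hn : [a, b, c, d].Nodup) (hxa : x a = a) (hxb : x b = b)
    (hxc : x c = c) (hya : y a = a) (hyb : y b = b)
    (hyc : y c = c) (hyd : y d = d) (h : Good x y) :
    Good (x * swap a b) (y * swap c d) := by
  obtain ⟨z, hz, hs, hc, h1, h2⟩ := h
  simp only [List.nodup_cons, List.mem_cons, List.not_mem_nil, or_false, not_or, not_false_eq_true,
    and_true, List.nodup_nil] at hn
  obtain ⟨⟨hab, hac, had⟩, ⟨hbc, hbd⟩, hcd⟩ := hn
  have hza := hs a hxa hya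
  have hzb := hs b hxb hyb
  have hzc := hs c hxc hyc
  refine ⟨z * swap b c, sq_swap hz hzb hzc, ?_, ?_, ?_, ?_⟩
  · intro w hx hy
    by_cases e1 : w = a
    · subst e1; rw [mul_swap_left, hxb] at hx; exact absurd hx.symm hab
    by_cases e2 : w = b
    · subst e2; rw [mul_swap_right, hxa] at hx; exact absurd hx hab
    by_cases e3 : w = c
    · subst e3; rw [mul_swap_left, hyd] at hy; exact absurd hy.symm hcd
    by_cases e4 : w = d
    · subst e4; rw [mul_swap_right, hyc] at hy; exact absurd hy hcd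
    rw [mul_swap_fix e1 e2] at hx
    rw [mul_swap_fix e3 e4] at hy
    rw [mul_swap_fix e2 e3]
    exact hs w hx hy
  · rw [card_add hzb hzc hbc, card_add hxa hxb hab, hc]
  · have e : x * swap a b * (z * swap b c) = x * z * (swap a b * swap b c) := by
      rw [mul_assoc, ← mul_assoc (swap a b), ← comm_swap hza hzb]; simp only [mul_assoc]
    rw [e]
    exact odd_insert h1 (by rw [Perm.mul_apply, hza, hxa]) (by rw [Perm.mul_apply, hzb, hxb]) hab
      (Ne.symm hac) (Ne.symm hbc)
  · have e : z * swap b c * (y * swap c d) = z * y * (swap b c * swap c d) := by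
      rw [mul_assoc, ← mul_assoc (swap b c), ← comm_swap hyb hyc]; simp only [mul_assoc]
    rw [e]
    exact odd_insert h2 (by rw [Perm.mul_apply, hyb, hzb]) (by rw [Perm.mul_apply, hyc, hzc]) hbc
      (Ne.symm hbd) (Ne.symm hcd)


theorem R_II {x y : Perm Ω} {a b c d : Ω} (hn : [a, b, c, d].Nodup)
    (hxa : x a = a) (hxb : x b = b) (hxc : x c = c) (hxd : x d = d)
    (hya : y a = a) (hyb : y b = b) (hyc : y c = c) (hyd : y d = d) (hx1 : x ≠ 1) (h : Good x y) :
    Good (x * swap a b * swap c d) (y * swap b c * swap a d) := by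
  obtain ⟨z, hz, hs, hc, h1, h2⟩ := h
  have hz1 : z ≠ 1 := by
    rintro rfl
    rw [support_one, Finset.card_empty, eq_comm, Finset.card_eq_zero, support_eq_empty_iff] at hc
    exact hx1 hc
  obtain ⟨p, hp⟩ : ∃ p, z p ≠ p := by
    by_contra hcon
    push Not at hcon
    exact hz1 (Equiv.ext hcon)
  set q := z p with hq
  have hzq : z q = p := by
    have : (z * z) p = p := by rw [hz]; rfl
    rw [Perm.mul_apply] at this; exact this
  have hza := hs a hxa hya
  have hzb := hs b hxb hyb
  have hzc := hs c hxc hyc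
  have hzd := hs d hxd hyd
  have hpa : p ≠ a := by rintro rfl; exact hp (hq.trans hza)
  have hpb : p ≠ b := by rintro rfl; exact hp (hq.trans hzb)
  have hpc : p ≠ c := by rintro rfl; exact hp (hq.trans hzc)
  have hpd : p ≠ d := by rintro rfl; exact hp (hq.trans hzd)
  have hqa : q ≠ a := by intro e; rw [e, hza] at hzq; exact hpa hzq.symm
  have hqb : q ≠ b := by intro e; rw [e, hzb] at hzq; exact hpb hzq.symm
  have hqc : q ≠ c := by intro e; rw [e, hzc] at hzq; exact hpc hzq.symm
  have hqd : q ≠ d := by intro e; rw [e, hzd] at hzq; exact hpd hzq.symm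
  have hn6 : [a, b, c, d, p, q].Nodup := by
    simp only [List.nodup_cons, List.mem_cons, List.not_mem_nil, or_false, not_or,
      not_false_eq_true, and_true, List.nodup_nil] at hn ⊢
    obtain ⟨⟨hab, hac, had⟩, ⟨hbc, hbd⟩, hcd⟩ := hn
    exact ⟨⟨hab, hac, had, hpa.symm, hqa.symm⟩, ⟨hbc, hbd, hpb.symm, hqb.symm⟩,
      ⟨hcd, hpc.symm, hqc.symm⟩, ⟨hpd.symm, hqd.symm⟩, Ne.symm hp⟩
  simp only [List.nodup_cons, List.mem_cons, List.not_mem_nil, or_false, not_or, not_false_eq_true,
    and_true, List.nodup_nil] at hn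
  obtain ⟨⟨hab, hac, had⟩, ⟨hbc, hbd⟩, hcd⟩ := hn
  -- z'' = z * swap p q
  obtain ⟨u, hu⟩ : ∃ u, u = z * swap p q := ⟨_, rfl⟩
  have hup : u p = p := by rw [hu, mul_swap_left, hzq]
  have huq : u q = q := by rw [hu, mul_swap_right]
  have hua : u a = a := by rw [hu, mul_swap_fix hpa.symm hqa.symm, hza]
  have hub : u b = b := by rw [hu, mul_swap_fix hpb.symm hqb.symm, hzb]
  have huc : u c = c := by rw [hu, mul_swap_fix hpc.symm hqc.symm, hzc]
  have hud : u d = d := by rw [hu, mul_swap_fix hpd.symm hqd.symm, hzd]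
  have huz : z = u * swap p q := by rw [hu, mul_assoc, swap_mul_self, mul_one]
  have huu : u * u = 1 := by
    have hcom : u * swap p q = swap p q * u := comm_swap hup huq
    have : (u * swap p q) * (u * swap p q) = u * u := by
      calc (u * swap p q) * (u * swap p q) = u * (swap p q * u) * swap p q := by
            simp only [mul_assoc]
        _ = u * (u * swap p q) * swap p q := by rw [hcom]
        _ = (u * u) * (swap p q * swap p q) := by simp only [mul_assoc]
        _ = u * u := by rw [swap_mul_self, mul_one]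
    rw [← this, ← huz, hz]
  have hcardu : z.support.card = u.support.card + 2 := by
    rw [huz, card_add hup huq (Ne.symm hp)]
  have e0 : z * (swap p q * swap p a * swap b d * swap c q) = u * swap p a * swap b d * swap c q := by
    simp only [hu, mul_assoc]
  refine ⟨z * (swap p q * swap p a * swap b d * swap c q), ?_, ?_, ?_, ?_, ?_⟩
  · rw [e0]
    apply sq_swap
    · apply sq_swap
      · exact sq_swap huu hup hua
      · rw [mul_swap_fix (Ne.symm hpb) (Ne.symm hab), hub]
      · rw [mul_swap_fix (Ne.symm hpd) (Ne.symm had), hud]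
    · rw [mul_swap_fix (Ne.symm hbc) hcd, mul_swap_fix (Ne.symm hpc) (Ne.symm hac), huc]
    · rw [mul_swap_fix hqb hqd, mul_swap_fix hp hqa, huq]
  · intro w hx hy
    have wa : w ≠ a := by
      rintro rfl
      rw [mul_swap_fix hac had, mul_swap_left, hxb] at hx
      exact hab hx.symm
    have wb : w ≠ b := by
      rintro rfl
      rw [mul_swap_fix hbc hbd, mul_swap_right, hxa] at hx
      exact hab hx
    have wc : w ≠ c := by
      rintro rfl
      rw [mul_swap_left, mul_swap_fix (Ne.symm had) (Ne.symm hbd), hxd] at hx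
      exact hcd hx.symm
    have wd : w ≠ d := by
      rintro rfl
      rw [mul_swap_right, mul_swap_fix (Ne.symm hac) (Ne.symm hbc), hxc] at hx
      exact hcd hx
    rw [mul_swap_fix wc wd, mul_swap_fix wa wb] at hx
    rw [mul_swap_fix wa wd, mul_swap_fix wb wc] at hy
    have hzw := hs w hx hy
    have wp : w ≠ p := by
      rintro rfl
      exact hp (hq.trans hzw)
    have wq : w ≠ q := by
      intro e
      rw [e, hzq] at hzw
      exact hp hzw.symm
    rw [e0, mul_swap_fix wc wq, mul_swap_fix wb wd, mul_swap_fix wp wa, hu, mul_swap_fix wp wq, hzw]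
  · have c1 : (u * swap p a * swap b d * swap c q).support.card = u.support.card + 2 + 2 + 2 := by
      rw [card_add, card_add, card_add hup hua hpa]
      · rw [mul_swap_fix (Ne.symm hpb) (Ne.symm hab), hub]
      · rw [mul_swap_fix (Ne.symm hpd) (Ne.symm had), hud]
      · exact hbd
      · rw [mul_swap_fix (Ne.symm hbc) hcd, mul_swap_fix (Ne.symm hpc) (Ne.symm hac), huc]
      · rw [mul_swap_fix hqb hqd, mul_swap_fix hp hqa, huq]
      · exact Ne.symm hqc
    have c2 : (x * swap a b * swap c d).support.card = x.support.card + 2 + 2 := by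
      rw [card_add, card_add hxa hxb hab]
      · rw [mul_swap_fix (Ne.symm hac) (Ne.symm hbc), hxc]
      · rw [mul_swap_fix (Ne.symm had) (Ne.symm hbd), hxd]
      · exact hcd
    rw [e0, c1, c2]
    omega
  · have e : x * swap a b * swap c d * (z * (swap p q * swap p a * swap b d * swap c q)) =
        x * z * (swap p b * swap b c) * (swap q d * swap d a) := by
      rw [mul_assoc (x * z), ← id_II hn6]
      calc x * swap a b * swap c d * (z * (swap p q * swap p a * swap b d * swap c q)) =
            x * (swap a b * (swap c d * z)) * (swap p q * swap p a * swap b d * swap c q) := by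
              simp only [mul_assoc]
        _ = x * (z * swap a b * swap c d) * (swap p q * swap p a * swap b d * swap c q) := by
              rw [← comm_swap hzc hzd, ← mul_assoc (swap a b), ← comm_swap hza hzb]
        _ = _ := by simp only [mul_assoc]
    rw [e]
    have k1 : Odd (orderOf (x * z * (swap p b * swap b c))) :=
      odd_insert' h1 (by rw [Perm.mul_apply, hzb, hxb]) (by rw [Perm.mul_apply, hzc, hxc]) hbc hpb hpc
    refine odd_insert' k1 ?_ ?_ (Ne.symm had) hqd hqa
    · rw [← mul_assoc, mul_swap_fix (Ne.symm hbd) (Ne.symm hcd), mul_swap_fix (Ne.symm hpd) (Ne.symm hbd), Perm.mul_apply, hzd, hxd]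
    · rw [← mul_assoc, mul_swap_fix hab hac, mul_swap_fix (Ne.symm hpa) hab, Perm.mul_apply, hza, hxa]
  · rw [orderOf_mul_swap']
    have e : y * swap b c * swap a d * (z * (swap p q * swap p a * swap b d * swap c q)) =
        y * z * (swap p d * swap d c) * (swap q b * swap b a) := by
      rw [mul_assoc (y * z), ← id_II' hn6]
      calc y * swap b c * swap a d * (z * (swap p q * swap p a * swap b d * swap c q)) =
            y * (swap b c * (swap a d * z)) * (swap p q * swap p a * swap b d * swap c q) := by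
              simp only [mul_assoc]
        _ = y * (z * swap b c * swap a d) * (swap p q * swap p a * swap b d * swap c q) := by
              rw [← comm_swap hza hzd, ← mul_assoc (swap b c), ← comm_swap hzb hzc]
        _ = _ := by simp only [mul_assoc]
    rw [e]
    have k1 : Odd (orderOf (y * z * (swap p d * swap d c))) :=
      odd_insert' (by rw [orderOf_mul_swap']; exact h2) (by rw [Perm.mul_apply, hzd, hyd])
        (by rw [Perm.mul_apply, hzc, hyc]) (Ne.symm hcd) hpd hpc
    refine odd_insert' k1 ?_ ?_ (Ne.symm hab) hqb hqa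
    · rw [← mul_assoc, mul_swap_fix hbd hbc, mul_swap_fix (Ne.symm hpb) hbd, Perm.mul_apply, hzb, hyb]
    · rw [← mul_assoc, mul_swap_fix had hac, mul_swap_fix (Ne.symm hpa) had, Perm.mul_apply, hza, hya]

theorem R_IV {x y : Perm Ω} {a b c d p q : Ω} (hn6 : [a, b, c, d, p, q].Nodup)
    (hxa : x a = a) (hxb : x b = b) (hxc : x c = c) (hxd : x d = d)
    (hya : y a = a) (hyb : y b = b) (hyc : y c = c) (hyd : y d = d) (hyp : y p = q) (hyq : y q = p)
    (h : Good x y) :
    Good (x * swap a b * swap c d) (y * (swap p q * swap p a * swap b c * swap d q)) := by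
  obtain ⟨z, hz, hs, hc, h1, h2⟩ := h
  have hza := hs a hxa hya
  have hzb := hs b hxb hyb
  have hzc := hs c hxc hyc
  have hzd := hs d hxd hyd
  have hn := hn6
  simp only [List.nodup_cons, List.mem_cons, List.not_mem_nil, or_false, not_or, not_false_eq_true,
    and_true, List.nodup_nil] at hn
  obtain ⟨⟨hab, hac, had, hap, haq⟩, ⟨hbc, hbd, hbp, hbq⟩, ⟨hcd, hcp, hcq⟩, ⟨hdp, hdq⟩, hpq⟩ := hn
  have e0 : z * swap a b * swap c d = z * (swap a b * swap c d) := by rw [mul_assoc]
  refine ⟨z * swap a b * swap c d, ?_, ?_, ?_, ?_, ?_⟩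
  · apply sq_swap
    · exact sq_swap hz hza hzb
    · rw [mul_swap_fix (Ne.symm hac) (Ne.symm hbc), hzc]
    · rw [mul_swap_fix (Ne.symm had) (Ne.symm hbd), hzd]
  · intro w hx hy
    have wa : w ≠ a := by
      rintro rfl
      rw [mul_swap_fix hac had, mul_swap_left, hxb] at hx
      exact hab hx.symm
    have wb : w ≠ b := by
      rintro rfl
      rw [mul_swap_fix hbc hbd, mul_swap_right, hxa] at hx
      exact hab hx
    have wc : w ≠ c := by
      rintro rfl
      rw [mul_swap_left, mul_swap_fix (Ne.symm had) (Ne.symm hbd), hxd] at hx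
      exact hcd hx.symm
    have wd : w ≠ d := by
      rintro rfl
      rw [mul_swap_right, mul_swap_fix (Ne.symm hac) (Ne.symm hbc), hxc] at hx
      exact hcd hx
    rw [mul_swap_fix wc wd, mul_swap_fix wa wb] at hx ⊢
    have wp : w ≠ p := by
      rintro rfl
      rw [← mul_assoc, ← mul_assoc, ← mul_assoc, mul_swap_fix (Ne.symm hdp) hpq,
        mul_swap_fix (Ne.symm hbp) (Ne.symm hcp), mul_swap_left, mul_swap_fix hap haq, hya] at hy
      exact hap hy
    have wq : w ≠ q := by
      rintro rfl
      rw [← mul_assoc, ← mul_assoc, ← mul_assoc, mul_swap_right,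
        mul_swap_fix (Ne.symm hbd) (Ne.symm hcd), mul_swap_fix hdp (Ne.symm had), mul_swap_fix hdp hdq, hyd] at hy
      exact hdq hy
    rw [← mul_assoc, ← mul_assoc, ← mul_assoc, mul_swap_fix wd wq, mul_swap_fix wb wc,
      mul_swap_fix wp wa, mul_swap_fix wp wq] at hy
    exact hs w hx hy
  · rw [card_add, card_add hza hzb hab, card_add, card_add hxa hxb hab, hc]
    · rw [mul_swap_fix (Ne.symm hac) (Ne.symm hbc), hxc]
    · rw [mul_swap_fix (Ne.symm had) (Ne.symm hbd), hxd]
    · exact hcd
    · rw [mul_swap_fix (Ne.symm hac) (Ne.symm hbc), hzc]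
    · rw [mul_swap_fix (Ne.symm had) (Ne.symm hbd), hzd]
    · exact hcd
  · have e : x * swap a b * swap c d * (z * swap a b * swap c d) = x * z := by
      calc x * swap a b * swap c d * (z * swap a b * swap c d) =
            x * (swap a b * (swap c d * z)) * (swap a b * swap c d) := by simp only [mul_assoc]
        _ = x * (z * swap a b * swap c d) * (swap a b * swap c d) := by
              rw [← comm_swap hzc hzd, ← mul_assoc (swap a b), ← comm_swap hza hzb]
        _ = x * (z * (swap a b * swap c d)) * (swap a b * swap c d) := by simp only [mul_assoc]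
        _ = x * (z * (swap c d * swap a b)) * (swap a b * swap c d) := by
              rw [id_comm4 (a := a) (b := b) (c := c) (d := d)]
              simp [hab, hac, had, hbc, hbd, hcd]
        _ = x * z * (swap c d * (swap a b * swap a b) * swap c d) := by simp only [mul_assoc]
        _ = x * z := by rw [swap_mul_self, mul_one, swap_mul_self, mul_one]
    rw [e]; exact h1
  · have e : z * swap a b * swap c d * (y * (swap p q * swap p a * swap b c * swap d q)) =
        z * y * (swap p b * swap b d) * (swap q c * swap c a) := by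
      rw [mul_assoc (z * y), ← id_IV hn6]
      calc z * swap a b * swap c d * (y * (swap p q * swap p a * swap b c * swap d q)) =
            z * (swap a b * (swap c d * y)) * (swap p q * swap p a * swap b c * swap d q) := by
              simp only [mul_assoc]
        _ = z * (y * swap a b * swap c d) * (swap p q * swap p a * swap b c * swap d q) := by
              rw [← comm_swap hyc hyd, ← mul_assoc (swap a b), ← comm_swap hya hyb]
        _ = _ := by simp only [mul_assoc]
    rw [e]
    have k1 : Odd (orderOf (z * y * (swap p b * swap b d))) :=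
      odd_insert' h2 (by rw [Perm.mul_apply, hyb, hzb]) (by rw [Perm.mul_apply, hyd, hzd]) hbd
        (Ne.symm hbp) (Ne.symm hdp)
    refine odd_insert' k1 ?_ ?_ (Ne.symm hac) (Ne.symm hcq) (Ne.symm haq)
    · rw [← mul_assoc, mul_swap_fix (Ne.symm hbc) hcd, mul_swap_fix hcp (Ne.symm hbc), Perm.mul_apply, hyc, hzc]
    · rw [← mul_assoc, mul_swap_fix hab had, mul_swap_fix hap hab, Perm.mul_apply, hya, hza]


theorem apply_apply {x : Perm Ω} (hx : x * x = 1) (w : Ω) : x (x w) = w := by
  rw [← Perm.mul_apply, hx]; rfl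

theorem rm_sq {x : Perm Ω} (hx : x * x = 1) {a b : Ω} (hab : x a = b) :
    (x * swap a b) * (x * swap a b) = 1 := by
  have hba : x b = a := by rw [← hab, apply_apply hx]
  calc (x * swap a b) * (x * swap a b) = x * (swap a b * x) * swap a b := by simp only [mul_assoc]
    _ = x * (x * swap a b) * swap a b := by rw [mul_swap_eq_swap_mul x a b, hab, hba, swap_comm b a]
    _ = (x * x) * (swap a b * swap a b) := by simp only [mul_assoc]
    _ = 1 := by rw [hx, swap_mul_self, one_mul]

theorem rm_card {x : Perm Ω} (hx : x * x = 1) {a b : Ω} (hab : x a = b) (hne : a ≠ b) :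
    x.support.card = (x * swap a b).support.card + 2 := by
  have hba : x b = a := by rw [← hab, apply_apply hx]
  have h := card_add (z := x * swap a b) (a := a) (b := b) (by rw [mul_swap_left, hba])
    (by rw [mul_swap_right, hab]) hne
  rw [mul_assoc, swap_mul_self, mul_one] at h
  exact h

/-- The exceptional pair: a 4-cycle. -/
def Exc (x y : Perm Ω) : Prop :=
  ∃ a b c d : Ω, [a, b, c, d].Nodup ∧ x = swap a b * swap c d ∧ y = swap b c * swap a d

/-- a 4-cycle component -/
def FC (x y : Perm Ω) : Prop :=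
  ∃ a b c d : Ω, [a, b, c, d].Nodup ∧ x a = b ∧ x c = d ∧ y b = c ∧ y a = d

theorem Exc.fc {x y : Perm Ω} (h : Exc x y) : FC x y := by
  obtain ⟨a, b, c, d, hn, rfl, rfl⟩ := h
  refine ⟨a, b, c, d, hn, ?_⟩
  simp only [List.nodup_cons, List.mem_cons, List.not_mem_nil, or_false, not_or, not_false_eq_true,
    and_true, List.nodup_nil] at hn
  obtain ⟨⟨hab, hac, had⟩, ⟨hbc, hbd⟩, hcd⟩ := hn
  refine ⟨?_, ?_, ?_, ?_⟩
  · rw [mul_swap_fix hac had, swap_apply_left]
  · rw [mul_swap_left, swap_apply_of_ne_of_ne (Ne.symm had) (Ne.symm hbd)]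
  · rw [mul_swap_fix (Ne.symm hab) hbd, swap_apply_left]
  · rw [mul_swap_left, swap_apply_of_ne_of_ne (Ne.symm hbd) (Ne.symm hcd)]

theorem Exc.at {x y : Perm Ω} (h : Exc x y) {p : Ω} (hp : y p ≠ p) :
    ∃ b c d : Ω, [p, b, c, d].Nodup ∧ x = swap p b * swap c d ∧ y = swap b c * swap p d := by
  obtain ⟨a, b, c, d, hn, rfl, rfl⟩ := h
  have hn' := hn
  simp only [List.nodup_cons, List.mem_cons, List.not_mem_nil, or_false, not_or, not_false_eq_true,
    and_true, List.nodup_nil] at hn'
  obtain ⟨⟨hab, hac, had⟩, ⟨hbc, hbd⟩, hcd⟩ := hn'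
  by_cases e1 : p = a
  · subst e1; exact ⟨b, c, d, hn, rfl, rfl⟩
  by_cases e2 : p = b
  · subst e2
    refine ⟨a, d, c, ?_, ?_, ?_⟩
    · simp [hab, hac, had, hbc, hbd, Ne.symm hab, Ne.symm hcd]
    · rw [swap_comm p a, swap_comm d c]
    · apply id_comm4; simp [hbc, Ne.symm hab, hbd, Ne.symm hac, hcd, had]
  by_cases e3 : p = c
  · subst e3
    refine ⟨d, a, b, ?_, ?_, ?_⟩
    · simp [hab, Ne.symm hac, Ne.symm had, Ne.symm hbc, Ne.symm hbd, hcd]
    · apply id_comm4; simp [hab, hac, had, hbc, hbd, hcd]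
    · rw [swap_comm b p, swap_comm a d]
      apply id_comm4; simp [Ne.symm hbc, hcd, Ne.symm hac, hbd, Ne.symm hab, Ne.symm had]
  by_cases e4 : p = d
  · subst e4
    refine ⟨c, b, a, ?_, ?_, ?_⟩
    · simp [Ne.symm hab, Ne.symm hac, Ne.symm had, Ne.symm hbc, Ne.symm hbd, Ne.symm hcd]
    · rw [swap_comm p c, swap_comm b a]
      apply id_comm4; simp [hab, hac, had, hbc, hbd, hcd]
    · rw [swap_comm b c, swap_comm a p]
  · exfalso
    apply hp
    rw [mul_swap_fix e1 e4, swap_apply_of_ne_of_ne e2 e3]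

theorem card_four {a b c d : Ω} (hn : [a, b, c, d].Nodup) :
    (swap a b * swap c d : Perm Ω).support.card = 4 := by
  simp only [List.nodup_cons, List.mem_cons, List.not_mem_nil, or_false, not_or, not_false_eq_true,
    and_true, List.nodup_nil] at hn
  obtain ⟨⟨hab, hac, had⟩, ⟨hbc, hbd⟩, hcd⟩ := hn
  rw [card_add, card_support_swap hab]
  · exact swap_apply_of_ne_of_ne (Ne.symm hac) (Ne.symm hbc)
  · exact swap_apply_of_ne_of_ne (Ne.symm had) (Ne.symm hbd)
  · exact hcd

theorem nodup8_sub {a b c d e f g h : Ω} (hn : [a, b, c, d, e, f, g, h].Nodup) :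
    [a, b, c, d].Nodup ∧ [e, f, g, h].Nodup := by
  have := List.nodup_append.1 (show ([a, b, c, d] ++ [e, f, g, h]).Nodup from hn)
  exact ⟨this.1, this.2.1⟩

theorem good_via {k : ℕ} (f : Fin k ↪ Ω) {x y : Perm (Fin k)} (h : Good x y) :
    Good (viaEmbeddingHom f x) (viaEmbeddingHom f y) := by
  obtain ⟨z, hz, hs, hc, h1, h2⟩ := h
  have hsup : ∀ g : Perm (Fin k), (viaEmbeddingHom f g).support.card = g.support.card := by
    intro g
    rw [← Finset.card_map f]
    congr 1
    ext w
    rw [mem_support, Finset.mem_map, viaEmbeddingHom_apply]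
    constructor
    · intro hw
      by_cases hr : w ∈ Set.range f
      · obtain ⟨u, rfl⟩ := hr
        rw [viaEmbedding_apply] at hw
        exact ⟨u, mem_support.2 fun e => hw (by rw [e]), rfl⟩
      · rw [viaEmbedding_apply_of_notMem _ _ _ hr] at hw
        exact absurd rfl hw
    · rintro ⟨u, hu, rfl⟩
      rw [viaEmbedding_apply]
      exact fun e => mem_support.1 hu (f.injective e)
  refine ⟨viaEmbeddingHom f z, by rw [← map_mul, hz, map_one], ?_, by rw [hsup, hsup, hc], ?_, ?_⟩
  · intro w hx hy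
    rw [viaEmbeddingHom_apply] at hx hy ⊢
    by_cases hr : w ∈ Set.range f
    · obtain ⟨u, rfl⟩ := hr
      rw [viaEmbedding_apply] at hx hy ⊢
      rw [hs u (f.injective hx) (f.injective hy)]
    · rw [viaEmbedding_apply_of_notMem _ _ _ hr]
  · rw [← map_mul, orderOf_injective _ (viaEmbeddingHom_injective f)]
    exact h1
  · rw [← map_mul, orderOf_injective _ (viaEmbeddingHom_injective f)]
    exact h2

theorem good_E1 {a b c d e f g h : Ω} (hn : [a, b, c, d, e, f, g, h].Nodup) :
    Good (swap a b * swap c d * (swap e f * swap g h)) (swap b c * swap a d * (swap f g * swap e h)) := by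
  obtain ⟨F, hf⟩ := exists_emb (k := 8) _ hn rfl
  have h0 : F 0 = a := hf 0
  have h1 : F 1 = b := hf 1
  have h2 : F 2 = c := hf 2
  have h3 : F 3 = d := hf 3
  have h4 : F 4 = e := hf 4
  have h5 : F 5 = f := hf 5
  have h6 : F 6 = g := hf 6
  have h7 : F 7 = h := hf 7
  rw [← h0, ← h1, ← h2, ← h3, ← h4, ← h5, ← h6, ← h7]
  simp only [← via_swap, ← map_mul]
  apply good_via
  refine ⟨swap 0 1 * swap 5 6 * swap 2 4 * swap 3 7, ?_, ?_, ?_, ?_, ?_⟩
  · apply Equiv.ext
    decide +kernel
  · decide +kernel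
  · decide +kernel
  · refine Odd.of_dvd_nat (show Odd 3 by decide) (orderOf_dvd_of_pow_eq_one ?_)
    apply Equiv.ext
    decide +kernel
  · refine Odd.of_dvd_nat (show Odd 3 by decide) (orderOf_dvd_of_pow_eq_one ?_)
    apply Equiv.ext
    decide +kernel

theorem good_E2 {a b c d e f g h : Ω} (hn : [a, b, c, d, e, f, g, h].Nodup) :
    Good (swap a b * swap c d * (swap e f * swap g h)) (swap b c * swap d e * swap f g * swap h a) := by
  obtain ⟨F, hf⟩ := exists_emb (k := 8) _ hn rfl
  have h0 : F 0 = a := hf 0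
  have h1 : F 1 = b := hf 1
  have h2 : F 2 = c := hf 2
  have h3 : F 3 = d := hf 3
  have h4 : F 4 = e := hf 4
  have h5 : F 5 = f := hf 5
  have h6 : F 6 = g := hf 6
  have h7 : F 7 = h := hf 7
  rw [← h0, ← h1, ← h2, ← h3, ← h4, ← h5, ← h6, ← h7]
  simp only [← via_swap, ← map_mul]
  apply good_via
  refine ⟨swap 0 1 * swap 3 4 * swap 2 6 * swap 5 7, ?_, ?_, ?_, ?_, ?_⟩
  · apply Equiv.ext
    decide +kernel
  · decide +kernel
  · decide +kernel
  · refine Odd.of_dvd_nat (show Odd 3 by decide) (orderOf_dvd_of_pow_eq_one ?_)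
    apply Equiv.ext
    decide +kernel
  · refine Odd.of_dvd_nat (show Odd 3 by decide) (orderOf_dvd_of_pow_eq_one ?_)
    apply Equiv.ext
    decide +kernel


theorem good_E3 {a b c d e : Ω} (hn : [a, b, c, d, e].Nodup) :
    ∃ z : Perm Ω, z * z = 1 ∧ z.support.card = (swap a b * swap c d : Perm Ω).support.card ∧
      Odd (orderOf (swap a b * swap c d * z)) ∧ Odd (orderOf (z * (swap b c * swap a d))) := by
  have hn' := hn
  simp only [List.nodup_cons, List.mem_cons, List.not_mem_nil, or_false, not_or, not_false_eq_true,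
    and_true, List.nodup_nil] at hn'
  obtain ⟨⟨h1, h2, h3, h4⟩, ⟨h5, h6, h7⟩, ⟨h8, h9⟩, h10⟩ := hn'
  refine ⟨swap a e * swap b c, ?_, ?_, ?_, ?_⟩
  · apply sq_swap (swap_mul_self a e)
    · exact swap_apply_of_ne_of_ne (Ne.symm h1) h7
    · exact swap_apply_of_ne_of_ne (Ne.symm h2) h9
  · rw [card_four, card_four]
    · simp [h1, h2, h3, h5, h6, h8]
    · simp [h1, h2, h4, Ne.symm h7, Ne.symm h9, h5]
  · rw [id_E3a hn]
    have k1 : Odd (orderOf (1 * (swap e c * swap c a) : Perm Ω)) :=
      odd_insert' odd_one_order rfl rfl (Ne.symm h2) (Ne.symm h9) (Ne.symm h4)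
    rw [one_mul] at k1
    refine odd_insert' k1 ?_ ?_ h6 (Ne.symm h7) (Ne.symm h10)
    · rw [mul_swap_fix h5 (Ne.symm h1), swap_apply_of_ne_of_ne h7 h5]
    · rw [mul_swap_fix (Ne.symm h8) (Ne.symm h3), swap_apply_of_ne_of_ne h10 (Ne.symm h8)]
  · rw [id_E3b hn]
    have k1 : Odd (orderOf (1 * (swap a d * swap d e) : Perm Ω)) :=
      odd_insert' odd_one_order rfl rfl h10 h3 h4
    rwa [one_mul] at k1

theorem FC.mono {x y x' y' : Perm Ω} (hx' : x' * x' = 1) (hy' : y' * y' = 1) (h : FC x' y')
    (hx : ∀ w, x' w ≠ w → y' w ≠ w → x' w = x w) (hy : ∀ w, x' w ≠ w → y' w ≠ w → y' w = y w) :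
    FC x y := by
  obtain ⟨a, b, c, d, hn, h1, h2, h3, h4⟩ := h
  refine ⟨a, b, c, d, hn, ?_⟩
  simp only [List.nodup_cons, List.mem_cons, List.not_mem_nil, or_false, not_or, not_false_eq_true,
    and_true, List.nodup_nil] at hn
  obtain ⟨⟨hab, hac, had⟩, ⟨hbc, hbd⟩, hcd⟩ := hn
  have xa : x' a ≠ a := by rw [h1]; exact Ne.symm hab
  have ya : y' a ≠ a := by rw [h4]; exact Ne.symm had
  have xb : x' b ≠ b := by rw [← h1, apply_apply hx', h1]; exact hab
  have yb : y' b ≠ b := by rw [h3]; exact Ne.symm hbc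
  have xc : x' c ≠ c := by rw [h2]; exact Ne.symm hcd
  have yc : y' c ≠ c := by rw [← h3, apply_apply hy', h3]; exact hbc
  exact ⟨by rw [← hx a xa ya, h1], by rw [← hx c xc yc, h2], by rw [← hy b xb yb, h3],
    by rw [← hy a xa ya, h4]⟩

theorem main (N : ℕ) : ∀ (x y : Perm Ω), x * x = 1 → y * y = 1 → x.support.card = y.support.card →
    x.support.card + y.support.card = N → ¬ Exc x y → Good x y := by
  induction N using Nat.strong_induction_on with
  | _ N ih =>
  intro x y hx hy hcard hN hexc
  have xx : ∀ w, x (x w) = w := apply_apply hx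
  have yy : ∀ w, y (y w) = w := apply_apply hy
  by_cases hxy : x = y
  · subst hxy
    exact ⟨x, hx, fun w h _ => h, rfl, by rw [hx]; exact odd_one_order, by rw [hx]; exact odd_one_order⟩
  by_cases hFC : FC x y
  · obtain ⟨a, b, c, d, hn, xa, xc, yb, ya⟩ := hFC
    have hn' := hn
    simp only [List.nodup_cons, List.mem_cons, List.not_mem_nil, or_false, not_or, not_false_eq_true,
      and_true, List.nodup_nil] at hn'
    obtain ⟨⟨hab, hac, had⟩, ⟨hbc, hbd⟩, hcd⟩ := hn'
    have xb : x b = a := by rw [← xa, xx]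
    have xd : x d = c := by rw [← xc, xx]
    have yc : y c = b := by rw [← yb, yy]
    have yd : y d = a := by rw [← ya, yy]
    obtain ⟨x', hx'⟩ : ∃ x', x' = x * swap c d * swap a b := ⟨_, rfl⟩
    obtain ⟨y', hy'⟩ : ∃ y', y' = y * swap a d * swap b c := ⟨_, rfl⟩
    have ex : x = x' * swap a b * swap c d := by
      rw [hx', mul_assoc (x * swap c d), swap_mul_self, mul_one, mul_assoc, swap_mul_self, mul_one]
    have ey : y = y' * swap b c * swap a d := by
      rw [hy', mul_assoc (y * swap a d), swap_mul_self, mul_one, mul_assoc, swap_mul_self, mul_one]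
    have x'a : x' a = a := by rw [hx', mul_swap_left, mul_swap_fix hbc hbd, xb]
    have x'b : x' b = b := by rw [hx', mul_swap_right, mul_swap_fix hac had, xa]
    have x'c : x' c = c := by
      rw [hx', mul_swap_fix (Ne.symm hac) (Ne.symm hbc), mul_swap_left, xd]
    have x'd : x' d = d := by
      rw [hx', mul_swap_fix (Ne.symm had) (Ne.symm hbd), mul_swap_right, xc]
    have y'a : y' a = a := by rw [hy', mul_swap_fix hab hac, mul_swap_left, yd]
    have y'b : y' b = b := by
      rw [hy', mul_swap_left, mul_swap_fix (Ne.symm hac) hcd, yc]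
    have y'c : y' c = c := by
      rw [hy', mul_swap_right, mul_swap_fix (Ne.symm hab) hbd, yb]
    have y'd : y' d = d := by
      rw [hy', mul_swap_fix (Ne.symm hbd) (Ne.symm hcd), mul_swap_right, ya]
    have x'x' : x' * x' = 1 := by
      rw [hx']
      apply rm_sq (rm_sq hx xc)
      rw [mul_swap_fix hac had, xa]
    have y'y' : y' * y' = 1 := by
      rw [hy']
      apply rm_sq (rm_sq hy ya)
      rw [mul_swap_fix (Ne.symm hab) hbd, yb]
    have cx : x.support.card = x'.support.card + 2 + 2 := by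
      rw [rm_card hx xc hcd, rm_card (rm_sq hx xc) (a := a) (b := b) _ hab, ← hx']
      rw [mul_swap_fix hac had, xa]
    have cy : y.support.card = y'.support.card + 2 + 2 := by
      rw [rm_card hy ya had, rm_card (rm_sq hy ya) (a := b) (b := c) _ hbc, ← hy']
      rw [mul_swap_fix (Ne.symm hab) hbd, yb]
    by_cases hx1 : x' = 1
    · exfalso
      apply hexc
      have hy1 : y' = 1 := by
        rw [hx1, support_one, Finset.card_empty] at cx
        have : y'.support.card = 0 := by omega
        rwa [Finset.card_eq_zero, support_eq_empty_iff] at this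
      exact ⟨a, b, c, d, hn, by rw [ex, hx1, one_mul], by rw [ey, hy1, one_mul]⟩
    by_cases hE : Exc x' y'
    · obtain ⟨e, f, g, h, hn2, e1, e2⟩ := hE
      have hn8 : [a, b, c, d, e, f, g, h].Nodup := by
        have hn2' := hn2
        simp only [List.nodup_cons, List.mem_cons, List.not_mem_nil, or_false, not_or,
          not_false_eq_true, and_true, List.nodup_nil] at hn2'
        obtain ⟨⟨k1, k2, k3⟩, ⟨k4, k5⟩, k6⟩ := hn2'
        have me : x' e ≠ e := by
          rw [e1, mul_swap_fix k2 k3, swap_apply_left]; exact Ne.symm k1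
        have mf : x' f ≠ f := by
          rw [e1, mul_swap_fix k4 k5, swap_apply_right]; exact k1
        have mg : x' g ≠ g := by
          rw [e1, mul_swap_left, swap_apply_of_ne_of_ne (Ne.symm k3) (Ne.symm k5)]; exact Ne.symm k6
        have mh : x' h ≠ h := by
          rw [e1, mul_swap_right, swap_apply_of_ne_of_ne (Ne.symm k2) (Ne.symm k4)]; exact k6
        have key : ∀ u v, x' u = u → x' v ≠ v → ¬ u = v := by
          rintro u v hu hv rfl; exact hv hu
        simp only [List.nodup_cons, List.mem_cons, List.not_mem_nil, or_false, not_or,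
          not_false_eq_true, and_true, List.nodup_nil]
        exact ⟨⟨hab, hac, had, key _ _ x'a me, key _ _ x'a mf, key _ _ x'a mg, key _ _ x'a mh⟩,
          ⟨hbc, hbd, key _ _ x'b me, key _ _ x'b mf, key _ _ x'b mg, key _ _ x'b mh⟩,
          ⟨hcd, key _ _ x'c me, key _ _ x'c mf, key _ _ x'c mg, key _ _ x'c mh⟩,
          ⟨key _ _ x'd me, key _ _ x'd mf, key _ _ x'd mg, key _ _ x'd mh⟩,
          ⟨k1, k2, k3⟩, ⟨k4, k5⟩, k6⟩
      have := good_E1 hn8
      rw [← e1, ← e2] at this
      have f1 : swap a b * swap c d * x' = x := by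
        rw [ex, mul_assoc, ← comm_swap x'c x'd, ← mul_assoc, ← comm_swap x'a x'b]
      have f2 : swap b c * swap a d * y' = y := by
        rw [ey, mul_assoc, ← comm_swap y'a y'd, ← mul_assoc, ← comm_swap y'b y'c]
      rwa [f1, f2] at this
    · rw [ex, ey]
      refine R_II hn x'a x'b x'c x'd y'a y'b y'c y'd hx1 ?_
      exact ih (x'.support.card + y'.support.card) (by omega) x' y' x'x' y'y' (by omega) rfl hE
  by_cases h2 : ∃ p, x p = y p ∧ x p ≠ p
  · obtain ⟨p, hp1, hp2⟩ := h2
    obtain ⟨q, hq⟩ : ∃ q, q = x p := ⟨_, rfl⟩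
    have hqp : p ≠ q := by rw [hq]; exact hp2.symm
    have xp : x p = q := hq.symm
    have yp : y p = q := by rw [← hp1, xp]
    have xq : x q = p := by rw [← xp, xx]
    have yq : y q = p := by rw [← yp, yy]
    have ex : x = x * swap p q * swap p q := by rw [mul_assoc, swap_mul_self, mul_one]
    have ey : y = y * swap p q * swap p q := by rw [mul_assoc, swap_mul_self, mul_one]
    have cx := rm_card hx xp hqp
    have cy := rm_card hy yp hqp
    rw [ex, ey]
    refine R_I (by rw [mul_swap_left, xq]) (by rw [mul_swap_right, xp]) (by rw [mul_swap_left, yq])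
      (by rw [mul_swap_right, yp]) hqp ?_
    refine ih _ ?_ (x * swap p q) (y * swap p q) (rm_sq hx xp) (rm_sq hy yp) (by omega) rfl ?_
    · omega
    · intro hE
      apply hFC
      refine FC.mono (rm_sq hx xp) (rm_sq hy yp) hE.fc ?_ ?_
      · intro w h1 h2
        have wp : w ≠ p := by rintro rfl; rw [mul_swap_left, xq] at h1; exact h1 rfl
        have wq : w ≠ q := by rintro rfl; rw [mul_swap_right, xp] at h1; exact h1 rfl
        rw [mul_swap_fix wp wq]
      · intro w h1 h2
        have wp : w ≠ p := by rintro rfl; rw [mul_swap_left, xq] at h1; exact h1 rfl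
        have wq : w ≠ q := by rintro rfl; rw [mul_swap_right, xp] at h1; exact h1 rfl
        rw [mul_swap_fix wp wq]
  -- paths
  have path : ∀ (x y : Perm Ω), x * x = 1 → y * y = 1 → x.support.card = y.support.card →
    x.support.card + y.support.card = N → ¬ FC x y → (∃ a, x a ≠ a ∧ y a = a ∧ y (x a) ≠ x a) →
      Good x y := by
    intro x y hx hy hcard hN hFC h3
    have xx : ∀ w, x (x w) = w := apply_apply hx
    have yy : ∀ w, y (y w) = w := apply_apply hy
    obtain ⟨a, ha, ya, hb⟩ := h3
    obtain ⟨b, hb'⟩ : ∃ b, b = x a := ⟨_, rfl⟩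
    obtain ⟨c, hc'⟩ : ∃ c, c = y b := ⟨_, rfl⟩
    have xa : x a = b := hb'.symm
    have xb : x b = a := by rw [← xa, xx]
    have yb : y b = c := hc'.symm
    have yc : y c = b := by rw [← yb, yy]
    have hab : a ≠ b := by rw [← xa]; exact ha.symm
    have hbc : b ≠ c := by rw [← yb]; rw [xa] at hb; exact hb.symm
    have hac : a ≠ c := by
      intro e
      rw [← e, ya] at yc
      exact hab yc
    have ex : x = x * swap a b * swap a b := by rw [mul_assoc, swap_mul_self, mul_one]
    have ey : y = y * swap b c * swap b c := by rw [mul_assoc, swap_mul_self, mul_one]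
    have cx := rm_card hx xa hab
    have cy := rm_card hy yb hbc
    rw [ex, ey]
    refine R_V (by rw [mul_swap_left, xb]) (by rw [mul_swap_right, xa])
      (by rw [mul_swap_fix hab hac, ya]) (by rw [mul_swap_left, yc]) (by rw [mul_swap_right, yb])
      hab hac hbc ?_
    refine ih _ ?_ (x * swap a b) (y * swap b c) (rm_sq hx xa) (rm_sq hy yb) (by omega) rfl ?_
    · omega
    · intro hE
      apply hFC
      refine FC.mono (rm_sq hx xa) (rm_sq hy yb) hE.fc ?_ ?_
      · intro w h1 h2
        have wp : w ≠ a := by rintro rfl; rw [mul_swap_left, xb] at h1; exact h1 rfl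
        have wq : w ≠ b := by rintro rfl; rw [mul_swap_right, xa] at h1; exact h1 rfl
        rw [mul_swap_fix wp wq]
      · intro w h1 h2
        have wp : w ≠ b := by rintro rfl; rw [mul_swap_left, yc] at h2; exact h2 rfl
        have wq : w ≠ c := by rintro rfl; rw [mul_swap_right, yb] at h2; exact h2 rfl
        rw [mul_swap_fix wp wq]
  have hFC' : ¬ FC y x := by
    rintro ⟨a, b, c, d, hn, h1, h2, h3, h4⟩
    apply hFC
    refine ⟨b, c, d, a, ?_, ?_, ?_, ?_, ?_⟩
    · simp only [List.nodup_cons, List.mem_cons, List.not_mem_nil, or_false, not_or,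
        not_false_eq_true, and_true, List.nodup_nil] at hn ⊢
      obtain ⟨⟨hab, hac, had⟩, ⟨hbc, hbd⟩, hcd⟩ := hn
      exact ⟨⟨hbc, hbd, Ne.symm hab⟩, ⟨hcd, Ne.symm hac⟩, Ne.symm had⟩
    · exact h3
    · rw [← h4, xx]
    · exact h2
    · rw [← h1, yy]
  by_cases h3 : ∃ a, x a ≠ a ∧ y a = a ∧ y (x a) ≠ x a
  · exact path x y hx hy hcard hN hFC h3
  by_cases h3' : ∃ a, y a ≠ a ∧ x a = a ∧ x (y a) ≠ y a
  · exact Good.symm hcard.symm (path y x hy hx hcard.symm (by omega) hFC' h3')
  push Not at h2 h3 h3'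
  by_cases h4 : ∃ a, x a ≠ a ∧ y a = a
  · obtain ⟨a, ha, ya⟩ := h4
    obtain ⟨c, hc, xc⟩ : ∃ c, y c ≠ c ∧ x c = c := by
      by_contra hcon
      push Not at hcon
      have hsub : y.support ⊆ x.support := by
        intro w hw
        rw [mem_support] at hw ⊢
        exact hcon w hw
      have := Finset.eq_of_subset_of_card_le hsub hcard.le
      have h5 : a ∈ y.support := by rw [this, mem_support]; exact ha
      exact (mem_support.1 h5) ya
    obtain ⟨b, hb'⟩ : ∃ b, b = x a := ⟨_, rfl⟩
    obtain ⟨d, hd'⟩ : ∃ d, d = y c := ⟨_, rfl⟩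
    have xa : x a = b := hb'.symm
    have xb : x b = a := by rw [← xa, xx]
    have yc : y c = d := hd'.symm
    have yd : y d = c := by rw [← yc, yy]
    have yb : y b = b := by rw [← xa]; exact h3 a ha ya
    have xd : x d = d := by rw [← yc]; exact h3' c hc xc
    have hab : a ≠ b := by rw [← xa]; exact ha.symm
    have hcd : c ≠ d := by rw [← yc]; exact hc.symm
    have hac : a ≠ c := by rintro rfl; exact ha xc
    have had : a ≠ d := by rintro rfl; exact ha xd
    have hbc : b ≠ c := by rintro rfl; exact hc yb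
    have hbd : b ≠ d := by intro e; rw [e, xd] at xb; exact had xb.symm
    have hn : [a, b, c, d].Nodup := by simp [hab, hac, had, hbc, hbd, hcd]
    have ex : x = x * swap a b * swap a b := by rw [mul_assoc, swap_mul_self, mul_one]
    have ey : y = y * swap c d * swap c d := by rw [mul_assoc, swap_mul_self, mul_one]
    have cx := rm_card hx xa hab
    have cy := rm_card hy yc hcd
    rw [ex, ey]
    refine R_III hn (by rw [mul_swap_left, xb]) (by rw [mul_swap_right, xa])
      (by rw [mul_swap_fix hac.symm hbc.symm, xc]) (by rw [mul_swap_fix hac had, ya])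
      (by rw [mul_swap_fix hbc hbd, yb])
      (by rw [mul_swap_left, yd]) (by rw [mul_swap_right, yc]) ?_
    refine ih _ ?_ (x * swap a b) (y * swap c d) (rm_sq hx xa) (rm_sq hy yc) (by omega) rfl ?_
    · omega
    · intro hE
      apply hFC
      refine FC.mono (rm_sq hx xa) (rm_sq hy yc) hE.fc ?_ ?_
      · intro w h1 h2
        have wp : w ≠ a := by rintro rfl; rw [mul_swap_left, xb] at h1; exact h1 rfl
        have wq : w ≠ b := by rintro rfl; rw [mul_swap_right, xa] at h1; exact h1 rfl
        rw [mul_swap_fix wp wq]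
      · intro w h1 h2
        have wp : w ≠ c := by rintro rfl; rw [mul_swap_left, yd] at h2; exact h2 rfl
        have wq : w ≠ d := by rintro rfl; rw [mul_swap_right, yc] at h2; exact h2 rfl
        rw [mul_swap_fix wp wq]
  push Not at h4
  have hsupp : x.support = y.support := by
    apply Finset.eq_of_subset_of_card_le _ hcard.ge
    intro w hw
    rw [mem_support] at hw ⊢
    exact h4 w hw
  obtain ⟨a, ha⟩ : ∃ a, x a ≠ a := by
    by_contra hcon
    push Not at hcon
    have hx1 : x = 1 := Equiv.ext hcon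
    rw [hx1, support_one, eq_comm, support_eq_empty_iff] at hsupp
    exact hxy (hx1.trans hsupp.symm)
  have hm : ∀ w, x w ≠ w → y w ≠ w := h4
  have hm' : ∀ w, y w ≠ w → x w ≠ w := by
    intro w hw
    have : w ∈ x.support := by rw [hsupp, mem_support]; exact hw
    exact mem_support.1 this
  have hne : ∀ w, x w ≠ w → x w ≠ y w := fun w hw e => hw (h2 w e)
  obtain ⟨b, hb'⟩ : ∃ b, b = x a := ⟨_, rfl⟩
  obtain ⟨c, hc'⟩ : ∃ c, c = y b := ⟨_, rfl⟩
  obtain ⟨d, hd'⟩ : ∃ d, d = x c := ⟨_, rfl⟩
  obtain ⟨p, hp'⟩ : ∃ p, p = y a := ⟨_, rfl⟩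
  obtain ⟨q, hq'⟩ : ∃ q, q = y d := ⟨_, rfl⟩
  have xa : x a = b := hb'.symm
  have xb : x b = a := by rw [← xa, xx]
  have xc : x c = d := hd'.symm
  have xd : x d = c := by rw [← xc, xx]
  have yb : y b = c := hc'.symm
  have yc : y c = b := by rw [← yb, yy]
  have ya : y a = p := hp'.symm
  have yp : y p = a := by rw [← ya, yy]
  have yd : y d = q := hq'.symm
  have yq : y q = d := by rw [← yd, yy]
  have hab : a ≠ b := by rw [← xa]; exact ha.symm
  have mb : x b ≠ b := by rw [xb]; exact hab
  have hbc : b ≠ c := by rw [← yb]; exact (hm b mb).symm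
  have mc : x c ≠ c := hm' c (by rw [yc]; exact hbc)
  have hcd : c ≠ d := by rw [← xc]; exact mc.symm
  have md : x d ≠ d := by rw [xd]; exact hcd
  have hac : a ≠ c := by rw [← xb, ← yb]; exact hne b mb
  have hbd : b ≠ d := by intro e; rw [e, xd] at xb; exact hac xb.symm
  have had : a ≠ d := by intro e; rw [← e, xa] at xd; exact hbc xd
  have hap : a ≠ p := by rw [← ya]; exact (hm a ha).symm
  have hdq : d ≠ q := by rw [← yd]; exact (hm d md).symm
  have hbp : b ≠ p := by rw [← xa, ← ya]; exact hne a ha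
  have hcq : c ≠ q := by rw [← xd, ← yd]; exact hne d md
  have hcp : c ≠ p := by intro e; rw [← e, yc] at yp; exact hab yp.symm
  have hbq : b ≠ q := by intro e; rw [← e, yb] at yq; exact hcd yq
  have hdp : d ≠ p := by
    intro e
    apply hFC
    exact ⟨a, b, c, d, by simp [hab, hac, had, hbc, hbd, hcd], xa, xc, yb, by rw [ya, e]⟩
  have haq : a ≠ q := by
    intro e
    apply hdp
    rw [← ya, e, yq]
  have hpq : p ≠ q := by intro e; rw [← e, yp] at yq; exact had yq
  have hn6 : [a, b, c, d, p, q].Nodup := by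
    simp [hab, hac, had, hap, haq, hbc, hbd, hbp, hbq, hcd, hcp, hcq, hdp, hdq, hpq]
  obtain ⟨x', hx'⟩ : ∃ x', x' = x * swap c d * swap a b := ⟨_, rfl⟩
  obtain ⟨y', hy'⟩ : ∃ y', y' = y * (swap d q * swap b c * swap p a * swap p q) := ⟨_, rfl⟩
  have ex : x = x' * swap a b * swap c d := by
    rw [hx', mul_assoc (x * swap c d), swap_mul_self, mul_one, mul_assoc, swap_mul_self, mul_one]
  have ey : y = y' * (swap p q * swap p a * swap b c * swap d q) := by
    rw [hy']
    have : (swap d q * swap b c * swap p a * swap p q) * (swap p q * swap p a * swap b c * swap d q) = (1 : Perm Ω) := by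
      calc (swap d q * swap b c * swap p a * swap p q) * (swap p q * swap p a * swap b c * swap d q) =
          swap d q * (swap b c * (swap p a * (swap p q * swap p q) * swap p a) * swap b c) * swap d q := by
            simp only [mul_assoc]
        _ = (1 : Perm Ω) := by simp only [swap_mul_self, mul_one]
    rw [mul_assoc, this, mul_one]
  have x'a : x' a = a := by rw [hx', mul_swap_left, mul_swap_fix hbc hbd, xb]
  have x'b : x' b = b := by rw [hx', mul_swap_right, mul_swap_fix hac had, xa]
  have x'c : x' c = c := by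
    rw [hx', mul_swap_fix (Ne.symm hac) (Ne.symm hbc), mul_swap_left, xd]
  have x'd : x' d = d := by
    rw [hx', mul_swap_fix (Ne.symm had) (Ne.symm hbd), mul_swap_right, xc]
  have x'w : ∀ w, w ≠ a → w ≠ b → w ≠ c → w ≠ d → x' w = x w := by
    intro w h1 h2 h3 h4
    rw [hx', mul_swap_fix h1 h2, mul_swap_fix h3 h4]
  -- the permutation y'' fixing p and q
  obtain ⟨u, hu⟩ : ∃ u, u = y * swap d q * swap b c * swap p a := ⟨_, rfl⟩
  have hy'u : y' = u * swap p q := by rw [hy', hu]; simp only [mul_assoc]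
  have s1 : (y * swap d q) * (y * swap d q) = 1 := rm_sq hy yd
  have c1 := rm_card hy yd hdq
  have t1 : (y * swap d q) b = c := by rw [mul_swap_fix hbd hbq, yb]
  have s2 := rm_sq s1 t1
  have c2 := rm_card s1 t1 hbc
  have t2 : (y * swap d q * swap b c) p = a := by
    rw [mul_swap_fix (Ne.symm hbp) (Ne.symm hcp), mul_swap_fix (Ne.symm hdp) hpq, yp]
  have s3 := rm_sq s2 t2
  have c3 := rm_card s2 t2 (Ne.symm hap)
  rw [← hu] at s3 c3
  have up : u p = p := by
    rw [hu, mul_swap_left, mul_swap_fix hab hac, mul_swap_fix had haq, ya]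
  have ua : u a = a := by rw [hu, mul_swap_right, t2]
  have ub : u b = b := by
    rw [hu, mul_swap_fix hbp (Ne.symm hab), mul_swap_left, mul_swap_fix hcd hcq, yc]
  have uc : u c = c := by
    rw [hu, mul_swap_fix hcp (Ne.symm hac), mul_swap_right, t1]
  have ud : u d = d := by
    rw [hu, mul_swap_fix hdp (Ne.symm had), mul_swap_fix (Ne.symm hbd) (Ne.symm hcd), mul_swap_left, yq]
  have uq : u q = q := by
    rw [hu, mul_swap_fix (Ne.symm hpq) (Ne.symm haq), mul_swap_fix (Ne.symm hbq) (Ne.symm hcq), mul_swap_right, yd]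
  have y'y' : y' * y' = 1 := by rw [hy'u]; exact sq_swap s3 up uq
  have c4 : y'.support.card = u.support.card + 2 := by rw [hy'u]; exact card_add up uq hpq
  have y'p : y' p = q := by rw [hy'u, mul_swap_left, uq]
  have y'q : y' q = p := by rw [hy'u, mul_swap_right, up]
  have y'a : y' a = a := by rw [hy'u, mul_swap_fix hap haq, ua]
  have y'b : y' b = b := by rw [hy'u, mul_swap_fix hbp hbq, ub]
  have y'c : y' c = c := by rw [hy'u, mul_swap_fix hcp hcq, uc]
  have y'd : y' d = d := by rw [hy'u, mul_swap_fix hdp hdq, ud]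
  have x'x' : x' * x' = 1 := by
    rw [hx']
    apply rm_sq (rm_sq hx xc)
    rw [mul_swap_fix hac had, xa]
  have cx : x.support.card = x'.support.card + 2 + 2 := by
    rw [rm_card hx xc hcd, rm_card (rm_sq hx xc) (a := a) (b := b) _ hab, ← hx']
    rw [mul_swap_fix hac had, xa]
  by_cases hE : Exc x' y'
  · obtain ⟨r, s, q', hn4, e1, e2⟩ := hE.at (p := p) (by rw [y'p]; exact Ne.symm hpq)
    have hn4' := hn4
    simp only [List.nodup_cons, List.mem_cons, List.not_mem_nil, or_false, not_or, not_false_eq_true,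
      and_true, List.nodup_nil] at hn4'
    obtain ⟨⟨k1, k2, k3⟩, ⟨k4, k5⟩, k6⟩ := hn4'
    have hqq : q' = q := by
      have : y' p = q' := by rw [e2, mul_swap_left, swap_apply_of_ne_of_ne (Ne.symm k5) (Ne.symm k6)]
      rw [← this, y'p]
    subst hqq
    have key : ∀ u v, x' u = u → x' v ≠ v → ¬ u = v := by
      rintro u v hu hv rfl; exact hv hu
    have mr : x' r ≠ r := by
      rw [e1, mul_swap_fix k4 k5, swap_apply_right]; exact k1
    have ms : x' s ≠ s := by
      rw [e1, mul_swap_left, swap_apply_of_ne_of_ne (Ne.symm k3) (Ne.symm k5)]; exact Ne.symm k6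
    have hn8 : [a, b, c, d, q', s, r, p].Nodup := by
      simp only [List.nodup_cons, List.mem_cons, List.not_mem_nil, or_false, not_or,
        not_false_eq_true, and_true, List.nodup_nil]
      exact ⟨⟨hab, hac, had, haq, key _ _ x'a ms, key _ _ x'a mr, hap⟩,
        ⟨hbc, hbd, hbq, key _ _ x'b ms, key _ _ x'b mr, hbp⟩,
        ⟨hcd, hcq, key _ _ x'c ms, key _ _ x'c mr, hcp⟩,
        ⟨hdq, key _ _ x'd ms, key _ _ x'd mr, hdp⟩,
        ⟨Ne.symm k6, Ne.symm k5, Ne.symm k3⟩, ⟨Ne.symm k4, Ne.symm k2⟩, Ne.symm k1⟩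
    have hg := good_E2 hn8
    have fx : x = swap a b * swap c d * (swap q' s * swap r p) := by
      rw [← id_E2x hn8, ex, e1]; simp only [mul_assoc]
    have fy : y = swap b c * swap d q' * swap s r * swap p a := by
      rw [← id_E2y hn8, ey, e2]
    rw [fx, fy]
    exact hg
  · rw [ex, ey]
    refine R_IV hn6 x'a x'b x'c x'd y'a y'b y'c y'd y'p y'q ?_
    exact ih (x'.support.card + y'.support.card) (by omega) x' y' x'x' y'y' (by omega) rfl hE

theorem not_odd_four {a b c d : Ω} (hn : [a, b, c, d].Nodup) :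
    ¬ Odd (orderOf (swap a b * swap c d : Perm Ω)) := by
  intro h
  have hn' := hn
  simp only [List.nodup_cons, List.mem_cons, List.not_mem_nil, or_false, not_or, not_false_eq_true,
    and_true, List.nodup_nil] at hn'
  obtain ⟨⟨hab, hac, had⟩, ⟨hbc, hbd⟩, hcd⟩ := hn'
  have h2 : (swap a b * swap c d : Perm Ω) ^ 2 = 1 := by
    rw [sq]
    exact sq_swap (swap_mul_self a b) (swap_apply_of_ne_of_ne (Ne.symm hac) (Ne.symm hbc))
      (swap_apply_of_ne_of_ne (Ne.symm had) (Ne.symm hbd))
  have h3 := orderOf_dvd_of_pow_eq_one h2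
  rcases (Nat.dvd_prime Nat.prime_two).1 h3 with h4 | h4
  · rw [orderOf_eq_one_iff] at h4
    have : (swap a b * swap c d : Perm Ω) a = a := by rw [h4]; rfl
    rw [mul_swap_fix hac had, swap_apply_left] at this
    exact hab this.symm
  · rw [h4] at h
    exact absurd h (by decide)

end perm

/-- Let n ≥ 5 and let X be a conjugacy class of involutions of the symmetric group of degree n. The graph on X joining two distinct involutions whose product has odd order is connected and has diameter exactly 2. -/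
theorem result (n : ℕ) (hn : 5 ≤ n) (t : Equiv.Perm (Fin n)) (ht : orderOf t = 2) :
    (SimpleGraph.fromRel fun x y : {x : Equiv.Perm (Fin n) // IsConj t x} =>
        Odd (orderOf (x.1 * y.1))).Connected ∧
      (SimpleGraph.fromRel fun x y : {x : Equiv.Perm (Fin n) // IsConj t x} =>
        Odd (orderOf (x.1 * y.1))).diam = 2 := by
  have ht2 : t * t = 1 := by rw [← sq, ← ht]; exact pow_orderOf_eq_one t
  have hsq : ∀ u : Equiv.Perm (Fin n), IsConj t u → u * u = 1 := by
    intro u hu
    obtain ⟨c, hc⟩ := isConj_iff.1 hu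
    rw [← hc]
    calc c * t * c⁻¹ * (c * t * c⁻¹) = c * (t * t) * c⁻¹ := by group
      _ = 1 := by rw [ht2, mul_one, mul_inv_cancel]
  have hcard : ∀ u : Equiv.Perm (Fin n), IsConj t u → u.support.card = t.support.card := by
    intro u hu
    rw [← sum_cycleType, ← sum_cycleType, isConj_iff_cycleType_eq.1 hu]
  apply odd_product_graph t _ _ ht2
  · rintro ⟨x, hx⟩ ⟨y, hy⟩
    have key : ∃ z : Equiv.Perm (Fin n), z * z = 1 ∧ Odd (orderOf (x * z)) ∧ Odd (orderOf (z * y)) := by
      by_cases hE : Exc x y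
      · obtain ⟨a, b, c, d, hn4, e1, e2⟩ := hE
        obtain ⟨e, he⟩ : ∃ e : Fin n, e ∉ [a, b, c, d] := by
          by_contra hcon
          push Not at hcon
          have h1 : (Finset.univ : Finset (Fin n)) ⊆ [a, b, c, d].toFinset := fun w _ => by
            rw [List.mem_toFinset]; exact hcon w
          have h2 := Finset.card_le_card h1
          have h3 := List.toFinset_card_le [a, b, c, d]
          rw [Finset.card_univ, Fintype.card_fin] at h2
          simp only [List.length_cons, List.length_nil] at h3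
          omega
        have hn5 : [a, b, c, d, e].Nodup := by
          have : ([a, b, c, d] ++ [e]).Nodup := by
            rw [List.nodup_append]
            refine ⟨hn4, List.nodup_singleton e, ?_⟩
            intro u hu v hv huv
            rw [List.mem_singleton] at hv
            rw [← hv, ← huv] at he
            exact he hu
          exact this
        obtain ⟨z, h1, -, h2, h3⟩ := good_E3 hn5
        exact ⟨z, h1, by rw [e1]; exact h2, by rw [e2]; exact h3⟩
      · obtain ⟨z, h1, -, -, h2, h3⟩ := main _ x y (hsq x hx) (hsq y hy)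
          ((hcard x hx).trans (hcard y hy).symm) rfl hE
        exact ⟨z, h1, h2, h3⟩
    obtain ⟨z, hz, h1, h2⟩ := key
    exact ⟨⟨z, hx.trans (isConj_of_odd (hsq x hx) hz h1)⟩, h1, h2⟩
  · have ht1 : t ≠ 1 := by
      rintro rfl
      rw [orderOf_one] at ht
      exact absurd ht (by decide)
    obtain ⟨a, ha⟩ : ∃ a, t a ≠ a := by
      by_contra hcon
      push Not at hcon
      exact ht1 (Equiv.ext hcon)
    obtain ⟨b, hb⟩ : ∃ b, b = t a := ⟨_, rfl⟩
    have ta : t a = b := hb.symm
    have tb : t b = a := by rw [← ta, apply_apply ht2]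
    have hab : a ≠ b := by rw [← ta]; exact ha.symm
    by_cases hc : ∃ c, c ≠ a ∧ c ≠ b ∧ t c ≠ c
    · obtain ⟨c, hca, hcb, htc⟩ := hc
      obtain ⟨d, hd⟩ : ∃ d, d = t c := ⟨_, rfl⟩
      have tc : t c = d := hd.symm
      have td : t d = c := by rw [← tc, apply_apply ht2]
      have hcd : c ≠ d := by rw [← tc]; exact htc.symm
      have hda : d ≠ a := by intro e; rw [e, ta] at td; exact hcb td.symm
      have hdb : d ≠ b := by intro e; rw [e, tb] at td; exact hca td.symm
      refine ⟨⟨t, IsConj.refl t⟩, ⟨swap b c * t * (swap b c)⁻¹, isConj_iff.2 ⟨swap b c, rfl⟩⟩, ?_⟩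
      have e : t * (swap b c * t * (swap b c)⁻¹) = swap a d * swap b c := by
        have e1 : t * swap b c * t = swap a d := by
          rw [mul_swap_eq_swap_mul, tb, tc, mul_assoc, ht2, mul_one]
        rw [swap_inv, ← mul_assoc, ← mul_assoc, e1]
      show ¬ Odd (orderOf (t * (swap b c * t * (swap b c)⁻¹)))
      rw [e]
      apply not_odd_four
      simp [Ne.symm hda, hab, Ne.symm hca, hdb, Ne.symm hcd, Ne.symm hcb]
    · push Not at hc
      have hts : t = swap a b := by
        ext w
        congr 1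
        by_cases h1 : w = a
        · rw [h1, ta, swap_apply_left]
        by_cases h2 : w = b
        · rw [h2, tb, swap_apply_right]
        rw [hc w h1 h2, swap_apply_of_ne_of_ne h1 h2]
      have hcard2 : (Finset.univ \ {a, b} : Finset (Fin n)).card = n - 2 := by
        rw [Finset.card_sdiff_of_subset (Finset.subset_univ _), Finset.card_univ, Fintype.card_fin,
          Finset.card_pair hab]
      obtain ⟨c, hc', d, hd', hcd⟩ : ∃ c ∈ (Finset.univ \ {a, b} : Finset (Fin n)),
          ∃ d ∈ (Finset.univ \ {a, b} : Finset (Fin n)), c ≠ d := by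
        apply Finset.one_lt_card.1
        omega
      simp only [Finset.mem_sdiff, Finset.mem_univ, true_and, Finset.mem_insert,
        Finset.mem_singleton, not_or] at hc' hd'
      refine ⟨⟨t, IsConj.refl t⟩, ⟨swap c d, ?_⟩, ?_⟩
      · rw [hts]; exact isConj_swap hab hcd
      · show ¬ Odd (orderOf (t * swap c d))
        rw [hts]
        apply not_odd_four
        simp [hab, Ne.symm hc'.1, Ne.symm hd'.1, Ne.symm hc'.2, Ne.symm hd'.2, hcd]

end Cfsg.Agent.S3265
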