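import Cfsg.Statements.S3269
import Cfsg.Agent.S1169
import Cfsg.Agent.S0201
import Cfsg.Agent.S1225
import Cfsg.Agent.Cit.AutQuat

set_option autoImplicit false
open Cfsg

namespace Cfsg.Agent.S3269

open Subgroup

/-- all involutions of a simple group with a strongly embedded subgroup are conjugate -/
theorem conj_of_se {G : Type*} [Group G] [Finite G] [IsSimpleGroup G] {H : Subgroup G}
    (hH : Cfsg.IsStronglyEmbedded H) {a b : G} (ha : orderOf a = 2) (hb : orderOf b = 2) :
    IsConj a b := by
  have hfact : Fact (Nat.Prime 2) := ⟨Nat.prime_two⟩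
  have h2 : 2 ∣ Nat.card H := hH.2.1.two_dvd
  obtain ⟨s, hs⟩ := exists_prime_orderOf_dvd_card' 2 h2
  have hs' : orderOf (s : G) = 2 := by rw [orderOf_coe]; exact hs
  obtain ⟨u, hu, huH⟩ : ∃ u : G, orderOf u = 2 ∧ u ∉ H := by
    by_contra hcon
    push Not at hcon
    have h3 : normalClosure ({(s : G)} : Set G) ≤ H := by
      rw [normalClosure, closure_le]
      intro x hx
      rw [Group.mem_conjugatesOfSet_iff] at hx
      obtain ⟨a, ha, hax⟩ := hx
      rw [Set.mem_singleton_iff] at ha
      subst ha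
      obtain ⟨c, hc⟩ := isConj_iff.mp hax
      apply hcon
      rw [← hc]
      have : orderOf (c * (s : G) * c⁻¹) = orderOf (s : G) := (MulAut.conj c).orderOf_eq (s : G)
      rw [this, hs']
    have h4 : (normalClosure ({(s : G)} : Set G)).Normal := normalClosure_normal
    rcases h4.eq_bot_or_eq_top with h5 | h5
    · have h6 : (s : G) ∈ normalClosure ({(s : G)} : Set G) :=
        subset_normalClosure (Set.mem_singleton _)
      rw [h5, mem_bot] at h6
      rw [h6, orderOf_one] at hs'
      omega
    · rw [h5] at h3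
      exact hH.1 (top_le_iff.mp h3)
  exact (Cfsg.Agent.S1225.result H hH u hu huH s s hs' s.2 hs' s.2).2 a b ha hb

section Model

theorem sq_xa {m : ℕ} [NeZero m] (i : ZMod (2 * m)) :
    (QuaternionGroup.xa i : QuaternionGroup m) * QuaternionGroup.xa i =
      QuaternionGroup.a (m : ZMod (2 * m)) := by
  rw [QuaternionGroup.xa_mul_xa]
  congr 1
  ring

theorem eq_of_sq_one {m : ℕ} [NeZero m] (x : QuaternionGroup m) (hx : x * x = 1) :
    x = 1 ∨ x = QuaternionGroup.a (m : ZMod (2 * m)) := by
  by_cases h : x = 1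
  · exact Or.inl h
  · right
    exact Cfsg.Agent.Cit.AutQuat.eq_of_orderOf_two x (orderOf_eq_prime (by rw [sq, hx]) h)

theorem card_sqrt_one {m : ℕ} [NeZero m] : Nat.card {x : QuaternionGroup m // x * x = 1} ≤ 2 := by
  have hinj : Function.Injective (fun x : {x : QuaternionGroup m // x * x = 1} => decide ((x : QuaternionGroup m) = 1)) := by
    intro x y hxy
    apply Subtype.ext
    rcases eq_of_sq_one x.1 x.2 with h1 | h1 <;> rcases eq_of_sq_one y.1 y.2 with h2 | h2
    · rw [h1, h2]
    · simp only [h1, decide_true, Bool.true_eq, decide_eq_true_eq] at hxy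
      rw [h1, hxy]
    · simp only [h2, decide_true, decide_eq_true_eq] at hxy
      rw [h2, hxy]
    · rw [h1, h2]
  have := Nat.card_le_card_of_injective _ hinj
  simpa using this

theorem card_sqrt_a {m : ℕ} [NeZero m] (hm : 2 ≤ m) :
    3 ≤ Nat.card {x : QuaternionGroup m // x * x = QuaternionGroup.a (m : ZMod (2 * m))} := by
  have hne : NeZero (2 * m) := ⟨by omega⟩
  have : Fact (1 < 2 * m) := ⟨by omega⟩
  let f : Fin 3 → {x : QuaternionGroup m // x * x = QuaternionGroup.a (m : ZMod (2 * m))} :=
    fun i => ⟨QuaternionGroup.xa ((i : ℕ) : ZMod (2 * m)), sq_xa _⟩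
  have hinj : Function.Injective f := by
    intro i j hij
    have h1 := congrArg Subtype.val hij
    have h2 : (((i : ℕ) : ZMod (2 * m))) = (((j : ℕ) : ZMod (2 * m))) := by
      simpa [f] using h1
    have h3 : ((i : ℕ) : ZMod (2 * m)).val = ((j : ℕ) : ZMod (2 * m)).val := by rw [h2]
    rw [ZMod.val_natCast_of_lt (by omega), ZMod.val_natCast_of_lt (by omega)] at h3
    exact Fin.ext h3
  have := Nat.card_le_card_of_injective _ hinj
  simpa using this

end Model

/-- Let G be a finite group whose Sylow 2-subgroup S is an internal direct product Q × R with Q generalized quaternion (of order at least 8) and R a subgroup all of whose involutions are central in R. Then G is not simple. In particular no finite simple group has a Sylow 2-subgroup that is a direct product of one or more generalized quaternion groups. -/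
theorem result {G : Type*} [Group G] [Finite G]
    (S : Sylow 2 G) (Q R : Subgroup G) (hQR : Cfsg.IsInternalDirectProduct Q R (S : Subgroup G))
    (n : ℕ) (hn : 1 ≤ n) (eQ : ↥Q ≃* QuaternionGroup (2 ^ n))
    (hR : ∀ r ∈ R, orderOf r = 2 → ∀ s ∈ R, r * s = s * r) :
    ¬ IsSimpleGroup G := by
  intro hsimple
  have hfact : Fact (Nat.Prime 2) := ⟨Nat.prime_two⟩
  obtain ⟨hQS, hRS, hcomm, hinf, hsup⟩ := hQR
  have hm2 : 2 ≤ 2 ^ n := by
    calc 2 = 2 ^ 1 := rfl
      _ ≤ 2 ^ n := Nat.pow_le_pow_right (by norm_num) hn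
  have hNe : NeZero (2 ^ n) := ⟨by omega⟩
  -- the map
  let φ : Q × R →* G := Q.subtype.noncommCoprod R.subtype (fun a b => hcomm a a.2 b b.2)
  have hφ : ∀ (a : Q) (b : R), φ (a, b) = (a : G) * (b : G) := fun a b => rfl
  have hφrange : ∀ g : G, g ∈ (S : Subgroup G) ↔ ∃ (a : Q) (b : R), (a : G) * (b : G) = g := by
    intro g
    rw [← hsup]
    have h1 : φ.range = Q ⊔ R := by
      have := MonoidHom.noncommCoprod_range Q.subtype R.subtype (fun a b => hcomm a a.2 b b.2)
      rw [Subgroup.range_subtype, Subgroup.range_subtype] at this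
      exact this
    rw [← h1, MonoidHom.mem_range]
    constructor
    · rintro ⟨⟨a, b⟩, h⟩
      exact ⟨a, b, h⟩
    · rintro ⟨a, b, h⟩
      exact ⟨(a, b), h⟩
  have huniq : ∀ (a a' : G) (b b' : G), a ∈ Q → a' ∈ Q → b ∈ R → b' ∈ R → a * b = a' * b' →
      a = a' ∧ b = b' := by
    intro a a' b b' ha ha' hb hb' h
    have h1 : a'⁻¹ * a = b' * b⁻¹ := by
      rw [inv_mul_eq_iff_eq_mul, ← mul_assoc, ← h, mul_assoc, mul_inv_cancel, mul_one]
    have h2 : a'⁻¹ * a ∈ Q ⊓ R := by
      rw [Subgroup.mem_inf]
      refine ⟨Q.mul_mem (Q.inv_mem ha') ha, ?_⟩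
      rw [h1]
      exact R.mul_mem hb' (R.inv_mem hb)
    rw [hinf, mem_bot] at h2
    have h3 : a = a' := by
      rw [inv_mul_eq_one] at h2
      exact h2.symm
    refine ⟨h3, ?_⟩
    rw [h3] at h
    exact mul_left_cancel h
  -- the involution of Q
  let z0 : QuaternionGroup (2 ^ n) := QuaternionGroup.a ((2 ^ n : ℕ) : ZMod (2 * 2 ^ n))
  let z : G := (eQ.symm z0 : Q)
  have hzQ : z ∈ Q := (eQ.symm z0).2
  have hz0 : orderOf z0 = 2 := Cfsg.Agent.Cit.AutQuat.orderOf_a_self
  have hz : orderOf z = 2 := by
    have h1 : orderOf (eQ.symm z0) = 2 := by rw [MulEquiv.orderOf_eq]; exact hz0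
    rw [← h1]
    exact orderOf_coe _
  have hsqQ : ∀ x ∈ Q, x * x = 1 → x = 1 ∨ x = z := by
    intro x hx hxx
    have h1 : eQ ⟨x, hx⟩ * eQ ⟨x, hx⟩ = 1 := by
      rw [← map_mul, ← map_one eQ]
      congr 1
      exact Subtype.ext hxx
    rcases eq_of_sq_one _ h1 with h2 | h2
    · left
      rw [← map_one eQ] at h2
      exact congrArg Subtype.val (eQ.injective h2)
    · right
      have h3 : (⟨x, hx⟩ : Q) = eQ.symm z0 := by
        rw [MulEquiv.eq_symm_apply]
        exact h2
      exact congrArg Subtype.val h3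
  have hzcent : ∀ x ∈ Q, z * x = x * z := by
    intro x hx
    have h1 : x * z * x⁻¹ ∈ Q := mul_mem (mul_mem hx hzQ) (inv_mem hx)
    have h2 : (x * z * x⁻¹) * (x * z * x⁻¹) = 1 := by
      have : z * z = 1 := by rw [← sq, ← hz]; exact pow_orderOf_eq_one z
      calc (x * z * x⁻¹) * (x * z * x⁻¹) = x * (z * z) * x⁻¹ := by group
        _ = 1 := by rw [this]; group
    rcases hsqQ _ h1 h2 with h3 | h3
    · exfalso
      have : z = 1 := by
        have h4 : x * z * x⁻¹ = 1 := h3
        rw [mul_inv_eq_one] at h4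
        simpa using h4
      rw [this, orderOf_one] at hz
      omega
    · rw [mul_inv_eq_iff_eq_mul] at h3
      exact h3.symm
  by_cases hRbot : R = ⊥
  · -- the Brauer–Suzuki case
    have hSQ : (S : Subgroup G) = Q := by rw [← hsup, hRbot, sup_bot_eq]
    obtain ⟨k, rfl⟩ : ∃ k, n = k + 1 := ⟨n - 1, by omega⟩
    let e : (S : Subgroup G) ≃* QuaternionGroup (2 ^ (k + 1)) :=
      (MulEquiv.subgroupCongr hSQ).trans eQ
    have hc := Cfsg.Agent.S0201.result S k e (by
      intro N hN hodd
      rcases hN.eq_bot_or_eq_top with h | h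
      · exact h
      · exfalso
        rw [h] at hodd
        have h1 : Nat.card (⊤ : Subgroup G) = Nat.card G := Subgroup.card_top
        rw [h1] at hodd
        have h2 : 2 ∣ Nat.card G := by
          rw [← hz]
          exact orderOf_dvd_natCard z
        rw [← Nat.not_even_iff_odd] at hodd
        exact hodd (even_iff_two_dvd.mpr h2))
    have hcn : (Subgroup.center G).Normal := inferInstance
    rcases hcn.eq_bot_or_eq_top with h | h
    · rw [h] at hc
      rw [Subgroup.card_bot] at hc
      omega
    · rw [h, Subgroup.card_top] at hc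
      have h1 : Nat.card Q ∣ Nat.card G := Subgroup.card_subgroup_dvd_card Q
      have h2 : Nat.card Q = Nat.card (QuaternionGroup (2 ^ (k + 1))) := Nat.card_congr eQ.toEquiv
      rw [h2, hc, Nat.card_eq_fintype_card, QuaternionGroup.card] at h1
      have h3 := Nat.le_of_dvd (by norm_num) h1
      omega
  · -- R has an involution
    have hRp : IsPGroup 2 R := (S.isPGroup').to_le hRS
    obtain ⟨r, hrR, hr⟩ : ∃ r ∈ R, orderOf r = 2 := by
      have hnt : Nontrivial R := (Subgroup.nontrivial_iff_ne_bot R).mpr hRbot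
      obtain ⟨k, hk, hk'⟩ := (IsPGroup.nontrivial_iff_card hRp).mp hnt
      have h2 : 2 ∣ Nat.card R := by rw [hk']; exact dvd_pow_self 2 (by omega)
      obtain ⟨s, hs⟩ := exists_prime_orderOf_dvd_card' 2 h2
      exact ⟨s, s.2, by rw [orderOf_coe]; exact hs⟩
    have hrr : r * r = 1 := by rw [← sq, ← hr]; exact pow_orderOf_eq_one r
    have hzz : z * z = 1 := by rw [← sq, ← hz]; exact pow_orderOf_eq_one z
    have hr1 : r ≠ 1 := by rintro rfl; rw [orderOf_one] at hr; omega
    have hz1 : z ≠ 1 := by intro h; rw [h, orderOf_one] at hz; omega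
    -- involutions of S are central in S
    have hcentral : ∀ s ∈ (S : Subgroup G), s * s = 1 → ∀ t ∈ (S : Subgroup G), s * t = t * s := by
      intro s hs hss t ht
      obtain ⟨a, b, rfl⟩ := (hφrange s).mp hs
      obtain ⟨c, d, rfl⟩ := (hφrange t).mp ht
      have h1 : ((a : G) * a) * ((b : G) * b) = 1 * 1 := by
        rw [mul_one, ← hss]
        calc ((a : G) * a) * ((b : G) * b) = (a : G) * ((a : G) * (b : G)) * b := by group
          _ = (a : G) * ((b : G) * (a : G)) * b := by rw [hcomm a a.2 b b.2]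
          _ = _ := by group
      obtain ⟨h2, h3⟩ := huniq _ _ _ _ (mul_mem a.2 a.2) (one_mem _) (mul_mem b.2 b.2) (one_mem _) h1
      have ha : (a : G) * c = c * a := by
        rcases hsqQ a a.2 h2 with h | h
        · rw [h]; simp
        · rw [h]; exact hzcent c c.2
      have hb : (b : G) * d = d * b := by
        by_cases hb1 : (b : G) = 1
        · rw [hb1]; simp
        · exact hR b b.2 (orderOf_eq_prime (by rw [sq]; exact h3) hb1) d d.2
      calc (a : G) * b * (c * d) = a * ((b : G) * c) * d := by group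
        _ = a * ((c : G) * b) * d := by rw [hcomm c c.2 b b.2]
        _ = (a * c) * ((b : G) * d) := by group
        _ = (c * a) * ((d : G) * b) := by rw [ha, hb]
        _ = c * ((a : G) * d) * b := by group
        _ = c * ((d : G) * a) * b := by rw [hcomm a a.2 d d.2]
        _ = _ := by group
    have hzS : z ∈ (S : Subgroup G) := hQS hzQ
    have hrS : r ∈ (S : Subgroup G) := hRS hrR
    -- the subgroup of involutions
    let A : Subgroup G :=
      { carrier := {s | s ∈ (S : Subgroup G) ∧ s * s = 1}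
        one_mem' := ⟨one_mem _, by simp⟩
        mul_mem' := by
          rintro s t ⟨hs, hss⟩ ⟨ht, htt⟩
          refine ⟨mul_mem hs ht, ?_⟩
          calc s * t * (s * t) = s * (t * s) * t := by group
            _ = s * (s * t) * t := by rw [hcentral s hs hss t ht]
            _ = (s * s) * (t * t) := by group
            _ = 1 := by rw [hss, htt, one_mul]
        inv_mem' := by
          rintro s ⟨hs, hss⟩
          refine ⟨inv_mem hs, ?_⟩
          rw [← mul_inv_rev, hss, inv_one] }
    have hAmem : ∀ s, s ∈ A ↔ s ∈ (S : Subgroup G) ∧ s * s = 1 := fun s => Iff.rfl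
    have hA : A ≠ ⊥ := by
      intro h
      have : z ∈ A := ⟨hzS, hzz⟩
      rw [h, mem_bot] at this
      exact hz1 this
    have hAcomm : IsMulCommutative A := by
      refine ⟨⟨?_⟩⟩
      rintro ⟨s, hs⟩ ⟨t, ht⟩
      apply Subtype.ext
      exact hcentral s hs.1 hs.2 t ht.1
    have hsc : Cfsg.IsStronglyClosed A (S : Subgroup G) := by
      refine ⟨fun s hs => hs.1, ?_⟩
      intro x hx g hg
      refine ⟨hg, ?_⟩
      calc (g * x * g⁻¹) * (g * x * g⁻¹) = g * (x * x) * g⁻¹ := by group
        _ = 1 := by rw [hx.2]; group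
    rcases Cfsg.Agent.S1169.result S A hA hAcomm hsc with hab | ⟨H, hH⟩
    · -- S is not commutative
      have h1 : ∀ x y : QuaternionGroup (2 ^ n), x * y = y * x := by
        intro x y
        have h2 : (⟨(eQ.symm x : Q), hQS (eQ.symm x).2⟩ : (S : Subgroup G)) *
            ⟨(eQ.symm y : Q), hQS (eQ.symm y).2⟩ =
            ⟨(eQ.symm y : Q), hQS (eQ.symm y).2⟩ * ⟨(eQ.symm x : Q), hQS (eQ.symm x).2⟩ :=
          hab.is_comm.comm _ _
        have h3 : ((eQ.symm x : Q) : G) * (eQ.symm y : Q) = (eQ.symm y : Q) * (eQ.symm x : Q) :=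
          congrArg Subtype.val h2
        have h4 : eQ.symm x * eQ.symm y = eQ.symm y * eQ.symm x := Subtype.ext h3
        rw [← map_mul, ← map_mul] at h4
        exact eQ.symm.injective h4
      have h2 := h1 (QuaternionGroup.a 1) (QuaternionGroup.xa 0)
      rw [QuaternionGroup.a_mul_xa, QuaternionGroup.xa_mul_a] at h2
      have h3 : (0 - 1 : ZMod (2 * 2 ^ n)) = 0 + 1 := by
        injection h2
      have h4 : ((2 : ℕ) : ZMod (2 * 2 ^ n)) = 0 := by
        push_cast
        linear_combination -h3
      rw [ZMod.natCast_eq_zero_iff] at h4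
      have := Nat.le_of_dvd (by norm_num) h4
      omega
    · -- all involutions are conjugate
      have hconj : ∀ s t : G, s ∈ (S : Subgroup G) → t ∈ (S : Subgroup G) → orderOf s = 2 → orderOf t = 2 →
          Nat.card {x : G // x ∈ (S : Subgroup G) ∧ x * x = s} = Nat.card {x : G // x ∈ (S : Subgroup G) ∧ x * x = t} := by
        intro s t hs ht hs2 ht2
        have h1 := conj_of_se hH hs2 ht2
        obtain ⟨g, hg⟩ := isConj_iff.mp h1
        have hss : s * s = 1 := by rw [← sq, ← hs2]; exact pow_orderOf_eq_one s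
        have htt : t * t = 1 := by rw [← sq, ← ht2]; exact pow_orderOf_eq_one t
        have h2 : s ∈ Subgroup.centralizer ((S : Subgroup G) : Set G) := by
          rw [Subgroup.mem_centralizer_iff]
          intro x hx
          exact (hcentral s hs hss x hx).symm
        have h3 : (g⁻¹)⁻¹ * s * g⁻¹ ∈ Subgroup.centralizer ((S : Subgroup G) : Set G) := by
          rw [inv_inv, hg, Subgroup.mem_centralizer_iff]
          intro x hx
          exact (hcentral t ht htt x hx).symm
        obtain ⟨m, hm, hm'⟩ := Sylow.conj_eq_normalizer_conj_of_mem_centralizer S s g⁻¹ h2 h3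
        rw [inv_inv, hg] at hm'
        have hmem : ∀ x, x ∈ (S : Subgroup G) ↔ m⁻¹ * x * m ∈ (S : Subgroup G) := by
          intro x
          have := Subgroup.mem_normalizer_iff''.mp hm x
          exact this
        refine Nat.card_congr ⟨fun x => ⟨m⁻¹ * x.1 * m, ?_, ?_⟩, fun x => ⟨m * x.1 * m⁻¹, ?_, ?_⟩, ?_, ?_⟩
        · exact (hmem _).mp x.2.1
        · calc (m⁻¹ * x.1 * m) * (m⁻¹ * x.1 * m) = m⁻¹ * (x.1 * x.1) * m := by group
            _ = t := by rw [x.2.2, hm']
        · rw [hmem]
          have : m⁻¹ * (m * x.1 * m⁻¹) * m = x.1 := by group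
          rw [this]
          exact x.2.1
        · calc (m * x.1 * m⁻¹) * (m * x.1 * m⁻¹) = m * (x.1 * x.1) * m⁻¹ := by group
            _ = s := by rw [x.2.2, hm']; group
        · intro x
          apply Subtype.ext
          simp only
          group
        · intro x
          apply Subtype.ext
          simp only
          group
      -- the product formula
      have hprod : ∀ u ∈ Q, ∀ v ∈ R, Nat.card {x : G // x ∈ (S : Subgroup G) ∧ x * x = u * v} =
          Nat.card {x : G // x ∈ Q ∧ x * x = u} * Nat.card {x : G // x ∈ R ∧ x * x = v} := by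
        intro u hu v hv
        rw [← Nat.card_prod]
        symm
        let f : {x : G // x ∈ Q ∧ x * x = u} × {x : G // x ∈ R ∧ x * x = v} →
            {x : G // x ∈ (S : Subgroup G) ∧ x * x = u * v} :=
          fun p => ⟨p.1.1 * p.2.1, mul_mem (hQS p.1.2.1) (hRS p.2.2.1), by
            calc p.1.1 * p.2.1 * (p.1.1 * p.2.1) = p.1.1 * (p.2.1 * p.1.1) * p.2.1 := by group
              _ = p.1.1 * (p.1.1 * p.2.1) * p.2.1 := by rw [hcomm p.1.1 p.1.2.1 p.2.1 p.2.2.1]
              _ = (p.1.1 * p.1.1) * (p.2.1 * p.2.1) := by group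
              _ = u * v := by rw [p.1.2.2, p.2.2.2]⟩
        apply Nat.card_eq_of_bijective f
        constructor
        · intro p q hpq
          have h1 : p.1.1 * p.2.1 = q.1.1 * q.2.1 := congrArg Subtype.val hpq
          obtain ⟨h2, h3⟩ := huniq _ _ _ _ p.1.2.1 q.1.2.1 p.2.2.1 q.2.2.1 h1
          exact Prod.ext (Subtype.ext h2) (Subtype.ext h3)
        · rintro ⟨x, hx, hxx⟩
          obtain ⟨a, b, rfl⟩ := (hφrange x).mp hx
          have h1 : ((a : G) * a) * ((b : G) * b) = u * v := by
            rw [← hxx]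
            calc ((a : G) * a) * ((b : G) * b) = (a : G) * ((a : G) * (b : G)) * b := by group
              _ = (a : G) * ((b : G) * (a : G)) * b := by rw [hcomm a a.2 b b.2]
              _ = _ := by group
          obtain ⟨h2, h3⟩ := huniq _ _ _ _ (mul_mem a.2 a.2) hu (mul_mem b.2 b.2) hv h1
          exact ⟨(⟨a, a.2, h2⟩, ⟨b, b.2, h3⟩), rfl⟩
      have hzr : orderOf (z * r) = 2 := by
        refine orderOf_eq_prime ?_ ?_
        · rw [sq]
          calc z * r * (z * r) = z * (r * z) * r := by group
            _ = z * (z * r) * r := by rw [hcomm z hzQ r hrR]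
            _ = (z * z) * (r * r) := by group
            _ = 1 := by rw [hzz, hrr, one_mul]
        · intro h
          have h1 : z * r = 1 * 1 := by rw [h, one_mul]
          exact hz1 (huniq _ _ _ _ hzQ (one_mem _) hrR (one_mem _) h1).1
      have e1 := hconj z (z * r) hzS (mul_mem hzS hrS) hz hzr
      have e2 := hconj r (z * r) hrS (mul_mem hzS hrS) hr hzr
      have p1 := hprod z hzQ r hrR
      have p2 := hprod 1 (one_mem _) r hrR
      have p3 := hprod z hzQ 1 (one_mem _)
      rw [one_mul] at p2
      rw [mul_one] at p3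
      -- numbers in Q
      have c1 : Nat.card {x : G // x ∈ Q ∧ x * x = 1} ≤ 2 := by
        refine le_trans (le_of_eq ?_) (card_sqrt_one (m := 2 ^ n))
        refine Nat.card_congr ⟨fun x => ⟨eQ ⟨x.1, x.2.1⟩, ?_⟩, fun x => ⟨(eQ.symm x.1 : Q), (eQ.symm x.1).2, ?_⟩, ?_, ?_⟩
        · rw [← map_mul, ← map_one eQ]
          congr 1
          exact Subtype.ext x.2.2
        · have : eQ.symm x.1 * eQ.symm x.1 = 1 := by rw [← map_mul, x.2, map_one]
          exact congrArg Subtype.val this
        · intro x
          apply Subtype.ext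
          simp
        · intro x
          apply Subtype.ext
          simp
      have c2 : 3 ≤ Nat.card {x : G // x ∈ Q ∧ x * x = z} := by
        refine le_trans (card_sqrt_a (m := 2 ^ n) hm2) (le_of_eq ?_)
        symm
        refine Nat.card_congr ⟨fun x => ⟨eQ ⟨x.1, x.2.1⟩, ?_⟩, fun x => ⟨(eQ.symm x.1 : Q), (eQ.symm x.1).2, ?_⟩, ?_, ?_⟩
        · have h1 : (⟨x.1, x.2.1⟩ : Q) * ⟨x.1, x.2.1⟩ = eQ.symm z0 := Subtype.ext x.2.2
          rw [← map_mul, h1, MulEquiv.apply_symm_apply]
        · have : eQ.symm x.1 * eQ.symm x.1 = eQ.symm z0 := by rw [← map_mul, x.2]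
          exact congrArg Subtype.val this
        · intro x
          apply Subtype.ext
          simp
        · intro x
          apply Subtype.ext
          simp
      have c3 : 0 < Nat.card {x : G // x ∈ R ∧ x * x = 1} := by
        rw [Nat.card_pos_iff]
        exact ⟨⟨⟨1, one_mem _, by simp⟩⟩, inferInstance⟩
      rw [p1] at e1 e2
      rw [p2] at e2
      rw [p3] at e1
      have h5 : Nat.card {x : G // x ∈ R ∧ x * x = r} = 0 := by
        by_contra hne
        have hpos : 0 < Nat.card {x : G // x ∈ R ∧ x * x = r} := Nat.pos_of_ne_zero hne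
        have := Nat.eq_of_mul_eq_mul_right hpos e2
        omega
      rw [h5, mul_zero] at e1
      have h6 : 0 < Nat.card {x : G // x ∈ Q ∧ x * x = z} * Nat.card {x : G // x ∈ R ∧ x * x = 1} :=
        Nat.mul_pos (by omega) c3
      omega

end Cfsg.Agent.S3269
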