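import Cfsg.Statements.S3270
import Cfsg.Agent.S0000
import Cfsg.Agent.OrdDiv.Table
import Cfsg.Agent.H326.Shape
import Cfsg.Agent.S0252
import Cfsg.Agent.S0253
import Cfsg.Agent.S0254
import Cfsg.Agent.S0822

set_option autoImplicit false
open Cfsg

namespace Cfsg.Agent.S3270

open Cfsg.Agent.H326

universe u

/-- the conclusion -/
def Concl (G : Type u) [Group G] : Prop :=
  (∃ (F : Type) (_ : Field F) (_ : Fintype F),
        (Fintype.card F = 5 ∨ Fintype.card F = 9 ∨ Fintype.card F = 11 ∨ Fintype.card F = 16 ∨ Fintype.card F = 31) ∧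
          Nonempty (G ≃* Matrix.ProjectiveSpecialLinearGroup (Fin 2) F)) ∨
      (∃ (F : Type) (_ : Field F) (_ : Fintype F), Fintype.card F = 4 ∧ Nonempty (G ≃* Cfsg.PSU 4 F 2))

theorem exists_field (p n : ℕ) (hp : p.Prime) (hn : n ≠ 0) :
    ∃ (F : Type) (_ : Field F) (_ : Fintype F), Fintype.card F = p ^ n := by
  haveI : Fact p.Prime := ⟨hp⟩
  letI : Fintype (GaloisField p n) := Fintype.ofFinite _
  refine ⟨GaloisField p n, inferInstance, inferInstance, ?_⟩
  rw [← Nat.card_eq_fintype_card, GaloisField.card p n hn]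

theorem concl_alt {G : Type u} [Group G] {n : ℕ} (hn : 5 ≤ n) (e : G ≃* alternatingGroup (Fin n))
    (h : Shape (Nat.card G)) : Concl G := by
  have hc := OrdDiv.alt_card hn e
  by_cases h7 : 7 ≤ n
  · exfalso
    have h1 : 2520 ∣ Nat.card G := by
      have h2 : Nat.factorial 7 ∣ Nat.factorial n := Nat.factorial_dvd_factorial h7
      rw [hc] at h2
      have h3 : Nat.factorial 7 = 2 * 2520 := by decide
      rw [h3] at h2
      exact Nat.dvd_of_mul_dvd_mul_left (by norm_num) h2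
    exact h.c2 (by norm_num : Nat.Prime 7) le_rfl (Dvd.dvd.trans (by norm_num) h1) (Dvd.dvd.trans (by norm_num) h1)
  · have h56 : n = 5 ∨ n = 6 := by omega
    rcases h56 with rfl | rfl
    · obtain ⟨F, _, _, hF⟩ := exists_field 5 1 (by norm_num) one_ne_zero
      rw [pow_one] at hF
      obtain ⟨e'⟩ := Cfsg.Agent.S0253.result hF
      exact Or.inl ⟨F, _, _, Or.inl hF, ⟨e.trans e'.symm⟩⟩
    · obtain ⟨F, _, _, hF⟩ := exists_field 3 2 (by norm_num) two_ne_zero
      norm_num at hF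
      obtain ⟨e'⟩ := Cfsg.Agent.S0254.result hF
      exact Or.inl ⟨F, _, _, Or.inr (Or.inl hF), ⟨e.trans e'.symm⟩⟩

theorem exists_pp (F : Type) [Field F] [Fintype F] :
    ∃ p f : ℕ, p.Prime ∧ 1 ≤ f ∧ Fintype.card F = p ^ f := by
  obtain ⟨p, f, hp, hf, h⟩ := (isPrimePow_nat_iff (Fintype.card F)).mp Fintype.isPrimePow_card_of_field
  exact ⟨p, f, hp, hf, h.symm⟩

theorem exists_pp_of_sq (F : Type) [Field F] [Fintype F] {q : ℕ} (hF : Fintype.card F = q ^ 2) :
    ∃ p f : ℕ, p.Prime ∧ 1 ≤ f ∧ q = p ^ f := by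
  have hq2 : IsPrimePow (q ^ 2) := hF ▸ Fintype.isPrimePow_card_of_field
  have hqp : IsPrimePow q := (isPrimePow_pow_iff (by norm_num)).1 hq2
  obtain ⟨p, f, hp, hf, h⟩ := (isPrimePow_nat_iff q).mp hqp
  exact ⟨p, f, hp, hf, h.symm⟩

/-! ### `PSL_n` -/

theorem concl_psl_two {G : Type u} [Group G] {F : Type} [Field F] [Fintype F] (hF : 4 ≤ Fintype.card F)
    (e : G ≃* Matrix.ProjectiveSpecialLinearGroup (Fin 2) F) (h : Shape (Nat.card G)) : Concl G := by
  have hc := Cfsg.Agent.S0243.result (F := F) rfl 2 le_rfl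
  rw [← Nat.card_congr e.toEquiv, Fin.prod_univ_two] at hc
  obtain ⟨p, f, hp, hf, hpf⟩ := exists_pp F
  simp only [Fin.val_zero, Fin.val_one, pow_zero, pow_one] at hc
  have hN : Nat.gcd 2 (Fintype.card F - 1) * Nat.card G = Fintype.card F * ((Fintype.card F) ^ 2 - 1) := by
    obtain ⟨P, hP⟩ : ∃ P, Fintype.card F = P + 1 := ⟨Fintype.card F - 1, by omega⟩
    rw [hP] at hc ⊢
    have h1 : (P + 1) ^ 2 - (P + 1) = P * (P + 1) := by
      have : (P + 1) ^ 2 = P * (P + 1) + (P + 1) := by ring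
      omega
    rw [h1, Nat.add_sub_cancel] at hc
    rw [Nat.add_sub_cancel]
    have hP0 : 0 < P := by omega
    apply Nat.eq_of_mul_eq_mul_left hP0
    linarith [hc]
  rw [hpf] at hN hF
  have key := psl_two hp hf hF h hN
  rw [← hpf] at key
  rcases key with k | k | k | k | k | k
  · obtain ⟨e1⟩ := Cfsg.Agent.S0252.result k
    exact concl_alt le_rfl (e.trans e1) h
  · exact Or.inl ⟨F, _, _, Or.inl k, ⟨e⟩⟩
  · exact Or.inl ⟨F, _, _, Or.inr (Or.inl k), ⟨e⟩⟩
  · exact Or.inl ⟨F, _, _, Or.inr (Or.inr (Or.inl k)), ⟨e⟩⟩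
  · exact Or.inl ⟨F, _, _, Or.inr (Or.inr (Or.inr (Or.inl k))), ⟨e⟩⟩
  · exact Or.inl ⟨F, _, _, Or.inr (Or.inr (Or.inr (Or.inr k))), ⟨e⟩⟩

theorem false_psl_three {F : Type} [Field F] [Fintype F] {N : ℕ} (h : Shape N)
    (hc : Nat.gcd 3 (Fintype.card F - 1) * ((Fintype.card F - 1) * N) =
      ∏ i : Fin 3, (Fintype.card F ^ 3 - Fintype.card F ^ (i : ℕ))) : False := by
  obtain ⟨p, f, hp, hf, hpf⟩ := exists_pp F
  have hq : 1 < Fintype.card F := Fintype.one_lt_card
  rw [Fin.prod_univ_three] at hc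
  simp only [Fin.val_zero, Fin.val_one, Fin.val_two, pow_zero, pow_one] at hc
  have hN : Nat.gcd 3 (Fintype.card F - 1) * N =
      (Fintype.card F) ^ 3 * (((Fintype.card F) ^ 2 - 1) * ((Fintype.card F) ^ 3 - 1)) := by
    obtain ⟨P, hP⟩ : ∃ P, Fintype.card F = P + 1 := ⟨Fintype.card F - 1, by omega⟩
    rw [hP] at hc ⊢
    have h1 : (P + 1) ^ 3 - (P + 1) = (P + 1) * ((P + 1) ^ 2 - 1) := by
      rw [Nat.mul_sub_one]
      congr 1
      ring
    have h2 : (P + 1) ^ 3 - (P + 1) ^ 2 = (P + 1) ^ 2 * P := by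
      have : (P + 1) ^ 3 = (P + 1) ^ 2 * P + (P + 1) ^ 2 := by ring
      omega
    rw [h1, h2, Nat.add_sub_cancel] at hc
    rw [Nat.add_sub_cancel]
    have hP0 : 0 < P := by omega
    apply Nat.eq_of_mul_eq_mul_left hP0
    calc P * (Nat.gcd 3 P * N) = Nat.gcd 3 P * (P * N) := by ring
      _ = _ := hc
      _ = _ := by ring
  rw [hpf] at hN
  exact psl_three hp hf h hN

theorem false_psl_four {F : Type} [Field F] [Fintype F] {N : ℕ} (h : Shape N) {n : ℕ} (hn : 4 ≤ n)
    (hc : Nat.gcd n (Fintype.card F - 1) * ((Fintype.card F - 1) * N) =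
      ∏ i : Fin n, (Fintype.card F ^ n - Fintype.card F ^ (i : ℕ))) : False := by
  have hq : 1 < Fintype.card F := Fintype.one_lt_card
  set Q := Fintype.card F with hQ
  rw [Fin.prod_univ_eq_prod_range (fun i => Q ^ n - Q ^ i) n] at hc
  obtain ⟨k, rfl⟩ : ∃ k, n = k + 4 := ⟨n - 4, by omega⟩
  rw [Finset.prod_range_add] at hc
  set A := ∏ i ∈ Finset.range k, (Q ^ (k + 4) - Q ^ i) with hA
  have hd : Nat.gcd (k + 4) (Q - 1) ∣ 4 * A := by
    rcases Nat.eq_zero_or_pos k with hk | hk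
    · subst hk
      exact (Nat.gcd_dvd_left _ _).trans (Dvd.intro _ rfl)
    · refine (Nat.gcd_dvd_right _ _).trans (Dvd.dvd.mul_left ?_ 4)
      have h1 : Q - 1 ∣ Q ^ (k + 4) - Q ^ 0 := by
        rw [pow_zero]
        exact Nat.sub_one_dvd_pow_sub_one _ _ 
      exact h1.trans (Finset.dvd_prod_of_mem _ (Finset.mem_range.mpr hk))
  have hB : ∏ x ∈ Finset.range 4, (Q ^ (k + 4) - Q ^ (k + x)) =
      Q ^ (4 * k + 6) * ((Q - 1) * ((Q ^ 2 - 1) * (Q ^ 3 - 1) * (Q ^ 4 - 1))) := by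
    have hj : ∀ j i : ℕ, Q ^ (i + j) - Q ^ i = Q ^ i * (Q ^ j - 1) := by
      intro j i
      rw [Nat.mul_sub_one, pow_add]
    rw [Finset.prod_range_succ, Finset.prod_range_succ, Finset.prod_range_succ, Finset.prod_range_one]
    rw [show k + 4 = (k + 0) + 4 by ring, hj 4 (k + 0), show (k + 0) + 4 = (k + 1) + 3 by ring, hj 3 (k + 1),
      show (k + 1) + 3 = (k + 2) + 2 by ring, hj 2 (k + 2), show (k + 2) + 2 = (k + 3) + 1 by ring, hj 1 (k + 3)]
    ring
  rw [hB] at hc
  obtain ⟨c, hc'⟩ := hd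
  have hg : 0 < Nat.gcd (k + 4) (Q - 1) := Nat.gcd_pos_of_pos_left _ (by omega)
  have hQ1 : 0 < Q - 1 := by omega
  have h4N : 4 * N = c * (Q ^ (4 * k + 6) * ((Q ^ 2 - 1) * (Q ^ 3 - 1) * (Q ^ 4 - 1))) := by
    apply Nat.eq_of_mul_eq_mul_left hg
    apply Nat.eq_of_mul_eq_mul_left hQ1
    calc (Q - 1) * (Nat.gcd (k + 4) (Q - 1) * (4 * N)) = 4 * (Nat.gcd (k + 4) (Q - 1) * ((Q - 1) * N)) := by ring
      _ = 4 * (A * (Q ^ (4 * k + 6) * ((Q - 1) * ((Q ^ 2 - 1) * (Q ^ 3 - 1) * (Q ^ 4 - 1))))) := by rw [hc]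
      _ = (4 * A) * (Q ^ (4 * k + 6) * ((Q - 1) * ((Q ^ 2 - 1) * (Q ^ 3 - 1) * (Q ^ 4 - 1)))) := by ring
      _ = _ := by rw [hc']; ring
  refine h.kill_plus (Q := Q) (by omega) ?_
  rw [h4N, mul_assoc]
  refine Dvd.dvd.mul_left ?_ c
  exact mul_dvd_mul (pow_dvd_pow Q (by omega)) (dvd234 (by omega))

/-! ### `PSU_n` -/

theorem false_psu_three {F : Type} [Field F] [Fintype F] {q : ℕ} (hF : Fintype.card F = q ^ 2) (hq2 : q ≠ 2)
    {N : ℕ} (h : Shape N)
    (hc : Nat.gcd 3 (q + 1) * ((q + 1) * N) = q ^ (3 * (3 - 1) / 2) *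
      ∏ i ∈ Finset.range 3, (if Even i then q ^ (i + 1) + 1 else q ^ (i + 1) - 1)) : False := by
  obtain ⟨p, f, hp, hf, hpf⟩ := exists_pp_of_sq F hF
  have hq1 : 2 ≤ q := by rw [hpf]; exact le_trans hp.two_le (Nat.le_self_pow (by omega) p)
  rw [Finset.prod_range_succ, Finset.prod_range_succ, Finset.prod_range_one, if_pos (by decide), if_neg (by decide),
    if_pos (by decide)] at hc
  have hN : Nat.gcd 3 (q + 1) * N = q ^ 3 * ((q ^ 2 - 1) * (q ^ 3 + 1)) := by
    apply Nat.eq_of_mul_eq_mul_left (show 0 < q + 1 by omega)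
    calc (q + 1) * (Nat.gcd 3 (q + 1) * N) = Nat.gcd 3 (q + 1) * ((q + 1) * N) := by ring
      _ = _ := hc
      _ = _ := by norm_num; ring
  have h3 : 3 ≤ q := by omega
  rw [hpf] at hN h3
  exact psu_three hp hf h3 h hN

theorem false_psu_four {F : Type} [Field F] [Fintype F] {q : ℕ} (hF : Fintype.card F = q ^ 2) (hq2 : q ≠ 2)
    {n : ℕ} (hn : 4 ≤ n) {N : ℕ} (h : Shape N)
    (hc : Nat.gcd n (q + 1) * ((q + 1) * N) = q ^ (n * (n - 1) / 2) *
      ∏ i ∈ Finset.range n, (if Even i then q ^ (i + 1) + 1 else q ^ (i + 1) - 1)) : False := by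
  obtain ⟨p, f, hp, hf, hpf⟩ := exists_pp_of_sq F hF
  have hq1 : 2 ≤ q := by rw [hpf]; exact le_trans hp.two_le (Nat.le_self_pow (by omega) p)
  obtain ⟨k, rfl⟩ : ∃ k, n = 4 + k := ⟨n - 4, by omega⟩
  rw [Finset.prod_range_add] at hc
  set A := ∏ x ∈ Finset.range k, (if Even (4 + x) then q ^ (4 + x + 1) + 1 else q ^ (4 + x + 1) - 1) with hA
  have hd : Nat.gcd (4 + k) (q + 1) ∣ 4 * A := by
    rcases Nat.eq_zero_or_pos k with hk | hk
    · subst hk
      exact (Nat.gcd_dvd_left _ _).trans (Dvd.intro _ rfl)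
    · refine (Nat.gcd_dvd_right _ _).trans (Dvd.dvd.mul_left ?_ 4)
      refine Dvd.dvd.trans ?_ (Finset.dvd_prod_of_mem _ (Finset.mem_range.mpr (show 0 < k by omega)))
      rw [if_pos (by decide)]
      -- `q + 1 ∣ q ^ 5 + 1`
      have : q + 1 ∣ q ^ 5 + 1 ^ 5 := Odd.nat_add_dvd_pow_add_pow q 1 (by decide)
      simpa using this
  rw [Finset.prod_range_succ, Finset.prod_range_succ, Finset.prod_range_succ, Finset.prod_range_one,
    if_pos (by decide), if_neg (by decide), if_pos (by decide), if_neg (by decide)] at hc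
  obtain ⟨c, hc'⟩ := hd
  have hg : 0 < Nat.gcd (4 + k) (q + 1) := Nat.gcd_pos_of_pos_left _ (by omega)
  have h4N : 4 * N = c * (q ^ ((4 + k) * (4 + k - 1) / 2) * ((q ^ 2 - 1) * (q ^ 3 + 1) * (q ^ 4 - 1))) := by
    apply Nat.eq_of_mul_eq_mul_left hg
    apply Nat.eq_of_mul_eq_mul_left (show 0 < q + 1 by omega)
    calc (q + 1) * (Nat.gcd (4 + k) (q + 1) * (4 * N)) = 4 * (Nat.gcd (4 + k) (q + 1) * ((q + 1) * N)) := by ring
      _ = 4 * (q ^ ((4 + k) * (4 + k - 1) / 2) * ((q ^ (0 + 1) + 1) * (q ^ (1 + 1) - 1) * (q ^ (2 + 1) + 1) *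
          (q ^ (3 + 1) - 1) * A)) := by rw [hc]
      _ = (4 * A) * (q ^ ((4 + k) * (4 + k - 1) / 2) * ((q + 1) * ((q ^ 2 - 1) * (q ^ 3 + 1) * (q ^ 4 - 1)))) := by
          norm_num; ring
      _ = _ := by rw [hc']; ring
  refine h.kill_minus (Q := q) (by omega) ?_
  rw [h4N, mul_assoc]
  refine Dvd.dvd.mul_left ?_ c
  refine mul_dvd_mul (pow_dvd_pow q ?_) (dvd234m (by omega))
  have h1 : 4 * 3 ≤ (4 + k) * (4 + k - 1) := Nat.mul_le_mul (by omega) (by omega)
  omega

theorem false_psu_five {n : ℕ} (hn : 5 ≤ n) {N : ℕ} (h : Shape N)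
    (hc : Nat.gcd n (2 + 1) * ((2 + 1) * N) = 2 ^ (n * (n - 1) / 2) *
      ∏ i ∈ Finset.range n, (if Even i then 2 ^ (i + 1) + 1 else 2 ^ (i + 1) - 1)) : False := by
  obtain ⟨k, rfl⟩ : ∃ k, n = 5 + k := ⟨n - 5, by omega⟩
  rw [Finset.prod_range_add] at hc
  set A := ∏ x ∈ Finset.range k, (if Even (5 + x) then 2 ^ (5 + x + 1) + 1 else 2 ^ (5 + x + 1) - 1) with hA
  have hd : Nat.gcd (5 + k) (2 + 1) ∣ A := by
    rcases Nat.eq_zero_or_pos k with hk | hk
    · subst hk
      simp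
    · refine (Nat.gcd_dvd_right _ _).trans ?_
      refine Dvd.dvd.trans ?_ (Finset.dvd_prod_of_mem _ (Finset.mem_range.mpr (show 0 < k by omega)))
      rw [if_neg (by decide)]
      norm_num
  rw [Finset.prod_range_succ, Finset.prod_range_succ, Finset.prod_range_succ, Finset.prod_range_succ,
    Finset.prod_range_one,
    if_pos (by decide), if_neg (by decide), if_pos (by decide), if_neg (by decide), if_pos (by decide)] at hc
  obtain ⟨c, hc'⟩ := hd
  have hg : 0 < Nat.gcd (5 + k) (2 + 1) := Nat.gcd_pos_of_pos_left _ (by omega)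
  have hN : N = 99 * (c * (2 ^ ((5 + k) * (5 + k - 1) / 2) * 135)) := by
    apply Nat.eq_of_mul_eq_mul_left hg
    apply Nat.eq_of_mul_eq_mul_left (show 0 < 3 by omega)
    calc 3 * (Nat.gcd (5 + k) (2 + 1) * N) = Nat.gcd (5 + k) (2 + 1) * ((2 + 1) * N) := by ring
      _ = _ := hc
      _ = A * (2 ^ ((5 + k) * (5 + k - 1) / 2) * 40095) := by norm_num; ring
      _ = _ := by rw [hc']; ring
  refine h.c2 (by norm_num : Nat.Prime 11) (by norm_num) ?_ ?_
  · rw [hN]; exact Dvd.dvd.mul_right (by norm_num) _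
  · rw [hN]; exact Dvd.dvd.mul_right (by norm_num) _

/-! ### symplectic and orthogonal groups -/

/-- the product `(Q² - 1)(Q⁴ - 1)(Q⁶ - 1) ⋯` -/
theorem kill_prod {N Q m c a : ℕ} (h : Shape N) (hQ : 2 ≤ Q) (hm : 3 ≤ m) (ha : 2 ≤ a) (hd : c ∣ 4)
    (hc : Q ^ a * ∏ i ∈ Finset.range m, (Q ^ (2 * (i + 1)) - 1) ∣ c * N) : False := by
  obtain ⟨k, rfl⟩ : ∃ k, m = 3 + k := ⟨m - 3, by omega⟩
  rw [Finset.prod_range_add, Finset.prod_range_succ, Finset.prod_range_succ, Finset.prod_range_one] at hc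
  refine h.kill_plus hQ ?_
  refine Dvd.dvd.trans ?_ (Nat.mul_dvd_mul_right hd N)
  refine Dvd.dvd.trans ?_ hc
  rw [mul_assoc]
  refine mul_dvd_mul (pow_dvd_pow Q ha) ?_
  refine Dvd.dvd.mul_right ?_ _
  refine (dvd246 (Q := Q) (by omega)).trans ?_
  exact ⟨Q ^ 4 - 1, by norm_num; ring⟩

/-- **S3270** -/
theorem main {G : Type u} [Group G] (hK : IsKnownSimple' G) (h : Shape (Nat.card G)) : Concl G := by
  have T := OrdDiv.table.{u}
  rcases hK with hK | hK | hK | hK | hK | hK | hK | hK | hK | hK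
  · -- prime order
    exfalso
    have h3 := (Nat.prime_dvd_prime_iff_eq Nat.prime_three hK).mp h.three
    have h5 := (Nat.prime_dvd_prime_iff_eq Nat.prime_five hK).mp h.five
    omega
  · obtain ⟨n, hn, ⟨e⟩⟩ := hK
    exact concl_alt hn e h
  · -- PSL
    obtain ⟨F, _, _, n, hn, hn2, ⟨e⟩⟩ := hK
    by_cases h2 : n = 2
    · subst h2
      exact concl_psl_two (hn2 rfl) e h
    · exfalso
      have hc := Cfsg.Agent.S0243.result (F := F) rfl n hn
      rw [← Nat.card_congr e.toEquiv] at hc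
      by_cases h3 : n = 3
      · subst h3
        exact false_psl_three h hc
      · exact false_psl_four h (by omega) hc
  · -- PSp
    obtain ⟨F, _, _, m, hm, hm2, ⟨e⟩⟩ := hK
    have hq : 1 < Fintype.card F := Fintype.one_lt_card
    have hc : Nat.gcd 2 (Fintype.card F - 1) * Nat.card G =
        Fintype.card F ^ (m ^ 2) * ∏ i ∈ Finset.range m, (Fintype.card F ^ (2 * (i + 1)) - 1) := by
      have h1 := S0245.result (F := F) rfl m
      have h2 := S0246.result (F := F) rfl m (by omega)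
      have h3 := Subgroup.card_eq_card_quotient_mul_card_subgroup
        (Subgroup.center (Matrix.symplecticGroup (Fin m) F))
      rw [h1, h2] at h3
      rw [Nat.card_congr e.toEquiv, mul_comm]
      exact h3.symm
    by_cases h2 : m = 2
    · subst h2
      obtain ⟨p, f, hp, hf, hpf⟩ := exists_pp F
      have h3 := hm2 rfl
      have hN : Nat.gcd 2 (Fintype.card F - 1) * Nat.card G =
          (Fintype.card F) ^ 4 * (((Fintype.card F) ^ 2 - 1) * ((Fintype.card F) ^ 4 - 1)) := by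
        rw [hc, Finset.prod_range_succ, Finset.prod_range_one]
        norm_num
      rw [hpf] at hN h3
      have key := psp_four hp hf h3 h hN
      rw [← hpf] at key
      obtain ⟨K, _, _, hK⟩ := exists_field 2 2 (by norm_num) two_ne_zero
      norm_num at hK
      obtain ⟨e'⟩ := Cfsg.Agent.S0822.result hK key
      exact Or.inr ⟨K, _, _, hK, ⟨e.trans e'.symm⟩⟩
    · exfalso
      refine kill_prod h (Q := Fintype.card F) (m := m) (c := Nat.gcd 2 (Fintype.card F - 1)) (a := m ^ 2) (by omega)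
        (by omega) (by nlinarith) ((Nat.gcd_dvd_left 2 _).trans (by norm_num)) ?_
      rw [hc]
  · -- PSU
    obtain ⟨F, _, _, n, q, hF, hn, hn2, ⟨e⟩⟩ := hK
    have hc := Cfsg.Agent.S0280.result hF n (by omega)
    rw [← Nat.card_congr e.toEquiv] at hc
    by_cases hq2 : q = 2
    · subst hq2
      have hn4 : 4 ≤ n := by
        by_contra hcon
        exact hn2 ⟨by omega, rfl⟩
      by_cases h4 : n = 4
      · subst h4
        norm_num at hF
        exact Or.inr ⟨F, _, _, hF, ⟨e⟩⟩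
      · exact (false_psu_five (by omega) h hc).elim
    · exfalso
      by_cases h3 : n = 3
      · subst h3
        exact false_psu_three hF hq2 h hc
      · exact false_psu_four hF hq2 (by omega) h hc
  · -- odd dimensional orthogonal groups
    exfalso
    obtain ⟨F, _, _, m, hm, ho, ⟨e⟩⟩ := hK
    have hq : 1 < Fintype.card F := Fintype.one_lt_card
    have hc := S0292.result (F := F) rfl ho m hm
    rw [← Nat.card_congr e.toEquiv] at hc
    exact kill_prod h (Q := Fintype.card F) (m := m) (c := 2) (a := m ^ 2) (by omega)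
        (by omega) (by nlinarith) (by norm_num) (by rw [hc])
  · -- plus type
    exfalso
    obtain ⟨F, _, _, m, hm, ⟨e⟩⟩ := hK
    have hq : 1 < Fintype.card F := Fintype.one_lt_card
    have hc := S0293.result (F := F) rfl m hm
    rw [← Nat.card_congr e.toEquiv] at hc
    refine kill_prod h (Q := Fintype.card F) (m := m - 1) (c := Nat.gcd 4 (Fintype.card F ^ m - 1))
      (a := m * (m - 1)) (by omega) (by omega) ?_ (Nat.gcd_dvd_left 4 _) ?_
    · have : 4 * 3 ≤ m * (m - 1) := Nat.mul_le_mul hm (by omega)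
      omega
    · rw [hc]
      exact ⟨Fintype.card F ^ m - 1, by ring⟩
  · -- minus type
    exfalso
    obtain ⟨F, _, _, m, a, b, hm, hab, ⟨e⟩⟩ := hK
    have hq : 1 < Fintype.card F := Fintype.one_lt_card
    have hc := S0294.result (F := F) rfl m hm a b hab
    rw [← Nat.card_congr e.toEquiv] at hc
    refine kill_prod h (Q := Fintype.card F) (m := m - 1) (c := Nat.gcd 4 (Fintype.card F ^ m + 1))
      (a := m * (m - 1)) (by omega) (by omega) ?_ (Nat.gcd_dvd_left 4 _) ?_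
    · have : 4 * 3 ≤ m * (m - 1) := Nat.mul_le_mul hm (by omega)
      omega
    · rw [hc]
      exact ⟨Fintype.card F ^ m + 1, by ring⟩
  · -- exceptional groups
    exfalso
    rcases hK with hK | hK | hK | hK | hK | hK | hK | hK | hK | hK | hK
    · obtain ⟨F, _, _, hq, ⟨e⟩⟩ := hK
      have hc := T.g2 F
      rw [← Nat.card_congr e.toEquiv] at hc
      refine h.kill_plus (Q := Fintype.card F) (by omega) ?_
      rw [hc, mul_assoc, mul_assoc]
      refine Dvd.dvd.mul_left (mul_dvd_mul (pow_dvd_pow _ (by norm_num)) (dvd246 (by omega))) 4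
    · obtain ⟨F, _, _, ⟨e⟩⟩ := hK
      have hq : 1 < Fintype.card F := Fintype.one_lt_card
      have hc := T.f4 F _ rfl
      rw [← Nat.card_congr e.toEquiv] at hc
      refine h.kill26 (Q := Fintype.card F) (a := 24) (by omega) (by norm_num) ?_
      rw [hc]
      exact ⟨4 * ((Fintype.card F ^ 8 - 1) * (Fintype.card F ^ 12 - 1)), by ring⟩
    · -- E6
      obtain ⟨F, _, _, ⟨e⟩⟩ := hK
      have hq : 1 < Fintype.card F := Fintype.one_lt_card
      have hc := T.e6 F _ rfl
      rw [← Nat.card_congr e.toEquiv] at hc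
      have hg : 0 < Nat.gcd 3 (Fintype.card F - 1) := Nat.gcd_pos_of_pos_left _ (by omega)
      obtain ⟨c, hc'⟩ : Nat.gcd 3 (Fintype.card F - 1) ∣ Fintype.card F ^ 5 - 1 :=
        (Nat.gcd_dvd_right _ _).trans (Nat.sub_one_dvd_pow_sub_one _ _)
      have hN : Nat.card G = Fintype.card F ^ 36 * ((Fintype.card F ^ 2 - 1) * (Fintype.card F ^ 6 - 1)) *
          (c * (Fintype.card F ^ 8 - 1) * (Fintype.card F ^ 9 - 1) * (Fintype.card F ^ 12 - 1)) := by
        apply Nat.eq_of_mul_eq_mul_left hg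
        rw [hc, hc']
        ring
      refine h.kill26 (Q := Fintype.card F) (a := 36) (by omega) (by norm_num) ?_
      rw [hN]
      exact ⟨4 * (c * (Fintype.card F ^ 8 - 1) * (Fintype.card F ^ 9 - 1) * (Fintype.card F ^ 12 - 1)), by ring⟩
    · -- E7
      obtain ⟨F, _, _, ⟨e⟩⟩ := hK
      have hq : 1 < Fintype.card F := Fintype.one_lt_card
      have hc := T.e7 F _ rfl
      rw [← Nat.card_congr e.toEquiv] at hc
      refine h.kill26 (Q := Fintype.card F) (a := 63) (by omega) (by norm_num) ?_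
      refine Dvd.dvd.trans ?_ (Nat.mul_dvd_mul_right
        ((Nat.gcd_dvd_left 2 (Fintype.card F - 1)).trans (by norm_num)) (Nat.card G))
      rw [hc]
      exact ⟨((Fintype.card F ^ 8 - 1) * (Fintype.card F ^ 10 - 1) * (Fintype.card F ^ 12 - 1) *
        (Fintype.card F ^ 14 - 1) * (Fintype.card F ^ 18 - 1)), by ring⟩
    · -- E8
      obtain ⟨F, _, _, ⟨e⟩⟩ := hK
      have hq : 1 < Fintype.card F := Fintype.one_lt_card
      have hc := T.e8 F _ rfl
      rw [← Nat.card_congr e.toEquiv] at hc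
      obtain ⟨c, hc'⟩ : Fintype.card F ^ 6 - 1 ∣ Fintype.card F ^ 12 - 1 :=
        Nat.pow_sub_one_dvd_pow_sub_one _ (by norm_num)
      refine h.kill26 (Q := Fintype.card F) (a := 120) (by omega) (by norm_num) ?_
      rw [hc, hc']
      exact ⟨4 * (c * (Fintype.card F ^ 8 - 1) * (Fintype.card F ^ 14 - 1) *
        (Fintype.card F ^ 18 - 1) * (Fintype.card F ^ 20 - 1) * (Fintype.card F ^ 24 - 1) *
        (Fintype.card F ^ 30 - 1)), by ring⟩
    · -- 2E6
      obtain ⟨F, _, _, q, hq, hF, ⟨e⟩⟩ := hK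
      have hq1 : 1 < q := hq.one_lt
      have hc := T.te6 F q hq hF
      rw [← Nat.card_congr e.toEquiv] at hc
      have hg : 0 < Nat.gcd 3 (q + 1) := Nat.gcd_pos_of_pos_left _ (by omega)
      obtain ⟨c, hc'⟩ : Nat.gcd 3 (q + 1) ∣ q ^ 5 + 1 := by
        refine (Nat.gcd_dvd_right _ _).trans ?_
        have : q + 1 ∣ q ^ 5 + 1 ^ 5 := Odd.nat_add_dvd_pow_add_pow q 1 (by decide)
        simpa using this
      have hN : Nat.card G = q ^ 36 * ((q ^ 2 - 1) * (q ^ 6 - 1)) *
          (c * (q ^ 8 - 1) * (q ^ 9 + 1) * (q ^ 12 - 1)) := by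
        apply Nat.eq_of_mul_eq_mul_left hg
        rw [hc, hc']
        ring
      refine h.kill26 (Q := q) (a := 36) (by omega) (by norm_num) ?_
      rw [hN]
      exact ⟨4 * (c * (q ^ 8 - 1) * (q ^ 9 + 1) * (q ^ 12 - 1)), by ring⟩
    · -- 3D4
      obtain ⟨F, _, _, q, hq, hF, ⟨e⟩⟩ := hK
      have hq1 : 1 < q := hq.one_lt
      have hc := T.td4 F q hq hF
      rw [← Nat.card_congr e.toEquiv] at hc
      refine h.kill26 (Q := q) (a := 12) (by omega) (by norm_num) ?_
      rw [hc]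
      exact ⟨4 * (q ^ 8 + q ^ 4 + 1), by ring⟩
    · -- Suzuki
      obtain ⟨F, _, _, m, hm, hF, ⟨e⟩⟩ := hK
      have hc := T.sz F m hm hF
      rw [← Nat.card_congr e.toEquiv] at hc
      have h3 := h.three
      have hQm : 2 ^ (2 * m + 1) % 3 = 2 := by
        rw [pow_add, pow_mul, Nat.mul_mod, Nat.pow_mod]
        simp
      set Q := 2 ^ (2 * m + 1) with hQ
      rw [hc, Nat.prime_three.dvd_mul, Nat.prime_three.dvd_mul] at h3
      rcases h3 with (h3 | h3) | h3
      · have := Nat.prime_three.dvd_of_dvd_pow h3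
        omega
      · omega
      · have h4 : (Q ^ 2 + 1) % 3 = 2 := by
          rw [Nat.add_mod, Nat.pow_mod, hQm]
        omega
    · -- Ree
      obtain ⟨F, _, _, m, hm, hF, ⟨e⟩⟩ := hK
      have hc := T.ree F m hm hF
      rw [← Nat.card_congr e.toEquiv] at hc
      have hQ3 : 3 ≤ 3 ^ (2 * m + 1) := Nat.le_self_pow (by omega) 3
      obtain ⟨r, hr, h7, hr1⟩ := exists_minus hQ3
      refine h.c2 hr h7 ?_ ?_
      · rw [hc, ← pow_three_add (by omega)]
        exact hr1.trans (Dvd.dvd.mul_left (Dvd.intro_left _ rfl) _)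
      · rw [hc, ← pow_mul]
        refine Dvd.dvd.mul_right (Dvd.dvd.mul_right ?_ _) _
        exact pow_dvd_pow 3 (by omega : 2 ≤ (2 * m + 1) * 3)
    · -- 2F4
      obtain ⟨F, _, _, m, hm, hF, ⟨e⟩⟩ := hK
      have hc := T.tf4 F m hm hF
      rw [← Nat.card_congr e.toEquiv] at hc
      have hQ8 : 2 ^ 3 ≤ 2 ^ (2 * m + 1) := Nat.pow_le_pow_right (by norm_num) (by omega)
      set Q := 2 ^ (2 * m + 1) with hQ
      refine h.kill_minus (Q := Q) (by omega) ?_
      have h1 : Q ^ 2 - 1 = (Q + 1) * (Q - 1) := by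
        rw [show Q ^ 2 - 1 = Q ^ 2 - 1 ^ 2 by ring_nf, Nat.sq_sub_sq]
      rw [hc, ← pow_three_add (by omega), ← pow_four, h1]
      exact ⟨4 * (Q ^ 10 * (Q ^ 2 + 1) * (Q ^ 6 + 1)), by ring⟩
    · -- Tits
      have hc := T.spor G (.tits, 17971200) (by decide) hK
      simp only at hc
      rw [hc] at h
      exact h.c2 (by norm_num : Nat.Prime 13) (by norm_num) (by norm_num) (by norm_num)
  · -- sporadic groups
    exfalso
    have key : ∀ g : OrdDiv.Grp, g ∈ OrdDiv.spor.map (fun x => x.1) → OrdDiv.Real g G → False := by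
      intro g hg hr
      obtain ⟨x, hx, rfl⟩ := List.mem_map.1 hg
      have hxc := T.spor G x hx hr
      clear hr hg
      rw [hxc] at h
      clear hxc
      have hd : (7 * 11 ∣ x.2) ∨ (11 * 9 ∣ x.2) ∨ (7 * 9 ∣ x.2) ∨ (13 * 9 ∣ x.2) ∨ (17 * 9 ∣ x.2) := by
        clear h
        revert x
        decide
      rcases hd with hd | hd | hd | hd | hd
      · exact h.c1 (by norm_num : Nat.Prime 7) (by norm_num : Nat.Prime 11) (by norm_num) (by norm_num) (by norm_num)
          (Dvd.dvd.trans (by norm_num) hd) (Dvd.dvd.trans (by norm_num) hd)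
      · exact h.c2 (by norm_num : Nat.Prime 11) (by norm_num) (Dvd.dvd.trans (by norm_num) hd)
          (Dvd.dvd.trans (by norm_num) hd)
      · exact h.c2 (by norm_num : Nat.Prime 7) (by norm_num) (Dvd.dvd.trans (by norm_num) hd)
          (Dvd.dvd.trans (by norm_num) hd)
      · exact h.c2 (by norm_num : Nat.Prime 13) (by norm_num) (Dvd.dvd.trans (by norm_num) hd)
          (Dvd.dvd.trans (by norm_num) hd)
      · exact h.c2 (by norm_num : Nat.Prime 17) (by norm_num) (Dvd.dvd.trans (by norm_num) hd)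
          (Dvd.dvd.trans (by norm_num) hd)
    rcases hK with hK | hK | hK | hK | hK | hK | hK | hK | hK | hK | hK | hK | hK | hK | hK | hK | hK | hK | hK | hK |
      hK | hK | hK | hK | hK | hK
    · exact key .m11 (by decide) hK
    · exact key .m12 (by decide) hK
    · exact key .m22 (by decide) hK
    · exact key .m23 (by decide) hK
    · exact key .m24 (by decide) hK
    · exact key .j1 (by decide) hK
    · exact key .j2 (by decide) hK
    · exact key .j3 (by decide) hK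
    · exact key .j4 (by decide) hK
    · exact key .co1 (by decide) hK
    · exact key .co2 (by decide) hK
    · exact key .co3 (by decide) hK
    · exact key .mcl (by decide) hK
    · exact key .hs (by decide) hK
    · exact key .suz (by decide) hK
    · exact key .he (by decide) hK
    · exact key .ru (by decide) hK
    · exact key .on (by decide) hK
    · exact key .ly (by decide) hK
    · exact key .fi22 (by decide) hK
    · exact key .fi23 (by decide) hK
    · exact key .fi24 (by decide) hK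
    · exact key .hn (by decide) hK
    · exact key .th (by decide) hK
    · exact key .b (by decide) hK
    · exact key .m (by decide) hK

/-- A finite simple group whose order has the form 2^a · 3 · 5 · q^b with q a prime (q may be 2, 3 or 5, and b may be 0) is isomorphic to PSL(2, r) for r ∈ {5, 9, 11, 16, 31} or to PSU(4, 2). -/
theorem result {G : Type*} [Group G] [Finite G] [IsSimpleGroup G]
    (a b q : ℕ) (hq : q.Prime) (hG : Nat.card G = 2 ^ a * 3 * 5 * q ^ b) :
    (∃ (F : Type) (_ : Field F) (_ : Fintype F),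
        (Fintype.card F = 5 ∨ Fintype.card F = 9 ∨ Fintype.card F = 11 ∨ Fintype.card F = 16 ∨ Fintype.card F = 31) ∧
          Nonempty (G ≃* Matrix.ProjectiveSpecialLinearGroup (Fin 2) F)) ∨
      (∃ (F : Type) (_ : Field F) (_ : Fintype F), Fintype.card F = 4 ∧ Nonempty (G ≃* Cfsg.PSU 4 F 2)) :=
  main Cfsg.Agent.S0000.result ⟨a, b, q, hq, hG⟩

end Cfsg.Agent.S3270
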