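import Cfsg.Statements.S3271
import Cfsg.Agent.S0000
import Cfsg.Agent.H318.StdTwE

set_option autoImplicit false
open Cfsg

namespace Cfsg.Agent.S3271

open Subgroup Cfsg.Agent.SignalizersComponents

/-- Let G be a finite group with no nontrivial normal subgroup of odd order, and let A be a standard subgroup of G whose centre has even order and whose central quotient A/Z(A) is isomorphic to the twisted group ²E₆(2). Then either A is normal in G, or the normal closure of A in G is isomorphic to the Baby Monster. -/
theorem result {G : Type*} [Group G] [Finite G] (hO : Cfsg.oddCore G = ⊥)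
    (A : Subgroup G) (hA : Cfsg.IsStandardSubgroup A) (hZ : Even (Nat.card ↥(Subgroup.center ↥A)))
    {K : Type*} [Field K] [Fintype K] (hK : Fintype.card K = 4)
    (e : (↥A ⧸ Subgroup.center ↥A) ≃* ↥(Cfsg.Lie.twistedE6 K 2)) :
    A.Normal ∨ Cfsg.Spor.IsoB ↥(Subgroup.normalClosure (A : Set G)) := by
  by_cases hnA : A.Normal
  · exact Or.inl hnA
  right
  obtain ⟨hAX, hs, hna, -⟩ := H284.StdRed.red hO hA hnA hZ
  obtain ⟨z, hzA, hz, hzc⟩ := H284.StdRed.exists_involution hZ
  have hN := StandardTrichotomy.centralizer_involution_le hA hz hzc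
  have hle : A ≤ centralizer {z} := by
    intro a ha
    rw [mem_centralizer_singleton_iff]
    exact mem_centralizer_iff.1 hzc a ha
  let A' : Subgroup ↥(layer G) := A.subgroupOf (layer G)
  let z' : ↥(layer G) := ⟨z, hAX hzA⟩
  have eA : ↥A' ≃* ↥A := subgroupOfEquivOfLe hAX
  have hle' : A' ≤ centralizer ({z'} : Set ↥(layer G)) := by
    intro a ha
    rw [mem_centralizer_singleton_iff]
    exact Subtype.ext (mem_centralizer_singleton_iff.1 (hle ha))
  have hcomp : IsComponentOf A' (centralizer ({z'} : Set ↥(layer G))) := by
    refine ⟨hle', ?_, ?_⟩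
    · have hn : (A'.subgroupOf (centralizer ({z'} : Set ↥(layer G)))).Normal := by
        rw [normal_subgroupOf_iff hle']
        intro h g hh hg
        have hg' : (g : G) ∈ centralizer ({z} : Set G) := by
          rw [mem_centralizer_singleton_iff]
          exact congrArg Subtype.val (mem_centralizer_singleton_iff.1 hg)
        exact ((mem_normalizer_iff.1 (hN hg')) (h : G)).1 hh
      exact hn.isSubnormal
    · exact QsBasic.isQuasisimple_of_mulEquiv ((subgroupOfEquivOfLe hle').trans eA).symm hA.1
  have hsit : H318.StdTwE.Sit ↥(layer G) z' A' K :=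
    { hz := by rw [← hz]; exact (Subgroup.orderOf_coe z').symm
      hzA := hzA
      comp := hcomp
      e := ⟨(CTwoTab.quoEquiv eA).trans e⟩ }
  have hB : Spor.IsoB ↥(layer G) := hsit.isoB hK hna S0000.result
  have heq : Subgroup.normalClosure (A : Set G) = layer G := by
    have hlN : (layer G).Normal := Components.layer_normal G
    have h1 : Subgroup.normalClosure (A : Set G) ≤ layer G := normalClosure_le_normal hAX
    have h2 : ((Subgroup.normalClosure (A : Set G)).subgroupOf (layer G)).Normal := inferInstance
    rcases h2.eq_bot_or_eq_top with h | h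
    · exfalso
      rw [subgroupOf_eq_bot] at h
      have h3 : z ∈ Subgroup.normalClosure (A : Set G) := subset_normalClosure hzA
      have h4 := h.le_bot (mem_inf.2 ⟨h3, hAX hzA⟩)
      rw [mem_bot] at h4
      rw [h4, orderOf_one] at hz
      exact absurd hz (by norm_num)
    · exact le_antisymm h1 (subgroupOf_eq_top.1 h)
  rw [heq]
  exact hB

end Cfsg.Agent.S3271
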