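import Cfsg.Statements.S3272
import Cfsg.Agent.S0482
import Cfsg.Agent.S0501
import Cfsg.Agent.GH.FinalMain
import Cfsg.Agent.GH.FinalStmts
import Cfsg.Agent.GH.BranchC2
import Cfsg.Agent.LFour.ExtAll
import Cfsg.Agent.TwoFusion.SectionalRank
import Cfsg.Agent.H326.CHZ

set_option autoImplicit false
open Cfsg

namespace Cfsg.Agent.S3272

/-- Let G be a non-abelian finite simple group with a Sylow 2-subgroup T that has no normal elementary abelian subgroup of order 8, and suppose that for every involution t of T whose centralizer in T has index at most 2 in T, the centralizer C_G(t) is 2-constrained. Then G is isomorphic to PSL(2, q) for some q, to the alternating group of degree 7, to PSL(3, 3), PSU(3, 3) or PSU(3, 4), or G is simple of the order of the smallest Mathieu group or of the second or third Janko group. -/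
theorem result {G : Type*} [Group G] [Finite G] [IsSimpleGroup G] (hG : ¬ IsMulCommutative G)
    (T : Sylow 2 G)
    (hT : ∀ E : Subgroup G, E ≤ (T : Subgroup G) → Cfsg.IsElementaryAbelian 2 E → Nat.card E = 8 →
      ¬ (E.subgroupOf (T : Subgroup G)).Normal)
    (hC : ∀ t ∈ (T : Subgroup G), orderOf t = 2 →
      (Subgroup.centralizer ({t} : Set G) ⊓ (T : Subgroup G)).relIndex (T : Subgroup G) ≤ 2 →
        Cfsg.IsPConstrained 2 ↥(Subgroup.centralizer ({t} : Set G))) :
    (∃ (F : Type) (_ : Field F) (_ : Fintype F), Nonempty (G ≃* Matrix.ProjectiveSpecialLinearGroup (Fin 2) F)) ∨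
      Nonempty (G ≃* ↥(alternatingGroup (Fin 7))) ∨ Cfsg.IsM11 G ∨
      (∃ (F : Type) (_ : Field F) (_ : Fintype F), Fintype.card F = 3 ∧ Nonempty (G ≃* Matrix.ProjectiveSpecialLinearGroup (Fin 3) F)) ∨
      (∃ (F : Type) (_ : Field F) (_ : Fintype F), Fintype.card F = 9 ∧ Nonempty (G ≃* Cfsg.PSU 3 F 3)) ∨
      (∃ (F : Type) (_ : Field F) (_ : Fintype F), Fintype.card F = 16 ∧ Nonempty (G ≃* Cfsg.PSU 3 F 4)) ∨
      Cfsg.IsJ2 G ∨ Cfsg.IsJ3 G := by
  have hC' := Cfsg.Agent.H326.CHZ.constrained T hC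
  have hT' := Cfsg.Agent.H326.NormEight.ne8_false T hT
  by_cases hr : Cfsg.PRankLE 2 2 G
  · exact Cfsg.Agent.H326.CHZ.of_rank_two hC' (Cfsg.Agent.S0482.result hG hr)
  · have h4T : Cfsg.SectionalPRankLE 2 4 ↥(T : Subgroup G) := by
      refine Cfsg.Agent.S0501.result T.isPGroup' fun A hA _ hA2 => ?_
      by_contra h
      have h5 : 5 ≤ Nat.card A := by omega
      apply hT'
      have hp : IsPGroup 2 A := T.isPGroup'.to_subgroup A
      obtain ⟨n, hn⟩ := IsPGroup.iff_card.1 hp
      refine ⟨A, hA, fun x hx => by rw [← pow_two]; exact hA2 x hx, ?_⟩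
      have h3 : 3 ≤ n := by
        by_contra h6
        have h7 : 2 ^ n ≤ 2 ^ 2 := Nat.pow_le_pow_right (by norm_num) (by omega)
        omega
      rw [hn]
      exact le_trans (by norm_num : 8 ≤ 2 ^ 3) (Nat.pow_le_pow_right (by norm_num) h3)
    have h4 : Cfsg.SectionalPRankLE 2 4 G := Cfsg.Agent.TwoFusion.SectionalRank.sectionalPRankLE_of_sylow T h4T
    have I := Cfsg.Agent.GH.FinalStmts.stmts fun _ _ _ _ _ _ _ hF S P e => Cfsg.Agent.LFour.ExtAll.conclR hF S P e
    obtain ⟨hyp, h⟩ := (Cfsg.Agent.GH.FinalInd.k4_aux (Cfsg.Agent.GH.FinalInputs.k2 I)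
      (Cfsg.Agent.GH.FinalInputs.inputs I) (Cfsg.Agent.GH.FinalMain.gh_of Cfsg.Agent.GH.BranchC2.branchC2) _ G rfl
      inferInstance hG h4).2 hr
    exact Cfsg.Agent.H326.CHZ.of_k4r hG hyp.oddCore_eq_bot (I.s1738 G) hr T hT' hC' h

end Cfsg.Agent.S3272
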