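import Cfsg.Statements.S3276
import Cfsg.Agent.Cit.CloEven

set_option autoImplicit false
open Cfsg

namespace Cfsg.Agent.S3276

open Cfsg.Agent.Cit.CloEven in
/-- Two non-conjugate involutions commute with a common involution. -/
theorem exists_common {G : Type*} [Group G] [Finite G] (x y : G) (hx : orderOf x = 2) (hy : orderOf y = 2)
    (hnc : ¬ IsConj x y) : ∃ u : G, orderOf u = 2 ∧ Commute u x ∧ Commute y u := by
  have hxx : x * x = 1 := by
    have := pow_orderOf_eq_one x
    rwa [hx, pow_two] at this
  have hyy : y * y = 1 := by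
    have := pow_orderOf_eq_one y
    rwa [hy, pow_two] at this
  by_cases ho : Odd (orderOf (x * y))
  · obtain ⟨g, -, hg⟩ := exists_swap_of_odd hxx hyy ho
    exact absurd (isConj_iff.2 ⟨g, hg⟩) hnc
  · obtain ⟨w, -, hw, hw1, hwx, hwy, -⟩ := exists_mid hxx hyy (orderOf_pos _) ho
    exact ⟨w, orderOf_eq_prime (by rw [pow_two, hw]) hw1, hwx, hwy.symm⟩

/-- Let x and y be commuting, non-conjugate involutions of a finite group G, and suppose that for every involution u commuting with x, each conjugate of y that commutes with u also commutes with y. Then the normal closure of y is a proper, normal, elementary abelian 2-subgroup of G; and if y is the only involution of that normal closure commuting with x, it has order at most 4. -/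
theorem result {G : Type*} [Group G] [Finite G] (x y : G) (hx : orderOf x = 2) (hy : orderOf y = 2)
    (hxy : Commute x y) (hnc : ¬ IsConj x y)
    (hstar : ∀ u : G, orderOf u = 2 → Commute u x → ∀ g : G, Commute (g * y * g⁻¹) u → Commute (g * y * g⁻¹) y) :
    Subgroup.normalClosure ({y} : Set G) ≠ ⊤ ∧ Cfsg.IsElementaryAbelian 2 (Subgroup.normalClosure ({y} : Set G)) ∧
      ((∀ u ∈ Subgroup.normalClosure ({y} : Set G), orderOf u = 2 → Commute u x → u = y) →
        Nat.card ↥(Subgroup.normalClosure ({y} : Set G)) ≤ 4) := by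
  have hxx : x * x = 1 := by
    have := pow_orderOf_eq_one x
    rwa [hx, pow_two] at this
  have hyy : y * y = 1 := by
    have := pow_orderOf_eq_one y
    rwa [hy, pow_two] at this
  have hxi : x⁻¹ = x := inv_eq_of_mul_eq_one_left hxx
  -- every conjugate of `y` commutes with `y`
  have h1 : ∀ g : G, Commute (g * y * g⁻¹) y := by
    intro g
    have hgo : orderOf (g * y * g⁻¹) = 2 := by
      rw [← hy]
      exact MulEquiv.orderOf_eq (MulAut.conj g) y
    have hgc : ¬ IsConj x (g * y * g⁻¹) := fun h =>
      hnc (h.trans (isConj_iff.2 ⟨g⁻¹, by group⟩))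
    obtain ⟨u, hu, hux, huy⟩ := exists_common x (g * y * g⁻¹) hx hgo hgc
    exact hstar u hu hux g huy
  -- all conjugates commute
  have h2 : ∀ g h : G, Commute (g * y * g⁻¹) (h * y * h⁻¹) := by
    intro g h
    have := h1 (h⁻¹ * g)
    have h3 := this.map (MulAut.conj h)
    have e1 : MulAut.conj h (h⁻¹ * g * y * (h⁻¹ * g)⁻¹) = g * y * g⁻¹ := by
      simp only [MulAut.conj_apply]; group
    have e2 : MulAut.conj h y = h * y * h⁻¹ := by simp only [MulAut.conj_apply]
    rwa [e1, e2] at h3
  set V : Subgroup G := Subgroup.normalClosure ({y} : Set G) with hV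
  have hVcl : V = Subgroup.closure (Group.conjugatesOfSet ({y} : Set G)) := rfl
  have hset : ∀ a ∈ Group.conjugatesOfSet ({y} : Set G), ∃ g : G, g * y * g⁻¹ = a := by
    intro a ha
    rw [Group.mem_conjugatesOfSet_iff] at ha
    obtain ⟨b, hb, hba⟩ := ha
    rw [Set.mem_singleton_iff] at hb
    subst hb
    exact isConj_iff.1 hba
  have hcomm : ∀ a ∈ V, ∀ b ∈ V, a * b = b * a := by
    intro a ha b hb
    rw [hVcl] at ha hb
    induction ha, hb using Subgroup.closure_induction₂ with
    | mem a b ha hb =>
      obtain ⟨g, rfl⟩ := hset a ha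
      obtain ⟨h, rfl⟩ := hset b hb
      exact h2 g h
    | one_left b hb => simp
    | one_right a ha => simp
    | mul_left a b c ha hb hc h h' => 
      exact (Commute.mul_left h h' : Commute (a * b) c)
    | mul_right a b c ha hb hc h h' => 
      exact (Commute.mul_right (a := c) h h')
    | inv_left a b ha hb h => exact (Commute.inv_left h : Commute a⁻¹ b)
    | inv_right a b ha hb h => exact (Commute.inv_right h : Commute a b⁻¹)
  have hsq : ∀ a ∈ V, a ^ 2 = 1 := by
    intro a ha
    have ha' := ha
    rw [hVcl] at ha'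
    induction ha' using Subgroup.closure_induction with
    | mem a ha' =>
      obtain ⟨g, rfl⟩ := hset a ha'
      rw [conj_pow, pow_two, hyy]; group
    | one => simp
    | mul a b ha' hb' h h' =>
      have ham : a ∈ V := by rw [hVcl]; exact ha'
      have hbm : b ∈ V := by rw [hVcl]; exact hb'
      rw [(show Commute a b from hcomm a ham b hbm).mul_pow, h ham, h' hbm, one_mul]
    | inv a ha' h =>
      have ham : a ∈ V := by rw [hVcl]; exact ha'
      rw [inv_pow, h ham, inv_one]
  have hyV : y ∈ V := Subgroup.subset_normalClosure rfl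
  have hVn : V.Normal := Subgroup.normalClosure_normal
  refine ⟨?_, ⟨⟨⟨fun a b => Subtype.ext (hcomm a a.2 b b.2)⟩⟩, hsq⟩, ?_⟩
  · intro htop
    -- then G is abelian
    have hab : ∀ a b : G, a * b = b * a := fun a b =>
      hcomm a (htop ▸ Subgroup.mem_top a) b (htop ▸ Subgroup.mem_top b)
    have hle : V ≤ Subgroup.zpowers y := by
      rw [hVcl, Subgroup.closure_le]
      intro a ha
      obtain ⟨g, rfl⟩ := hset a ha
      rw [hab g y, mul_inv_cancel_right]
      exact Subgroup.mem_zpowers y
    have hxm : x ∈ Subgroup.zpowers y := hle (htop ▸ Subgroup.mem_top x)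
    rw [Subgroup.mem_zpowers_iff] at hxm
    obtain ⟨k, hk⟩ := hxm
    rcases Int.even_or_odd' k with ⟨m, hm | hm⟩
    · have : x = 1 := by
        rw [← hk, hm, zpow_mul, zpow_two, hyy, one_zpow]
      rw [this, orderOf_one] at hx
      omega
    · have : x = y := by
        rw [← hk, hm, zpow_add, zpow_mul, zpow_two, hyy, one_zpow, zpow_one, one_mul]
      exact hnc (this ▸ IsConj.refl x)
  · intro huniq
    -- the map v ↦ v * (x v x⁻¹)
    let φ : V →* V :=
      { toFun := fun v => ⟨(v : G) * (x * v * x⁻¹), V.mul_mem v.2 (hVn.conj_mem v v.2 x)⟩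
        map_one' := by ext; simp
        map_mul' := by
          intro a b
          ext
          have hc := hcomm (b : G) b.2 (x * a * x⁻¹) (hVn.conj_mem a a.2 x)
          show (a * b : G) * (x * (a * b) * x⁻¹) = (a * (x * a * x⁻¹)) * (b * (x * b * x⁻¹))
          calc (a * b : G) * (x * (a * b) * x⁻¹) = a * (b * (x * a * x⁻¹)) * (x * b * x⁻¹) := by group
            _ = a * ((x * a * x⁻¹) * b) * (x * b * x⁻¹) := by rw [hc]
            _ = _ := by group }
    have hC : ∀ v : V, Commute (v : G) x → v = 1 ∨ v = ⟨y, hyV⟩ := by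
      intro v hv
      by_cases hv1 : (v : G) = 1
      · left; exact Subtype.ext hv1
      · right
        exact Subtype.ext (huniq v v.2 (orderOf_eq_prime (hsq v v.2) hv1) hv)
    have hker : ∀ v : V, v ∈ φ.ker → v = 1 ∨ v = ⟨y, hyV⟩ := by
      intro v hv
      apply hC
      rw [MonoidHom.mem_ker] at hv
      have hv' : (v : G) * (x * v * x⁻¹) = 1 := congrArg Subtype.val hv
      have hvv : (v : G) * v = 1 := by rw [← pow_two]; exact hsq v v.2
      have hvi : (v : G)⁻¹ = v := inv_eq_of_mul_eq_one_left hvv
      have : x * v * x⁻¹ = v := by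
        rw [← hvi]
        rw [hvi]
        exact (inv_eq_of_mul_eq_one_right hv').symm.trans hvi
      show (v : G) * x = x * v
      calc (v : G) * x = (x * v * x⁻¹) * x := by rw [this]
        _ = x * v := by group
    have hran : ∀ v : V, v ∈ φ.range → v = 1 ∨ v = ⟨y, hyV⟩ := by
      rintro _ ⟨v, rfl⟩
      apply hC
      show (v : G) * (x * v * x⁻¹) * x = x * ((v : G) * (x * v * x⁻¹))
      have hc := hcomm (v : G) v.2 (x * v * x⁻¹) (hVn.conj_mem v v.2 x)
      calc (v : G) * (x * v * x⁻¹) * x = (x * v * x⁻¹) * v * x := by rw [hc]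
        _ = x * v * x * v * x := by rw [hxi]
        _ = x * v * x * v * x⁻¹ := by rw [hxi]
        _ = x * (v * (x⁻¹ * v * x⁻¹)) := by rw [hxi]; group
        _ = x * (v * (x * v * x⁻¹)) := by rw [hxi]
    have card_le : ∀ H : Subgroup V, (∀ v ∈ H, v = 1 ∨ v = ⟨y, hyV⟩) → Nat.card H ≤ 2 := by
      intro H hH
      have : (H : Set V) ⊆ ({1, ⟨y, hyV⟩} : Set V) := by
        intro v hv
        rcases hH v hv with h | h <;> simp [h]
      calc Nat.card H = (H : Set V).ncard := rfl
        _ ≤ ({1, ⟨y, hyV⟩} : Set V).ncard := Set.ncard_le_ncard this (Set.toFinite _)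
        _ ≤ 2 := Set.ncard_insert_le _ _ |>.trans (by simp)
    have hk2 := card_le φ.ker hker
    have hr2 := card_le φ.range hran
    have hmul : Nat.card V = Nat.card φ.ker * Nat.card φ.range := by
      rw [← Subgroup.index_ker, mul_comm]
      exact (Subgroup.index_mul_card _).symm
    rw [hmul]
    calc Nat.card φ.ker * Nat.card φ.range ≤ 2 * 2 := Nat.mul_le_mul hk2 hr2
      _ = 4 := rfl

end Cfsg.Agent.S3276
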