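import Cfsg.Statements.S3286
import Cfsg.Agent.H330.CaseTrans
import Cfsg.Agent.H330.MTw
import Cfsg.Agent.LargeExtra.W2.MTwelve
import Cfsg.Agent.S1741

set_option autoImplicit false
open Cfsg

namespace Cfsg.Agent.S3286

open Cfsg.Agent.CoThreeStd.MTwelve Cfsg.Agent.CoThreeStd.InvTwo in
/-- a 2-central involution of `M12` is conjugate to `p * r` -/
theorem isB_of_central (u : ↥Cfsg.Spor.M12) (hu : Cfsg.IsTwoCentralInvolution u) :
    ∃ c : ↥Cfsg.Spor.M12, c⁻¹ * (p * r) * c = u := by
  obtain ⟨ho, P, huP, hc⟩ := hu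
  have h1 : u ≠ 1 := by
    intro h; rw [h, orderOf_one] at ho; exact absurd ho (by norm_num)
  have h2 : u * u = 1 := by
    have := pow_orderOf_eq_one u
    rwa [ho, pow_two] at this
  rcases inv_class u h1 h2 with ⟨c, hcu⟩ | h
  · exfalso
    have h3 : Nat.card (Subgroup.centralizer {u} : Subgroup ↥Cfsg.Spor.M12) = 240 := by
      rw [← card_cent_y]
      apply Nat.card_congr
      refine ⟨fun x => ⟨c * x.1 * c⁻¹, ?_⟩, fun x => ⟨c⁻¹ * x.1 * c, ?_⟩, ?_, ?_⟩
      · rw [Subgroup.mem_centralizer_iff]
        rintro _ rfl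
        have h5 := Subgroup.mem_centralizer_iff.mp x.2 u rfl
        have h6 : y = c * u * c⁻¹ := by rw [← hcu]; group
        rw [h6]
        calc c * u * c⁻¹ * (c * x.1 * c⁻¹) = c * (u * x.1) * c⁻¹ := by group
          _ = c * (x.1 * u) * c⁻¹ := by rw [h5]
          _ = _ := by group
      · rw [Subgroup.mem_centralizer_iff]
        rintro _ rfl
        have h5 := Subgroup.mem_centralizer_iff.mp x.2 y rfl
        rw [← hcu]
        calc c⁻¹ * y * c * (c⁻¹ * x.1 * c) = c⁻¹ * (y * x.1) * c := by group
          _ = c⁻¹ * (x.1 * y) * c := by rw [h5]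
          _ = _ := by group
      · intro x
        apply Subtype.ext
        show c⁻¹ * (c * x.1 * c⁻¹) * c = x.1
        group
      · intro x
        apply Subtype.ext
        show c * (c⁻¹ * x.1 * c) * c⁻¹ = x.1
        group
    have h4 : (P : Subgroup ↥Cfsg.Spor.M12) ≤ Subgroup.centralizer {u} := by
      intro x hx
      exact Subgroup.mem_centralizer_singleton_iff.2 (hc x hx)
    have h5 := Subgroup.card_dvd_of_le h4
    rw [h3, Cfsg.Agent.MTwelveType.SylowModel.card_sylow P] at h5
    exact absurd h5 (by norm_num)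
  · exact h

/-- conjugate elements have isomorphic centralizers -/
theorem centConj {H : Type*} [Group H] (c a u : H) (h : c⁻¹ * a * c = u) :
    Nonempty (↥(Subgroup.centralizer ({u} : Set H)) ≃* ↥(Subgroup.centralizer ({a} : Set H))) := by
  have h1 : (Subgroup.centralizer ({u} : Set H)).map (MulAut.conj c).toMonoidHom =
      Subgroup.centralizer ({a} : Set H) := by
    ext x
    constructor
    · rintro ⟨g, hg, rfl⟩
      have hg' : g * u = u * g := Subgroup.mem_centralizer_singleton_iff.1 hg
      rw [Subgroup.mem_centralizer_singleton_iff]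
      show c * g * c⁻¹ * a = a * (c * g * c⁻¹)
      have h6 : a = c * u * c⁻¹ := by rw [← h]; group
      rw [h6]
      calc c * g * c⁻¹ * (c * u * c⁻¹) = c * (g * u) * c⁻¹ := by group
        _ = c * (u * g) * c⁻¹ := by rw [hg']
        _ = _ := by group
    · intro hx
      have hx' : x * a = a * x := Subgroup.mem_centralizer_singleton_iff.1 hx
      refine ⟨c⁻¹ * x * c, ?_, ?_⟩
      · rw [SetLike.mem_coe, Subgroup.mem_centralizer_singleton_iff, ← h]
        calc c⁻¹ * x * c * (c⁻¹ * a * c) = c⁻¹ * (x * a) * c := by group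
          _ = c⁻¹ * (a * x) * c := by rw [hx']
          _ = _ := by group
      · show c * (c⁻¹ * x * c) * c⁻¹ = x
        group
  rw [← h1]
  exact ⟨Subgroup.equivMapOfInjective _ _ (MulAut.conj c).injective⟩

/-- Let G be a non-abelian finite simple group containing an involution whose centralizer is isomorphic to the centralizer, in the Mathieu group M₁₂, of an involution lying in the centre of a Sylow 2-subgroup of M₁₂. Then G is isomorphic to M₁₂. -/
theorem result {G : Type*} [Group G] [Finite G] [IsSimpleGroup G] (hG : ¬ IsMulCommutative G)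
    (u : ↥Cfsg.Spor.M12) (hu : Cfsg.IsTwoCentralInvolution u)
    (t : G) (ht : orderOf t = 2) (e : ↥(Subgroup.centralizer ({t} : Set G)) ≃* ↥(Subgroup.centralizer ({u} : Set ↥Cfsg.Spor.M12))) :
    Cfsg.Spor.IsoM12 G := by
  obtain ⟨c, hc⟩ := isB_of_central u hu
  obtain ⟨e'⟩ := centConj c _ u hc
  obtain ⟨Q', i', j', k', l', v', y', h⟩ :=
    Cfsg.Agent.H330.CaseTrans.transport Cfsg.Agent.H330.MTw.caseF2 t ht (e.trans e')
  exact Cfsg.Agent.LargeExtra.W2.MTwelve.recognize_of h
    (fun S P h1 h2 => Cfsg.Agent.S1741.result S P h1 h2)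

end Cfsg.Agent.S3286
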