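import Cfsg.Statements.S3290
import Cfsg.Agent.H331.Bicyclic
import Cfsg.Agent.H331.KFour
import Cfsg.Agent.S0482
import Cfsg.Agent.GH.LowRankMain
import Cfsg.Agent.GH.BranchTop
import Cfsg.Agent.GH.EFrameTops
import Cfsg.Agent.GH.SzFinal
import Cfsg.Agent.HNType.Alt

set_option autoImplicit false
open Cfsg

namespace Cfsg.Agent.S3290

open Cfsg.Agent.GH.Defs Cfsg.Agent.GH.Rank

/-- A product of two cyclic groups of exponent dividing `e` has order at most `e ^ 2`. -/
theorem card_le_of_exp {P : Type*} [Group P] (x y : P) (hxy : ∀ g : P, ∃ i j : ℤ, g = x ^ i * y ^ j)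
    {e : ℕ} (he : 0 < e) (hx : x ^ e = 1) (hy : y ^ e = 1) : Nat.card P ≤ e * e := by
  have hred : ∀ (z : P), z ^ e = 1 → ∀ i : ℤ, ∃ k : Fin e, z ^ i = z ^ (k : ℕ) := by
    intro z hz i
    have h0 : (0 : ℤ) < e := by exact_mod_cast he
    have h1 := Int.emod_nonneg i h0.ne'
    have h2 := Int.emod_lt_of_pos i h0
    refine ⟨⟨(i % e).toNat, by omega⟩, ?_⟩
    have h3 : z ^ ((i % e).toNat) = z ^ (i % (e : ℤ)) := by
      rw [← zpow_natCast, Int.toNat_of_nonneg h1]
    change z ^ i = z ^ ((i % e).toNat)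
    rw [h3]
    conv_lhs => rw [← Int.emod_add_mul_ediv i e]
    rw [zpow_add, zpow_mul, zpow_natCast, hz, one_zpow, mul_one]
  let f : Fin e × Fin e → P := fun p => x ^ (p.1 : ℕ) * y ^ (p.2 : ℕ)
  have hf : Function.Surjective f := by
    intro g
    obtain ⟨i, j, rfl⟩ := hxy g
    obtain ⟨k, hk⟩ := hred x hx i
    obtain ⟨l, hl⟩ := hred y hy j
    exact ⟨(k, l), by rw [hk, hl]⟩
  have := Nat.card_le_card_of_surjective f hf
  simpa [Nat.card_prod] using this

/-- Let G be a finite simple group of even order whose Sylow 2-subgroups are bicyclic (a product of two cyclic subgroups: every element is a power of x times a power of y for two fixed elements). Then G has order 2, or G is isomorphic to PSL₂(q), PSL₃(q) or PSU₃(q) for an odd prime power q, to the alternating group of degree 7, or G is a simple group of the order of the Mathieu group of degree 11. -/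
theorem result {G : Type*} [Group G] [Finite G] [IsSimpleGroup G] (P : Sylow 2 G) (hb : ∃ x y : ↥(P : Subgroup G), ∀ g : ↥(P : Subgroup G), ∃ i j : ℤ, g = x ^ i * y ^ j) (h2 : 2 ∣ Nat.card G) : Nat.card G = 2 ∨ (∃ (K : Type) (_ : Field K) (_ : Fintype K) (q : ℕ), Fintype.card K = q ∧ Odd q ∧ (Nonempty (G ≃* Matrix.ProjectiveSpecialLinearGroup (Fin 2) K) ∨ Nonempty (G ≃* Matrix.ProjectiveSpecialLinearGroup (Fin 3) K))) ∨ (∃ (K : Type) (_ : Field K) (_ : Fintype K) (q : ℕ), Fintype.card K = q ^ 2 ∧ Odd q ∧ Nonempty (G ≃* Cfsg.PSU 3 K q)) ∨ Nonempty (G ≃* alternatingGroup (Fin 7)) ∨ Cfsg.IsM11 G := by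
  have hp2 : Fact (Nat.Prime 2) := ⟨Nat.prime_two⟩
  by_cases hc : IsMulCommutative G
  · -- the commutative case
    left
    obtain ⟨g, hg⟩ := exists_prime_orderOf_dvd_card' 2 h2
    have h1 : (Subgroup.zpowers g).Normal := by
      constructor
      intro n hn h
      rw [hc.is_comm.comm h n, mul_inv_cancel_right]
      exact hn
    rcases h1.eq_bot_or_eq_top with h | h
    · rw [Subgroup.zpowers_eq_bot] at h
      rw [h, orderOf_one] at hg
      omega
    · rw [← hg, ← Nat.card_zpowers, h, Subgroup.card_top]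
  obtain ⟨x, y, hxy⟩ := hb
  have h3 : SectionalPRankLE 2 3 G :=
    (sylow_iff P).1 (H331.Bicyclic.sectional P.isPGroup' x y hxy)
  have hdone : ∀ h : K2 G, (∃ (K : Type) (_ : Field K) (_ : Fintype K) (q : ℕ), Fintype.card K = q ∧ Odd q ∧ (Nonempty (G ≃* Matrix.ProjectiveSpecialLinearGroup (Fin 2) K) ∨ Nonempty (G ≃* Matrix.ProjectiveSpecialLinearGroup (Fin 3) K))) ∨ (∃ (K : Type) (_ : Field K) (_ : Fintype K) (q : ℕ), Fintype.card K = q ^ 2 ∧ Odd q ∧ Nonempty (G ≃* Cfsg.PSU 3 K q)) ∨ Nonempty (G ≃* alternatingGroup (Fin 7)) ∨ Cfsg.IsM11 G := by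
    rintro (h | h | h | h | h | h)
    · obtain ⟨F, _, _, hF, -, e⟩ := h
      exact Or.inl ⟨F, inferInstance, inferInstance, _, rfl, hF, Or.inl e⟩
    · obtain ⟨F, _, _, hF, e⟩ := h
      exact Or.inl ⟨F, inferInstance, inferInstance, _, rfl, hF, Or.inr e⟩
    · exact Or.inr (Or.inl h)
    · obtain ⟨F, _, _, hF, ⟨e⟩⟩ := h
      exact absurd (of_equiv h3 e) (GH.BranchTop.u34_not hF)
    · exact Or.inr (Or.inr (Or.inl h))
    · obtain ⟨e⟩ := h
      refine Or.inr (Or.inr (Or.inr ⟨inferInstance, ?_⟩))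
      rw [Nat.card_congr e.toEquiv, HNType.Alt.card_M11]
  right
  by_cases hr : PRankLE 2 2 G
  · rcases S0482.result hc hr with h | h | h | h | h | h
    · exact hdone (Or.inl h)
    · exact hdone (Or.inr (Or.inl h))
    · exact hdone (Or.inr (Or.inr (Or.inl h)))
    · exact hdone (Or.inr (Or.inr (Or.inr (Or.inl h))))
    · exact hdone (Or.inr (Or.inr (Or.inr (Or.inr (Or.inl h)))))
    · exact Or.inr (Or.inr (Or.inr h))
  have h4 := H331.KFour.k4r hc hr (le_mono (by norm_num) h3 (by norm_num))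
  rcases GH.LowRankMain.k2_or_k3 h4.k4 h3 with h | h
  · exact hdone h
  exfalso
  have hE8 : GH.EFrameMain.SylE8 G → False := by
    intro hE
    obtain ⟨h8, hsq⟩ := hE P
    have hx : x ^ 2 = 1 := Subtype.ext (by push_cast; rw [pow_two]; exact hsq _ x.2)
    have hy : y ^ 2 = 1 := Subtype.ext (by push_cast; rw [pow_two]; exact hsq _ y.2)
    have h9 := card_le_of_exp x y hxy (by norm_num) hx hy
    rw [h8] at h9
    norm_num at h9
  rcases h with h | h | h | h
  · exact hE8 (GH.EFrameTops.sylE8_L28 h)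
  · obtain ⟨F, _, _, hF, ⟨e⟩⟩ := h
    obtain ⟨R, hR⟩ := GH.SzFinal.exists_rel_sylow hF e P
    have hx : x ^ 4 = 1 := Subtype.ext (by push_cast; exact R.pow_four (by rw [hR]; exact x.2))
    have hy : y ^ 4 = 1 := Subtype.ext (by push_cast; exact R.pow_four (by rw [hR]; exact y.2))
    have h9 := card_le_of_exp x y hxy (by norm_num) hx hy
    have h10 : Nat.card (F × F) ≤ Nat.card (P : Subgroup G) := by
      have : Function.Injective (fun p : F × F => (⟨R.u p.1 p.2, by
          rw [← hR]; exact R.u_mem _ _⟩ : (P : Subgroup G))) := by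
        rintro ⟨a, b⟩ ⟨c, d⟩ h
        have h1 := R.u_inj (congrArg Subtype.val h)
        exact Prod.ext h1.1 h1.2
      exact Nat.card_le_card_of_injective _ this
    rw [Nat.card_prod, Nat.card_eq_fintype_card, hF] at h10
    omega
  · exact hE8 (GH.EFrameTops.sylE8_ree h)
  · exact hE8 (GH.EFrameTops.sylE8_J1 h)

end Cfsg.Agent.S3290
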