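import Cfsg.Statements.S3297
import Cfsg.Agent.H267.Red
import Cfsg.Agent.H267.ThmC
import Cfsg.Agent.H267.SzCase
import Cfsg.Agent.H267.U3Case
import Cfsg.Agent.H267.EvenClass
import Cfsg.Agent.H267.ClaimE
import Cfsg.Agent.PLocal.PSolvable
import Cfsg.Agent.S1169
import Cfsg.Agent.StrongEmb.Strong
import Cfsg.Agent.Walter.StepAll
import Cfsg.Agent.Walter.Main

set_option autoImplicit false
open Cfsg

namespace Cfsg.Agent.S3297

open Subgroup

section aux

variable {G : Type*} [Group G] [Finite G] {p : ℕ} [Fact p.Prime]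

/-- The Sylow subgroup `P ∩ S` of the normal subgroup `S`. -/
noncomputable def syl (P : Sylow p G) (S : Subgroup G) [S.Normal] : Sylow p S :=
  (Agent.Lib.SylowNormalInf.isPGroup_subgroupOf P S).toSylow (Agent.Lib.SylowNormalInf.not_dvd_relIndex P S)

theorem mem_syl (P : Sylow p G) (S : Subgroup G) [S.Normal] (x : S) :
    x ∈ (syl P S : Subgroup S) ↔ (x : G) ∈ (P : Subgroup G) := Iff.rfl

theorem fus (P : Sylow p G) (S : Subgroup G) [hS : S.Normal]
    (ha : ∀ x ∈ (P : Subgroup G), ∀ y ∈ (P : Subgroup G), (∃ g : G, g * x * g⁻¹ = y) →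
      ∃ n ∈ Subgroup.normalizer ((P : Subgroup G) : Set G), n * x * n⁻¹ = y) :
    ∀ z ∈ Agent.H267.ThmC.Zc p (syl P S : Subgroup S), ∀ g : S, g * z * g⁻¹ ∈ (syl P S : Subgroup S) →
      g * z * g⁻¹ ∈ Agent.H267.ThmC.Zc p (syl P S : Subgroup S) := by
  rintro z ⟨hz, hzc, hzp⟩ g hg
  refine ⟨hg, ?_, ?_⟩
  · obtain ⟨n, hn, hnz⟩ := ha z hz _ hg ⟨(g : G), rfl⟩
    intro r hr
    have h1 : n⁻¹ * r * n ∈ (P : Subgroup G) := by
      have := (mem_normalizer_iff.1 (inv_mem hn) r).1 hr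
      rwa [inv_inv] at this
    have h1S : n⁻¹ * r * n ∈ S := by
      have := hS.conj_mem r r.2 n⁻¹
      rwa [inv_inv] at this
    have h2 : (n⁻¹ * r * n) * (z : G) = z * (n⁻¹ * r * n) := congrArg Subtype.val (hzc ⟨_, h1S⟩ h1)
    apply Subtype.ext
    have h3 : ((g * z * g⁻¹ : S) : G) = n * z * n⁻¹ := hnz.symm
    show (r : G) * ((g * z * g⁻¹ : S) : G) = ((g * z * g⁻¹ : S) : G) * r
    rw [h3]
    calc (r : G) * (n * z * n⁻¹) = n * ((n⁻¹ * r * n) * z) * n⁻¹ := by group
      _ = n * (z * (n⁻¹ * r * n)) * n⁻¹ := by rw [h2]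
      _ = n * z * n⁻¹ * r := by group
  · have : (g * z * g⁻¹) ^ p = g * z ^ p * g⁻¹ := conj_pow
    rw [this, hzp, mul_one, mul_inv_cancel]

theorem nil (S : Subgroup G)
    (hnil : ∀ x : G, orderOf x = p → HasNormalPComplement p (centralizer ({x} : Set G))) :
    ∀ x : S, orderOf x = p → HasNormalPComplement p (centralizer ({x} : Set S)) := by
  intro x hx
  refine Agent.Transfer.PNilpotentBasic.hnc_of_map_le S.subtype S.subtype_injective _ _ ?_
    (hnil (x : G) (by rw [Subgroup.orderOf_coe]; exact hx))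
  rintro _ ⟨c, hc, rfl⟩
  rw [mem_centralizer_singleton_iff]
  exact congrArg Subtype.val (mem_centralizer_singleton_iff.1 hc)

theorem sol (S : Subgroup G)
    (hc : ∀ x y : G, orderOf x = p → orderOf y = p → Cfsg.IsPSolvable p ↥(Subgroup.closure ({x, y} : Set G))) :
    ∀ x y : S, orderOf x = p → orderOf y = p → Cfsg.IsPSolvable p ↥(Subgroup.closure ({x, y} : Set S)) := by
  intro x y hx hy
  have h1 := hc x y (by rw [Subgroup.orderOf_coe]; exact hx) (by rw [Subgroup.orderOf_coe]; exact hy)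
  have h2 : (closure ({x, y} : Set S)).map S.subtype = closure ({(x : G), (y : G)} : Set G) := by
    rw [MonoidHom.map_closure, Set.image_pair]
    rfl
  rw [← h2] at h1
  exact (Agent.PLocal.PSolvable.isPSolvable_congr
    ((closure ({x, y} : Set S)).equivMapOfInjective S.subtype S.subtype_injective)).2 h1

end aux

/-- The involutions of a subgroup with the properties `Good`, contradiction with (d). -/
theorem false_of_good {G : Type*} [Group G] [Finite G] {S : Subgroup G} [hSn : S.Normal] [IsSimpleGroup S]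
    (hna : ¬ ∀ a b : S, a * b = b * a) (hdvd : 2 ∣ Nat.card S) (P : Sylow 2 G)
    (hg : Agent.H267.EvenClass.Good S)
    (ha : ∀ x ∈ (P : Subgroup G), ∀ y ∈ (P : Subgroup G), (∃ g : G, g * x * g⁻¹ = y) →
      ∃ n ∈ Subgroup.normalizer ((P : Subgroup G) : Set G), n * x * n⁻¹ = y)
    (hnil : ∀ x : G, orderOf x = 2 → HasNormalPComplement 2 (centralizer ({x} : Set G)))
    (hd : ¬ (Cfsg.IsElementaryAbelian 2 (P : Subgroup G) ∧
      ∀ x ∈ (P : Subgroup G), ∀ y ∈ (P : Subgroup G), x ≠ 1 → y ≠ 1 → ∃ g : G, g * x * g⁻¹ = y)) : False := by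
  refine hd (Agent.H267.ClaimE.claimE hna P ?_ ?_ hdvd ha hnil)
  · intro x hx hxP
    obtain ⟨k, hk⟩ := P.isPGroup' ⟨x, hxP⟩
    have hk' : x ^ 2 ^ k = 1 := congrArg Subtype.val hk
    exact congrArg Subtype.val (hg.1 ⟨x, hx⟩ k (Subtype.ext hk'))
  · intro x hx y hy hxo hyo
    obtain ⟨g, hg⟩ := hg.2 ⟨x, hx⟩ ⟨y, hy⟩ (by rwa [Subgroup.orderOf_mk]) (by rwa [Subgroup.orderOf_mk])
    exact ⟨g, congrArg Subtype.val hg⟩


/-- Let p be a prime and P a Sylow p-subgroup of a finite group G with no nontrivial normal subgroup of order prime to p, with P not normal in G. Suppose (a) two elements of P are conjugate in G only if they are conjugate in N_G(P); (b) the centralizer of every element of order p of P has a normal p-complement; (c) every two elements of order p of G generate a p-solvable subgroup; (d) it is not the case that p = 2 and P is elementary abelian with all its nonidentity elements conjugate in G. Then p = 2 and G is isomorphic to a Suzuki group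 Sz(q), q = 2^(2m+1) ≥ 8. -/
theorem result {G : Type*} [Group G] [Finite G] {p : ℕ} [Fact p.Prime] (hcore : Cfsg.pPrimeCore p G = ⊥) (P : Sylow p G)
    (hnn : ¬ (P : Subgroup G).Normal)
    (ha : ∀ x ∈ (P : Subgroup G), ∀ y ∈ (P : Subgroup G), (∃ g : G, g * x * g⁻¹ = y) →
      ∃ n ∈ Subgroup.normalizer ((P : Subgroup G) : Set G), n * x * n⁻¹ = y)
    (hb : ∀ x ∈ (P : Subgroup G), orderOf x = p → Cfsg.HasNormalPComplement p ↥(Subgroup.centralizer ({x} : Set G)))
    (hc : ∀ x y : G, orderOf x = p → orderOf y = p → Cfsg.IsPSolvable p ↥(Subgroup.closure ({x, y} : Set G)))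
    (hd : ¬ (p = 2 ∧ Cfsg.IsElementaryAbelian 2 (P : Subgroup G) ∧
      ∀ x ∈ (P : Subgroup G), ∀ y ∈ (P : Subgroup G), x ≠ 1 → y ≠ 1 → ∃ g : G, g * x * g⁻¹ = y)) :
    p = 2 ∧ Cfsg.Lie.IsoSuzuki G := by
  have hnil := Agent.H267.Red.nil_of_sylow P hb
  have hOp := Agent.H267.Red.pCore_eq_bot hcore P hnn ha hnil
  have hnt : Nontrivial G := by
    by_contra h
    rw [not_nontrivial_iff_subsingleton] at h
    apply hnn
    have h1 : (P : Subgroup G) = ⊥ := Subsingleton.elim _ _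
    rw [h1]
    infer_instance
  obtain ⟨S, hSn, hSs, hSna, hSC, hSd⟩ := Agent.H267.Red.exists_simple hcore hOp hnil
  by_cases hp2 : p = 2
  · subst hp2
    refine ⟨rfl, ?_⟩
    have hnm : ¬ IsMulCommutative S := fun h => hSna (fun a b => h.1.1 a b)
    have hd' : ¬ (Cfsg.IsElementaryAbelian 2 (P : Subgroup G) ∧
      ∀ x ∈ (P : Subgroup G), ∀ y ∈ (P : Subgroup G), x ≠ 1 → y ≠ 1 → ∃ g : G, g * x * g⁻¹ = y) :=
      fun h => hd ⟨rfl, h⟩
    obtain ⟨z, hz, hz1⟩ := Agent.H267.ThmC.exists_Zc (P := syl P S) hSd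
    have h1 := Agent.S1169.result (syl P S) (Agent.H267.ThmC.Zc 2 (syl P S : Subgroup S))
      (fun h => by
        rw [h, mem_bot] at hz
        exact hz1 hz)
      ⟨⟨fun a b => Subtype.ext (Agent.H267.ThmC.Zc_comm a.2 b.2)⟩⟩
      ⟨fun x hx => hx.1, fun x hx g hg => fus P S ha x hx g hg⟩
    rcases h1 with h1 | ⟨H, hH⟩
    · have h2 := Agent.Walter.Main.wType_of_step Agent.Walter.StepAll.step S hSs hnm (syl P S)
        (fun a ha b hb => congrArg Subtype.val (h1.1.1 ⟨a, ha⟩ ⟨b, hb⟩))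
      exact (false_of_good hSna hSd P (Agent.H267.EvenClass.of_wType hnm h2) ha hnil hd').elim
    · have hna' : ∃ a b : S, a * b ≠ b * a := by
        by_contra h
        push Not at h
        exact hSna h
      rcases Agent.StrongEmb.Strong.result hna' H hH with ⟨F, i1, i2, ⟨n, -, hF⟩, ⟨e⟩⟩ | h2 |
        ⟨F, i1, i2, n, hn, hF, ⟨e⟩⟩
      · exact (false_of_good hSna hSd P (Agent.H267.EvenClass.of_psl_even hF e) ha hnil hd').elim
      · exact Agent.H267.SzCase.isoSuzuki hSn hSC h2 hnil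
      · exact (Agent.H267.U3Case.false_of_psu hn hF e (nil S hnil)).elim
  · exact (Agent.H267.ThmC.thmC hSna hp2 (P := syl P S)
      ⟨fus P S ha, nil S hnil, sol S hc⟩ hSd).elim

end Cfsg.Agent.S3297
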