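import Cfsg.Statements.S3301
import Cfsg.Agent.H334.LargeTransfer
import Cfsg.Agent.Lib.HallHigman

set_option autoImplicit false
open Cfsg

namespace Cfsg.Agent.S3301

open Subgroup
open scoped commutatorElement

theorem setup {G : Type*} [Group G] [Finite G] (z : G) (hz : orderOf z = 2)
    (E : Subgroup G) (hE : E = (Cfsg.pCore 2 ↥(Subgroup.centralizer ({z} : Set G))).map (Subgroup.centralizer ({z} : Set G)).subtype)
    (hext : Cfsg.IsExtraspecial 2 ↥E) (hcent : Subgroup.centralizer (E : Set G) ≤ E) :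
    Cfsg.Agent.H334.LargeExtra.Setup z E := by
  have f2 : Fact (Nat.Prime 2) := ⟨Nat.prime_two⟩
  have hz2 : z * z = 1 := by rw [← sq, ← hz, pow_orderOf_eq_one]
  have hz1 : z ≠ 1 := by
    intro h; rw [h, orderOf_one] at hz; norm_num at hz
  have hzz : z ∈ centralizer ({z} : Set G) := by
    rw [mem_centralizer_singleton_iff]
  have hEH : E ≤ centralizer ({z} : Set G) := by
    rw [hE]; exact map_subtype_le _
  have cz : ∀ e ∈ E, e * z = z * e := fun e he => mem_centralizer_singleton_iff.1 (hEH he)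
  have zE : z ∈ E := by
    have h1 : zpowers (⟨z, hzz⟩ : centralizer ({z} : Set G)) ≤
        Cfsg.pCore 2 ↥(Subgroup.centralizer ({z} : Set G)) := by
      apply Cfsg.Agent.Lib.HallHigman.le_pCore
      · constructor
        rintro n hn g
        obtain ⟨k, rfl⟩ := mem_zpowers_iff.1 hn
        have h2 : Commute g (⟨z, hzz⟩ : centralizer ({z} : Set G)) := by
          apply Subtype.ext
          exact mem_centralizer_singleton_iff.1 g.2
        rw [(h2.zpow_right k).eq, mul_inv_cancel_right]
        exact hn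
      · apply IsPGroup.of_card (n := 1)
        rw [Nat.card_zpowers, pow_one]
        apply orderOf_eq_prime
        · rw [sq]; exact Subtype.ext hz2
        · intro h; exact hz1 (congrArg Subtype.val h)
    rw [hE]
    exact ⟨⟨z, hzz⟩, h1 (mem_zpowers _), rfl⟩
  have hnrm : ∀ h, h * z = z * h → ∀ e ∈ E, h * e * h⁻¹ ∈ E := by
    intro h hh e he
    rw [hE] at he ⊢
    obtain ⟨e', he', rfl⟩ := he
    have hn : (Cfsg.pCore 2 ↥(Subgroup.centralizer ({z} : Set G))).Normal :=
      Cfsg.Agent.Lib.HallHigman.pCore_normal 2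
    have hhm : h ∈ centralizer ({z} : Set G) := mem_centralizer_singleton_iff.2 hh
    exact ⟨⟨h, hhm⟩ * e' * ⟨h, hhm⟩⁻¹, hn.conj_mem e' he' ⟨h, hhm⟩, rfl⟩
  obtain ⟨⟨hp, -, hcomm⟩, hcard⟩ := hext
  have hzc : (⟨z, zE⟩ : ↥E) ∈ center ↥E := by
    rw [mem_center_iff]
    intro g
    exact Subtype.ext (cz g g.2)
  have hcen : ∀ x : ↥E, x ∈ center ↥E → (x : G) = 1 ∨ (x : G) = z := by
    intro x hx
    have h1 : Nat.card (center ↥E) = 2 := hcard
    have h2 := (Nat.card_eq_two_iff' (⟨1, one_mem _⟩ : center ↥E)).1 h1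
    obtain ⟨w, hw, hw'⟩ := h2
    by_cases hx1 : (x : G) = 1
    · exact Or.inl hx1
    · right
      have e1 := hw' ⟨x, hx⟩ (fun h => hx1 (by
        have := congrArg (fun t : center ↥E => ((t : ↥E) : G)) h
        exact this))
      have e2 := hw' ⟨⟨z, zE⟩, hzc⟩ (fun h => hz1 (by
        have := congrArg (fun t : center ↥E => ((t : ↥E) : G)) h
        exact this))
      have := congrArg (fun t : center ↥E => ((t : ↥E) : G)) (e1.trans e2.symm)
      exact this
  refine
    { zE := zE
      z1 := hz1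
      z2 := hz2
      cz := cz
      nrm := hnrm
      comm := ?_
      cen := ?_
      self := ?_
      nonab := ?_
      two := hp
      cc := hcomm.le
      cyc := ?_ }
  · intro a ha b hb
    have h1 : ⁅(⟨a, ha⟩ : ↥E), ⟨b, hb⟩⁆ ∈ center ↥E := by
      rw [← hcomm]
      exact commutator_mem_commutator (mem_top _) (mem_top _)
    exact hcen _ h1
  · intro x hx hxy
    apply hcen ⟨x, hx⟩
    rw [mem_center_iff]
    intro g
    exact Subtype.ext (hxy g g.2).symm
  · intro g hg
    apply hcent
    rw [mem_centralizer_iff]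
    intro e he
    exact (hg e he).symm
  · by_contra hcon
    push Not at hcon
    have h1 : commutator ↥E = ⊥ := by
      rw [_root_.commutator_def, eq_bot_iff, Subgroup.commutator_le]
      intro a _ b _
      rw [mem_bot, commutatorElement_eq_one_iff_mul_comm]
      exact Subtype.ext (hcon a a.2 b b.2)
    rw [← hcomm, h1] at hcard
    simp at hcard
  · exact isCyclic_of_prime_card hcard

/-- a homomorphism to an abelian group of exponent 4 kills the elements of odd order -/
theorem hom_trivial {G : Type*} [Group G] [Finite G] (hres : Cfsg.pResidual 2 G = ⊤) {B : Type*}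
    [CommGroup B] (hB : ∀ b : B, b ^ 4 = 1) (T : G →* B) : T = 1 := by
  have h1 : Cfsg.pResidual 2 G ≤ T.ker := by
    rw [Cfsg.pResidual, closure_le]
    intro g hg
    rw [SetLike.mem_coe, MonoidHom.mem_ker]
    have h2 : orderOf (T g) ∣ 4 := orderOf_dvd_of_pow_eq_one (hB _)
    have h3 : orderOf (T g) ∣ orderOf g := orderOf_map_dvd T g
    have h4 : Nat.Coprime (orderOf g) 4 := by
      rw [show 4 = 2 ^ 2 by norm_num]
      exact Nat.Coprime.pow_right 2 hg
    exact orderOf_eq_one_iff.1 (Nat.eq_one_of_dvd_coprimes h4 h3 h2)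
  rw [hres] at h1
  ext g
  exact h1 (mem_top g)

/-- if every square is a fourth power then elements of 2-power order have square 1 -/
theorem sq_eq_one {A : Type*} [CommGroup A] [Finite A] (h : ∀ q : A, ∃ r : A, r ^ 4 = q ^ 2) (q : A)
    (hq : ∃ k : ℕ, orderOf q = 2 ^ k) : q ^ 2 = 1 := by
  have key : ∀ n : ℕ, ∃ r : A, r ^ (2 ^ (n + 1)) = q ^ 2 := by
    intro n
    induction n with
    | zero => exact ⟨q, by norm_num⟩
    | succ n ih =>
      obtain ⟨r, hr⟩ := ih
      obtain ⟨s, hs⟩ := h r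
      refine ⟨s, ?_⟩
      rw [← hr, show 2 ^ (n + 1 + 1) = 4 * 2 ^ n by ring, pow_mul, hs, ← pow_mul]
      congr 1
      ring
  obtain ⟨a, b, hb, hab⟩ := Nat.exists_eq_two_pow_mul_odd (Nat.card_pos (α := A)).ne'
  obtain ⟨r, hr⟩ := key a
  have h1 : (q ^ 2) ^ b = 1 := by
    rw [← hr, ← pow_mul, show 2 ^ (a + 1) * b = (2 ^ a * b) * 2 by ring, ← hab, pow_mul,
      pow_card_eq_one', one_pow]
  obtain ⟨k, hk⟩ := hq
  have h2 : orderOf (q ^ 2) ∣ b := orderOf_dvd_of_pow_eq_one h1
  have h3 : orderOf (q ^ 2) ∣ 2 ^ k := by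
    rw [← hk]; exact orderOf_pow_dvd 2
  have h4 : Nat.Coprime b (2 ^ k) := (Nat.Coprime.pow_right k (Nat.coprime_two_right.2 hb))
  exact orderOf_eq_one_iff.1 (Nat.eq_one_of_dvd_coprimes h4 h2 h3)

/-- Let G be a finite group with no nontrivial 2-group quotient (O^2(G) = G), z an involution of G with H = C_G(z), and suppose E = O_2(H) is extraspecial with C_G(E) ≤ E. Then the Sylow 2-subgroups of H/[H, H] are elementary abelian: every element of 2-power order of the abelianization of H has order at most 2. -/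
theorem result {G : Type*} [Group G] [Finite G] (hres : Cfsg.pResidual 2 G = ⊤) (z : G) (hz : orderOf z = 2)
    (E : Subgroup G) (hE : E = (Cfsg.pCore 2 ↥(Subgroup.centralizer ({z} : Set G))).map (Subgroup.centralizer ({z} : Set G)).subtype)
    (hext : Cfsg.IsExtraspecial 2 ↥E) (hcent : Subgroup.centralizer (E : Set G) ≤ E) :
    ∀ q : Abelianization ↥(Subgroup.centralizer ({z} : Set G)), (∃ k : ℕ, orderOf q = 2 ^ k) → q ^ 2 = 1 := by
  have hset := setup z hz E hE hext hcent
  let A := Abelianization ↥(Subgroup.centralizer ({z} : Set G))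
  let R : Subgroup A := (powMonoidHom 4 : A →* A).range
  have hB : ∀ b : A ⧸ R, b ^ 4 = 1 := by
    intro b
    obtain ⟨a, rfl⟩ := QuotientGroup.mk_surjective b
    rw [← QuotientGroup.mk_pow, QuotientGroup.eq_one_iff]
    exact ⟨a, rfl⟩
  let φ : ↥(Subgroup.centralizer ({z} : Set G)) →* A ⧸ R := (QuotientGroup.mk' R).comp Abelianization.of
  have hmain := Cfsg.Agent.H334.LargeTransfer.main hset hB (hom_trivial hres hB) φ
  apply sq_eq_one
  intro q
  obtain ⟨x, rfl⟩ := QuotientGroup.mk_surjective (s := commutator _) q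
  have h1 := hmain x
  have h2 : φ x ^ 2 = ((((Abelianization.of x) ^ 2 : A)) : A ⧸ R) := rfl
  rw [h2, QuotientGroup.eq_one_iff] at h1
  obtain ⟨r, hr⟩ := h1
  exact ⟨r, hr⟩

end Cfsg.Agent.S3301
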