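import Cfsg.Statements.S3303
import Cfsg.Agent.H334.TwoClosed

set_option autoImplicit false
open Cfsg

namespace Cfsg.Agent.S3303

theorem isPGroup_mulAut_of_isCyclic {D : Type*} [Group D] [Finite D] (hD : IsPGroup 2 D)
    (hc : IsCyclic D) : IsPGroup 2 (MulAut D) := by
  have : Fact (Nat.Prime 2) := ⟨Nat.prime_two⟩
  obtain ⟨n, hn⟩ := IsPGroup.iff_card.mp hD
  apply IsPGroup.of_card (n := n - 1)
  rw [IsCyclic.card_mulAut, hn]
  rcases Nat.eq_zero_or_pos n with h | h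
  · subst h; simp
  · rw [Nat.totient_prime_pow Nat.prime_two h]; simp

/-- Let G be a finite solvable group in which the intersection of any two distinct Sylow 2-subgroups is cyclic. Then G/O(G) has a normal Sylow 2-subgroup, where O(G) is the largest normal subgroup of odd order. -/
theorem result {G : Type*} [Group G] [Finite G] (hs : Group.IsSolvable G)
    (hC : ∀ S T : Sylow 2 G, S ≠ T → IsCyclic ↥((S : Subgroup G) ⊓ (T : Subgroup G))) :
    ∃ P : Sylow 2 (G ⧸ Cfsg.oddCore G), (P : Subgroup (G ⧸ Cfsg.oddCore G)).Normal := by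
  have : Fact (Nat.Prime 2) := ⟨Nat.prime_two⟩
  by_contra hn
  obtain ⟨S, T, D₀, hne, hle, ⟨e⟩⟩ := Cfsg.Agent.H334.TwoClosed.exists_pair hn
  have hcyc := hC S T hne
  have h1 : IsCyclic D₀ := by
    have := isCyclic_of_injective (Subgroup.inclusion hle) (Subgroup.inclusion_injective hle)
    exact this
  have h2 : IsCyclic ↥(Cfsg.pCore 2 (G ⧸ Cfsg.oddCore G)) := isCyclic_of_injective e.symm.toMonoidHom
    e.symm.injective
  have h3 := Cfsg.Agent.Lib.HallHigman.pCore_isPGroup (G := G ⧸ Cfsg.oddCore G) 2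
  have h4 := isPGroup_mulAut_of_isCyclic h3 h2
  have h5 : Cfsg.pPrimeCore 2 (G ⧸ Cfsg.oddCore G) = ⊥ :=
    Cfsg.Agent.Lib.HallHigman.pPrimeCore_quotient_eq_bot 2 (Cfsg.oddCore G) rfl
  have h6 := Cfsg.Agent.Lib.HallHigman.centralizer_pCore_le_of_solvable 2 h5
  have h7 := Cfsg.Agent.H334.TwoClosed.isPGroup_of_aut h6 h4
  apply hn
  obtain ⟨P⟩ : Nonempty (Sylow 2 (G ⧸ Cfsg.oddCore G)) := inferInstance
  refine ⟨P, ?_⟩
  have h8 : (P : Subgroup (G ⧸ Cfsg.oddCore G)) = ⊤ :=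
    (P.is_maximal' (h7.to_subgroup ⊤) le_top).symm
  rw [h8]; infer_instance

end Cfsg.Agent.S3303
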