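import Cfsg.Statements.S3313
import Cfsg.Agent.J2Type.Fusion
import Cfsg.Agent.J2Type.Order
import Cfsg.Agent.TwoFusion.FStarControl
import Cfsg.Agent.Lib.Cores

set_option autoImplicit false
open Cfsg

namespace Cfsg.Agent.S3313

theorem pCore_le_genFitting {H : Type*} [Group H] [Finite H] :
    Cfsg.pCore 2 H ≤ Cfsg.generalizedFittingSubgroup H := by
  have : Fact (Nat.Prime 2) := ⟨Nat.prime_two⟩
  exact (Cfsg.Agent.Lib.Cores.pCore_le_fittingSubgroup 2).trans
    (Cfsg.Agent.TwoFusion.FStarControl.fitting_le_genFitting (H := H))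

theorem genFitting_eq {H : Type*} [Group H] [Finite H]
    (hp : IsPGroup 2 (Cfsg.generalizedFittingSubgroup H)) :
    Cfsg.generalizedFittingSubgroup H = Cfsg.pCore 2 H := by
  have : Fact (Nat.Prime 2) := ⟨Nat.prime_two⟩
  apply le_antisymm _ pCore_le_genFitting
  exact Cfsg.Agent.Lib.Cores.le_pCore (Cfsg.Agent.TwoFusion.FStarControl.genFitting_normal H) hp

theorem centralizer_le {H : Type*} [Group H] [Finite H] (Q : Subgroup H)
    (hF : Cfsg.generalizedFittingSubgroup H = Q) : Subgroup.centralizer (Q : Set H) ≤ Q := by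
  have h1 := Cfsg.Agent.TwoFusion.FStarControl.centralizer_genFitting_le_fitting (H := H)
  rw [hF] at h1
  refine h1.trans ?_
  have h2 := Cfsg.Agent.TwoFusion.FStarControl.fitting_le_genFitting (H := H)
  rw [hF] at h2
  exact h2

/-- the order of the quotient by a normal subgroup with a complement isomorphic to `A5` -/
theorem card_quot {G : Type*} [Group G] [Finite G] (C : Subgroup G) (Q : Subgroup C) [hQn : Q.Normal]
    (K : Subgroup G) (hK : Nonempty (↥K ≃* alternatingGroup (Fin 5)))
    (hKC : K ⊔ Q.map C.subtype = C) (hKQ : K ⊓ Q.map C.subtype = ⊥) : Nat.card (C ⧸ Q) = 60 := by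
  have hKle : K ≤ C := by rw [← hKC]; exact le_sup_left
  have hsup : K.subgroupOf C ⊔ Q = ⊤ := by
    rw [eq_top_iff]
    intro x _
    have h1 : (x : G) ∈ K ⊔ Q.map C.subtype := by rw [hKC]; exact x.2
    have h2 : K ⊔ Q.map C.subtype = (K.subgroupOf C ⊔ Q).map C.subtype := by
      rw [Subgroup.map_sup, Subgroup.map_subgroupOf_eq_of_le hKle]
    rw [h2] at h1
    obtain ⟨y, hy, hyx⟩ := h1
    have : y = x := Subtype.ext hyx
    rwa [← this]
  have hinf : K.subgroupOf C ⊓ Q = ⊥ := by
    rw [eq_bot_iff]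
    rintro x ⟨hx1, hx2⟩
    have h1 : (x : G) ∈ K ⊓ Q.map C.subtype := ⟨hx1, ⟨x, hx2, rfl⟩⟩
    rw [hKQ] at h1
    exact Subgroup.mem_bot.2 (Subtype.ext (Subgroup.mem_bot.1 h1))
  have hcomp : Subgroup.IsComplement' (K.subgroupOf C) Q :=
    Subgroup.isComplement'_of_disjoint_and_mul_eq_univ (disjoint_iff.2 hinf) (by
      rw [← Subgroup.mul_normal, hsup]; rfl)
  have h3 : Q.index = Nat.card (K.subgroupOf C) := hcomp.index_eq_card
  obtain ⟨e⟩ := hK
  have h4 : Nat.card (K.subgroupOf C) = 60 := by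
    rw [Nat.card_congr (Subgroup.subgroupOfEquivOfLe hKle).toEquiv, Nat.card_congr e.toEquiv,
      nat_card_alternatingGroup]
    simp [Nat.factorial]
  rw [h4] at h3
  exact h3

/-- The order of a simple group with the involution pattern of the Hall–Janko group. Let G be a non-abelian finite simple group with exactly two conjugacy classes of involutions, represented by z and t, such that: F*(C_G(z)) is an extraspecial 2-group; Q = O₂(C_G(z)) has order 32 and C_G(z) is the semidirect product of Q by a subgroup isomorphic to A₅; every involution of Q is conjugate to z and every other involution of C_G(z) is conjugate to t; C_G(t) is an internal direct product V × B with V a four-group containing t and B ≅ A₅; every involution of B is conjugate to z and every other involution of C_G(t) is conjugate to t. Then |G| = 604800. -/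
theorem result {G : Type*} [Group G] [Finite G]
    [IsSimpleGroup G] (hna : ¬ IsMulCommutative G) (z t : G) (hz : orderOf z = 2) (ht : orderOf t = 2)
    (hzt : ¬ IsConj z t) (hcl : ∀ x : G, orderOf x = 2 → IsConj x z ∨ IsConj x t)
    (hex : Cfsg.IsExtraspecial 2 ↥(Cfsg.generalizedFittingSubgroup ↥(Subgroup.centralizer ({z} : Set G))))
    (hQ : Nat.card ↥(Cfsg.pCore 2 ↥(Subgroup.centralizer ({z} : Set G))) = 32)
    (K : Subgroup G) (hK : Nonempty (↥K ≃* alternatingGroup (Fin 5)))
    (hKC : K ⊔ (Cfsg.pCore 2 ↥(Subgroup.centralizer ({z} : Set G))).map (Subgroup.centralizer ({z} : Set G)).subtype = Subgroup.centralizer ({z} : Set G))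
    (hKQ : K ⊓ (Cfsg.pCore 2 ↥(Subgroup.centralizer ({z} : Set G))).map (Subgroup.centralizer ({z} : Set G)).subtype = ⊥)
    (hQz : ∀ x ∈ (Cfsg.pCore 2 ↥(Subgroup.centralizer ({z} : Set G))).map (Subgroup.centralizer ({z} : Set G)).subtype, orderOf x = 2 → IsConj x z)
    (hCz : ∀ x ∈ Subgroup.centralizer ({z} : Set G), orderOf x = 2 →
      x ∉ (Cfsg.pCore 2 ↥(Subgroup.centralizer ({z} : Set G))).map (Subgroup.centralizer ({z} : Set G)).subtype → IsConj x t)
    (V B : Subgroup G) (hVB : Cfsg.IsInternalDirectProduct V B (Subgroup.centralizer ({t} : Set G)))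
    (hV : Nat.card ↥V = 4) (hV2 : ∀ v ∈ V, v ^ 2 = 1) (htV : t ∈ V) (hB : Nonempty (↥B ≃* alternatingGroup (Fin 5)))
    (hBz : ∀ x ∈ B, orderOf x = 2 → IsConj x z)
    (hCt : ∀ x ∈ Subgroup.centralizer ({t} : Set G), orderOf x = 2 → x ∉ B → IsConj x t) :
    Nat.card G = 604800 := by
  set C := Subgroup.centralizer ({z} : Set G) with hC
  have hF : Cfsg.generalizedFittingSubgroup C = Cfsg.pCore 2 C := genFitting_eq hex.1.1
  have hQn : (Cfsg.pCore 2 C).Normal := Cfsg.Agent.Lib.Cores.pCore_normal 2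
  have hext : Cfsg.IsExtraspecial 2 (Cfsg.pCore 2 C) := by rw [← hF]; exact hex
  have h60 : Nat.card (C ⧸ Cfsg.pCore 2 C) = 60 := card_quot C _ K hK hKC hKQ
  have hcent := centralizer_le _ hF
  have hnwc : ∃ g : G, (∃ hq : g * z * g⁻¹ ∈ C, (⟨g * z * g⁻¹, hq⟩ : C) ∈ Cfsg.pCore 2 C) ∧
      g * z * g⁻¹ ≠ z := by
    obtain ⟨z', v, ρ, M⟩ := Cfsg.Agent.J2Type.ModelExists.exists_model (Cfsg.pCore 2 C) hext hQ hcent h60
    have hv : ∃ i : Fin 5, ((v i : C) : G) ≠ z ∧ v i ≠ 1 := by
      by_contra hno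
      push Not at hno
      have h1 : ∀ i, ((v i : C) : G) = z ∨ v i = 1 := fun i => by
        by_cases h : ((v i : C) : G) = z
        · exact Or.inl h
        · exact Or.inr (hno i h)
      have key : ∀ i j : Fin 5, i ≠ j → v i ≠ v j := by
        intro i j hij h
        have h2 := M.v_inj 0 0 i j (by rw [h])
        exact hij h2.2
      have hz2 : ∀ i j, ((v i : C) : G) = z → ((v j : C) : G) = z → i = j := by
        intro i j hi hj
        by_contra hij
        exact key i j hij (Subtype.ext (hi.trans hj.symm))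
      have h12 : ∀ i j, v i = 1 → v j = 1 → i = j := by
        intro i j hi hj
        by_contra hij
        exact key i j hij (hi.trans hj.symm)
      rcases h1 0 with a | a <;> rcases h1 1 with b | b <;> rcases h1 2 with c | c
      · exact absurd (hz2 0 1 a b) (by decide)
      · exact absurd (hz2 0 1 a b) (by decide)
      · exact absurd (hz2 0 2 a c) (by decide)
      · exact absurd (h12 1 2 b c) (by decide)
      · exact absurd (hz2 1 2 b c) (by decide)
      · exact absurd (h12 0 2 a c) (by decide)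
      · exact absurd (h12 0 1 a b) (by decide)
      · exact absurd (h12 0 1 a b) (by decide)
    obtain ⟨i, hi1, hi2⟩ := hv
    have hord : orderOf ((v i : C) : G) = 2 := by
      have h2 : Fact (Nat.Prime 2) := ⟨Nat.prime_two⟩
      rw [Subgroup.orderOf_coe]
      exact orderOf_eq_prime (by rw [pow_two]; exact M.v_sq i) hi2
    have hconj := (hQz _ ⟨v i, M.v_mem i, rfl⟩ hord).symm
    obtain ⟨g, hg⟩ := isConj_iff.1 hconj
    refine ⟨g, ⟨?_, ?_⟩, ?_⟩
    · rw [hg]; exact (v i).2
    · have : (⟨g * z * g⁻¹, by rw [hg]; exact (v i).2⟩ : C) = v i := Subtype.ext hg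
      rw [this]; exact M.v_mem i
    · rw [hg]; exact hi1
  obtain ⟨u, F⟩ := Cfsg.Agent.J2Type.Fusion.fus_core z hz (Cfsg.pCore 2 C) hext hQ hcent h60 hnwc
    ⟨z, t, hz, ht, hzt⟩
  exact Cfsg.Agent.J2Type.Order.card_of_fus F

end Cfsg.Agent.S3313
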