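import Cfsg.Statements.S3314
import Cfsg.Agent.H337.UThreeFour
import Cfsg.Agent.H337.UThreeHyp

set_option autoImplicit false
open Cfsg

namespace Cfsg.Agent.S3314

open Subgroup Cfsg.Agent.H298.UThree

universe u v

theorem four_quot {G : Type u} [Group G] [Finite G] {E K N : Subgroup G} [N.Normal] (c : Cfg E K)
    (hN : Odd (Nat.card ↥N)) (h4 : ∃ e ∈ E, ∃ f ∈ E, e ≠ 1 ∧ f ≠ 1 ∧ e ≠ f) :
    ∃ e ∈ E.map (QuotientGroup.mk' N), ∃ f ∈ E.map (QuotientGroup.mk' N), e ≠ 1 ∧ f ≠ 1 ∧ e ≠ f := by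
  obtain ⟨e, he, f, hf, he1, hf1, hef⟩ := h4
  have key : ∀ x ∈ E, x ≠ 1 → QuotientGroup.mk' N x ≠ 1 := by
    intro x hx hx1 h
    have h1 : x ∈ N := (QuotientGroup.eq_one_iff x).mp h
    have h2 : orderOf x ∣ Nat.card ↥N := Subgroup.orderOf_dvd_natCard N h1
    rw [orderOf_eq_prime (by rw [pow_two]; exact c.sq x hx) hx1] at h2
    rw [Nat.odd_iff] at hN
    omega
  refine ⟨_, ⟨e, he, rfl⟩, _, ⟨f, hf, rfl⟩, key e he he1, key f hf hf1, ?_⟩
  intro h
  have h1 : e * f ≠ 1 := by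
    intro h2
    apply hef
    rw [← c.sq f hf] at h2
    exact mul_right_cancel h2
  apply key _ (mul_mem he hf) h1
  have h2 : QuotientGroup.mk' N e = QuotientGroup.mk' N f := h
  rw [map_mul, h2, ← map_mul, c.sq f hf, map_one]

/-- the case `|E| ≥ 4` -/
theorem four {G : Type u} [Group G] [Finite G] {E K : Subgroup G} {F : Type v} [Field F] [Fintype F] {n : ℕ}
    (h : Hyp E K F n) (h4 : ∃ e ∈ E, ∃ f ∈ E, e ≠ 1 ∧ f ≠ 1 ∧ e ≠ f) :
    Cfsg.Agent.H337.UThreeFinTwo.Concl (G ⧸ Cfsg.oddCore G) F n ∧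
      Cfsg.oddCore G = (Subgroup.center ↥K).map K.subtype := by
  have hodd := Cfsg.Agent.H337.UThreeFinTwo.odd_oddCore G
  have hn : (Cfsg.oddCore G).Normal := Cfsg.Agent.Lib.Cores.pPrimeCore_normal 2
  have h' := h.quot (N := Cfsg.oddCore G) hodd
  have hO := Cfsg.Agent.LFourA.Quot.oddCore_quot (X := G)
  have hnor := Cfsg.Agent.H337.UThreeFour.normal h' (four_quot h.c hodd h4) hO
  refine ⟨Cfsg.Agent.H337.UThreeFinTwo.concl_of_normal hO h'.c h'.iso hnor, ?_⟩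
  have hbot := Cfsg.Agent.H337.UThreeFinTwo.center_bot hO hnor h'.c.odd
  apply le_antisymm
  · obtain ⟨t, ht, ht1⟩ := h.c.ne
    have h1 := h.c.odd_comm h4 hodd (fun e _ x hx => hn.conj_mem x hx e)
    obtain ⟨h2, h3⟩ := h.le_of_odd hodd ht ht1 (fun x hx => (mem_centralizer_iff.mp (h1 hx) t ht).symm) (by
      rw [normalizer_eq_top_iff.mpr hn]; exact le_top)
    intro x hx
    refine ⟨⟨x, h2 hx⟩, ?_, rfl⟩
    show (⟨x, h2 hx⟩ : ↥K) ∈ Subgroup.center ↥K
    rw [Subgroup.mem_center_iff]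
    intro y
    exact Subtype.ext (mem_centralizer_iff.mp (h3 hx) y y.2)
  · rintro _ ⟨x, hx, rfl⟩
    have hx' : x ∈ Subgroup.center ↥K := hx
    have h1 : (⟨QuotientGroup.mk' (Cfsg.oddCore G) (x : G), ⟨x, x.2, rfl⟩⟩ :
        ↥(K.map (QuotientGroup.mk' (Cfsg.oddCore G)))) ∈
          Subgroup.center ↥(K.map (QuotientGroup.mk' (Cfsg.oddCore G))) := by
      rw [Subgroup.mem_center_iff]
      rintro ⟨_, y, hy, rfl⟩
      apply Subtype.ext
      show QuotientGroup.mk' (Cfsg.oddCore G) y * QuotientGroup.mk' (Cfsg.oddCore G) (x : G)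
        = QuotientGroup.mk' (Cfsg.oddCore G) (x : G) * QuotientGroup.mk' (Cfsg.oddCore G) y
      rw [← map_mul, ← map_mul]
      congr 1
      exact congrArg Subtype.val (Subgroup.mem_center_iff.mp hx' ⟨y, hy⟩)
    rw [hbot, mem_bot] at h1
    exact (QuotientGroup.eq_one_iff (x : G)).mp (congrArg Subtype.val h1)

/-- Let G be a finite group and t an involution of G whose centralizer C is the internal direct product of a nontrivial elementary abelian 2-subgroup E and a subgroup U, where U has a normal quasisimple subgroup U₀ with U₀ modulo its centre isomorphic to PSU₃(2ⁿ) (realised over the field with 4ⁿ elements, n ≥ 2) and with C_U(U₀) = Z(U₀); suppose moreover that C is the centralizer of every involution of E. Then, writing O(G) for the largest normal subgroup of G of odd order, G/O(G) has a normal subgroup isomorphic to PSU₃(2ⁿ), to PSU₃(2ⁿ) × PSU₃(2ⁿ), or to PSL₃(4ⁿ). Furthermore, if E has more than 2 elements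 then O(G) equals the centre of U₀ (in particular it is abelian). -/
theorem result {G : Type*} [Group G] [Finite G] (t : G) (ht : orderOf t = 2) (E U U₀ : Subgroup G)
    (hEU : Cfsg.IsInternalDirectProduct E U (Subgroup.centralizer ({t} : Set G)))
    (hE : Cfsg.IsElementaryAbelian 2 E) (hE1 : E ≠ ⊥)
    (hU₀ : U₀ ≤ U) (hU₀n : (U₀.subgroupOf U).Normal) (hq : Cfsg.IsQuasisimple ↥U₀)
    {F : Type*} [Field F] [Fintype F] (n : ℕ) (hn : 2 ≤ n) (hF : Fintype.card F = 4 ^ n)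
    (hUX : Nonempty ((↥U₀ ⧸ Subgroup.center ↥U₀) ≃* Cfsg.PSU 3 F (2 ^ n)))
    (hCU : U ⊓ Subgroup.centralizer (U₀ : Set G) = (Subgroup.center ↥U₀).map U₀.subtype)
    (hC : ∀ e ∈ E, orderOf e = 2 → Subgroup.centralizer ({e} : Set G) = Subgroup.centralizer ({t} : Set G)) :
    (∃ N : Subgroup (G ⧸ Cfsg.oddCore G), N.Normal ∧
      (Nonempty (↥N ≃* Cfsg.PSU 3 F (2 ^ n)) ∨ Nonempty (↥N ≃* Cfsg.PSU 3 F (2 ^ n) × Cfsg.PSU 3 F (2 ^ n)) ∨
        Nonempty (↥N ≃* Matrix.ProjectiveSpecialLinearGroup (Fin 3) F))) ∧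
    (2 < Nat.card ↥E → Cfsg.oddCore G = (Subgroup.center ↥U₀).map U₀.subtype) := by
  obtain ⟨c, htE⟩ := Cfsg.Agent.H337.UThreeHyp.cfg_of_hyp t ht E U U₀ hEU hE hE1 hU₀ hU₀n hq n hn hF hUX hCU hC
  have ht1 : t ≠ 1 := by
    rintro rfl
    rw [orderOf_one] at ht
    omega
  by_cases h4 : ∃ e ∈ E, ∃ f ∈ E, e ≠ 1 ∧ f ≠ 1 ∧ e ≠ f
  · obtain ⟨h1, h2⟩ := four (⟨c, hn, hF, hUX⟩ : Hyp E U₀ F n) h4
    exact ⟨h1, fun _ => h2⟩
  · push Not at h4
    have E2 : ∀ e ∈ E, e = 1 ∨ e = t := by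
      intro e he
      by_cases he1 : e = 1
      · exact Or.inl he1
      · exact Or.inr (h4 e he t htE he1 ht1)
    refine ⟨Cfsg.Agent.H337.UThreeFinTwo.final c htE ht1 E2 hn hF hUX, ?_⟩
    intro h2
    exfalso
    have h5 : E ≤ zpowers t := by
      intro x hx
      rcases E2 x hx with rfl | rfl
      · exact one_mem _
      · exact mem_zpowers _
    have h6 : Nat.card ↥E ≤ Nat.card ↥(zpowers t) :=
      Nat.le_of_dvd Nat.card_pos (Subgroup.card_dvd_of_le h5)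
    rw [Nat.card_zpowers, ht] at h6
    omega

end Cfsg.Agent.S3314
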