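import Cfsg.Statements.S3330
import Cfsg.Agent.H975.A8Loc
import Cfsg.Agent.H341.EndEightFinal

set_option autoImplicit false
open Cfsg

namespace Cfsg.Agent.S3330

/-- A 3-local characterization of the symmetric group of degree 8, with one exceptional configuration. Let G be a finite group whose Sylow 3-subgroup D is elementary abelian of order 9, generated by y and z, and suppose: (i) C_G(D) has order 18, N_G(D)/D is isomorphic to the direct product of a dihedral group of order 8 and a group of order 2, and N_G(D)/C_G(D) is dihedral of order 8; (ii) D is normal in C_G(y), C_G(y) has order 36 with every square lying in D, D is normal in N_G(⟨y⟩), and N_G(⟨y⟩) has order 72 with every square lying in D; (iii) C_G(z) is isomorphic to the direct product of a cyclic group of order 3 and Sym(5), and N_G(⟨z⟩) is isomorphic to Sym(3) × Sym(5). Then either G is isomorphic to the symmetric group of degree 8, or the generalized Fitting subgroup of G is a minimal normal subgroup isomorphic to Alt(5) × Alt(5) of index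 4 with every square of G lying in it. -/
theorem result {G : Type*} [Group G] [Finite G]
    (P : Sylow 3 G) (D : Subgroup G) (hDP : D = P) (y z : G) (hgen : Subgroup.closure {y, z} = D)
    (hcomm : IsMulCommutative D) (hcard : Nat.card D = 9) (hexp : ∀ a ∈ D, a ^ 3 = 1)
    (hC : Nat.card (Subgroup.centralizer (D : Set G)) = 18)
    (eN : Subgroup.normalizer (D : Set G) ⧸ D.subgroupOf (Subgroup.normalizer (D : Set G)) ≃* DihedralGroup 4 × Multiplicative (ZMod 2))
    [hcn : ((Subgroup.centralizer (D : Set G)).subgroupOf (Subgroup.normalizer (D : Set G))).Normal]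
    (eNC : Subgroup.normalizer (D : Set G) ⧸ (Subgroup.centralizer (D : Set G)).subgroupOf (Subgroup.normalizer (D : Set G)) ≃* DihedralGroup 4)
    (hyn : (D.subgroupOf (Subgroup.centralizer ({y} : Set G))).Normal)
    (hycard : Nat.card (Subgroup.centralizer ({y} : Set G)) = 36)
    (hysq : ∀ g ∈ Subgroup.centralizer ({y} : Set G), g ^ 2 ∈ D)
    (Ny : Subgroup G) (hNy : Ny = Subgroup.normalizer (Subgroup.zpowers y : Set G))
    (hyNn : (D.subgroupOf Ny).Normal) (hyNcard : Nat.card Ny = 72) (hyNsq : ∀ g ∈ Ny, g ^ 2 ∈ D)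
    (eC : Subgroup.centralizer ({z} : Set G) ≃* Multiplicative (ZMod 3) × Equiv.Perm (Fin 5))
    (eL : Subgroup.normalizer (Subgroup.zpowers z : Set G) ≃* Equiv.Perm (Fin 3) × Equiv.Perm (Fin 5)) :
    Nonempty (G ≃* Equiv.Perm (Fin 8)) ∨
      ∃ N : Subgroup G, N.Normal ∧ Cfsg.generalizedFittingSubgroup G = N ∧
        Nonempty (N ≃* alternatingGroup (Fin 5) × alternatingGroup (Fin 5)) ∧
        (∀ K : Subgroup G, K.Normal → K ≤ N → K = ⊥ ∨ K = N) ∧
        N.index = 4 ∧ ∀ g : G, g ^ 2 ∈ N := by
  have hloc := H975.A8Loc.loc2 hgen hcomm hcard hexp hC eNC hyn hycard eC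
  obtain ⟨K, hKn, hK0, hmin, hDK, hCK, hK⟩ := H975.A8Two.dichotomy hloc (by norm_num) P hDP
  rcases hK with ⟨hKs, hKna⟩ | ⟨⟨ψ⟩⟩
  · exact Or.inl (H341.EndEight.end30 P D hDP y z hgen hcomm hcard hexp hC eN eNC hyn hycard hysq Ny hNy hyNn hyNcard
      hyNsq eC eL K hKn hKs hKna hDK hCK)
  · exact Or.inr ⟨K, hKn, H975.A8Two.fstar ψ hKn hK0 hmin hCK, ⟨ψ⟩, hmin,
      H975.A8Two.index_K ψ hloc (by norm_num) hKn hDK,
      H975.A8Two.sq_mem ψ hloc (by norm_num) hKn hDK hysq⟩

end Cfsg.Agent.S3330
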