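import Cfsg.Statements.S3332
import Cfsg.Agent.S0502
import Cfsg.Agent.S1291
import Cfsg.Agent.SignalizersComponents.CoreOfCentralizer

set_option autoImplicit false
open Cfsg

namespace Cfsg.Agent.S3332

/-- Let G be a finite group of 2-rank at least 4 with O_{2'}(G) = 1 whose Sylow 2-subgroup S has a normal abelian subgroup of rank at least 3 that is its own centralizer in S. If the centralizer of every involution of G is solvable, then O_{2'}(C_G(t)) = 1 for every involution t of G. -/
theorem result {G : Type*} [Group G] [Finite G]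
    (hrank : ¬ Cfsg.PRankLE 2 3 G) (hO : Cfsg.oddCore G = ⊥) (S : Sylow 2 G)
    (A : Subgroup G) (hAS : A ≤ S) (hAn : (A.subgroupOf S).Normal) (hAc : IsMulCommutative A)
    (hAself : (S : Subgroup G) ⊓ Subgroup.centralizer (A : Set G) = A) (hA3 : ¬ Cfsg.PRankLE 2 2 A)
    (hsol : ∀ t : G, orderOf t = 2 → Group.IsSolvable (Subgroup.centralizer ({t} : Set G))) :
    ∀ t : G, orderOf t = 2 → Cfsg.oddCore (Subgroup.centralizer ({t} : Set G)) = ⊥ := by
  haveI : Fact (Nat.Prime 2) := ⟨Nat.prime_two⟩
  -- the balance condition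
  have key : ∀ x y : G, orderOf x = 2 → orderOf y = 2 → x * y = y * x →
      Cfsg.centralizerPPrimeCore 2 x ⊓ Subgroup.centralizer {y} ≤
        Cfsg.centralizerPPrimeCore 2 y := by
    intro x y hx hy hxy
    exact SignalizersComponents.CoreOfCentralizer.balance_of_isSolvable x y hxy 1
      (by rw [pow_one, ← hx]; exact pow_orderOf_eq_one x) (hsol y hy)
  have hbal : Cfsg.IsBalanced G := by
    intro x y hx hy hxy
    apply le_antisymm
    · refine le_inf (key x y hx hy hxy) (inf_le_left.trans ?_)
      exact SignalizersComponents.CoreOfCentralizer.centralizerPPrimeCore_le 2 x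
    · refine le_inf (key y x hy hx hxy.symm) (inf_le_left.trans ?_)
      exact SignalizersComponents.CoreOfCentralizer.centralizerPPrimeCore_le 2 y
  -- the rank
  have hrank2 : ¬ Cfsg.PRankLE 2 2 G := by
    intro h
    apply hrank
    intro B hB hB2
    exact (h B hB hB2).trans (by norm_num)
  -- connectivity
  have hconn : Cfsg.IsFourConnected ↥(S : Subgroup G) := by
    -- the elementary abelian subgroup `Ω₁(A)` of `S`
    have hcomm : ∀ a ∈ A, ∀ b ∈ A, a * b = b * a := by
      intro a ha b hb
      exact congrArg Subtype.val (hAc.is_comm.comm (⟨a, ha⟩ : A) ⟨b, hb⟩)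
    let E : Subgroup ↥(S : Subgroup G) :=
      { carrier := {s | (s : G) ∈ A ∧ s ^ 2 = 1}
        mul_mem' := by
          rintro a b ⟨ha, ha2⟩ ⟨hb, hb2⟩
          refine ⟨A.mul_mem ha hb, ?_⟩
          have hc : Commute a b := Subtype.ext (hcomm _ ha _ hb)
          rw [hc.mul_pow, ha2, hb2, one_mul]
        one_mem' := ⟨A.one_mem, one_pow 2⟩
        inv_mem' := by
          rintro a ⟨ha, ha2⟩
          refine ⟨A.inv_mem ha, ?_⟩
          rw [inv_pow, ha2, inv_one] }
    have hEmem : ∀ s : ↥(S : Subgroup G), s ∈ E ↔ (s : G) ∈ A ∧ s ^ 2 = 1 := fun s => Iff.rfl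
    haveI hEn : E.Normal := by
      constructor
      intro n hn g
      rw [hEmem] at hn ⊢
      refine ⟨?_, ?_⟩
      · have := hAn.conj_mem n (Subgroup.mem_subgroupOf.mpr hn.1) g
        exact Subgroup.mem_subgroupOf.mp this
      · rw [conj_pow, hn.2, mul_one, mul_inv_cancel]
    have hE8 : 8 ≤ Nat.card E := by
      unfold Cfsg.PRankLE at hA3
      push Not at hA3
      obtain ⟨B, hB, hB2, hBc⟩ := hA3
      let f : B → E := fun b => ⟨⟨((b : A) : G), hAS (b : A).2⟩, (hEmem _).mpr ⟨(b : A).2, by
        have h := hB2 (b : A) b.2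
        apply Subtype.ext
        have h' := congrArg Subtype.val h
        simpa using h'⟩⟩
      have hf : Function.Injective f := by
        intro b c hbc
        have h1 : ((f b : ↥(S : Subgroup G)) : G) = ((f c : ↥(S : Subgroup G)) : G) := by rw [hbc]
        exact Subtype.ext (Subtype.ext h1)
      have hle : Nat.card B ≤ Nat.card E := Nat.card_le_card_of_injective f hf
      -- `B` is a 2-group
      have hB2' : IsPGroup 2 B := by
        intro b
        refine ⟨1, ?_⟩
        rw [pow_one]
        exact Subtype.ext (hB2 b b.2)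
      obtain ⟨n, hn⟩ := (IsPGroup.iff_card.mp hB2')
      have h3 : 2 < n := by
        rw [hn] at hBc
        exact (Nat.pow_lt_pow_iff_right (by norm_num)).mp hBc
      calc 8 = 2 ^ 3 := by norm_num
        _ ≤ 2 ^ n := Nat.pow_le_pow_right (by norm_num) h3
        _ = Nat.card B := hn.symm
        _ ≤ Nat.card E := hle
    refine S0502.result S.isPGroup' E ⟨⟨?_⟩⟩ ?_ hE8
    · intro a b
      exact Subtype.ext (Subtype.ext (hcomm _ ((hEmem _).mp a.2).1 _ ((hEmem _).mp b.2).1))
    · intro e he
      exact ((hEmem e).mp he).2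
  intro t ht
  have h := S1291.result hbal hO hrank2 (Or.inr ⟨S, hconn⟩) t ht
  unfold Cfsg.centralizerPPrimeCore at h
  exact (Subgroup.map_eq_bot_iff_of_injective _ (Subgroup.subtype_injective _)).mp h

end Cfsg.Agent.S3332
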