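import Cfsg.Statements.S3333
import Cfsg.Agent.S0000
import Cfsg.Agent.OrdDiv.Table
import Cfsg.Agent.H342.S6Elim

set_option autoImplicit false
open Cfsg

namespace Cfsg.Agent.S3333

/-- Let G be a finite group with a Sylow 3-subgroup S of order 9 that is its own centralizer, with N_G(S)/S dihedral of order 8, and such that C_G(x) ≤ N_G(S) for every non-identity x in S. Then S is normal in G or G is isomorphic to the symmetric group of degree 6. -/
theorem result {G : Type*} [Group G] [Finite G]
    (P : Sylow 3 G) (S : Subgroup G) (hSP : S = P) (hcard : Nat.card S = 9)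
    (hC : Subgroup.centralizer (S : Set G) = S)
    (eN : Subgroup.normalizer (S : Set G) ⧸ S.subgroupOf (Subgroup.normalizer (S : Set G)) ≃* DihedralGroup 4)
    (hcent : ∀ x ∈ S, x ≠ 1 → Subgroup.centralizer ({x} : Set G) ≤ Subgroup.normalizer (S : Set G)) :
    S.Normal ∨ Nonempty (G ≃* Equiv.Perm (Fin 6)) := by
  obtain ⟨τ, π, h⟩ := H342.S6Red.exists_ctx S hcard hC eN hcent
  by_cases hn : S.Normal
  · exact Or.inl hn
  · right
    obtain ⟨K, hK, hs, hna, hSK, hCK⟩ := H342.S6Red.exists_simple h P hSP hn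
    have hk : IsKnownSimple' K := S0000.result
    obtain ⟨e⟩ := H342.S6Elim.elim OrdDiv.table hk
      (fun hc => hna fun x hx y hy => congrArg Subtype.val (hc ⟨x, hx⟩ ⟨y, hy⟩))
      (H342.S6K.kHyp_of h K hSK P hSP)
    exact H342.S6K.sym6_of_alt6 h K hSK P hSP hCK e

end Cfsg.Agent.S3333
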