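import Cfsg.Statements.S3336
import Cfsg.Agent.S0000
import Cfsg.Agent.OrdDiv.Table
import Cfsg.Agent.Schreier.Assembly
import Cfsg.Agent.H342.Co2Main

set_option autoImplicit false
open Cfsg

namespace Cfsg.Agent.S3336

/-- A 3-local characterization of the second Conway group. Let G be a finite group, S a Sylow 3-subgroup, Z = Z(S) and C = C_G(Z). Suppose that O₃(C) is extraspecial of order 3^5, that O₂(C/O₃(C)) is extraspecial of order 2^5 with quotient (C/O₃(C))/O₂(C/O₃(C)) isomorphic to the alternating group of degree 5, and that Z is not weakly closed in S with respect to G. Then G is isomorphic to the second Conway group. -/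
theorem result {G : Type*} [Group G] [Finite G]
    (S : Sylow 3 G) (Z : Subgroup G) (hZ : Z = (S : Subgroup G) ⊓ Subgroup.centralizer ((S : Subgroup G) : Set G))
    (C : Subgroup G) (hCZ : C = Subgroup.centralizer (Z : Set G))
    (hQ : Cfsg.IsExtraspecial 3 (Cfsg.pCore 3 C)) (hQcard : Nat.card (Cfsg.pCore 3 C) = 3 ^ 5)
    (hR : Cfsg.IsExtraspecial 2 (Cfsg.pCore 2 (C ⧸ Cfsg.pCore 3 C)))
    (hRcard : Nat.card (Cfsg.pCore 2 (C ⧸ Cfsg.pCore 3 C)) = 2 ^ 5)
    (e : (C ⧸ Cfsg.pCore 3 C) ⧸ Cfsg.pCore 2 (C ⧸ Cfsg.pCore 3 C) ≃* alternatingGroup (Fin 5))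
    (hnwc : ¬ Cfsg.IsWeaklyClosed Z S) :
    Cfsg.Spor.IsoCo2 G := by
  subst hCZ
  exact H342.Co2G.main (H342.Co2G.gc_of S Z hZ hQ hQcard hR hRcard e) hnwc OrdDiv.table
    (fun K _ hc => Schreier.Assembly.known ↥K hc S0000.result) (fun K _ => S0000.result)

end Cfsg.Agent.S3336
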