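import Cfsg.Statements.S3340
import Cfsg.Agent.H815.HnCount
import Cfsg.Agent.H815.HnFin
import Cfsg.Agent.OrdDiv.Table
import Cfsg.Agent.S0000

set_option autoImplicit false
open Cfsg

namespace Cfsg.Agent.S3340

open Subgroup in
theorem hn6 {G : Type*} [Group G] [Finite G] {S : Sylow 3 G} {Z Q : Subgroup G}
    {π : ↥(centralizer (Z : Set G)) →* H815.HnSl.L} (h : H815.HnG.GC S Z Q π)
    (hw : ∃ x : G, Z.map (MulAut.conj x).toMonoidHom ≤ Q ∧ Z.map (MulAut.conj x).toMonoidHom ≠ Z) :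
    H815.HnFin.Hn6 G where
  hyp :=
    { d6 := by
        rw [h.card_G]
        exact Dvd.dvd.mul_right (by norm_num) _
      n7 := by
        have h1 := h.index_mod hw
        rw [h.card_G]
        omega
      hab := fun A hA hc => h.card_abelian hA hc }
  idx := ⟨_, h.card_G, h.index_mod hw⟩
  cen := fun y hy hd => h.card_centralizer_of_dvd hy hd
  ex := by
    have h3 : Fact (Nat.Prime 3) := ⟨Nat.prime_three⟩
    obtain ⟨z, hz, hz1⟩ := h.exists_gen
    refine ⟨z, ?_, ?_⟩
    · have h1 : orderOf (⟨z, hz⟩ : Z) ∣ 3 := h.cardZ ▸ orderOf_dvd_natCard _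
      rw [Subgroup.orderOf_mk] at h1
      rcases (Nat.dvd_prime Nat.prime_three).1 h1 with h2 | h2
      · exact absurd (orderOf_eq_one_iff.1 h2) hz1
      · exact h2
    · rw [h.centralizer_eq hz hz1, h.card_C]

/-- A 3-local characterization of the Harada–Norton group. Let G be a finite group, S a Sylow 3-subgroup, Z = Z(S), C = C_G(Z) and Q = O₃(C). Suppose that Q is extraspecial of order 3^5 and exponent 3, that C_G(Q) ≤ Q, that some conjugate of Z other than Z lies in Q, and that C/Q is isomorphic to SL(2,5). Then G is isomorphic to the Harada–Norton group. -/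
theorem result {G : Type*} [Group G] [Finite G]
    (S : Sylow 3 G) (Z : Subgroup G) (hZ : Z = (S : Subgroup G) ⊓ Subgroup.centralizer ((S : Subgroup G) : Set G))
    (C : Subgroup G) (hCZ : C = Subgroup.centralizer (Z : Set G))
    (Q : Subgroup G) (hQ : Q = (Cfsg.pCore 3 C).map C.subtype)
    (hQex : Cfsg.IsExtraspecial 3 Q) (hQcard : Nat.card Q = 3 ^ 5) (hQexp : ∀ a ∈ Q, a ^ 3 = 1)
    (hCQ : Subgroup.centralizer (Q : Set G) ≤ Q)
    (hZQ : ∃ x : G, Z.map (MulAut.conj x).toMonoidHom ≤ Q ∧ Z.map (MulAut.conj x).toMonoidHom ≠ Z)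
    (e : C ⧸ Cfsg.pCore 3 C ≃* Matrix.SpecialLinearGroup (Fin 2) (ZMod 5)) :
    Cfsg.Spor.IsoHN G := by
  obtain ⟨π, h⟩ := H815.HnG.setup S Z hZ C hCZ Q hQ hQex hQcard hQexp hCQ e
  obtain ⟨hs, -⟩ := h.isSimple hZQ
  exact H815.HnFin.final OrdDiv.table S0000.result (hn6 h hZQ)

end Cfsg.Agent.S3340
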