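import Cfsg.Statements.S3341
import Cfsg.Agent.H344.AltSix

set_option autoImplicit false
open Cfsg

namespace Cfsg.Agent.S3341

open Cfsg.Agent.H344.AltSix Cfsg.Agent.BenderW3.TIGram Cfsg.Agent.Characters.Core

section

variable {G : Type*} [Group G] [Finite G] [IsSimpleGroup G] {S : Subgroup G}

theorem exists_moved (P : Sylow 3 G) (hSP : S = P) (h : Hyp S) :
    ∃ n ∈ Subgroup.normalizer (S : Set G), ∃ s ∈ S, n * s ≠ s * n := by
  by_contra hcon
  push Not at hcon
  have hN : Subgroup.normalizer (P : Set G) ≤ Subgroup.centralizer (P : Set G) := by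
    intro n hn
    rw [Subgroup.mem_centralizer_iff]
    intro s hs
    have hn' : n ∈ Subgroup.normalizer (S : Set G) := by rw [hSP]; exact hn
    have hs' : s ∈ S := by rw [hSP]; exact hs
    exact (hcon n hn' s hs').symm
  have : Fact (Nat.Prime 3) := ⟨by norm_num⟩
  have hc := MonoidHom.ker_transferSylow_isComplement' P hN
  have h9 : Nat.card (P : Subgroup G) = 9 := by rw [← hSP]; exact h.card
  rcases Subgroup.Normal.eq_bot_or_eq_top (inferInstance : (MonoidHom.transferSylow P hN).ker.Normal)
    with h1 | h1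
  · rw [h1, Subgroup.isComplement'_bot_left] at hc
    -- `G` is abelian of order nine
    have hcomm : ∀ a b : G, a * b = b * a := by
      intro a b
      have : S = ⊤ := by rw [hSP, hc]
      exact h.comm (by rw [this]; trivial) (by rw [this]; trivial)
    let _ : CommGroup G := { (inferInstance : Group G) with mul_comm := hcomm }
    have hp := IsSimpleGroup.prime_card (α := G)
    have : Nat.card G = 9 := by
      rw [← h9, hc, Subgroup.card_top]
    rw [this] at hp
    norm_num at hp
  · rw [h1, Subgroup.isComplement'_top_left] at hc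
    rw [hc, Subgroup.card_bot] at h9
    omega

omit [IsSimpleGroup G] in
theorem hyp_of (P : Sylow 3 G) (hSP : S = P) (hexp : ∀ a ∈ S, a ^ 3 = 1) (hcard : Nat.card S = 9)
    (hcent : ∀ s ∈ S, s ≠ 1 → Subgroup.centralizer ({s} : Set G) = S) : Hyp S := by
  refine ⟨hcent, hcard, hexp, ?_⟩
  intro z hz hz1
  have : Fact (Nat.Prime 3) := ⟨by norm_num⟩
  have hp : IsPGroup 3 (Subgroup.zpowers z) := by
    have : orderOf z ∣ 3 := orderOf_dvd_of_pow_eq_one hz
    rcases (Nat.dvd_prime (by norm_num)).mp this with h1 | h1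
    · exact absurd (orderOf_eq_one_iff.mp h1) hz1
    · exact IsPGroup.of_card (n := 1) (by rw [Nat.card_zpowers, h1]; norm_num)
  obtain ⟨Q, hQ⟩ := hp.exists_le_sylow
  obtain ⟨g, hg⟩ := MulAction.exists_smul_eq G Q P
  refine ⟨g, ?_⟩
  rw [hSP]
  have h1 : g * z * g⁻¹ ∈ ((g • Q : Sylow 3 G) : Subgroup G) := by
    rw [Sylow.coe_subgroup_smul, Subgroup.mem_pointwise_smul_iff_inv_smul_mem]
    have : (MulAut.conj g)⁻¹ • (g * z * g⁻¹) = z := by
      rw [← map_inv, MulAut.smul_def, MulAut.conj_apply]; group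
    rw [this]
    exact hQ (Subgroup.mem_zpowers z)
  rw [hg] at h1
  exact h1

theorem card_not_le (P : Sylow 3 G) (hSP : S = P) (h : Hyp S) : ¬ Nat.card G ≤ 36 := by
  intro hle
  have : Fact (Nat.Prime 3) := ⟨by norm_num⟩
  obtain ⟨n, hn, s, hs, hns⟩ := exists_moved P hSP h
  have hnS : n ∉ S := fun h1 => hns (h.comm h1 hs)
  set N := Subgroup.normalizer (S : Set G) with hN
  have hSN : S ≤ N := Subgroup.le_normalizer
  have h1 : Nat.card S ∣ Nat.card N := Subgroup.card_dvd_of_le hSN
  have h2 : Nat.card S ≠ Nat.card N := by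
    intro h3
    have : S = N := Subgroup.eq_of_le_of_card_ge hSN h3.ge
    exact hnS (by rw [this]; exact hn)
  have h3 := N.card_mul_index
  have h4 : N.index = Nat.card (Sylow 3 G) := by
    rw [hN, hSP]
    exact (Sylow.card_eq_index_normalizer P).symm
  have h5 := card_sylow_modEq_one 3 G
  rw [← h4] at h5
  rw [h.card] at h1 h2
  obtain ⟨k, hk⟩ := h1
  have hk2 : 2 ≤ k := by
    rcases Nat.lt_or_ge k 2 with hk2 | hk2
    · interval_cases k
      · have := Nat.card_pos (α := N); omega
      · omega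
    · exact hk2
  have h6 : N.index = 1 := by
    have hpos : 0 < N.index := Nat.pos_of_ne_zero (Subgroup.index_ne_zero_of_finite)
    have h7 : N.index ≤ 2 := by
      by_contra hcon
      push Not at hcon
      have : 18 * 3 ≤ Nat.card N * N.index := Nat.mul_le_mul (by omega) hcon
      omega
    have h8 : N.index % 3 = 1 := h5
    omega
  have hnorm : S.Normal := by
    rw [← Subgroup.normalizer_eq_top_iff]
    exact Subgroup.index_eq_one.mp h6
  rcases hnorm.eq_bot_or_eq_top with h7 | h7
  · have := h.card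
    rw [h7, Subgroup.card_bot] at this
    omega
  · exact hnS (by rw [h7]; trivial)

end

/-- Let G be a finite simple group whose Sylow 3-subgroup S is elementary abelian of order 9, such that G has more than one conjugacy class of elements of order 3 and C_G(s) = S for every non-identity s in S. Then G is isomorphic to the alternating group of degree 6. -/
theorem result {G : Type*} [Group G] [Finite G] [IsSimpleGroup G]
    (P : Sylow 3 G) (S : Subgroup G) (hSP : S = P) (hcomm : IsMulCommutative S) (hexp : ∀ a ∈ S, a ^ 3 = 1)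
    (hcard : Nat.card S = 9)
    (hclasses : ∃ a b : G, orderOf a = 3 ∧ orderOf b = 3 ∧ ∀ g : G, g * a * g⁻¹ ≠ b)
    (hcent : ∀ s ∈ S, s ≠ 1 → Subgroup.centralizer ({s} : Set G) = S) :
    Nonempty (G ≃* alternatingGroup (Fin 6)) := by
  classical
  have h : Hyp S := hyp_of P hSP hexp hcard hcent
  have hnle := card_not_le P hSP h
  obtain ⟨n0, hn0, s0, hs0, hns0⟩ := exists_moved P hSP h
  have hsr := semireg_of h.cent
  have hfus := fus_of h.cent
  have : Finite (MulAut S) := inferInstance
  have hdvd := card_dvd (autz S) hsr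
  rw [h.card] at hdvd
  norm_num at hdvd
  have hab := comm_of h.cent
  -- `autz S` is not trivial
  have hne1 : Nat.card (autz S) ≠ 1 := by
    intro h1
    have h2 : autz S = ⊥ := Subgroup.card_eq_one.mp h1
    have h3 : S.normalizerMonoidHom ⟨n0, hn0⟩ ∈ autz S := ⟨_, rfl⟩
    rw [h2, Subgroup.mem_bot] at h3
    have h4 : ((S.normalizerMonoidHom ⟨n0, hn0⟩ ⟨s0, hs0⟩ : S) : G) = s0 := by rw [h3]; rfl
    have h5 : n0 * s0 * n0⁻¹ = s0 := h4
    exact hns0 (mul_inv_eq_iff_eq_mul.mp h5)
  have h2dvd : 2 ∣ Nat.card (autz S) := by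
    have h8 : Nat.card (autz S) ∣ 2 ^ 3 := hdvd
    rw [Nat.dvd_prime_pow Nat.prime_two] at h8
    obtain ⟨k, -, hk⟩ := h8
    rcases Nat.eq_zero_or_pos k with rfl | hk0
    · exact absurd (by rw [hk]; norm_num) hne1
    · rw [hk]; exact dvd_pow_self 2 hk0.ne'
  have : Fact (Nat.Prime 2) := ⟨Nat.prime_two⟩
  obtain ⟨⟨σ, hσ⟩, hσ2⟩ := exists_prime_orderOf_dvd_card' 2 h2dvd
  have hσ1 : σ ≠ 1 := by
    rintro rfl
    have : orderOf (1 : autz S) = 2 := hσ2
    rw [orderOf_one] at this
    omega
  have hσσ : σ * σ = 1 := by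
    have h1 : (⟨σ, hσ⟩ : autz S) ^ 2 = 1 := by rw [← hσ2]; exact pow_orderOf_eq_one _
    rw [pow_two] at h1
    exact congrArg Subtype.val h1
  have hσi := inv_of_sq hab hsr hσ hσ1 hσσ
  -- uniqueness of the inversion
  have huniq : ∀ τ ∈ autz S, τ ≠ 1 → τ * τ = 1 → τ = σ := by
    intro τ hτ hτ1 hττ
    ext u
    rw [inv_of_sq hab hsr hτ hτ1 hττ, hσi]
  by_cases hA : ∀ τ ∈ autz S, τ = 1 ∨ τ = σ
  · exfalso
    apply hnle
    apply h.case_two
    intro u hu v hv
    rw [show (IsConj u v ↔ IsConj ((⟨u, hu⟩ : S) : G) ((⟨v, hv⟩ : S) : G)) from Iff.rfl]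
    rw [hfus ⟨u, hu⟩ ⟨v, hv⟩]
    constructor
    · rintro ⟨τ, hτ, hτu⟩
      rcases hA τ hτ with rfl | rfl
      · left; exact (congrArg Subtype.val hτu).symm
      · right
        rw [hσi] at hτu
        exact (congrArg Subtype.val hτu).symm
    · rintro (rfl | rfl)
      · exact ⟨1, one_mem _, rfl⟩
      · exact ⟨σ, hσ, hσi _⟩
  · push Not at hA
    obtain ⟨β, hβ, hβ1, hβσ⟩ := hA
    have hcard4 : Nat.card (autz S) = 4 := by
      have h8 : Nat.card (autz S) ∣ 2 ^ 3 := hdvd
      rw [Nat.dvd_prime_pow Nat.prime_two] at h8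
      obtain ⟨k, hk3, hk⟩ := h8
      have hge : 3 ≤ Nat.card (autz S) := by
        have : Fintype (autz S) := Fintype.ofFinite _
        rw [Nat.card_eq_fintype_card]
        have h3 : ({1, ⟨σ, hσ⟩, ⟨β, hβ⟩} : Finset (autz S)).card = 3 := by
          rw [Finset.card_insert_of_notMem, Finset.card_insert_of_notMem, Finset.card_singleton]
          · rw [Finset.mem_singleton]
            intro h1
            exact hβσ (congrArg Subtype.val h1).symm
          · simp only [Finset.mem_insert, Finset.mem_singleton, not_or]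
            exact ⟨fun h1 => hσ1 (congrArg Subtype.val h1).symm,
              fun h1 => hβ1 (congrArg Subtype.val h1).symm⟩
        rw [← h3]
        exact Finset.card_le_univ _
      interval_cases k
      · omega
      · omega
      · rw [hk]; norm_num
      · exfalso
        have hk8 : Nat.card (autz S) = 8 := by rw [hk]; norm_num
        -- transitivity
        have htrans : ∀ u v : S, u ≠ 1 → v ≠ 1 → IsConj (u : G) (v : G) := by
          intro u v hu hv
          rw [hfus]
          have : Fintype (autz S) := Fintype.ofFinite _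
          have : Fintype S := Fintype.ofFinite _
          let f : autz S → {k : S // k ≠ 1} := fun τ => ⟨(τ : MulAut S) u, fun h1 => hu (by
            have := congrArg ((τ : MulAut S)⁻¹) h1
            simpa using this)⟩
          have hinj : Function.Injective f := by
            intro τ τ' hττ
            have h1 : (τ : MulAut S) u = (τ' : MulAut S) u := congrArg Subtype.val hττ
            have h2 : ((τ' : MulAut S)⁻¹ * (τ : MulAut S)) u = u := by
              rw [MulAut.mul_apply, h1, MulAut.inv_apply_self]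
            have h3 := hsr _ (mul_mem (inv_mem τ'.2) τ.2) u hu h2
            exact Subtype.ext (inv_mul_eq_one.mp h3).symm
          have hcards : Fintype.card (autz S) = Fintype.card {k : S // k ≠ 1} := by
            rw [Fintype.card_subtype_compl, ← Nat.card_eq_fintype_card, hk8,
              ← Nat.card_eq_fintype_card, h.card]
            simp
          have hbij := (Fintype.bijective_iff_injective_and_card f).mpr ⟨hinj, hcards⟩
          obtain ⟨τ, hτ⟩ := hbij.2 ⟨v, hv⟩
          exact ⟨τ, τ.2, congrArg Subtype.val hτ⟩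
        obtain ⟨a, b, ha, hb, hcon⟩ := hclasses
        have ha3 : a ^ 3 = 1 := by rw [← ha]; exact pow_orderOf_eq_one a
        have hb3 : b ^ 3 = 1 := by rw [← hb]; exact pow_orderOf_eq_one b
        have ha1 : a ≠ 1 := by rintro rfl; rw [orderOf_one] at ha; omega
        have hb1 : b ≠ 1 := by rintro rfl; rw [orderOf_one] at hb; omega
        obtain ⟨x, hx⟩ := h.all a ha3 ha1
        obtain ⟨y, hy⟩ := h.all b hb3 hb1
        have cx : IsConj a (x * a * x⁻¹) := isConj_iff.mpr ⟨x, rfl⟩
        have cy : IsConj b (y * b * y⁻¹) := isConj_iff.mpr ⟨y, rfl⟩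
        have h1 := htrans ⟨_, hx⟩ ⟨_, hy⟩
          (fun h1 => ne_one_of_conj cx ha1 (congrArg Subtype.val h1))
          (fun h1 => ne_one_of_conj cy hb1 (congrArg Subtype.val h1))
        obtain ⟨g, hg⟩ := isConj_iff.mp ((cx.trans h1).trans cy.symm)
        exact hcon g hg
    -- `β` has order four
    have hβ4 : orderOf β = 4 := by
      have h1 : orderOf (⟨β, hβ⟩ : autz S) ∣ 4 := by rw [← hcard4]; exact orderOf_dvd_natCard _
      have h2 : orderOf (⟨β, hβ⟩ : autz S) = orderOf β :=
        (orderOf_injective (autz S).subtype Subtype.val_injective ⟨β, hβ⟩).symm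
      rw [h2] at h1
      have h3 : orderOf β ∣ 2 ^ 2 := h1
      rw [Nat.dvd_prime_pow Nat.prime_two] at h3
      obtain ⟨k, hk2, hk⟩ := h3
      interval_cases k
      · exact absurd (orderOf_eq_one_iff.mp hk) hβ1
      · exfalso
        apply hβσ
        apply huniq β hβ hβ1
        rw [← pow_two, ← pow_one 2, ← hk]
        exact pow_orderOf_eq_one β
      · rw [hk]; norm_num
    have hββ : β * β = σ := by
      apply huniq _ (mul_mem hβ hβ)
      · intro h1
        rw [← pow_two] at h1
        have := orderOf_dvd_of_pow_eq_one h1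
        rw [hβ4] at this
        omega
      · have : β ^ 4 = 1 := by rw [← hβ4]; exact pow_orderOf_eq_one β
        rw [← this]
        rfl
    have hall : ∀ τ ∈ autz S, τ = 1 ∨ τ = β ∨ τ = σ ∨ τ = β * σ := by
      intro τ hτ
      have h1 : Subgroup.zpowers β = autz S := by
        apply Subgroup.eq_of_le_of_card_ge
        · rw [Subgroup.zpowers_le]; exact hβ
        · rw [Nat.card_zpowers, hβ4, hcard4]
      rw [← h1] at hτ
      rw [mem_zpowers_iff_mem_range_orderOf, hβ4, Finset.mem_image] at hτ
      obtain ⟨k, hk, rfl⟩ := hτ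
      rw [Finset.mem_range] at hk
      interval_cases k
      · left; exact pow_zero β
      · right; left; exact pow_one β
      · right; right; left; rw [← hββ]; exact pow_two β
      · right; right; right
        rw [← hββ]
        show β ^ 3 = β * (β * β)
        rw [pow_succ, pow_two, mul_assoc]
    obtain ⟨n, hn, hnβ⟩ := (mem_autz S β).mp hβ
    have hnS : ∀ s ∈ S, n * s * n⁻¹ ∈ S := fun s hs => (Subgroup.mem_normalizer_iff.mp hn s).mp hs
    have hn2 : ∀ s ∈ S, n * (n * s * n⁻¹) * n⁻¹ = s⁻¹ := by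
      intro s hs
      have h1 : β (β ⟨s, hs⟩) = (⟨s, hs⟩ : S)⁻¹ := by
        rw [← MulAut.mul_apply, hββ, hσi]
      have h2 := congrArg Subtype.val h1
      rw [hnβ, hnβ] at h2
      exact h2
    have hlin : ∀ χ : IrrCharacter G, (χ : G → ℂ) 1 = 1 → χ = ⟨1, isIrr_one⟩ := by
      intro χ hχ
      obtain ⟨f, hf⟩ := Cfsg.Agent.Characters.Linear.exists_hom_of_isIrrCharacter χ.2 hχ
      apply Subtype.ext
      show (χ : G → ℂ) = 1
      rw [hf]
      rcases (inferInstance : f.ker.Normal).eq_bot_or_eq_top with h1 | h1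
      · exfalso
        apply hns0
        rw [MonoidHom.ker_eq_bot_iff] at h1
        apply h1
        rw [map_mul, map_mul, mul_comm]
      · funext g
        have : g ∈ f.ker := by rw [h1]; trivial
        rw [MonoidHom.mem_ker] at this
        rw [this]
        rfl
    have hfour : ∀ u ∈ S, ∀ v ∈ S,
        IsConj u v ↔ (v = u ∨ v = u⁻¹ ∨ v = n * u * n⁻¹ ∨ v = (n * u * n⁻¹)⁻¹) := by
      intro u hu v hv
      rw [show (IsConj u v ↔ IsConj ((⟨u, hu⟩ : S) : G) ((⟨v, hv⟩ : S) : G)) from Iff.rfl]
      rw [hfus ⟨u, hu⟩ ⟨v, hv⟩]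
      have e1 : ((σ ⟨u, hu⟩ : S) : G) = u⁻¹ := by rw [hσi]; rfl
      have e2 : ((β ⟨u, hu⟩ : S) : G) = n * u * n⁻¹ := hnβ _
      have e3 : (((β * σ) ⟨u, hu⟩ : S) : G) = (n * u * n⁻¹)⁻¹ := by
        rw [MulAut.mul_apply, hσi, hnβ]
        show n * u⁻¹ * n⁻¹ = _
        group
      constructor
      · rintro ⟨τ, hτ, hτu⟩
        have h5 := congrArg Subtype.val hτu
        rcases hall τ hτ with rfl | rfl | rfl | rfl
        · left; exact h5.symm
        · right; right; left; rw [← e2]; exact h5.symm
        · right; left; rw [← e1]; exact h5.symm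
        · right; right; right; rw [← e3]; exact h5.symm
      · rintro (h5 | h5 | h5 | h5)
        · exact ⟨1, one_mem _, Subtype.ext h5.symm⟩
        · exact ⟨σ, hσ, Subtype.ext (e1.trans h5.symm)⟩
        · exact ⟨β, hβ, Subtype.ext (e2.trans h5.symm)⟩
        · exact ⟨β * σ, mul_mem hβ hσ, Subtype.ext (e3.trans h5.symm)⟩
    rcases h.case_four n hnS hn2 hfour hlin with h1 | h1
    · exact absurd h1 hnle
    · exact Cfsg.Agent.S0497.result h1

end Cfsg.Agent.S3341
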