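import Cfsg.Statements.S3345
import Cfsg.Agent.H345.OPE

set_option autoImplicit false
open Cfsg

namespace Cfsg.Agent.S3345

/-- Let G be a finite group with O^2(G) = G and an involution t with centralizer C such that F*(C) is extraspecial of order 2^9, C/O₂(C) is isomorphic to Sym(3) × Sym(3) × Sym(3), and C_G(O₂(C)) ≤ O₂(C). Then either the image of t is central in G/O_{2'}(G), or G is isomorphic to Ω⁺(8,2), the commutator subgroup of the isometry group of the hyperbolic quadratic form in dimension 8 over the field with 2 elements. -/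
theorem result {G : Type*} [Group G] [Finite G]
    (hG : Cfsg.pResidual 2 G = ⊤) (t : G) (ht : orderOf t = 2)
    (C : Subgroup G) (hC : C = Subgroup.centralizer ({t} : Set G))
    (hF : Cfsg.IsExtraspecial 2 (Cfsg.generalizedFittingSubgroup C))
    (hFcard : Nat.card (Cfsg.generalizedFittingSubgroup C) = 2 ^ 9)
    (e : C ⧸ Cfsg.pCore 2 C ≃* Equiv.Perm (Fin 3) × Equiv.Perm (Fin 3) × Equiv.Perm (Fin 3))
    (hcc : Subgroup.centralizer (((Cfsg.pCore 2 C).map C.subtype : Subgroup G) : Set G) ≤ (Cfsg.pCore 2 C).map C.subtype) :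
    (∀ g : G, g * t * g⁻¹ * t⁻¹ ∈ Cfsg.oddCore G) ∨
      Nonempty (G ≃* Cfsg.Omega (ZMod 2) (Cfsg.quadFormPlus 4 (ZMod 2))) := by
  subst hC
  exact H345.OPE.final hG t ht hF hFcard inferInstance e

end Cfsg.Agent.S3345
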