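import Cfsg.Statements.S3346
import Cfsg.Agent.H345.HSF

set_option autoImplicit false
open Cfsg

namespace Cfsg.Agent.S3346

/-- the configuration of `Cfsg.Agent.H345.HSB` from the hypotheses -/
theorem exists_sit {G : Type*} [Group G] [Finite G]
    (t : G) (ht : orderOf t = 2) (H : Subgroup G) (hH : H = Subgroup.centralizer ({t} : Set G))
    (R : Subgroup G) (hR : R = (Cfsg.pCore 2 H).map H.subtype)
    (Cy E : Subgroup G) (hCy : IsCyclic Cy) (hCycard : Nat.card Cy = 4)
    (hCyle : Cy ≤ R ⊓ Subgroup.centralizer (R : Set G))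
    (hEle : E ≤ R) (hEex : Cfsg.IsExtraspecial 2 E) (hEcard : Nat.card E = 32)
    (hprod : Cy ⊔ E = R) (hmeet : Cy ⊓ E = E ⊓ Subgroup.centralizer (E : Set G))
    (eH : H ⧸ Cfsg.pCore 2 H ≃* Equiv.Perm (Fin 5))
    (V : Subgroup G) (hVcomm : IsMulCommutative V) (hVexp : ∀ v ∈ V, v ^ 2 = 1) (hVcard : Nat.card V = 8)
    (hVR : V ≤ R) (M : Subgroup G) (hM : M = Subgroup.normalizer (V : Set G))
    (eOM : Cfsg.pCore 2 M ≃* Multiplicative (ZMod 4 × ZMod 4 × ZMod 4))
    (eM : M ⧸ Cfsg.pCore 2 M ≃* GL (Fin 3) (ZMod 2)) :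
    ∃ u A, Cfsg.Agent.H345.HSB.Sit t u R V A := by
  classical
  obtain ⟨u, hr⟩ := Cfsg.Agent.H345.HSA.exists_rdat t ht H hH R hR Cy E hCy hCycard hCyle hEle hEex hEcard
    hprod hmeet
  have hn : (Cfsg.pCore 2 M).Normal := Cfsg.Agent.Lib.Cores.pCore_normal 2
  have hnH : (Cfsg.pCore 2 H).Normal := Cfsg.Agent.Lib.Cores.pCore_normal 2
  have hVsq : ∀ v ∈ V, v * v = 1 := fun v hv => by rw [← pow_two]; exact hVexp v hv
  have hVM : V ≤ M := hM ▸ Subgroup.le_normalizer
  have hAc : ∀ x y : Cfsg.pCore 2 M, x * y = y * x := fun x y => by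
    apply eOM.injective
    rw [map_mul, map_mul, mul_comm]
  have hcA : Nat.card (Cfsg.pCore 2 M) = 64 := by
    rw [Nat.card_congr eOM.toEquiv]
    simp [Nat.card_eq_fintype_card, ZMod.card]
  refine ⟨u, (Cfsg.pCore 2 M).map M.subtype, hr, ⟨hVcard, hVsq⟩, hVR, ?_, ?_, ?_, ?_, ?_, ?_, ?_, ?_, ?_⟩
  · -- `V ≤ A`
    have h1 : (V.subgroupOf M).Normal := by
      constructor
      intro x hx g
      have hg : (g : G) ∈ Subgroup.normalizer (V : Set G) := hM ▸ g.2
      exact (Subgroup.mem_normalizer_iff.1 hg x).1 hx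
    have h2 : IsPGroup 2 (V.subgroupOf M) := by
      refine IsPGroup.of_card (n := 3) ?_
      rw [Nat.card_congr (Subgroup.subgroupOfEquivOfLe hVM).toEquiv, hVcard]
      norm_num
    have h3 : V.subgroupOf M ≤ Cfsg.pCore 2 M := le_sSup ⟨h1, h2⟩
    intro v hv
    exact ⟨⟨v, hVM hv⟩, h3 hv, rfl⟩
  · rintro _ ⟨a, ha, rfl⟩ _ ⟨b, hb, rfl⟩
    have := congrArg (fun x : Cfsg.pCore 2 M => ((x : M) : G)) (hAc ⟨a, ha⟩ ⟨b, hb⟩)
    exact this
  · rintro _ ⟨a, ha, rfl⟩
    have h1 : (⟨a, ha⟩ : Cfsg.pCore 2 M) * ⟨a, ha⟩ * (⟨a, ha⟩ * ⟨a, ha⟩) = 1 := by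
      apply eOM.injective
      rw [map_mul, map_mul, map_one]
      generalize eOM ⟨a, ha⟩ = w
      revert w
      have key : ∀ w : ZMod 4 × ZMod 4 × ZMod 4, w + w + (w + w) = 0 := by
        intro w
        have h4 : ∀ x : ZMod 4, x + x + (x + x) = 0 := by decide
        exact Prod.ext (h4 _) (Prod.ext (h4 _) (h4 _))
      intro w
      exact congrArg Multiplicative.ofAdd (key w.toAdd)
    exact congrArg (fun x : Cfsg.pCore 2 M => ((x : M) : G)) h1
  · -- `Ω₁(A) ≤ V`, by counting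
    have hVA : V ≤ (Cfsg.pCore 2 M).map M.subtype := by
      have h1 : (V.subgroupOf M).Normal := by
        constructor
        intro x hx g
        have hg : (g : G) ∈ Subgroup.normalizer (V : Set G) := hM ▸ g.2
        exact (Subgroup.mem_normalizer_iff.1 hg x).1 hx
      have h2 : IsPGroup 2 (V.subgroupOf M) := by
        refine IsPGroup.of_card (n := 3) ?_
        rw [Nat.card_congr (Subgroup.subgroupOfEquivOfLe hVM).toEquiv, hVcard]
        norm_num
      have h3 : V.subgroupOf M ≤ Cfsg.pCore 2 M := le_sSup ⟨h1, h2⟩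
      intro v hv
      exact ⟨⟨v, hVM hv⟩, h3 hv, rfl⟩
    set A : Subgroup G := (Cfsg.pCore 2 M).map M.subtype with hA
    have hset : (V : Set G) = {a | a ∈ A ∧ a * a = 1} := by
      apply Set.eq_of_subset_of_ncard_le
      · intro v hv
        exact ⟨hVA hv, hVsq v hv⟩
      · have h1 : (V : Set G).ncard = 8 := hVcard
        rw [h1]
        have h2 : ({a | a ∈ A ∧ a * a = 1} : Set G) =
            (fun w : Multiplicative (ZMod 4 × ZMod 4 × ZMod 4) => (((eOM.symm w : Cfsg.pCore 2 M) : M) : G)) ''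
              {w | w * w = 1} := by
          ext a
          constructor
          · rintro ⟨⟨b, hb, rfl⟩, hbb⟩
            refine ⟨eOM ⟨b, hb⟩, ?_, by simp⟩
            have h3 : (⟨b, hb⟩ : Cfsg.pCore 2 M) * ⟨b, hb⟩ = 1 := Subtype.ext (Subtype.ext hbb)
            show eOM ⟨b, hb⟩ * eOM ⟨b, hb⟩ = 1
            rw [← map_mul, h3, map_one]
          · rintro ⟨w, hw, rfl⟩
            have hw' : w * w = 1 := hw
            refine ⟨⟨(eOM.symm w : M), (eOM.symm w).2, rfl⟩, ?_⟩
            have h3 : eOM.symm w * eOM.symm w = 1 := by rw [← map_mul, hw', map_one]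
            exact congrArg (fun x : Cfsg.pCore 2 M => ((x : M) : G)) h3
        rw [h2]
        refine (Set.ncard_image_le (Set.toFinite _)).trans ?_
        have h4 : ({w | w * w = 1} : Set (Multiplicative (ZMod 4 × ZMod 4 × ZMod 4))).ncard =
            Fintype.card {w : ZMod 4 × ZMod 4 × ZMod 4 // w + w = 0} := by
          rw [← Nat.card_eq_fintype_card, ← Nat.card_coe_set_eq]
          rfl
        rw [h4]
        decide +kernel
      · exact Set.toFinite _
    intro a ha haa
    have : a ∈ (V : Set G) := by rw [hset]; exact ⟨ha, haa⟩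
    exact this
  · rw [Subgroup.card_map_of_injective M.subtype_injective, hcA]
  · rintro g hg _ ⟨a, ha, rfl⟩
    have hgM : g ∈ M := hM ▸ hg
    exact ⟨⟨g, hgM⟩ * a * ⟨g, hgM⟩⁻¹, hn.conj_mem a ha _, rfl⟩
  · rw [← hM]
    have h1 := Subgroup.card_eq_card_quotient_mul_card_subgroup (Cfsg.pCore 2 M)
    rw [h1, Nat.card_congr eM.toEquiv, hcA, Cfsg.Agent.StdL2.G23Aut.card_GL]
  · intro K hAK hKN hK
    have hKM : K ≤ M := hM ▸ hKN
    have hKn : (K.subgroupOf M).Normal := by
      constructor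
      intro x hx g
      exact hK g (hM ▸ g.2) x hx
    have : IsSimpleGroup (GL (Fin 3) (ZMod 2)) := Cfsg.Agent.StdL2.G23Aut.simple_GL
    let f : M →* GL (Fin 3) (ZMod 2) := eM.toMonoidHom.comp (QuotientGroup.mk' (Cfsg.pCore 2 M))
    have hf : Function.Surjective f := eM.surjective.comp (QuotientGroup.mk'_surjective _)
    have hker : f.ker = Cfsg.pCore 2 M := by
      ext x
      rw [MonoidHom.mem_ker]
      change eM (QuotientGroup.mk' _ x) = 1 ↔ _
      rw [EmbeddingLike.map_eq_one_iff, QuotientGroup.mk'_apply, QuotientGroup.eq_one_iff]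
    have hle : f.ker ≤ K.subgroupOf M := by
      rw [hker]
      intro x hx
      exact hAK ⟨x, hx, rfl⟩
    rcases (hKn.map f hf).eq_bot_or_eq_top with h1 | h1
    · left
      have h2 : K.subgroupOf M ≤ f.ker := by
        intro x hx
        have : f x ∈ (K.subgroupOf M).map f := ⟨x, hx, rfl⟩
        rw [h1] at this
        exact this
      rw [hker] at h2
      apply le_antisymm _ hAK
      intro x hx
      exact ⟨⟨x, hKM hx⟩, h2 hx, rfl⟩
    · right
      rw [← hM]
      apply le_antisymm hKM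
      intro x hx
      have h2 : f ⟨x, hx⟩ ∈ (K.subgroupOf M).map f := by rw [h1]; trivial
      obtain ⟨y, hy, hyx⟩ := h2
      have h3 : y⁻¹ * ⟨x, hx⟩ ∈ f.ker := by
        rw [MonoidHom.mem_ker, map_mul, map_inv, hyx, inv_mul_cancel]
      have h4 := mul_mem hy (hle h3)
      have h5 : y * (y⁻¹ * (⟨x, hx⟩ : M)) = ⟨x, hx⟩ := by group
      rw [h5] at h4
      exact h4
  · rw [← hH]
    have h1 := Subgroup.card_eq_card_quotient_mul_card_subgroup (Cfsg.pCore 2 H)
    have h2 : Nat.card (Cfsg.pCore 2 H) = 64 := by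
      rw [← hr.card, hR, Subgroup.card_map_of_injective H.subtype_injective]
    rw [h1, Nat.card_congr eH.toEquiv, h2, Nat.card_eq_fintype_card, Fintype.card_perm, Fintype.card_fin]
    decide

/-- A characterization of the Higman–Sims group. Let G be a finite group with an involution t, H = C_G(t) and R = O₂(H). Suppose R is the central product of a cyclic group of order 4 with an extraspecial group of order 32 (R = CE with C cyclic of order 4 central in R, E extraspecial of order 32, and C ∩ E = Z(E)), and H/R is isomorphic to Sym(5). Suppose further that V ≤ R is elementary abelian of order 8 with M = N_G(V) satisfying O₂(M) ≅ C₄ × C₄ × C₄ and M/O₂(M) ≅ GL(3,2). Then G is isomorphic to the Higman–Sims group. -/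
theorem result {G : Type*} [Group G] [Finite G]
    (t : G) (ht : orderOf t = 2) (H : Subgroup G) (hH : H = Subgroup.centralizer ({t} : Set G))
    (R : Subgroup G) (hR : R = (Cfsg.pCore 2 H).map H.subtype)
    (Cy E : Subgroup G) (hCy : IsCyclic Cy) (hCycard : Nat.card Cy = 4)
    (hCyle : Cy ≤ R ⊓ Subgroup.centralizer (R : Set G))
    (hEle : E ≤ R) (hEex : Cfsg.IsExtraspecial 2 E) (hEcard : Nat.card E = 32)
    (hprod : Cy ⊔ E = R) (hmeet : Cy ⊓ E = E ⊓ Subgroup.centralizer (E : Set G))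
    (eH : H ⧸ Cfsg.pCore 2 H ≃* Equiv.Perm (Fin 5))
    (V : Subgroup G) (hVcomm : IsMulCommutative V) (hVexp : ∀ v ∈ V, v ^ 2 = 1) (hVcard : Nat.card V = 8)
    (hVR : V ≤ R) (M : Subgroup G) (hM : M = Subgroup.normalizer (V : Set G))
    (eOM : Cfsg.pCore 2 M ≃* Multiplicative (ZMod 4 × ZMod 4 × ZMod 4))
    (eM : M ⧸ Cfsg.pCore 2 M ≃* GL (Fin 3) (ZMod 2)) :
    Cfsg.Spor.IsoHS G := by
  obtain ⟨u, A, h⟩ := exists_sit t ht H hH R hR Cy E hCy hCycard hCyle hEle hEex hEcard hprod hmeet eH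
    V hVcomm hVexp hVcard hVR M hM eOM eM
  exact h.isoHS

end Cfsg.Agent.S3346
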