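import Cfsg.Statements.S3348
import Cfsg.Agent.H346.AmStmt

set_option autoImplicit false
open Cfsg

namespace Cfsg.Agent.S3348

/-- Let G be a finite group generated by isomorphic subgroups A and B such that C = A ∩ B contains a Sylow 3-subgroup of each of A and B and no non-trivial subgroup of C is normalized by both A and B. Suppose A/O₃(A) and B/O₃(B) are isomorphic to GL(2,3), that O₃(A) and O₃(B) are elementary abelian of order 9 and self-centralizing in A and B respectively (natural modules), and that for a Sylow 3-subgroup S of C the normalizer N_G(Z(S)) lies in A ∩ B. Then G is isomorphic to the Mathieu group M₁₂ or to PSL(3,3). -/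
theorem result {G : Type*} [Group G] [Finite G]
    (A B : Subgroup G) (eAB : Nonempty (A ≃* B)) (hgen : A ⊔ B = ⊤)
    (hSylA : ¬ 3 ∣ ((A ⊓ B).subgroupOf A).index) (hSylB : ¬ 3 ∣ ((A ⊓ B).subgroupOf B).index)
    (hcore : ∀ N : Subgroup G, N ≤ A ⊓ B → (∀ a ∈ A, N.map (MulAut.conj a).toMonoidHom = N) →
      (∀ b ∈ B, N.map (MulAut.conj b).toMonoidHom = N) → N = ⊥)
    (eA : A ⧸ Cfsg.pCore 3 A ≃* GL (Fin 2) (ZMod 3)) (eB : B ⧸ Cfsg.pCore 3 B ≃* GL (Fin 2) (ZMod 3))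
    (hOA : IsMulCommutative (Cfsg.pCore 3 A) ∧ (∀ x ∈ Cfsg.pCore 3 A, x ^ 3 = 1) ∧ Nat.card (Cfsg.pCore 3 A) = 9 ∧
      Subgroup.centralizer ((Cfsg.pCore 3 A : Subgroup A) : Set A) = Cfsg.pCore 3 A)
    (hOB : IsMulCommutative (Cfsg.pCore 3 B) ∧ (∀ x ∈ Cfsg.pCore 3 B, x ^ 3 = 1) ∧ Nat.card (Cfsg.pCore 3 B) = 9 ∧
      Subgroup.centralizer ((Cfsg.pCore 3 B : Subgroup B) : Set B) = Cfsg.pCore 3 B)
    (S : Sylow 3 ↥(A ⊓ B)) (Z : Subgroup G)
    (hZ : Z = ((S : Subgroup ↥(A ⊓ B)) ⊓ Subgroup.centralizer ((S : Subgroup ↥(A ⊓ B)) : Set ↥(A ⊓ B))).map (A ⊓ B).subtype)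
    (hNZ : Subgroup.normalizer (Z : Set G) ≤ A ⊓ B) :
    Cfsg.Spor.IsoM12 G ∨ Nonempty (G ≃* Matrix.ProjectiveSpecialLinearGroup (Fin 3) (ZMod 3)) := by
  obtain ⟨P, Q, S', z, h⟩ := H346.AmStmt.exists_amal A B hgen hSylA hSylB hcore eA eB hOA hOB S Z hZ hNZ
  exact H346.AmStmt.main h


end Cfsg.Agent.S3348
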