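import Cfsg.Statements.S3363
import Cfsg.Agent.H349.TwE

set_option autoImplicit false
open Cfsg

namespace Cfsg.Agent.S3363

/-- Uniqueness of ²E₆(2) under the large-extraspecial hypothesis: let G be a finite group with an involution z whose centralizer C satisfies F*(C) = O₂(C) with O₂(C) extraspecial of order 2^21 and C/O₂(C) isomorphic to the unitary group U₆(2) (over a field with four elements), and suppose some conjugate of z other than z lies in O₂(C). Then G is isomorphic to ²E₆(2) (realised over the field with four elements). -/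
theorem result {G : Type*} [Group G] [Finite G]
    (z : G) (hz : orderOf z = 2) (C : Subgroup G) (hC : C = Subgroup.centralizer ({z} : Set G))
    (hFQ : Cfsg.generalizedFittingSubgroup C = Cfsg.pCore 2 C)
    (hex : Cfsg.IsExtraspecial 2 (Cfsg.pCore 2 C)) (hcard : Nat.card (Cfsg.pCore 2 C) = 2 ^ 21)
    (F : Type*) [Field F] [Fintype F] (hF : Fintype.card F = 4)
    (e : C ⧸ Cfsg.pCore 2 C ≃* Cfsg.PSU 6 F 2)
    (hnwc : ∃ g : G, g * z * g⁻¹ ∈ (Cfsg.pCore 2 C).map C.subtype ∧ g * z * g⁻¹ ≠ z) :
    Nonempty (G ≃* Cfsg.Lie.twistedE6 F 2) := by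
  subst hC
  obtain ⟨h1, ⟨h2⟩⟩ := Cfsg.Agent.H349.TwE.recog z hz hFQ hex hcard ⊤ (Or.inl Subgroup.index_top) le_top F hF
    ((e.toMonoidHom.comp (QuotientGroup.mk' _)).comp (Subgroup.subtype _))
    (fun y => by
      obtain ⟨x, hx⟩ := QuotientGroup.mk'_surjective (Cfsg.pCore 2 (Subgroup.centralizer ({z} : Set G))) (e.symm y)
      refine ⟨⟨x, Subgroup.mem_top x⟩, ?_⟩
      show e (QuotientGroup.mk' _ x) = y
      rw [hx, e.apply_symm_apply])
    (fun x => by
      show e (QuotientGroup.mk' _ (x : Subgroup.centralizer ({z} : Set G))) = 1 ↔ _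
      rw [map_eq_one_iff e e.injective]
      exact QuotientGroup.eq_one_iff _)
    hnwc
  rw [Subgroup.index_top, Subgroup.index_eq_one] at h1
  rw [h1] at h2
  exact ⟨Subgroup.topEquiv.symm.trans h2⟩

end Cfsg.Agent.S3363
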