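import Cfsg.Statements.S3364
import Cfsg.Agent.H349.TwE

set_option autoImplicit false
open Cfsg

namespace Cfsg.Agent.S3364

/-- Let G be a finite group with an involution z whose centralizer C satisfies F*(C) = O₂(C) with O₂(C) extraspecial of order 2^21, such that C has a subgroup H of index 2 containing O₂(C) with H/O₂(C) isomorphic to U₆(2), and suppose some conjugate of z other than z lies in O₂(C). Then the generalized Fitting subgroup F*(G) has index 2 in G and is isomorphic to ²E₆(2). -/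
theorem result {G : Type*} [Group G] [Finite G]
    (z : G) (hz : orderOf z = 2) (C : Subgroup G) (hC : C = Subgroup.centralizer ({z} : Set G))
    (hFQ : Cfsg.generalizedFittingSubgroup C = Cfsg.pCore 2 C)
    (hex : Cfsg.IsExtraspecial 2 (Cfsg.pCore 2 C)) (hcard : Nat.card (Cfsg.pCore 2 C) = 2 ^ 21)
    (H : Subgroup C) (hH : H.index = 2) (hQH : Cfsg.pCore 2 C ≤ H) [hn : ((Cfsg.pCore 2 C).subgroupOf H).Normal]
    (F : Type*) [Field F] [Fintype F] (hF : Fintype.card F = 4)
    (e : H ⧸ (Cfsg.pCore 2 C).subgroupOf H ≃* Cfsg.PSU 6 F 2)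
    (hnwc : ∃ g : G, g * z * g⁻¹ ∈ (Cfsg.pCore 2 C).map C.subtype ∧ g * z * g⁻¹ ≠ z) :
    (Cfsg.generalizedFittingSubgroup G).index = 2 ∧
      Nonempty (Cfsg.generalizedFittingSubgroup G ≃* Cfsg.Lie.twistedE6 F 2) := by
  subst hC
  obtain ⟨h1, h2⟩ := Cfsg.Agent.H349.TwE.recog z hz hFQ hex hcard H (Or.inr hH) hQH F hF
    (e.toMonoidHom.comp (QuotientGroup.mk' _))
    (e.surjective.comp (QuotientGroup.mk'_surjective _))
    (fun x => by
      show e (QuotientGroup.mk' _ x) = 1 ↔ _
      rw [map_eq_one_iff e e.injective]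
      exact (QuotientGroup.eq_one_iff _).trans Subgroup.mem_subgroupOf)
    hnwc
  exact ⟨h1.trans hH, h2⟩

end Cfsg.Agent.S3364
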