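import Cfsg.Statements.S3365
import Cfsg.Agent.S1174
import Cfsg.Agent.TwoFusion.SectionalRank
import Cfsg.Agent.H755.TrContra
import Cfsg.Agent.H350.FixThreeD
import Cfsg.Agent.H350.FixFourD

set_option autoImplicit false
open Cfsg

namespace Cfsg.Agent.S3365

/-- Finite simple groups acting with fixity 4. Let G be a finite non-abelian simple group acting faithfully and transitively on a finite set so that every non-identity element fixes at most 4 points and some non-identity element fixes exactly 4 (fixity 4). Let P be a Sylow 3-subgroup, S a Sylow 2-subgroup, f the largest number of fixed points of an involution of G, and a a point. Then one of the following holds: (1) f ≥ 1 and G has a strongly embedded subgroup; (2) 1 ≤ f ≤ 3 and S is dihedral or semidihedral; (3) f = 4 and G has sectional 2-rank at most 4; (4) the point stabilizer G_a has odd order divisible by 3 and either G has a strongly 3-embedded subgroup (a proper subgroup H of order divisible by 3 such that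 H ∩ gHg⁻¹ has order prime to 3 for every element g outside H), or |P| = 3 and a Sylow 2-subgroup of N_G(P) has order at most 4, or P is elementary abelian of order 9, or P is extraspecial of order 27 and exponent 3, or P is isomorphic to a Sylow 3-subgroup of Sym(9) (the wreath product C₃ ≀ C₃); (5) G_a has order prime to 6. -/
theorem result {G Ω : Type*} [Group G] [Finite G] [IsSimpleGroup G] (hna : ¬ IsMulCommutative G)
    [MulAction G Ω] [FaithfulSMul G Ω] [Finite Ω] (htrans : MulAction.IsPretransitive G Ω)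
    (hfix : ∀ g : G, g ≠ 1 → Nat.card (MulAction.fixedBy Ω g) ≤ 4)
    (hfix4 : ∃ g : G, g ≠ 1 ∧ Nat.card (MulAction.fixedBy Ω g) = 4)
    (P : Sylow 3 G) (S : Sylow 2 G) (f : ℕ)
    (hf : ∀ g : G, orderOf g = 2 → Nat.card (MulAction.fixedBy Ω g) ≤ f)
    (hf' : ∃ g : G, orderOf g = 2 ∧ Nat.card (MulAction.fixedBy Ω g) = f) (a : Ω) :
    (1 ≤ f ∧ ∃ H : Subgroup G, Cfsg.IsStronglyEmbedded H) ∨
    (1 ≤ f ∧ f ≤ 3 ∧ ((∃ n : ℕ, Nonempty ((S : Subgroup G) ≃* DihedralGroup n)) ∨ Cfsg.IsQuasiDihedral (S : Subgroup G))) ∨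
    (f = 4 ∧ Cfsg.SectionalPRankLE 2 4 G) ∨
    (Odd (Nat.card (MulAction.stabilizer G a)) ∧ 3 ∣ Nat.card (MulAction.stabilizer G a) ∧
      ((∃ H : Subgroup G, H ≠ ⊤ ∧ 3 ∣ Nat.card H ∧ ∀ g : G, g ∉ H → ¬ 3 ∣ Nat.card ↥(H ⊓ H.map (MulAut.conj g).toMonoidHom)) ∨
       (Nat.card P = 3 ∧ ∀ T : Sylow 2 (Subgroup.normalizer ((P : Subgroup G) : Set G)), Nat.card T ≤ 4) ∨
       (Nat.card P = 9 ∧ ∀ x ∈ (P : Subgroup G), x ^ 3 = 1) ∨
       (Nat.card P = 27 ∧ Cfsg.IsExtraspecial 3 (P : Subgroup G) ∧ ∀ x ∈ (P : Subgroup G), x ^ 3 = 1) ∨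
       (∃ T : Sylow 3 (Equiv.Perm (Fin 9)), Nonempty ((P : Subgroup G) ≃* (T : Subgroup (Equiv.Perm (Fin 9))))))) ∨
    (Nat.card (MulAction.stabilizer G a)).Coprime 6 := by
  classical
  have hfix' : ∀ g : G, g ≠ 1 → (MulAction.fixedBy Ω g).ncard ≤ 4 := hfix
  have hfn : ∀ g : G, orderOf g = 2 → (MulAction.fixedBy Ω g).ncard ≤ f := hf
  obtain ⟨g₀, hg₀, hg₀f⟩ := hf'
  have hg₀f' : (MulAction.fixedBy Ω g₀).ncard = f := hg₀f
  have hg₀1 : g₀ ≠ 1 := by rintro rfl; rw [orderOf_one] at hg₀; omega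
  have hf4 : f ≤ 4 := hg₀f' ▸ hfix' g₀ hg₀1
  rcases Nat.eq_zero_or_pos f with h0 | hpos
  · -- involutions have no fixed points
    have hodd : ∀ b : Ω, Odd (Nat.card (MulAction.stabilizer G b)) := by
      intro b
      by_contra hcon
      rw [Nat.not_odd_iff_even, even_iff_two_dvd] at hcon
      obtain ⟨t, ht, ht2⟩ := Cfsg.Agent.H350.Fix.exists_orderOf_of_dvd hcon
      have h1 := hfn t ht2
      rw [h0, Nat.le_zero, Set.ncard_eq_zero (Set.toFinite _)] at h1
      have h2 : b ∈ MulAction.fixedBy Ω t := ht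
      rw [h1] at h2
      exact h2
    by_cases h3 : 3 ∣ Nat.card (MulAction.stabilizer G a)
    · right; right; right; left
      refine ⟨hodd a, h3, ?_⟩
      rcases Cfsg.Agent.H350.Fix.three_case hna htrans hfix' hodd P
        (fun h27 s hs hc hinv => Cfsg.Agent.H755.Tr.tr_contra hna P h27 s hs hc hinv) a h3 with h | h
      · exact Or.inl h
      · exact Or.inr (Or.inr (Or.inl h))
    · right; right; right; right
      have h2 : ¬ 2 ∣ Nat.card (MulAction.stabilizer G a) := by
        rw [← even_iff_two_dvd, Nat.not_even_iff_odd]; exact hodd a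
      have e1 : Nat.Coprime (Nat.card (MulAction.stabilizer G a)) 2 :=
        ((Nat.Prime.coprime_iff_not_dvd Nat.prime_two).2 h2).symm
      have e2 : Nat.Coprime (Nat.card (MulAction.stabilizer G a)) 3 :=
        ((Nat.Prime.coprime_iff_not_dvd Nat.prime_three).2 h3).symm
      exact Nat.Coprime.mul_right e1 e2
  · by_cases h3 : f ≤ 3
    · rcases Cfsg.Agent.H350.Fix.two_small hna htrans hpos h3 hfn ⟨g₀, hg₀, hg₀f'⟩ S with h | h
      · exact Or.inl ⟨hpos, h⟩
      · exact Or.inr (Or.inl ⟨hpos, h3, h⟩)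
    · have hf4' : f = 4 := by omega
      obtain ⟨k, -, hk⟩ := Cfsg.Agent.H350.Fix.exists_conj_mem S (H := ⊤) le_top (Subgroup.mem_top g₀)
        (Cfsg.Agent.H350.Fix.isPGroup_zpowers_of_orderOf (n := 1) (by rw [pow_one]; exact hg₀))
      have ht2 : orderOf (k * g₀ * k⁻¹) = 2 := by
        rw [← hg₀]
        have := (MulAut.conj k).orderOf_eq g₀
        simpa using this
      rcases Cfsg.Agent.H350.Fix.two_four htrans hfix'
        (fun S T hT1 hT hprop => Cfsg.Agent.S1174.result S T hT1 hT hprop) S hk ht2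
        (by rw [Cfsg.Agent.H350.Fix.ncard_fixedBy_conj, hg₀f', hf4']) with h | h
      · exact Or.inl ⟨hpos, h⟩
      · exact Or.inr (Or.inr (Or.inl ⟨hf4',
          Cfsg.Agent.TwoFusion.SectionalRank.sectionalPRankLE_of_sylow S h⟩))

end Cfsg.Agent.S3365
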