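import Cfsg.Statements.S3366
import Cfsg.Agent.H350.ShapeIso
import Cfsg.Agent.H350.ShapeSp
import Cfsg.Agent.LieClassical.FieldTransfer
import Cfsg.Agent.SylowSp4.Recog

set_option autoImplicit false
open Cfsg

namespace Cfsg.Agent.S3366

open Cfsg.Agent.H350.Shape

theorem card_psp (F : Type*) [Field F] [Fintype F] (hF : Fintype.card F = 3) :
    Nat.card (Cfsg.PSp 2 F) = 25920 := by
  have h := Cfsg.Agent.SylowSp4.Recog.card_PSp (F := F) (by rw [hF]; decide)
  rw [hF] at h
  omega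

theorem orderOf_tv : orderOf (qPSp tv) = 3 := by
  apply orderOf_eq_prime
  · rw [← map_pow, tv_cube, map_one]
  · intro h
    rw [qPSp_eq_one] at h
    obtain ⟨c, hc, -⟩ := cen_cases h
    rw [tv] at hc
    obtain ⟨h1, -⟩ := mHom_injective_aux hc
    exact absurd h1 (by decide)

/-- Let X be a finite group with O₃(X) extraspecial of order 27 and exponent 3, X/O₃(X) isomorphic to SL(2,3), O₂(X) = 1, and a Sylow 3-subgroup of X containing an elementary abelian subgroup of order 27. Then X is isomorphic to the centralizer in PSp(4,3) of a 3-central element of order 3 (an element of order 3 in the centre of a Sylow 3-subgroup). -/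
theorem result {X : Type*} [Group X] [Finite X]
    (hR : Cfsg.IsExtraspecial 3 (Cfsg.pCore 3 X)) (hRcard : Nat.card (Cfsg.pCore 3 X) = 27)
    (hRexp : ∀ r ∈ Cfsg.pCore 3 X, r ^ 3 = 1)
    (e : X ⧸ Cfsg.pCore 3 X ≃* Matrix.SpecialLinearGroup (Fin 2) (ZMod 3))
    (hO2 : Cfsg.pCore 2 X = ⊥)
    (hE : ∃ E : Subgroup X, IsMulCommutative E ∧ (∀ a ∈ E, a ^ 3 = 1) ∧ Nat.card E = 27)
    (F : Type*) [Field F] [Fintype F] (hF : Fintype.card F = 3) :
    ∃ (c : Cfsg.PSp 2 F) (S : Sylow 3 (Cfsg.PSp 2 F)), orderOf c = 3 ∧ c ∈ (S : Subgroup (Cfsg.PSp 2 F)) ∧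
      c ∈ Subgroup.centralizer ((S : Subgroup (Cfsg.PSp 2 F)) : Set (Cfsg.PSp 2 F)) ∧
      Nonempty (X ≃* Subgroup.centralizer ({c} : Set (Cfsg.PSp 2 F))) := by
  classical
  have : Fact (Nat.Prime 3) := ⟨Nat.prime_three⟩
  obtain ⟨eX⟩ := (hyp_of hR hRcard hRexp inferInstance e hO2).model_iso hE
  obtain ⟨eC⟩ := model_cent
  have hcF : Nat.card F = Nat.card (ZMod 3) := by
    rw [Nat.card_eq_fintype_card, hF, Nat.card_zmod]
  let φ : ZMod 3 ≃+* F := FiniteField.ringEquivOfCardEq (by rw [hF, ZMod.card])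
  let ψ : Cfsg.PSp 2 (ZMod 3) ≃* Cfsg.PSp 2 F := Cfsg.Agent.LieClassical.FieldTransfer.pspCongr 2 φ
  set c : Cfsg.PSp 2 F := ψ (qPSp tv) with hc
  have hco : orderOf c = 3 := by
    rw [hc, ψ.orderOf_eq, orderOf_tv]
  have hmap : (Subgroup.centralizer ({qPSp tv} : Set (Cfsg.PSp 2 (ZMod 3)))).map ψ.toMonoidHom =
      Subgroup.centralizer ({c} : Set (Cfsg.PSp 2 F)) := by
    ext g
    rw [Subgroup.mem_map, Subgroup.mem_centralizer_singleton_iff]
    constructor
    · rintro ⟨g', hg', rfl⟩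
      rw [Subgroup.mem_centralizer_singleton_iff] at hg'
      show ψ g' * ψ (qPSp tv) = ψ (qPSp tv) * ψ g'
      rw [← map_mul, hg', map_mul]
    · intro hg
      refine ⟨ψ.symm g, ?_, ψ.apply_symm_apply g⟩
      rw [Subgroup.mem_centralizer_singleton_iff]
      apply ψ.injective
      rw [map_mul, map_mul, ψ.apply_symm_apply]
      exact hg
  have eC' : Model ≃* Subgroup.centralizer ({c} : Set (Cfsg.PSp 2 F)) :=
    eC.trans (((Subgroup.centralizer ({qPSp tv} : Set (Cfsg.PSp 2 (ZMod 3)))).equivMapOfInjective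
      ψ.toMonoidHom ψ.injective).trans (MulEquiv.subgroupCongr hmap))
  have hfinG : Finite (Cfsg.PSp 2 F) := Nat.finite_of_card_ne_zero (by rw [card_psp F hF]; norm_num)
  set C := Subgroup.centralizer ({c} : Set (Cfsg.PSp 2 F)) with hCdef
  have hCc : Nat.card C = 648 := by
    rw [← Nat.card_congr eC'.toEquiv, card_model]
  have hcC : c ∈ C := by
    rw [hCdef, Subgroup.mem_centralizer_singleton_iff]
  let c' : C := ⟨c, hcC⟩
  have hc'o : orderOf c' = 3 := by rw [← hco, ← Subgroup.orderOf_coe]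
  have hpc : IsPGroup 3 (Subgroup.zpowers c') := by
    apply IsPGroup.of_card (n := 1)
    rw [Nat.card_zpowers, hc'o, pow_one]
  obtain ⟨P, hP⟩ := hpc.exists_le_sylow
  have hPc : Nat.card P = 81 := by
    rw [Sylow.card_eq_multiplicity, hCc]
    have : (648 : ℕ).factorization 3 = 4 := by
      rw [show (648 : ℕ) = 3 ^ 4 * 8 by norm_num,
        Nat.factorization_mul (by norm_num) (by norm_num), Finsupp.add_apply,
        Nat.prime_three.factorization_pow, Finsupp.single_eq_same,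
        Nat.factorization_eq_zero_of_not_dvd (show ¬ 3 ∣ 8 by norm_num)]
    rw [this]; norm_num
  let S₀ : Subgroup (Cfsg.PSp 2 F) := (P : Subgroup C).map C.subtype
  have hS₀c : Nat.card S₀ = 81 := by
    rw [← hPc]
    exact (Nat.card_congr ((P : Subgroup C).equivMapOfInjective _ C.subtype_injective).toEquiv).symm
  have hfac : (25920 : ℕ).factorization 3 = 4 := by
    rw [show (25920 : ℕ) = 3 ^ 4 * 320 by norm_num,
      Nat.factorization_mul (by norm_num) (by norm_num), Finsupp.add_apply,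
      Nat.prime_three.factorization_pow, Finsupp.single_eq_same,
      Nat.factorization_eq_zero_of_not_dvd (show ¬ 3 ∣ 320 by norm_num)]
  let S : Sylow 3 (Cfsg.PSp 2 F) := Sylow.ofCard S₀ (by
    rw [hS₀c, card_psp F hF, hfac]; norm_num)
  have hS : (S : Subgroup (Cfsg.PSp 2 F)) = S₀ := Sylow.coe_ofCard _ _
  refine ⟨c, S, hco, ?_, ?_, ⟨eX.symm.trans eC'⟩⟩
  · rw [hS]
    exact Subgroup.mem_map.2 ⟨c', hP (Subgroup.mem_zpowers c'), rfl⟩
  · rw [hS, Subgroup.mem_centralizer_iff]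
    rintro _ ⟨g, -, rfl⟩
    exact Subgroup.mem_centralizer_singleton_iff.1 g.2

end Cfsg.Agent.S3366
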