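import Cfsg.Statements.S3372
import Cfsg.Agent.H351.OE.Final
import Cfsg.Agent.S0000

set_option autoImplicit false
open Cfsg

namespace Cfsg.Agent.S3372

/-- A 3-local recognition of the extensions Ω⁺₈(2).3 and Ω⁺₈(2).Sym(3). Let G be a finite group, S a Sylow 3-subgroup, Z = Z(S), C = C_G(Z) and Q = O₃(C). Suppose Q is extraspecial of order 3^5 and exponent 3, C_G(Q) ≤ Q, some conjugate of Z other than Z lies in Q, and C/Q is isomorphic to SL(2,3) or to SL(2,3) × C₂. Let K be the preimage in C of the subgroup of C/Q generated by its elements of odd order, and suppose that some maximal chain of K-invariant subgroups from Z to Q (a K-chief chain of Q/Z) has exactly one factor on which K acts non-trivially. Then G has a normal subgroup N isomorphic to Ω⁺₈(2) with C_G(N) = 1 and |G : N| = 3 or 6. -/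
theorem result {G : Type*} [Group G] [Finite G]
    (S : Sylow 3 G) (Z : Subgroup G) (hZ : Z = (S : Subgroup G) ⊓ Subgroup.centralizer ((S : Subgroup G) : Set G))
    (C : Subgroup G) (hCZ : C = Subgroup.centralizer (Z : Set G))
    (Q : Subgroup G) (hQ : Q = (Cfsg.pCore 3 C).map C.subtype)
    (hQex : Cfsg.IsExtraspecial 3 Q) (hQcard : Nat.card Q = 3 ^ 5) (hQexp : ∀ a ∈ Q, a ^ 3 = 1)
    (hCQ : Subgroup.centralizer (Q : Set G) ≤ Q)
    (hZQ : ∃ x : G, Z.map (MulAut.conj x).toMonoidHom ≤ Q ∧ Z.map (MulAut.conj x).toMonoidHom ≠ Z)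
    (K : Subgroup G) (hK : K = ((Cfsg.pResidual 2 (C ⧸ Cfsg.pCore 3 C)).comap (QuotientGroup.mk' (Cfsg.pCore 3 C))).map C.subtype)
    (r : ℕ) (A : Fin (r + 1) → Subgroup G) (hA0 : A 0 = Z) (hAr : A (Fin.last r) = Q)
    (hmono : ∀ i : Fin r, A i.castSucc < A i.succ)
    (hinv : ∀ i : Fin (r + 1), ∀ k ∈ K, ∀ a ∈ A i, k * a * k⁻¹ ∈ A i)
    (hmax : ∀ i : Fin r, ∀ B : Subgroup G, A i.castSucc < B → B < A i.succ → ∃ k ∈ K, ∃ b ∈ B, k * b * k⁻¹ ∉ B)
    (e : Nonempty (C ⧸ Cfsg.pCore 3 C ≃* Matrix.SpecialLinearGroup (Fin 2) (ZMod 3)) ∨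
      Nonempty (C ⧸ Cfsg.pCore 3 C ≃* Matrix.SpecialLinearGroup (Fin 2) (ZMod 3) × Multiplicative (ZMod 2)))
    (hone : ∃! i : Fin r, (∃ k ∈ K, ∃ a ∈ A i.succ, k * a * k⁻¹ * a⁻¹ ∉ A i.castSucc)) :
    ∃ N : Subgroup G, N.Normal ∧ Nonempty (N ≃* Cfsg.Omega (ZMod 2) (Cfsg.quadFormPlus 4 (ZMod 2))) ∧
      Subgroup.centralizer (N : Set G) = ⊥ ∧ (N.index = 3 ∨ N.index = 6) := by
  obtain ⟨i, j, s, d⟩ : ∃ i j s : C ⧸ Cfsg.pCore 3 C, H351.OE.SLThree.Data i j s := by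
    rcases e with e | e <;> obtain ⟨e⟩ := e
    · exact ⟨_, _, _, H351.OE.SLThree.data1.map e.symm⟩
    · exact ⟨_, _, _, H351.OE.SLThree.data2.map e.symm⟩
  have hst : H351.OE.St S Z C Q K r A i j s :=
    ⟨hZ, hCZ, hQ, hQex, hQcard, hQexp, hCQ, hZQ, hK, hA0, hAr, hmono, hmax, hone, d⟩
  obtain ⟨z, t, g, h⟩ := hst.exists_full
  obtain ⟨hn, hs, -⟩ := h.toGl.simple
  exact h.final (@S0000.result (layer G) _ _ hs)

end Cfsg.Agent.S3372
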