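import Cfsg.Statements.S3376
import Mathlib
import Cfsg.Agent.H352.CentSym9
import Cfsg.Agent.H352.Order162

set_option autoImplicit false
open Cfsg

namespace Cfsg.Agent.S3376

/-- Let G be a group of order 162 = 3⁴·2 with Sylow 3-subgroup S and Sylow 2-subgroup T, having an elementary abelian normal subgroup J of order 27, such that Z = Z(S) has order 3, Z centralizes T, and C_S(T) ≠ S. Then G is isomorphic to the centralizer in Sym(9) of a product of three disjoint 3-cycles. -/
theorem result {G : Type*} [Group G] [Finite G] (hG : Nat.card G = 162)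
    (S : Sylow 3 G) (T : Sylow 2 G) (J : Subgroup G) [hJn : J.Normal] (hJcomm : IsMulCommutative J)
    (hJexp : ∀ a ∈ J, a ^ 3 = 1) (hJcard : Nat.card J = 27)
    (Z : Subgroup G) (hZ : Z = (S : Subgroup G) ⊓ Subgroup.centralizer ((S : Subgroup G) : Set G)) (hZcard : Nat.card Z = 3)
    (hZT : Z ≤ Subgroup.centralizer ((T : Subgroup G) : Set G))
    (hST : (S : Subgroup G) ⊓ Subgroup.centralizer ((T : Subgroup G) : Set G) ≠ S) :
    Nonempty (G ≃* Subgroup.centralizer ({Equiv.swap (0 : Fin 9) 1 * Equiv.swap 1 2 * Equiv.swap 3 4 * Equiv.swap 4 5 * Equiv.swap 6 7 * Equiv.swap 7 8} : Set (Equiv.Perm (Fin 9)))) := by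
  have f3 : Fact (Nat.Prime 3) := ⟨by norm_num⟩
  have f2 : Fact (Nat.Prime 2) := ⟨by norm_num⟩
  have h162 : (162 : ℕ) = 2 * 3 ^ 4 := by norm_num
  have hS : Nat.card (S : Subgroup G) = 81 := by
    rw [Sylow.card_eq_multiplicity, hG]
    have h1 : (162 : ℕ).factorization 3 = 4 := by
      rw [h162, Nat.factorization_mul (by norm_num) (by norm_num), Finsupp.add_apply,
        Nat.Prime.factorization_pow (by norm_num), Finsupp.single_eq_same,
        Nat.factorization_eq_zero_of_not_dvd (by norm_num)]
    rw [h1]; norm_num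
  have hT : Nat.card (T : Subgroup G) = 2 := by
    rw [Sylow.card_eq_multiplicity, hG]
    have h1 : (162 : ℕ).factorization 2 = 1 := by
      rw [h162, Nat.factorization_mul (by norm_num) (by norm_num), Finsupp.add_apply,
        Nat.Prime.factorization_self (by norm_num),
        Nat.factorization_eq_zero_of_not_dvd (by norm_num)]
    rw [h1, pow_one]
  obtain ⟨t, htT, ht1, hTall⟩ : ∃ t ∈ (T : Subgroup G), t ≠ 1 ∧ ∀ x ∈ (T : Subgroup G), x = 1 ∨ x = t := by
    obtain ⟨a, b, hab, huniv⟩ := Nat.card_eq_two_iff.1 hT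
    have h1 : (1 : (T : Subgroup G)) ∈ ({a, b} : Set (T : Subgroup G)) := by rw [huniv]; trivial
    have hn : ∀ n : (T : Subgroup G), n = a ∨ n = b := by
      intro n
      have : n ∈ ({a, b} : Set (T : Subgroup G)) := by rw [huniv]; trivial
      simpa using this
    rcases h1 with h1 | h1
    · refine ⟨b, b.2, ?_, ?_⟩
      · intro h
        apply hab
        rw [← h1]
        exact Subtype.ext h.symm
      · intro n hnN
        rcases hn ⟨n, hnN⟩ with h | h
        · left; rw [← h1] at h; exact congrArg Subtype.val h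
        · right; exact congrArg Subtype.val h
    · have h1' : (1 : (T : Subgroup G)) = b := h1
      refine ⟨a, a.2, ?_, ?_⟩
      · intro h
        apply hab
        rw [← h1']
        exact Subtype.ext h
      · intro n hnN
        rcases hn ⟨n, hnN⟩ with h | h
        · right; exact congrArg Subtype.val h
        · left; rw [← h1'] at h; exact congrArg Subtype.val h
  have ht2 : t ^ 2 = 1 := by
    rcases hTall _ (mul_mem htT htT) with h | h
    · rw [pow_two]; exact h
    · exact absurd (mul_eq_left.1 h) ht1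
  have hJS : J ≤ (S : Subgroup G) :=
    (IsPGroup.of_card (p := 3) (n := 3) (by rw [hJcard]; norm_num)).le_sylow_of_normal S
  have hSt : ∃ x ∈ (S : Subgroup G), t * x ≠ x * t := by
    by_contra hcon
    push Not at hcon
    apply hST
    rw [inf_eq_left]
    intro x hx
    rw [Subgroup.mem_centralizer_iff]
    intro y hy
    rcases hTall y hy with h | h
    · rw [h, one_mul, mul_one]
    · rw [h]; exact hcon x hx
  obtain ⟨e, s, t', hrels, hgen⟩ := Cfsg.Agent.H352.Order162.exists_rels hG (S : Subgroup G) J Z hS hJS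
    (fun a ha b hb => congrArg Subtype.val (hJcomm.is_comm.comm (⟨a, ha⟩ : J) ⟨b, hb⟩))
    hJexp hJcard hZ hZcard t ht2 ht1
    (fun z hz => (Subgroup.mem_centralizer_iff.1 (hZT hz)) t htT) hSt
  obtain ⟨e1⟩ := Cfsg.Agent.H352.Wreath162.presented_equiv (by rw [hG]) hrels hgen
  obtain ⟨e2⟩ := Cfsg.Agent.H352.CentSym9.presented_C
  exact ⟨e1.symm.trans e2⟩

end Cfsg.Agent.S3376
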