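import Cfsg.Statements.S3396
import Cfsg.Agent.S0348
import Cfsg.Agent.S1475
import Cfsg.Agent.S0144
import Cfsg.Agent.S0243
import Cfsg.Agent.ClassicalGeometry.PSLTorus
import Cfsg.Agent.ClassicalGeometry.PSL2Basic
import Cfsg.Agent.LieClassical.FieldTransfer
import Cfsg.Agent.Characters.FrobeniusNoFree
import Cfsg.Agent.SolvableStructure.MinimalNormal

set_option autoImplicit false
open Cfsg

namespace Cfsg.Agent.S3396

open Subgroup

/-- every element has order a power of two, or a prime other than five -/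
def Good (G : Type*) [Group G] : Prop :=
  ∀ g : G, (∃ k : ℕ, orderOf g = 2 ^ k) ∨ ((orderOf g).Prime ∧ orderOf g ≠ 5)

theorem good_of_hyp {G : Type*} [Group G]
    (hord : ∀ g : G, g ≠ 1 → (∃ k : ℕ, orderOf g = 2 ^ k) ∨ ((orderOf g).Prime ∧ orderOf g ≠ 5)) :
    Good G := by
  intro g
  by_cases h : g = 1
  · subst h
    exact Or.inl ⟨0, by simp⟩
  · exact hord g h

theorem Good.of_injective {G H : Type*} [Group G] [Group H] (h : Good G) (f : H →* G)
    (hf : Function.Injective f) : Good H := by
  intro x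
  have := h (f x)
  rwa [orderOf_injective f hf] at this

theorem Good.of_subgroup {G : Type*} [Group G] (h : Good G) (H : Subgroup G) : Good H :=
  h.of_injective H.subtype H.subtype_injective

theorem Good.of_mulEquiv {G H : Type*} [Group G] [Group H] (h : Good G) (e : G ≃* H) : Good H :=
  h.of_injective e.symm.toMonoidHom e.symm.injective

theorem Good.of_surjective {G H : Type*} [Group G] [Finite G] [Group H] (h : Good G) (f : G →* H)
    (hf : Function.Surjective f) : Good H := by
  intro y
  obtain ⟨x, rfl⟩ := hf y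
  have hd : orderOf (f x) ∣ orderOf x := orderOf_map_dvd f x
  rcases h x with ⟨k, hk⟩ | ⟨hp, h5⟩
  · rw [hk] at hd
    obtain ⟨j, -, hj⟩ := (Nat.dvd_prime_pow Nat.prime_two).1 hd
    exact Or.inl ⟨j, hj⟩
  · rcases (Nat.dvd_prime hp).1 hd with h1 | h1
    · exact Or.inl ⟨0, by simpa using h1⟩
    · right
      rw [h1]
      exact ⟨hp, h5⟩

/-- nontrivial commuting elements do not have coprime orders -/
theorem Good.comm {G : Type*} [Group G] [Finite G] (h : Good G) {x y : G} (hc : x * y = y * x)
    (hcop : (orderOf x).Coprime (orderOf y)) : x = 1 ∨ y = 1 := by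
  have hxy : orderOf (x * y) = orderOf x * orderOf y :=
    Commute.orderOf_mul_eq_mul_orderOf_of_coprime hc hcop
  rw [← orderOf_eq_one_iff, ← orderOf_eq_one_iff (x := y)]
  rcases h (x * y) with ⟨k, hk⟩ | ⟨hp, -⟩
  · rw [hxy] at hk
    obtain ⟨i, -, hi⟩ := (Nat.dvd_prime_pow Nat.prime_two).1 (Dvd.intro _ hk)
    obtain ⟨j, -, hj⟩ := (Nat.dvd_prime_pow Nat.prime_two).1 (Dvd.intro_left _ hk)
    rw [hi, hj] at hcop ⊢
    rcases Nat.eq_zero_or_pos i with h0 | h0
    · left; simp [h0]
    · rcases Nat.eq_zero_or_pos j with h1 | h1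
      · right; simp [h1]
      · exfalso
        have := Nat.dvd_gcd (dvd_pow_self 2 h0.ne') (dvd_pow_self 2 h1.ne')
        rw [Nat.Coprime] at hcop
        rw [hcop] at this
        omega
  · rw [hxy] at hp
    rcases Nat.prime_mul_iff.1 hp with ⟨-, h1⟩ | ⟨-, h1⟩
    · exact Or.inr h1
    · exact Or.inl h1

theorem Good.not_five {G : Type*} [Group G] [Finite G] (h : Good G) : ¬ 5 ∣ Nat.card G := by
  intro h5
  have : Fact (Nat.Prime 5) := ⟨by norm_num⟩
  obtain ⟨x, hx⟩ := exists_prime_orderOf_dvd_card' 5 h5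
  rcases h x with ⟨k, hk⟩ | ⟨-, hk⟩
  · rw [hx] at hk
    have := (Nat.prime_dvd_prime_iff_eq (by norm_num) Nat.prime_two).1
      ((by norm_num : Nat.Prime 5).dvd_of_dvd_pow (Dvd.intro_left 1 (by rw [one_mul]; exact hk) : 5 ∣ 2 ^ k))
    omega
  · exact hk hx

/-- the order of a cyclic subgroup is a power of two or a prime -/
theorem Good.card_cyclic {G : Type*} [Group G] [Finite G] (h : Good G) (C : Subgroup G)
    (hC : IsCyclic C) : (∃ k : ℕ, Nat.card C = 2 ^ k) ∨ (Nat.card C).Prime := by
  obtain ⟨g, hg⟩ := hC.exists_generator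
  have h1 : orderOf g = Nat.card C := orderOf_eq_card_of_forall_mem_zpowers hg
  have h2 := h (g : G)
  rw [Subgroup.orderOf_coe, h1] at h2
  rcases h2 with h2 | h2
  · exact Or.inl h2
  · exact Or.inr h2.1

theorem card_ge_three {G : Type*} [Group G] [Finite G] (h : ¬ Group.IsSolvable G) :
    3 ≤ (Nat.card G).primeFactors.card := by
  by_contra hlt
  push Not at hlt
  apply h
  have hn : Nat.card G ≠ 0 := Nat.card_pos.ne'
  have hfac := Nat.prod_factorization_pow_eq_self hn
  rw [Finsupp.prod, Nat.support_factorization] at hfac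
  have h3 : (Nat.card G).primeFactors.card = 0 ∨ (Nat.card G).primeFactors.card = 1 ∨
      (Nat.card G).primeFactors.card = 2 := by omega
  rcases h3 with h3 | h3 | h3
  · rw [Finset.card_eq_zero] at h3
    rw [h3, Finset.prod_empty] at hfac
    exact S0144.result 2 3 0 0 Nat.prime_two Nat.prime_three (by simpa using hfac.symm)
  · obtain ⟨p, hp⟩ := Finset.card_eq_one.1 h3
    have hpp : p.Prime := Nat.prime_of_mem_primeFactors (by rw [hp]; simp)
    rw [hp, Finset.prod_singleton] at hfac
    exact S0144.result p 2 ((Nat.card G).factorization p) 0 hpp Nat.prime_two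
      (by rw [pow_zero, mul_one]; exact hfac.symm)
  · obtain ⟨p, q, hpq, hs⟩ := Finset.card_eq_two.1 h3
    have hpp : p.Prime := Nat.prime_of_mem_primeFactors (by rw [hs]; simp)
    have hqp : q.Prime := Nat.prime_of_mem_primeFactors (by rw [hs]; simp)
    rw [hs, Finset.prod_pair hpq] at hfac
    exact S0144.result p q _ _ hpp hqp hfac.symm

/-! ### the simple groups -/

theorem not_three_dvd {n : ℕ} (h2 : ∀ k, n ≠ 2 ^ k) : n ≠ 1 := by
  intro h
  exact h2 0 (by simpa using h)

theorem three_dvd_of_odd {n : ℕ} (hn : Odd n) : 3 ∣ 2 ^ n + 1 := by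
  obtain ⟨m, rfl⟩ := hn
  rw [pow_add, pow_mul]
  have : (4 : ℕ) ^ m % 3 = 1 := by
    rw [Nat.pow_mod]; simp
  norm_num
  omega

theorem three_dvd_of_even {n : ℕ} (hn : Even n) : 3 ∣ 2 ^ n - 1 := by
  obtain ⟨m, rfl⟩ := hn
  have h1 : (2 : ℕ) ^ (m + m) = 4 ^ m := by rw [← two_mul, pow_mul]; norm_num
  have : (4 : ℕ) ^ m % 3 = 1 := by
    rw [Nat.pow_mod]; simp
  rw [h1]
  omega

theorem not_pow_two_of_odd {n k : ℕ} (hn : Odd n) (h1 : n ≠ 1) : n ≠ 2 ^ k := by
  rintro rfl
  rcases Nat.eq_zero_or_pos k with h | h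
  · subst h; simp at h1
  · exact (Nat.not_odd_iff_even.2 ((Nat.even_pow.2 ⟨even_two, h.ne'⟩))) hn

/-- the split torus -/
theorem exists_split (F : Type*) [Field F] [Fintype F] :
    ∃ C : Subgroup (Matrix.ProjectiveSpecialLinearGroup (Fin 2) F),
      IsCyclic C ∧ (Fintype.card F - 1) ∣ 2 * Nat.card C := by
  classical
  let diagHom : Fˣ →* Matrix.SpecialLinearGroup (Fin 2) F :=
    { toFun := fun a => ⟨!![(a : F), 0; 0, ((a⁻¹ : Fˣ) : F)], by simp [Matrix.det_fin_two]⟩
      map_one' := by
        apply Subtype.ext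
        ext i j
        fin_cases i <;> fin_cases j <;> simp
      map_mul' := fun a b => by
        apply Subtype.ext
        change !![((a * b : Fˣ) : F), 0; 0, (((a * b)⁻¹ : Fˣ) : F)] =
          !![(a : F), 0; 0, ((a⁻¹ : Fˣ) : F)] * !![(b : F), 0; 0, ((b⁻¹ : Fˣ) : F)]
        rw [Matrix.mul_fin_two]
        simp [mul_comm] }
  let f : Fˣ →* Matrix.ProjectiveSpecialLinearGroup (Fin 2) F :=
    (Cfsg.Agent.ClassicalGeometry.PSLTorus.pr F).comp diagHom
  have h1 : Nat.card f.ker ≤ 2 := by
    let S : Set Fˣ := {1, -1}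
    have hS : Nat.card S ≤ 2 := by
      rw [Nat.card_coe_set_eq]
      exact Set.ncard_insert_le 1 {-1} |>.trans (by simp)
    refine (Nat.card_mono (Set.toFinite S) ?_).trans hS
    intro a ha
    have h2 : f a = 1 := ha
    have h3 := (Cfsg.Agent.ClassicalGeometry.PSLTorus.pr_eq_one_iff (diagHom a)).1 h2
    rcases h3 with h3 | h3
    · left
      have h4 := congrArg (fun g : Matrix.SpecialLinearGroup (Fin 2) F => (g : Matrix (Fin 2) (Fin 2) F) 0 0) h3
      apply Units.ext
      exact h4
    · right
      have h4 := congrArg (fun g : Matrix.SpecialLinearGroup (Fin 2) F => (g : Matrix (Fin 2) (Fin 2) F) 0 0) h3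
      apply Units.ext
      exact h4
  refine ⟨f.range, isCyclic_of_surjective f.rangeRestrict f.rangeRestrict_surjective, ?_⟩
  have h2 : Nat.card f.range * Nat.card f.ker = Fintype.card F - 1 := by
    have h3 := Subgroup.card_eq_card_quotient_mul_card_subgroup f.ker
    rw [Nat.card_congr (QuotientGroup.quotientKerEquivRange f).toEquiv, Nat.card_eq_fintype_card,
      Fintype.card_units] at h3
    exact h3.symm
  have h3 : 0 < Nat.card f.ker := Nat.card_pos
  rw [← h2]
  have h4 : Nat.card f.ker = 1 ∨ Nat.card f.ker = 2 := by omega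
  rcases h4 with h4 | h4
  · rw [h4, mul_one]; exact dvd_mul_left _ _
  · rw [h4, mul_comm]

theorem psl_two (F : Type) [Field F] [Fintype F] (hG : Good (Matrix.ProjectiveSpecialLinearGroup (Fin 2) F))
    (h3 : ¬ Group.IsSolvable (Matrix.ProjectiveSpecialLinearGroup (Fin 2) F))
    (hF : Fintype.card F = 9 ∨ (∃ n : ℕ, Fintype.card F = 2 ^ n) ∨
          ((Fintype.card F).Prime ∧ ∃ k : ℕ, Fintype.card F = 2 ^ k + 1 ∨ Fintype.card F + 1 = 2 ^ k)) :
    Fintype.card F = 7 := by
  have h5 := hG.not_five
  obtain ⟨C, -, -, -, hCc, hC, -, -⟩ := ClassicalGeometry.PSLTorus.exists_psl_torus F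
  obtain ⟨D, hDc, hD⟩ := exists_split F
  have hC' := hG.card_cyclic C hCc
  have hD' := hG.card_cyclic D hDc
  have hcard := ClassicalGeometry.PSL2Basic.card_PSL2_gcd (F := F)
  have h2' : Fintype.card F ≠ 2 := by
    intro h
    rw [h] at hcard
    apply h3
    exact S0144.result 2 3 1 1 Nat.prime_two Nat.prime_three (by norm_num at hcard ⊢; omega)
  have h3' : Fintype.card F ≠ 3 := by
    intro h
    rw [h] at hcard
    apply h3
    exact S0144.result 2 3 2 1 Nat.prime_two Nat.prime_three (by norm_num at hcard ⊢; omega)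
  have hq1 : 1 < Fintype.card F := Fintype.one_lt_card
  rcases hF with hF | ⟨n, hn⟩ | ⟨hp, k, hk⟩
  · exfalso
    rw [hF] at hcard
    apply h5
    norm_num at hcard
    omega
  · exfalso
    have hn2 : 2 ≤ n := by
      by_contra hlt
      have : n = 0 ∨ n = 1 := by omega
      rcases this with rfl | rfl <;> norm_num at hn <;> omega
    have hev : Even (Fintype.card F) := by
      rw [hn]
      exact Nat.even_pow.2 ⟨even_two, by omega⟩
    have hcard' := ClassicalGeometry.PSL2Basic.card_PSL2_even (F := F) hev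
    rcases Nat.even_or_odd n with he | ho
    · obtain ⟨m, rfl⟩ := he
      apply h5
      rw [hcard', hn]
      apply Dvd.dvd.mul_left
      have h4 : ((2 : ℕ) ^ (m + m)) ^ 2 = 16 ^ m := by
        rw [← pow_mul, show (m + m) * 2 = 4 * m by ring, pow_mul]; norm_num
      rw [h4]
      have : (16 : ℕ) ^ m % 5 = 1 := by rw [Nat.pow_mod]; simp
      omega
    · have hgcd : Nat.gcd 2 (Fintype.card F - 1) = 1 := by
        have : Odd (Fintype.card F - 1) := by
          obtain ⟨r, hr⟩ := hev
          exact ⟨r - 1, by omega⟩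
        exact (Nat.coprime_two_left.2 this)
      rw [hgcd, Nat.div_one, hn] at hC
      have h3d := three_dvd_of_odd ho
      have hge : 4 ≤ 2 ^ n := by
        calc 4 = 2 ^ 2 := by norm_num
          _ ≤ 2 ^ n := Nat.pow_le_pow_right (by norm_num) hn2
      have hodd : Odd (2 ^ n + 1) := by
        rw [← hn]; exact hev.add_one
      rw [hC] at hC'
      rcases hC' with ⟨k, hk⟩ | hk
      · exact not_pow_two_of_odd hodd (by omega) hk
      · have := (Nat.prime_dvd_prime_iff_eq Nat.prime_three hk).1 h3d
        omega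
  · have hp5 : Fintype.card F ≠ 5 := by
      intro h
      apply h5
      rw [h] at hcard
      norm_num at hcard
      omega
    have hodd : Odd (Fintype.card F) := hp.odd_of_ne_two h2'
    have hgcd : Nat.gcd 2 (Fintype.card F - 1) = 2 :=
      Nat.gcd_eq_left ((Nat.Odd.sub_odd hodd odd_one).two_dvd)
    have hge : 5 < Fintype.card F := by
      have := hp.two_le
      have h4 : Fintype.card F ≠ 4 := by
        intro h
        rw [h] at hp
        norm_num at hp
      omega
    rcases hk with hk | hk
    · exfalso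
      rw [hgcd] at hC
      have hk3 : 3 ≤ k := by
        by_contra hlt
        have : k = 0 ∨ k = 1 ∨ k = 2 := by omega
        rcases this with rfl | rfl | rfl <;> norm_num at hk <;> omega
      have hke : Even k := by
        by_contra h
        have h1 := three_dvd_of_odd (Nat.not_even_iff_odd.1 h)
        rw [← hk] at h1
        have := (Nat.prime_dvd_prime_iff_eq Nat.prime_three hp).1 h1
        omega
      obtain ⟨j, rfl⟩ : ∃ j, k = j + 1 := ⟨k - 1, by omega⟩
      have hjo : Odd j := by
        by_contra h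
        exact (Nat.not_even_iff_odd.2 (Nat.not_odd_iff_even.1 h).add_one) hke
      have hC2 : Nat.card C = 2 ^ j + 1 := by
        rw [hC, hk, pow_succ]
        omega
      have h3d := three_dvd_of_odd hjo
      have hj4 : 4 ≤ 2 ^ j := by
        calc 4 = 2 ^ 2 := by norm_num
          _ ≤ 2 ^ j := Nat.pow_le_pow_right (by norm_num) (by omega)
      have hodd' : Odd (2 ^ j + 1) := (Nat.even_pow.2 ⟨even_two, by omega⟩).add_one
      rw [hC2] at hC'
      rcases hC' with ⟨k, hk⟩ | hk
      · exact not_pow_two_of_odd hodd' (by omega) hk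
      · have := (Nat.prime_dvd_prime_iff_eq Nat.prime_three hk).1 h3d
        omega
    · have hk3 : 3 ≤ k := by
        by_contra hlt
        have : k = 0 ∨ k = 1 ∨ k = 2 := by omega
        rcases this with rfl | rfl | rfl <;> norm_num at hk <;> omega
      have hko : Odd k := by
        by_contra h
        have h1 := three_dvd_of_even (Nat.not_odd_iff_even.1 h)
        have h2 : 2 ^ k - 1 = Fintype.card F := by omega
        rw [h2] at h1
        have := (Nat.prime_dvd_prime_iff_eq Nat.prime_three hp).1 h1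
        omega
      obtain ⟨j, rfl⟩ : ∃ j, k = j + 1 := ⟨k - 1, by omega⟩
      have hje : Even j := by
        by_contra h
        exact (Nat.not_odd_iff_even.2 (Nat.not_even_iff_odd.1 h).add_one) hko
      have h3d := three_dvd_of_even hje
      have hj4 : 4 ≤ 2 ^ j := by
        calc 4 = 2 ^ 2 := by norm_num
          _ ≤ 2 ^ j := Nat.pow_le_pow_right (by norm_num) (by omega)
      have hD2 : (2 ^ j - 1) ∣ Nat.card D := by
        have h1 : Fintype.card F - 1 = 2 * (2 ^ j - 1) := by
          rw [pow_succ] at hk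
          omega
        rw [h1] at hD
        exact Nat.dvd_of_mul_dvd_mul_left (by norm_num) hD
      have hodd' : Odd (2 ^ j - 1) := by
        obtain ⟨r, hr⟩ := (Nat.even_pow.2 ⟨even_two, by omega⟩ : Even (2 ^ j))
        exact ⟨r - 1, by omega⟩
      rcases hD' with ⟨i, hi⟩ | hi
      · exfalso
        rw [hi] at hD2
        obtain ⟨i', -, hi'⟩ := (Nat.dvd_prime_pow Nat.prime_two).1 hD2
        exact not_pow_two_of_odd hodd' (by omega) hi'
      · have h4 := h3d.trans hD2
        have h5 := (Nat.prime_dvd_prime_iff_eq Nat.prime_three hi).1 h4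
        rw [← h5] at hD2
        have h6 := Nat.le_of_dvd (by norm_num) hD2
        have h7 : 2 ^ j = 4 := by omega
        rw [pow_succ, h7] at hk
        omega

theorem psl_three (F : Type) [Field F] [Fintype F] (hF : Fintype.card F = 4)
    (hG : Good (Matrix.ProjectiveSpecialLinearGroup (Fin 3) F)) : False := by
  have h := S0243.result hF 3 (by norm_num)
  apply hG.not_five
  rw [Fin.prod_univ_three] at h
  norm_num at h
  omega

theorem suzuki {G : Type*} [Group G] [Finite G] (hG : Good G) (h : Cfsg.IsSuzuki G) : False := by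
  obtain ⟨-, m, -, hm⟩ := h
  apply hG.not_five
  rw [hm]
  apply Dvd.dvd.mul_right
  apply Dvd.dvd.mul_left
  have h4 : ((2 : ℕ) ^ (2 * m + 1)) ^ 2 = 4 * 16 ^ m := by
    rw [← pow_mul, show (2 * m + 1) * 2 = 4 * m + 2 by ring, pow_add, pow_mul]; norm_num
    ring
  rw [h4]
  have : (16 : ℕ) ^ m % 5 = 1 := by rw [Nat.pow_mod]; simp
  omega

theorem simple {G : Type*} [Group G] [Finite G] [IsSimpleGroup G] (hG : Good G)
    (hns : ¬ Group.IsSolvable G) {F : Type*} [Field F] [Fintype F] (hF : Fintype.card F = 7) :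
    Nonempty (G ≃* Matrix.ProjectiveSpecialLinearGroup (Fin 2) F) := by
  have hnc : ∃ a b : G, a * b ≠ b * a := by
    by_contra h
    push Not at h
    exact hns (IsSimpleGroup.comm_iff_isSolvable.1 h)
  have hCIT : ∀ t : G, orderOf t = 2 → IsPGroup 2 (Subgroup.centralizer ({t} : Set G)) := by
    intro t ht
    rw [IsPGroup.iff_orderOf]
    intro x
    rw [← Subgroup.orderOf_coe]
    rcases hG (x : G) with h | ⟨hp, -⟩
    · exact h
    · by_cases h2 : orderOf (x : G) = 2
      · exact ⟨1, by rw [h2, pow_one]⟩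
      · exfalso
        have hc : (x : G) * t = t * x := (Subgroup.mem_centralizer_singleton_iff.1 x.2)
        rcases hG.comm hc (by rw [ht]; exact (Nat.coprime_primes hp Nat.prime_two).2 h2) with h1 | h1
        · rw [h1, orderOf_one] at hp
          exact Nat.not_prime_one hp
        · rw [h1, orderOf_one] at ht
          omega
  rcases S0348.result hnc hCIT with ⟨K, _, _, hK, ⟨e⟩⟩ | ⟨K, _, _, hK, ⟨e⟩⟩ | h
  · have hns' : ¬ Group.IsSolvable (Matrix.ProjectiveSpecialLinearGroup (Fin 2) K) := by
      intro h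
      exact hns (Group.isSolvable_of_isSolvable_injective (f := e.toMonoidHom) e.injective)
    have h7 := psl_two K (hG.of_mulEquiv e) hns' hK
    let σ : K ≃+* F := FiniteField.ringEquivOfCardEq (by rw [h7, hF])
    exact ⟨e.trans (LieClassical.FieldTransfer.pslCongr σ)⟩
  · exact (psl_three K hK (hG.of_mulEquiv e)).elim
  · exact (suzuki hG h).elim

/-! ### the general case -/

theorem card_psl {F : Type*} [Field F] [Fintype F] (hF : Fintype.card F = 7) :
    Nat.card (Matrix.ProjectiveSpecialLinearGroup (Fin 2) F) = 168 := by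
  have hcard := ClassicalGeometry.PSL2Basic.card_PSL2_gcd (F := F)
  rw [hF] at hcard
  norm_num at hcard
  omega

/-- the centraliser of a subgroup of odd prime order is a `p`-group -/
theorem Good.isPGroup_centralizer {G : Type*} [Group G] [Finite G] (hG : Good G) {p : ℕ}
    (hp : p.Prime) (hp2 : p ≠ 2) (P : Subgroup G) (hP : Nat.card P = p) :
    IsPGroup p (Subgroup.centralizer (P : Set G)) := by
  have : Fact p.Prime := ⟨hp⟩
  obtain ⟨x, hx⟩ := exists_prime_orderOf_dvd_card' (G := P) p (by rw [hP])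
  rw [IsPGroup.iff_orderOf]
  intro c
  rw [← Subgroup.orderOf_coe]
  rw [← Subgroup.orderOf_coe] at hx
  by_cases h1 : (orderOf (c : G)).Coprime (orderOf (x : G))
  · have hc : (c : G) * x = x * c := (Subgroup.mem_centralizer_iff.1 c.2 x x.2).symm
    rcases hG.comm hc h1 with h | h
    · exact ⟨0, by rw [h, orderOf_one, pow_zero]⟩
    · rw [h, orderOf_one] at hx
      exact absurd hx hp.one_lt.ne
  · rw [hx] at h1
    have h2 : p ∣ orderOf (c : G) := by
      rw [Nat.coprime_comm] at h1
      by_contra h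
      exact h1 ((Nat.Prime.coprime_iff_not_dvd hp).2 h)
    rcases hG (c : G) with ⟨k, hk⟩ | ⟨h3, -⟩
    · rw [hk] at h2
      exact absurd ((Nat.prime_dvd_prime_iff_eq hp Nat.prime_two).1 (hp.dvd_of_dvd_pow h2)) hp2
    · refine ⟨1, ?_⟩
      rw [pow_one]
      exact ((Nat.prime_dvd_prime_iff_eq hp h3).1 h2).symm

theorem Good.normalizer_dvd {G : Type*} [Group G] [Finite G] (hG : Good G) {p : ℕ}
    (hp : p.Prime) (hp2 : p ≠ 2) (P : Subgroup G) (hP : Nat.card P = p) :
    ∃ b : ℕ, Nat.card (Subgroup.normalizer (P : Set G)) ∣ (p - 1) * p ^ b := by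
  have : Fact p.Prime := ⟨hp⟩
  have hcyc : IsCyclic P := isCyclic_of_prime_card hP
  have hpg := hG.isPGroup_centralizer hp hp2 P hP
  obtain ⟨b, hb⟩ := IsPGroup.iff_card.1 hpg
  refine ⟨b, ?_⟩
  let f := P.normalizerMonoidHom
  have h1 : Nat.card f.range ∣ p - 1 := by
    have h2 := Subgroup.card_subgroup_dvd_card f.range
    rwa [IsCyclic.card_mulAut, hP, Nat.totient_prime hp] at h2
  have h2 : Nat.card f.range * Nat.card f.ker = Nat.card (Subgroup.normalizer (P : Set G)) := by
    have h3 := Subgroup.card_eq_card_quotient_mul_card_subgroup f.ker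
    rw [Nat.card_congr (QuotientGroup.quotientKerEquivRange f).toEquiv] at h3
    exact h3.symm
  rw [← h2]
  apply Nat.mul_dvd_mul h1
  rw [← hb]
  have h3 : f.ker = (Subgroup.centralizer (P : Set G)).subgroupOf (Subgroup.normalizer (P : Set G)) :=
    P.normalizerMonoidHom_ker
  rw [h3]
  exact Subgroup.card_comap_dvd_of_injective _ _ (Subgroup.subtype_injective _)

/-- Frattini: `|G : N| |N_N(P)|` divides `(p - 1) p ^ b` -/
theorem Good.frattini {G : Type*} [Group G] [Finite G] (hG : Good G) (N : Subgroup G) [N.Normal]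
    {p : ℕ} [Fact p.Prime] (hp2 : p ≠ 2) (P : Sylow p N) (hP : Nat.card P = p) :
    ∃ b : ℕ, N.index * Nat.card (Subgroup.normalizer ((P : Subgroup N) : Set N)) ∣ (p - 1) * p ^ b := by
  have hp : p.Prime := Fact.out
  let P' : Subgroup G := (P : Subgroup N).map N.subtype
  have hP' : Nat.card P' = p := by
    rw [← hP]
    exact Nat.card_congr ((P : Subgroup N).equivMapOfInjective N.subtype N.subtype_injective).symm.toEquiv
  obtain ⟨b, hb⟩ := hG.normalizer_dvd hp hp2 P' hP'
  refine ⟨b, ?_⟩
  have h1 : Subgroup.normalizer (P' : Set G) ⊔ N = ⊤ := Sylow.normalizer_sup_eq_top P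
  have h2 : N.index = N.relIndex (Subgroup.normalizer (P' : Set G)) := by
    rw [← Subgroup.relIndex_top_right, ← h1]
    exact Subgroup.relIndex_sup_right _ _
  have h3 : Nat.card (Subgroup.normalizer ((P : Subgroup N) : Set N)) =
      Nat.card (N.subgroupOf (Subgroup.normalizer (P' : Set G))) := by
    let f : Subgroup.normalizer ((P : Subgroup N) : Set N) → N.subgroupOf (Subgroup.normalizer (P' : Set G)) :=
      fun x => ⟨⟨((x : N) : G), by
        rw [Subgroup.mem_normalizer_iff]
        intro h
        constructor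
        · rintro ⟨y, hy, rfl⟩
          have hx := (Subgroup.mem_normalizer_iff.1 x.2 y).1 hy
          exact ⟨_, hx, rfl⟩
        · rintro ⟨y, hy, hy'⟩
          have hhN : h ∈ N := by
            have h5 : (x : N).1 * h * (x : N).1⁻¹ ∈ N := by
              rw [← hy']; exact y.2
            have h6 : h = (x : N).1⁻¹ * ((x : N).1 * h * (x : N).1⁻¹) * (x : N).1 := by group
            rw [h6]
            exact N.mul_mem (N.mul_mem (N.inv_mem (x : N).2) h5) (x : N).2
          refine ⟨⟨h, hhN⟩, ?_, rfl⟩
          apply (Subgroup.mem_normalizer_iff.1 x.2 ⟨h, hhN⟩).2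
          have h7 : (x : N) * ⟨h, hhN⟩ * (x : N)⁻¹ = y := Subtype.ext hy'.symm
          rw [h7]
          exact hy⟩, (x : N).2⟩
    apply Nat.card_congr
    refine Equiv.ofBijective f ⟨?_, ?_⟩
    · intro x y hxy
      have h4 : (((x : N) : G)) = ((y : N) : G) := congrArg (fun z => ((z.1 : Subgroup.normalizer (P' : Set G)) : G)) hxy
      exact Subtype.ext (Subtype.ext h4)
    · rintro ⟨⟨x, hx⟩, hxN⟩
      have hxN' : x ∈ N := hxN
      refine ⟨⟨⟨x, hxN'⟩, ?_⟩, rfl⟩
      rw [Subgroup.mem_normalizer_iff]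
      intro h
      have h5 := Subgroup.mem_normalizer_iff.1 hx (h : G)
      have h6 : ∀ y : N, (y : G) ∈ P' ↔ y ∈ (P : Subgroup N) := by
        intro y
        constructor
        · rintro ⟨z, hz, hzy⟩
          have : z = y := Subtype.ext hzy
          rwa [← this]
        · intro hy
          exact ⟨y, hy, rfl⟩
      have h7 := h6 h
      have h8 := h6 (⟨x, hxN'⟩ * h * ⟨x, hxN'⟩⁻¹)
      exact h7.symm.trans (h5.trans h8)
  rw [h2, h3, mul_comm, Subgroup.relIndex, Subgroup.card_mul_index]
  exact hb

theorem exists_sylow_card {N : Type*} [Group N] [Finite N] (hN : Nat.card N = 168) {p : ℕ}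
    [hp : Fact p.Prime] (h : p = 3 ∨ p = 7) (P : Sylow p N) : Nat.card P = p := by
  rw [P.card_eq_multiplicity, hN]
  rcases h with rfl | rfl
  · have h1 : (168 : ℕ) = 3 * 56 := by norm_num
    rw [h1, Nat.factorization_mul (by norm_num) (by norm_num), Finsupp.add_apply,
      Nat.Prime.factorization_self (by norm_num), Nat.factorization_eq_zero_of_not_dvd (by norm_num)]
    norm_num
  · have h1 : (168 : ℕ) = 7 * 24 := by norm_num
    rw [h1, Nat.factorization_mul (by norm_num) (by norm_num), Finsupp.add_apply,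
      Nat.Prime.factorization_self (by norm_num), Nat.factorization_eq_zero_of_not_dvd (by norm_num)]
    norm_num

set_option maxRecDepth 20000 in
theorem key_three : ∀ a : Fin 169, a.1 ∣ 168 → 3 ∣ a.1 → ¬ 7 ∣ a.1 → ¬ 4 ∣ a.1 → a.1 = 3 ∨ a.1 = 6 := by decide

set_option maxRecDepth 20000 in
theorem key_seven : ∀ a : Fin 169, a.1 ∣ 168 → 7 ∣ a.1 → ¬ 4 ∣ a.1 →
    a.1 = 7 ∨ a.1 = 14 ∨ a.1 = 21 ∨ a.1 = 42 := by decide

theorem four {p k d : ℕ} (hp : p.Prime) (hp2 : p ≠ 2) (hd : ¬ 2 ∣ d) : ¬ 4 ∣ 2 * d * p ^ k := by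
  intro h
  have h2 : Nat.Prime 2 := Nat.prime_two
  have h1 : 2 ∣ d * p ^ k := by
    rw [mul_assoc, show 4 = 2 * 2 by norm_num] at h
    exact Nat.dvd_of_mul_dvd_mul_left (by norm_num) h
  rcases (h2.dvd_mul).1 h1 with h3 | h3
  · exact hd h3
  · exact hp2 ((Nat.prime_dvd_prime_iff_eq h2 hp).1 (h2.dvd_of_dvd_pow h3)).symm

theorem card_norm_three {N : Type*} [Group N] [Finite N] (hG : Good N) (hN : Nat.card N = 168)
    [Fact (Nat.Prime 3)] (P : Sylow 3 N) :
    Nat.card (Subgroup.normalizer ((P : Subgroup N) : Set N)) = 6 := by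
  have hP := exists_sylow_card hN (Or.inl rfl) P
  obtain ⟨b', hb'⟩ := hG.normalizer_dvd Nat.prime_three (by norm_num) (P : Subgroup N) hP
  have h3' := card_sylow_modEq_one 3 N
  rw [P.card_eq_index_normalizer] at h3'
  have hPi := Subgroup.card_mul_index (Subgroup.normalizer ((P : Subgroup N) : Set N))
  rw [hN] at hPi
  have hPd : 3 ∣ Nat.card (Subgroup.normalizer ((P : Subgroup N) : Set N)) := by
    have := Subgroup.card_dvd_of_le (Subgroup.le_normalizer (H := (P : Subgroup N)))
    rwa [hP] at this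
  generalize Nat.card (Subgroup.normalizer ((P : Subgroup N) : Set N)) = a at *
  generalize (Subgroup.normalizer ((P : Subgroup N) : Set N)).index = i at *
  have ha : a ∣ 168 := Dvd.intro _ hPi
  have hlt := Nat.le_of_dvd (by norm_num) ha
  have h7 : ¬ 7 ∣ a := by
    intro h
    have h8 := h.trans hb'
    have h9 : Nat.Prime 7 := by norm_num
    rcases (h9.dvd_mul).1 h8 with h10 | h10
    · revert h10; norm_num
    · have := (Nat.prime_dvd_prime_iff_eq h9 Nat.prime_three).1 (h9.dvd_of_dvd_pow h10)
      omega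
  have h4 : ¬ 4 ∣ a := by
    intro h
    refine four (p := 3) (k := b') (d := 1) Nat.prime_three (by norm_num) (by norm_num) ?_
    simpa using h.trans hb'
  rcases key_three ⟨a, by omega⟩ ha hPd h7 h4 with h | h
  · exfalso
    have h' : a = 3 := h
    subst h'
    have : i = 56 := by omega
    subst this
    revert h3'
    decide
  · exact h

theorem card_norm_seven {N : Type*} [Group N] [Finite N] (hG : Good N) (hN : Nat.card N = 168)
    [Fact (Nat.Prime 7)] (Q : Sylow 7 N) :
    Nat.card (Subgroup.normalizer ((Q : Subgroup N) : Set N)) = 21 := by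
  have hQ := exists_sylow_card hN (Or.inr rfl) Q
  obtain ⟨c', hc'⟩ := hG.normalizer_dvd (by norm_num : Nat.Prime 7) (by norm_num) (Q : Subgroup N) hQ
  have h7' := card_sylow_modEq_one 7 N
  rw [Q.card_eq_index_normalizer] at h7'
  have hQi := Subgroup.card_mul_index (Subgroup.normalizer ((Q : Subgroup N) : Set N))
  rw [hN] at hQi
  have hQd : 7 ∣ Nat.card (Subgroup.normalizer ((Q : Subgroup N) : Set N)) := by
    have := Subgroup.card_dvd_of_le (Subgroup.le_normalizer (H := (Q : Subgroup N)))
    rwa [hQ] at this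
  generalize Nat.card (Subgroup.normalizer ((Q : Subgroup N) : Set N)) = a' at *
  generalize (Subgroup.normalizer ((Q : Subgroup N) : Set N)).index = i' at *
  have ha' : a' ∣ 168 := Dvd.intro _ hQi
  have hlt' := Nat.le_of_dvd (by norm_num) ha'
  have h4 : ¬ 4 ∣ a' := by
    intro h
    refine four (p := 7) (k := c') (d := 3) (by norm_num) (by norm_num) (by norm_num) ?_
    simpa using h.trans hc'
  rcases key_seven ⟨a', by omega⟩ ha' hQd h4 with h | h | h | h
  · exfalso
    have h' : a' = 7 := h
    subst h'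
    have : i' = 24 := by omega
    subst this
    revert h7'
    decide
  · exfalso
    have h' : a' = 14 := h
    subst h'
    have : i' = 12 := by omega
    subst this
    revert h7'
    decide
  · exact h
  · exfalso
    have h' : a' = 42 := h
    subst h'
    have : i' = 4 := by omega
    subst this
    revert h7'
    decide

/-- the nonsolvable normal subgroups -/
theorem index_eq_one {G : Type*} [Group G] [Finite G] (hG : Good G) (N : Subgroup G) [N.Normal]
    (hN : Nat.card N = 168) : N.index = 1 := by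
  have h3 : Fact (Nat.Prime 3) := ⟨by norm_num⟩
  have h7 : Fact (Nat.Prime 7) := ⟨by norm_num⟩
  obtain ⟨P⟩ : Nonempty (Sylow 3 N) := inferInstance
  obtain ⟨Q⟩ : Nonempty (Sylow 7 N) := inferInstance
  have hP := exists_sylow_card hN (Or.inl rfl) P
  have hQ := exists_sylow_card hN (Or.inr rfl) Q
  obtain ⟨b, hb⟩ := hG.frattini N (by norm_num) P hP
  obtain ⟨c, hc⟩ := hG.frattini N (by norm_num) Q hQ
  rw [card_norm_three (hG.of_subgroup N) hN P] at hb
  rw [card_norm_seven (hG.of_subgroup N) hN Q] at hc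
  have hm3 : N.index ∣ 3 ^ b := by
    have h1 : 2 * (3 * N.index) ∣ 2 * 3 ^ b := by
      refine dvd_trans (Dvd.intro 1 (by ring)) hb
    exact (Dvd.intro_left _ rfl).trans (Nat.dvd_of_mul_dvd_mul_left (by norm_num) h1)
  have hm7 : N.index ∣ 2 * 7 ^ c := by
    have h1 : 3 * (7 * N.index) ∣ 3 * (2 * 7 ^ c) := by
      refine dvd_trans (Dvd.intro 1 (by ring)) (hc.trans (Dvd.intro 1 (by ring)))
    exact (Dvd.intro_left _ rfl).trans (Nat.dvd_of_mul_dvd_mul_left (by norm_num) h1)
  have hcop : (3 ^ b).Coprime (2 * 7 ^ c) := by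
    apply Nat.Coprime.pow_left
    apply Nat.Coprime.mul_right
    · norm_num
    · apply Nat.Coprime.pow_right
      norm_num
  exact Nat.dvd_one.1 (hcop ▸ Nat.dvd_gcd hm3 hm7)

/-- an involution of a good group inverts every abelian normal subgroup of odd exponent -/
theorem Good.inverts {G : Type*} [Group G] [Finite G] (hG : Good G) (N : Subgroup G) [hN : N.Normal]
    {p : ℕ} (hp : p.Prime) (hp2 : p ≠ 2) (hcomm : ∀ a ∈ N, ∀ b ∈ N, a * b = b * a)
    (hexp : ∀ a ∈ N, a ^ p = 1) {t : G} (ht : orderOf t = 2) {v : G} (hv : v ∈ N) :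
    t * v * t⁻¹ = v⁻¹ := by
  have ht1 : t ≠ 1 := by
    rintro rfl
    rw [orderOf_one] at ht
    omega
  have htt : t * t = 1 := by
    have := pow_orderOf_eq_one t
    rwa [ht, pow_two] at this
  have hti : t⁻¹ = t := inv_eq_of_mul_eq_one_left htt
  have hw : t * v * t⁻¹ ∈ N := hN.conj_mem v hv t
  have hc : v * (t * v * t⁻¹) * t = t * (v * (t * v * t⁻¹)) := by
    have h1 : v * (t * v * t⁻¹) = (t * v * t⁻¹) * v := hcomm _ hv _ hw
    rw [h1, hti]
    rw [hti] at h1
    calc t * v * t * v * t = t * (v * (t * v * t)) := by group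
      _ = t * ((t * v * t) * v) := by rw [h1]
  have hord : (orderOf (v * (t * v * t⁻¹))).Coprime (orderOf t) := by
    rw [ht]
    have h1 : orderOf (v * (t * v * t⁻¹)) ∣ p := orderOf_dvd_of_pow_eq_one (hexp _ (N.mul_mem hv hw))
    exact Nat.Coprime.coprime_dvd_left h1 ((Nat.coprime_primes hp Nat.prime_two).2 hp2)
  rcases hG.comm hc hord with h | h
  · exact eq_inv_of_mul_eq_one_right h
  · exact absurd h ht1

theorem abelian_case {G : Type*} [Group G] [Finite G] (hG : Good G) (hns : ¬ Group.IsSolvable G)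
    (N : Subgroup G) [hN : N.Normal] (_hNb : N ≠ ⊥)
    {p : ℕ} (hp : p.Prime) (hcomm : ∀ a ∈ N, ∀ b ∈ N, a * b = b * a)
    (hexp : ∀ a ∈ N, a ^ p = 1) {d : ℕ} (hd : 0 < d) (hcN : Nat.card N = p ^ d)
    (hGN : Good (G ⧸ N)) (h168 : Nat.card (G ⧸ N) = 168) : False := by
  have hNs : Group.IsSolvable N := Group.isSolvable_of_comm (fun a b => Subtype.ext (hcomm a a.2 b b.2))
  by_cases hp2 : p = 2
  · subst hp2
    have h7 : Fact (Nat.Prime 7) := ⟨by norm_num⟩
    obtain ⟨Q⟩ : Nonempty (Sylow 7 (G ⧸ N)) := inferInstance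
    have h21 := card_norm_seven hGN h168 Q
    let M' : Subgroup (G ⧸ N) := Subgroup.normalizer ((Q : Subgroup (G ⧸ N)) : Set (G ⧸ N))
    let M : Subgroup G := M'.comap (QuotientGroup.mk' N)
    have hNM : N ≤ M := by
      intro x hx
      change (QuotientGroup.mk' N) x ∈ M'
      rw [show (QuotientGroup.mk' N) x = 1 from (QuotientGroup.eq_one_iff x).2 hx]
      exact M'.one_mem
    have hM's : Group.IsSolvable M' := S0144.result 3 7 1 1 Nat.prime_three (by norm_num) (by rw [h21]; norm_num)
    have hMs : Group.IsSolvable M := by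
      refine Group.isSolvable_of_ker_le_range (Subgroup.inclusion hNM)
        ((QuotientGroup.mk' N).subgroupComap M') ?_
      intro x hx
      have h1 : (QuotientGroup.mk' N) (x : G) = 1 := congrArg Subtype.val hx
      exact ⟨⟨x, (QuotientGroup.eq_one_iff (x : G)).1 h1⟩, rfl⟩
    have hMc : Nat.card M = 21 * 2 ^ d := by
      rw [← h21, ← hcN]
      have h1 := Subgroup.card_mul_index M
      have h2 : M.index = M'.index := Subgroup.index_comap_of_surjective M' (QuotientGroup.mk'_surjective N)
      have h3 := Subgroup.card_mul_index M'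
      have h4 : Nat.card G = Nat.card (G ⧸ N) * Nat.card N := Subgroup.card_eq_card_quotient_mul_card_subgroup N
      have h5 : 0 < M'.index := Nat.pos_of_ne_zero Subgroup.FiniteIndex.index_ne_zero
      rw [h2, h4, ← h3] at h1
      have h6 : M'.index * Nat.card M = M'.index * (Nat.card M' * Nat.card N) := by
        rw [mul_comm, h1]; ring
      exact Nat.eq_of_mul_eq_mul_left h5 h6
    have h5 := S1475.result (G := M) (by
      intro g
      rcases (hG.of_subgroup M) g with ⟨k, hk⟩ | ⟨hk, -⟩
      · rcases Nat.eq_zero_or_pos k with h0 | h0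
        · right
          rw [h0, pow_zero] at hk
          exact orderOf_eq_one_iff.1 hk
        · left
          rw [hk]
          exact (Nat.prime_two.isPrimePow).pow h0.ne'
      · exact Or.inl hk.isPrimePow)
    have h6 : ({2, 3, 7} : Finset ℕ) ⊆ (Nat.card M).primeFactors := by
      intro q hq
      rw [Nat.mem_primeFactors]
      simp only [Finset.mem_insert, Finset.mem_singleton] at hq
      rw [hMc]
      refine ⟨?_, ?_, by positivity⟩
      · rcases hq with rfl | rfl | rfl <;> norm_num
      · rcases hq with rfl | rfl | rfl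
        · exact Dvd.dvd.mul_left (dvd_pow_self 2 hd.ne') _
        · exact Dvd.dvd.mul_right (by norm_num) _
        · exact Dvd.dvd.mul_right (by norm_num) _
    have h7 := Finset.card_le_card h6
    have h8 : ({2, 3, 7} : Finset ℕ).card = 3 := by decide
    omega
  · have hpf : Fact p.Prime := ⟨hp⟩
    have h2G : 2 ∣ Nat.card G := by
      rw [Subgroup.card_eq_card_quotient_mul_card_subgroup N, h168]
      exact Dvd.dvd.mul_right (by norm_num) _
    have h2f : Fact (Nat.Prime 2) := ⟨Nat.prime_two⟩
    obtain ⟨t, ht⟩ := exists_prime_orderOf_dvd_card' 2 h2G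
    obtain ⟨v, hv⟩ := exists_prime_orderOf_dvd_card' (G := N) p (by rw [hcN]; exact dvd_pow_self p hd.ne')
    let C : Subgroup G := Subgroup.centralizer (N : Set G)
    have hCn : C.Normal := inferInstance
    have hCp : IsPGroup p C := by
      have h1 := hG.isPGroup_centralizer hp hp2 (Subgroup.zpowers (v : G)) (by
        rw [Nat.card_zpowers, Subgroup.orderOf_coe, hv])
      refine h1.to_le (Subgroup.centralizer_le ?_)
      intro x hx
      exact (Subgroup.zpowers_le.2 v.2) hx
    have hCs : Group.IsSolvable C := by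
      have : Group.IsNilpotent C := hCp.isNilpotent
      infer_instance
    have htC : t ∉ C := by
      intro h
      have h1 := hG.inverts N hp hp2 hcomm hexp ht v.2
      have h2 : (v : G) * t = t * v := Subgroup.mem_centralizer_iff.1 h v v.2
      rw [← h2, mul_inv_cancel_right] at h1
      have h3 : (v : G) ^ 2 = 1 := by
        rw [pow_two]
        nth_rewrite 1 [h1]
        exact inv_mul_cancel _
      have h4 := orderOf_dvd_of_pow_eq_one h3
      rw [Subgroup.orderOf_coe, hv] at h4
      exact hp2 ((Nat.prime_dvd_prime_iff_eq hp Nat.prime_two).1 h4)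
    have hGC : Good (G ⧸ C) := hG.of_surjective (QuotientGroup.mk' C) (QuotientGroup.mk'_surjective C)
    have hcent : ∀ g : G, (g : G ⧸ C) * (t : G ⧸ C) = (t : G ⧸ C) * (g : G ⧸ C) := by
      intro g
      rw [← QuotientGroup.mk_mul, ← QuotientGroup.mk_mul, QuotientGroup.eq]
      rw [Subgroup.mem_centralizer_iff]
      intro n hn
      have h1 : ∀ w ∈ N, (g * t * g⁻¹) * w * (g * t * g⁻¹)⁻¹ = w⁻¹ := fun w hw =>
        hG.inverts N hp hp2 hcomm hexp
          (by rw [← ht]; exact orderOf_injective (MulAut.conj g).toMonoidHom (MulAut.conj g).injective t) hw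
      have h2 : ∀ w ∈ N, t * w * t⁻¹ = w⁻¹ := fun w hw =>
        hG.inverts N hp hp2 hcomm hexp ht hw
      have h1' : ∀ w ∈ N, g * t * w * (g * t)⁻¹ = g * w⁻¹ * g⁻¹ := by
        intro w hw
        rw [← h2 w hw]; group
      have hm : g * n * g⁻¹ ∈ N := hN.conj_mem n hn g
      have h3 : t * g * n * (t * g)⁻¹ = (g * n * g⁻¹)⁻¹ := by
        rw [← h2 _ hm]; group
      have h4 : g * t * n * (g * t)⁻¹ = t * g * n * (t * g)⁻¹ := by
        rw [h1' n hn, h3]; group
      have h5 : n = (g * t)⁻¹ * (g * t * n * (g * t)⁻¹) * (g * t) := by group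
      rw [h4] at h5
      nth_rewrite 1 [h5]
      group
    have htb : (t : G ⧸ C) ≠ 1 := by
      rw [Ne, QuotientGroup.eq_one_iff]
      exact htC
    have ht2 : orderOf (t : G ⧸ C) = 2 := by
      have h1 : orderOf ((QuotientGroup.mk' C) t) ∣ 2 := by
        rw [← ht]
        exact orderOf_map_dvd (QuotientGroup.mk' C) t
      rcases (Nat.dvd_prime Nat.prime_two).1 h1 with h | h
      · exact absurd (orderOf_eq_one_iff.1 h) htb
      · exact h
    have h2grp : IsPGroup 2 (G ⧸ C) := by
      rw [IsPGroup.iff_orderOf]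
      intro x
      obtain ⟨g, rfl⟩ := QuotientGroup.mk_surjective x
      rcases hGC (g : G ⧸ C) with h | ⟨h, -⟩
      · exact h
      · by_cases h2 : orderOf (g : G ⧸ C) = 2
        · exact ⟨1, by rw [h2, pow_one]⟩
        · exfalso
          rcases hGC.comm (hcent g) (by rw [ht2]; exact (Nat.coprime_primes h Nat.prime_two).2 h2) with h1 | h1
          · rw [h1, orderOf_one] at h
            exact Nat.not_prime_one h
          · exact htb h1
    have hGCs : Group.IsSolvable (G ⧸ C) := by
      have : Group.IsNilpotent (G ⧸ C) := h2grp.isNilpotent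
      infer_instance
    exact hns (Group.isSolvable_of_ker_le_range C.subtype (QuotientGroup.mk' C) (by simp))

theorem main {F : Type*} [Field F] [Fintype F] (hF : Fintype.card F = 7) (n : ℕ) :
    ∀ (G : Type*) [Group G] [Finite G], Nat.card G = n → Good G → ¬ Group.IsSolvable G →
      Nonempty (G ≃* Matrix.ProjectiveSpecialLinearGroup (Fin 2) F) := by
  induction n using Nat.strong_induction_on with
  | _ n ih =>
  intro G _ _ hn hG hns
  by_cases hsimp : IsSimpleGroup G
  · exact simple hG hns hF
  exfalso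
  have hnt : Nontrivial G := by
    by_contra h
    rw [not_nontrivial_iff_subsingleton] at h
    exact hns inferInstance
  obtain ⟨N₀, hN₀, hN₀b, hN₀t⟩ : ∃ N : Subgroup G, N.Normal ∧ N ≠ ⊥ ∧ N ≠ ⊤ := by
    by_contra h
    push Not at h
    exact hsimp ⟨fun N hN => by
      by_cases h1 : N = ⊥
      · exact Or.inl h1
      · exact Or.inr (h N hN h1)⟩
  obtain ⟨N, ⟨hNn, hNb, hNle⟩, hmin⟩ := (Set.toFinite {N : Subgroup G | N.Normal ∧ N ≠ ⊥ ∧ N ≤ N₀}).exists_minimal
    ⟨N₀, hN₀, hN₀b, le_refl _⟩
  have hNt : N ≠ ⊤ := by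
    rintro rfl
    exact hN₀t (top_le_iff.1 hNle)
  have hmin' : ∀ K : Subgroup G, K.Normal → K ≤ N → K = ⊥ ∨ K = N := by
    intro K hK hKN
    by_cases h : K = ⊥
    · exact Or.inl h
    · exact Or.inr (le_antisymm hKN (hmin ⟨hK, h, hKN.trans hNle⟩ hKN))
  by_cases hNs : Group.IsSolvable N
  swap
  · -- nonsolvable
    have hlt : Nat.card N < n := by
      rw [← hn]
      exact lt_of_le_of_ne (Subgroup.card_le_card_group N) (fun h => hNt (Subgroup.card_eq_iff_eq_top N |>.1 h))
    obtain ⟨e⟩ := ih _ hlt N rfl (hG.of_subgroup N) hNs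
    have h168 : Nat.card N = 168 := by rw [Nat.card_congr e.toEquiv, card_psl hF]
    have h1 := index_eq_one hG N h168
    exact hNt (Subgroup.index_eq_one.1 h1)
  · -- abelian
    have hcomm : ∀ a ∈ N, ∀ b ∈ N, a * b = b * a := by
      have h2 : ⁅N, N⁆ = ⊥ := by
        rcases hmin' ⁅N, N⁆ inferInstance (Subgroup.commutator_le_right N N) with h | h
        · exact h
        · exfalso
          have h3 : commutator N = ⊤ := by
            apply Subgroup.map_injective N.subtype_injective
            rw [← MonoidHom.range_eq_map, Subgroup.range_subtype, map_subtype_commutator]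
            exact h
          have : Nontrivial N := (Subgroup.nontrivial_iff_ne_bot N).2 hNb
          exact (Group.IsSolvable.commutator_lt_top_of_nontrivial N).ne h3
      rw [Subgroup.commutator_eq_bot_iff_le_centralizer] at h2
      intro a ha b hb
      exact (Subgroup.mem_centralizer_iff.mp (h2 hb) a ha)
    obtain ⟨p, hp, hexp⟩ := SolvableStructure.MinimalNormal.exists_prime_pow_eq_one N hNb hmin' hcomm
    obtain ⟨d, hd, hcN⟩ := SolvableStructure.MinimalNormal.exists_card_eq_prime_pow N hNb hp hexp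
    have hcop1 : 1 < Nat.card N := by
      rw [hcN]
      exact Nat.one_lt_pow hd.ne' hp.one_lt
    have hidx : Nat.card (G ⧸ N) < n := by
      rw [← hn, ← Subgroup.index_eq_card, ← Subgroup.card_mul_index N]
      have h1 : 0 < N.index := Nat.pos_of_ne_zero Subgroup.FiniteIndex.index_ne_zero
      nlinarith
    have hns' : ¬ Group.IsSolvable (G ⧸ N) := by
      intro h
      apply hns
      exact Group.isSolvable_of_ker_le_range N.subtype (QuotientGroup.mk' N) (by simp)
    have hGN : Good (G ⧸ N) := hG.of_surjective (QuotientGroup.mk' N) (QuotientGroup.mk'_surjective N)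
    obtain ⟨e⟩ := ih _ hidx (G ⧸ N) rfl hGN hns'
    have h168 : Nat.card (G ⧸ N) = 168 := by rw [Nat.card_congr e.toEquiv, card_psl hF]
    exact abelian_case hG hns N hNb hp hcomm hexp hd hcN hGN h168


/-- Let G be a finite group whose order has at least three distinct prime divisors, and suppose every nonidentity element of G has order a power of 2 or a prime other than 5. Then G is isomorphic to PSL₂(7) (here F is any field with 7 elements). In particular a finite group whose set of element orders is {1, 2, 3, 4, 7} is PSL₂(7). -/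
theorem result {G : Type*} [Group G] [Finite G]
    {F : Type*} [Field F] [Fintype F] (hF : Fintype.card F = 7)
    (h3 : 3 ≤ (Nat.card G).primeFactors.card)
    (hord : ∀ g : G, g ≠ 1 → (∃ k : ℕ, orderOf g = 2 ^ k) ∨ ((orderOf g).Prime ∧ orderOf g ≠ 5)) :
    Nonempty (G ≃* Matrix.ProjectiveSpecialLinearGroup (Fin 2) F) := by
  have hG : Good G := good_of_hyp hord
  refine main hF (Nat.card G) G rfl hG ?_
  intro hs
  have h := S1475.result (G := G) (by
    intro g
    rcases hG g with ⟨k, hk⟩ | ⟨hk, -⟩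
    · rcases Nat.eq_zero_or_pos k with h0 | h0
      · right
        rw [h0, pow_zero] at hk
        exact orderOf_eq_one_iff.1 hk
      · left
        rw [hk]
        exact (Nat.prime_two.isPrimePow).pow h0.ne'
    · exact Or.inl hk.isPrimePow)
  omega

end Cfsg.Agent.S3396
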