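import Cfsg.Statements.S3410
import Cfsg.Agent.H360.ON.Main

set_option autoImplicit false
open Cfsg

namespace Cfsg.Agent.S3410

/-- Let a finite group G act faithfully and 2-transitively on a finite set X, and let N be an abelian normal subgroup of the stabilizer of a point x which is not semiregular on the remaining points (some non-identity element of N fixes a second point). Then the generalized Fitting subgroup of G is isomorphic to PSL_n(F) for some n ≥ 3 and some finite field F. -/
theorem result {G X : Type*} [Group G] [Finite G] [Fintype X]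
    [MulAction G X] [FaithfulSMul G X] (h2 : MulAction.IsMultiplyPretransitive G X 2) (x : X)
    (N : Subgroup G) (hNle : N ≤ MulAction.stabilizer G x)
    (hNnormal : ∀ g ∈ MulAction.stabilizer G x, ∀ n ∈ N, g * n * g⁻¹ ∈ N) (hNab : IsMulCommutative N)
    (hnsr : ∃ n ∈ N, n ≠ 1 ∧ ∃ y : X, y ≠ x ∧ n • y = y) :
    ∃ (F : Type) (_ : Field F) (_ : Fintype F) (n : ℕ), 3 ≤ n ∧
      Nonempty (↥(Cfsg.generalizedFittingSubgroup G) ≃* Matrix.ProjectiveSpecialLinearGroup (Fin n) F) := by
  have S := Cfsg.Agent.H360.ON.exists_ab h2 x N hNle hNnormal hNab hnsr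
  obtain ⟨hn, hc, hs, hna, F, i1, i2, n, h3, he⟩ := Cfsg.Agent.H360.ON.onan S
  rw [Cfsg.Agent.H360.ON.genFit_eq hn hs hna hc]
  exact ⟨F, i1, i2, n, h3, he⟩

end Cfsg.Agent.S3410
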