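-- Statement S3412 (row 3412): the theorem Cfsg.commuting_graph_determines_psl_three_three.
import Cfsg.Statements.S3412
import Cfsg.Agent.H361.CommGraph
import Cfsg.Agent.H361.OrderSimple
import Cfsg.Agent.H361.PSLThree
import Cfsg.Agent.LieClassical.FieldTransfer
import Cfsg.Agent.SmallSimple.S1000.Consequences
import Cfsg.Agent.S1000

set_option autoImplicit false
open Cfsg

namespace Cfsg.Agent.S3412

/-- A simple group of order 5616 is `PSL₃(3)`. -/
theorem psl_of_card {H : Type*} [Group H] [Finite H] [IsSimpleGroup H] (hc : Nat.card H = 5616) :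
    Nonempty (H ≃* Matrix.ProjectiveSpecialLinearGroup (Fin 3) (ZMod 3)) := by
  have hcomm : ¬ IsMulCommutative H := by
    intro h
    have : Fact (Nat.Prime 2) := ⟨Nat.prime_two⟩
    obtain ⟨x, hx⟩ := exists_prime_orderOf_dvd_card' (G := H) 2 (by rw [hc]; norm_num)
    have h1 : (Subgroup.zpowers x).Normal :=
      ⟨fun n hn g => by rwa [h.is_comm.comm g n, mul_inv_cancel_right]⟩
    have h2 : Nat.card (Subgroup.zpowers x) = 2 := by rw [Nat.card_zpowers, hx]
    rcases h1.eq_bot_or_eq_top with h3 | h3
    · rw [h3, Subgroup.card_bot] at h2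
      omega
    · rw [h3, Subgroup.card_top, hc] at h2
      omega
  have hK := S1000.result hcomm 13 3 4 (by norm_num) (by rw [hc]; norm_num)
  obtain ⟨-, F, _, _, hF, ⟨e⟩⟩ := SmallSimple.S1000.Consequences.socle_thirteen (H := H) hK
    (c := 3) (d := 4) (by rw [hc]; norm_num)
  have h3 : Fintype.card F = Fintype.card (ZMod 3) := by rw [hF, ZMod.card]
  exact ⟨e.trans (LieClassical.FieldTransfer.pslCongr (FiniteField.ringEquivOfCardEq h3))⟩

/-- Let H be a finite group whose commuting graph (vertices the non-identity elements, two joined when they commute) is isomorphic to that of PSL_3(3): there is a bijection between the non-identity elements of H and of PSL_3(3) under which two elements commute exactly when their images do. Then H ≅ PSL_3(3). -/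
theorem result {H : Type*} [Group H] [Finite H]
    (f : {h : H // h ≠ 1} ≃ {g : Matrix.ProjectiveSpecialLinearGroup (Fin 3) (ZMod 3) // g ≠ 1})
    (hf : ∀ x y : {h : H // h ≠ 1}, (x : H) * y = y * x ↔ ((f x) : Matrix.ProjectiveSpecialLinearGroup (Fin 3) (ZMod 3)) * (f y) = (f y) * (f x)) :
    Nonempty (H ≃* Matrix.ProjectiveSpecialLinearGroup (Fin 3) (ZMod 3)) := by
  have hfin : Finite (Matrix.ProjectiveSpecialLinearGroup (Fin 3) (ZMod 3)) :=
    Finite.of_equiv _ H361.PSLThree.equiv.toEquiv
  have hc : Nat.card H = 5616 := by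
    rw [H361.CommGraph.card_eq f]
    exact SmallSimple.PSLFacts.card_psl_three_three (F := ZMod 3) (ZMod.card 3)
  obtain ⟨y, hy1, hy⟩ := H361.PSLThree.exists_elt
  have h1 := H361.CommGraph.card_centralizer_eq f hf (f.symm ⟨y, hy1⟩)
  rw [Equiv.apply_symm_apply] at h1
  have h2 : Nat.card (Subgroup.centralizer ({((⟨y, hy1⟩ :
      {g : Matrix.ProjectiveSpecialLinearGroup (Fin 3) (ZMod 3) // g ≠ 1}) :
      Matrix.ProjectiveSpecialLinearGroup (Fin 3) (ZMod 3))} :
      Set (Matrix.ProjectiveSpecialLinearGroup (Fin 3) (ZMod 3)))) = 13 := hy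
  rw [h2] at h1
  have hs := H361.OrderSimple.simple_5616 hc h1
  exact psl_of_card hc

end Cfsg.Agent.S3412
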