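import Cfsg.Statements.S3426
import Cfsg.Agent.H962.ExRecog
import Cfsg.Agent.H365.ExcRun
import Cfsg.Agent.H365.ExcSixRun

set_option autoImplicit false
open Cfsg

namespace Cfsg.Agent.S3426

/-- Let M be a simple group of exceptional Lie type G₂(q) (q ≥ 3), F₄(q), E₆(q), E₇(q), E₈(q), ³D₄(q) or ²E₆(q), over a field of characteristic p. A finite group G is isomorphic to M if and only if G has the same set of element orders and the same order as M. -/
theorem result {G : Type*} [Group G] [Finite G] {M : Type*} [Group M] [Finite M] (p : ℕ)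
    (hM : Cfsg.IsExceptionalChevChar p M ∨ Cfsg.IsTwistedE6D4Char p M) :
    Nonempty (G ≃* M) ↔ (Set.range (orderOf : G → ℕ) = Set.range (orderOf : M → ℕ) ∧ Nat.card G = Nat.card M) := by
  constructor
  · rintro ⟨e⟩
    refine ⟨Set.ext fun n => ⟨?_, ?_⟩, Nat.card_congr e.toEquiv⟩
    · rintro ⟨x, rfl⟩
      exact ⟨e x, MulEquiv.orderOf_eq e x⟩
    · rintro ⟨y, rfl⟩
      exact ⟨e.symm y, MulEquiv.orderOf_eq e.symm y⟩
  · rintro ⟨hr, hcard⟩
    have key1 : ∀ {X : Type} [Group X] (_ : M ≃* X), ∀ x : G, ∃ y : X, orderOf y = orderOf x := by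
      intro X _ e x
      have hx : orderOf x ∈ Set.range (orderOf : M → ℕ) := hr ▸ ⟨x, rfl⟩
      obtain ⟨y, hy⟩ := hx
      exact ⟨e y, (MulEquiv.orderOf_eq e y).trans hy⟩
    have key2 : ∀ {X : Type} [Group X] (_ : M ≃* X), ∀ y : X, ∃ x : G, orderOf x = orderOf y := by
      intro X _ e y
      have hx : orderOf (e.symm y) ∈ Set.range (orderOf : G → ℕ) := hr.symm ▸ ⟨e.symm y, rfl⟩
      obtain ⟨x, hx⟩ := hx
      exact ⟨x, hx.trans (MulEquiv.orderOf_eq e.symm y)⟩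
    have key3 : ∀ {X : Type} [Group X] (_ : M ≃* X), Nat.card G = Nat.card X := fun e =>
      hcard.trans (Nat.card_congr e.toEquiv)
    have fin : ∀ {X : Type} [Group X] (_ : M ≃* X), Nonempty (G ≃* X) → Nonempty (G ≃* M) :=
      fun e ⟨e'⟩ => ⟨e'.trans e.symm⟩
    rcases hM with ⟨F, _, _, _, h⟩ | ⟨K, _, _, _, q, hq, h⟩
    · rcases h with ⟨h3, ⟨e⟩⟩ | ⟨⟨e⟩⟩ | ⟨⟨e⟩⟩ | ⟨⟨e⟩⟩ | ⟨⟨e⟩⟩
      · exact fin e (H962.ExRecog.recog_G2 h3 (key3 e) (key1 e) (key2 e))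
      · exact fin e (H962.ExRecog.recog_F4 (key3 e) (key1 e) (key2 e))
      · exact fin e (H365.ExcSixRun.recog_E6 (key1 e) (key3 e))
      · exact fin e (H365.ExcRun.recog_E7 (key1 e) (key3 e))
      · exact fin e (H962.ExRecog.recog_E8 (key3 e) (key1 e) (key2 e))
    · rcases h with ⟨hK, ⟨e⟩⟩ | ⟨hK, ⟨e⟩⟩
      · exact fin e (H365.ExcSixRun.recog_TE6 hq hK (key1 e) (key3 e))
      · exact fin e (H962.ExRecog.recog_TD4 hq hK (key3 e) (key1 e) (key2 e))

end Cfsg.Agent.S3426
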