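import Cfsg.Statements.S3432
import Cfsg.Agent.S0144
import Cfsg.Agent.S0243
import Cfsg.Agent.H366.EightFinal
import Cfsg.Agent.H366.PermFacts

set_option autoImplicit false
open Cfsg

namespace Cfsg.Agent.S3432

open Cfsg.Agent Cfsg.Agent.H366

/-- A finite group whose set of element orders is exactly {1, 2, …, 8} has a normal subgroup of index 2 isomorphic to PSL(3, 4). -/
theorem result {G : Type*} [Group G] [Finite G] (h : Set.range (orderOf : G → ℕ) = {k : ℕ | 1 ≤ k ∧ k ≤ 8}) :
    ∃ (N : Subgroup G) (F : Type) (_ : Field F) (_ : Fintype F), N.Normal ∧ N.index = 2 ∧ Fintype.card F = 4 ∧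
      Nonempty (↥N ≃* Matrix.ProjectiveSpecialLinearGroup (Fin 3) F) := by
  have h8 : ∀ g : G, orderOf g ≤ 8 := by
    intro g
    have : orderOf g ∈ Set.range (orderOf : G → ℕ) := ⟨g, rfl⟩
    rw [h] at this
    exact this.2
  have hex : ∀ k : ℕ, 1 ≤ k → k ≤ 8 → ∃ g : G, orderOf g = k := by
    intro k h1 h2
    have : k ∈ Set.range (orderOf : G → ℕ) := by rw [h]; exact ⟨h1, h2⟩
    exact this
  have hdv : ∀ k : ℕ, 1 ≤ k → k ≤ 8 → k ∣ Nat.card G := by
    intro k h1 h2
    obtain ⟨g, hg⟩ := hex k h1 h2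
    rw [← hg]
    exact orderOf_dvd_natCard g
  have na25 : Coclique.NA G 2 5 := fun g hg => by have := h8 g; omega
  have na27 : Coclique.NA G 2 7 := fun g hg => by have := h8 g; omega
  have na57 : Coclique.NA G 5 7 := fun g hg => by have := h8 g; omega
  have p2 : Nat.Prime 2 := Nat.prime_two
  have p3 : Nat.Prime 3 := Nat.prime_three
  have p5 : Nat.Prime 5 := Nat.prime_five
  have p7 : Nat.Prime 7 := by norm_num
  have f2 : Fact (Nat.Prime 2) := ⟨p2⟩
  have f5 : Fact (Nat.Prime 5) := ⟨p5⟩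
  have f7 : Fact (Nat.Prime 7) := ⟨p7⟩
  have hns : ¬ Group.IsSolvable G := Coclique.not_isSolvable p2 p5 p7 (by norm_num) (by norm_num)
    (by norm_num) na25 na27 na57 (hdv 2 (by norm_num) (by norm_num)) (hdv 5 (by norm_num) (by norm_num))
    (hdv 7 (by norm_num) (by norm_num))
  obtain ⟨R, hRn, hRs, hrad⟩ := AlmostSimple.exists_radical G
  have h8Q : ∀ q : G ⧸ R, orderOf q ≤ 8 := EightFinal.quot_eight h8 R
  have hnt : Nontrivial (G ⧸ R) := by
    rw [← not_subsingleton_iff_nontrivial]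
    intro hsub
    apply hns
    have hRtop : R = ⊤ := by
      rw [eq_top_iff]
      intro x _
      rw [← QuotientGroup.eq_one_iff]
      exact Subsingleton.elim _ _
    rw [hRtop] at hRs
    exact Group.isSolvable_of_surjective (f := (Subgroup.topEquiv (G := G)).toMonoidHom)
      (Subgroup.topEquiv (G := G)).surjective
  -- nonsolvable subgroups have order divisible by 5 or 7 and by 2
  have hpow : ∀ (H : Subgroup (G ⧸ R)), ¬ Group.IsSolvable H → 2 ∣ Nat.card H ∧ (5 ∣ Nat.card H ∨ 7 ∣ Nat.card H) := by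
    intro H hH
    have h8H : ∀ x : H, orderOf x ≤ 8 := fun x => by rw [← Subgroup.orderOf_coe]; exact h8Q x
    constructor
    · by_contra h2
      apply hH
      apply S0205.result
      rwa [← Nat.not_even_iff_odd, even_iff_two_dvd]
    · by_contra h57
      push Not at h57
      apply hH
      refine S0144.result 2 3 _ _ p2 p3 (PermFacts.eq_pow_mul_pow Nat.card_pos.ne' p2 p3 (by norm_num) ?_)
      intro r hr hd
      rcases SimpleEight.prime_dvd h8H hr hd with h | h | rfl | rfl
      · exact Or.inl h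
      · exact Or.inr h
      · exact absurd hd h57.1
      · exact absurd hd h57.2
  have hcomm : ∀ A B : Subgroup (G ⧸ R), ¬ Group.IsSolvable A → ¬ Group.IsSolvable B →
      ¬ ∀ a ∈ A, ∀ b ∈ B, a * b = b * a := by
    intro A B hA hB hAB
    obtain ⟨a, ha⟩ := exists_prime_orderOf_dvd_card' (G := A) 2 (hpow A hA).1
    have hex' : ∃ b : B, orderOf b = 5 ∨ orderOf b = 7 := by
      rcases (hpow B hB).2 with h5' | h7'
      · obtain ⟨b, hb⟩ := exists_prime_orderOf_dvd_card' (G := B) 5 h5'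
        exact ⟨b, Or.inl hb⟩
      · obtain ⟨b, hb⟩ := exists_prime_orderOf_dvd_card' (G := B) 7 h7'
        exact ⟨b, Or.inr hb⟩
    obtain ⟨b, hb⟩ := hex'
    have hc : Commute (a : G ⧸ R) (b : G ⧸ R) := hAB a a.2 b b.2
    have ha' : orderOf (a : G ⧸ R) = 2 := by rw [Subgroup.orderOf_coe, ha]
    have h7 := h8Q ((a : G ⧸ R) * b)
    rcases hb with hb | hb
    · have hb' : orderOf (b : G ⧸ R) = 5 := by rw [Subgroup.orderOf_coe, hb]
      rw [hc.orderOf_mul_eq_mul_orderOf_of_coprime (by rw [ha', hb']; norm_num), ha', hb'] at h7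
      omega
    · have hb' : orderOf (b : G ⧸ R) = 7 := by rw [Subgroup.orderOf_coe, hb]
      rw [hc.orderOf_mul_eq_mul_orderOf_of_coprime (by rw [ha', hb']; norm_num), ha', hb'] at h7
      omega
  obtain ⟨S, hSn, hSs, hSns, -⟩ := AlmostSimple.exists_simple_normal hrad hcomm
  have h8S : ∀ s : S, orderOf s ≤ 8 := by
    intro s
    rw [← Subgroup.orderOf_coe]
    exact h8Q s
  -- a four-group
  have hnc : ∃ a b : S, a * b ≠ b * a := by
    by_contra hcon
    push Not at hcon
    exact hSns (Group.isSolvable_of_comm hcon)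
  obtain ⟨W, hW, hW2⟩ := H310.PerfTools.exists_four (T := S) hnc (hpow S hSns).1
  have hE : Nat.card (W.map S.subtype) = 4 := by
    rw [Nat.card_congr (W.equivMapOfInjective S.subtype S.subtype_injective).symm.toEquiv, hW]
  have hE2 : ∀ x ∈ W.map S.subtype, x * x = 1 := by
    rintro _ ⟨x, hx, rfl⟩
    rw [← map_mul, hW2 x hx, map_one]
  have hq : ∃ q : G ⧸ R, orderOf q = 5 ∨ orderOf q = 7 := by
    rcases (hpow S hSns).2 with h5' | h7'
    · obtain ⟨b, hb⟩ := exists_prime_orderOf_dvd_card' (G := S) 5 h5'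
      exact ⟨b, Or.inl (by rw [Subgroup.orderOf_coe, hb])⟩
    · obtain ⟨b, hb⟩ := exists_prime_orderOf_dvd_card' (G := S) 7 h7'
      exact ⟨b, Or.inr (by rw [Subgroup.orderOf_coe, hb])⟩
  have hR5 : ¬ 5 ∣ Nat.card R := EightFinal.not_dvd h8 p5 le_rfl R _ hE hE2 hq
  have hR7 : ¬ 7 ∣ Nat.card R := EightFinal.not_dvd h8 p7 (by norm_num) R _ hE hE2 hq
  have hcardQ : Nat.card G = Nat.card (G ⧸ R) * Nat.card R := Subgroup.card_eq_card_quotient_mul_card_subgroup R
  have hQ5 : 5 ∣ Nat.card (G ⧸ R) := by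
    have h1 := hdv 5 (by norm_num) (by norm_num)
    rw [hcardQ] at h1
    exact (p5.dvd_mul.1 h1).resolve_right hR5
  have hQ7 : 7 ∣ Nat.card (G ⧸ R) := by
    have h1 := hdv 7 (by norm_num) (by norm_num)
    rw [hcardQ] at h1
    exact (p7.dvd_mul.1 h1).resolve_right hR7
  have hS5 : 5 ∣ Nat.card S := EightFinal.dvd_card h8Q p5 le_rfl S hSns hQ5
  have hS7 : 7 ∣ Nat.card S := EightFinal.dvd_card h8Q p7 (by norm_num) S hSns hQ7
  obtain ⟨g8, hg8⟩ := hex 8 (by norm_num) le_rfl
  rcases SimpleEight.simple_cases hSns h8S hS5 hS7 with ⟨⟨e⟩⟩ | ⟨F, iF, iF', hF, ⟨e⟩⟩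
  · -- `A₇`
    exfalso
    let f : SevenPerm.A7 →* G ⧸ R := S.subtype.comp e.symm.toMonoidHom
    have hf : Function.Injective f := S.subtype_injective.comp e.symm.injective
    have hfS : ∀ x, f x ∈ S := fun x => (e.symm x).2
    have hRbot : R = ⊥ := EightFinal.eq_bot h8 R hRs hR5 hR7 f hf
      (fun A _ _ _ h2 h5 h7 a => H422.ASeven.eq_zero_two h5 h7 h2 a) SevenPerm.ord_b3 SevenPerm.ord_y7
      SevenPerm.rel_b3
    have hcS : Nat.card S = 2520 := by rw [Nat.card_congr e.toEquiv, SevenPerm.card_A7]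
    have n5 : ¬ 5 ^ 2 ∣ Nat.card S := by rw [hcS]; norm_num
    have n7 : ¬ 7 ^ 2 ∣ Nat.card S := by rw [hcS]; norm_num
    have hidx := EightFinal.index_dvd h8Q S (hfS SevenPerm.z5) (hfS SevenPerm.y7) (hfS SevenPerm.b3)
      (by rw [orderOf_injective f hf, SevenPerm.ord_z5]) (by rw [orderOf_injective f hf, SevenPerm.ord_y7])
      (by rw [orderOf_injective f hf, SevenPerm.ord_b3])
      (by rw [← map_mul, ← map_pow, ← map_mul, SevenPerm.rel_b3]) n5 n7
    have hidx1 := EightFinal.index_eq_one h8Q S (hfS SevenPerm.z5) (hfS SevenPerm.n4)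
      (by rw [orderOf_injective f hf, SevenPerm.ord_z5]) (by rw [orderOf_injective f hf, SevenPerm.ord_n4])
      (by rw [← map_mul, ← map_pow, ← map_mul, SevenPerm.rel_n4]) n5 hidx
    have htop : S = ⊤ := Subgroup.index_eq_one.1 hidx1
    have e0 : G ≃* SevenPerm.A7 :=
      ((QuotientGroup.quotientMulEquivOfEq hRbot).trans QuotientGroup.quotientBot).symm.trans
        (((MulEquiv.subgroupCongr htop).trans Subgroup.topEquiv).symm.trans e)
    exact SevenPerm.orderOf_ne_eight (e0 g8) (by rw [MulEquiv.orderOf_eq, hg8])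
  · -- `PSL₃(4)`
    obtain ⟨w, u, hw⟩ := LThreeFour.exists_isW hF
    let f : Matrix.ProjectiveSpecialLinearGroup (Fin 3) F →* G ⧸ R := S.subtype.comp e.symm.toMonoidHom
    have hf : Function.Injective f := S.subtype_injective.comp e.symm.injective
    have hfS : ∀ x, f x ∈ S := fun x => (e.symm x).2
    have hrel : LThreeFour.q (LThreeFour.Y hw) * LThreeFour.q (LThreeFour.S2 hw) =
        LThreeFour.q (LThreeFour.S2 hw) ^ 2 * LThreeFour.q (LThreeFour.Y hw) := by
      rw [← map_mul, LThreeFour.relT2 hw]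
      simp only [map_mul, pow_two]
    have hRbot : R = ⊥ := EightFinal.eq_bot h8 R hRs hR5 hR7 f hf
      (fun A _ _ _ h2 h5 h7 a => by
        have h1 := LThreeFour.card_eq_one hw h2 h5 h7
        rw [Nat.card_eq_one_iff_unique] at h1
        obtain ⟨h1, -⟩ := h1
        exact Subsingleton.elim _ _) (LThreeFour.orderOf_Y hw) (LThreeFour.orderOf_S2 hw) hrel
    have hcS : Nat.card S = 20160 := by
      rw [Nat.card_congr e.toEquiv]
      have hform := S0243.result (F := F) rfl 3 (by norm_num)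
      rw [hF] at hform
      simp [Fin.prod_univ_three] at hform
      omega
    have n5 : ¬ 5 ^ 2 ∣ Nat.card S := by rw [hcS]; norm_num
    have n7 : ¬ 7 ^ 2 ∣ Nat.card S := by rw [hcS]; norm_num
    have hidx := EightFinal.index_dvd h8Q S (hfS (LThreeFour.q (LThreeFour.C hw)))
      (hfS (LThreeFour.q (LThreeFour.S2 hw))) (hfS (LThreeFour.q (LThreeFour.Y hw)))
      (by rw [orderOf_injective f hf, LThreeFour.orderOf_C hw])
      (by rw [orderOf_injective f hf, LThreeFour.orderOf_S2 hw])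
      (by rw [orderOf_injective f hf, LThreeFour.orderOf_Y hw])
      (by rw [← map_mul f, ← map_pow f, ← map_mul f, hrel]) n5 n7
    have hne1 : S.index ≠ 1 := by
      intro hidx1
      have htop : S = ⊤ := Subgroup.index_eq_one.1 hidx1
      have e0 : G ≃* Matrix.ProjectiveSpecialLinearGroup (Fin 3) F :=
        ((QuotientGroup.quotientMulEquivOfEq hRbot).trans QuotientGroup.quotientBot).symm.trans
          (((MulEquiv.subgroupCongr htop).trans Subgroup.topEquiv).symm.trans e)
      have h1 : orderOf (e0 g8) = 8 := by rw [MulEquiv.orderOf_eq, hg8]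
      have h2 := LThreeFour.pow_four_of_pow_eight hF (e0 g8) (by rw [← h1, pow_orderOf_eq_one])
      have h3 := orderOf_dvd_of_pow_eq_one h2
      rw [h1] at h3
      omega
    have hidx2 : S.index = 2 := by
      rcases (Nat.dvd_prime p2).1 hidx with h1 | h1
      · exact absurd h1 hne1
      · exact h1
    let e0 : G ⧸ R ≃* G := (QuotientGroup.quotientMulEquivOfEq hRbot).trans QuotientGroup.quotientBot
    refine ⟨S.map e0.toMonoidHom, F, iF, iF', Subgroup.Normal.map hSn _ e0.surjective, ?_, hF,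
      ⟨(e0.subgroupMap S).symm.trans e⟩⟩
    rw [← hidx2]
    exact Subgroup.index_map_of_bijective e0.bijective S

end Cfsg.Agent.S3432
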