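import Cfsg.Statements.S3493
import Cfsg.Agent.H386.ExtPrimTypes
import Cfsg.Agent.S0205

set_option autoImplicit false
open Cfsg

namespace Cfsg.Agent.S3493

/-- An extremely primitive permutation group is of affine type or almost simple. Let a finite group G act faithfully and primitively on a finite set Ω with at least two points, in such a way that every point stabilizer acts primitively on each of its own orbits in Ω (an orbit of size one counts as primitive). Then either G has a non-trivial abelian normal subgroup whose elements other than the identity fix no point (affine type), or G has a non-abelian simple normal subgroup with trivial centralizer (almost simple). -/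
theorem result {G : Type*} [Group G] [Finite G] {Ω : Type*} [Fintype Ω] [MulAction G Ω] [FaithfulSMul G Ω] (hΩ : 2 ≤ Fintype.card Ω) (hprim : MulAction.IsPreprimitive G Ω) (hep : ∀ (α : Ω) (ω : Ω), MulAction.IsPreprimitive (MulAction.stabilizer G α) (MulAction.orbit (MulAction.stabilizer G α) ω)) :
    (∃ N : Subgroup G, N.Normal ∧ N ≠ ⊥ ∧ IsMulCommutative N ∧ ∀ ω : Ω, MulAction.stabilizer N ω = ⊥) ∨ (∃ T : Subgroup G, T.Normal ∧ IsSimpleGroup T ∧ ¬ IsMulCommutative T ∧ Subgroup.centralizer (T : Set G) = ⊥) := by
  classical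
  have := hprim
  have hnt : Nontrivial Ω := Fintype.one_lt_card_iff_nontrivial.1 (by omega)
  obtain ⟨α, β, hαβ⟩ := hnt.exists_pair_ne
  have hGnt : Nontrivial G := by
    obtain ⟨g, hg⟩ := MulAction.exists_smul_eq G α β
    refine ⟨⟨g, 1, fun h => hαβ ?_⟩⟩
    rw [← hg, h, one_smul]
  obtain ⟨N, hN, hN0, hmin⟩ := Cfsg.Agent.H386.Factor.exists_min_normal (G := G)
  have htr : ∀ a ω : Ω, ∃ n ∈ N, n • a = ω := fun a ω =>
    Cfsg.Agent.H386.PrimTools.exists_smul_eq_of_normal N hN0 a ω
  have hFT : ∀ (H : Subgroup G), Odd (Nat.card H) → Group.IsSolvable H := fun H h =>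
    Cfsg.Agent.S0205.result h
  by_cases hab : ∀ x ∈ N, ∀ y ∈ N, Commute x y
  · left
    refine ⟨N, hN, hN0, ⟨⟨fun x y => Subtype.ext (hab x x.2 y y.2)⟩⟩, fun ω => ?_⟩
    rw [Subgroup.eq_bot_iff_forall]
    intro n hn
    apply Subtype.ext
    exact Cfsg.Agent.H386.PrimTools.eq_one_of_commute N (α := ω) (htr ω)
      (fun m hm => (hab n n.2 m hm).eq) hn
  · right
    obtain ⟨T, hT⟩ := Cfsg.Agent.H386.Factor.exists_factor N hmin hab
    have hTn : T.Normal := by
      by_contra hcon
      exact Cfsg.Agent.H386.ExtPrimTypes.false_of_factor hFT (hep α) N hN0 hmin hab T hT hcon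
    have hTN : T = N := (hmin T hTn hT.le).resolve_left hT.ne_bot
    subst hTN
    refine ⟨T, hTn, ?_, ?_, ?_⟩
    · have hTnt : Nontrivial T := (Subgroup.nontrivial_iff_ne_bot _).2 hT.ne_bot
      refine { eq_bot_or_eq_top_of_normal := fun K hK => ?_ }
      rcases hT.simple (K.map T.subtype) (by
        rintro _ ⟨x, _, rfl⟩
        exact x.2) (by
        rintro t ht _ ⟨x, hx, rfl⟩
        exact ⟨⟨t, ht⟩ * x * ⟨t, ht⟩⁻¹, hK.conj_mem x hx _, rfl⟩) with h | h
      · left
        rwa [Subgroup.map_eq_bot_iff_of_injective _ T.subtype_injective] at h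
      · right
        rw [Subgroup.eq_top_iff']
        intro x
        have h1 : x.1 ∈ K.map T.subtype := by rw [h]; exact x.2
        obtain ⟨y, hy, hyx⟩ := h1
        have h2 : y = x := Subtype.ext hyx
        rw [← h2]
        exact hy
    · intro hc
      apply hab
      intro x hx y hy
      exact congrArg Subtype.val (hc.is_comm.comm (⟨x, hx⟩ : T) ⟨y, hy⟩)
    · by_contra hC
      have hCn : (Subgroup.centralizer (T : Set G)).Normal := Subgroup.normal_centralizer
      apply Cfsg.Agent.H386.ExtPrimTypes.false_of_regular hFT (hep α) T hN0 hmin hab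
      intro n hn hnα
      apply Cfsg.Agent.H386.PrimTools.eq_one_of_commute (Subgroup.centralizer (T : Set G))
        (α := α) (fun ω => Cfsg.Agent.H386.PrimTools.exists_smul_eq_of_normal _ hC α ω) _ hnα
      intro m hm
      exact Subgroup.mem_centralizer_iff.1 hm n hn

end Cfsg.Agent.S3493
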