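import Cfsg.Statements.S3496
-- import your own Cfsg.Agent.* helpers here
import Cfsg.Agent.H382.ExtPrimAbelian
import Cfsg.Agent.H382.FieldAction
import Cfsg.Agent.Solvable.Carter
import Cfsg.Agent.S0547
import Cfsg.Agent.S0548

set_option autoImplicit false
set_option linter.style.haveILetI false
open Cfsg

namespace Cfsg.Agent.S3496

open Cfsg.Agent.H382

/-- Conjugation action of a subgroup `H` on an additive form of a commutative normal subgroup. -/
@[reducible] def act {G : Type*} [Group G] (H M : Subgroup G) [M.Normal]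
    [CommGroup M] (hM : ∀ a b : M, ((a * b : M) : G) = (a : G) * b)
    (h1 : ((1 : M) : G) = 1) : DistribMulAction H (Additive M) where
  smul h v := Additive.ofMul ⟨(h : G) * (v.toMul : G) * (h : G)⁻¹, Subgroup.Normal.conj_mem inferInstance _ v.toMul.2 _⟩
  one_smul v := by
    apply Additive.toMul.injective
    apply Subtype.ext
    change ((1 : H) : G) * (v.toMul : G) * ((1 : H) : G)⁻¹ = v.toMul
    rw [Subgroup.coe_one, one_mul, inv_one, mul_one]
  mul_smul g h v := by
    apply Additive.toMul.injective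
    apply Subtype.ext
    change ((g * h : H) : G) * (v.toMul : G) * ((g * h : H) : G)⁻¹ = g * (h * (v.toMul : G) * (h : G)⁻¹) * (g : G)⁻¹
    rw [Subgroup.coe_mul]
    group
  smul_zero h := by
    apply Additive.toMul.injective
    apply Subtype.ext
    change (h : G) * ((1 : M) : G) * (h : G)⁻¹ = ((1 : M) : G)
    rw [h1, mul_one, mul_inv_cancel]
  smul_add h v w := by
    apply Additive.toMul.injective
    apply Subtype.ext
    change (h : G) * ((v.toMul * w.toMul : M) : G) * (h : G)⁻¹ = (( (⟨(h : G) * (v.toMul : G) * (h : G)⁻¹, Subgroup.Normal.conj_mem inferInstance _ v.toMul.2 _⟩ : M) * ⟨(h : G) * (w.toMul : G) * (h : G)⁻¹, Subgroup.Normal.conj_mem inferInstance _ w.toMul.2 _⟩ : M) : G)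
    rw [hM, hM]
    group

/-- The soluble extremely primitive groups. Let a finite solvable group G act faithfully and primitively on a finite set Ω with p ^ d points (p prime), with non-trivial point stabilizers each acting primitively on every one of its orbits. Then there is a prime q such that every orbit of a point stabilizer G_α other than {α} has exactly q points, q divides p ^ d − 1 but no p ^ i − 1 with 0 < i < d, and G_α has a normal subgroup T of order q with G_α generated by T and one further element and the order of G_α dividing q·d (so G_α is cyclic of order q, or an extension of T by a cyclic group of order dividing d). -/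
theorem result {G : Type*} [Group G] [Finite G] {Ω : Type*} [Fintype Ω] [MulAction G Ω] [FaithfulSMul G Ω] [Group.IsSolvable G] (p d : ℕ) (hp : p.Prime) (hcard : Fintype.card Ω = p ^ d)
    (hprim : MulAction.IsPreprimitive G Ω) (hH : ∀ α : Ω, MulAction.stabilizer G α ≠ ⊥) (hep : ∀ (α : Ω) (ω : Ω), MulAction.IsPreprimitive (MulAction.stabilizer G α) (MulAction.orbit (MulAction.stabilizer G α) ω)) (α : Ω) :
    ∃ q : ℕ, q.Prime ∧ (∀ ω : Ω, ω ≠ α → Nat.card (MulAction.orbit (MulAction.stabilizer G α) ω) = q) ∧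
      q ∣ p ^ d - 1 ∧ (∀ i : ℕ, 0 < i → i < d → ¬ q ∣ p ^ i - 1) ∧
      ∃ T : Subgroup G, T ≤ MulAction.stabilizer G α ∧ MulAction.stabilizer G α ≤ Subgroup.normalizer (T : Set G) ∧ Nat.card T = q ∧
        (∃ h : G, MulAction.stabilizer G α = T ⊔ Subgroup.zpowers h) ∧ Nat.card (MulAction.stabilizer G α) ∣ q * d := by
  haveI : Fact p.Prime := ⟨hp⟩
  haveI hntH : Nontrivial (MulAction.stabilizer G α) := (Subgroup.nontrivial_iff_ne_bot _).mpr (hH α)
  haveI hntG : Nontrivial G := (Subgroup.subtype_injective (MulAction.stabilizer G α)).nontrivial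
  haveI : Nonempty Ω := ⟨α⟩
  obtain ⟨_, M, _, hMn, _, hMc, hMb, hMmin⟩ := Cfsg.Agent.Solvable.Carter.exists_min_normal G
  haveI := hMn
  obtain ⟨hMtr, hMst, _, _, _, _, hcard1, hcard2⟩ := Cfsg.Agent.S0547.result hprim M hMb hMmin
  obtain ⟨hcompl, hMcent, hirr⟩ := Cfsg.Agent.S0548.result hprim M hMb hMmin α
  have hMcard : Nat.card M = p ^ d := by
    rw [hcard2, ← hcard1, Nat.card_eq_fintype_card, hcard]
  have hreg : ∀ a ∈ M, ∀ b ∈ M, a • α = b • α → a = b := by
    intro a ha b hb hab
    have h1 : (⟨b⁻¹ * a, mul_mem (inv_mem hb) ha⟩ : M) ∈ MulAction.stabilizer M α := by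
      rw [MulAction.mem_stabilizer_iff]
      change (b⁻¹ * a) • α = α
      rw [mul_smul, hab, inv_smul_smul]
    rw [hMst, Subgroup.mem_bot] at h1
    exact (inv_mul_eq_one.mp (congrArg Subtype.val h1)).symm
  have hMcomm : ∀ a ∈ M, ∀ b ∈ M, a * b = b * a := fun a ha b hb =>
    congrArg Subtype.val (hMc.is_comm.comm ⟨a, ha⟩ ⟨b, hb⟩)
  have hd : d ≠ 0 := by
    intro h
    rw [h, pow_zero] at hMcard
    exact hMb (Subgroup.card_eq_one.mp hMcard)
  -- the abelian normal subgroup of `H`
  obtain ⟨_, A0, _, hAn0, _, hAc0, hAb0, _⟩ := Cfsg.Agent.Solvable.Carter.exists_min_normal (MulAction.stabilizer G α)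
  let A : Subgroup G := A0.map (MulAction.stabilizer G α).subtype
  have hAle : A ≤ MulAction.stabilizer G α := by
    rintro _ ⟨y, _, rfl⟩
    exact y.2
  have hAn : MulAction.stabilizer G α ≤ Subgroup.normalizer (A : Set G) := by
    rw [Subgroup.le_normalizer_iff]
    rintro h hh _ ⟨y, hy, rfl⟩
    exact ⟨⟨h, hh⟩ * y * ⟨h, hh⟩⁻¹, hAn0.conj_mem y hy _, rfl⟩
  have hAb : A ≠ ⊥ := by
    intro h
    exact hAb0 ((Subgroup.map_eq_bot_iff_of_injective _ (Subgroup.subtype_injective _)).mp h)
  have hAcomm0 : ∀ a ∈ A0, ∀ b ∈ A0, a * b = b * a := fun a ha b hb =>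
    congrArg Subtype.val (hAc0.is_comm.comm ⟨a, ha⟩ ⟨b, hb⟩)
  have hAcomm : ∀ a ∈ A, ∀ b ∈ A, a * b = b * a := by
    rintro _ ⟨a, ha, rfl⟩ _ ⟨b, hb, rfl⟩
    exact congrArg Subtype.val (hAcomm0 a ha b hb)
  have hAmem : ∀ x : MulAction.stabilizer G α, (x : G) ∈ A ↔ x ∈ A0 := by
    intro x
    constructor
    · rintro ⟨y, hy, hyx⟩
      have : y = x := Subtype.ext hyx
      rwa [← this]
    · intro h
      exact ⟨x, h, rfl⟩
  have hAcard : Nat.card A = Nat.card A0 :=
    Subgroup.card_map_of_injective (Subgroup.subtype_injective _)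
  obtain ⟨q, e, hq, he, hqe, hpow⟩ := ExtPrimAbelian.exists_prime hprim hep A hAle hAn hAb hAcomm
  -- the action on `M`
  letI cgM : CommGroup M := { (inferInstance : Group M) with
    mul_comm := fun a b => Subtype.ext (hMcomm a a.2 b b.2) }
  letI actM : DistribMulAction (MulAction.stabilizer G α) (Additive M) :=
    act (MulAction.stabilizer G α) M (fun _ _ => rfl) rfl
  have hactM : ∀ (h : MulAction.stabilizer G α) (v : Additive M),
      (((h • v : Additive M).toMul : M) : G) = (h : G) * (v.toMul : G) * (h : G)⁻¹ := fun _ _ => rfl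
  haveI hfaith : FaithfulSMul (MulAction.stabilizer G α) (Additive M) := by
    constructor
    intro g h hgh
    have h1 : (h : G)⁻¹ * g ∈ MulAction.stabilizer G α ⊓ Subgroup.centralizer (M : Set G) := by
      refine Subgroup.mem_inf.mpr ⟨mul_mem (inv_mem h.2) g.2, ?_⟩
      rw [Subgroup.mem_centralizer_iff]
      intro m hm
      have h2 := congrArg (fun v : Additive M => ((v.toMul : M) : G)) (hgh (Additive.ofMul ⟨m, hm⟩))
      change (g : G) * m * (g : G)⁻¹ = (h : G) * m * (h : G)⁻¹ at h2
      have h3 : (g : G) * m = (h : G) * m * (h : G)⁻¹ * g := by rw [← h2]; group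
      rw [mul_assoc, h3]
      group
    rw [hMcent, Subgroup.mem_bot] at h1
    exact Subtype.ext (inv_mul_eq_one.mp h1).symm
  obtain ⟨hcyc, hroot, hindex, h0, hh0⟩ := FieldAction.core (V := Additive M) (p := p) (d := d) hd hMcard A0 hAn0 hAcomm0
    (by
      intro W hW
      let L0 : Subgroup M :=
        { carrier := {x | Additive.ofMul x ∈ W}
          one_mem' := W.zero_mem
          mul_mem' := fun {a b} ha hb => W.add_mem ha hb
          inv_mem' := fun {a} ha => W.neg_mem ha }
      have hL0 : ∀ x, x ∈ L0 ↔ Additive.ofMul x ∈ W := fun _ => Iff.rfl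
      let L : Subgroup G := L0.map M.subtype
      have hLM : L ≤ M := by
        rintro _ ⟨y, _, rfl⟩
        exact y.2
      have hLn : MulAction.stabilizer G α ≤ Subgroup.normalizer (L : Set G) := by
        rw [Subgroup.le_normalizer_iff]
        rintro h hh _ ⟨y, hy, rfl⟩
        obtain ⟨a, ha, haω⟩ := ExtremelyPrimitive.trans_of_ne_bot hprim hep A hAle hAn hAb
          ((y : G) • α) h hh
        have hhα : h⁻¹ • α = α := inv_mem hh
        have haα : a⁻¹ • α = α := inv_mem (hAle ha)
        have h1 : h * (y : G) * h⁻¹ = a * (y : G) * a⁻¹ := by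
          refine hreg _ (hMn.conj_mem _ y.2 _) _ (hMn.conj_mem _ y.2 _) ?_
          rw [mul_smul, mul_smul, hhα, mul_smul, mul_smul, haα]
          exact haω.symm
        have h2 : (⟨a, hAle ha⟩ : MulAction.stabilizer G α) ∈ A0 := (hAmem ⟨a, hAle ha⟩).mp ha
        have h3 := hW ⟨a, hAle ha⟩ h2 (Additive.ofMul y) hy
        have h4 : (⟨a * (y : G) * a⁻¹, hMn.conj_mem _ y.2 _⟩ : M) ∈ L0 := h3
        change h * (y : G) * h⁻¹ ∈ L
        rw [h1]
        exact ⟨_, h4, rfl⟩
      rcases hirr L hLM hLn with h | h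
      · left
        rw [eq_bot_iff]
        intro w hw
        have h1 : ((w.toMul : M) : G) ∈ L := ⟨w.toMul, hw, rfl⟩
        rw [h, Subgroup.mem_bot] at h1
        rw [AddSubgroup.mem_bot]
        apply Additive.toMul.injective
        exact Subtype.ext h1
      · right
        rw [eq_top_iff]
        intro w _
        have h1 : ((w.toMul : M) : G) ∈ L := by rw [h]; exact w.toMul.2
        obtain ⟨y, hy, hyw⟩ := h1
        have : y = w.toMul := Subtype.ext hyw
        rw [← ofMul_toMul w, ← this]
        exact hy)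
    (by
      intro h hh
      rw [← hAmem]
      refine ExtPrimAbelian.mem_of_centralizes hprim hep A hAle hAn hAb hAcomm h.2 ?_
      rintro _ ⟨a, ha, rfl⟩
      exact congrArg Subtype.val (hh a ha))
  have hqe1 : e = 1 := by
    obtain ⟨g, hg⟩ := hcyc.exists_generator
    have h1 : orderOf g = q ^ e := by
      rw [orderOf_eq_card_of_forall_mem_zpowers hg, ← hAcard, hqe]
    have h2 : g ^ q = 1 := by
      have h3 := hpow ((g : MulAction.stabilizer G α) : G) ((hAmem _).mpr g.2)
      apply Subtype.ext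
      apply Subtype.ext
      exact h3
    have h3 : q ^ e ∣ q ^ 1 := by rw [← h1, pow_one]; exact orderOf_dvd_of_pow_eq_one h2
    have h4 := (Nat.pow_dvd_pow_iff_le_right hq.one_lt).mp h3
    omega
  rw [hqe1, pow_one] at hqe
  refine ⟨q, hq, ?_, ?_, ?_, A, hAle, hAn, hqe, ?_, ?_⟩
  · intro ω hω
    rw [ExtPrimAbelian.card_orbit hprim hep A hAle hAn hAb hAcomm hω, hqe]
  · have := ExtPrimAbelian.card_dvd hprim hep A hAle hAn hAb hAcomm
    rwa [hqe, Nat.card_eq_fintype_card, hcard] at this
  · intro i hi hid hdvd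
    obtain ⟨a, ha, hne⟩ := hroot i hi hid
    apply hne
    have h1 : a ^ q = 1 := Subtype.ext (hpow (a : G) ((hAmem a).mpr ha))
    obtain ⟨k, hk⟩ := hdvd
    have h2 : p ^ i = q * k + 1 := by
      have : 0 < p ^ i := pow_pos hp.pos i
      omega
    rw [h2, pow_succ, pow_mul, h1, one_pow, one_mul]
  · refine ⟨h0, ?_⟩
    have h1 := congrArg (fun B : Subgroup (MulAction.stabilizer G α) => B.map (MulAction.stabilizer G α).subtype) hh0
    simp only [Subgroup.map_sup, MonoidHom.map_zpowers] at h1
    rw [← MonoidHom.range_eq_map, Subgroup.range_subtype] at h1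
    exact h1.symm
  · rw [← Subgroup.card_mul_index A0, ← hAcard, hqe]
    exact Nat.mul_dvd_mul_left q hindex

end Cfsg.Agent.S3496
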