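import Cfsg.Statements.S3497
-- import your own Cfsg.Agent.* helpers here
import Cfsg.Agent.H382.ExtPrimAbelian
import Cfsg.Agent.Lib.Cores
import Cfsg.Agent.Lib.ElemAbGL

set_option autoImplicit false
set_option linter.style.haveILetI false
open Cfsg

namespace Cfsg.Agent.S3497

open Cfsg.Agent.H382

/-- If the stabilizer is abelian then it has prime order. -/
theorem prime_of_comm {G : Type*} [Group G] [Finite G] {Ω : Type*} [Finite Ω] [MulAction G Ω]
    [FaithfulSMul G Ω] (hprim : MulAction.IsPreprimitive G Ω)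
    (hep : ∀ (α : Ω) (ω : Ω), MulAction.IsPreprimitive (MulAction.stabilizer G α) (MulAction.orbit (MulAction.stabilizer G α) ω))
    (α : Ω) (hH1 : MulAction.stabilizer G α ≠ ⊥)
    (hcomm : ∀ a ∈ MulAction.stabilizer G α, ∀ b ∈ MulAction.stabilizer G α, a * b = b * a) :
    (Nat.card (MulAction.stabilizer G α)).Prime := by
  have hnorm : ∀ B : Subgroup G, B ≤ MulAction.stabilizer G α →
      MulAction.stabilizer G α ≤ Subgroup.normalizer (B : Set G) := by
    intro B hB
    rw [Subgroup.le_normalizer_iff]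
    intro h hh x hx
    rw [hcomm h hh x (hB hx), mul_inv_cancel_right]
    exact hx
  have hne : Nat.card (MulAction.stabilizer G α) ≠ 1 := fun h => hH1 (Subgroup.card_eq_one.mp h)
  obtain ⟨p, hp, hpA⟩ := Nat.exists_prime_and_dvd hne
  haveI : Fact p.Prime := ⟨hp⟩
  obtain ⟨x, hx⟩ := exists_prime_orderOf_dvd_card' p hpA
  have hxo : orderOf (x : G) = p := by rw [Subgroup.orderOf_coe, hx]
  have hle : Subgroup.zpowers (x : G) ≤ MulAction.stabilizer G α := by
    rw [Subgroup.zpowers_le]; exact x.2
  have hbot : Subgroup.zpowers (x : G) ≠ ⊥ := by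
    rw [Ne, Subgroup.zpowers_eq_bot]
    intro h
    rw [h, orderOf_one] at hxo
    exact hp.one_lt.ne hxo
  have := ExtPrimAbelian.eq_of_le hprim hep (MulAction.stabilizer G α) le_rfl
    (hnorm _ le_rfl) hH1 hcomm (Subgroup.zpowers (x : G)) hle (hnorm _ hle) hbot
  rw [← this, Nat.card_zpowers, hxo]
  exact hp

/-- Restrictions on the point stabilizer of an extremely primitive group. Let a finite group G act faithfully and primitively on a finite set Ω with point stabilizers H = G_α whose order is neither 1 nor a prime, each acting primitively on every one of its orbits. Then H has trivial center, the Fitting subgroup F(H) is an elementary abelian p-group for some prime p, and if F(H) ≠ 1 has order p ^ e then p ^ e divides the number of points minus one and H / F(H) embeds in GL_e(p) (there is a homomorphism from H to GL_e(p) with kernel exactly F(H)). -/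
theorem result {G : Type*} [Group G] [Finite G] {Ω : Type*} [Fintype Ω] [MulAction G Ω] [FaithfulSMul G Ω] (hprim : MulAction.IsPreprimitive G Ω) (hep : ∀ (α : Ω) (ω : Ω), MulAction.IsPreprimitive (MulAction.stabilizer G α) (MulAction.orbit (MulAction.stabilizer G α) ω)) (α : Ω)
    (hH1 : MulAction.stabilizer G α ≠ ⊥) (hHp : ¬ (Nat.card (MulAction.stabilizer G α)).Prime) :
    Subgroup.center (MulAction.stabilizer G α) = ⊥ ∧
    IsMulCommutative (Cfsg.fittingSubgroup (MulAction.stabilizer G α)) ∧
    ∃ p e : ℕ, p.Prime ∧ Nat.card (Cfsg.fittingSubgroup (MulAction.stabilizer G α)) = p ^ e ∧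
      (∀ x ∈ Cfsg.fittingSubgroup (MulAction.stabilizer G α), x ^ p = 1) ∧
      (Cfsg.fittingSubgroup (MulAction.stabilizer G α) ≠ ⊥ →
        p ^ e ∣ Fintype.card Ω - 1 ∧
        ∃ φ : MulAction.stabilizer G α →* GL (Fin e) (ZMod p), φ.ker = Cfsg.fittingSubgroup (MulAction.stabilizer G α)) := by
  -- subgroups of `H` as subgroups of `G`
  have hmaple : ∀ B : Subgroup (MulAction.stabilizer G α), B.map (MulAction.stabilizer G α).subtype ≤ MulAction.stabilizer G α := by
    intro B x hx
    obtain ⟨y, _, rfl⟩ := Subgroup.mem_map.mp hx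
    exact y.2
  have hmapn : ∀ B : Subgroup (MulAction.stabilizer G α), B.Normal →
      MulAction.stabilizer G α ≤ Subgroup.normalizer ((B.map (MulAction.stabilizer G α).subtype : Subgroup G) : Set G) := by
    intro B hB
    rw [Subgroup.le_normalizer_iff]
    rintro h hh x hx
    obtain ⟨y, hy, rfl⟩ := Subgroup.mem_map.mp hx
    exact Subgroup.mem_map.mpr ⟨⟨h, hh⟩ * y * ⟨h, hh⟩⁻¹, hB.conj_mem y hy _, rfl⟩
  have hmapb : ∀ B : Subgroup (MulAction.stabilizer G α), B ≠ ⊥ → B.map (MulAction.stabilizer G α).subtype ≠ ⊥ := by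
    intro B hB h
    apply hB
    exact (Subgroup.map_eq_bot_iff_of_injective _ (Subgroup.subtype_injective _)).mp h
  have hmem : ∀ (B : Subgroup (MulAction.stabilizer G α)) (x : MulAction.stabilizer G α),
      (x : G) ∈ B.map (MulAction.stabilizer G α).subtype ↔ x ∈ B := by
    intro B x
    constructor
    · intro h
      obtain ⟨y, hy, hyx⟩ := Subgroup.mem_map.mp h
      have : y = x := Subtype.ext hyx
      rwa [← this]
    · intro h
      exact Subgroup.mem_map.mpr ⟨x, h, rfl⟩
  have hcard : ∀ B : Subgroup (MulAction.stabilizer G α),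
      Nat.card (B.map (MulAction.stabilizer G α).subtype : Subgroup G) = Nat.card B := fun B =>
    Subgroup.card_map_of_injective (Subgroup.subtype_injective _)
  -- an abelian normal subgroup is self-centralizing
  have hself : ∀ B : Subgroup (MulAction.stabilizer G α), B.Normal → B ≠ ⊥ →
      (∀ a ∈ B, ∀ b ∈ B, a * b = b * a) → ∀ c : MulAction.stabilizer G α,
      (∀ a ∈ B, a * c = c * a) → c ∈ B := by
    intro B hBn hBb hBc c hc
    rw [← hmem]
    refine ExtPrimAbelian.mem_of_centralizes hprim hep _ (hmaple B) (hmapn B hBn) (hmapb B hBb)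
      ?_ c.2 ?_
    · rintro _ ⟨a, ha, rfl⟩ _ ⟨b, hb, rfl⟩
      exact congrArg Subtype.val (hBc a ha b hb)
    · rintro _ ⟨a, ha, rfl⟩
      exact congrArg Subtype.val (hc a ha)
  have hcen : Subgroup.center (MulAction.stabilizer G α) = ⊥ := by
    by_contra hne
    apply hHp
    refine prime_of_comm hprim hep α hH1 ?_
    have htop : ∀ c : MulAction.stabilizer G α, c ∈ Subgroup.center (MulAction.stabilizer G α) := by
      intro c
      refine hself _ inferInstance hne ?_ c ?_
      · intro a ha b _
        exact (Subgroup.mem_center_iff.mp ha b).symm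
      · intro a ha
        exact (Subgroup.mem_center_iff.mp ha c).symm
    intro a ha b hb
    exact congrArg Subtype.val (Subgroup.mem_center_iff.mp (htop ⟨b, hb⟩) ⟨a, ha⟩)
  refine ⟨hcen, ?_⟩
  by_cases hF : Cfsg.fittingSubgroup (MulAction.stabilizer G α) = ⊥
  · rw [hF]
    refine ⟨inferInstance, 2, 0, Nat.prime_two, ?_, ?_, ?_⟩
    · rw [Subgroup.card_bot, pow_zero]
    · intro x hx
      rw [Subgroup.mem_bot.mp hx, one_pow]
    · intro h; exact absurd rfl h
  · have hFn : (Cfsg.fittingSubgroup (MulAction.stabilizer G α)).Normal :=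
      Cfsg.Agent.Lib.Cores.fittingSubgroup_normal
    have hFnil : Group.IsNilpotent (Cfsg.fittingSubgroup (MulAction.stabilizer G α)) :=
      Cfsg.Agent.Lib.Cores.fittingSubgroup_isNilpotent
    set F := Cfsg.fittingSubgroup (MulAction.stabilizer G α) with hFdef
    let Z : Subgroup (MulAction.stabilizer G α) := (Subgroup.center F).map F.subtype
    have hZF : Z ≤ F := by
      rintro _ ⟨y, _, rfl⟩
      exact y.2
    have hZn : Z.Normal := by
      exact inferInstanceAs ((Subgroup.center F).map F.subtype).Normal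
    have hZb : Z ≠ ⊥ := by
      intro h
      have h1 : Subgroup.center F = ⊥ :=
        (Subgroup.map_eq_bot_iff_of_injective _ (Subgroup.subtype_injective _)).mp h
      haveI : Nontrivial F := (Subgroup.nontrivial_iff_ne_bot _).mpr hF
      exact Group.IsNilpotent.center_ne_bot (G := F) h1
    have hZc : ∀ a ∈ Z, ∀ f ∈ F, a * f = f * a := by
      rintro _ ⟨a, ha, rfl⟩ f hf
      have := Subgroup.mem_center_iff.mp ha ⟨f, hf⟩
      exact (congrArg Subtype.val this).symm
    have hFZ : F ≤ Z := by
      intro f hf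
      exact hself Z hZn hZb (fun a ha b hb => hZc a ha b (hZF hb)) f (fun a ha => hZc a ha f hf)
    have hFc : ∀ a ∈ F, ∀ b ∈ F, a * b = b * a := fun a ha b hb => hZc a (hFZ ha) b hb
    have hFc' : ∀ a ∈ F.map (MulAction.stabilizer G α).subtype,
        ∀ b ∈ F.map (MulAction.stabilizer G α).subtype, a * b = b * a := by
      rintro _ ⟨a, ha, rfl⟩ _ ⟨b, hb, rfl⟩
      exact congrArg Subtype.val (hFc a ha b hb)
    obtain ⟨p, e, hp, he, hcardF, hpow⟩ := ExtPrimAbelian.exists_prime hprim hep _ (hmaple F)
      (hmapn F hFn) (hmapb F hF) hFc'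
    haveI : Fact p.Prime := ⟨hp⟩
    have hdvd := ExtPrimAbelian.card_dvd hprim hep _ (hmaple F)
      (hmapn F hFn) (hmapb F hF) hFc'
    rw [hcard] at hcardF hdvd
    rw [hcardF, Nat.card_eq_fintype_card] at hdvd
    have hpowF : ∀ x ∈ F, x ^ p = 1 := by
      intro x hx
      have := hpow x ((hmem F x).mpr hx)
      exact Subtype.ext (by rw [Subgroup.coe_pow, Subgroup.coe_one]; exact this)
    refine ⟨⟨⟨fun a b => Subtype.ext (hFc a a.2 b b.2)⟩⟩, p, e, hp, hcardF, hpowF, fun _ => ⟨hdvd, ?_⟩⟩
    letI : CommGroup F := { (inferInstance : Group F) with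
      mul_comm := fun a b => Subtype.ext (hFc a a.2 b b.2) }
    obtain ⟨ε⟩ := Cfsg.Agent.Lib.ElemAbGL.mulAut_equiv_GL (V := F) p e
      (fun x => Subtype.ext (by rw [Subgroup.coe_pow, Subgroup.coe_one]; exact hpowF x x.2)) hcardF
    refine ⟨ε.toMonoidHom.comp (MulAut.conjNormal (H := F)), ?_⟩
    ext c
    rw [MonoidHom.mem_ker, MonoidHom.comp_apply]
    have h1 : ε.toMonoidHom (MulAut.conjNormal (H := F) c) = 1 ↔ MulAut.conjNormal (H := F) c = 1 := by
      change ε _ = 1 ↔ _
      rw [map_eq_one_iff ε ε.injective]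
    rw [h1]
    constructor
    · intro h
      refine hself F hFn hF hFc c ?_
      intro a ha
      have h2 := congrArg (fun φ : MulAut F => ((φ ⟨a, ha⟩ : F) : MulAction.stabilizer G α)) h
      have h3 : c * a * c⁻¹ = a := by
        simpa using h2
      exact (mul_inv_eq_iff_eq_mul.mp h3).symm
    · intro hc
      ext a : 1
      apply Subtype.ext
      rw [MulAut.conjNormal_apply]
      rw [hFc c hc a a.2, mul_inv_cancel_right]
      rfl

end Cfsg.Agent.S3497
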