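import Cfsg.Statements.S3498
-- import your own Cfsg.Agent.* helpers here
import Mathlib.GroupTheory.Transfer
import Mathlib.GroupTheory.SpecificGroups.Cyclic
import Cfsg.Agent.S0033

set_option autoImplicit false
set_option linter.style.haveILetI false
open Cfsg

namespace Cfsg.Agent.S3498

theorem isMulComm_of_card_prime {G : Type*} [Group G] (H : Subgroup G) (hp : (Nat.card H).Prime) :
    ∀ a ∈ H, ∀ b ∈ H, a * b = b * a := by
  haveI : Fact (Nat.card H).Prime := ⟨hp⟩
  haveI hcyc : IsCyclic H := isCyclic_of_prime_card (p := Nat.card H) rfl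
  obtain ⟨g, hg⟩ := hcyc.exists_generator
  intro a ha b hb
  obtain ⟨m, hm⟩ := Subgroup.mem_zpowers_iff.mp (hg ⟨a, ha⟩)
  obtain ⟨n, hn⟩ := Subgroup.mem_zpowers_iff.mp (hg ⟨b, hb⟩)
  have h : (⟨a, ha⟩ : H) * ⟨b, hb⟩ = ⟨b, hb⟩ * ⟨a, ha⟩ := by
    rw [← hm, ← hn, ← zpow_add, ← zpow_add, add_comm]
  exact congrArg Subtype.val h

/-- A maximal subgroup of a finite almost simple group does not have prime order. Here G is almost simple in the sense that it has a non-abelian simple normal subgroup T with trivial centralizer. -/
theorem result {G : Type*} [Group G] [Finite G] (T : Subgroup G) [T.Normal] (hT : IsSimpleGroup T) (hTc : ¬ IsMulCommutative T)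
    (hC : Subgroup.centralizer (T : Set G) = ⊥) (H : Subgroup G) (hmax : IsCoatom H) : ¬ (Nat.card H).Prime := by
  intro hp
  haveI : Fact (Nat.card H).Prime := ⟨hp⟩
  have hcomm := isMulComm_of_card_prime H hp
  have hHbot : H ≠ ⊥ := by
    intro h
    rw [h, Subgroup.card_bot] at hp
    exact Nat.not_prime_one hp
  have hsimple_solv : ¬ Group.IsNilpotent T := by
    intro hnil
    apply hTc
    have hcen : Subgroup.center T = ⊤ := by
      rcases hT.eq_bot_or_eq_top_of_normal (Subgroup.center T) inferInstance with h | h
      · exfalso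
        haveI := hT.toNontrivial
        haveI := hnil
        exact (Group.IsNilpotent.center_ne_bot (G := T)) h
      · exact h
    exact ⟨⟨fun a b => (Subgroup.mem_center_iff.mp (hcen ▸ Subgroup.mem_top a) b).symm⟩⟩
  by_cases hHT : H ≤ T
  · have hne : H ≠ T := by
      rintro rfl
      exact hTc ⟨⟨fun a b => Subtype.ext (hcomm a a.2 b b.2)⟩⟩
    have htop : T = ⊤ := hmax.2 T (lt_of_le_of_ne hHT hne)
    subst htop
    haveI hGs : IsSimpleGroup G := by
      exact (Subgroup.topEquiv (G := G)).isSimpleGroup_congr.mp hT
    have hnotnil : ¬ Group.IsNilpotent G := by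
      intro h
      apply hsimple_solv
      infer_instance
    obtain ⟨P, hP⟩ := (IsPGroup.of_card (p := Nat.card H) (n := 1) (by rw [pow_one]) : IsPGroup (Nat.card H) H).exists_le_sylow
    have hPH : (P : Subgroup G) = H := by
      by_contra hne'
      have : (P : Subgroup G) = ⊤ := hmax.2 _ (lt_of_le_of_ne hP (Ne.symm hne'))
      apply hnotnil
      have hPtop : IsPGroup (Nat.card H) (⊤ : Subgroup G) := this ▸ P.isPGroup'
      have : IsPGroup (Nat.card H) G := hPtop.of_equiv Subgroup.topEquiv
      exact this.isNilpotent
    have hnorm : Subgroup.normalizer (H : Set G) = H := by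
      rcases eq_or_lt_of_le (Subgroup.le_normalizer (H := H)) with h | h
      · exact h.symm
      · exfalso
        have h1 := hmax.2 _ h
        have h2 : H.Normal := Subgroup.normalizer_eq_top_iff.mp h1
        rcases hGs.eq_bot_or_eq_top_of_normal H h2 with h3 | h3
        · exact hHbot h3
        · exact hmax.1 h3
    have hPc : Subgroup.normalizer ((P : Subgroup G) : Set G) ≤ Subgroup.centralizer ((P : Subgroup G) : Set G) := by
      rw [hPH, hnorm]
      intro a ha
      rw [Subgroup.mem_centralizer_iff]
      intro b hb
      exact hcomm b hb a ha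
    have hcompl := MonoidHom.ker_transferSylow_isComplement' P hPc
    rcases hGs.eq_bot_or_eq_top_of_normal _ (MonoidHom.normal_ker (MonoidHom.transferSylow P hPc)) with h | h
    · rw [h] at hcompl
      have := Subgroup.isComplement'_bot_left.mp hcompl
      exact hmax.1 (hPH ▸ this)
    · rw [h] at hcompl
      have := Subgroup.isComplement'_top_left.mp hcompl
      exact hHbot (hPH ▸ this)
  · -- H ∩ T = 1
    have hHT1 : H ⊓ T = ⊥ := by
      have hdvd : Nat.card (H ⊓ T : Subgroup G) ∣ Nat.card H := Subgroup.card_dvd_of_le inf_le_left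
      rcases (Nat.dvd_prime hp).mp hdvd with h | h
      · exact Subgroup.card_eq_one.mp h
      · exfalso
        apply hHT
        have : H ⊓ T = H := Subgroup.eq_of_le_of_card_ge inf_le_left (le_of_eq h.symm)
        exact inf_eq_left.mp this
    have hcen : Subgroup.centralizer (H : Set G) = H := by
      have hle : H ≤ Subgroup.centralizer (H : Set G) := by
        intro a ha
        rw [Subgroup.mem_centralizer_iff]
        intro b hb
        exact hcomm b hb a ha
      rcases eq_or_lt_of_le hle with h | h
      · exact h.symm
      · exfalso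
        have h1 := hmax.2 _ h
        apply hHbot
        rw [eq_bot_iff, ← hC]
        intro a ha
        rw [Subgroup.mem_centralizer_iff]
        intro b _
        have hb : b ∈ Subgroup.centralizer (H : Set G) := h1 ▸ Subgroup.mem_top b
        exact (Subgroup.mem_centralizer_iff.mp hb a ha).symm
    haveI hcyc : IsCyclic H := isCyclic_of_prime_card (p := Nat.card H) rfl
    obtain ⟨g, hg⟩ := hcyc.exists_generator
    apply hsimple_solv
    have hgcen : ∀ x : G, (g : G) * x = x * g → x ∈ H := by
      intro x hx
      rw [← hcen, Subgroup.mem_centralizer_iff]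
      intro b hb
      obtain ⟨m, hm⟩ := Subgroup.mem_zpowers_iff.mp (hg ⟨b, hb⟩)
      have hb' : b = (g : G) ^ m := by
        have := congrArg Subtype.val hm
        simpa using this.symm
      rw [hb']
      have hc : Commute (g : G) x := hx
      exact (hc.zpow_left m).eq
    refine Cfsg.Agent.S0033.result (MulAut.conjNormal (H := T) (g : G)) ?_ (Nat.card H) hp ?_
    · intro t ht
      have h1 : (g : G) * t * (g : G)⁻¹ = t := by
        have := congrArg Subtype.val ht
        simpa using this
      have h2 : (t : G) ∈ H := hgcen t (mul_inv_eq_iff_eq_mul.mp h1)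
      have h3 : (t : G) ∈ H ⊓ T := ⟨h2, t.2⟩
      rw [hHT1, Subgroup.mem_bot] at h3
      exact Subtype.ext h3
    · have hpow : (MulAut.conjNormal (H := T) (g : G)) ^ (Nat.card H) = 1 := by
        rw [← map_pow]
        have : (g : G) ^ (Nat.card H) = 1 := by
          have := pow_card_eq_one' (x := g)
          have h2 := congrArg Subtype.val this
          rwa [Subgroup.coe_pow, Subgroup.coe_one] at h2
        rw [this, map_one]
      refine orderOf_eq_prime hpow ?_
      intro h1
      have h2 : (g : G) ∈ Subgroup.centralizer (T : Set G) := by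
        rw [Subgroup.mem_centralizer_iff]
        intro t ht
        have h3 := congrArg (fun φ : MulAut T => ((φ ⟨t, ht⟩ : T) : G)) h1
        simp at h3
        rw [eq_comm, ← mul_inv_eq_iff_eq_mul]
        exact h3
      rw [hC, Subgroup.mem_bot] at h2
      apply hHbot
      rw [eq_bot_iff]
      intro x hx
      have := hgcen
      obtain ⟨m, hm⟩ := Subgroup.mem_zpowers_iff.mp (hg ⟨x, hx⟩)
      have h4 := congrArg Subtype.val hm
      simp [h2] at h4
      rw [Subgroup.mem_bot]
      exact h4.symm

end Cfsg.Agent.S3498
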