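import Cfsg.Statements.S3504

set_option autoImplicit false
open Cfsg

namespace Cfsg.Agent.S3504

open Equiv Equiv.Perm

/-- a permutation of prime order without fixed points has cycle type `(n/p) * p`. -/
theorem cycleType_of_der {n : ℕ} (g : Equiv.Perm (Fin n)) (hp : (orderOf g).Prime)
    (hg : ∀ i, g i ≠ i) :
    orderOf g ∣ n ∧ g.cycleType = Multiset.replicate (n / orderOf g) (orderOf g) := by
  obtain ⟨k, hk⟩ := Equiv.Perm.cycleType_prime_order hp
  have hs : g.cycleType.sum = n := by
    rw [Equiv.Perm.sum_cycleType]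
    have : g.support = Finset.univ := by
      ext i; simp [hg i]
    rw [this]; simp
  have hkn : n = orderOf g * (k + 1) := by
    rw [hk, Multiset.sum_replicate, smul_eq_mul, mul_comm] at hs
    exact hs.symm
  refine ⟨⟨k + 1, hkn⟩, ?_⟩
  have : n / orderOf g = k + 1 := Nat.div_eq_of_eq_mul_right hp.pos hkn
  rw [this, hk]

theorem exists_der {n p : ℕ} (hn : n ≠ 0) (hp : p.Prime) (hpn : p ∣ n) :
    ∃ g : Equiv.Perm (Fin n), orderOf g = p ∧ ∀ i, g i ≠ i := by
  obtain ⟨g, hg⟩ : ∃ g : Equiv.Perm (Fin n), g.cycleType = Multiset.replicate (n / p) p := by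
    rw [Equiv.Perm.exists_with_cycleType_iff]
    constructor
    · simp [Nat.div_mul_cancel hpn]
    · intro a ha
      rw [Multiset.eq_of_mem_replicate ha]
      exact hp.two_le
  refine ⟨g, ?_, ?_⟩
  · rw [← Equiv.Perm.lcm_cycleType, hg]
    have hpos : n / p ≠ 0 := by
      have := Nat.div_pos (Nat.le_of_dvd (Nat.pos_of_ne_zero hn) hpn) hp.pos
      omega
    obtain ⟨m, hm⟩ := Nat.exists_eq_succ_of_ne_zero hpos
    apply Nat.dvd_antisymm
    · rw [Multiset.lcm_dvd]
      intro b hb
      rw [Multiset.eq_of_mem_replicate hb]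
    · apply Multiset.dvd_lcm
      rw [Multiset.mem_replicate]
      exact ⟨hpos, rfl⟩
  · have hs : g.support.card = n := by
      rw [← Equiv.Perm.sum_cycleType, hg]
      simp [Nat.div_mul_cancel hpn]
    have : g.support = Finset.univ := by
      apply Finset.eq_univ_of_card
      rw [hs]; simp
    intro i
    have hi : i ∈ g.support := by rw [this]; exact Finset.mem_univ i
    simpa using hi

theorem card_eq (n : ℕ) (hn : n ≠ 0) :
    Nat.card {c : ConjClasses (Equiv.Perm (Fin n)) // ∃ g : Equiv.Perm (Fin n),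
      ConjClasses.mk g = c ∧ (orderOf g).Prime ∧ ∀ i : Fin n, g i ≠ i} = n.primeFactors.card := by
  classical
  have hex : ∀ p : n.primeFactors, ∃ g : Equiv.Perm (Fin n), orderOf g = p ∧ ∀ i, g i ≠ i := by
    rintro ⟨p, hp⟩
    exact exists_der hn (Nat.prime_of_mem_primeFactors hp) (Nat.dvd_of_mem_primeFactors hp)
  choose f hf hf' using hex
  let F : n.primeFactors → {c : ConjClasses (Equiv.Perm (Fin n)) // ∃ g : Equiv.Perm (Fin n),
      ConjClasses.mk g = c ∧ (orderOf g).Prime ∧ ∀ i : Fin n, g i ≠ i} :=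
    fun p => ⟨ConjClasses.mk (f p), f p, rfl, by
      rw [hf]; exact Nat.prime_of_mem_primeFactors p.2, hf' p⟩
  have hF : Function.Bijective F := by
    constructor
    · intro p q hpq
      have h1 : ConjClasses.mk (f p) = ConjClasses.mk (f q) := congrArg Subtype.val hpq
      rw [ConjClasses.mk_eq_mk_iff_isConj] at h1
      have h2 : (f p).cycleType = (f q).cycleType := Equiv.Perm.isConj_iff_cycleType_eq.1 h1
      have h3 : orderOf (f p) = orderOf (f q) := by
        rw [← Equiv.Perm.lcm_cycleType, ← Equiv.Perm.lcm_cycleType, h2]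
      rw [hf, hf] at h3
      exact Subtype.ext h3
    · rintro ⟨c, g, rfl, hp, hg⟩
      obtain ⟨hd, hc⟩ := cycleType_of_der g hp hg
      refine ⟨⟨orderOf g, Nat.mem_primeFactors.2 ⟨hp, hd, hn⟩⟩, ?_⟩
      apply Subtype.ext
      show ConjClasses.mk (f _) = ConjClasses.mk g
      rw [ConjClasses.mk_eq_mk_iff_isConj, Equiv.Perm.isConj_iff_cycleType_eq]
      have h4 := (cycleType_of_der (f ⟨orderOf g, Nat.mem_primeFactors.2 ⟨hp, hd, hn⟩⟩)
        (by rw [hf]; exact hp) (hf' _)).2
      rw [hf] at h4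
      rw [h4, hc]
  rw [← Nat.card_eq_of_bijective F hF, Nat.card_eq_fintype_card, Fintype.card_coe]

/-- For n ≥ 5, the fixed-point-free permutations of prime order in the symmetric group of degree n form a single conjugacy class if and only if n is a prime power. -/
theorem result (n : ℕ) (hn : 5 ≤ n) :
    Nat.card {c : ConjClasses (Equiv.Perm (Fin n)) // ∃ g : Equiv.Perm (Fin n), ConjClasses.mk g = c ∧ (orderOf g).Prime ∧ ∀ i : Fin n, g i ≠ i} = 1 ↔ IsPrimePow n := by
  rw [card_eq n (by omega), isPrimePow_iff_card_primeFactors_eq_one]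

end Cfsg.Agent.S3504
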