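import Cfsg.Statements.S3516
import Cfsg.Agent.H386.AffineClosure

set_option autoImplicit false
open Cfsg

namespace Cfsg.Agent.S3516

/-- Let p be an odd prime, d ≥ 3, and G a group of affine permutations x ↦ Ax + b of V = F_p^d containing all translations and all maps x ↦ Ax with A of determinant 1. Then the 3-closure of G is the full affine group: a permutation σ of V agrees on every triple of points with some element of G if and only if σ is an affine map. -/
theorem result (p : ℕ) [Fact p.Prime] (hp : p ≠ 2) (d : ℕ) (hd : 3 ≤ d) (G : Subgroup (Equiv.Perm (Fin d → ZMod p)))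
    (haff : (G : Set (Equiv.Perm (Fin d → ZMod p))) ⊆ {τ : Equiv.Perm (Fin d → ZMod p) | ∃ (A : (Fin d → ZMod p) ≃ₗ[ZMod p] (Fin d → ZMod p)) (b : Fin d → ZMod p), ∀ x, τ x = A x + b})
    (htrans : ∀ b : Fin d → ZMod p, ∃ g ∈ G, ∀ x, g x = x + b)
    (hsl : ∀ A : (Fin d → ZMod p) ≃ₗ[ZMod p] (Fin d → ZMod p), LinearMap.det (A : (Fin d → ZMod p) →ₗ[ZMod p] (Fin d → ZMod p)) = 1 → ∃ g ∈ G, ∀ x, g x = A x)
    (σ : Equiv.Perm (Fin d → ZMod p)) :
    (∀ t : Fin 3 → (Fin d → ZMod p), ∃ g ∈ G, ∀ i, σ (t i) = g (t i)) ↔ σ ∈ {τ : Equiv.Perm (Fin d → ZMod p) | ∃ (A : (Fin d → ZMod p) ≃ₗ[ZMod p] (Fin d → ZMod p)) (b : Fin d → ZMod p), ∀ x, τ x = A x + b} := by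
  constructor
  · intro h
    exact Cfsg.Agent.H386.AffineClosure.affine_of_triples hp σ (fun t => by
      obtain ⟨g, hg, hgt⟩ := h t
      obtain ⟨A, b, hA⟩ := haff hg
      exact ⟨A, b, fun i => by rw [hgt i, hA]⟩)
  · rintro ⟨A, b, hA⟩ t
    -- a functional vanishing on the two differences
    obtain ⟨f, hf0, hf⟩ : ∃ f : Module.Dual (ZMod p) (Fin d → ZMod p), f ≠ 0 ∧
        ∀ i, f (t i - t 0) = 0 := by
      let W : Submodule (ZMod p) (Fin d → ZMod p) :=
        Submodule.span (ZMod p) (Set.range (fun i : Fin 2 => t i.succ - t 0))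
      have hW : Module.finrank (ZMod p) W < Module.finrank (ZMod p) (Fin d → ZMod p) := by
        have h1 : Module.finrank (ZMod p) W ≤ Fintype.card (Fin 2) := finrank_range_le_card _
        rw [Fintype.card_fin] at h1
        rw [Module.finrank_fin_fun]
        omega
      have hlt : W < ⊤ := by
        rw [lt_top_iff_ne_top]
        rintro htop
        rw [htop, finrank_top] at hW
        exact lt_irrefl _ hW
      obtain ⟨f, hf0, hf⟩ := Submodule.exists_le_ker_of_lt_top W hlt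
      refine ⟨f, hf0, fun i => ?_⟩
      refine Fin.cases ?_ (fun j => ?_) i
      · rw [sub_self, map_zero]
      · exact hf (Submodule.subset_span ⟨j, rfl⟩)
    obtain ⟨v, hv⟩ : ∃ v, f v = 1 := by
      obtain ⟨w, hw⟩ : ∃ w, f w ≠ 0 := by
        by_contra hcon
        push Not at hcon
        exact hf0 (LinearMap.ext hcon)
      exact ⟨(f w)⁻¹ • w, by rw [map_smul, smul_eq_mul, inv_mul_cancel₀ hw]⟩
    set δ : ZMod p := LinearMap.det (A : (Fin d → ZMod p) →ₗ[ZMod p] (Fin d → ZMod p)) with hδ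
    have hδ0 : δ ≠ 0 := (LinearEquiv.isUnit_det' A).ne_zero
    have hu : IsUnit (1 + f ((δ⁻¹ - 1) • v)) := by
      rw [map_smul, hv, smul_eq_mul, mul_one, add_sub_cancel]
      exact (inv_ne_zero hδ0).isUnit
    let D : (Fin d → ZMod p) ≃ₗ[ZMod p] (Fin d → ZMod p) := LinearEquiv.dilatransvection hu
    have hD : ∀ x, D x = x + f x • ((δ⁻¹ - 1) • v) := fun x => LinearEquiv.dilatransvection.apply
    have hdetD : LinearMap.det (D : (Fin d → ZMod p) →ₗ[ZMod p] (Fin d → ZMod p)) = δ⁻¹ := by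
      change LinearMap.det ((LinearEquiv.dilatransvection hu :
        (Fin d → ZMod p) ≃ₗ[ZMod p] (Fin d → ZMod p)) :
          (Fin d → ZMod p) →ₗ[ZMod p] (Fin d → ZMod p)) = δ⁻¹
      rw [LinearEquiv.dilatransvection.coe_toLinearMap, LinearMap.transvection.det, map_smul, hv,
        smul_eq_mul, mul_one, add_sub_cancel]
    have hdet : LinearMap.det ((D.trans A : (Fin d → ZMod p) ≃ₗ[ZMod p] (Fin d → ZMod p)) :
        (Fin d → ZMod p) →ₗ[ZMod p] (Fin d → ZMod p)) = 1 := by
      rw [LinearEquiv.coe_trans, LinearMap.det_comp, hdetD, ← hδ, mul_inv_cancel₀ hδ0]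
    obtain ⟨g, hg, hgx⟩ := hsl _ hdet
    obtain ⟨τ, hτ, hτx⟩ := htrans (σ (t 0) - g (t 0))
    refine ⟨τ * g, G.mul_mem hτ hg, fun i => ?_⟩
    change σ (t i) = τ (g (t i))
    have h1 : g (t i) - g (t 0) = A (t i) - A (t 0) := by
      rw [hgx, hgx, ← map_sub]
      change A (D (t i - t 0)) = _
      rw [hD, hf i, zero_smul, add_zero, map_sub]
    rw [hτx, hA, hA]
    have h2 : g (t i) = A (t i) - A (t 0) + g (t 0) := by rw [← h1]; abel
    rw [h2]
    abel

end Cfsg.Agent.S3516
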