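import Cfsg.Statements.S3518
import Cfsg.Agent.H386.AffineClosure
import Cfsg.Agent.PermutationGroups.PrimeDegree

set_option autoImplicit false
open Cfsg

namespace Cfsg.Agent.S3518

/-- Closures of subgroups of the one-dimensional affine group. Let p be a prime and G a group of permutations of F_p lying in the affine group AGL₁(p) = {x ↦ ax + b, a ≠ 0} and containing all translations. (1) If G is a proper subgroup of AGL₁(p), then G is 2-closed: a permutation of F_p agreeing on every ordered pair of points with some element of G lies in G. (2) Every permutation of F_p agrees on every ordered pair with some element of AGL₁(p) (the 2-closure of AGL₁(p) is the symmetric group). (3) AGL₁(p) is 3-closed: a permutation agreeing on every ordered triple with some affine map is affine. -/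
theorem result (p : ℕ) [Fact p.Prime] (G : Subgroup (Equiv.Perm (ZMod p))) (hG : G ≤ Cfsg.affineGroup (ZMod p))
    (htrans : ∀ b : ZMod p, ∃ g ∈ G, ∀ x, g x = x + b) :
    (G ≠ Cfsg.affineGroup (ZMod p) → ∀ σ : Equiv.Perm (ZMod p), (∀ t : Fin 2 → ZMod p, ∃ g ∈ G, ∀ i, σ (t i) = g (t i)) → σ ∈ G) ∧
    (∀ σ : Equiv.Perm (ZMod p), (∀ t : Fin 2 → ZMod p, ∃ g ∈ Cfsg.affineGroup (ZMod p), ∀ i, σ (t i) = g (t i))) ∧
    (∀ σ : Equiv.Perm (ZMod p), (∀ t : Fin 3 → ZMod p, ∃ g ∈ Cfsg.affineGroup (ZMod p), ∀ i, σ (t i) = g (t i)) → σ ∈ Cfsg.affineGroup (ZMod p)) := by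
  classical
  have hp : p.Prime := Fact.out
  refine ⟨fun hne σ hσ => ?_, fun σ t => ?_, fun σ hσ => ?_⟩
  · -- the set of slopes of `G`
    let U : Finset (ZMod p) := Finset.univ.filter (fun u => ∃ g ∈ G, ∀ x, g x = u * x)
    have hU : ∀ u, u ∈ U ↔ ∃ g ∈ G, ∀ x, g x = u * x := fun u => by simp [U]
    have hdiff : ∀ g ∈ G, ∀ x y, x ≠ y → (g x - g y) / (x - y) ∈ U := by
      intro g hg x y hxy
      obtain ⟨a, b, hab⟩ := hG hg
      obtain ⟨τ, hτ, hτx⟩ := htrans (-b)
      rw [hU]
      refine ⟨τ * g, G.mul_mem hτ hg, fun z => ?_⟩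
      change τ (g z) = _
      rw [hτx, hab, hab, hab]
      have : x - y ≠ 0 := sub_ne_zero.2 hxy
      field_simp
      ring
    have hUmul : ∀ u ∈ U, ∀ v ∈ U, u * v ∈ U := by
      intro u hu v hv
      obtain ⟨g, hg, hgx⟩ := (hU u).1 hu
      obtain ⟨g', hg', hgx'⟩ := (hU v).1 hv
      refine (hU _).2 ⟨g * g', G.mul_mem hg hg', fun x => ?_⟩
      change g (g' x) = _
      rw [hgx', hgx, mul_assoc]
    have h0 : (0 : ZMod p) ∉ U := by
      intro h
      obtain ⟨g, hg, hgx⟩ := (hU 0).1 h
      have : g 0 = g 1 := by rw [hgx, hgx, zero_mul, zero_mul]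
      exact zero_ne_one (g.injective this)
    have h1 : (1 : ZMod p) ∈ U := (hU 1).2 ⟨1, G.one_mem, fun x => by simp⟩
    obtain ⟨w, hw0, hwU⟩ : ∃ w : ZMod p, w ≠ 0 ∧ w ∉ U := by
      by_contra hcon
      push Not at hcon
      apply hne
      apply le_antisymm hG
      rintro τ ⟨a, b, hab⟩
      obtain ⟨g, hg, hgx⟩ := (hU a).1 (hcon a a.ne_zero)
      obtain ⟨ρ, hρ, hρx⟩ := htrans b
      have : τ = ρ * g := by
        apply Equiv.ext
        intro x
        change τ x = ρ (g x)
        rw [hρx, hgx, hab]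
      rw [this]
      exact G.mul_mem hρ hg
    have hUinv : ∀ u ∈ U, u⁻¹ ∈ U := by
      intro u hu
      obtain ⟨g, hg, hgx⟩ := (hU u).1 hu
      have hu0 : u ≠ 0 := fun h => h0 (h ▸ hu)
      refine (hU _).2 ⟨g⁻¹, G.inv_mem hg, fun x => ?_⟩
      apply g.injective
      rw [Equiv.Perm.inv_def, Equiv.apply_symm_apply, hgx, ← mul_assoc, mul_inv_cancel₀ hu0,
        one_mul]
    have hcard : 2 * U.card ≤ p - 1 := by
      have hdisj : Disjoint U (U.image (fun u => w * u)) := by
        rw [Finset.disjoint_left]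
        intro u hu hu'
        obtain ⟨v, hv, hvu⟩ := Finset.mem_image.1 hu'
        have hv0 : v ≠ 0 := fun h => h0 (h ▸ hv)
        apply hwU
        have : w = u * v⁻¹ := by
          rw [← hvu]
          field_simp
        rw [this]
        exact hUmul _ hu _ (hUinv _ hv)
      have hc : (U.image (fun u => w * u)).card = U.card :=
        Finset.card_image_of_injective _ (mul_right_injective₀ hw0)
      have hsub : U ∪ U.image (fun u => w * u) ⊆ Finset.univ.erase 0 := by
        intro u hu
        rw [Finset.mem_erase]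
        refine ⟨fun h => ?_, Finset.mem_univ _⟩
        subst h
        rcases Finset.mem_union.1 hu with h | h
        · exact h0 h
        · obtain ⟨v, hv, hv0⟩ := Finset.mem_image.1 h
          rcases mul_eq_zero.1 hv0 with h2 | h2
          · exact hw0 h2
          · exact h0 (h2 ▸ hv)
      have h2 := Finset.card_le_card hsub
      rw [Finset.card_union_of_disjoint hdisj, hc, Finset.card_erase_of_mem (Finset.mem_univ _),
        Finset.card_univ, ZMod.card] at h2
      omega
    obtain ⟨a, b, hab⟩ := Cfsg.Agent.PermutationGroups.PrimeDegree.affine_of_preserves U h0 ⟨1, h1⟩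
      hcard σ σ.injective (by
        intro x u hu
        have hu0 : u ≠ 0 := fun h => h0 (h ▸ hu)
        obtain ⟨g, hg, hgt⟩ := hσ ![x + u, x]
        have e0 : σ (x + u) = g (x + u) := hgt 0
        have e1 : σ x = g x := hgt 1
        have h3 := hdiff g hg (x + u) x (by simpa using hu0)
        rw [add_sub_cancel_left] at h3
        rw [e0, e1]
        have h4 := hUmul _ h3 _ hu
        rwa [div_mul_cancel₀ _ hu0] at h4)
    obtain ⟨g, hg, hgt⟩ := hσ ![0, 1]
    have e0 : σ 0 = g 0 := hgt 0
    have e1 : σ 1 = g 1 := hgt 1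
    obtain ⟨c, e, hce⟩ := hG hg
    rw [hab, hce, mul_zero, mul_zero, zero_add, zero_add] at e0
    rw [hab, hce, mul_one, mul_one, e0] at e1
    have e2 := add_right_cancel e1
    have : σ = g := by
      apply Equiv.ext
      intro x
      rw [hab, hce, e0, e2]
    rw [this]
    exact hg
  · by_cases h : t 0 = t 1
    · refine ⟨Equiv.addRight (σ (t 0) - t 0), ⟨1, σ (t 0) - t 0, fun x => by simp⟩, fun i => ?_⟩
      fin_cases i
      · change σ (t 0) = t 0 + (σ (t 0) - t 0)
        ring
      · change σ (t 1) = t 1 + (σ (t 0) - t 0)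
        rw [← h]
        ring
    · have h1 : t 1 - t 0 ≠ 0 := sub_ne_zero.2 (Ne.symm h)
      have h2 : σ (t 1) - σ (t 0) ≠ 0 := sub_ne_zero.2 (fun h' => h (σ.injective h').symm)
      let a : ZMod p := (σ (t 1) - σ (t 0)) / (t 1 - t 0)
      have ha : a ≠ 0 := div_ne_zero h2 h1
      let b : ZMod p := σ (t 0) - a * t 0
      refine ⟨(Equiv.mulLeft₀ a ha).trans (Equiv.addRight b), ⟨Units.mk0 a ha, b, fun x => by simp⟩,
        fun i => ?_⟩
      fin_cases i
      · change σ (t 0) = a * t 0 + (σ (t 0) - a * t 0)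
        ring
      · change σ (t 1) = a * t 1 + (σ (t 0) - a * t 0)
        have : a * (t 1 - t 0) = σ (t 1) - σ (t 0) := div_mul_cancel₀ _ h1
        have h3 : σ (t 1) = a * (t 1 - t 0) + σ (t 0) := by rw [this]; ring
        rw [h3]
        ring
  · by_cases hp2 : p = 2
    · subst hp2
      obtain ⟨g, hg, hgt⟩ := hσ ![0, 1, 0]
      have e0 : σ 0 = g 0 := hgt 0
      have e1 : σ 1 = g 1 := hgt 1
      have hall : ∀ x : ZMod 2, x = 0 ∨ x = 1 := Cfsg.Agent.H386.AffineClosure.zmod_two_cases
      have : σ = g := by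
        apply Equiv.ext
        intro x
        rcases hall x with rfl | rfl
        · exact e0
        · exact e1
      rw [this]
      exact hg
    · obtain ⟨A, b, hA⟩ := Cfsg.Agent.H386.AffineClosure.affine_of_triples hp2 σ (fun t => by
        obtain ⟨g, ⟨a, b, hab⟩, hgt⟩ := hσ t
        refine ⟨LinearEquiv.smulOfUnit a, b, fun i => ?_⟩
        rw [hgt i, hab]
        rfl)
      have hA1 : A 1 ≠ 0 := by simp
      refine ⟨Units.mk0 (A 1) hA1, b, fun x => ?_⟩
      rw [hA, Units.val_mk0]
      congr 1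
      have : A x = A (x • 1) := by simp
      rw [this, map_smul, smul_eq_mul, mul_comm]

end Cfsg.Agent.S3518
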