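import Cfsg.Statements.S3521
-- import your own Cfsg.Agent.* helpers here
import Cfsg.Agent.H387.LinPrime

set_option autoImplicit false
open Cfsg

namespace Cfsg.Agent.S3521

open MulAction in
/-- The conjugation action of a subgroup on the additive form of a commutative normal subgroup. -/
@[reducible] def act {G : Type*} [Group G] (H M : Subgroup G) [M.Normal]
    [CommGroup M] (hM : ∀ a b : M, ((a * b : M) : G) = (a : G) * b)
    (h1 : ((1 : M) : G) = 1) : DistribMulAction H (Additive M) where
  smul h v := Additive.ofMul ⟨(h : G) * (v.toMul : G) * (h : G)⁻¹, Subgroup.Normal.conj_mem inferInstance _ v.toMul.2 _⟩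
  one_smul v := by
    apply Additive.toMul.injective
    apply Subtype.ext
    change ((1 : H) : G) * (v.toMul : G) * ((1 : H) : G)⁻¹ = v.toMul
    rw [Subgroup.coe_one, one_mul, inv_one, mul_one]
  mul_smul g h v := by
    apply Additive.toMul.injective
    apply Subtype.ext
    change ((g * h : H) : G) * (v.toMul : G) * ((g * h : H) : G)⁻¹ = g * (h * (v.toMul : G) * (h : G)⁻¹) * (g : G)⁻¹
    rw [Subgroup.coe_mul]
    group
  smul_zero h := by
    apply Additive.toMul.injective
    apply Subtype.ext
    change (h : G) * ((1 : M) : G) * (h : G)⁻¹ = ((1 : M) : G)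
    rw [h1, mul_one, mul_inv_cancel]
  smul_add h v w := by
    apply Additive.toMul.injective
    apply Subtype.ext
    change (h : G) * ((v.toMul * w.toMul : M) : G) * (h : G)⁻¹ = (( (⟨(h : G) * (v.toMul : G) * (h : G)⁻¹, Subgroup.Normal.conj_mem inferInstance _ v.toMul.2 _⟩ : M) * ⟨(h : G) * (w.toMul : G) * (h : G)⁻¹, Subgroup.Normal.conj_mem inferInstance _ w.toMul.2 _⟩ : M) : G)
    rw [hM, hM]
    group

/-- Let a finite group G that is not solvable act faithfully and primitively on a finite set with p ^ d points (p prime), with a non-trivial abelian normal subgroup acting regularly (affine type) and with non-trivial point stabilizers each acting primitively on every one of its orbits (an insoluble extremely primitive group of affine type). Then p = 2; and if moreover G is not 2-transitive, then a point stabilizer is almost simple (it has a non-abelian simple normal subgroup with trivial centralizer). -/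
theorem result {G : Type*} [Group G] [Finite G] {Ω : Type*} [Fintype Ω] [MulAction G Ω] [FaithfulSMul G Ω] (p d : ℕ) (hp : p.Prime) (hcard : Fintype.card Ω = p ^ d) (hsol : ¬ Group.IsSolvable G)
    (N : Subgroup G) [N.Normal] (hN : N ≠ ⊥) (hNc : IsMulCommutative N) (hNreg : ∀ ω : Ω, MulAction.stabilizer N ω = ⊥)
    (hprim : MulAction.IsPreprimitive G Ω) (hH : ∀ α : Ω, MulAction.stabilizer G α ≠ ⊥) (hep : ∀ (α : Ω) (ω : Ω), MulAction.IsPreprimitive (MulAction.stabilizer G α) (MulAction.orbit (MulAction.stabilizer G α) ω)) (α : Ω) :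
    p = 2 ∧ (¬ MulAction.IsMultiplyPretransitive G Ω 2 → ∃ T : Subgroup (MulAction.stabilizer G α), T.Normal ∧ IsSimpleGroup T ∧ ¬ IsMulCommutative T ∧ Subgroup.centralizer (T : Set (MulAction.stabilizer G α)) = ⊥) := by
  classical
  have hNcomm : ∀ a ∈ N, ∀ b ∈ N, a * b = b * a := fun a ha b hb =>
    congrArg Subtype.val (hNc.is_comm.comm ⟨a, ha⟩ ⟨b, hb⟩)
  have hreg : ∀ n ∈ N, ∀ ω : Ω, n • ω = ω → n = 1 := by
    intro n hn ω h
    have h1 : (⟨n, hn⟩ : N) ∈ MulAction.stabilizer N ω := h
    rw [hNreg ω, Subgroup.mem_bot] at h1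
    exact congrArg Subtype.val h1
  -- normal subgroups are transitive
  have htrans : ∀ L : Subgroup G, L.Normal → L ≠ ⊥ → MulAction.IsPretransitive L Ω := by
    intro L hL hL0
    apply MulAction.IsQuasiPreprimitive.isPretransitive_of_normal (G := G)
    intro h
    apply hL0
    rw [Subgroup.eq_bot_iff_forall]
    intro l hl
    apply FaithfulSMul.eq_of_smul_eq_smul (α := Ω)
    intro x
    have h1 : x ∈ MulAction.fixedPoints L Ω := h ▸ Set.mem_univ x
    rw [one_smul]
    exact h1 ⟨l, hl⟩
  have hNtr := htrans N inferInstance hN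
  have hNcard : Nat.card N = p ^ d := by
    rw [← hcard, ← Nat.card_eq_fintype_card]
    refine Nat.card_eq_of_bijective (fun n : N => n • α) ⟨?_, ?_⟩
    · intro a b hab
      have h1 := hreg ((b : G)⁻¹ * a) (N.mul_mem (N.inv_mem b.2) a.2) α (by
        have h2 : (a : G) • α = (b : G) • α := hab
        rw [mul_smul, h2, inv_smul_smul])
      exact Subtype.ext (inv_mul_eq_one.1 h1).symm
    · intro ω
      exact hNtr.exists_smul_eq α ω
  have hd : d ≠ 0 := by
    intro h
    rw [h, pow_zero] at hNcard
    exact hN (Subgroup.card_eq_one.1 hNcard)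
  letI cgN : CommGroup N := { (inferInstance : Group N) with
    mul_comm := fun a b => Subtype.ext (hNcomm a a.2 b b.2) }
  letI actN : DistribMulAction (MulAction.stabilizer G α) (Additive N) :=
    act (MulAction.stabilizer G α) N (fun _ _ => rfl) rfl
  have hact : ∀ (h : MulAction.stabilizer G α) (v : Additive N),
      (((h • v : Additive N).toMul : N) : G) = (h : G) * (v.toMul : G) * (h : G)⁻¹ := fun _ _ => rfl
  -- comparison with the action on `Ω`
  have hcmp : ∀ (h : MulAction.stabilizer G α) (v : Additive N),
      (((h • v : Additive N).toMul : N) : G) • α = (h : G) • ((v.toMul : N) : G) • α := by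
    intro h v
    have h1 : (h : G)⁻¹ • α = α := by
      rw [inv_smul_eq_iff]; exact (MulAction.mem_stabilizer_iff.1 h.2).symm
    rw [hact, mul_smul, mul_smul, h1]
  have hinj : ∀ v w : Additive N, ((v.toMul : N) : G) • α = ((w.toMul : N) : G) • α → v = w := by
    intro v w h
    have h1 := hreg (((w.toMul : N) : G)⁻¹ * ((v.toMul : N) : G))
      (N.mul_mem (N.inv_mem w.toMul.2) v.toMul.2) α (by rw [mul_smul, h, inv_smul_smul])
    apply Additive.toMul.injective
    exact Subtype.ext (inv_mul_eq_one.1 h1).symm
  have hstab : ∀ (h : MulAction.stabilizer G α) (v : Additive N),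
      h • v = v ↔ (h : G) • ((v.toMul : N) : G) • α = ((v.toMul : N) : G) • α := by
    intro h v
    constructor
    · intro h1
      rw [← hcmp, h1]
    · intro h1
      apply hinj
      rw [hcmp, h1]
  have hfaith : FaithfulSMul (MulAction.stabilizer G α) (Additive N) := by
    constructor
    intro g h hgh
    apply Subtype.ext
    apply FaithfulSMul.eq_of_smul_eq_smul (α := Ω)
    intro ω
    obtain ⟨n, hn⟩ := hNtr.exists_smul_eq α ω
    have hn' : (n : G) • α = ω := hn
    have h1 := congrArg (fun v : Additive N => ((v.toMul : N) : G) • α) (hgh (Additive.ofMul n))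
    simp only [hcmp] at h1
    rw [← hn']
    exact h1
  have hnt : Nontrivial (Additive N) := by
    have : Nontrivial N := (Subgroup.nontrivial_iff_ne_bot N).2 hN
    exact (Additive.ofMul (α := N)).injective.nontrivial
  -- irreducibility
  have hirr : ∀ W : AddSubgroup (Additive N), (∀ (h : MulAction.stabilizer G α), ∀ w ∈ W, h • w ∈ W) →
      W = ⊥ ∨ W = ⊤ := by
    intro W hW
    let L0 : Subgroup N :=
      { carrier := {x | Additive.ofMul x ∈ W}
        one_mem' := W.zero_mem
        mul_mem' := fun {a b} ha hb => W.add_mem ha hb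
        inv_mem' := fun {a} ha => W.neg_mem ha }
    have hL0 : ∀ x, x ∈ L0 ↔ Additive.ofMul x ∈ W := fun _ => Iff.rfl
    let L : Subgroup G := L0.map N.subtype
    have hLn : L.Normal := by
      constructor
      rintro _ ⟨y, hy, rfl⟩ g
      obtain ⟨n, hn⟩ := hNtr.exists_smul_eq α (g • α)
      have hn' : (n : G) • α = g • α := hn
      have hs : (n : G)⁻¹ * g ∈ MulAction.stabilizer G α := by
        rw [MulAction.mem_stabilizer_iff, mul_smul, ← hn', inv_smul_smul]
      have h1 := hW ⟨_, hs⟩ (Additive.ofMul y) hy
      have h2 : g * (y : G) * g⁻¹ = ((((⟨_, hs⟩ : MulAction.stabilizer G α) • (Additive.ofMul y) : Additive N).toMul : N) : G) := by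
        rw [hact]
        change g * (y : G) * g⁻¹ = ((n : G)⁻¹ * g) * (y : G) * ((n : G)⁻¹ * g)⁻¹
        have h3 : (((n : G)⁻¹ * g) * (y : G) * ((n : G)⁻¹ * g)⁻¹) = (n : G)⁻¹ * (g * (y : G) * g⁻¹) * n := by
          group
        have h4 : g * (y : G) * g⁻¹ ∈ N := Subgroup.Normal.conj_mem inferInstance _ y.2 _
        rw [h3, hNcomm _ (N.inv_mem n.2) _ h4, inv_mul_cancel_right]
      change g * (y : G) * g⁻¹ ∈ L
      rw [h2]
      exact ⟨_, h1, rfl⟩
    by_cases hL : L = ⊥
    · left
      rw [eq_bot_iff]
      intro w hw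
      have h1 : ((w.toMul : N) : G) ∈ L := ⟨w.toMul, hw, rfl⟩
      rw [hL, Subgroup.mem_bot] at h1
      rw [AddSubgroup.mem_bot]
      apply Additive.toMul.injective
      exact Subtype.ext h1
    · right
      have hLtr := htrans L hLn hL
      rw [eq_top_iff]
      intro w _
      obtain ⟨⟨_, y, hy, rfl⟩, hl⟩ := hLtr.exists_smul_eq α (((w.toMul : N) : G) • α)
      have hl' : (y : G) • α = ((w.toMul : N) : G) • α := hl
      have h1 : Additive.ofMul y = w := hinj _ _ hl'
      rw [← h1]
      exact hy
  -- maximality of the vector stabilizers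
  have hmax : ∀ v : Additive N, v ≠ 0 → IsCoatom (MulAction.stabilizer (MulAction.stabilizer G α) v) := by
    intro v hv
    have hpr := hep α (((v.toMul : N) : G) • α)
    have hst : MulAction.stabilizer (MulAction.stabilizer G α) v =
        MulAction.stabilizer (MulAction.stabilizer G α)
          (⟨((v.toMul : N) : G) • α, MulAction.mem_orbit_self _⟩ :
            MulAction.orbit (MulAction.stabilizer G α) (((v.toMul : N) : G) • α)) := by
      ext h
      rw [MulAction.mem_stabilizer_iff, MulAction.mem_stabilizer_iff, hstab, Subtype.ext_iff]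
      rfl
    rw [hst]
    have hnt' : Nontrivial (MulAction.orbit (MulAction.stabilizer G α) (((v.toMul : N) : G) • α)) := by
      by_contra hcon
      rw [not_nontrivial_iff_subsingleton] at hcon
      -- `H` fixes `v`
      have h1 : ∀ h : MulAction.stabilizer G α, h • v = v := by
        intro h
        rw [hstab]
        have h2 := hcon.elim (⟨h • (((v.toMul : N) : G) • α), ⟨h, rfl⟩⟩ :
          MulAction.orbit (MulAction.stabilizer G α) (((v.toMul : N) : G) • α))
          ⟨((v.toMul : N) : G) • α, MulAction.mem_orbit_self _⟩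
        exact congrArg Subtype.val h2
      rcases hirr (Cfsg.Agent.H387.LinCore.fixBy (⊤ : Subgroup (MulAction.stabilizer G α))) (by
        intro h w hw
        exact Cfsg.Agent.H387.LinCore.fixBy_inv (D := ⊤) (E := ⊤) (fun _ _ _ _ => trivial) h trivial
          w hw) with h | h
      · have h2 : v ∈ Cfsg.Agent.H387.LinCore.fixBy (⊤ : Subgroup (MulAction.stabilizer G α)) :=
          fun d _ => h1 d
        rw [h, AddSubgroup.mem_bot] at h2
        exact hv h2
      · apply hH α
        rw [Subgroup.eq_bot_iff_forall]
        intro g hg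
        have h2 : (⟨g, hg⟩ : MulAction.stabilizer G α) = 1 := by
          apply FaithfulSMul.eq_of_smul_eq_smul (α := Additive N)
          intro w
          rw [one_smul]
          have h3 : w ∈ Cfsg.Agent.H387.LinCore.fixBy (⊤ : Subgroup (MulAction.stabilizer G α)) :=
            h ▸ AddSubgroup.mem_top w
          exact h3 _ trivial
        exact congrArg Subtype.val h2
    exact (MulAction.isCoatom_stabilizer_iff_preprimitive _ _).2 hpr
  -- the stabilizer is not solvable
  have hsolH : ¬ Group.IsSolvable (MulAction.stabilizer G α) := by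
    intro hs
    apply hsol
    have hNs : Group.IsSolvable N := Group.isSolvable_of_comm fun a b =>
      Subtype.ext (hNcomm a a.2 b b.2)
    have hQ : Group.IsSolvable (G ⧸ N) := by
      refine Group.isSolvable_of_surjective
        (f := (QuotientGroup.mk' N).comp (MulAction.stabilizer G α).subtype) ?_
      intro x
      obtain ⟨g, rfl⟩ := QuotientGroup.mk_surjective x
      obtain ⟨n, hn⟩ := hNtr.exists_smul_eq α (g • α)
      have hn' : (n : G) • α = g • α := hn
      have hs : (n : G)⁻¹ * g ∈ MulAction.stabilizer G α := by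
        rw [MulAction.mem_stabilizer_iff, mul_smul, ← hn', inv_smul_smul]
      refine ⟨⟨_, hs⟩, ?_⟩
      change (((n : G)⁻¹ * g : G) : G ⧸ N) = (g : G ⧸ N)
      rw [QuotientGroup.mk_mul, (QuotientGroup.eq_one_iff _).2 (N.inv_mem n.2), one_mul]
    exact Group.isSolvable_of_ker_le_range N.subtype (QuotientGroup.mk' N) (by
      rw [QuotientGroup.ker_mk', Subgroup.range_subtype])
  obtain ⟨h1, h2⟩ := Cfsg.Agent.H387.LinPrime.linear_main (V := Additive N) hmax hirr hp hd hNcard
    hsolH
  exact ⟨h1, fun _ => h2⟩

end Cfsg.Agent.S3521
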