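import Cfsg.Statements.S3526
import Cfsg.Agent.H388.Bounded

set_option autoImplicit false
open Cfsg

namespace Cfsg.Agent.S3526

/-- The prime graph of a finite group has the prime divisors of its order as vertices, two distinct primes p, q being joined when the group has an element of order pq; two groups have the same prime graph when they have the same prime divisors and the same joined pairs. Suppose only finitely many finite groups, up to isomorphism, have the same prime graph as the non-trivial finite group G (equivalently, their orders are bounded). Then G is almost simple (it has a non-abelian simple normal subgroup with trivial centralizer), and so is every finite group with the same prime graph as G. -/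
theorem result {G : Type*} [Group G] [Finite G] [Nontrivial G]
    (h : ∃ n : ℕ, ∀ (H : Type) [Group H] [Finite H],
      ((∀ p : ℕ, p.Prime → (p ∣ Nat.card G ↔ p ∣ Nat.card H)) ∧
      (∀ p q : ℕ, p.Prime → q.Prime → p ≠ q → ((∃ g : G, orderOf g = p * q) ↔ (∃ g : H, orderOf g = p * q)))) → Nat.card H ≤ n) :
    (∃ N : Subgroup G, N.Normal ∧ IsSimpleGroup ↥N ∧ ¬ IsMulCommutative ↥N ∧ Subgroup.centralizer (N : Set G) = ⊥) ∧
    ∀ (H : Type) [Group H] [Finite H],
      ((∀ p : ℕ, p.Prime → (p ∣ Nat.card G ↔ p ∣ Nat.card H)) ∧
      (∀ p q : ℕ, p.Prime → q.Prime → p ≠ q → ((∃ g : G, orderOf g = p * q) ↔ (∃ g : H, orderOf g = p * q)))) →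
      ∃ N : Subgroup H, N.Normal ∧ IsSimpleGroup ↥N ∧ ¬ IsMulCommutative ↥N ∧ Subgroup.centralizer (N : Set H) = ⊥ := 
  Cfsg.Agent.H388.Bounded.main h

end Cfsg.Agent.S3526
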