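import Cfsg.Statements.S3532
import Cfsg.Agent.H390.PslSpec
import Cfsg.Agent.H390.AffSpec

set_option autoImplicit false
open Cfsg

namespace Cfsg.Agent.S3532

open Cfsg.Agent.H390

theorem range_prod {A B : Type*} [Group A] [Group B] (S T : Set ℕ)
    (hA : Set.range (orderOf : A → ℕ) = S) (hB : Set.range (orderOf : B → ℕ) = T) :
    Set.range (orderOf : A × B → ℕ) = {n | ∃ a ∈ S, ∃ b ∈ T, n = Nat.lcm a b} := by
  ext n
  constructor
  · rintro ⟨⟨x, y⟩, rfl⟩
    exact ⟨orderOf x, hA ▸ ⟨x, rfl⟩, orderOf y, hB ▸ ⟨y, rfl⟩, Prod.orderOf _⟩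
  · rintro ⟨a, ha, b, hb, rfl⟩
    rw [← hA] at ha
    rw [← hB] at hb
    obtain ⟨x, rfl⟩ := ha
    obtain ⟨y, rfl⟩ := hb
    exact ⟨(x, y), Prod.orderOf _⟩

/-- Let q ≥ 4 be a prime power and L = PSL(2,q). There is a finite solvable group with the same set of element orders as L × L (so L × L is not determined by its spectrum). -/
theorem result {F : Type*} [Field F] [Fintype F] (hF : 4 ≤ Fintype.card F) :
    ∃ (H : Type) (_ : Group H) (_ : Finite H), Group.IsSolvable H ∧
      Set.range (orderOf : H → ℕ) = Set.range (orderOf : Matrix.ProjectiveSpecialLinearGroup (Fin 2) F × Matrix.ProjectiveSpecialLinearGroup (Fin 2) F → ℕ) := by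
  classical
  obtain ⟨p, hp⟩ := CharP.exists F
  obtain ⟨k, hpp, hc⟩ := FiniteField.card F p
  have : Fact p.Prime := ⟨hpp⟩
  set q := Fintype.card F with hq
  have hspec := PslSpec.range_orderOf (p := p) hF
  have : Fintype (GaloisField p k) := Fintype.ofFinite _
  have : Fintype (GaloisField p (2 * k)) := Fintype.ofFinite _
  have hk1 : Fintype.card (GaloisField p k) = q := by
    rw [← Nat.card_eq_fintype_card, GaloisField.card p k k.2.ne', hc]
  have hk2 : Fintype.card (GaloisField p (2 * k)) = q ^ 2 := by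
    rw [← Nat.card_eq_fintype_card, GaloisField.card p (2 * k) (Nat.mul_ne_zero two_ne_zero k.2.ne'), hc, ← pow_mul, mul_comm]
  have hq1 : 1 ≤ q := by omega
  have hdpos : 0 < PslSpec.dd q := by rcases PslSpec.dd_cases q with h | h <;> rw [h] <;> norm_num
  have h1 := AffSpec.range_orderOf (K := GaloisField p k) (p := p) (m := (q - 1) / PslSpec.dd q)
    (by rw [hk1]; exact Nat.div_dvd_of_dvd (PslSpec.dd_dvd_sub q))
  have h2 := AffSpec.range_orderOf (K := GaloisField p (2 * k)) (p := p) (m := (q + 1) / PslSpec.dd q)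
    (by
      rw [hk2]
      refine (Nat.div_dvd_of_dvd (PslSpec.dd_dvd_add hq1)).trans ?_
      exact ⟨q - 1, by
        obtain ⟨r, hr⟩ := Nat.exists_eq_add_of_le hq1
        rw [hr, Nat.add_sub_cancel_left]
        have : (1 + r) ^ 2 = (1 + r + 1) * r + 1 := by ring
        omega⟩)
  have f1 : Finite (AffSpec.Aff (GaloisField p k) ((q - 1) / PslSpec.dd q)) :=
    Finite.of_injective (fun x => (x.left, x.right)) (fun x y h => by
      apply SemidirectProduct.ext
      · exact congrArg Prod.fst h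
      · exact congrArg Prod.snd h)
  have f2 : Finite (AffSpec.Aff (GaloisField p (2 * k)) ((q + 1) / PslSpec.dd q)) :=
    Finite.of_injective (fun x => (x.left, x.right)) (fun x y h => by
      apply SemidirectProduct.ext
      · exact congrArg Prod.fst h
      · exact congrArg Prod.snd h)
  refine ⟨AffSpec.Aff (GaloisField p k) ((q - 1) / PslSpec.dd q) × AffSpec.Aff (GaloisField p (2 * k)) ((q + 1) / PslSpec.dd q),
    inferInstance, inferInstance, inferInstance, ?_⟩
  rw [range_prod _ _ h1 h2, range_prod _ _ hspec hspec]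
  have hmem : ∀ n, n ∈ PslSpec.specSet p (Fintype.card F) ↔
      (n ∣ p ∨ n ∣ (q - 1) / PslSpec.dd q ∨ n ∣ (q + 1) / PslSpec.dd q) := fun n => Iff.rfl
  ext n
  simp only [Set.mem_setOf_eq, hmem]
  constructor
  · rintro ⟨a, ha, b, hb, rfl⟩
    refine ⟨a, ?_, b, ?_, rfl⟩
    · rcases ha with h | h
      · exact Or.inl h
      · exact Or.inr (Or.inl h)
    · rcases hb with h | h
      · exact Or.inl h
      · exact Or.inr (Or.inr h)
  · rintro ⟨a, ha | ha | ha, b, hb | hb | hb, rfl⟩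
    · exact ⟨Nat.lcm a b, Or.inl (Nat.lcm_dvd ha hb), 1, Or.inl (one_dvd _), by simp⟩
    · exact ⟨b, Or.inr hb, a, Or.inl ha, Nat.lcm_comm _ _⟩
    · exact ⟨a, Or.inl ha, b, Or.inr hb, rfl⟩
    · exact ⟨a, Or.inr ha, b, Or.inl hb, rfl⟩
    · exact ⟨Nat.lcm a b, Or.inr (Nat.lcm_dvd ha hb), 1, Or.inl (one_dvd _), by simp⟩
    · exact ⟨a, Or.inr ha, b, Or.inr hb, rfl⟩
    · exact ⟨b, Or.inl hb, a, Or.inr ha, Nat.lcm_comm _ _⟩
    · exact ⟨b, Or.inr hb, a, Or.inr ha, Nat.lcm_comm _ _⟩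
    · exact ⟨1, Or.inl (one_dvd _), Nat.lcm a b, Or.inr (Nat.lcm_dvd ha hb), by simp⟩

end Cfsg.Agent.S3532
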