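import Cfsg.Statements.S3545
import Cfsg.Agent.S0000
import Cfsg.Agent.H388.EvenFixAll
import Cfsg.Agent.OddHalf.Known
import Cfsg.Agent.H393.SubdegRed
import Cfsg.Agent.H393.LieNoThree
import Cfsg.Agent.H393.AltNoThree
import Cfsg.Agent.H393.SpNoThree

/-!
# S3545: coprime faithful subdegrees (by the classification)
-/

set_option autoImplicit false
open Cfsg

namespace Cfsg.Agent.S3545

universe u

open Cfsg.Agent.H393

/-- the classification, with the existence of involutions, as the environment of the sporadic part -/
theorem env : Sp.Env.{u} where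
  known := fun _ _ _ _ => Cfsg.Agent.S0000.result
  ev := fun _ _ _ _ hna => Cfsg.Agent.H388.EvenFixAll.exists_orderOf_two hna
  cop := fun _ _ _ _ hna _ hp hp2 hcop α hα =>
    Cfsg.Agent.H388.EvenFixAll.exists_involution hna Cfsg.Agent.S0000.result hp hp2 hcop α hα

/-- no finite simple group has three proper subgroups of pairwise coprime indices -/
theorem noThree {T : Type u} [Group T] [Finite T] [IsSimpleGroup T] : NoThree T := by
  by_cases hna : IsMulCommutative T
  · letI : CommGroup T := { mul_comm := isMulCommutative_iff.1 hna }
    exact noThree_of_prime IsSimpleGroup.prime_card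
  · rcases Cfsg.Agent.OddHalf.Known.classify' hna Cfsg.Agent.S0000.result with h | ⟨p, hp, h⟩ | h | h
    · obtain ⟨n, hn, ⟨e⟩⟩ := h
      exact (Alt.noThree_alternating (by rw [Fintype.card_fin]; exact hn)).of_equiv e.symm
    · exact noThree_of_lie hp h
    · exact Sp.noThree_tits env h
    · exact Sp.noThree_sporadic env h

/-- Let a finite group G act faithfully and transitively on a finite set with more than one point and with non-trivial point stabilizers, and let a be a point with stabilizer H. Call an H-orbit faithful if only the identity of H fixes it pointwise. Then among the lengths of faithful H-orbits no three are pairwise coprime; and if the Fitting subgroup of H is non-trivial, no two faithful H-orbits have coprime lengths. -/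
theorem result {G Ω : Type*} [Group G] [Finite G] [MulAction G Ω] [FaithfulSMul G Ω] [Finite Ω]
    (htrans : MulAction.IsPretransitive G Ω) (hΩ : 1 < Nat.card Ω) (a : Ω)
    (hne : MulAction.stabilizer G a ≠ ⊥) (b c d : Ω)
    (hb : (∀ g : G, g ∈ MulAction.stabilizer G a → (∀ x ∈ MulAction.orbit (MulAction.stabilizer G a) b, g • x = x) → g = 1))
    (hc : (∀ g : G, g ∈ MulAction.stabilizer G a → (∀ x ∈ MulAction.orbit (MulAction.stabilizer G a) c, g • x = x) → g = 1))
    (hd : (∀ g : G, g ∈ MulAction.stabilizer G a → (∀ x ∈ MulAction.orbit (MulAction.stabilizer G a) d, g • x = x) → g = 1)) :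
    ¬ ((Nat.card (MulAction.orbit (MulAction.stabilizer G a) b)).Coprime (Nat.card (MulAction.orbit (MulAction.stabilizer G a) c)) ∧
       (Nat.card (MulAction.orbit (MulAction.stabilizer G a) b)).Coprime (Nat.card (MulAction.orbit (MulAction.stabilizer G a) d)) ∧
       (Nat.card (MulAction.orbit (MulAction.stabilizer G a) c)).Coprime (Nat.card (MulAction.orbit (MulAction.stabilizer G a) d))) ∧
    (Cfsg.fittingSubgroup ↥(MulAction.stabilizer G a) ≠ ⊥ →
      ¬ (Nat.card (MulAction.orbit (MulAction.stabilizer G a) b)).Coprime (Nat.card (MulAction.orbit (MulAction.stabilizer G a) c))) :=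
  Cfsg.Agent.H393.subdegrees_of_noThree (MulAction.stabilizer G a) hne
    (fun _ hT => by haveI := hT; exact noThree) b c d hb hc hd

end Cfsg.Agent.S3545
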