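import Cfsg.Statements.S3546
import Cfsg.Agent.H393.Derange

set_option autoImplicit false
open Cfsg

namespace Cfsg.Agent.S3546

/-- Let G act faithfully and transitively on a finite set and let D be the subgroup of G generated by the derangements (the elements fixing no point). Then D is itself transitive, and D contains every element of G whose number of fixed points is different from 1. -/
theorem result {G Ω : Type*} [Group G] [Finite G] [MulAction G Ω] [FaithfulSMul G Ω] [Finite Ω]
    (htrans : MulAction.IsPretransitive G Ω) :
    MulAction.IsPretransitive ↥(Subgroup.closure {g : G | ∀ ω : Ω, g • ω ≠ ω}) Ω ∧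
    ∀ g : G, Nat.card (MulAction.fixedBy Ω g) ≠ 1 → g ∈ Subgroup.closure {g : G | ∀ ω : Ω, g • ω ≠ ω} := by
  rcases isEmpty_or_nonempty Ω with hE | hN
  · refine ⟨⟨fun x => (hE.false x).elim⟩, fun g _ => Subgroup.subset_closure fun ω => (hE.false ω).elim⟩
  · obtain ⟨h1, h2⟩ := Cfsg.Agent.H393.derSub_key G Ω htrans
    refine ⟨Cfsg.Agent.H393.pretransitive_of_card_orbits_eq_one _ _ h1, fun g hg => ?_⟩
    by_contra hcon
    exact hg (h2 g hcon)

end Cfsg.Agent.S3546
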