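import Cfsg.Statements.S3550
import Cfsg.Agent.S0035
import Cfsg.Agent.S0042
import Cfsg.Agent.H393.BcgrC

set_option autoImplicit false
open Cfsg

namespace Cfsg.Agent.S3550

open MulAction H393

theorem bound_real {G Ω : Type*} [Group G] [Finite G] [MulAction G Ω] [Finite Ω] {k : ℕ}
    (h : (k + 1) ^ 2 ≤ Nat.card Ω) : (k : ℝ) ≤ Real.sqrt (Nat.card Ω) - 1 := by
  rw [le_sub_iff_add_le]
  apply Real.le_sqrt_of_sq_le
  exact_mod_cast h

theorem center_map_normal {G : Type*} [Group G] (N : Subgroup G) (hN : N.Normal) :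
    ((Subgroup.center N).map N.subtype).Normal :=
  ConjAct.normal_of_characteristic_of_normal

/-- A primitive group in which no non-identity element fixes two points has a nontrivial abelian
normal subgroup. -/
theorem exists_abelian_normal {G Ω : Type*} [Group G] [Finite G] [MulAction G Ω] [FaithfulSMul G Ω]
    [Finite Ω] (hprim : MulAction.IsPreprimitive G Ω) (hΩ : 2 ≤ Nat.card Ω)
    (hF : ∀ g : G, g ≠ 1 → Nat.card (fixedBy Ω g) ≤ 1) :
    ∃ N : Subgroup G, N.Normal ∧ IsMulCommutative N ∧ N ≠ ⊥ := by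
  classical
  have hnt : Nontrivial Ω := by rw [← Finite.one_lt_card_iff_nontrivial]; omega
  obtain ⟨x, y, hxy⟩ := exists_pair_ne Ω
  have htop : stabilizer G x ≠ ⊤ := by
    intro hc
    obtain ⟨g, hg⟩ := exists_smul_eq G x y
    have h1 : g ∈ stabilizer G x := by rw [hc]; trivial
    rw [mem_stabilizer_iff, hg] at h1
    exact hxy h1.symm
  by_cases hH : stabilizer G x = ⊥
  · -- regular
    have hco : IsCoatom (stabilizer G x) :=
      IsPreprimitive.isCoatom_stabilizer_of_isPreprimitive (G := G) x
    rw [hH] at hco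
    have hGnt : Nontrivial G := by
      obtain ⟨g, hg⟩ := exists_smul_eq G x y
      refine ⟨⟨g, 1, fun hc => hxy ?_⟩⟩
      rw [← hg, hc, one_smul]
    obtain ⟨g, hg⟩ := exists_ne (1 : G)
    have h1 : Subgroup.zpowers g = ⊤ := by
      refine hco.2 _ (bot_lt_iff_ne_bot.2 fun hc => hg ?_)
      exact Subgroup.zpowers_eq_bot.1 hc
    have h2 : ∀ a b : G, a * b = b * a := by
      intro a b
      have ha : a ∈ Subgroup.zpowers g := by rw [h1]; trivial
      have hb : b ∈ Subgroup.zpowers g := by rw [h1]; trivial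
      obtain ⟨i, rfl⟩ := ha
      obtain ⟨j, rfl⟩ := hb
      exact (Commute.zpow_zpow_self g i j)
    refine ⟨⊤, inferInstance, ⟨⟨fun a b => Subtype.ext (h2 a b)⟩⟩, ?_⟩
    exact top_ne_bot
  · -- Frobenius
    have hfc : Cfsg.IsFrobeniusComplement (stabilizer G x) := by
      refine ⟨hH, htop, fun g hg => ?_⟩
      rw [eq_bot_iff]
      intro h hh
      rw [Subgroup.mem_bot]
      by_contra h1
      have h2 := hF h h1
      rw [Finite.card_le_one_iff_subsingleton] at h2
      obtain ⟨hh1, hh2⟩ := Subgroup.mem_inf.1 hh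
      rw [Subgroup.mem_pointwise_smul_iff_inv_smul_mem] at hh2
      have h3 : (g⁻¹ * h * g) • x = x := by
        have e : (MulAut.conj g)⁻¹ • h = g⁻¹ * h * g := by
          rw [← map_inv]
          show g⁻¹ * h * g⁻¹⁻¹ = _
          rw [inv_inv]
        rw [← e]
        exact hh2
      have h4 : h • (g • x) = g • x := by
        rw [mul_smul, mul_smul, inv_smul_eq_iff] at h3
        exact h3
      have h5 : (⟨x, hh1⟩ : fixedBy Ω h) = ⟨g • x, h4⟩ := Subsingleton.elim _ _
      exact hg (congrArg Subtype.val h5).symm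
    obtain ⟨N, hN1, hNn, hNnil⟩ := S0042.result (stabilizer G x) hfc
    obtain ⟨N', hN1', -, hNc⟩ := S0035.result (stabilizer G x) hfc
    have hNN : N = N' := SetLike.coe_injective (hN1.trans hN1'.symm)
    have hNbot : N ≠ ⊥ := by
      intro hc
      apply htop
      have h1 := hNc.card_mul_card
      rw [← hNN, hc, Subgroup.card_bot, one_mul] at h1
      exact Subgroup.eq_top_of_card_eq _ h1
    have hNnt : Nontrivial N := (Subgroup.nontrivial_iff_ne_bot N).2 hNbot
    have hZ : Nontrivial (Subgroup.center N) :=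
      (Subgroup.nontrivial_iff_ne_bot _).2 (Group.IsNilpotent.center_ne_bot N)
    refine ⟨(Subgroup.center N).map N.subtype, center_map_normal N hNn, ⟨⟨?_⟩⟩, ?_⟩
    · rintro ⟨_, a, ha, rfl⟩ ⟨_, b, hb, rfl⟩
      have h6 : a * b = b * a := Subgroup.mem_center_iff.1 hb a
      apply Subtype.ext
      show ((a * b : N) : G) = ((b * a : N) : G)
      rw [h6]
    · intro hc
      have h1 := (Subgroup.map_eq_bot_iff_of_injective _ N.subtype_injective).1 hc
      exact (Subgroup.nontrivial_iff_ne_bot _).1 hZ h1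

/-- Let G act faithfully and primitively on a finite set with n ≥ 2 points and suppose G has no non-trivial abelian normal subgroup (G is not of affine type). Let D be the subgroup generated by the derangements. Then the index of D in G is at most √n − 1. -/
theorem result {G Ω : Type*} [Group G] [Finite G] [MulAction G Ω] [FaithfulSMul G Ω] [Finite Ω]
    (hprim : MulAction.IsPreprimitive G Ω) (hΩ : 2 ≤ Nat.card Ω) (hna : ∀ N : Subgroup G, N.Normal → IsMulCommutative ↥N → N = ⊥) :
    ((Subgroup.closure {g : G | ∀ ω : Ω, g • ω ≠ ω}).index : ℝ) ≤ Real.sqrt (Nat.card Ω) - 1 := by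
  have hne : Nonempty Ω := by
    by_contra h
    rw [not_nonempty_iff] at h
    simp at hΩ
  have htr : IsPretransitive G Ω := hprim.toIsPretransitive
  have hk := derSub_key G Ω htr
  have hnF : ∃ g : G, g ≠ 1 ∧ 1 < Nat.card (fixedBy Ω g) := by
    by_contra hc
    push Not at hc
    obtain ⟨N, h1, h2, h3⟩ := exists_abelian_normal hprim hΩ hc
    exact h3 (hna N h1 h2)
  exact bound_real (G := G) (Bcgr.bcgr hprim (derSub G Ω) (derSub_normal G Ω)
    (pretransitive_of_card_orbits_eq_one _ _ hk.1) hk.2 hnF)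

end Cfsg.Agent.S3550
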