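import Cfsg.Statements.S3560

set_option autoImplicit false
open Cfsg
open scoped Pointwise

namespace Cfsg.Agent.S3560

section Hamming

variable {ι : Type*} [Fintype ι] {m : ℕ}

/-- Hamming distance preserved: relation "differ at exactly one coordinate" etc. We use the full distance. -/
def hd [DecidableEq ι] (x y : ι → Fin m) : ℕ := hammingDist x y

variable {n : ℕ} (e : (ι → Fin m) ≃ Fin n)

/-- The automorphism group of the Hamming scheme, transported to `Fin n`. -/
def hamG [DecidableEq ι] : Subgroup (Equiv.Perm (Fin n)) where
  carrier := {π | ∀ x y : Fin n, hammingDist (e.symm (π x)) (e.symm (π y)) = hammingDist (e.symm x) (e.symm y)}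
  mul_mem' := by
    intro a b ha hb x y
    simp only [Equiv.Perm.mul_apply]
    rw [ha, hb]
  one_mem' := by intro x y; rfl
  inv_mem' := by
    intro a ha x y
    have := ha (a⁻¹ x) (a⁻¹ y)
    have h1 : ∀ z, a (a⁻¹ z) = z := fun z => by rw [← Equiv.Perm.mul_apply, mul_inv_cancel]; rfl
    rw [h1, h1] at this
    exact this.symm

/-- coordinatewise action composed with a permutation of the coordinates. -/
def mk (s : Equiv.Perm ι) (t : ι → Equiv.Perm (Fin m)) : Equiv.Perm (ι → Fin m) where
  toFun := fun ω k => t k (ω (s k))
  invFun := fun ω k => (t (s.symm k)).symm (ω (s.symm k))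
  left_inv := by intro ω; funext k; simp
  right_inv := by intro ω; funext k; simp

theorem mk_hamming [DecidableEq ι] (s : Equiv.Perm ι) (t : ι → Equiv.Perm (Fin m)) (x y : ι → Fin m) :
    hammingDist (mk s t x) (mk s t y) = hammingDist x y := by
  unfold hammingDist
  apply Finset.card_bij (fun k _ => s k)
  · intro k hk
    have hk' := (Finset.mem_filter.1 hk).2
    refine Finset.mem_filter.2 ⟨Finset.mem_univ _, ?_⟩
    intro h
    apply hk'
    simp only [mk, Equiv.coe_fn_mk]
    rw [h]
  · intro a _ b _ h
    exact s.injective h
  · intro b hb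
    have hb' := (Finset.mem_filter.1 hb).2
    refine ⟨s.symm b, Finset.mem_filter.2 ⟨Finset.mem_univ _, ?_⟩, by simp⟩
    intro h
    apply hb'
    have := (t (s.symm b)).injective h
    simpa using this

theorem permCongr_mk_mem [DecidableEq ι] (s : Equiv.Perm ι) (t : ι → Equiv.Perm (Fin m)) :
    e.permCongr (mk s t) ∈ hamG e := by
  intro x y
  simp only [Equiv.permCongr_apply, Equiv.symm_apply_apply]
  exact mk_hamming s t _ _

theorem exists_mk_mem [DecidableEq ι] (s : Equiv.Perm ι) (t : ι → Equiv.Perm (Fin m)) :
    ∃ g : hamG e, ∀ ω : ι → Fin m, g • (e ω) = e (mk s t ω) := by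
  refine ⟨⟨e.permCongr (mk s t), permCongr_mk_mem e s t⟩, ?_⟩
  intro ω
  change e.permCongr (mk s t) (e ω) = _
  simp

theorem transitive [DecidableEq ι] : MulAction.IsPretransitive (hamG e) (Fin n) := by
  constructor
  intro x y
  obtain ⟨g, hg⟩ := exists_mk_mem e (1 : Equiv.Perm ι) (fun k => Equiv.swap (e.symm x k) (e.symm y k))
  refine ⟨g, ?_⟩
  have h := hg (e.symm x)
  rw [Equiv.apply_symm_apply] at h
  rw [h]
  have : mk (1 : Equiv.Perm ι) (fun k => Equiv.swap (e.symm x k) (e.symm y k)) (e.symm x) = e.symm y := by
    funext k
    simp [mk]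
  rw [this, Equiv.apply_symm_apply]

theorem block_univ [DecidableEq ι] (hm : 3 ≤ m) (B : Set (Fin n)) (hB : MulAction.IsBlock (hamG e) B)
    (x y : Fin n) (hx : x ∈ B) (hy : y ∈ B) (hxy : x ≠ y) : B = Set.univ := by
  classical
  haveI := transitive e
  -- a coordinate where x and y differ
  have hne : e.symm x ≠ e.symm y := fun h => hxy (e.symm.injective h)
  obtain ⟨i, hi⟩ : ∃ i, e.symm x i ≠ e.symm y i := by
    by_contra hcon
    push Not at hcon
    exact hne (funext hcon)
  -- a third value
  obtain ⟨c, hc1, hc2⟩ : ∃ c : Fin m, c ≠ e.symm x i ∧ c ≠ e.symm y i := by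
    have h3 : ({e.symm x i, e.symm y i} : Finset (Fin m)).card < Fintype.card (Fin m) := by
      rw [Fintype.card_fin]
      exact lt_of_le_of_lt Finset.card_le_two (by omega)
    obtain ⟨c, hc⟩ := Finset.exists_mem_notMem_of_card_lt_card (s := {e.symm x i, e.symm y i})
      (t := Finset.univ) (by simpa using h3)
    refine ⟨c, ?_, ?_⟩
    · intro h; apply hc.2; simp [h]
    · intro h; apply hc.2; simp [h]
  -- elements fixing a point of B stabilise B
  have key : ∀ (g : hamG e) (a : Fin n), a ∈ B → g • a ∈ B → ∀ b ∈ B, g • b ∈ B := by
    intro g a ha hga b hb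
    have h1 : g • B = B := hB.smul_eq_of_mem ha hga
    rw [← h1]
    exact Set.smul_mem_smul_set hb
  -- y' differs from y at i only
  have hstep1 : e (Function.update (e.symm y) i c) ∈ B := by
    obtain ⟨g, hg⟩ := exists_mk_mem e (1 : Equiv.Perm ι)
      (fun k => if k = i then Equiv.swap (e.symm y i) c else 1)
    have hgx : g • x = x := by
      have h := hg (e.symm x)
      rw [Equiv.apply_symm_apply] at h
      rw [h]
      have : mk (1 : Equiv.Perm ι) (fun k => if k = i then Equiv.swap (e.symm y i) c else 1) (e.symm x) = e.symm x := by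
        funext k
        simp only [mk, Equiv.coe_fn_mk, Equiv.Perm.coe_one, id_eq]
        split_ifs with hk
        · subst hk
          exact Equiv.swap_apply_of_ne_of_ne hi (Ne.symm hc1)
        · rfl
      rw [this, Equiv.apply_symm_apply]
    have hgy : g • y = e (Function.update (e.symm y) i c) := by
      have h := hg (e.symm y)
      rw [Equiv.apply_symm_apply] at h
      rw [h]
      congr 1
      funext k
      simp only [mk, Equiv.coe_fn_mk, Equiv.Perm.coe_one, id_eq]
      by_cases hk : k = i
      · subst hk
        simp
      · simp [hk]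
    rw [← hgy]
    exact key g x hx (by rw [hgx]; exact hx) y hy
  -- neighbours of y at every coordinate
  have hstep2 : ∀ (j : ι) (d : Fin m), e (Function.update (e.symm y) j d) ∈ B := by
    intro j d
    by_cases hd : d = e.symm y j
    · rw [hd, Function.update_eq_self, Equiv.apply_symm_apply]; exact hy
    -- element moving (y, y') to (y, z)
    let z0 : Fin m := Equiv.swap (e.symm y i) (e.symm y j) c
    have hz0 : z0 ≠ e.symm y j := by
      intro h
      have h2 : Equiv.swap (e.symm y i) (e.symm y j) c = Equiv.swap (e.symm y i) (e.symm y j) (e.symm y i) := by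
        rw [Equiv.swap_apply_left]; exact h
      exact hc2 ((Equiv.swap (e.symm y i) (e.symm y j)).injective h2)
    have hmid : e (Function.update (e.symm y) j z0) ∈ B := by
      obtain ⟨g, hg⟩ := exists_mk_mem e (Equiv.swap i j)
        (fun k => Equiv.swap (e.symm y (Equiv.swap i j k)) (e.symm y k))
      have hgy : g • y = y := by
        have h := hg (e.symm y)
        rw [Equiv.apply_symm_apply] at h
        rw [h]
        have : mk (Equiv.swap i j) (fun k => Equiv.swap (e.symm y (Equiv.swap i j k)) (e.symm y k)) (e.symm y) = e.symm y := by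
          funext k
          simp [mk]
        rw [this, Equiv.apply_symm_apply]
      have hgz : g • e (Function.update (e.symm y) i c) = e (Function.update (e.symm y) j z0) := by
        rw [hg]
        congr 1
        funext k
        simp only [mk, Equiv.coe_fn_mk]
        by_cases hk : k = j
        · subst hk
          simp [z0]
        · have hk' : Equiv.swap i j k ≠ i := by
            intro h
            apply hk
            rw [Equiv.swap_apply_eq_iff, Equiv.swap_apply_left] at h
            exact h
          simp [Function.update_of_ne hk', Function.update_of_ne hk]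
      rw [← hgz]
      exact key g y hy (by rw [hgy]; exact hy) _ hstep1
    -- now adjust the value at j
    obtain ⟨g, hg⟩ := exists_mk_mem e (1 : Equiv.Perm ι)
      (fun k => if k = j then Equiv.swap z0 d else 1)
    have hgy : g • y = y := by
      have h := hg (e.symm y)
      rw [Equiv.apply_symm_apply] at h
      rw [h]
      have : mk (1 : Equiv.Perm ι) (fun k => if k = j then Equiv.swap z0 d else 1) (e.symm y) = e.symm y := by
        funext k
        simp only [mk, Equiv.coe_fn_mk, Equiv.Perm.coe_one, id_eq]
        split_ifs with hk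
        · subst hk
          exact Equiv.swap_apply_of_ne_of_ne (Ne.symm hz0) (Ne.symm hd)
        · rfl
      rw [this, Equiv.apply_symm_apply]
    have hgz : g • e (Function.update (e.symm y) j z0) = e (Function.update (e.symm y) j d) := by
      rw [hg]
      congr 1
      funext k
      simp only [mk, Equiv.coe_fn_mk, Equiv.Perm.coe_one, id_eq]
      by_cases hk : k = j
      · subst hk
        simp
      · simp [hk]
    rw [← hgz]
    exact key g y hy (by rw [hgy]; exact hy) _ hmid
  -- neighbours of every point of B
  have hstep3 : ∀ u ∈ B, ∀ (j : ι) (d : Fin m), e (Function.update (e.symm u) j d) ∈ B := by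
    intro u hu j d
    obtain ⟨g, hg⟩ := exists_mk_mem e (1 : Equiv.Perm ι) (fun k => Equiv.swap (e.symm y k) (e.symm u k))
    have hgy : g • y = u := by
      have h := hg (e.symm y)
      rw [Equiv.apply_symm_apply] at h
      rw [h]
      have : mk (1 : Equiv.Perm ι) (fun k => Equiv.swap (e.symm y k) (e.symm u k)) (e.symm y) = e.symm u := by
        funext k
        simp [mk]
      rw [this, Equiv.apply_symm_apply]
    have hgz : g • e (Function.update (e.symm y) j (Equiv.swap (e.symm y j) (e.symm u j) d)) =
        e (Function.update (e.symm u) j d) := by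
      rw [hg]
      congr 1
      funext k
      simp only [mk, Equiv.coe_fn_mk, Equiv.Perm.coe_one, id_eq]
      by_cases hk : k = j
      · subst hk
        simp
      · simp [hk]
    rw [← hgz]
    exact key g y hy (by rw [hgy]; exact hu) _ (hstep2 _ _)
  -- conclude by changing the coordinates one by one
  have hstep4 : ∀ (w : ι → Fin m) (s : Finset ι), e (fun k => if k ∈ s then w k else e.symm y k) ∈ B := by
    intro w s
    induction s using Finset.induction_on with
    | empty =>
      have : (fun k => if k ∈ (∅ : Finset ι) then w k else e.symm y k) = e.symm y := by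
        funext k; simp
      rw [this, Equiv.apply_symm_apply]; exact hy
    | insert a s has ih =>
      have h := hstep3 _ ih a (w a)
      rw [Equiv.symm_apply_apply] at h
      have : Function.update (fun k => if k ∈ s then w k else e.symm y k) a (w a) =
          (fun k => if k ∈ insert a s then w k else e.symm y k) := by
        funext k
        by_cases hk : k = a
        · subst hk; simp
        · simp [Function.update_of_ne hk, hk]
      rw [this] at h
      exact h
  ext u
  simp only [Set.mem_univ, iff_true]
  have h := hstep4 (e.symm u) Finset.univ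
  simpa using h

theorem preprimitive [DecidableEq ι] (hm : 3 ≤ m) : MulAction.IsPreprimitive (hamG e) (Fin n) := by
  haveI := transitive e
  constructor
  intro B hB
  by_cases hs : B.Subsingleton
  · exact Or.inl hs
  · right
    rw [Set.not_subsingleton_iff] at hs
    obtain ⟨x, hx, y, hy, hxy⟩ := hs
    exact block_univ e hm B hB x y hx hy hxy

theorem not_two [DecidableEq ι] (hm : 3 ≤ m) (hr : 2 ≤ Fintype.card ι) :
    ¬ MulAction.IsMultiplyPretransitive (hamG e) (Fin n) 2 := by
  intro h2
  obtain ⟨i, j, hij⟩ := Fintype.exists_pair_of_one_lt_card (α := ι) (by omega)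
  haveI : NeZero m := ⟨by omega⟩
  let z : Fin m := ⟨0, by omega⟩
  let o : Fin m := ⟨1, by omega⟩
  have hzo : z ≠ o := by simp [z, o]
  let x : ι → Fin m := fun _ => z
  let y : ι → Fin m := Function.update x i o
  let w : ι → Fin m := Function.update y j o
  have hxy : hammingDist x y = 1 := by
    unfold hammingDist
    rw [Finset.card_eq_one]
    refine ⟨i, ?_⟩
    ext k
    simp only [Finset.mem_filter, Finset.mem_univ, true_and, Finset.mem_singleton, x, y]
    by_cases hk : k = i
    · subst hk; simp [hzo]
    · simp [Function.update_of_ne hk, hk]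
  have hxw : hammingDist x w = 2 := by
    unfold hammingDist
    rw [Finset.card_eq_two]
    refine ⟨i, j, hij, ?_⟩
    ext k
    simp only [Finset.mem_filter, Finset.mem_univ, true_and, Finset.mem_insert, Finset.mem_singleton, x, w, y]
    by_cases hk : k = j
    · subst hk; simp [hzo]
    · by_cases hk' : k = i
      · subst hk'; simp [Function.update_of_ne hk, hzo]
      · simp [Function.update_of_ne hk, Function.update_of_ne hk', hk, hk']
  have hne1 : e x ≠ e y := by
    intro h
    have := e.injective h
    rw [this, hammingDist_self] at hxy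
    omega
  have hne2 : e x ≠ e w := by
    intro h
    have := e.injective h
    rw [this, hammingDist_self] at hxw
    omega
  rw [MulAction.is_two_pretransitive_iff] at h2
  obtain ⟨g, hg1, hg2⟩ := h2 hne1 hne2
  have h3 := g.2 (e x) (e y)
  change g • e x = e x at hg1
  have h4 : (g : Equiv.Perm (Fin n)) (e x) = e x := hg1
  have h5 : (g : Equiv.Perm (Fin n)) (e y) = e w := hg2
  rw [h4, h5] at h3
  simp only [Equiv.symm_apply_apply] at h3
  rw [hxy, hxw] at h3
  omega

end Hamming

/-- Let K be a finite group isomorphic to a direct product of r ≥ 2 groups all of the same order m ≥ 3. Then K is not a B-group: there is a primitive but not doubly transitive permutation group (on some finite set) containing a regular subgroup isomorphic to K. -/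
theorem result {K : Type*} [Group K] [Finite K] {ι : Type*} [Fintype ι] (F : ι → Type*) [∀ i, Group (F i)]
    (hr : 2 ≤ Fintype.card ι) (m : ℕ) (hm : 3 ≤ m) (hcard : ∀ i, Nat.card (F i) = m) (e : K ≃* (∀ i, F i)) :
    ∃ (n : ℕ) (G R : Subgroup (Equiv.Perm (Fin n))), R ≤ G ∧ Nonempty (↥R ≃* K) ∧
      MulAction.IsPretransitive ↥R (Fin n) ∧ (∀ a : Fin n, MulAction.stabilizer ↥R a = ⊥) ∧
      MulAction.IsPreprimitive ↥G (Fin n) ∧ ¬ MulAction.IsMultiplyPretransitive ↥G (Fin n) 2 := by
  classical
  haveI hfin : ∀ i, Finite (F i) := fun i => Nat.finite_of_card_ne_zero (by rw [hcard i]; omega)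
  let a : ∀ i, F i ≃ Fin m := fun i => Finite.equivFinOfCardEq (hcard i)
  let f : (ι → Fin m) ≃ Fin (Fintype.card (ι → Fin m)) := Fintype.equivFin _
  -- the action of `K`
  let t : K → ι → Equiv.Perm (Fin m) := fun k i => (a i).permCongr (Equiv.mulLeft (e k i))
  have ht : ∀ k i c, t k i c = a i (e k i * (a i).symm c) := by
    intro k i c; simp [t]
  let φ : K →* Equiv.Perm (Fin (Fintype.card (ι → Fin m))) :=
    { toFun := fun k => f.permCongr (mk 1 (t k))
      map_one' := by
        ext c
        have : mk (1 : Equiv.Perm ι) (t 1) = 1 := by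
          apply Equiv.ext
          intro ω
          funext i
          simp only [mk, Equiv.coe_fn_mk, ht]
          simp
        simp [this]
      map_mul' := by
        intro k l
        have : mk (1 : Equiv.Perm ι) (t (k * l)) = mk 1 (t k) * mk 1 (t l) := by
          apply Equiv.ext
          intro ω
          funext i
          change t (k * l) i (ω i) = t k i (t l i (ω i))
          rw [ht, ht, ht]
          rw [Equiv.symm_apply_apply, map_mul e, Pi.mul_apply, mul_assoc]
        rw [this]
        ext c
        simp }
  have hφ : ∀ (k : K) (c : Fin (Fintype.card (ι → Fin m))), f.symm (φ k c) = fun i => a i (e k i * (a i).symm (f.symm c i)) := by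
    intro k c
    have : φ k c = f (mk 1 (t k) (f.symm c)) := by
      change f.permCongr (mk 1 (t k)) c = _
      simp
    rw [this, Equiv.symm_apply_apply]
    funext i
    simp only [mk, Equiv.coe_fn_mk, ht]
    simp
  have hfree : ∀ (k : K) (c : Fin (Fintype.card (ι → Fin m))), φ k c = c → k = 1 := by
    intro k c hkc
    have h1 := hφ k c
    rw [hkc] at h1
    apply e.injective
    rw [map_one]
    funext i
    have h2 := congrFun h1 i
    have h3 : (a i).symm (f.symm c i) = e k i * (a i).symm (f.symm c i) := by
      apply (a i).injective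
      rw [← h2]; simp
    have h4 := mul_eq_right.1 h3.symm
    rw [h4]; rfl
  have hne : Nonempty (Fin (Fintype.card (ι → Fin m))) := by
    haveI : NeZero m := ⟨by omega⟩
    exact ⟨f (fun _ => 0)⟩
  have hinj : Function.Injective φ := by
    rw [injective_iff_map_eq_one]
    intro k hk
    obtain ⟨c⟩ := hne
    exact hfree k c (by rw [hk]; rfl)
  refine ⟨Fintype.card (ι → Fin m), hamG f, φ.range, ?_, ?_, ?_, ?_, ?_, ?_⟩
  · rintro _ ⟨k, rfl⟩
    exact permCongr_mk_mem f 1 (t k)
  · exact ⟨(MonoidHom.ofInjective hinj).symm⟩
  · constructor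
    intro x y
    let k : K := e.symm (fun i => (a i).symm (f.symm y i) * ((a i).symm (f.symm x i))⁻¹)
    refine ⟨⟨φ k, k, rfl⟩, ?_⟩
    change φ k x = y
    apply f.symm.injective
    rw [hφ]
    funext i
    simp [k]
  · intro c
    rw [Subgroup.eq_bot_iff_forall]
    rintro ⟨_, k, rfl⟩ hk
    have : φ k c = c := hk
    have := hfree k c this
    subst this
    ext
    simp
  · exact preprimitive f hm
  · exact not_two f hm hr

end Cfsg.Agent.S3560
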