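import Cfsg.Statements.S3571
import Cfsg.Agent.H344.AltDerC

set_option autoImplicit false
open Cfsg

namespace Cfsg.Agent.S3571

/-- Let G be an almost simple group whose socle is an alternating group of degree m ≥ 5 (G has a normal subgroup T isomorphic to that alternating group with trivial centralizer), acting faithfully and primitively on a finite set Ω with at least two points, and let r be the largest prime divisor of the number of points. Then G contains an element of order r fixing no point. -/
theorem result {G Ω : Type*} [Group G] [Finite G] [MulAction G Ω] [FaithfulSMul G Ω] [Finite Ω]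
    (T : Subgroup G) (hT : T.Normal) (hTc : Subgroup.centralizer (T : Set G) = ⊥) (m : ℕ) (hm : 5 ≤ m)
    (eT : ↥T ≃* ↥(alternatingGroup (Fin m))) (hprim : MulAction.IsPreprimitive G Ω) (hΩ : 2 ≤ Nat.card Ω)
    (r : ℕ) (hr : r.Prime) (hrd : r ∣ Nat.card Ω) (hmax : ∀ s : ℕ, s.Prime → s ∣ Nat.card Ω → s ≤ r) :
    ∃ g : G, orderOf g = r ∧ ∀ ω : Ω, g • ω ≠ ω := by
  by_cases h6 : m = 6
  · subst h6
    exact Cfsg.Agent.H344.AltDer.main_six T hT hTc eT hprim hΩ r hr hrd hmax
  · exact Cfsg.Agent.H344.AltDer.main_ne_six T hT hTc m hm h6 eT hprim hΩ r hr hrd hmax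

end Cfsg.Agent.S3571
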