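import Cfsg.Statements.S3572
import Cfsg.Agent.H391.SRing
import Cfsg.Agent.H386.Dih.Final

set_option autoImplicit false
open Cfsg

namespace Cfsg.Agent.S3572

open Cfsg.Agent.H391.SRing Cfsg.Agent.H386.Dih

/-- A finite primitive permutation group containing a dihedral subgroup that acts regularly (transitively with trivial point stabilizers) is doubly transitive. -/
theorem result {G Ω : Type*} [Group G] [Finite G] [MulAction G Ω] [FaithfulSMul G Ω] [Finite Ω]
    (hprim : MulAction.IsPreprimitive G Ω) (D : Subgroup G) (m : ℕ) (hD : Nonempty (↥D ≃* DihedralGroup m))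
    (hDreg : MulAction.IsPretransitive ↥D Ω ∧ ∀ a : Ω, MulAction.stabilizer ↥D a = ⊥) :
    MulAction.IsMultiplyPretransitive G Ω 2 := by
  classical
  obtain ⟨φ⟩ := hD
  have hm0 : m ≠ 0 := by
    rintro rfl
    have h1 : Finite (DihedralGroup 0) := Finite.of_equiv _ φ.toEquiv
    exact not_finite (DihedralGroup 0)
  have : NeZero m := ⟨hm0⟩
  have : Fintype ↥D := Fintype.ofFinite ↥D
  rcases isEmpty_or_nonempty Ω with hΩ | ⟨⟨ω⟩⟩
  · exact ⟨fun x => (hΩ.false (x 0)).elim⟩
  obtain ⟨ψ, e, he, hA⟩ := exists_hom D ω hDreg.1 hDreg.2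
  refine two_transitive_of_rel ψ e he hA ?_
  rcases Nat.lt_or_ge m 2 with hm | hm
  · -- degree two
    have hm1 : m = 1 := by omega
    have hc : Nat.card ↥D = 2 := by
      rw [Nat.card_congr φ.toEquiv, DihedralGroup.nat_card, hm1]
    intro x y hx hy
    obtain ⟨a, b, hab, hu⟩ := Nat.card_eq_two_iff.1 hc
    have h1 : ∀ z : ↥D, z = a ∨ z = b := fun z => by
      have : z ∈ ({a, b} : Set ↥D) := by rw [hu]; trivial
      exact this
    have hxy : x = y := by
      rcases h1 1 with h2 | h2 <;> rcases h1 x with h3 | h3 <;> rcases h1 y with h4 | h4 <;>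
        simp_all
    rw [hxy]
    exact Rel.refl y
  · let s : Setoid (DihedralGroup m) :=
      { r := fun x y => Rel ψ.range (φ.symm x) (φ.symm y)
        iseqv := ⟨fun x => Rel.refl _, fun h => Rel.symm h, fun h h' => Rel.trans h h'⟩ }
    have hFn : ∀ f : DihedralGroup m → ℤ, Fn s f → InvFun ψ.range (fun x => f (φ x)) := by
      intro f hf σ hσ h1 x
      refine (hf (φ x) (φ (σ x)) ?_).symm
      show Rel ψ.range (φ.symm (φ x)) (φ.symm (φ (σ x)))
      rw [φ.symm_apply_apply, φ.symm_apply_apply]
      exact ⟨σ, hσ, h1, rfl⟩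
    have hFn' : ∀ f : DihedralGroup m → ℤ, InvFun ψ.range (fun x => f (φ x)) → Fn s f := by
      rintro f hf x y ⟨σ, hσ, h1, h2⟩
      have h3 := hf σ hσ h1 (φ.symm x)
      rw [h2] at h3
      simpa using h3.symm
    have hSR : SR s := by
      refine ⟨?_, ?_, ?_, ?_⟩
      · intro x hx
        have h1 : Rel ψ.range (φ.symm x) (φ.symm 1) := hx
        rw [map_one] at h1
        have h2 := rel_one h1
        exact φ.symm.map_eq_one_iff.1 h2
      · intro f g hf hg
        refine hFn' _ ?_
        have h1 := conv_inv hA (hFn f hf) (hFn g hg)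
        have h2 : (fun x : ↥D => Cfsg.Agent.H386.Dih.conv f g (φ x)) =
            fun x : ↥D => ∑ u : ↥D, f (φ u) * g (φ (u⁻¹ * x)) := by
          funext x
          rw [Cfsg.Agent.H386.Dih.conv, ← Equiv.sum_comp φ.toEquiv]
          refine Finset.sum_congr rfl fun u _ => ?_
          show f (φ u) * g ((φ u)⁻¹ * φ x) = _
          rw [map_mul, map_inv]
        rw [h2]
        exact h1
      · intro x y hxy
        have h1 : Rel ψ.range (φ.symm x) (φ.symm y) := hxy
        show Rel ψ.range (φ.symm x⁻¹) (φ.symm y⁻¹)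
        rw [map_inv, map_inv]
        exact rel_inv hA h1
      · intro K hK
        have h1 := prim_of_isPreprimitive_aux hprim ψ e he hA (K.comap φ.toMonoidHom) (by
          intro σ hσ h1 x hx
          refine hK (φ x) (φ (σ x)) ?_ hx
          show Rel ψ.range (φ.symm (φ x)) (φ.symm (φ (σ x)))
          rw [φ.symm_apply_apply, φ.symm_apply_apply]
          exact ⟨σ, hσ, h1, rfl⟩)
        rcases h1 with h1 | h1
        · left
          rw [Subgroup.eq_bot_iff_forall] at h1 ⊢
          intro x hx
          have h2 := h1 (φ.symm x) (by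
            rw [Subgroup.mem_comap]
            show φ (φ.symm x) ∈ K
            rwa [φ.apply_symm_apply])
          exact φ.symm.map_eq_one_iff.1 h2
        · right
          rw [Subgroup.eq_top_iff'] at h1 ⊢
          intro x
          have h2 := h1 (φ.symm x)
          rw [Subgroup.mem_comap] at h2
          have h3 : φ (φ.symm x) ∈ K := h2
          rwa [φ.apply_symm_apply] at h3
    intro x y hx hy
    have h1 : Rel ψ.range (φ.symm (φ x)) (φ.symm (φ y)) :=
      hSR.trivial hm (φ x) (φ y) (fun h => hx (φ.map_eq_one_iff.1 h)) (fun h => hy (φ.map_eq_one_iff.1 h))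
    rwa [φ.symm_apply_apply, φ.symm_apply_apply] at h1

end Cfsg.Agent.S3572
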