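import Cfsg.Statements.S3575

set_option autoImplicit false
open Cfsg

namespace Cfsg.Agent.S3575

open Equiv.Perm

theorem isConj_of_prime {α : Type*} [Fintype α] [DecidableEq α] {r : ℕ} (hr : r.Prime)
    (σ τ : Equiv.Perm α) (hσ : σ ^ r = 1) (hτ : τ ^ r = 1)
    (h : σ.support.card = τ.support.card) : IsConj σ τ := by
  have := Fact.mk hr
  rw [isConj_iff_cycleType_eq]
  have h1 := cycleType_of_pow_prime_eq_one hσ
  have h2 := cycleType_of_pow_prime_eq_one hτ
  have s1 : σ.cycleType.card * r = σ.support.card := by
    rw [← σ.sum_cycleType]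
    conv_rhs => rw [h1]
    simp
  have s2 : τ.cycleType.card * r = τ.support.card := by
    rw [← τ.sum_cycleType]
    conv_rhs => rw [h2]
    simp
  have h3 : σ.cycleType.card = τ.cycleType.card :=
    Nat.eq_of_mul_eq_mul_right hr.pos (by rw [s1, s2, h])
  rw [h1, h2, h3]

/-- existence of a permutation with `s` cycles of length `r` -/
theorem exists_perm {α : Type*} [Fintype α] [DecidableEq α] {r : ℕ} (hr : r.Prime) (s : ℕ)
    (h : s * r ≤ Fintype.card α) :
    ∃ σ : Equiv.Perm α, σ ^ r = 1 ∧ σ.support.card = s * r := by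
  have := Fact.mk hr
  have := (exists_with_cycleType_iff α (m := Multiset.replicate s r)).2 ⟨by simpa using h, by
    intro x hx
    rw [Multiset.eq_of_mem_replicate hx]
    exact hr.two_le⟩
  obtain ⟨σ, hσ⟩ := this
  refine ⟨σ, ?_, ?_⟩
  · rw [pow_prime_eq_one_iff, hσ]
    intro c hc
    exact Multiset.eq_of_mem_replicate hc
  · rw [← σ.sum_cycleType, hσ]
    simp

/-- the constraint on the number of fixed points -/
theorem fixed_bounds {a b r : ℕ} (hr : r.Prime) (ha : 0 < a) (σ : Equiv.Perm (Fin (a * b)))
    (hσ : σ ^ r = 1) (f : Fin (a * b) → Fin b)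
    (hf : ∀ j : Fin b, Nat.card {x : Fin (a * b) // f x = j} = a)
    (π : Equiv.Perm (Fin b)) (hπ : ∀ x, f (σ x) = π (f x)) :
    ∃ β, β ≤ b ∧ β ≡ b [MOD r] ∧ β * (a % r) ≤ σ.supportᶜ.card ∧ σ.supportᶜ.card ≤ β * a := by
  classical
  have := Fact.mk hr
  have hsurj : Function.Surjective f := by
    intro j
    have : 0 < Nat.card {x : Fin (a * b) // f x = j} := by rw [hf]; exact ha
    obtain ⟨⟨x, hx⟩⟩ := (Nat.card_pos_iff.1 this).1
    exact ⟨x, hx⟩
  have hpow : ∀ k x, f ((σ ^ k) x) = (π ^ k) (f x) := by
    intro k
    induction k with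
    | zero => intro x; rfl
    | succ k ih =>
      intro x
      rw [pow_succ', pow_succ', Equiv.Perm.mul_apply, Equiv.Perm.mul_apply, hπ, ih]
  have hπr : π ^ r = 1 := by
    ext j
    obtain ⟨x, rfl⟩ := hsurj j
    rw [← hpow, hσ]
    rfl
  -- the fixed points in a fixed block
  have hblock : ∀ j : Fin b, π j = j →
      a % r ≤ (σ.supportᶜ.filter (fun x => f x = j)).card ∧
      (σ.supportᶜ.filter (fun x => f x = j)).card ≤ a := by
    intro j hj
    have hp : ∀ x, f (σ x) = j ↔ f x = j := by
      intro x
      rw [hπ]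
      constructor
      · intro h
        exact π.injective (h.trans hj.symm)
      · intro h
        rw [h, hj]
    set σj : Equiv.Perm {x : Fin (a * b) // f x = j} := σ.subtypePerm hp with hσj
    have hσjr : σj ^ r ^ 1 = 1 := by
      rw [pow_one, hσj, Equiv.Perm.subtypePerm_pow]
      ext x
      simp [hσ]
    have hcard : Fintype.card {x : Fin (a * b) // f x = j} = a := by
      rw [← Nat.card_eq_fintype_card, hf]
    have hmod := card_compl_support_modEq hσjr
    have heq : σj.supportᶜ.card = (σ.supportᶜ.filter (fun x => f x = j)).card := by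
      refine Finset.card_bij (fun x _ => x.1) ?_ ?_ ?_
      · intro x hx
        simp only [Finset.mem_compl, Equiv.Perm.mem_support, not_not, Finset.mem_filter] at hx ⊢
        refine ⟨?_, x.2⟩
        have := congrArg Subtype.val hx
        simpa [hσj] using this
      · intro x _ y _ h
        exact Subtype.ext h
      · intro y hy
        simp only [Finset.mem_compl, Equiv.Perm.mem_support, not_not, Finset.mem_filter] at hy
        refine ⟨⟨y, hy.2⟩, ?_, rfl⟩
        simp only [Finset.mem_compl, Equiv.Perm.mem_support, not_not]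
        apply Subtype.ext
        simpa [hσj] using hy.1
    rw [heq, hcard] at hmod
    constructor
    · have hmod' : _ % r = a % r := hmod
      rw [← hmod']
      exact Nat.mod_le _ _
    · rw [← heq]
      calc _ ≤ Fintype.card {x : Fin (a * b) // f x = j} := Finset.card_le_univ _
        _ = a := hcard
  have hmap : ∀ x ∈ σ.supportᶜ, f x ∈ π.supportᶜ := by
    intro x hx
    simp only [Finset.mem_compl, Equiv.Perm.mem_support, not_not] at hx ⊢
    rw [← hπ, hx]
  have hsum := Finset.card_eq_sum_card_fiberwise hmap
  refine ⟨π.supportᶜ.card, ?_, ?_, ?_, ?_⟩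
  · calc _ ≤ Fintype.card (Fin b) := Finset.card_le_univ _
      _ = b := Fintype.card_fin b
  · have := card_compl_support_modEq (σ := π) (p := r) (n := 1) (by rw [pow_one, hπr])
    rwa [Fintype.card_fin] at this
  · rw [hsum, ← smul_eq_mul, ← Finset.sum_const]
    apply Finset.sum_le_sum
    intro j hj
    simp only [Finset.mem_compl, Equiv.Perm.mem_support, not_not] at hj
    exact (hblock j hj).1
  · rw [hsum]
    refine (Finset.sum_le_card_nsmul _ _ a ?_).trans (le_of_eq (smul_eq_mul _ _))
    intro j hj
    simp only [Finset.mem_compl, Equiv.Perm.mem_support, not_not] at hj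
    exact (hblock j hj).2

theorem exists_sum {ι : Type*} [DecidableEq ι] (S : Finset ι) (A N : ℕ) (h : N ≤ S.card * A) :
    ∃ c : ι → ℕ, (∀ i, c i ≤ A) ∧ ∑ i ∈ S, c i = N := by
  induction S using Finset.induction_on generalizing N with
  | empty =>
    refine ⟨fun _ => 0, fun _ => Nat.zero_le _, ?_⟩
    simp at h
    simp [h]
  | insert i S hi ih =>
    rw [Finset.card_insert_of_notMem hi] at h
    obtain ⟨c, hc, hs⟩ := ih (N - min N A) (by
      rcases le_total N A with h1 | h1
      · rw [min_eq_left h1]; simp
      · rw [min_eq_right h1]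
        rw [Nat.add_mul, Nat.one_mul] at h
        omega)
    refine ⟨Function.update c i (min N A), ?_, ?_⟩
    · intro j
      by_cases hj : j = i
      · subst hj; simp
      · simp [hj, hc]
    · rw [Finset.sum_insert hi, Function.update_self]
      rw [Finset.sum_congr rfl (g := c) (by
        intro j hj
        rw [Function.update_of_ne]
        rintro rfl
        exact hi hj), hs]
      omega

/-- the construction -/
theorem exists_partition {a b r s t : ℕ} (hr : r.Prime) (σ : Equiv.Perm (Fin (a * b)))
    (hσ : σ ^ r = 1) (hs : σ.support.card = s * r) (htb : t * r ≤ b) (hta : t * a ≤ s)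
    (hst : s ≤ t * a + (b - t * r) * (a / r)) :
    ∃ f : Fin (a * b) → Fin b, (∀ j : Fin b, Nat.card {x : Fin (a * b) // f x = j} = a) ∧
      ∃ π : Equiv.Perm (Fin b), ∀ x : Fin (a * b), f (σ x) = π (f x) := by
  classical
  obtain ⟨π, hπr, hπs⟩ := exists_perm (α := Fin b) hr t (by simpa using htb)
  have hπc : π.supportᶜ.card = b - t * r := by
    rw [Finset.card_compl, hπs, Fintype.card_fin]
  obtain ⟨c, hc, hcs⟩ := exists_sum π.supportᶜ (a / r) (s - t * a) (by rw [hπc]; omega)
  have hg : ∀ j : Fin b, ∃ g : Equiv.Perm (Fin a), g ^ r = 1 ∧ g.support.card = c j * r := by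
    intro j
    apply exists_perm hr
    rw [Fintype.card_fin]
    calc c j * r ≤ (a / r) * r := Nat.mul_le_mul_right _ (hc j)
      _ ≤ a := Nat.div_mul_le_self a r
  choose g0 hg0 hg0s using hg
  set g : Fin b → Equiv.Perm (Fin a) := fun j => if π j = j then g0 j else 1 with hgdef
  have hgπ : ∀ j, g (π j) = g j := by
    intro j
    by_cases hj : π j = j
    · rw [hj]
    · have : ¬ π (π j) = π j := fun h => hj (π.injective h)
      simp [hgdef, hj]
  have hgr : ∀ j, g j ^ r = 1 := by
    intro j
    by_cases hj : π j = j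
    · simp [hgdef, hj, hg0]
    · simp [hgdef, hj]
  set τ : Equiv.Perm (Fin b × Fin a) := Equiv.prodShear π g with hτ
  have hτa : ∀ x, τ x = (π x.1, g x.1 x.2) := fun x => rfl
  have hgπk : ∀ k j, g ((π ^ k) j) = g j := by
    intro k
    induction k with
    | zero => intro j; rfl
    | succ k ih => intro j; rw [pow_succ', Equiv.Perm.mul_apply, hgπ, ih]
  have hτk : ∀ k x, (τ ^ k) x = ((π ^ k) x.1, (g x.1 ^ k) x.2) := by
    intro k
    induction k with
    | zero => intro x; rfl
    | succ k ih =>
      intro x
      rw [pow_succ', Equiv.Perm.mul_apply, ih, hτa]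
      simp only [hgπk]
      rw [pow_succ', pow_succ', Equiv.Perm.mul_apply, Equiv.Perm.mul_apply]
  have hτr : τ ^ r = 1 := by
    apply Equiv.ext
    intro x
    rw [hτk, hπr, hgr]
    rfl
  have hmemcompl : ∀ x, x ∈ τ.supportᶜ ↔ π x.1 = x.1 ∧ g0 x.1 x.2 = x.2 := by
    intro x
    simp only [Finset.mem_compl, Equiv.Perm.mem_support, not_not, hτa, Prod.ext_iff]
    constructor
    · rintro ⟨h1, h2⟩
      refine ⟨h1, ?_⟩
      simpa [hgdef, h1] using h2
    · rintro ⟨h1, h2⟩
      refine ⟨h1, ?_⟩
      simpa [hgdef, h1] using h2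
  have hτcompl : τ.supportᶜ.card = ∑ j ∈ π.supportᶜ, (a - c j * r) := by
    have hmap : ∀ x ∈ τ.supportᶜ, x.1 ∈ π.supportᶜ := by
      intro x hx
      rw [hmemcompl] at hx
      simpa using hx.1
    rw [Finset.card_eq_sum_card_fiberwise hmap]
    refine Finset.sum_congr rfl ?_
    intro j hj
    have : (τ.supportᶜ.filter (fun x => x.1 = j)).card = (g0 j).supportᶜ.card := by
      refine Finset.card_bij (fun x _ => x.2) ?_ ?_ ?_
      · intro x hx
        rw [Finset.mem_filter, hmemcompl] at hx
        obtain ⟨⟨_, h2⟩, h3⟩ := hx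
        subst h3
        simpa using h2
      · intro x hx y hy h
        rw [Finset.mem_filter] at hx hy
        exact Prod.ext (hx.2.trans hy.2.symm) h
      · intro u hu
        refine ⟨(j, u), ?_, rfl⟩
        rw [Finset.mem_filter, hmemcompl]
        simp only [Finset.mem_compl, Equiv.Perm.mem_support, not_not] at hj hu
        exact ⟨⟨hj, hu⟩, rfl⟩
    rw [this, Finset.card_compl, hg0s, Fintype.card_fin]
  have hτs : τ.support.card = s * r := by
    have h1 : τ.supportᶜ.card + τ.support.card = b * a := by
      rw [Finset.card_compl_add_card]; simp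
    have h2 : ∑ j ∈ π.supportᶜ, (a - c j * r) + ∑ j ∈ π.supportᶜ, c j * r = (b - t * r) * a := by
      rw [← Finset.sum_add_distrib, ← hπc, ← smul_eq_mul, ← Finset.sum_const]
      refine Finset.sum_congr rfl ?_
      intro j hj
      have : c j * r ≤ a := (Nat.mul_le_mul_right _ (hc j)).trans (Nat.div_mul_le_self a r)
      omega
    rw [← Finset.sum_mul, hcs, ← hτcompl] at h2
    obtain ⟨β, rfl⟩ := Nat.exists_eq_add_of_le htb
    obtain ⟨u, rfl⟩ := Nat.exists_eq_add_of_le hta
    have e1 : t * r + β - t * r = β := by omega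
    have e2 : t * a + u - t * a = u := by omega
    rw [e1, e2] at h2
    have e3 : (t * r + β) * a = t * a * r + β * a := by ring
    rw [e3] at h1
    have e4 : (t * a + u) * r = t * a * r + u * r := by ring
    rw [e4]
    omega
  let e : Fin b × Fin a ≃ Fin (a * b) := (Equiv.prodComm _ _).trans finProdFinEquiv
  set τ' : Equiv.Perm (Fin (a * b)) := e.permCongr τ with hτ'
  have hτ'r : τ' ^ r = 1 := by
    have : τ' ^ r = e.permCongr (τ ^ r) := by
      rw [hτ']
      exact (map_pow e.permCongrHom τ r).symm
    rw [this, hτr]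
    ext x; simp
  have hτ's : τ'.support.card = s * r := by
    rw [← hτs]
    symm
    refine Finset.card_bij (fun x _ => e x) ?_ ?_ ?_
    · intro x hx
      rw [Equiv.Perm.mem_support] at hx ⊢
      rw [hτ', Equiv.permCongr_apply, Equiv.symm_apply_apply]
      exact fun h => hx (e.injective h)
    · intro x _ y _ h
      exact e.injective h
    · intro y hy
      refine ⟨e.symm y, ?_, by simp⟩
      rw [Equiv.Perm.mem_support] at hy ⊢
      rw [hτ', Equiv.permCongr_apply] at hy
      exact fun h => hy (by rw [h, Equiv.apply_symm_apply])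
  have hconj := isConj_of_prime hr τ' σ hτ'r hσ (by rw [hτ's, hs])
  rw [isConj_iff] at hconj
  obtain ⟨ρ, hρ⟩ := hconj
  refine ⟨fun x => (e.symm (ρ⁻¹ x)).1, ?_, π, ?_⟩
  · intro j
    have : {x : Fin (a * b) // (e.symm (ρ⁻¹ x)).1 = j} ≃ Fin a := by
      refine ⟨fun x => (e.symm (ρ⁻¹ x.1)).2, fun u => ⟨ρ (e (j, u)), by simp⟩, ?_, ?_⟩
      · rintro ⟨x, hx⟩
        apply Subtype.ext
        have : (j, (e.symm (ρ⁻¹ x)).2) = e.symm (ρ⁻¹ x) := Prod.ext hx.symm rfl
        simp only [this]
        simp
      · intro u
        simp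
    rw [Nat.card_congr this, Nat.card_fin]
  · intro x
    have : ρ⁻¹ (σ x) = τ' (ρ⁻¹ x) := by
      rw [← hρ]
      simp
    simp only [this]
    rw [hτ', Equiv.permCongr_apply, Equiv.symm_apply_apply, hτa]

theorem result (a b : ℕ) (ha : 2 ≤ a) (hb : 2 ≤ b) (r : ℕ) (hr : r.Prime)
    (hrd : r ∣ (a * b).factorial / (a.factorial ^ b * b.factorial)) :
    (∀ σ : Equiv.Perm (Fin (a * b)), orderOf σ = r →
        ∃ f : Fin (a * b) → Fin b, (∀ j : Fin b, Nat.card {x : Fin (a * b) // f x = j} = a) ∧
          ∃ π : Equiv.Perm (Fin b), ∀ x : Fin (a * b), f (σ x) = π (f x)) ↔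
      (r ≤ a ∧ (a % r = 0 ∨ (b % r = 0 ∧ a % r = 1) ∨
        (a % r ≠ 0 ∧ b % r ≠ 0 ∧ (b % r) * (a % r) < r ∧ (b < r ∨ (b % r + r) * (a % r) ≤ (b % r) * a + r)))) := by
  classical
  have := Fact.mk hr
  have hr0 := hr.pos
  have hrab : r ≤ a * b := by
    rw [mul_comm a b, ← Nat.uniformBell_eq_div b (by omega)] at hrd
    have h1 : r ∣ (b * a).factorial := by
      rw [← Nat.uniformBell_mul_eq b (n := a) (by omega), mul_assoc]
      exact hrd.mul_right _
    have := (hr.dvd_factorial).1 h1
    rwa [mul_comm a b]
  constructor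
  · intro H
    have key : ∀ s, 1 ≤ s → s * r ≤ a * b → ∃ β, β ≤ b ∧ β % r = b % r ∧
        β * (a % r) ≤ a * b - s * r ∧ a * b - s * r ≤ β * a := by
      intro s hs hsr
      obtain ⟨σ, hσ, hσs⟩ := exists_perm (α := Fin (a * b)) hr s (by simpa using hsr)
      have hσ1 : σ ≠ 1 := by
        rintro rfl
        simp at hσs
        rcases hσs with h | h <;> omega
      obtain ⟨f, hf, π, hπ⟩ := H σ (orderOf_eq_prime hσ hσ1)
      obtain ⟨β, h1, h2, h3, h4⟩ := fixed_bounds hr (by omega) σ hσ f hf π hπ
      rw [Finset.card_compl, hσs, Fintype.card_fin] at h3 h4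
      exact ⟨β, h1, h2, h3, h4⟩
    have hra : r ≤ a := by
      by_contra hlt
      push Not at hlt
      obtain ⟨β, h1, h2, h3, h4⟩ := key 1 le_rfl (by omega)
      rw [Nat.mod_eq_of_lt hlt] at h3
      have h5 : β * a = a * b - 1 * r := le_antisymm h3 h4
      have h6 : a ∣ r := by
        have : r = a * b - β * a := by omega
        rw [this]
        exact Nat.dvd_sub (Dvd.intro _ rfl) (Dvd.intro_left _ rfl)
      rcases (Nat.dvd_prime hr).1 h6 with h7 | h7 <;> omega
    have hkl : (b % r) * (a % r) < r := by
      obtain ⟨β, h1, h2, h3, h4⟩ := key (a * b / r) (Nat.div_pos hrab hr0)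
        (Nat.div_mul_le_self _ _)
      have h5 : a * b - a * b / r * r < r := by
        have h6 := Nat.mod_lt (a * b) hr0
        have h7 := Nat.div_add_mod (a * b) r
        rw [mul_comm r] at h7
        omega
      calc b % r * (a % r) ≤ β * (a % r) := by
            rw [← h2]; exact Nat.mul_le_mul_right _ (Nat.mod_le _ _)
        _ < r := lt_of_le_of_lt h3 h5
    have h3' : b < r ∨ (b % r + r) * (a % r) ≤ (b % r) * a + r := by
      by_cases hbr : b < r
      · exact Or.inl hbr
      right
      push Not at hbr
      have hB : 1 ≤ b / r := Nat.div_pos hbr hr0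
      have hdm := Nat.div_add_mod b r
      set B := b / r with hBdef
      set k := b % r with hkdef
      have e1 : B * a * r ≤ a * b := by
        rw [← hdm]
        nlinarith
      have hBa : 2 ≤ B * a := by nlinarith
      have e2 : (B * a - 1) * r + r = B * a * r := by
        rw [Nat.sub_mul, one_mul]
        have : r ≤ B * a * r := by nlinarith
        omega
      obtain ⟨β, h1, h2, h3, h4⟩ := key (B * a - 1) (by omega) (by omega)
      have e3 : a * b - (B * a - 1) * r = k * a + r := by
        have : a * b = B * a * r + k * a := by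
          calc a * b = a * (r * B + k) := by rw [hdm]
            _ = _ := by ring
        omega
      rw [e3] at h3 h4
      have hkβ : k < β := by
        by_contra hle
        push Not at hle
        have : β * a ≤ k * a := Nat.mul_le_mul_right _ hle
        omega
      have hkβ2 : k + r ≤ β := by
        have h5 := Nat.div_add_mod β r
        rw [h2] at h5
        have h6 : 0 < β / r := by
          by_contra h7
          have : β / r = 0 := Nat.eq_zero_of_not_pos h7
          rw [this] at h5
          omega
        nlinarith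
      calc (k + r) * (a % r) ≤ β * (a % r) := Nat.mul_le_mul_right _ hkβ2
        _ ≤ _ := h3
    refine ⟨hra, ?_⟩
    by_cases hl : a % r = 0
    · exact Or.inl hl
    right
    by_cases hk : b % r = 0
    · left
      refine ⟨hk, ?_⟩
      rcases h3' with h | h
      · rw [Nat.mod_eq_of_lt h] at hk
        omega
      · rw [hk] at h
        simp only [zero_add, zero_mul] at h
        have : a % r ≤ 1 := by
          by_contra h5
          push Not at h5
          nlinarith
        omega
    · right
      exact ⟨hl, hk, hkl, h3'⟩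
  · rintro ⟨hra, hcond⟩ σ hσ
    have hkl : (b % r) * (a % r) < r := by
      rcases hcond with h | ⟨h1, h2⟩ | ⟨_, _, h, _⟩
      · rw [h]; simpa using hr0
      · rw [h1, h2]; simpa using hr0
      · exact h
    have h3' : b < r ∨ (b % r + r) * (a % r) ≤ (b % r) * a + r := by
      rcases hcond with h | ⟨h1, h2⟩ | ⟨_, _, _, h⟩
      · right; rw [h]; simp
      · right; rw [h1, h2]; simp
      · exact h
    have hσr : σ ^ r = 1 := by rw [← hσ]; exact pow_orderOf_eq_one σ
    have hs : σ.support.card = σ.cycleType.card * r := by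
      rw [← σ.sum_cycleType]
      conv_lhs => rw [cycleType_of_pow_prime_eq_one hσr]
      simp
    set s := σ.cycleType.card with hsdef
    have hsr : s * r ≤ a * b := by
      rw [← hs]
      calc _ ≤ Fintype.card (Fin (a * b)) := Finset.card_le_univ _
        _ = a * b := Fintype.card_fin _
    have hdb := Nat.div_add_mod b r
    have hda := Nat.div_add_mod a r
    have hds := Nat.div_add_mod s a
    have hsa := Nat.mod_lt s (show 0 < a by omega)
    rcases le_or_gt (b / r) (s / a) with hc | hc
    · refine exists_partition (t := b / r) hr σ hσr hs (Nat.div_mul_le_self _ _) ?_ ?_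
      · calc b / r * a ≤ s / a * a := Nat.mul_le_mul_right _ hc
          _ ≤ s := Nat.div_mul_le_self _ _
      · have e1 : b - b / r * r = b % r := by rw [mul_comm]; omega
        rw [e1]
        set B := b / r
        set k := b % r
        set A := a / r
        set l := a % r
        have e2 : a * b = r * (B * a + k * A) + k * l := by
          rw [← hdb]
          have : a * (r * B + k) = r * (B * a) + k * a := by ring
          rw [this]
          nth_rewrite 2 [← hda]
          ring
        have e3 : s * r < r * (B * a + k * A) + r := by omega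
        have e4 : s * r < (B * a + k * A + 1) * r := by
          calc s * r < r * (B * a + k * A) + r := e3
            _ = _ := by ring
        have := Nat.lt_of_mul_lt_mul_right e4
        omega
    · have hB : 1 ≤ b / r := lt_of_le_of_lt (Nat.zero_le _) hc
      have hbr : ¬ b < r := by
        intro h
        rw [Nat.div_eq_of_lt h] at hB
        omega
      have h4 := h3'.resolve_left hbr
      have hle : s / a * r + r ≤ b / r * r := by
        calc s / a * r + r = (s / a + 1) * r := by ring
          _ ≤ b / r * r := Nat.mul_le_mul_right _ hc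
      have hBb : b / r * r ≤ b := Nat.div_mul_le_self b r
      refine exists_partition (t := s / a) hr σ hσr hs (by linarith) (Nat.div_mul_le_self _ _) ?_
      have e1 : b % r + r ≤ b - s / a * r := by
        have := Nat.div_add_mod b r
        rw [mul_comm] at this
        omega
      have e2 : (b % r + r) * (a / r) ≤ (b - s / a * r) * (a / r) := Nat.mul_le_mul_right _ e1
      have e3 : a ≤ (b % r + r) * (a / r) + 1 := by
        set k := b % r
        set A := a / r
        set l := a % r
        have h5 : r * l ≤ r * (k * A + 1) := by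
          have h6 : (k + r) * l = k * l + r * l := by ring
          have h7 : k * a = r * (k * A) + k * l := by
            nth_rewrite 1 [← hda]
            ring
          have h8 : r * (k * A + 1) = r * (k * A) + r := by ring
          omega
        have h9 : l ≤ k * A + 1 := Nat.le_of_mul_le_mul_left h5 hr0
        have h10 : (k + r) * A = k * A + r * A := by ring
        omega
      rw [mul_comm (s / a) a]
      omega

end Cfsg.Agent.S3575
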