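import Cfsg.Statements.S3580
-- import your own Cfsg.Agent.* helpers here
import Cfsg.Agent.H401.Final

set_option autoImplicit false
open Cfsg

namespace Cfsg.Agent.S3580

/-- Let G act faithfully and transitively on a finite set Ω, let p be an odd prime dividing the order of G and P a Sylow p-subgroup of G. Then the number of orbits of P on Ω is at most (p/(2p − 1))·(number of points). -/
theorem result {G Ω : Type*} [Group G] [Finite G] [MulAction G Ω] [FaithfulSMul G Ω] [Finite Ω]
    (htrans : MulAction.IsPretransitive G Ω) (p : ℕ) [Fact p.Prime] (hp2 : p ≠ 2) (hpG : p ∣ Nat.card G)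
    (P : Sylow p G) :
    (2 * p - 1) * Nat.card (MulAction.orbitRel.Quotient ↥(P : Subgroup G) Ω) ≤ p * Nat.card Ω := by
  have := htrans
  exact Cfsg.Agent.H401.orbit_bound hpG P

end Cfsg.Agent.S3580
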