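import Cfsg.Statements.S3593
import Cfsg.Agent.H404.Nse
import Cfsg.Agent.S0421
import Cfsg.Agent.FooteOdd.SporMTwelve
import Cfsg.Agent.MTwelve.SylowEleven
import Cfsg.Agent.MTwelveType.SylowModel

set_option autoImplicit false
open scoped Pointwise
open Cfsg

namespace Cfsg.Agent.S3593

open Subgroup

instance factEleven : Fact (Nat.Prime 11) := ⟨by norm_num⟩
instance factFive : Fact (Nat.Prime 5) := ⟨by norm_num⟩

theorem arith : Cfsg.Agent.H404.Nse.Arith 95040 11 5 where
  dvd := by norm_num
  sq := by norm_num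
  lt := by norm_num
  rsq := by norm_num
  big := by norm_num
  ne := by
    intro s a hs h1 h2 ha h
    have h3 : s ∣ 95040 := (dvd_pow_self s ha.ne').trans h
    have h4 : s = 2 ∨ s = 3 := by
      have h5 : s ∣ 2 ^ 6 * 3 ^ 3 * 5 * 11 := by norm_num; exact h3
      rcases (Nat.Prime.dvd_mul hs).1 h5 with h6 | h6
      · rcases (Nat.Prime.dvd_mul hs).1 h6 with h7 | h7
        · rcases (Nat.Prime.dvd_mul hs).1 h7 with h8 | h8
          · left; exact (Nat.prime_dvd_prime_iff_eq hs Nat.prime_two).1 (hs.dvd_of_dvd_pow h8)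
          · right; exact (Nat.prime_dvd_prime_iff_eq hs Nat.prime_three).1 (hs.dvd_of_dvd_pow h8)
        · exact absurd ((Nat.prime_dvd_prime_iff_eq hs factFive.out).1 h7) h2
      · exact absurd ((Nat.prime_dvd_prime_iff_eq hs factEleven.out).1 h6) h1
    rcases h4 with rfl | rfl
    · have h5 : a < 7 := by
        by_contra h6
        push Not at h6
        have h7 : 2 ^ 7 ∣ 95040 := (Nat.pow_dvd_pow 2 h6).trans h
        norm_num at h7
      interval_cases a <;> decide
    · have h5 : a < 4 := by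
        by_contra h6
        push Not at h6
        have h7 : 3 ^ 4 ∣ 95040 := (Nat.pow_dvd_pow 3 h6).trans h
        norm_num at h7
      interval_cases a <;> decide

/-- Let M be the Mathieu group M₁₂ (order 95040). If a finite group G has the same order as M and the same set of values of the function 'number of elements of order n' (taken over the element orders n that occur), then G is isomorphic to M. -/
theorem result {G : Type*} [Group G] [Finite G]
    (hcard : Nat.card G = Nat.card ↥Cfsg.Spor.M12)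
    (hnse : {c : ℕ | 0 < c ∧ ∃ n : ℕ, c = Nat.card {g : G // orderOf g = n}} =
      {c : ℕ | 0 < c ∧ ∃ n : ℕ, c = Nat.card {g : ↥Cfsg.Spor.M12 // orderOf g = n}}) :
    Nonempty (G ≃* ↥Cfsg.Spor.M12) := by
  have hc : Nat.card Spor.M12 = 95040 := Cfsg.Agent.MTwelveType.SylowModel.card_M12
  have hM : IsSimpleGroup Spor.M12 := Cfsg.Agent.FooteOdd.SporMTwelve.simple
  have hs : IsSimpleGroup G :=
    Cfsg.Agent.H404.Nse.isSimpleGroup_of_nse (p := 11) (r := 5) hcard (by rw [hc]; exact arith)
      (fun P => Cfsg.Agent.MTwelve.SylowEleven.centralizer_sylow11 hc P)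
      (fun P => Cfsg.Agent.MTwelve.SylowEleven.card_normalizer_sylow11 hc P) hnse
  obtain ⟨e⟩ := Cfsg.Agent.S0421.result (G := G) ⟨hs, hcard.trans hc⟩ _
    Cfsg.Agent.FooteOdd.SporMTwelve.dodecad_mem
  let f : ↥(MulAction.stabilizer Cfsg.M24 Spor.squareDodecad) →* Spor.M12 :=
    { toFun := fun x => ⟨((x : Cfsg.M24) : Equiv.Perm GolayPt), Subgroup.mem_inf.2 ⟨x.1.2, x.2⟩⟩
      map_one' := rfl
      map_mul' := fun _ _ => rfl }
  refine ⟨e.trans (MulEquiv.ofBijective f ⟨?_, ?_⟩)⟩
  · intro x y hxy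
    have h : (f x).1 = (f y).1 := congrArg Subtype.val hxy
    exact Subtype.ext (Subtype.ext h)
  · rintro ⟨g, hg⟩
    have h1 := Subgroup.mem_inf.1 hg
    exact ⟨⟨⟨g, h1.1⟩, h1.2⟩, rfl⟩

end Cfsg.Agent.S3593
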