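import Cfsg.Statements.S3596
import Cfsg.Agent.S0364
import Cfsg.Agent.S0365
import Cfsg.Agent.S0422
import Cfsg.Agent.SporadicA.M24.Sylow23
import Cfsg.Agent.SporadicA.M24.Sylow11
import Cfsg.Agent.H405.Nse

set_option autoImplicit false
open Cfsg

namespace Cfsg.Agent.S3596

open Cfsg.Agent.H405

/-- The Sylow 23- and 11-subgroups of a simple group of order 244823040. -/
theorem sylow_facts {G : Type*} [Group G] [Finite G] [IsSimpleGroup G]
    (hcard : Nat.card G = 244823040) [Fact (Nat.Prime 23)] [Fact (Nat.Prime 11)]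
    (P : Sylow 23 G) (Q : Sylow 11 G) :
    (Subgroup.centralizer (P : Set G) = (P : Subgroup G) ∧
      Nat.card (Subgroup.normalizer (P : Set G)) = 23 * 11) ∧
    (Subgroup.centralizer (Q : Set G) = (Q : Subgroup G) ∧
      Nat.card (Subgroup.normalizer (Q : Set G)) = 11 * 10) := by
  have hP : Nat.card (P : Subgroup G) = 23 :=
    Nse.card_sylow_prime (m := 10644480) (by rw [hcard]) (by norm_num) P
  have hQ : Nat.card (Q : Subgroup G) = 11 :=
    Nse.card_sylow_prime (m := 22256640) (by rw [hcard]) (by norm_num) Q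
  have h1 := Cfsg.Agent.SporadicA.M24.Sylow23.centralizer_eq hcard P
  have h2 := Cfsg.Agent.SporadicA.M24.Sylow11.centralizer_eq hcard Q
  refine ⟨⟨h1, ?_⟩, ⟨h2, ?_⟩⟩
  · exact Nse.card_normalizer_of_relIndex hP h1
      (Cfsg.Agent.SporadicA.M24.Sylow23.relIndex_eq hcard P)
  · exact Nse.card_normalizer_of_relIndex hQ h2
      (Cfsg.Agent.SporadicA.M24.Sylow11.relIndex_eq hcard Q)

theorem arith {n i : ℕ} (hni : n * i = 244823040) (h23 : 23 ∣ n → i ∣ 11) (h11 : 11 ∣ n → i ∣ 10)
    (h23' : ¬ 23 ∣ n → n % 23 = 1) (h11' : ¬ 11 ∣ n → (n % 11 = 1 ∨ n % 11 = 2)) :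
    n = 1 ∨ i = 1 ∨ n = 24 := by
  by_cases a : 23 ∣ n
  · by_cases b : 11 ∣ n
    · right; left
      have h1 := h23 a
      have h2 := h11 b
      have h3 := Nat.dvd_gcd h1 h2
      norm_num at h3
      exact h3
    · exfalso
      have h1 := (Nat.dvd_prime (by norm_num)).mp (h23 a)
      rcases h1 with rfl | rfl <;> omega
  · by_cases b : 11 ∣ n
    · exfalso
      have h1 := Nat.le_of_dvd (by norm_num) (h11 b)
      have h2 := h11 b
      interval_cases i <;> omega
    · have h1 := h23' a
      have h2 := h11' b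
      have h4 : n ∣ 967680 := by
        have h5 : n ∣ 253 * 967680 := by
          rw [show 253 * 967680 = 244823040 by norm_num, ← hni]; exact dvd_mul_right _ _
        have h6 : Nat.Coprime n 253 := by
          rw [show 253 = 11 * 23 by norm_num]
          exact Nat.Coprime.mul_right ((Nat.Prime.coprime_iff_not_dvd (by norm_num)).mpr b).symm
            ((Nat.Prime.coprime_iff_not_dvd (by norm_num)).mpr a).symm
        exact h6.dvd_of_dvd_mul_left h5
      have h5 : n ≤ 967680 := Nat.le_of_dvd (by norm_num) h4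
      obtain ⟨m, hm⟩ := h4
      have hm' : m * n = 967680 := by rw [mul_comm]; exact hm.symm
      by_cases hn : n < 984
      · have key : ∀ n < 984, 967680 % n = 0 → n % 23 = 1 → (n % 11 = 1 ∨ n % 11 = 2) →
            n = 1 ∨ n = 24 := by decide +kernel
        have := key n hn (Nat.mod_eq_zero_of_dvd ⟨m, hm⟩) h1 h2
        omega
      · exfalso
        have hm2 : m < 984 := by
          by_contra hc
          have := Nat.mul_le_mul (not_lt.mp hc) (not_lt.mp hn)
          omega
        have hmpos : 0 < m := Nat.pos_of_ne_zero (by rintro rfl; omega)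
        have hdiv : 967680 / m = n := by
          rw [← hm', Nat.mul_div_cancel_left _ hmpos]
        have key : ∀ m < 984, 967680 % m = 0 → (967680 / m) % 23 = 1 →
            ((967680 / m) % 11 = 1 ∨ (967680 / m) % 11 = 2) → 967680 / m ≤ 24 := by
          decide +kernel
        have := key m hm2 (Nat.mod_eq_zero_of_dvd ⟨n, hm'.symm⟩) (by rw [hdiv]; exact h1)
          (by rw [hdiv]; exact h2)
        omega

/-- A group of order divisible by 11 exactly with `|N(Q)| = 110` and `5 ∤ |C(Q)|`. -/
theorem mod_eleven {G : Type*} [Group G] [Finite G] [Fact (Nat.Prime 11)] (Q : Sylow 11 G)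
    (hNQ : Nat.card (Subgroup.normalizer (Q : Set G)) = 11 * 10)
    (h5 : ¬ 5 ∣ Nat.card (Subgroup.centralizer (Q : Set G))) (N : Subgroup G) [N.Normal]
    (h : ¬ 11 ∣ Nat.card N) : Nat.card N % 11 = 1 ∨ Nat.card N % 11 = 2 := by
  have h1 : Nat.card N ≡ Nat.card (N ⊓ Subgroup.centralizer (Q : Set G) : Subgroup G) [MOD 11] :=
    Nse.card_normal_modEq (p := 11) (Q : Subgroup G) Q.isPGroup' N
  have h2 : Nat.card (N ⊓ Subgroup.centralizer (Q : Set G) : Subgroup G) ∣ 110 := by
    rw [show 110 = 11 * 10 by norm_num, ← hNQ]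
    exact Subgroup.card_dvd_of_le (inf_le_right.trans (Subgroup.centralizer_le_normalizer _))
  have h3 : Nat.Coprime (Nat.card (N ⊓ Subgroup.centralizer (Q : Set G) : Subgroup G)) 11 :=
    ((Nat.Prime.coprime_iff_not_dvd (by norm_num)).mpr
      (fun h' => h (h'.trans (Subgroup.card_dvd_of_le inf_le_left)))).symm
  have h4 : Nat.Coprime (Nat.card (N ⊓ Subgroup.centralizer (Q : Set G) : Subgroup G)) 5 :=
    ((Nat.Prime.coprime_iff_not_dvd (by norm_num)).mpr
      (fun h' => h5 (h'.trans (Subgroup.card_dvd_of_le inf_le_right)))).symm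
  have h6 : Nat.card (N ⊓ Subgroup.centralizer (Q : Set G) : Subgroup G) ∣ 2 := by
    rw [show 110 = 11 * (5 * 2) by norm_num] at h2
    exact h4.dvd_of_dvd_mul_left (h3.dvd_of_dvd_mul_left h2)
  rcases (Nat.dvd_prime Nat.prime_two).mp h6 with h7 | h7
  · left; rw [h7] at h1; exact h1
  · right; rw [h7] at h1; exact h1

/-- No normal subgroup of order 24 in presence of a self-centralising subgroup of order 23. -/
theorem not_24 {G : Type*} [Group G] [Finite G] [Fact (Nat.Prime 23)] (P : Subgroup G)
    (hP : Nat.card P = 23) (hC : Subgroup.centralizer (P : Set G) = P)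
    (N : Subgroup G) [hN : N.Normal] (h24 : Nat.card N = 24) : False := by
  classical
  have hPp : IsPGroup 23 P := IsPGroup.of_card (n := 1) (by rw [hP, pow_one])
  have key : ∀ l : ℕ, l.Prime → l ≠ 23 → l ∣ 24 →
      23 ≤ Nat.card {g : G // g ∈ N ∧ orderOf g = l} := by
    intro l hl hl23 hdvd
    have := Fact.mk hl
    have h1 := Nse.card_modEq (p := 23) hPp {g : G | g ∈ N ∧ orderOf g = l} (by
      rintro x hx g ⟨hg1, hg2⟩
      refine ⟨hN.conj_mem g hg1 x, ?_⟩
      have h1 : orderOf (x * g * x⁻¹) = orderOf g := by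
        have := orderOf_injective (MulAut.conj x).toMonoidHom (MulAut.conj x).injective g
        simpa using this
      rw [h1, hg2])
    have h2 : Nat.card {g : G // g ∈ {g : G | g ∈ N ∧ orderOf g = l} ∧
        g ∈ Subgroup.centralizer (P : Set G)} = 0 := by
      rw [Nat.card_eq_zero]
      left
      constructor
      rintro ⟨g, ⟨_, hg2⟩, hg3⟩
      rw [hC] at hg3
      have h3 : orderOf g ∣ 23 := by
        have := Subgroup.orderOf_dvd_natCard P hg3
        rwa [hP] at this
      rw [hg2] at h3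
      rcases (Nat.dvd_prime (by norm_num)).mp h3 with h | h
      · exact hl.one_lt.ne' h
      · exact hl23 h
    rw [h2] at h1
    have h3 : 23 ∣ Nat.card {g : G | g ∈ N ∧ orderOf g = l} := (Nat.modEq_zero_iff_dvd).mp h1
    refine Nat.le_of_dvd ?_ h3
    obtain ⟨x, hx⟩ := exists_prime_orderOf_dvd_card' (G := N) l (by rw [h24]; exact hdvd)
    rw [Nat.card_pos_iff]
    exact ⟨⟨⟨x, x.2, by rw [Subgroup.orderOf_coe]; exact hx⟩⟩, inferInstance⟩
  have h2 := key 2 (by norm_num) (by norm_num) (by norm_num)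
  have h3 := key 3 (by norm_num) (by norm_num) (by norm_num)
  -- inject the disjoint union into `N`
  let f : {g : G // g ∈ N ∧ orderOf g = 2} ⊕ {g : G // g ∈ N ∧ orderOf g = 3} → N :=
    Sum.elim (fun g => ⟨g.1, g.2.1⟩) (fun g => ⟨g.1, g.2.1⟩)
  have hf : Function.Injective f := by
    rintro (a | a) (b | b) hab
    · have : a.1 = b.1 := congrArg (fun z : N => (z : G)) hab
      exact congrArg Sum.inl (Subtype.ext this)
    · have : a.1 = b.1 := congrArg (fun z : N => (z : G)) hab
      have h1 := a.2.2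
      rw [this, b.2.2] at h1
      omega
    · have : a.1 = b.1 := congrArg (fun z : N => (z : G)) hab
      have h1 := a.2.2
      rw [this, b.2.2] at h1
      omega
    · have : a.1 = b.1 := congrArg (fun z : N => (z : G)) hab
      exact congrArg Sum.inr (Subtype.ext this)
  have h4 := Nat.card_le_card_of_injective f hf
  rw [Nat.card_sum, h24] at h4
  omega

/-- Let M be the Mathieu group M₂₄ (order 244823040). If a finite group G has the same order as M and the same set of values of the function 'number of elements of order n' (taken over the element orders n that occur), then G is isomorphic to M. -/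
theorem result {G : Type*} [Group G] [Finite G]
    (hcard : Nat.card G = Nat.card ↥Cfsg.M24)
    (hnse : {c : ℕ | 0 < c ∧ ∃ n : ℕ, c = Nat.card {g : G // orderOf g = n}} =
      {c : ℕ | 0 < c ∧ ∃ n : ℕ, c = Nat.card {g : ↥Cfsg.M24 // orderOf g = n}}) :
    Nonempty (G ≃* ↥Cfsg.M24) := by
  have hM : Nat.card ↥Cfsg.M24 = 244823040 := Cfsg.Agent.S0364.result
  have hs : IsSimpleGroup ↥Cfsg.M24 := Cfsg.Agent.S0365.result
  have hG : Nat.card G = 244823040 := hcard.trans hM
  have f23 : Fact (Nat.Prime 23) := ⟨by norm_num⟩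
  have f11 : Fact (Nat.Prime 11) := ⟨by norm_num⟩
  obtain ⟨P⟩ : Nonempty (Sylow 23 ↥Cfsg.M24) := inferInstance
  obtain ⟨Q⟩ : Nonempty (Sylow 11 ↥Cfsg.M24) := inferInstance
  obtain ⟨P'⟩ : Nonempty (Sylow 23 G) := inferInstance
  obtain ⟨Q'⟩ : Nonempty (Sylow 11 G) := inferInstance
  have hP : Nat.card (P : Subgroup ↥Cfsg.M24) = 23 :=
    Nse.card_sylow_prime (m := 10644480) (by rw [hM]) (by norm_num) P
  have hQ : Nat.card (Q : Subgroup ↥Cfsg.M24) = 11 :=
    Nse.card_sylow_prime (m := 22256640) (by rw [hM]) (by norm_num) Q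
  have hP' : Nat.card (P' : Subgroup G) = 23 :=
    Nse.card_sylow_prime (m := 10644480) (by rw [hG]) (by norm_num) P'
  have hQ' : Nat.card (Q' : Subgroup G) = 11 :=
    Nse.card_sylow_prime (m := 22256640) (by rw [hG]) (by norm_num) Q'
  obtain ⟨⟨hCP, hNP⟩, ⟨hCQ, hNQ⟩⟩ := sylow_facts hM P Q
  have hNP' := (Nse.card_normalizer_eq (by norm_num) hcard hnse P' hP' P hP hCP).trans hNP
  have hNQ' := (Nse.card_normalizer_eq (by norm_num) hcard hnse Q' hQ' Q hQ hCQ).trans hNQ
  have hCP' : Subgroup.centralizer (P' : Set G) = (P' : Subgroup G) := by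
    refine Nse.centralizer_eq_of_prime (l := 11) (by norm_num) hP' hNP' ?_
    refine Nse.not_dvd_centralizer (by norm_num) (by norm_num) (by norm_num) (by norm_num) hnse P'
      hP' hP hCP ?_ (by norm_num)
    refine (Subgroup.card_dvd_of_le (Subgroup.centralizer_le_normalizer _)).trans ?_
    rw [hNP']; norm_num
  have hCQ' : ¬ 5 ∣ Nat.card (Subgroup.centralizer (Q' : Set G)) := by
    refine Nse.not_dvd_centralizer (by norm_num) (by norm_num) (by norm_num) (by norm_num) hnse Q'
      hQ' hQ hCQ ?_ (by norm_num)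
    refine (Subgroup.card_dvd_of_le (Subgroup.centralizer_le_normalizer _)).trans ?_
    rw [hNQ']
  have hsG : IsSimpleGroup G := by
    apply Nse.simple_of_index (by rw [hG]; norm_num)
    intro N hN
    have key := arith (N.card_mul_index.trans hG)
      (fun h => Nse.index_dvd P' hP' hNP' N h) (fun h => Nse.index_dvd Q' hQ' hNQ' N h)
      (fun h => Nse.card_normal_mod _ hP' hCP' N h) (fun h => mod_eleven Q' hNQ' hCQ' N h)
    rcases key with h | h | h
    · exact Or.inl h
    · exact Or.inr h
    · exact (not_24 _ hP' hCP' N h).elim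
  exact Cfsg.Agent.S0422.result ⟨hsG, hG⟩

end Cfsg.Agent.S3596
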