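import Cfsg.Statements.S3598
import Cfsg.Agent.H727.PslSq
import Cfsg.Agent.H727.PslByOrder

set_option autoImplicit false
open Cfsg

namespace Cfsg.Agent.S3598

/-- Let p be a prime and F a field with p² elements. If a finite group G has, for every d, the same number of irreducible complex characters of degree d as PSL(2,F) (the same first column of the character table, with multiplicities), then G is isomorphic to PSL(2,F). -/
theorem result {F : Type*} [Field F] [Fintype F] (p : ℕ) (hp : p.Prime)
    (hF : Fintype.card F = p ^ 2) {G : Type*} [Group G] [Finite G]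
    (h : ∀ d : ℕ, Nat.card {χ : Cfsg.IrrCharacter G // (χ : G → ℂ) 1 = (d : ℂ)} =
      Nat.card {χ : Cfsg.IrrCharacter (Matrix.ProjectiveSpecialLinearGroup (Fin 2) F) // (χ : Matrix.ProjectiveSpecialLinearGroup (Fin 2) F → ℂ) 1 = (d : ℂ)}) :
    Nonempty (G ≃* Matrix.ProjectiveSpecialLinearGroup (Fin 2) F) := by
  have h4 : 3 < Fintype.card F := by
    have := hp.two_le
    rw [hF]
    nlinarith
  have hs : IsSimpleGroup G := by
    by_cases hp2 : p = 2
    · exact H727.PslSq.isSimpleGroup_four (F := F) (by rw [hF, hp2]; norm_num) h
    · exact H727.PslSq.isSimpleGroup (F := F) hp hp2 hF h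
  have hfin : Finite (Matrix.ProjectiveSpecialLinearGroup (Fin 2) F) := by
    unfold Matrix.ProjectiveSpecialLinearGroup
    infer_instance
  exact H727.PslByOrder.psl_two_of_card h4 (H727.DegCount.card_eq_of_cnt h)

end Cfsg.Agent.S3598
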