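import Cfsg.Statements.S3599
import Cfsg.Agent.H406.CritProd

set_option autoImplicit false
set_option linter.style.haveILetI false
open Cfsg

namespace Cfsg.Agent.S3599

open Cfsg.Agent.H406.CritProd

/-- The set of products. -/
def Om (s : ℕ) (p : Fin s → Fin 2 → ℕ) : Set ℕ :=
  {m : ℕ | ∃ c : Fin s → ℕ, (∀ j, c j = 1 ∨ c j = p j 0 ∨ c j = p j 1) ∧ m = ∏ j, c j}

/-- The class of groups, one for each choice of the kernels. -/
def Cl (s : ℕ) (p : Fin s → Fin 2 → ℕ) (a : Fin s → Fin 2) (G : Type) [Group G] : Prop :=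
  Set.range (orderOf : G → ℕ) = Om s p ∧ ∀ j, NS (p j (a j)) G

theorem not_dvd {s : ℕ} {p : Fin s → Fin 2 → ℕ}
    (hp : ∀ j i, (p j i).Prime) (hinj : ∀ j i j' i', p j i = p j' i' → j = j' ∧ i = i')
    {m : ℕ} (hm : m ∈ Om s p) (j : Fin s) (h₀ : p j 0 ∣ m) (h₁ : p j 1 ∣ m) : False := by
  obtain ⟨c, hc, rfl⟩ := hm
  have key : ∀ i, p j i ∣ ∏ j, c j → c j = p j i := by
    intro i hi
    obtain ⟨j', -, hj'⟩ := (Prime.dvd_finsetProd_iff (hp j i).prime c).1 hi
    rcases hc j' with h | h | h
    · rw [h] at hj'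
      exact absurd (Nat.dvd_one.1 hj') (hp j i).one_lt.ne'
    · rw [h] at hj'
      have := hinj _ _ _ _ ((Nat.prime_dvd_prime_iff_eq (hp j i) (hp j' 0)).1 hj')
      rw [this.2, this.1, h]
    · rw [h] at hj'
      have := hinj _ _ _ _ ((Nat.prime_dvd_prime_iff_eq (hp j i) (hp j' 1)).1 hj')
      rw [this.2, this.1, h]
  have h := (key 0 h₀).symm.trans (key 1 h₁)
  exact absurd (hinj _ _ _ _ h).2 (by decide)

theorem exists_cl {s : ℕ} {p : Fin s → Fin 2 → ℕ}
    (hp : ∀ j i, (p j i).Prime) (hinj : ∀ j i j' i', p j i = p j' i' → j = j' ∧ i = i')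
    (a : Fin s → Fin 2) : ∃ (G : Type) (_ : Group G) (_ : Fintype G), Cl s p a G := by
  classical
  have hne : ∀ j, p j (a j) ≠ p j (1 - a j) := by
    intro j h
    have := (hinj _ _ _ _ h).2
    generalize a j = i at this
    revert this
    revert i
    decide
  choose F gF fF hF using fun j =>
    exists_frob (p j (a j)) (p j (1 - a j)) (hp _ _) (hp _ _) (hne j)
  have hset : ∀ j, ({1, p j (a j), p j (1 - a j)} : Set ℕ) = {1, p j 0, p j 1} := by
    intro j
    generalize a j = i
    fin_cases i
    · rfl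
    · ext x
      simp only [Set.mem_insert_iff, Set.mem_singleton_iff]
      change x = 1 ∨ x = p j 1 ∨ x = p j 0 ↔ _
      tauto
  have hmem : ∀ j (x : F j), orderOf x = 1 ∨ orderOf x = p j 0 ∨ orderOf x = p j 1 := by
    intro j x
    have : orderOf x ∈ Set.range (orderOf : F j → ℕ) := ⟨x, rfl⟩
    rw [(hF j).2, hset] at this
    simpa using this
  have hcop : ∀ c : Fin s → ℕ, (∀ j, c j = 1 ∨ c j = p j 0 ∨ c j = p j 1) →
      Pairwise (Function.onFun Nat.Coprime c) := by
    intro c hc i j hij
    have h : ∀ i' j', Nat.Coprime (p i i') (p j j') := fun i' j' =>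
      (Nat.coprime_primes (hp _ _) (hp _ _)).2 fun h => hij (hinj _ _ _ _ h).1
    change Nat.Coprime (c i) (c j)
    rcases hc i with h1 | h1 | h1 <;> rcases hc j with h2 | h2 | h2 <;> rw [h1, h2] <;>
      first | exact Nat.coprime_one_left _ | exact Nat.coprime_one_right _ | exact h _ _
  have hord : ∀ x : (∀ j, F j), orderOf x = ∏ j, orderOf (x j) := by
    intro x
    apply Nat.dvd_antisymm
    · apply orderOf_dvd_of_pow_eq_one
      funext j
      rw [Pi.pow_apply, Pi.one_apply]
      exact orderOf_dvd_iff_pow_eq_one.1 (Finset.dvd_prod_of_mem _ (Finset.mem_univ j))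
    · refine Finset.prod_dvd_of_isRelPrime (fun i _ j _ hij => ?_) fun j _ => ?_
      · exact Nat.coprime_iff_isRelPrime.1 (hcop (fun j => orderOf (x j)) (fun j => hmem j _) hij)
      · apply orderOf_dvd_of_pow_eq_one
        have := pow_orderOf_eq_one x
        rw [← Pi.pow_apply, this, Pi.one_apply]
  haveI : Fintype (∀ j, F j) := Fintype.ofFinite _
  refine ⟨∀ j, F j, inferInstance, inferInstance, ?_, ?_⟩
  · ext m
    constructor
    · rintro ⟨x, rfl⟩
      exact ⟨fun j => orderOf (x j), fun j => hmem j _, hord x⟩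
    · rintro ⟨c, hc, rfl⟩
      have : ∀ j, ∃ x : F j, orderOf x = c j := by
        intro j
        have : c j ∈ Set.range (orderOf : F j → ℕ) := by
          rw [(hF j).2, hset]
          simpa using hc j
        exact this
      choose x hx using this
      exact ⟨x, by rw [hord]; simp [hx]⟩
  · intro j
    obtain ⟨N, hN, hpN, hi⟩ := (hF j).1
    haveI := Fact.mk (hp j (a j))
    -- the normal subgroup: those tuples with entry in `N` at `j`, and `1` elsewhere
    refine ⟨N.map (MonoidHom.mulSingle F j), ?_, hpN.map _, ?_⟩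
    · constructor
      rintro _ ⟨n, hn, rfl⟩ g
      refine ⟨g j * n * (g j)⁻¹, hN.conj_mem n hn _, ?_⟩
      funext k
      by_cases hk : k = j
      · subst hk
        simp
      · simp [Pi.mulSingle_eq_of_ne hk]
    · intro hd
      have h1 : (N.map (MonoidHom.mulSingle F j)).index * Nat.card N =
          Nat.card (∀ j, F j) := by
        rw [← Subgroup.index_mul_card (N.map (MonoidHom.mulSingle F j)),
          Nat.card_congr (N.equivMapOfInjective (MonoidHom.mulSingle F j)
            (Pi.mulSingle_injective j)).toEquiv]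
      have h2 : Nat.card (∀ j, F j) = N.index * Nat.card N * ∏ k ∈ Finset.univ.erase j,
          Nat.card (F k) := by
        rw [Nat.card_pi, Subgroup.index_mul_card]
        exact (Finset.mul_prod_erase Finset.univ (fun k => Nat.card (F k)) (Finset.mem_univ j)).symm
      have h3 : (N.map (MonoidHom.mulSingle F j)).index = N.index * ∏ k ∈ Finset.univ.erase j,
          Nat.card (F k) := by
        have : 0 < Nat.card N := Nat.card_pos
        apply Nat.eq_of_mul_eq_mul_right this
        rw [h1, h2]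
        ring
      rw [h3] at hd
      rcases (hp j (a j)).dvd_mul.1 hd with h | h
      · exact hi h
      · obtain ⟨k, hk, hd⟩ := (Prime.dvd_finsetProd_iff (hp j (a j)).prime _).1 h
        obtain ⟨x, hx⟩ := exists_prime_orderOf_dvd_card' (p j (a j)) hd
        have := hmem k x
        rw [hx] at this
        have hkj : k ≠ j := (Finset.mem_erase.1 hk).1
        rcases this with h | h | h
        · exact (hp j (a j)).one_lt.ne' h
        · exact hkj (hinj _ _ _ _ h).1.symm
        · exact hkj (hinj _ _ _ _ h).1.symm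

theorem exists_min {s : ℕ} {p : Fin s → Fin 2 → ℕ}
    (hp : ∀ j i, (p j i).Prime) (hinj : ∀ j i j' i', p j i = p j' i' → j = j' ∧ i = i')
    (a : Fin s → Fin 2) : ∃ (G : Type) (_ : Group G) (_ : Fintype G), Cl s p a G ∧
      ∀ (H : Subgroup G) (N : Subgroup ↥H) [N.Normal], (H ≠ ⊤ ∨ N ≠ ⊥) →
        Set.range (orderOf : (↥H ⧸ N) → ℕ) ≠ Om s p := by
  classical
  have hex : ∃ n : ℕ, ∃ (G : Type) (_ : Group G) (_ : Fintype G), Cl s p a G ∧
      Nat.card G = n := by
    obtain ⟨G, h1, h2, h3⟩ := exists_cl hp hinj a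
    exact ⟨_, G, h1, h2, h3, rfl⟩
  obtain ⟨G, h1, h2, h3, h4⟩ := Nat.find_spec hex
  refine ⟨G, h1, h2, h3, ?_⟩
  intro H N hN hHN hr
  haveI : Fintype (↥H ⧸ N) := Fintype.ofFinite _
  have hlt : Nat.card (↥H ⧸ N) < Nat.card G := by
    have e1 : Nat.card (↥H ⧸ N) * Nat.card N = Nat.card H := by
      rw [← Subgroup.index_eq_card, Subgroup.index_mul_card]
    have e2 : Nat.card H * H.index = Nat.card G := H.card_mul_index
    have p1 : 0 < Nat.card (↥H ⧸ N) := Nat.card_pos
    have p2 : 0 < Nat.card N := Nat.card_pos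
    have p3 : 0 < Nat.card H := Nat.card_pos
    have p4 : 0 < H.index := Nat.pos_of_ne_zero Subgroup.index_ne_zero_of_finite
    rcases hHN with h | h
    · have : 1 < H.index := by
        rcases Nat.lt_or_ge 1 H.index with h' | h'
        · exact h'
        · exact absurd (Subgroup.index_eq_one.1 (le_antisymm h' p4)) h
      calc Nat.card (↥H ⧸ N) ≤ Nat.card H := by
            rw [← e1]; exact Nat.le_mul_of_pos_right _ p2
        _ < Nat.card H * H.index := lt_mul_of_one_lt_right p3 this
        _ = _ := e2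
    · have : 1 < Nat.card N := by
        rcases Nat.lt_or_ge 1 (Nat.card N) with h' | h'
        · exact h'
        · exact absurd (Subgroup.eq_bot_of_card_eq N (le_antisymm h' p2)) h
      calc Nat.card (↥H ⧸ N) < Nat.card (↥H ⧸ N) * Nat.card N := lt_mul_of_one_lt_right p1 this
        _ = Nat.card H := e1
        _ ≤ Nat.card H * H.index := Nat.le_mul_of_pos_right _ p4
        _ = _ := e2
  apply Nat.find_min hex (m := Nat.card (↥H ⧸ N)) (by rw [← h4]; exact hlt)
  refine ⟨↥H ⧸ N, inferInstance, inferInstance, ⟨hr, fun j => ?_⟩, rfl⟩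
  exact ((h3.2 j).subgroup H).map (QuotientGroup.mk' N) (QuotientGroup.mk'_surjective N)

/-- A finite group is critical with respect to a set Ω of natural numbers when its set of element orders is Ω while no proper section H/N (H a subgroup, N normal in H, (H, N) ≠ (whole group, 1)) has Ω as its set of element orders. Let s ≥ 1 and let p(j,0), p(j,1) (j < s) be 2s pairwise distinct primes, and let Ω be the set of all products c(0)·…·c(s−1) with each c(j) ∈ {1, p(j,0), p(j,1)}. Then there are 2^s pairwise non-isomorphic finite groups critical with respect to Ω. -/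
theorem result (s : ℕ) (hs : 1 ≤ s) (p : Fin s → Fin 2 → ℕ)
    (hp : ∀ j i, (p j i).Prime) (hinj : ∀ j i j' i', p j i = p j' i' → j = j' ∧ i = i') :
    ∃ (G : Fin (2 ^ s) → Type) (_ : ∀ a, Group (G a)) (_ : ∀ a, Fintype (G a)),
      (∀ a b, a ≠ b → ¬ Nonempty (G a ≃* G b)) ∧
      ∀ a, Set.range (orderOf : (G a) → ℕ) = {m : ℕ | ∃ c : Fin s → ℕ, (∀ j, c j = 1 ∨ c j = p j 0 ∨ c j = p j 1) ∧ m = ∏ j, c j} ∧
      ∀ (H : Subgroup (G a)) (N : Subgroup ↥H) [N.Normal], (H ≠ ⊤ ∨ N ≠ ⊥) → Set.range (orderOf : (↥H ⧸ N) → ℕ) ≠ {m : ℕ | ∃ c : Fin s → ℕ, (∀ j, c j = 1 ∨ c j = p j 0 ∨ c j = p j 1) ∧ m = ∏ j, c j} := by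
  have e : Fin (2 ^ s) ≃ (Fin s → Fin 2) := finFunctionFinEquiv.symm
  choose G gG fG hG using fun a => exists_min hp hinj a
  refine ⟨fun a => G (e a), fun a => gG _, fun a => fG _, ?_, ?_⟩
  · rintro a b hab ⟨f⟩
    apply hab
    apply e.injective
    funext j
    by_contra hne
    have h1 : NS (p j (e a j)) (G (e a)) := (hG (e a)).1.2 j
    have h2 : NS (p j (e b j)) (G (e a)) :=
      ((hG (e b)).1.2 j).map f.symm.toMonoidHom f.symm.surjective
    have hmem : ∀ i, p j i ∣ Nat.card (G (e a)) := by
      intro i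
      have : p j i ∈ Set.range (orderOf : G (e a) → ℕ) := by
        rw [(hG (e a)).1.1]
        refine ⟨Function.update (fun _ => 1) j (p j i), ?_, ?_⟩
        · intro k
          by_cases hk : k = j
          · subst hk
            rw [Function.update_self]
            fin_cases i <;> simp
          · rw [Function.update_of_ne hk]
            simp
        · rw [Finset.prod_update_of_mem (Finset.mem_univ j)]
          simp
      obtain ⟨x, hx⟩ := this
      rw [← hx]
      exact orderOf_dvd_natCard x
    have hpne : p j (e a j) ≠ p j (e b j) := fun h => hne (hinj _ _ _ _ h).2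
    obtain ⟨g, hg⟩ := exists_mul (hp _ _) (hp _ _) hpne h1 h2 (hmem _) (hmem _)
    have hgm : orderOf g ∈ Om s p := by
      rw [← (hG (e a)).1.1]
      exact ⟨g, rfl⟩
    have hd : ∀ i, p j i ∣ orderOf g := by
      intro i
      have : i = e a j ∨ i = e b j := by
        generalize e a j = x at hne ⊢
        generalize e b j = y at hne ⊢
        revert i x y
        decide
      rw [hg]
      rcases this with h | h
      · rw [h]; exact dvd_mul_right _ _
      · rw [h]; exact dvd_mul_left _ _
    exact not_dvd hp hinj hgm j (hd 0) (hd 1)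
  · intro a
    exact ⟨(hG (e a)).1.1, (hG (e a)).2⟩

end Cfsg.Agent.S3599
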