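import Cfsg.Statements.S3601
import Cfsg.Agent.S0491
import Cfsg.Agent.H220.SolvCase
import Cfsg.Agent.H220.NonSolv

set_option autoImplicit false
open Cfsg

namespace Cfsg.Agent.S3601

/-- A finite group is critical with respect to a set Ω of natural numbers when its set of element orders is Ω while no proper section has Ω as its set of element orders. A finite group critical with respect to {1, 2, 3, 4, 6, 8, 13} (the set of element orders of SL(3,3) = PSL(3,3)) is isomorphic either to SL(3,3) or to a Frobenius group with elementary abelian kernel of order 13⁴ whose complement H has a unique subgroup Z of order 2 with H/Z isomorphic to the symmetric group of degree 4. -/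
theorem result {G : Type*} [Group G] [Finite G]
    (hcrit : Set.range (orderOf : G → ℕ) = ({1, 2, 3, 4, 6, 8, 13} : Set ℕ) ∧
      ∀ (H : Subgroup G) (N : Subgroup ↥H) [N.Normal], (H ≠ ⊤ ∨ N ≠ ⊥) → Set.range (orderOf : (↥H ⧸ N) → ℕ) ≠ ({1, 2, 3, 4, 6, 8, 13} : Set ℕ)) :
    (∃ (F : Type) (_ : Field F) (_ : Fintype F), Fintype.card F = 3 ∧ Nonempty (G ≃* Matrix.SpecialLinearGroup (Fin 3) F)) ∨
      ∃ (K H : Subgroup G), K.Normal ∧ IsMulCommutative K ∧ (∀ x ∈ K, x ^ 13 = 1) ∧ Nat.card K = 13 ^ 4 ∧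
        K ⊓ H = ⊥ ∧ K ⊔ H = ⊤ ∧ (∀ h ∈ H, h ≠ 1 → ∀ x ∈ K, h * x * h⁻¹ = x → x = 1) ∧
        ∃ (Z : Subgroup ↥H) (_ : Z.Normal), Nat.card Z = 2 ∧ (∀ Z' : Subgroup ↥H, Nat.card Z' = 2 → Z' = Z) ∧
          Nonempty (↥H ⧸ Z ≃* Equiv.Perm (Fin 4)) := by
  classical
  obtain ⟨hrange, hcrit⟩ := hcrit
  have hΩ : ∀ g : G, orderOf g ∈ H220.Spec.Om := by
    intro g
    have h1 : orderOf g ∈ Set.range (orderOf : G → ℕ) := ⟨g, rfl⟩
    rwa [hrange] at h1
  have hex : ∀ n ∈ H220.Spec.Om, ∃ g : G, orderOf g = n := by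
    intro n hn
    have h1 : n ∈ Set.range (orderOf : G → ℕ) := by rw [hrange]; exact hn
    exact h1
  by_cases hsol : Group.IsSolvable G
  · right
    refine H220.Spec.solvable_case hΩ hex ?_
    intro S hS
    by_contra hne
    refine hcrit S ⊥ (Or.inl hne) ?_
    apply Set.Subset.antisymm
    · rintro _ ⟨x, rfl⟩
      obtain ⟨h, rfl⟩ := QuotientGroup.mk'_surjective (⊥ : Subgroup S) x
      apply H220.Spec.mem_Om_of_dvd (hΩ (h : G))
      rw [Subgroup.orderOf_coe]
      exact orderOf_map_dvd _ _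
    · intro n hn
      obtain ⟨s, hs, hsn⟩ := hS n hn
      refine ⟨(QuotientGroup.quotientBot (G := S)).symm ⟨s, hs⟩, ?_⟩
      rw [MulEquiv.orderOf_eq, Subgroup.orderOf_mk, hsn]
  · left
    refine H220.Spec.nonsolv hΩ hcrit ?_ (S0491.result hsol (H220.Spec.primeFactors_card_le hΩ))
    intro F _ _ q hq hq4
    rcases Nat.mod_two_eq_zero_or_one q with h | h
    · exact ⟨2, by rw [S0491.card_psl_even hq hq4 h, mul_comm]⟩
    · exact ⟨1, by rw [S0491.card_psl_odd hq (by omega) h, mul_one]⟩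

end Cfsg.Agent.S3601
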