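import Cfsg.Statements.S3604
import Cfsg.Agent.H407.Main
import Cfsg.Agent.H407.Basic
import Cfsg.Agent.H388.AlmostSimple
import Cfsg.Agent.H395.Coclique
import Cfsg.Agent.OrdDiv.Table
import Cfsg.Agent.S0000
import Cfsg.Agent.S0205
import Cfsg.Agent.S0483

set_option autoImplicit false
open Cfsg

namespace Cfsg.Agent.S3604

open Subgroup Cfsg.Agent.H407

/-- a group with the element orders of `PSL(6, 3)` is not solvable -/
theorem not_solvable {G : Type*} [Group G] [Finite G] (hG : Spec G) : ¬ Group.IsSolvable G := by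
  intro hs
  have hT : Group.IsSolvable (⊤ : Subgroup G) := inferInstance
  have hc : ∀ p : ℕ, p.Prime → p ∈ ({2, 3, 5, 7, 11, 13} : Finset ℕ) → p ∣ Nat.card (⊤ : Subgroup G) := by
    intro p hp h
    rw [Subgroup.card_top]
    exact (hG.prime p hp).2 h
  refine Cfsg.Agent.H395.Coclique.coclique (G := G) (r := 5) (s := 7) (t := 11) (by norm_num) (by norm_num)
    (by norm_num) (by norm_num) (by norm_num) (by norm_num) ?_ ?_ ?_ ⊤ hT (hc 5 (by norm_num) (by decide))
    (hc 7 (by norm_num) (by decide)) ((hG.prime 11 (by norm_num)).2 (by decide))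
  · rintro ⟨x, hx⟩
    exact hG.no35 x (by rw [hx])
  · rintro ⟨x, hx⟩
    exact hG.no11 5 (by decide) x (by rw [hx])
  · rintro ⟨x, hx⟩
    exact hG.no11 7 (by decide) x (by rw [hx])

/-- the theorem over `ZMod 3` -/
theorem main {G : Type*} [Group G] [Finite G] (hG : Spec G) :
    ∃ N : Subgroup G, N.Normal ∧ Nonempty (N ≃* L6) ∧ centralizer (N : Set G) = ⊥ ∧ N.index ≤ 2 := by
  obtain ⟨K, hKn, hKs, hKmax⟩ := Basic.exists_radical (G := G)
  obtain ⟨S, hSn, hSs, hSna, hC⟩ := Cfsg.Agent.H388.AlmostSimple.main (not_solvable hG) (r := 11) (by norm_num)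
    (by norm_num) ((hG.prime 11 (by norm_num)).2 (by decide))
    (fun g hg => hG.no11 2 (by decide) g (by rw [hg])) K hKs hKmax
  have h2 : 2 ∣ Nat.card S := by
    by_contra h
    have h1 : Odd (Nat.card S) := by rwa [← Nat.not_even_iff_odd, even_iff_two_dvd]
    have h3 : Group.IsSolvable S := Cfsg.Agent.S0205.result h1
    exact hSna (isMulCommutative_iff.2 (IsSimpleGroup.comm_iff_isSolvable.2 h3))
  have hperf : Group.IsPerfect S := by
    rw [Group.isPerfect_def]
    refine (hSs.eq_bot_or_eq_top_of_normal (commutator S) inferInstance).resolve_left ?_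
    intro h
    have h3 : Group.IsSolvable S := ⟨1, h⟩
    exact hSna (isMulCommutative_iff.2 (IsSimpleGroup.comm_iff_isSolvable.2 h3))
  exact Main.main hG K hKs S hSna hC h2 Cfsg.Agent.S0000.result Cfsg.Agent.OrdDiv.table
    (fun P n hn hP => Cfsg.Agent.S0483.result P n hn hP)

/-- Let F be the field with 3 elements and L = PSL(6,F), and let H be a finite group with the same set of element orders as L. Then H has a normal subgroup N isomorphic to L, with trivial centralizer in H and of index at most 2. -/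
theorem result {F : Type*} [Field F] [Fintype F] (hF : Fintype.card F = 3)
    {H : Type*} [Group H] [Finite H] (h : Set.range (orderOf : H → ℕ) = Set.range (orderOf : Matrix.ProjectiveSpecialLinearGroup (Fin 6) F → ℕ)) :
    ∃ N : Subgroup H, N.Normal ∧ Nonempty (↥N ≃* Matrix.ProjectiveSpecialLinearGroup (Fin 6) F) ∧ Subgroup.centralizer (N : Set H) = ⊥ ∧ N.index ≤ 2 := by
  have e : Matrix.ProjectiveSpecialLinearGroup (Fin 6) F ≃* L6 := Main.pslEquiv hF 6
  have h1 : Set.range (orderOf : H → ℕ) = Set.range (orderOf : L6 → ℕ) := by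
    rw [h]
    ext n
    constructor
    · rintro ⟨x, rfl⟩
      exact ⟨e x, MulEquiv.orderOf_eq e x⟩
    · rintro ⟨x, rfl⟩
      exact ⟨e.symm x, MulEquiv.orderOf_eq e.symm x⟩
  obtain ⟨N, hN, ⟨f⟩, hC, hi⟩ := main (Spec.congr h1 spec_L)
  exact ⟨N, hN, ⟨f.trans e.symm⟩, hC, hi⟩

end Cfsg.Agent.S3604
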