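import Cfsg.Statements.S3605
import Cfsg.Agent.S3604
import Cfsg.Agent.H450.LSix.Group
import Cfsg.Agent.LieClassical.FieldTransfer

set_option autoImplicit false
open Cfsg

namespace Cfsg.Agent.S3605

open Cfsg.Agent.H407 Cfsg.Agent.H450.LSix

theorem range_congr {G K : Type*} [Group G] [Group K] (e : G ≃* K) :
    Set.range (orderOf : G → ℕ) = Set.range (orderOf : K → ℕ) := by
  ext n
  constructor
  · rintro ⟨x, rfl⟩
    exact ⟨e x, MulEquiv.orderOf_eq e x⟩
  · rintro ⟨x, rfl⟩
    exact ⟨e.symm x, MulEquiv.orderOf_eq e.symm x⟩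

/-- Let F be the field with 3 elements and L = PSL(6,F). Exactly two finite groups, up to isomorphism, have the same set of element orders as L: there is a finite group H₀ with the same set of element orders as L and not isomorphic to L, and every finite group with that set of element orders is isomorphic to L or to H₀. In particular L is not determined by its set of element orders. -/
theorem result {F : Type*} [Field F] [Fintype F] (hF : Fintype.card F = 3) :
    ∃ (H₀ : Type) (_ : Group H₀) (_ : Fintype H₀),
      Set.range (orderOf : H₀ → ℕ) = Set.range (orderOf : Matrix.ProjectiveSpecialLinearGroup (Fin 6) F → ℕ) ∧ ¬ Nonempty (H₀ ≃* Matrix.ProjectiveSpecialLinearGroup (Fin 6) F) ∧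
      ∀ (H : Type) [Group H] [Finite H], Set.range (orderOf : H → ℕ) = Set.range (orderOf : Matrix.ProjectiveSpecialLinearGroup (Fin 6) F → ℕ) →
        Nonempty (H ≃* Matrix.ProjectiveSpecialLinearGroup (Fin 6) F) ∨ Nonempty (H ≃* H₀) := by
  have : Fact (Nat.Prime 3) := ⟨Nat.prime_three⟩
  let e : Matrix.ProjectiveSpecialLinearGroup (Fin 6) F ≃* L6 :=
    Cfsg.Agent.LieClassical.FieldTransfer.pslCongr (ZMod.ringEquivOfPrime F Nat.prime_three hF).symm
  have he := range_congr e
  refine ⟨H0, inferInstance, Fintype.ofFinite H0, ?_, ?_, ?_⟩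
  · rw [he]
    exact range_eq
  · rintro ⟨f⟩
    exact not_iso ⟨f.trans e⟩
  · intro H _ _ hH
    obtain ⟨N, hN, ⟨f⟩, hC, hi⟩ := Cfsg.Agent.S3604.result hF hH
    rcases classify (hH.trans he) N (f.trans e) hC hi with g | g
    · obtain ⟨g⟩ := g
      exact Or.inl ⟨g.trans e.symm⟩
    · exact Or.inr g

end Cfsg.Agent.S3605
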