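import Cfsg.Statements.S3639
import Cfsg.Agent.H426.SzFix
import Cfsg.Agent.S1163

set_option autoImplicit false
open Cfsg

namespace Cfsg.Agent.S3639

/-- Let S be the Suzuki group over the field with q = 2^(2m+1) ≥ 8 elements. Then there are finite groups of arbitrarily large order with the same prime graph as S. -/
theorem result {F : Type*} [Field F] [Fintype F] {m : ℕ} (hm : 1 ≤ m) (hF : Fintype.card F = 2 ^ (2 * m + 1)) (N : ℕ) :
    ∃ (H : Type) (_ : Group H) (_ : Fintype H), N < Fintype.card H ∧ ((∀ r : ℕ, r.Prime → (r ∣ Nat.card ↥(Cfsg.Lie.Sz F (2 ^ (m + 1))) ↔ r ∣ Nat.card H)) ∧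
      (∀ r s : ℕ, r.Prime → s.Prime → r ≠ s → ((∃ x : ↥(Cfsg.Lie.Sz F (2 ^ (m + 1))), orderOf x = r * s) ↔ (∃ y : H, orderOf y = r * s)))) := by
  have h2 : 2 ∣ Nat.card ↥(Cfsg.Lie.Sz F (2 ^ (m + 1))) := by
    rw [(Cfsg.Agent.S1163.result hm hF).1]
    refine Dvd.dvd.mul_right (Dvd.dvd.mul_right ?_ _) _
    rw [← pow_mul]
    exact dvd_pow_self 2 (by omega)
  obtain ⟨K, i1, i2, h1, h3, h4⟩ := Cfsg.Agent.H426.SzFix.exists_large
    (Cfsg.Agent.LieRecognition.SzMatrix.good hF) h2 N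
  let _ : Fintype K := Fintype.ofFinite K
  refine ⟨K, i1, inferInstance, ?_, h3, h4⟩
  rw [← Nat.card_eq_fintype_card]
  exact h1

end Cfsg.Agent.S3639
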