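import Cfsg.Agent.S3725

set_option autoImplicit false
open Cfsg

namespace Cfsg.Agent.S3640

universe u v

/-- equal orders and equal sets of Sylow numbers give equal sets of orders of Sylow normalizers -/
theorem norm_subset {G : Type u} [Group G] [Finite G] {A : Type v} [Group A] [Finite A]
    (hcard : Nat.card G = Nat.card A)
    (hNS : {c : ℕ | ∃ r : ℕ, r.Prime ∧ r ∣ Nat.card G ∧ c = Nat.card (Sylow r G)} ⊆
      {c : ℕ | ∃ r : ℕ, r.Prime ∧ r ∣ Nat.card A ∧ c = Nat.card (Sylow r A)}) :
    {m : ℕ | ∃ p : ℕ, p.Prime ∧ p ∣ Nat.card G ∧ ∃ P : Sylow p G,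
      m = Nat.card ↥(Subgroup.normalizer ((P : Subgroup G) : Set G))} ⊆
    {m : ℕ | ∃ p : ℕ, p.Prime ∧ p ∣ Nat.card A ∧ ∃ P : Sylow p A,
      m = Nat.card ↥(Subgroup.normalizer ((P : Subgroup A) : Set A))} := by
  rintro m ⟨p, hp, hpG, P, rfl⟩
  obtain ⟨r, hr, hrA, hc⟩ := hNS ⟨p, hp, hpG, rfl⟩
  have : Fact p.Prime := ⟨hp⟩
  have : Fact r.Prime := ⟨hr⟩
  obtain ⟨Q⟩ : Nonempty (Sylow r A) := inferInstance
  refine ⟨r, hr, hrA, Q, ?_⟩
  have h1 := (Subgroup.normalizer ((P : Subgroup G) : Set G)).index_mul_card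
  have h2 := (Subgroup.normalizer ((Q : Subgroup A) : Set A)).index_mul_card
  have e1 : Nat.card (Sylow p G) = (Subgroup.normalizer ((P : Subgroup G) : Set G)).index :=
    P.card_eq_index_normalizer
  have e2 : Nat.card (Sylow r A) = (Subgroup.normalizer ((Q : Subgroup A) : Set A)).index :=
    Q.card_eq_index_normalizer
  rw [← e1] at h1
  rw [← e2, ← hc, ← hcard, ← h1] at h2
  have h3 : 0 < Nat.card (Sylow p G) := Nat.card_pos
  exact (Nat.eq_of_mul_eq_mul_left h3 h2).symm

/-- For a finite group X let NS(X) be the set of its Sylow numbers: the numbers of Sylow r-subgroups, r running over the prime divisors of the order of X. Let n ≥ 5 and let G be a finite group with the same order as the alternating group of degree n and with NS(G) equal to NS of that alternating group. Then G is isomorphic to the alternating group of degree n. -/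
theorem result (n : ℕ) (hn : 5 ≤ n) {G : Type*} [Group G] [Finite G] (hcard : Nat.card G = Nat.card (alternatingGroup (Fin n)))
    (hNS : {c : ℕ | ∃ r : ℕ, r.Prime ∧ r ∣ Nat.card G ∧ c = Nat.card (Sylow r G)} = {c : ℕ | ∃ r : ℕ, r.Prime ∧ r ∣ Nat.card (alternatingGroup (Fin n)) ∧ c = Nat.card (Sylow r (alternatingGroup (Fin n)))}) :
    Nonempty (G ≃* alternatingGroup (Fin n)) :=
  Cfsg.Agent.S3725.result n hn
    (Set.Subset.antisymm (norm_subset hcard hNS.subset) (norm_subset hcard.symm hNS.symm.subset))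

end Cfsg.Agent.S3640
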