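import Cfsg.Statements.S3644
import Cfsg.Agent.S0000
import Cfsg.Agent.OrdDiv.Table
import Cfsg.Agent.H417.RecogJanko
-- import your own Cfsg.Agent.* helpers here

set_option autoImplicit false
open Cfsg

namespace Cfsg.Agent.S3644

/-- Let S be one of the Janko groups J₁, J₃, J₄ and G a finite group with the same order as S and whose largest irreducible complex character degree equals that of S. Then G is isomorphic to S. -/
theorem result {S : Type*} [Group S] [Finite S] (hS : Cfsg.Spor.IsoJ1 S ∨ Cfsg.Spor.IsoJ3 S ∨ Cfsg.Spor.IsoJ4 S)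
    {G : Type*} [Group G] [Finite G] (hcard : Nat.card G = Nat.card S)
    (hL : ∃ B : ℝ, ((∃ χ : Cfsg.IrrCharacter G, ‖(χ : G → ℂ) 1‖ = B) ∧ ∀ ψ : Cfsg.IrrCharacter G, ‖(ψ : G → ℂ) 1‖ ≤ B) ∧
      ((∃ χ : Cfsg.IrrCharacter S, ‖(χ : S → ℂ) 1‖ = B) ∧ ∀ ψ : Cfsg.IrrCharacter S, ‖(ψ : S → ℂ) 1‖ ≤ B)) :
    Nonempty (G ≃* S) := by
  exact H417.RecogJanko.main hS OrdDiv.table (fun _ _ _ _ => S0000.result) hcard hL

end Cfsg.Agent.S3644
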