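import Cfsg.Statements.S3645
import Cfsg.Agent.S0000
import Cfsg.Agent.OrdDiv.Table
import Cfsg.Agent.H961.K4
-- import your own Cfsg.Agent.* helpers here

set_option autoImplicit false
open Cfsg

namespace Cfsg.Agent.S3645

/-- Let S be one of the simple groups PSL(2, q) for q ∈ {23, 25, 47, 81}, PSU(3, q) for q ∈ {7, 8, 9}, or the Suzuki group Sz(q) for q ∈ {8, 32}, and let G be a finite group with the same order as S whose character degree graph equals that of S (same primes dividing some irreducible complex character degree, same pairs of distinct primes whose product divides some degree). Then G is isomorphic to S. -/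
theorem result {S : Type*} [Group S] [Finite S]
    (hS : (∃ (F : Type) (_ : Field F) (_ : Fintype F), Fintype.card F ∈ ({23, 25, 47, 81} : Finset ℕ) ∧ Nonempty (S ≃* Matrix.ProjectiveSpecialLinearGroup (Fin 2) F)) ∨
      (∃ (F : Type) (_ : Field F) (_ : Fintype F) (q : ℕ), q ∈ ({7, 8, 9} : Finset ℕ) ∧ Fintype.card F = q ^ 2 ∧ Nonempty (S ≃* Cfsg.PSU 3 F q)) ∨
      (∃ (F : Type) (_ : Field F) (_ : Fintype F) (m : ℕ), m ∈ ({1, 2} : Finset ℕ) ∧ Fintype.card F = 2 ^ (2 * m + 1) ∧ Nonempty (S ≃* ↥(Cfsg.Lie.Sz F (2 ^ (m + 1))))))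
    {G : Type*} [Group G] [Finite G] (hcard : Nat.card G = Nat.card S) (hΔ : Cfsg.degreePrimes G = Cfsg.degreePrimes S ∧ Cfsg.degreeGraph G = Cfsg.degreeGraph S) :
    Nonempty (G ≃* S) := by
  exact Cfsg.Agent.H961.K4.main Cfsg.Agent.OrdDiv.table (fun _ _ _ _ => Cfsg.Agent.S0000.result) hS hcard hΔ.1

end Cfsg.Agent.S3645
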