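import Cfsg.Statements.S3646
import Cfsg.Agent.S0000
import Cfsg.Agent.OrdDiv.Table
import Cfsg.Agent.H418.URecog

set_option autoImplicit false
open Cfsg

namespace Cfsg.Agent.S3646

/-- For a finite group X and a prime r, let deg_X(r) be the number of primes s ≠ r dividing the order of X such that X has an element of order rs (the degree of r in the prime graph). Let F be a field with q² elements and L = PSU(3, q) with q ∈ {31, 37, 43, 47, 49, 59, 61, 64, 73, 89, 97}, or L = PSU(4, q) with q a prime power, 9 ≤ q < 100, realised over F. If G is a finite group with the same order as L and deg_G(r) = deg_L(r) for every prime r, then G is isomorphic to L. -/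
theorem result {F : Type*} [Field F] [Fintype F] (n q : ℕ) (hq : IsPrimePow q) (hq100 : q < 100) (hF : Fintype.card F = q ^ 2)
    (hn : (n = 3 ∧ q ∈ ({31, 37, 43, 47, 49, 59, 61, 64, 73, 89, 97} : Finset ℕ)) ∨ (n = 4 ∧ 9 ≤ q))
    {G : Type*} [Group G] [Finite G] (hcard : Nat.card G = Nat.card (Cfsg.PSU n F q))
    (hD : ∀ r : ℕ, r.Prime → (fun r : ℕ => ({s : ℕ | s.Prime ∧ s ∣ Nat.card G ∧ s ≠ r ∧ ∃ x : G, orderOf x = r * s} : Set ℕ).ncard) r = (fun r : ℕ => ({s : ℕ | s.Prime ∧ s ∣ Nat.card (Cfsg.PSU n F q) ∧ s ≠ r ∧ ∃ x : (Cfsg.PSU n F q), orderOf x = r * s} : Set ℕ).ncard) r) :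
    Nonempty (G ≃* Cfsg.PSU n F q) := by
  rcases hn with ⟨rfl, hq3⟩ | ⟨rfl, h9⟩
  · exact H418.URecog.of_row3 OrdDiv.table (fun S _ _ _ => Cfsg.Agent.S0000.result) hF
      (H418.URecog.row3_all hq3) hcard hD
  · exact H418.URecog.of_row4 OrdDiv.table (fun S _ _ _ => Cfsg.Agent.S0000.result) hF
      (H418.URecog.row4_all h9 hq100 hq) hcard hD

end Cfsg.Agent.S3646
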