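import Cfsg.Statements.S3647
import Cfsg.Agent.S0000
import Cfsg.Agent.OrdDiv.Table
import Cfsg.Agent.H418.AltMain

set_option autoImplicit false
open Cfsg

namespace Cfsg.Agent.S3647

/-- For a finite group X and a prime r, let deg_X(r) be the number of primes s ≠ r dividing the order of X such that X has an element of order rs. Let n ≥ 5 with n ≠ 10 be such that one of n, n − 1, n − 2, n − 3 is prime, and let G be a finite group with the same order as the alternating group of degree n and with deg_G(r) = deg(r) computed in that alternating group, for every prime r. Then G is isomorphic to the alternating group of degree n. -/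
theorem result (n : ℕ) (hn : 5 ≤ n) (hn10 : n ≠ 10) (hp : ∃ p : ℕ, p.Prime ∧ p ≤ n ∧ n ≤ p + 3)
    {G : Type*} [Group G] [Finite G] (hcard : Nat.card G = Nat.card (alternatingGroup (Fin n)))
    (hD : ∀ r : ℕ, r.Prime → (fun r : ℕ => ({s : ℕ | s.Prime ∧ s ∣ Nat.card G ∧ s ≠ r ∧ ∃ x : G, orderOf x = r * s} : Set ℕ).ncard) r = (fun r : ℕ => ({s : ℕ | s.Prime ∧ s ∣ Nat.card (alternatingGroup (Fin n)) ∧ s ≠ r ∧ ∃ x : (alternatingGroup (Fin n)), orderOf x = r * s} : Set ℕ).ncard) r) :
    Nonempty (G ≃* alternatingGroup (Fin n)) := by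
  exact Cfsg.Agent.H418.AltMain.main Cfsg.Agent.OrdDiv.table (fun S _ _ _ => Cfsg.Agent.S0000.result) hn hn10 hp hcard
    (fun r hr => hD r hr)

end Cfsg.Agent.S3647
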