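import Cfsg.Statements.S3648
import Cfsg.Agent.H418.PglRecog
import Cfsg.Agent.H418.PglNse

set_option autoImplicit false
open Cfsg

namespace Cfsg.Agent.S3648

open Cfsg.Agent.H418 in
/-- For a finite group X let nse(X) be the set of values of the function 'number of elements of order k' over the element orders k that occur. Let F be a finite field of odd order q > 3 and P = PGL(2, F) = GL(2, F) modulo its centre. If G is a finite group with the same order as P and nse(G) = nse(P), then G is isomorphic to P. -/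
theorem result {F : Type*} [Field F] [Fintype F] (hodd : Odd (Fintype.card F)) (h3 : 3 < Fintype.card F)
    {G : Type*} [Group G] [Finite G] (hcard : Nat.card G = Nat.card (GL (Fin 2) F ⧸ Subgroup.center (GL (Fin 2) F)))
    (hnse : {c : ℕ | 0 < c ∧ ∃ n : ℕ, c = Nat.card {g : G // orderOf g = n}} = {c : ℕ | 0 < c ∧ ∃ n : ℕ, c = Nat.card {g : (GL (Fin 2) F ⧸ Subgroup.center (GL (Fin 2) F)) // orderOf g = n}}) :
    Nonempty (G ≃* (GL (Fin 2) F ⧸ Subgroup.center (GL (Fin 2) F))) := by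
  obtain ⟨p, f, hp, hf, hq⟩ := (isPrimePow_nat_iff (Fintype.card F)).1 Fintype.isPrimePow_card_of_field
  have hpF : Fact p.Prime := ⟨hp⟩
  have hchar : CharP F p := by
    obtain ⟨p', hp'⟩ := CharP.exists F
    have hp'p : p'.Prime := CharP.char_is_prime F p'
    obtain ⟨n, hn, hn'⟩ := FiniteField.card F p'
    have h1 : p' = p := by
      have h2 : p' ∣ p ^ f := by
        rw [hq, hn']
        exact dvd_pow_self p' n.pos.ne'
      exact (Nat.prime_dvd_prime_iff_eq hp'p hp).1 (hp'p.dvd_of_dvd_pow h2)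
    rw [← h1]
    exact hp'
  have hp2 : p ≠ 2 := by
    rintro rfl
    rw [← hq] at hodd
    exact (Nat.not_even_iff_odd.2 hodd) ((even_two).pow_of_ne_zero hf.ne')
  have h2 : (2 : F) ≠ 0 := by
    intro h
    have h4 : ((2 : ℕ) : F) = 0 := by exact_mod_cast h
    rw [CharP.cast_eq_zero_iff F p] at h4
    exact hp2 ((Nat.prime_dvd_prime_iff_eq hp Nat.prime_two).1 h4)
  have hG : Nat.card G = Fintype.card F * (Fintype.card F ^ 2 - 1) := hcard.trans (PglNse.card_pgl (F := F))
  -- the number of elements of given order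
  have hmem : ∀ n, Nse.co G n ≠ 0 → ∃ m, Nse.co G n = Nse.co (Matrix.ProjGenLinGroup (Fin 2) F) m := by
    intro n hn
    have h4 : Nse.co G n ∈ {c : ℕ | 0 < c ∧ ∃ n : ℕ, c = Nat.card {g : G // orderOf g = n}} :=
      ⟨Nat.pos_of_ne_zero hn, n, rfl⟩
    rw [hnse] at h4
    obtain ⟨-, m, hm⟩ := h4
    exact ⟨m, hm⟩
  have h1 : ∀ n, Nse.co G n ≠ 1 → Nse.co G n ≠ Fintype.card F ^ 2 - 1 → Fintype.card F ∣ Nse.co G n := by
    intro n hn1 hn2
    by_cases hn : Nse.co G n = 0
    · rw [hn]; exact dvd_zero _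
    obtain ⟨m, hm⟩ := hmem n hn
    rw [hm] at hn1 hn2 ⊢
    have hm1 : m ≠ 1 := by
      rintro rfl
      exact hn1 (Nse.co_one _)
    have hmp : m ≠ p := by
      rintro rfl
      exact hn2 (PglNse.co_p _ f hp hp2 hf.ne' hq.symm)
    exact PglNse.dvd_co p hp hm1 hmp
  have h2G : Nse.co G 2 = Fintype.card F ^ 2 := by
    have h4 : Fintype.card F ^ 2 ∈ {c : ℕ | 0 < c ∧ ∃ n : ℕ, c = Nat.card {g : (GL (Fin 2) F ⧸ Subgroup.center (GL (Fin 2) F)) // orderOf g = n}} :=
      ⟨by positivity, 2, (PglNse.co_two (F := F) h2).symm⟩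
    rw [← hnse] at h4
    obtain ⟨-, n, hn⟩ := h4
    have hn' : Nse.co G n = Fintype.card F ^ 2 := hn.symm
    rcases Nse.le_two_of_odd G (n := n) (by rw [hn']; exact hodd.pow) with h5 | h5
    · rw [h5, Nse.co_one] at hn'
      nlinarith
    · rw [h5] at hn'
      exact hn'
  obtain ⟨hord, hcp⟩ := Nse.arith (G := G) hp hp2 hf.ne' hq.symm hG h1 h2G
  have hyp : PglRecog.Hyp G p f (Fintype.card F) := ⟨hp, hp2, hf.ne', hq.symm, hG, hord, hcp, h2G⟩
  obtain ⟨K, iK, iK', hK, ⟨e⟩⟩ := PglRecog.main hyp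
  obtain ⟨e2⟩ := PglNse.pgl_congr (FiniteField.ringEquivOfCardEq hK) 2
  exact ⟨e.trans e2⟩

end Cfsg.Agent.S3648
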