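import Cfsg.Statements.S3654
import Cfsg.Agent.H420.OrderGraphEight
import Cfsg.Agent.OrdDiv.Table
import Cfsg.Agent.S0000

set_option autoImplicit false
open Cfsg

namespace Cfsg.Agent.S3654

/-- Let F be the field with 3 elements and L = PΩ⁺(8, F). A finite group with the same order and the same prime graph as L (same prime divisors of the order; for distinct primes r, s an element of order rs in one iff in the other) is isomorphic to L. -/
theorem result {F : Type*} [Field F] [Fintype F] (hF : Fintype.card F = 3) {G : Type*} [Group G] [Finite G]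
    (hcard : Nat.card G = Nat.card (Cfsg.POmega F (Cfsg.quadFormPlus 4 F))) (h : ((∀ r : ℕ, r.Prime → (r ∣ Nat.card (Cfsg.POmega F (Cfsg.quadFormPlus 4 F)) ↔ r ∣ Nat.card G)) ∧
      (∀ r s : ℕ, r.Prime → s.Prime → r ≠ s → ((∃ x : (Cfsg.POmega F (Cfsg.quadFormPlus 4 F)), orderOf x = r * s) ↔ (∃ y : G, orderOf y = r * s))))) :
    Nonempty (G ≃* Cfsg.POmega F (Cfsg.quadFormPlus 4 F)) := by
  obtain ⟨F', i1, i2, hF', ⟨e⟩⟩ := Cfsg.Agent.H420.OrderGraphEight.result Cfsg.Agent.OrdDiv.table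
    (fun X _ _ _ => Cfsg.Agent.S0000.result) (G := G)
    (by rw [hcard, Cfsg.Agent.H420.OrderGraphEight.card_L hF])
    (fun y hy => by
      obtain ⟨x, hx⟩ := (h.2 7 13 (by norm_num) (by norm_num) (by norm_num)).2 ⟨y, hy⟩
      exact Cfsg.Agent.H420.DFourThree.nonAdj_seven_thirteen hF x hx)
    (fun y hy => by
      obtain ⟨x, hx⟩ := (h.2 5 13 (by norm_num) (by norm_num) (by norm_num)).2 ⟨y, hy⟩
      exact Cfsg.Agent.H420.DFourThree.nonAdj_five_thirteen hF x hx)
    (fun y hy => by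
      obtain ⟨x, hx⟩ := (h.2 3 7 (by norm_num) (by norm_num) (by norm_num)).2 ⟨y, hy⟩
      exact Cfsg.Agent.H420.DFourThree.nonAdj_three_seven hF x hx)
  obtain ⟨e'⟩ := Cfsg.Agent.H420.OrderGraphEight.equiv_L hF' hF
  exact ⟨e.trans e'⟩

end Cfsg.Agent.S3654
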