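import Cfsg.Statements.S3662
import Cfsg.Agent.H426.G24Fix

set_option autoImplicit false
open Cfsg

namespace Cfsg.Agent.S3662

/-- The prime graph of a finite group has the prime divisors of its order as vertices, two distinct primes p, q being joined when the group has an element of order pq; two groups have the same prime graph when they have the same prime divisors and the same joined pairs. Let F be the field with 4 elements and L the Chevalley group of type G₂ over F. There are finite groups of arbitrarily large order with the same prime graph as L. -/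
theorem result {F : Type*} [Field F] [Fintype F] (hF : Fintype.card F = 4) (N : ℕ) :
    ∃ (H : Type) (_ : Group H) (_ : Finite H), N < Nat.card H ∧
      ((∀ p : ℕ, p.Prime → (p ∣ Nat.card ↥(Cfsg.Lie.chevG2.group F) ↔ p ∣ Nat.card H)) ∧
      (∀ p q : ℕ, p.Prime → q.Prime → p ≠ q → ((∃ g : ↥(Cfsg.Lie.chevG2.group F), orderOf g = p * q) ↔ (∃ g : H, orderOf g = p * q)))) := by
  obtain ⟨e⟩ := Cfsg.Agent.StdG24.Iso6.equiv_chev F hF
  obtain ⟨H, i1, i2, h1, h2, h3⟩ := Cfsg.Agent.H426.G24Fix.exists_large_L N
  refine ⟨H, i1, i2, h1, ?_, ?_⟩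
  · intro p hp
    rw [← Nat.card_congr e.toEquiv]
    exact h2 p hp
  · intro p q hp hq hpq
    rw [← h3 p q hp hq hpq]
    constructor
    · rintro ⟨g, hg⟩
      exact ⟨e.symm g, by rw [MulEquiv.orderOf_eq, hg]⟩
    · rintro ⟨g, hg⟩
      exact ⟨e g, by rw [MulEquiv.orderOf_eq, hg]⟩

end Cfsg.Agent.S3662
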