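import Cfsg.Statements.S3670
import Cfsg.Agent.H424.Affine
import Cfsg.Agent.H424.U33Degrees

set_option autoImplicit false
open Cfsg

namespace Cfsg.Agent.S3670

open Cfsg.Agent.H424.DegTools Cfsg.Agent.H424.U33Degrees Cfsg.Agent.H424.Affine
open Cfsg.Agent.Classification.RTwo.UThreeThree

theorem prime_cases {p : ℕ} (hp : p.Prime) (h1 : p ∣ 6048) : p = 2 ∨ p = 3 ∨ p = 7 := by
  rw [show 6048 = 2 ^ 5 * 3 ^ 3 * 7 by norm_num] at h1
  rcases hp.dvd_mul.1 h1 with h2 | h2
  · rcases hp.dvd_mul.1 h2 with h3 | h3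
    · exact Or.inl ((Nat.prime_dvd_prime_iff_eq hp Nat.prime_two).1 (hp.dvd_of_dvd_pow h3))
    · exact Or.inr (Or.inl ((Nat.prime_dvd_prime_iff_eq hp Nat.prime_three).1
        (hp.dvd_of_dvd_pow h3)))
  · exact Or.inr (Or.inr ((Nat.prime_dvd_prime_iff_eq hp (by norm_num)).1 h2))

theorem vert {C : Type*} [Group C] [Finite C] (hC : Nat.card C = 6048)
    (h6 : ∃ d ∈ charDegrees C, 2 * 3 ∣ d) (h14 : ∃ d ∈ charDegrees C, 2 * 7 ∣ d) (p : ℕ) :
    p ∈ degreePrimes C ↔ p = 2 ∨ p = 3 ∨ p = 7 := by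
  rw [mem_degreePrimes]
  constructor
  · rintro ⟨hp, d, hd, hpd⟩
    exact prime_cases hp (hC ▸ hpd.trans (H424.DegTools.dvd_card hd))
  · obtain ⟨d, hd, h⟩ := h6
    obtain ⟨d', hd', h'⟩ := h14
    rintro (rfl | rfl | rfl)
    · exact ⟨by norm_num, d, hd, (dvd_mul_right 2 3).trans h⟩
    · exact ⟨by norm_num, d, hd, (dvd_mul_left 3 2).trans h⟩
    · exact ⟨by norm_num, d', hd', (dvd_mul_left 7 2).trans h'⟩

theorem adj {C : Type*} [Group C] [Finite C] (hC : Nat.card C = 6048)
    (h6 : ∃ d ∈ charDegrees C, 2 * 3 ∣ d) (h14 : ∃ d ∈ charDegrees C, 2 * 7 ∣ d)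
    (h21 : ∃ d ∈ charDegrees C, 3 * 7 ∣ d) (p q : ℕ) : (degreeGraph C).Adj p q ↔
      p ≠ q ∧ (p = 2 ∨ p = 3 ∨ p = 7) ∧ (q = 2 ∨ q = 3 ∨ q = 7) := by
  rw [adj_iff]
  constructor
  · rintro ⟨hne, hp, hq, d, hd, hpq⟩
    have h1 := hpq.trans (H424.DegTools.dvd_card hd)
    rw [hC] at h1
    exact ⟨hne, prime_cases hp ((dvd_mul_right p q).trans h1),
      prime_cases hq ((dvd_mul_left q p).trans h1)⟩
  · rintro ⟨hne, (rfl | rfl | rfl), (rfl | rfl | rfl)⟩
    · exact absurd rfl hne
    · exact ⟨hne, by norm_num, by norm_num, h6⟩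
    · exact ⟨hne, by norm_num, by norm_num, h14⟩
    · exact ⟨hne, by norm_num, by norm_num, h6⟩
    · exact absurd rfl hne
    · exact ⟨hne, by norm_num, by norm_num, h21⟩
    · exact ⟨hne, by norm_num, by norm_num, h14⟩
    · exact ⟨hne, by norm_num, by norm_num, h21⟩
    · exact absurd rfl hne

/-- Groups of order 6048 with degrees divisible by 6, 14 and 21 have the same degree graph. -/
theorem graph_eq {A B : Type*} [Group A] [Finite A] [Group B] [Finite B]
    (hA : Nat.card A = 6048) (hB : Nat.card B = 6048)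
    (a6 : ∃ d ∈ charDegrees A, 2 * 3 ∣ d) (a14 : ∃ d ∈ charDegrees A, 2 * 7 ∣ d)
    (a21 : ∃ d ∈ charDegrees A, 3 * 7 ∣ d)
    (b6 : ∃ d ∈ charDegrees B, 2 * 3 ∣ d) (b14 : ∃ d ∈ charDegrees B, 2 * 7 ∣ d)
    (b21 : ∃ d ∈ charDegrees B, 3 * 7 ∣ d) :
    degreePrimes A = degreePrimes B ∧ degreeGraph A = degreeGraph B := by
  constructor
  · ext p
    rw [vert hA a6 a14, vert hB b6 b14]
  · ext p q
    rw [adj hA a6 a14 a21, adj hB b6 b14 b21]

/-- The character degree graph of a finite group has as vertices the primes dividing some irreducible complex character degree, two distinct primes being joined when their product divides some irreducible character degree; two groups have the same character degree graph when they have the same vertices and the same joined pairs. Let F be the field with 9 elements and L = PSU(3,3) realised over F (order 6048). There is a finite solvable group of order 6048 with the same character degree graph as L; so L is not determined by its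 order together with its character degree graph. -/
theorem result {F : Type*} [Field F] [Fintype F] (hF : Fintype.card F = 9) :
    ∃ (H : Type) (_ : Group H) (_ : Fintype H), Group.IsSolvable H ∧ Nat.card H = 6048 ∧ Cfsg.degreePrimes H = Cfsg.degreePrimes (Cfsg.PSU 3 F 3) ∧ Cfsg.degreeGraph H = Cfsg.degreeGraph (Cfsg.PSU 3 F 3) := by
  have hcard : Fintype.card F = Fintype.card K9 := by rw [hF, card_k9]
  obtain ⟨e⟩ : Nonempty (F ≃+* K9) := ⟨FiniteField.ringEquivOfCardEq hcard⟩
  have e' := (psuEquiv hF).trans (LieClassical.FieldTransfer.suCongr 3 3 e)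
  rw [degreePrimes_congr e', degreeGraph_congr e']
  have h6 : ∃ d ∈ charDegrees H6048, 2 * 3 ∣ d := ⟨42, mem_degrees_H, by norm_num⟩
  have h14 : ∃ d ∈ charDegrees H6048, 2 * 7 ∣ d := ⟨42, mem_degrees_H, by norm_num⟩
  have h21 : ∃ d ∈ charDegrees H6048, 3 * 7 ∣ d := ⟨42, mem_degrees_H, by norm_num⟩
  obtain ⟨h1, h2⟩ := graph_eq (A := H6048) (B := Cfsg.SU 3 K9 3) card_H card_SU h6 h14 h21
    six fourteen twentyone
  exact ⟨H6048, inferInstance, Fintype.ofFinite _, isSolvable_H, card_H, h1, h2⟩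

end Cfsg.Agent.S3670
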