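import Cfsg.Statements.S3680
import Cfsg.Agent.H427.Socle
import Cfsg.Agent.S0721

set_option autoImplicit false
open Cfsg

namespace Cfsg.Agent.S3680

/-- The socle of a finite primitive permutation group. Let a finite group G act faithfully and primitively on a set Ω, and let N be the subgroup generated by the minimal normal subgroups of G. Then either N is an elementary abelian p-group for some prime p and acts regularly on Ω (transitively with trivial point stabilizers), or N is isomorphic to a direct product of m ≥ 1 copies of a non-abelian simple group. -/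
theorem result {G Ω : Type*} [Group G] [Finite G] [MulAction G Ω] [FaithfulSMul G Ω] [Finite Ω]
    (hprim : MulAction.IsPreprimitive G Ω) (N : Subgroup G)
    (hN : N = sSup {V : Subgroup G | V.Normal ∧ V ≠ ⊥ ∧ ∀ M : Subgroup G, M.Normal → M ≤ V → M = ⊥ ∨ M = V}) :
    (∃ p : ℕ, p.Prime ∧ IsMulCommutative N ∧ (∀ x : N, x ^ p = 1) ∧
      MulAction.IsPretransitive N Ω ∧ ∀ ω : Ω, MulAction.stabilizer N ω = ⊥) ∨
    (∃ (T : Type) (_ : Group T) (m : ℕ), 1 ≤ m ∧ IsSimpleGroup T ∧ ¬ IsMulCommutative T ∧ Nonempty (N ≃* (Fin m → T))) := by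
  classical
  rcases subsingleton_or_nontrivial Ω with hΩ | hΩ
  · -- degenerate case
    left
    have hG : ∀ g : G, g = 1 := fun g =>
      FaithfulSMul.eq_of_smul_eq_smul (α := Ω) fun ω => Subsingleton.elim _ _
    have hGs : Subsingleton G := ⟨fun x y => by rw [hG x, hG y]⟩
    refine ⟨2, Nat.prime_two, ⟨⟨fun x y => Subsingleton.elim _ _⟩⟩, fun x => Subsingleton.elim _ _,
      ⟨fun x y => ⟨1, Subsingleton.elim _ _⟩⟩, fun ω => Subsingleton.elim _ _⟩
  set S : Set (Subgroup G) :=
    {V : Subgroup G | V.Normal ∧ V ≠ ⊥ ∧ ∀ M : Subgroup G, M.Normal → M ≤ V → M = ⊥ ∨ M = V} with hS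
  have hG : Nontrivial G := by
    obtain ⟨a, b, hab⟩ := hΩ
    obtain ⟨g, hg⟩ := MulAction.exists_smul_eq G a b
    exact ⟨1, g, by rintro rfl; rw [one_smul] at hg; exact hab hg⟩
  -- a minimal normal subgroup
  obtain ⟨M, hM⟩ : ∃ M, M ∈ S := by
    obtain ⟨M, ⟨hMn, hMb⟩, hmin⟩ := Set.Finite.exists_minimal
      (s := {V : Subgroup G | V.Normal ∧ V ≠ ⊥}) (Set.toFinite _) ⟨⊤, inferInstance, top_ne_bot⟩
    refine ⟨M, hMn, hMb, fun V hV hVM => ?_⟩
    by_cases h : V = ⊥
    · exact Or.inl h
    · exact Or.inr (le_antisymm hVM (hmin ⟨hV, h⟩ hVM))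
  have hMS := hM
  obtain ⟨hMn, hMb, hMmin⟩ := hM
  -- normal subgroups are transitive
  have htrans : ∀ V : Subgroup G, V.Normal → V ≠ ⊥ → MulAction.IsPretransitive V Ω := by
    intro V hV hVb
    obtain ⟨a⟩ : Nonempty Ω := inferInstance
    apply MulAction.IsQuasiPreprimitive.isPretransitive_of_normal (G := G)
    intro h
    apply hVb
    apply Cfsg.Agent.H427.normal_le_stabilizer_eq_bot _ a
    intro x hx
    have : a ∈ MulAction.fixedPoints V Ω := by rw [h]; trivial
    exact this ⟨x, hx⟩
  set C : Subgroup G := Subgroup.centralizer (M : Set G) with hC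
  have hCn : C.Normal := by rw [hC]; infer_instance
  have hcomm : ∀ m ∈ M, ∀ c ∈ C, m * c = c * m := fun m hm c hc =>
    Subgroup.mem_centralizer_iff.mp hc m hm
  -- other minimal normal subgroups centralise `M`
  have hother : ∀ V ∈ S, V ≠ M → V ≤ C := by
    intro V hV hVM
    obtain ⟨hVn, hVb, hVmin⟩ := hV
    have hinf : V ⊓ M = ⊥ := by
      rcases hMmin (V ⊓ M) inferInstance inf_le_right with h | h
      · exact h
      · rcases hVmin (V ⊓ M) inferInstance inf_le_left with h' | h'
        · exact h'
        · exact absurd (h'.symm.trans h) hVM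
    intro v hv
    rw [hC, Subgroup.mem_centralizer_iff]
    intro m hm
    have h1 := Subgroup.commute_of_normal_of_disjoint V M hVn hMn (disjoint_iff.mpr hinf) v m hv hm
    exact h1.symm.eq
  obtain ⟨T, instT, k, hTs, hk, ⟨e⟩⟩ := Cfsg.Agent.S0721.result M hMb hMmin
  have hTcomm : IsMulCommutative T → IsMulCommutative M := by
    intro h
    refine ⟨⟨fun x y => e.injective ?_⟩⟩
    rw [map_mul, map_mul]
    funext i
    exact h.is_comm.comm _ _
  by_cases hCb : C = ⊥
  · -- unique minimal normal subgroup, trivial centraliser
    right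
    have hNM : N = M := by
      rw [hN]
      apply le_antisymm
      · apply sSup_le
        intro V hV
        by_cases hVM : V = M
        · exact hVM.le
        · exact absurd (le_bot_iff.mp (hCb ▸ hother V hV hVM)) hV.2.1
      · exact le_sSup hMS
    refine ⟨T, instT, k, hk, hTs, fun h => ?_, ⟨(MulEquiv.subgroupCongr hNM).trans e⟩⟩
    have h1 := hTcomm h
    apply hMb
    rw [← le_bot_iff, ← hCb, hC]
    intro x hx
    rw [Subgroup.mem_centralizer_iff]
    intro y hy
    exact congrArg Subtype.val (h1.is_comm.comm ⟨y, hy⟩ ⟨x, hx⟩)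
  · -- `M` and `C` are regular
    have hMt := htrans M hMn hMb
    have hCt := htrans C hCn hCb
    have hMreg : ∀ m ∈ M, ∀ ω : Ω, m • ω = ω → m = 1 := fun m hm ω h =>
      Cfsg.Agent.H427.semiregular_of_commute M C hcomm m hm ω h
    have hCreg : ∀ c ∈ C, ∀ ω : Ω, c • ω = ω → c = 1 := fun c hc ω h =>
      Cfsg.Agent.H427.semiregular_of_commute C M (fun c hc m hm => (hcomm m hm c hc).symm) c hc ω h
    have hVC : ∀ V ∈ S, V ≠ M → V = C := by
      intro V hV hVM
      have := htrans V hV.1 hV.2.1
      exact Cfsg.Agent.H427.eq_of_le_of_transitive V C (hother V hV hVM) hCreg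
    by_cases hMc : IsMulCommutative M
    · left
      have hMC : M = C := by
        apply Cfsg.Agent.H427.eq_of_le_of_transitive M C _ hCreg
        intro x hx
        rw [hC, Subgroup.mem_centralizer_iff]
        intro y hy
        exact congrArg Subtype.val (hMc.is_comm.comm ⟨y, hy⟩ ⟨x, hx⟩)
      have hNM : N = M := by
        rw [hN]
        apply le_antisymm
        · apply sSup_le
          intro V hV
          by_cases hVM : V = M
          · exact hVM.le
          · exact ((hVC V hV hVM).trans hMC.symm).le
        · exact le_sSup hMS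
      subst hNM
      have hTc : IsMulCommutative T := by
        refine ⟨⟨fun x y => ?_⟩⟩
        have h1 := hMc.is_comm.comm (e.symm (fun _ => x)) (e.symm (fun _ => y))
        rw [← map_mul, ← map_mul] at h1
        exact congrFun (e.symm.injective h1) ⟨0, hk⟩
      letI : CommGroup T := { instT with mul_comm := hTc.is_comm.comm }
      haveI : IsSimpleGroup T := hTs
      refine ⟨Nat.card T, IsSimpleGroup.prime_card, hMc, fun x => ?_, hMt, fun ω => ?_⟩
      · apply e.injective
        rw [map_pow, map_one]
        funext i
        exact pow_card_eq_one'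
      · rw [Subgroup.eq_bot_iff_forall]
        intro x hx
        exact Subtype.ext (hMreg x x.2 ω hx)
    · right
      have hTnc : ¬ IsMulCommutative T := fun h => hMc (hTcomm h)
      by_cases hall : ∀ V ∈ S, V = M
      · have hNM : N = M := by
          rw [hN]
          exact le_antisymm (sSup_le fun V hV => (hall V hV).le) (le_sSup hMS)
        exact ⟨T, instT, k, hk, hTs, hTnc, ⟨(MulEquiv.subgroupCongr hNM).trans e⟩⟩
      · push Not at hall
        obtain ⟨V, hV, hVM⟩ := hall
        have hVC' := hVC V hV hVM
        have hNMC : N = M ⊔ C := by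
          rw [hN]
          apply le_antisymm
          · apply sSup_le
            intro W hW
            by_cases hWM : W = M
            · rw [hWM]; exact le_sup_left
            · rw [hVC W hW hWM]; exact le_sup_right
          · apply sup_le (le_sSup hMS)
            rw [← hVC']
            exact le_sSup hV
        have hinf : M ⊓ C = ⊥ := by
          rcases hMmin (M ⊓ C) inferInstance inf_le_left with h | h
          · exact h
          · exfalso
            apply hMc
            rw [inf_eq_left] at h
            exact ⟨⟨fun x y => Subtype.ext (hcomm x x.2 y (h y.2))⟩⟩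
        obtain ⟨f⟩ := Cfsg.Agent.H427.nonempty_prod_mulEquiv_sup M C hcomm hinf
        obtain ⟨g⟩ := Cfsg.Agent.H427.nonempty_mulEquiv_of_regular M C hcomm hMreg hCreg
        have e2 : (Fin k → T) × (Fin k → T) ≃* (Fin (k + k) → T) :=
          { (Fin.appendEquiv k k : (Fin k → T) × (Fin k → T) ≃ (Fin (k + k) → T)) with
            map_mul' := by
              rintro ⟨a, b⟩ ⟨a', b'⟩
              funext i
              refine Fin.addCases (fun j => ?_) (fun j => ?_) i
              · change Fin.append (a * a') (b * b') (Fin.castAdd k j) =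
                  Fin.append a b (Fin.castAdd k j) * Fin.append a' b' (Fin.castAdd k j)
                rw [Fin.append_left, Fin.append_left, Fin.append_left]
                rfl
              · change Fin.append (a * a') (b * b') (Fin.natAdd k j) =
                  Fin.append a b (Fin.natAdd k j) * Fin.append a' b' (Fin.natAdd k j)
                rw [Fin.append_right, Fin.append_right, Fin.append_right]
                rfl }
        refine ⟨T, instT, k + k, by omega, hTs, hTnc, ⟨(MulEquiv.subgroupCongr hNMC).trans
          (f.symm.trans ((MulEquiv.prodCongr e (g.symm.trans e)).trans e2))⟩⟩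

end Cfsg.Agent.S3680
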