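import Cfsg.Statements.S3683
import Cfsg.Agent.H427.PrimBasic

set_option autoImplicit false
open Cfsg

namespace Cfsg.Agent.S3683

/-- Let a finite group G act faithfully and primitively on a set Ω, and suppose the stabilizer of a point a fixes a second point b ≠ a (a suborbit of length 1 other than {a}). Then the stabilizer of a is trivial and G is cyclic of prime order. -/
theorem result {G Ω : Type*} [Group G] [Finite G] [MulAction G Ω] [FaithfulSMul G Ω] [Finite Ω]
    (hprim : MulAction.IsPreprimitive G Ω) (a b : Ω) (hab : a ≠ b) (hfix : ∀ g : G, g • a = a → g • b = b) :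
    MulAction.stabilizer G a = ⊥ ∧ IsCyclic G ∧ (Nat.card G).Prime := by
  have : Nontrivial Ω := ⟨a, b, hab⟩
  have hco := MulAction.IsPreprimitive.isCoatom_stabilizer_of_isPreprimitive G a
  have hle : MulAction.stabilizer G a ≤ MulAction.stabilizer G b := fun g hg => hfix g hg
  have hcob := MulAction.IsPreprimitive.isCoatom_stabilizer_of_isPreprimitive G b
  have heq : MulAction.stabilizer G a = MulAction.stabilizer G b := by
    rcases eq_or_lt_of_le hle with h | h
    · exact h
    · exact absurd (hco.2 _ h) hcob.1
  have hbot : MulAction.stabilizer G a = ⊥ := by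
    by_contra hne
    obtain ⟨g, hg⟩ := MulAction.exists_smul_eq G a b
    have hn := Cfsg.Agent.H427.normalizer_eq_stabilizer a (MulAction.stabilizer G a) hne le_rfl
      Subgroup.le_normalizer
    have hgn : g ∈ Subgroup.normalizer ((MulAction.stabilizer G a : Subgroup G) : Set G) := by
      rw [Subgroup.mem_normalizer_iff]
      intro x
      have h1 : g * x * g⁻¹ ∈ MulAction.stabilizer G b ↔ x ∈ MulAction.stabilizer G a := by
        rw [MulAction.mem_stabilizer_iff, MulAction.mem_stabilizer_iff, ← hg]
        rw [mul_smul, mul_smul, inv_smul_smul]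
        exact smul_left_cancel_iff g
      rw [← h1, heq]
    rw [hn, MulAction.mem_stabilizer_iff] at hgn
    exact hab (hgn.symm.trans hg)
  refine ⟨hbot, ?_⟩
  rw [hbot] at hco
  exact Cfsg.Agent.H427.prime_card_of_isCoatom_bot hco

end Cfsg.Agent.S3683
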