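import Cfsg.Statements.S3696
import Mathlib.Analysis.MeanInequalities

set_option autoImplicit false
open Cfsg

namespace Cfsg.Agent.S3696

/-- Weighted arithmetic–geometric mean inequality for natural numbers. -/
theorem amgm (a b x y : ℕ) : a ^ x * b ^ y * (x + y) ^ (x + y) ≤ (a + b) ^ (x + y) * (x ^ x * y ^ y) := by
  rcases Nat.eq_zero_or_pos x with hx | hx
  · subst hx
    simp only [pow_zero, one_mul, zero_add]
    exact Nat.mul_le_mul_right _ (Nat.pow_le_pow_left (by omega) _)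
  rcases Nat.eq_zero_or_pos y with hy | hy
  · subst hy
    simp only [pow_zero, mul_one, add_zero]
    exact Nat.mul_le_mul_right _ (Nat.pow_le_pow_left (by omega) _)
  have hxr : (0 : ℝ) < x := by exact_mod_cast hx
  have hyr : (0 : ℝ) < y := by exact_mod_cast hy
  have hxy : (0 : ℝ) < (x : ℝ) + y := by positivity
  have h := Real.geom_mean_le_arith_mean2_weighted (w₁ := x / (x + y)) (w₂ := y / (x + y))
    (p₁ := a / x) (p₂ := b / y) (by positivity) (by positivity) (by positivity) (by positivity)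
    (by field_simp)
  have e1 : (x : ℝ) / (x + y) * (a / x) + y / (x + y) * (b / y) = (a + b) / (x + y) := by
    field_simp
  rw [e1] at h
  have h2 := pow_le_pow_left₀ (by positivity) h (x + y)
  have e2 : (((a : ℝ) / x) ^ ((x : ℝ) / (x + y)) * (b / y) ^ ((y : ℝ) / (x + y))) ^ (x + y) =
      ((a : ℝ) / x) ^ x * (b / y) ^ y := by
    rw [mul_pow, ← Real.rpow_natCast (((a : ℝ) / x) ^ ((x : ℝ) / (x + y))),
      ← Real.rpow_natCast (((b : ℝ) / y) ^ ((y : ℝ) / (x + y))), ← Real.rpow_mul (by positivity),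
      ← Real.rpow_mul (by positivity)]
    have e3 : (x : ℝ) / (x + y) * ((x + y : ℕ) : ℝ) = (x : ℕ) := by
      push_cast
      field_simp
    have e4 : (y : ℝ) / (x + y) * ((x + y : ℕ) : ℝ) = (y : ℕ) := by
      push_cast
      field_simp
    rw [e3, e4, Real.rpow_natCast, Real.rpow_natCast]
  rw [e2, div_pow, div_pow, div_pow, div_mul_div_comm, div_le_div_iff₀ (by positivity)
    (by positivity)] at h2
  have h3 : ((a ^ x * b ^ y * (x + y) ^ (x + y) : ℕ) : ℝ) ≤
      (((a + b) ^ (x + y) * (x ^ x * y ^ y) : ℕ) : ℝ) := by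
    push_cast
    exact h2
  exact_mod_cast h3

theorem self_mul_pow_le {p n k : ℕ} (hp : 2 ≤ p) (hk : 1 ≤ k) (hn : p ^ k ≤ n) :
    n * k ^ k ≤ n ^ k := by
  obtain ⟨j, rfl⟩ : ∃ j, k = j + 1 := ⟨k - 1, by omega⟩
  rw [pow_succ n j, mul_comm (n ^ j)]
  apply Nat.mul_le_mul_left
  have h1 : j + 1 ≤ 2 ^ j := Nat.lt_two_pow_self
  have h2 : (2 ^ j) ^ (j + 1) ≤ n ^ j := by
    rw [← pow_mul, mul_comm, pow_mul]
    exact Nat.pow_le_pow_left ((Nat.pow_le_pow_left hp _).trans hn) _
  exact (Nat.pow_le_pow_left h1 _).trans h2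

variable {A Ω : Type*} [CommGroup A] [Finite A] [MulAction A Ω] [Finite Ω]

theorem card_eq_orbit_mul (C : Subgroup A) (x : Ω) :
    Nat.card C = (MulAction.orbit C x).ncard * Nat.card (C ⊓ MulAction.stabilizer A x : Subgroup A) := by
  have h2 : Nat.card (MulAction.stabilizer C x) =
      Nat.card (C ⊓ MulAction.stabilizer A x : Subgroup A) :=
    Nat.card_congr
      { toFun := fun c => ⟨(c.1 : A), c.1.2, c.2⟩
        invFun := fun c => ⟨⟨c.1, c.2.1⟩, c.2.2⟩
        left_inv := fun c => rfl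
        right_inv := fun c => rfl }
  rw [← h2, ← Nat.card_coe_set_eq, ← Nat.card_prod]
  exact Nat.card_congr (MulAction.orbitProdStabilizerEquivGroup C x).symm

/-- The main induction. -/
theorem main {p : ℕ} (hp : p.Prime) (hA : IsPGroup p A) (m : ℕ) :
    ∀ (S : Set Ω) (C : Subgroup A) (k : ℕ), S.ncard = m → (∀ c ∈ C, ∀ x ∈ S, c • x ∈ S) →
      (∀ c ∈ C, (∀ x ∈ S, c • x = x) → c = 1) →
      Nat.card (C ⊓ (powMonoidHom p : A →* A).ker : Subgroup A) = p ^ k →
      Nat.card C * k ^ k ≤ m ^ k := by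
  induction m using Nat.strong_induction_on with | _ m ih =>
  intro S C k hS hinv hfaith hk
  have := Fact.mk hp
  rcases Nat.eq_zero_or_pos k with h0 | hk1
  · subst h0
    rw [pow_zero] at hk
    have hC : C = ⊥ := by
      by_contra hne
      have hnt : Nontrivial C := (Subgroup.nontrivial_iff_ne_bot C).2 hne
      have hpd : p ∣ Nat.card C := by
        obtain ⟨n, hn⟩ := (IsPGroup.iff_card (p := p) (G := C)).1 (hA.to_subgroup C)
        have : 1 < Nat.card C := Finite.one_lt_card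
        rw [hn] at this ⊢
        rcases Nat.eq_zero_or_pos n with h | h
        · rw [h, pow_zero] at this; omega
        · exact dvd_pow_self p (by omega)
      obtain ⟨c, hc⟩ := exists_prime_orderOf_dvd_card' p hpd
      have hmem : (c : A) ∈ (C ⊓ (powMonoidHom p : A →* A).ker : Subgroup A) := by
        refine Subgroup.mem_inf.2 ⟨c.2, ?_⟩
        rw [MonoidHom.mem_ker, powMonoidHom_apply]
        have : c ^ p = 1 := by rw [← hc]; exact pow_orderOf_eq_one c
        have h' := congrArg Subtype.val this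
        simpa using h'
      rw [Subgroup.card_eq_one.1 hk, Subgroup.mem_bot] at hmem
      have : c = 1 := Subtype.ext hmem
      rw [this, orderOf_one] at hc
      exact hp.one_lt.ne hc
    rw [hC]
    simp
  -- a point moved by an element of order `p`
  set W : Subgroup A := (powMonoidHom p : A →* A).ker with hW
  have hne : (C ⊓ W) ≠ ⊥ := by
    intro h
    rw [h] at hk
    simp only [Subgroup.mem_bot, Nat.card_unique] at hk
    have := Nat.one_lt_pow (by omega : k ≠ 0) hp.one_lt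
    omega
  obtain ⟨b, hb, hb1⟩ : ∃ b : A, b ∈ C ⊓ W ∧ b ≠ 1 := by
    obtain ⟨a, ha⟩ := (Subgroup.ne_bot_iff_exists_ne_one (H := C ⊓ W)).1 hne
    exact ⟨a.1, a.2, fun h => ha (Subtype.ext h)⟩
  obtain ⟨x, hxS, hbx⟩ : ∃ x ∈ S, b • x ≠ x := by
    by_contra hcon
    push Not at hcon
    exact hb1 (hfaith b hb.1 hcon)
  -- the orbit of `x`
  obtain ⟨C', hC'⟩ : ∃ C' : Subgroup A, C' = C ⊓ MulAction.stabilizer A x := ⟨_, rfl⟩
  obtain ⟨O, hO⟩ : ∃ O : Set Ω, O = MulAction.orbit C x := ⟨_, rfl⟩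
  have hOS : O ⊆ S := by
    rw [hO]
    rintro _ ⟨c, rfl⟩
    exact hinv c c.2 x hxS
  have hxO : x ∈ O := by rw [hO]; exact MulAction.mem_orbit_self x
  have hcard : Nat.card C = O.ncard * Nat.card C' := by
    rw [hO, hC', ← card_eq_orbit_mul]
  have hcardW : Nat.card (C ⊓ W : Subgroup A) =
      (MulAction.orbit (C ⊓ W : Subgroup A) x).ncard * Nat.card (C' ⊓ W : Subgroup A) := by
    rw [hC', inf_right_comm, ← card_eq_orbit_mul]
  -- the number of elements of order dividing `p` in `C'`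
  obtain ⟨k', hk'⟩ : ∃ k', Nat.card (C' ⊓ W : Subgroup A) = p ^ k' :=
    (IsPGroup.iff_card (p := p)).1 (hA.to_subgroup _)
  have hnew : (MulAction.orbit (C ⊓ W : Subgroup A) x).ncard ≤ O.ncard := by
    apply Set.ncard_le_ncard _ (Set.toFinite _)
    rw [hO]
    rintro _ ⟨c, rfl⟩
    exact ⟨⟨c.1, c.2.1⟩, rfl⟩
  have hone : 1 < (MulAction.orbit (C ⊓ W : Subgroup A) x).ncard := by
    rw [Set.one_lt_ncard (Set.toFinite _)]
    exact ⟨x, MulAction.mem_orbit_self x, b • x, ⟨⟨b, hb⟩, rfl⟩, hbx.symm⟩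
  rw [hk, hk'] at hcardW
  have hlt : k' < k := by
    by_contra hge
    push Not at hge
    have h1 : p ^ k ≤ p ^ k' := Nat.pow_le_pow_right hp.pos hge
    have h2 : 0 < p ^ k' := pow_pos hp.pos _
    rw [hcardW] at h1
    nlinarith
  obtain ⟨j, rfl⟩ : ∃ j, k = j + k' := ⟨k - k', by omega⟩
  have hj : 1 ≤ j := by omega
  have hpj : p ^ j ≤ O.ncard := by
    rw [pow_add] at hcardW
    have h2 : 0 < p ^ k' := pow_pos hp.pos _
    have := Nat.eq_of_mul_eq_mul_right h2 hcardW
    rw [this]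
    exact hnew
  -- the induction hypothesis for the complement of the orbit
  have hOm : O.ncard + (S \ O).ncard = m := by
    rw [← hS, add_comm, Set.ncard_sdiff_add_ncard_of_subset hOS (Set.toFinite _)]
  have hO0 : 0 < O.ncard := (Set.ncard_pos (Set.toFinite _)).2 ⟨x, hxO⟩
  have hrec := ih (S \ O).ncard (by omega) (S \ O) C' k' rfl (by
    intro c hc y hy
    rw [hC'] at hc
    refine ⟨hinv c hc.1 y hy.1, fun hcy => hy.2 ?_⟩
    rw [hO] at hcy ⊢
    obtain ⟨d, hd⟩ := hcy
    refine ⟨⟨c, hc.1⟩⁻¹ * d, ?_⟩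
    change (c⁻¹ * (d : A)) • x = y
    rw [mul_smul]
    have hd' : (d : A) • x = c • y := hd
    rw [hd', inv_smul_smul]) (by
    intro c hc hfix
    rw [hC'] at hc
    refine hfaith c hc.1 fun y hy => ?_
    by_cases hyO : y ∈ O
    · rw [hO] at hyO
      obtain ⟨d, rfl⟩ := hyO
      change c • ((d : A) • x) = (d : A) • x
      rw [smul_smul, mul_comm, mul_smul, (hc.2 : c • x = x)]
    · exact hfix y ⟨hy, hyO⟩) hk'
  obtain ⟨a, ha⟩ : ∃ a, a = O.ncard := ⟨_, rfl⟩
  obtain ⟨c, hc⟩ : ∃ c, c = (S \ O).ncard := ⟨_, rfl⟩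
  rw [← ha] at hOm hpj hcard hO0
  rw [← hc] at hOm hrec
  have h1 := self_mul_pow_le hp.two_le hj hpj
  have h2 := amgm a c j k'
  rw [hOm] at h2
  rw [hcard]
  have hpos : 0 < j ^ j * k' ^ k' := by
    refine Nat.mul_pos (pow_pos (by omega) _) ?_
    rcases Nat.eq_zero_or_pos k' with h | h
    · rw [h]; norm_num
    · exact pow_pos h _
  refine Nat.le_of_mul_le_mul_right ?_ hpos
  calc a * Nat.card C' * (j + k') ^ (j + k') * (j ^ j * k' ^ k')
      = (a * j ^ j) * (Nat.card C' * k' ^ k') * (j + k') ^ (j + k') := by ring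
    _ ≤ a ^ j * c ^ k' * (j + k') ^ (j + k') :=
        Nat.mul_le_mul_right _ (Nat.mul_le_mul h1 hrec)
    _ ≤ m ^ (j + k') * (j ^ j * k' ^ k') := h2

/-- Let p be a prime, Ω a finite set with n ≥ p elements, and A an abelian p-subgroup of the symmetric group on Ω whose elements of order dividing p number p^k (so k is the rank of A). Then |A| · k^k ≤ n^k, that is, |A| ≤ (n/k)^k. -/
theorem result {Ω : Type*} [Fintype Ω] [DecidableEq Ω]
    (p : ℕ) (hp : p.Prime) (hn : p ≤ Fintype.card Ω) (A : Subgroup (Equiv.Perm Ω)) (hA : IsPGroup p A) (hab : IsMulCommutative A)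
    (k : ℕ) (hk : Nat.card {x : A // x ^ p = 1} = p ^ k) :
    Nat.card A * k ^ k ≤ Fintype.card Ω ^ k := by
  letI : CommGroup A := { (inferInstance : Group A) with mul_comm := fun a b => hab.is_comm.comm a b }
  have h := main (A := A) (Ω := Ω) hp hA (Fintype.card Ω) Set.univ ⊤ k
    (by rw [Set.ncard_univ, Nat.card_eq_fintype_card]) (fun _ _ _ _ => Set.mem_univ _)
    (fun c _ hc => Subtype.ext (Equiv.ext fun x => hc x (Set.mem_univ _)))
    (by
      rw [← hk, top_inf_eq]
      rfl)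
  rw [Subgroup.card_top] at h
  exact h

end Cfsg.Agent.S3696
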