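import Cfsg.Statements.S3708
import Cfsg.Agent.H433.Pair
import Cfsg.Agent.H433.Torus

set_option autoImplicit false
open Cfsg

namespace Cfsg.Agent.S3708

open Cfsg.Agent.Phan Cfsg.Agent.H433

/-- Phan's recognition of unitary groups. Let F be a finite field with q² elements, q > 4, and n ≥ 2. Let G be a group generated by subgroups U_0, …, U_{n−1}, each isomorphic to the special unitary group SU(2, q²) (determinant-one isometries of the standard Hermitian form in two variables over F), and let D_i ≤ U_i be cyclic subgroups of order q + 1. Suppose that U_i and U_j commute elementwise whenever the indices differ by at least 2, that the subgroup generated by U_i and U_{i+1} is isomorphic to SU(3, q²) for each i, and that D_i and D_j commute elementwise for all i, j. Then G is a homomorphic image of SU(n+1, q²). (Generation of G by the U_i is part of the hypothesis; G is not assumed finite.) -/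
theorem result {G : Type*} [Group G] (n : ℕ) (hn : 2 ≤ n)
    (F : Type*) [Field F] [Fintype F] (q : ℕ) (hq : 4 < q) (hF : Fintype.card F = q ^ 2)
    (U : Fin n → Subgroup G) (e : ∀ i, ↥(Cfsg.SU 2 F q) ≃* ↥(U i)) (hgen : ⨆ i, U i = ⊤)
    (D : Fin n → Subgroup G) (hD : ∀ i, D i ≤ U i ∧ IsCyclic ↥(D i) ∧ Nat.card ↥(D i) = q + 1)
    (h1 : ∀ i j : Fin n, (i : ℕ) + 2 ≤ j → ∀ x ∈ U i, ∀ y ∈ U j, x * y = y * x)
    (h2 : ∀ i j : Fin n, (i : ℕ) + 1 = j → Nonempty (↥(U i ⊔ U j) ≃* ↥(Cfsg.SU 3 F q)))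
    (h3 : ∀ i j : Fin n, i ≠ j → ∀ x ∈ D i, ∀ y ∈ D j, x * y = y * x) :
    ∃ f : ↥(Cfsg.SU (n + 1) F q) →* G, Function.Surjective f := by
  obtain ⟨m, rfl⟩ : ∃ m, n = m + 2 := ⟨n - 2, by omega⟩
  -- generators of the tori
  have hgenD : ∀ i, ∃ d : G, d ∈ D i ∧ d ^ (q + 1) = 1 ∧ d ≠ 1 := by
    intro i
    obtain ⟨-, hc, hcard⟩ := hD i
    obtain ⟨d, hd⟩ := hc.exists_generator
    have ho : orderOf d = q + 1 := by
      rw [← hcard]
      exact orderOf_eq_card_of_forall_mem_zpowers hd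
    refine ⟨d, d.2, ?_, ?_⟩
    · have h := pow_orderOf_eq_one d
      rw [ho] at h
      exact congrArg Subtype.val h
    · intro h
      have h' : d = 1 := Subtype.ext h
      rw [h', orderOf_one] at ho
      omega
  have key : ∀ k : ℕ, ∃ ψ : SU 3 F q →* G, ∀ hk : k + 1 < m + 2,
      ψ.ker ≤ Subgroup.center (SU 3 F q) ∧
      (ψ.comp (emb hF 0 (by omega : 0 + 2 ≤ 3))).range = U ⟨k, by omega⟩ ∧
      (ψ.comp (emb hF 1 (by omega : 1 + 2 ≤ 3))).range = U ⟨k + 1, hk⟩ := by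
    intro k
    by_cases hk : k + 1 < m + 2
    · obtain ⟨ε⟩ := h2 ⟨k, by omega⟩ ⟨k + 1, hk⟩ rfl
      obtain ⟨a, ha, haq, ha1⟩ := hgenD ⟨k, by omega⟩
      obtain ⟨b, hb, hbq, hb1⟩ := hgenD ⟨k + 1, hk⟩
      obtain ⟨ψ, hi, -, c, d⟩ := exists_psi hF (by omega) (e ⟨k, by omega⟩) (e ⟨k + 1, hk⟩) ε
        ((hD _).1 ha) ((hD _).1 hb) haq hbq ha1 hb1
        (h3 _ _ (by intro h; have := congrArg Fin.val h; simp at this) a ha b hb)
      refine ⟨ψ, fun _ => ⟨?_, c, d⟩⟩
      rw [(MonoidHom.ker_eq_bot_iff ψ).2 hi]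
      exact bot_le
    · exact ⟨1, fun h => absurd h hk⟩
  choose ψ hψ using key
  have hU : ∀ (k a : ℕ) (hk : k + 1 < m + 2) (ha : a + 2 ≤ 3) (x : SU 2 F q),
      ψ k (emb hF a ha x) ∈ U ⟨k + a, by omega⟩ := by
    intro k a hk ha x
    obtain ⟨-, c, d⟩ := hψ k hk
    obtain rfl | rfl : a = 0 ∨ a = 1 := by omega
    · have : ψ k (emb hF 0 ha x) ∈ U ⟨k, by omega⟩ := by
        rw [← c]
        exact ⟨x, rfl⟩
      exact this
    · rw [← d]
      exact ⟨x, rfl⟩
  obtain ⟨Φ, hΦ⟩ := exists_hom_of_chain hF (by omega) (n := m) ψ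
    (fun k hk => (hψ k (by omega)).1)
    (fun k hk => by rw [(hψ k (by omega)).2.2, (hψ (k + 1) (by omega)).2.1])
    (fun i j a b hi hj ha hb hij x y => h1 ⟨i + a, by omega⟩ ⟨j + b, by omega⟩ hij _
      (hU i a (by omega) ha x) _ (hU j b (by omega) hb y))
  refine ⟨Φ, ?_⟩
  rw [← MonoidHom.range_eq_top, eq_top_iff, ← hgen, iSup_le_iff]
  intro i
  by_cases hi : (i : ℕ) + 1 < m + 2
  · refine le_trans ?_ (hΦ i (by omega))
    have : U i = ((ψ i).comp (emb hF 0 (by omega : 0 + 2 ≤ 3))).range := (hψ i hi).2.1.symm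
    rw [this, MonoidHom.range_comp]
    exact Subgroup.map_le_range _ _
  · have hi' : (i : ℕ) = m + 1 := by omega
    refine le_trans ?_ (hΦ m (by omega))
    have : U i = ((ψ m).comp (emb hF 1 (by omega : 1 + 2 ≤ 3))).range := by
      rw [(hψ m (by omega)).2.2]
      congr 1
      exact Fin.ext hi'
    rw [this, MonoidHom.range_comp]
    exact Subgroup.map_le_range _ _

end Cfsg.Agent.S3708
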