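import Cfsg.Statements.S3710
import Cfsg.Agent.H434.PhanThree

set_option autoImplicit false
open Cfsg

namespace Cfsg.Agent.S3710

open Cfsg.Agent.Phan Cfsg.Agent.H434

/-- Recognition of unitary groups over the field with 9 elements from a weak Phan system. Let F be a field with 9 elements and n ≥ 4. Let G be a group with subgroups U_0, …, U_{n−1}, each isomorphic to SU(2, 9), and, for consecutive indices, subgroups V_{i,i+1} in which U_i and U_{i+1} form a standard pair (via an isomorphism from SU(3, 9) or PSU(3, 9) carrying the block-diagonal subgroups, or their images, onto U_i and U_{i+1}); suppose U_i and U_j commute elementwise whenever the indices differ by at least 2, that G is generated by the U_i and the V_{i,i+1}, and moreover that for each i the subgroup generated by V_{i,i+1} and V_{i+1,i+2} is a homomorphic image of SU(4, 9). Then G is a homomorphic image of SU(n+1, 9). (G is not assumed finite.) -/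
theorem result {G : Type*} [Group G] (n : ℕ) (hn : 4 ≤ n)
    (F : Type*) [Field F] [Fintype F] (hF : Fintype.card F = 9)
    (U : Fin n → Subgroup G) (e : ∀ i, ↥(Cfsg.SU 2 F 3) ≃* ↥(U i))
    (V : Fin n → Fin n → Subgroup G)
    (h1 : ∀ i j : Fin n, (i : ℕ) + 2 ≤ j → ∀ x ∈ U i, ∀ y ∈ U j, x * y = y * x)
    (h2 : ∀ i j : Fin n, (i : ℕ) + 1 = j → Cfsg.IsStandardUnitaryPair (V i j) (U i) (U j) F 3)
    (hgen : (⨆ i, U i) ⊔ (⨆ (i : Fin n) (j : Fin n) (_ : (i : ℕ) + 1 = j), V i j) = ⊤)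
    (h4 : ∀ i j k : Fin n, (i : ℕ) + 1 = j → (j : ℕ) + 1 = k →
      ∃ g : ↥(Cfsg.SU 4 F 3) →* ↥(V i j ⊔ V j k), Function.Surjective g) :
    ∃ f : ↥(Cfsg.SU (n + 1) F 3) →* G, Function.Surjective f := by
  have hF9 : Fintype.card F = 3 ^ 2 := by rw [hF]; norm_num
  obtain ⟨m, rfl⟩ : ∃ m, n = m + 4 := ⟨n - 4, by omega⟩
  obtain ⟨φ, g, hs, hg⟩ := exists_weak_system hF9 (m + 4) U V h1 h2
  -- the ranges
  have hφ0 : ∀ k (hk : k + 1 < m + 4) a, φ k a ∈ V ⟨k, by omega⟩ ⟨k + 1, hk⟩ := by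
    intro k hk a
    rw [← (hg k hk).1, ← hs.left k (by omega)]
    exact ⟨_, rfl⟩
  have hφ1 : ∀ k (hk : k + 1 < m + 4) a, φ (k + 1) a ∈ V ⟨k, by omega⟩ ⟨k + 1, hk⟩ := by
    intro k hk a
    rw [← (hg k hk).1, ← hs.right k (by omega)]
    exact ⟨_, rfl⟩
  have hV : ∀ k (hk : k + 1 < m + 4) (D : Subgroup G), (∀ a, φ k a ∈ D) → (∀ a, φ (k + 1) a ∈ D) →
      V ⟨k, by omega⟩ ⟨k + 1, hk⟩ ≤ D := by
    intro k hk D d0 d1
    rw [← (hg k hk).1]
    rintro _ ⟨x, rfl⟩
    have hx : x ∈ Subgroup.closure {y : Cfsg.SU (1 + 2) F 3 | ∃ (j : ℕ) (h : j + 2 ≤ 1 + 2)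
        (x : Cfsg.SU 2 F 3), emb hF9 j h x = y} := by rw [closure_emb_eq_top hF9 le_rfl 1]; trivial
    have h3 : Subgroup.closure {y : Cfsg.SU (1 + 2) F 3 | ∃ (j : ℕ) (h : j + 2 ≤ 1 + 2)
        (x : Cfsg.SU 2 F 3), emb hF9 j h x = y} ≤ D.comap (g k) := by
      rw [Subgroup.closure_le]
      rintro _ ⟨j, hj, a, rfl⟩
      change g k _ ∈ D
      have hj' : j = 0 ∨ j = 1 := by omega
      rcases hj' with rfl | rfl
      · rw [hs.left k (by omega) a]
        exact d0 a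
      · rw [hs.right k (by omega) a]
        exact d1 a
    exact h3 hx
  have hz : ∀ k, k + 4 ≤ m + 5 → Hz fun j => φ (k + j) := by
    intro k hk x hx hc h3
    obtain ⟨K, hK⟩ : ∃ K : Subgroup G,
        K = V ⟨k, by omega⟩ ⟨k + 1, by omega⟩ ⊔ V ⟨k + 1, by omega⟩ ⟨k + 2, by omega⟩ := ⟨_, rfl⟩
    have h4' := h4 ⟨k, by omega⟩ ⟨k + 1, by omega⟩ ⟨k + 2, by omega⟩ rfl rfl
    rw [← hK] at h4'
    obtain ⟨gg, hgg⟩ := h4'
    have hxK : x ∈ K := by
      refine (Subgroup.closure_le K).2 ?_ hx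
      rintro _ ⟨j, hj, a, rfl⟩
      change φ (k + j) a ∈ K
      have hj' : j = 0 ∨ j = 1 ∨ j = 2 := by omega
      rcases hj' with rfl | rfl | rfl
      · rw [hK]; exact Subgroup.mem_sup_left (hφ0 k (by omega) a)
      · rw [hK]; exact Subgroup.mem_sup_left (hφ1 k (by omega) a)
      · rw [hK]; exact Subgroup.mem_sup_right (hφ1 (k + 1) (by omega) a)
    have hKc : K ≤ Subgroup.centralizer {x} := by
      have hmem : ∀ j, j < 3 → ∀ a, φ (k + j) a ∈ Subgroup.centralizer {x} := by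
        intro j hj a
        rw [Subgroup.mem_centralizer_singleton_iff]
        exact (hc j hj a)
      rw [hK, sup_le_iff]
      exact ⟨hV k (by omega) _ (fun a => hmem 0 (by omega) a) (fun a => hmem 1 (by omega) a),
        hV (k + 1) (by omega) _ (fun a => hmem 1 (by omega) a) (fun a => hmem 2 (by omega) a)⟩
    have hcen : (⟨x, hxK⟩ : K) ∈ Subgroup.center K := by
      rw [Subgroup.mem_center_iff]
      rintro ⟨y, hy⟩
      have := hKc hy
      rw [Subgroup.mem_centralizer_singleton_iff] at this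
      exact Subtype.ext this
    have := center_quotient_three hF9 gg hgg ⟨x, hxK⟩ hcen (Subtype.ext h3)
    exact congrArg Subtype.val this
  obtain ⟨Φ, hΦ⟩ := exists_hom_three_all m hs hz
  refine ⟨Φ, ?_⟩
  rw [← MonoidHom.range_eq_top, eq_top_iff, ← hgen, sup_le_iff]
  have hVr : ∀ k (hk : k + 1 < m + 4), V ⟨k, by omega⟩ ⟨k + 1, hk⟩ ≤ Φ.range := by
    intro k hk
    rw [← (hg k hk).1]
    rintro _ ⟨x, rfl⟩
    exact ⟨_, hΦ k (by omega) x⟩
  constructor
  · rw [iSup_le_iff]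
    rintro ⟨i, hi⟩
    by_cases h : i + 1 < m + 4
    · rw [← (hg i h).2.2.1]
      rintro _ ⟨x, rfl⟩
      exact ⟨_, hΦ i (by omega) _⟩
    · obtain ⟨j, rfl⟩ : ∃ j, i = j + 1 := ⟨i - 1, by omega⟩
      rw [← (hg j (by omega)).2.2.2]
      rintro _ ⟨x, rfl⟩
      exact ⟨_, hΦ j (by omega) _⟩
  · rw [iSup_le_iff]
    rintro ⟨i, hi⟩
    rw [iSup_le_iff]
    rintro ⟨j, hj⟩
    rw [iSup_le_iff]
    intro hij
    change i + 1 = j at hij
    subst hij
    exact hVr i hj

end Cfsg.Agent.S3710
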