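import Cfsg.Statements.S3713
import Cfsg.Agent.H434.SlimMain

set_option autoImplicit false
open Cfsg

namespace Cfsg.Agent.S3713

open Cfsg.Agent.H434.Slim Cfsg.Agent.ClassicalGeometry.SympSiegel

theorem fix_ff_iff {F : Type*} [Field F] {n : ℕ} (A : ↥(Matrix.symplecticGroup (Fin n) F)) (k : Fin n) :
    ((A : ↥(Matrix.symplecticGroup (Fin n) F)) : Matrix (Fin n ⊕ Fin n) (Fin n ⊕ Fin n) F).mulVec
      (Pi.single (Sum.inr k) (1 : F)) = (Pi.single (Sum.inr k) (1 : F)) ↔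
    A • (ff k : Fin n ⊕ Fin n → F) = ff k := by
  rw [ff, smul_neg', neg_inj]
  rfl

theorem fix_ee_iff {F : Type*} [Field F] {n : ℕ} (A : ↥(Matrix.symplecticGroup (Fin n) F)) (k : Fin n) :
    ((A : ↥(Matrix.symplecticGroup (Fin n) F)) : Matrix (Fin n ⊕ Fin n) (Fin n ⊕ Fin n) F).mulVec
      (Pi.single (Sum.inl k) (1 : F)) = (Pi.single (Sum.inl k) (1 : F)) ↔
    A • (ee k : Fin n ⊕ Fin n → F) = ee k := Iff.rfl

/-- A presentation of the symplectic group as the universal completion of an amalgam of small subgroups. Let F be a field with more than two elements, n ≥ 2, and Sp the group of 2n × 2n matrices over F preserving the standard alternating form, acting on column vectors; write e_k, f_k for the standard basis vectors of the two halves (a hyperbolic basis). For each k let S_k be the subgroup of Sp fixing e_l and f_l for all l ≠ k (a copy of SL(2, F) on the plane of e_k, f_k), and for each i with i + 1 < n let M_i be the subgroup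 fixing every e_l and fixing f_l for all l other than i, i+1 (an abelian group isomorphic to the additive group of F³). Then Sp is the universal completion of the amalgam formed by the S_k, the M_i and the subgroups generated by two of them: for every group H and homomorphisms σ_k : S_k → H, μ_i : M_i → H such that for each pair of these subgroups some homomorphism on the subgroup they generate restricts to the given ones, there is exactly one homomorphism Sp → H restricting to every σ_k and μ_i. -/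
theorem result
    (F : Type*) [Field F] (hF : ∃ a : F, a ≠ 0 ∧ a ≠ 1) (n : ℕ) (hn : 2 ≤ n)
    (S M : Fin n → Subgroup ↥(Matrix.symplecticGroup (Fin n) F))
    (hS : ∀ j : Fin n, S j = Subgroup.closure {A : ↥(Matrix.symplecticGroup (Fin n) F) | ∀ k : Fin n, k ≠ j →
      ((A : ↥(Matrix.symplecticGroup (Fin n) F)) : Matrix (Fin n ⊕ Fin n) (Fin n ⊕ Fin n) F).mulVec (Pi.single (Sum.inl k) (1 : F)) = (Pi.single (Sum.inl k) (1 : F)) ∧ ((A : ↥(Matrix.symplecticGroup (Fin n) F)) : Matrix (Fin n ⊕ Fin n) (Fin n ⊕ Fin n) F).mulVec (Pi.single (Sum.inr k) (1 : F)) = (Pi.single (Sum.inr k) (1 : F))})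
    (hM : ∀ i : Fin n, (i : ℕ) + 1 < n → M i = Subgroup.closure {A : ↥(Matrix.symplecticGroup (Fin n) F) |
      (∀ k : Fin n, ((A : ↥(Matrix.symplecticGroup (Fin n) F)) : Matrix (Fin n ⊕ Fin n) (Fin n ⊕ Fin n) F).mulVec (Pi.single (Sum.inl k) (1 : F)) = (Pi.single (Sum.inl k) (1 : F))) ∧
        ∀ k : Fin n, (k : ℕ) ≠ i → (k : ℕ) ≠ (i : ℕ) + 1 → ((A : ↥(Matrix.symplecticGroup (Fin n) F)) : Matrix (Fin n ⊕ Fin n) (Fin n ⊕ Fin n) F).mulVec (Pi.single (Sum.inr k) (1 : F)) = (Pi.single (Sum.inr k) (1 : F))})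
    {H : Type*} [Group H] (σ : ∀ j : Fin n, ↥(S j) →* H) (μ : ∀ i : Fin n, ↥(M i) →* H)
    (hSS : ∀ j l : Fin n, j ≠ l → ∃ Ψ : ↥(S j ⊔ S l) →* H,
      (∀ (g : ↥(Matrix.symplecticGroup (Fin n) F)) (hg : g ∈ S j), Ψ ⟨g, Subgroup.mem_sup_left hg⟩ = σ j ⟨g, hg⟩) ∧
        (∀ (g : ↥(Matrix.symplecticGroup (Fin n) F)) (hg : g ∈ S l), Ψ ⟨g, Subgroup.mem_sup_right hg⟩ = σ l ⟨g, hg⟩))
    (hMM : ∀ i i' : Fin n, i ≠ i' → (i : ℕ) + 1 < n → (i' : ℕ) + 1 < n → ∃ Ψ : ↥(M i ⊔ M i') →* H,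
      (∀ (g : ↥(Matrix.symplecticGroup (Fin n) F)) (hg : g ∈ M i), Ψ ⟨g, Subgroup.mem_sup_left hg⟩ = μ i ⟨g, hg⟩) ∧
        (∀ (g : ↥(Matrix.symplecticGroup (Fin n) F)) (hg : g ∈ M i'), Ψ ⟨g, Subgroup.mem_sup_right hg⟩ = μ i' ⟨g, hg⟩))
    (hMS : ∀ i j : Fin n, (i : ℕ) + 1 < n → ∃ Ψ : ↥(M i ⊔ S j) →* H,
      (∀ (g : ↥(Matrix.symplecticGroup (Fin n) F)) (hg : g ∈ M i), Ψ ⟨g, Subgroup.mem_sup_left hg⟩ = μ i ⟨g, hg⟩) ∧
        (∀ (g : ↥(Matrix.symplecticGroup (Fin n) F)) (hg : g ∈ S j), Ψ ⟨g, Subgroup.mem_sup_right hg⟩ = σ j ⟨g, hg⟩)) :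
    ∃! Φ : ↥(Matrix.symplecticGroup (Fin n) F) →* H,
      (∀ (j : Fin n) (g : ↥(Matrix.symplecticGroup (Fin n) F)) (hg : g ∈ S j), Φ g = σ j ⟨g, hg⟩) ∧
        (∀ (i : Fin n), (i : ℕ) + 1 < n → ∀ (g : ↥(Matrix.symplecticGroup (Fin n) F)) (hg : g ∈ M i), Φ g = μ i ⟨g, hg⟩) := by
  have hS' : ∀ j, S j = SJ F j := by
    intro j
    rw [hS j]
    conv_rhs => rw [← Subgroup.closure_eq (SJ F j)]
    congr 1
    ext A
    simp only [Set.mem_ofPred_eq, SetLike.mem_coe, mem_GJ, fix_ff_iff, fix_ee_iff]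
  have hM' : ∀ i : Fin n, (i : ℕ) + 1 < n → M i = MI n F i := by
    intro i hi
    rw [hM i hi]
    conv_rhs => rw [← Subgroup.closure_eq (MI n F i)]
    congr 1
    ext A
    simp only [Set.mem_ofPred_eq, SetLike.mem_coe, mem_MI, fix_ff_iff, fix_ee_iff]
  have homS : ∀ j : Fin n, IsHomOn (SJ F j) (extF (σ j)) := by
    intro j
    rw [← hS' j]
    exact isHomOn_extF (σ j)
  have commS : ∀ j l : Fin n, j ≠ l → ∀ a ∈ SJ F j, ∀ b ∈ SJ F l,
      extF (σ j) a * extF (σ l) b = extF (σ l) b * extF (σ j) a := by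
    intro j l hjl a ha b hb
    obtain ⟨Ψ, h1, h2⟩ := hSS j l hjl
    have hc : a * b = b * a := by
      refine GJ_comm (J := fun i => i ≠ j) (J' := fun i => i ≠ l) ?_ ha hb
      intro i
      by_cases h : i = j
      · right; rw [h]; exact hjl
      · exact Or.inl h
    rw [← hS' j] at ha
    rw [← hS' l] at hb
    rw [extF_apply _ ha, extF_apply _ hb, ← h1 a ha, ← h2 b hb, ← map_mul, ← map_mul]
    congr 1
    exact Subtype.ext hc
  have commM : ∀ i i' : Fin n, (i : ℕ) + 1 < n → (i' : ℕ) + 1 < n → ∀ a ∈ MI n F i,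
      ∀ b ∈ MI n F i', extF (μ i) a * extF (μ i') b = extF (μ i') b * extF (μ i) a := by
    intro i i' hi hi' a ha b hb
    have hc : a * b = b * a := MI_comm ha hb
    rw [← hM' i hi] at ha
    rw [← hM' i' hi'] at hb
    by_cases hii : i = i'
    · subst hii
      rw [extF_apply _ ha, extF_apply _ hb, ← map_mul, ← map_mul]
      congr 1
      exact Subtype.ext hc
    · obtain ⟨Ψ, h1, h2⟩ := hMM i i' hii hi hi'
      rw [extF_apply _ ha, extF_apply _ hb, ← h1 a ha, ← h2 b hb, ← map_mul, ← map_mul]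
      congr 1
      exact Subtype.ext hc
  have hext : ∀ i j : Fin n, (i : ℕ) + 1 < n → ∃ Ψ : ↥(Matrix.symplecticGroup (Fin n) F) → H,
      IsHomOn (MI n F i ⊔ SJ F j) Ψ ∧ (∀ a ∈ MI n F i, Ψ a = extF (μ i) a) ∧
      ∀ a ∈ SJ F j, Ψ a = extF (σ j) a := by
    intro i j hi
    obtain ⟨Ψ, h1, h2⟩ := hMS i j hi
    rw [← hM' i hi, ← hS' j]
    refine ⟨extF Ψ, isHomOn_extF Ψ, ?_, ?_⟩
    · intro a ha
      rw [extF_apply _ (Subgroup.mem_sup_left ha), h1 a ha, extF_apply _ ha]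
    · intro a ha
      rw [extF_apply _ (Subgroup.mem_sup_right ha), h2 a ha, extF_apply _ ha]
  obtain ⟨Φ, hΦ, hΦσ, hΦμ⟩ := exists_ext hF commS commM homS hext (n - 1) 0 (by omega)
  rw [GK_top] at hΦ
  refine ⟨MonoidHom.mk' Φ (fun a b => hΦ a trivial b trivial), ⟨?_, ?_⟩, ?_⟩
  · intro j g hg
    change Φ g = _
    rw [hΦσ j (Nat.zero_le _) g (by rw [← hS' j]; exact hg), extF_apply _ hg]
  · intro i hi g hg
    change Φ g = _
    rw [hΦμ i (Nat.zero_le _) hi g (by rw [← hM' i hi]; exact hg), extF_apply _ hg]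
  · rintro Φ' ⟨h1, h2⟩
    have hle : GK n F 0 ≤ (MonoidHom.mk' Φ (fun a b => hΦ a trivial b trivial)).eqLocus Φ' := by
      refine gen_all _ n 0 (by omega) ?_ ?_
      · intro j hj a ha
        change Φ a = Φ' a
        have ha' := ha
        rw [← hS' j] at ha'
        rw [hΦσ j hj a ha, h1 j a ha', extF_apply _ ha']
      · intro i hi hi' a ha
        change Φ a = Φ' a
        have ha' := ha
        rw [← hM' i hi'] at ha'
        rw [hΦμ i hi hi' a ha, h2 i hi' a ha', extF_apply _ ha']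
    rw [GK_top] at hle
    ext a
    exact (hle (Subgroup.mem_top a)).symm

end Cfsg.Agent.S3713
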