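import Cfsg.Statements.S3714
import Cfsg.Agent.H435.Six
import Cfsg.Agent.H435.Quot
import Cfsg.Agent.H435.Pgl
import Cfsg.Agent.H435.Sol
import Cfsg.Agent.PLocal.CoprimeLift
import Cfsg.Agent.S0061
import Cfsg.Agent.S0495
import Cfsg.Agent.S0498

set_option autoImplicit false
open Cfsg

namespace Cfsg.Agent.S3714

theorem two7 : (2 : ZMod 7) ≠ 0 := by decide

theorem two13 : (2 : ZMod 13) ≠ 0 := by decide

open Subgroup in
/-- the final step, for `p = 7` or `p = 13` -/
theorem final {G : Type*} [Group G] [Finite G] (x : G) (O : Subgroup G) [O.Normal]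
    (hcent : centralizer ({(QuotientGroup.mk' O x)} : Set (G ⧸ O)) =
      (centralizer ({x} : Set G)).map (QuotientGroup.mk' O))
    (L : Subgroup (G ⧸ O)) (hLn : L.Normal) (hC : centralizer (L : Set (G ⧸ O)) = ⊥)
    (hsup : L ⊔ centralizer ({(QuotientGroup.mk' O x)} : Set (G ⧸ O)) = ⊤)
    (p : ℕ) [Fact p.Prime] (h2 : (2 : ZMod p) ≠ 0)
    (e : L ≃* Matrix.ProjectiveSpecialLinearGroup (Fin 2) (ZMod p)) :
    Nonempty (G ⧸ O ≃* Matrix.ProjectiveSpecialLinearGroup (Fin 2) (ZMod p)) ∨
    (Nonempty (G ⧸ O ≃* (GL (Fin 2) (ZMod p) ⧸ Subgroup.center (GL (Fin 2) (ZMod p)))) ∧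
      ∃ K : Subgroup G, K.Normal ∧ K.index = 2 ∧ K ⊔ Subgroup.centralizer ({x} : Set G) = ⊤) := by
  rcases H435.Pgl.exists_pgl hC h2 (fun σ => Subsingleton.elim _ _) e with h | ⟨hidx, hE⟩
  · left
    subst h
    exact ⟨topEquiv.symm.trans e⟩
  · right
    refine ⟨hE, L.comap (QuotientGroup.mk' O), inferInstance, ?_, ?_⟩
    · rw [index_comap_of_surjective _ (QuotientGroup.mk'_surjective O), hidx]
    · rw [eq_top_iff]
      intro g _
      have hg : QuotientGroup.mk' O g ∈ L ⊔ centralizer ({(QuotientGroup.mk' O x)} : Set (G ⧸ O)) := by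
        rw [hsup]; exact mem_top _
      rw [hcent, mem_sup_of_normal_left] at hg
      obtain ⟨l, hl, c, hc, hlc⟩ := hg
      obtain ⟨c', hc', rfl⟩ := hc
      have h1 : g * c'⁻¹ ∈ L.comap (QuotientGroup.mk' O) := by
        rw [mem_comap, map_mul, map_inv, ← hlc, mul_inv_cancel_right]
        exact hl
      have h3 : g = g * c'⁻¹ * c' := by group
      rw [h3]
      exact mul_mem (mem_sup_left h1) (mem_sup_right hc')

/-- Let G be a finite group of order not divisible by 5 whose Sylow 3-subgroups have order 3, and let x be an element of order 3 whose centralizer is abelian of order 12 and exponent dividing 6 (so C_G(x) is the direct product of ⟨x⟩ and a Klein four-group). Write O for the largest normal 3'-subgroup of G. Then G/O is cyclic of order 3 or isomorphic to the symmetric group of degree 3, and G is solvable; or G/O is isomorphic to PSL(2,7) or PSL(2,13); or G/O is isomorphic to PGL(2,7) or PGL(2,13), and G has a normal subgroup K of index 2 with G = K·C_G(x).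 -/
theorem result {G : Type*} [Group G] [Finite G] (h5 : ¬ 5 ∣ Nat.card G) (h9 : ¬ 9 ∣ Nat.card G) (x : G) (hx : orderOf x = 3)
    (hC : Nat.card ↥(Subgroup.centralizer ({x} : Set G)) = 12)
    (hCab : ∀ a ∈ Subgroup.centralizer ({x} : Set G), ∀ b ∈ Subgroup.centralizer ({x} : Set G), a * b = b * a)
    (hCexp : ∀ a ∈ Subgroup.centralizer ({x} : Set G), a ^ 6 = 1) :
    ((Nat.card (G ⧸ Cfsg.pPrimeCore 3 G) = 3 ∨ Nonempty (G ⧸ Cfsg.pPrimeCore 3 G ≃* DihedralGroup 3)) ∧ Group.IsSolvable G) ∨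
    (Nonempty (G ⧸ Cfsg.pPrimeCore 3 G ≃* Matrix.ProjectiveSpecialLinearGroup (Fin 2) (ZMod 7)) ∨
      Nonempty (G ⧸ Cfsg.pPrimeCore 3 G ≃* Matrix.ProjectiveSpecialLinearGroup (Fin 2) (ZMod 13))) ∨
    ((Nonempty (G ⧸ Cfsg.pPrimeCore 3 G ≃* (GL (Fin 2) (ZMod 7) ⧸ Subgroup.center (GL (Fin 2) (ZMod 7)))) ∨
      Nonempty (G ⧸ Cfsg.pPrimeCore 3 G ≃* (GL (Fin 2) (ZMod 13) ⧸ Subgroup.center (GL (Fin 2) (ZMod 13))))) ∧
      ∃ K : Subgroup G, K.Normal ∧ K.index = 2 ∧ K ⊔ Subgroup.centralizer ({x} : Set G) = ⊤) := by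
  set O := Cfsg.pPrimeCore 3 G with hOdef
  have hOc : (Nat.card O).Coprime 3 := Lib.Cores.pPrimeCore_coprime 3
  have hcard : Nat.card (G ⧸ O) ∣ Nat.card G := Subgroup.card_quotient_dvd_card O
  have h9' : ¬ 9 ∣ Nat.card (G ⧸ O) := fun h => h9 (h.trans hcard)
  have h5' : ¬ 5 ∣ Nat.card (G ⧸ O) := fun h => h5 (h.trans hcard)
  have hO' : pPrimeCore 3 (G ⧸ O) = ⊥ := Lib.Cores.pPrimeCore_quotient_pPrimeCore 3
  have hx3 : x ^ 3 = 1 := by rw [← hx]; exact pow_orderOf_eq_one x
  have hxO : x ∉ O := by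
    intro hxO
    have h1 : 3 ∣ Nat.card O := by
      have := orderOf_dvd_natCard (⟨x, hxO⟩ : O)
      rwa [← Subgroup.orderOf_coe, hx] at this
    have h2 := (Nat.Prime.coprime_iff_not_dvd Nat.prime_three).1 hOc.symm
    exact h2 h1
  have hcent : Subgroup.centralizer ({(QuotientGroup.mk' O x)} : Set (G ⧸ O)) =
      (Subgroup.centralizer ({x} : Set G)).map (QuotientGroup.mk' O) := by
    have hP : IsPGroup 3 (Subgroup.zpowers x) := by
      apply IsPGroup.of_card (n := 1)
      rw [Nat.card_zpowers, hx, pow_one]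
    have h1 := PLocal.CoprimeLift.map_centralizer_mk O (Subgroup.zpowers x) hOc hP
    rw [MonoidHom.map_zpowers, H435.Three.centralizer_zpowers, H435.Three.centralizer_zpowers] at h1
    exact h1.symm
  set y : G ⧸ O := QuotientGroup.mk' O x with hydef
  have hy : orderOf y = 3 := by
    apply orderOf_eq_prime
    · rw [hydef, ← map_pow, hx3, map_one]
    · intro h
      exact hxO ((QuotientGroup.eq_one_iff x).1 h)
  by_cases hc : IsMulCommutative ↥(Subgroup.normalClosure ({y} : Set (G ⧸ O)))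
  · left
    have h1 := H435.Quot.case_comm h9' hO' hy hc
    refine ⟨h1, ?_⟩
    have hOs : Group.IsSolvable O := H435.Sol.isSolvable
      ((Nat.Prime.coprime_iff_not_dvd Nat.prime_three).1 hOc.symm)
      (fun h => h5 (h.trans (Subgroup.card_subgroup_dvd_card O)))
    have hQs : Group.IsSolvable (G ⧸ O) := by
      rcases h1 with h1 | ⟨⟨e⟩⟩
      · exact S0061.result 2 3 0 Nat.prime_two Nat.prime_three (by rw [h1]; norm_num)
      · exact S0061.result 2 3 1 Nat.prime_two Nat.prime_three (by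
          rw [Nat.card_congr e.toEquiv, DihedralGroup.nat_card]; norm_num)
    exact (Group.isSolvable_iff_subgroup_quotient O).2 ⟨hOs, hQs⟩
  · right
    have hsimple := H435.Quot.simple h9' hO' hy
    have hC0 := H435.Quot.centralizer_eq_bot h9' hO' hy hc
    have hsup := H435.Quot.sup_centralizer h9' hO' hy hc
    have hyL : y ∈ Subgroup.normalClosure ({y} : Set (G ⧸ O)) := Subgroup.subset_normalClosure rfl
    have hLn : (Subgroup.normalClosure ({y} : Set (G ⧸ O))).Normal := Subgroup.normalClosure_normal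
    set L := Subgroup.normalClosure ({y} : Set (G ⧸ O)) with hLdef
    have hdvd : Nat.card L ∣ Nat.card (G ⧸ O) := Subgroup.card_subgroup_dvd_card L
    have hyo : orderOf (⟨y, hyL⟩ : L) = 3 := by rw [← Subgroup.orderOf_coe]; exact hy
    have hCL : ∀ a ∈ Subgroup.centralizer ({(⟨y, hyL⟩ : L)} : Set L), ((a : L) : G ⧸ O) ∈
        Subgroup.centralizer ({y} : Set (G ⧸ O)) := by
      intro a ha
      rw [Subgroup.mem_centralizer_singleton_iff] at ha ⊢
      exact congrArg Subtype.val ha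
    have hCcard : Nat.card (Subgroup.centralizer ({(⟨y, hyL⟩ : L)} : Set L)) ∣ 12 := by
      have h1 : (Subgroup.centralizer ({(⟨y, hyL⟩ : L)} : Set L)).map L.subtype ≤
          Subgroup.centralizer ({y} : Set (G ⧸ O)) := by
        rintro _ ⟨a, ha, rfl⟩
        exact hCL a ha
      have h2 := Subgroup.card_dvd_of_le h1
      rw [hcent] at h2
      have h3 : Nat.card ((Subgroup.centralizer ({(⟨y, hyL⟩ : L)} : Set L)).map L.subtype) =
          Nat.card (Subgroup.centralizer ({(⟨y, hyL⟩ : L)} : Set L)) :=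
        (Nat.card_congr (Subgroup.equivMapOfInjective _ _ L.subtype_injective).toEquiv).symm
      rw [h3] at h2
      refine h2.trans ?_
      rw [← hC]
      exact Subgroup.card_dvd_of_surjective _ (MonoidHom.subgroupMap_surjective (QuotientGroup.mk' O)
        (Subgroup.centralizer ({x} : Set G)))
    have hexp : ∀ a ∈ Subgroup.centralizer ({(⟨y, hyL⟩ : L)} : Set L), a ^ 6 = 1 := by
      intro a ha
      have h1 := hCL a ha
      rw [hcent] at h1
      obtain ⟨b, hb, hba⟩ := h1
      apply Subtype.ext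
      change (a : G ⧸ O) ^ 6 = 1
      rw [← hba, ← map_pow, hCexp b hb, map_one]
    rcases H435.Six.lemmaA hc (fun h => h5' (h.trans hdvd)) (fun h => h9' (h.trans hdvd)) hyo hCcard hexp with h | h
    · have : Fact (Nat.Prime 7) := ⟨by norm_num⟩
      obtain ⟨e⟩ := S0495.result h (F := ZMod 7) (ZMod.card 7)
      rcases final x O hcent L hLn hC0 hsup 7 two7 e with h | h
      · exact Or.inl (Or.inl h)
      · exact Or.inr ⟨Or.inl h.1, h.2⟩
    · have : Fact (Nat.Prime 13) := ⟨by norm_num⟩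
      obtain ⟨e⟩ := S0498.result (G := L) 13 (Or.inr rfl) (by rw [h]; norm_num) (F := ZMod 13) (ZMod.card 13)
      rcases final x O hcent L hLn hC0 hsup 13 two13 e with h | h
      · exact Or.inl (Or.inr h)
      · exact Or.inr ⟨Or.inr h.1, h.2⟩

end Cfsg.Agent.S3714
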