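import Cfsg.Statements.S3715
import Cfsg.Agent.H435.Six
import Cfsg.Agent.H435.Klein
import Cfsg.Agent.SignalizersComponents.BalPSL2
import Cfsg.Agent.S0495
import Cfsg.Agent.S0498

set_option autoImplicit false
open Cfsg

namespace Cfsg.Agent.S3715

theorem aux {G : Type*} [Group G] [Finite G] (x : G) (hx : orderOf x = 3)
    (hC : Nat.card ↥(Subgroup.centralizer ({x} : Set G)) = 12)
    (hCexp : ∀ a ∈ Subgroup.centralizer ({x} : Set G), a ^ 6 = 1) {F : Type*} [Field F] (h2 : (2 : F) ≠ 0)
    (e : G ≃* Matrix.ProjectiveSpecialLinearGroup (Fin 2) F) : False := by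
  obtain ⟨a, b, ha, hb, hab⟩ := H435.Klein.exists_two (C := ↥(Subgroup.centralizer ({x} : Set G)))
    (by rw [hC]; norm_num) (fun a => Subtype.ext (hCexp a a.2))
  have hx1 : x ≠ 1 := by
    rintro rfl
    rw [orderOf_one] at hx
    omega
  have ha' : Commute x (a : G) := (Subgroup.mem_centralizer_singleton_iff.1 a.2).symm
  have hb' : Commute x (b : G) := (Subgroup.mem_centralizer_singleton_iff.1 b.2).symm
  have h := SignalizersComponents.BalPSL2.unique_involution h2 (e x) (e a) (e b)
    (by rw [Ne, map_eq_one_iff e e.injective]; exact hx1) (by rw [MulEquiv.orderOf_eq, hx]; decide)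
    (by rw [MulEquiv.orderOf_eq, Subgroup.orderOf_coe, ha]) (by rw [MulEquiv.orderOf_eq, Subgroup.orderOf_coe, hb])
    (ha'.map e) (hb'.map e)
  exact hab (Subtype.ext (e.injective h))

theorem two7 : (2 : ZMod 7) ≠ 0 := by decide

theorem two13 : (2 : ZMod 13) ≠ 0 := by decide

/-- There is no finite non-abelian simple group of order prime to 5 in which some element of order 3 has abelian centralizer of order 12 and exponent dividing 6 (that is, centralizer isomorphic to the direct product of a cyclic group of order 3 and a Klein four-group). -/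
theorem result {G : Type*} [Group G] [Finite G] [IsSimpleGroup G] (hG : ¬ IsMulCommutative G) (h5 : ¬ 5 ∣ Nat.card G) (x : G) (hx : orderOf x = 3)
    (hC : Nat.card ↥(Subgroup.centralizer ({x} : Set G)) = 12)
    (hCab : ∀ a ∈ Subgroup.centralizer ({x} : Set G), ∀ b ∈ Subgroup.centralizer ({x} : Set G), a * b = b * a)
    (hCexp : ∀ a ∈ Subgroup.centralizer ({x} : Set G), a ^ 6 = 1) : False := by
  have h9 : ¬ 9 ∣ Nat.card G := H435.Three.not_nine hx (by rw [hC]; norm_num)
  rcases H435.Six.lemmaA hG h5 h9 hx (by rw [hC]) hCexp with h | h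
  · have : Fact (Nat.Prime 7) := ⟨by norm_num⟩
    obtain ⟨e⟩ := S0495.result h (F := ZMod 7) (ZMod.card 7)
    exact aux x hx hC hCexp two7 e
  · have : Fact (Nat.Prime 13) := ⟨by norm_num⟩
    obtain ⟨e⟩ := S0498.result (G := G) 13 (Or.inr rfl) (by rw [h]; norm_num) (F := ZMod 13) (ZMod.card 13)
    exact aux x hx hC hCexp two13 e

end Cfsg.Agent.S3715
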