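import Cfsg.Statements.S3716
import Cfsg.Agent.H435.Elim
import Cfsg.Agent.H435.L34

set_option autoImplicit false
open Cfsg

namespace Cfsg.Agent.S3716

/-- Let G be a finite group with an elementary abelian Sylow 3-subgroup M of order 9 which is self-centralizing (C_G(M) = M), let N = N_G(M), and suppose C_G(g) ≤ N for every nonidentity g ∈ M. If the Sylow 2-subgroups of N are dihedral of order 8, then G is not simple. -/
theorem result {G : Type*} [Group G] [Finite G] (M : Sylow 3 G) (hM9 : Nat.card ↥(M : Subgroup G) = 9)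
    (hMel : ∀ m ∈ (M : Subgroup G), m ^ 3 = 1)
    (hCM : Subgroup.centralizer ((M : Subgroup G) : Set G) = (M : Subgroup G))
    (N : Subgroup G) (hN : N = Subgroup.normalizer ((M : Subgroup G) : Set G))
    (hCg : ∀ g ∈ (M : Subgroup G), g ≠ 1 → Subgroup.centralizer ({g} : Set G) ≤ N)
    (hS : ∀ S : Sylow 2 ↥N, Nonempty (↥(S : Subgroup ↥N) ≃* DihedralGroup 4)) :
    ¬ IsSimpleGroup G := by
  intro hsimple
  subst hN
  have H : H435.Nine.Hyp M := ⟨hM9, hMel, hCM, hCg⟩
  obtain ⟨S⟩ : Nonempty (Sylow 2 ↥(Subgroup.normalizer ((M : Subgroup G) : Set G))) := inferInstance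
  have hS8 : Nat.card ↥(S : Subgroup ↥(Subgroup.normalizer ((M : Subgroup G) : Set G))) = 8 := by
    rw [Nat.card_congr (hS S).some.toEquiv, DihedralGroup.nat_card]
  have hN := H.card_of_sylow S hS8 (Or.inl rfl)
  have hna : ¬ IsMulCommutative G := by
    intro hc
    have h1 : (M : Subgroup G) = ⊤ := by
      rw [← hCM, eq_top_iff]
      intro x _
      rw [Subgroup.mem_centralizer_iff]
      intro y _
      exact hc.is_comm.comm y x
    have h2 : Nat.card G = 9 := by rw [← hM9, h1, Subgroup.card_top]
    have h3 : Nat.card ↥(Subgroup.normalizer ((M : Subgroup G) : Set G)) ∣ Nat.card G :=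
      Subgroup.card_subgroup_dvd_card _
    rw [h2, hN] at h3
    norm_num at h3
  rcases H435.Elim.elim hna H (Or.inl rfl) hN with h | ⟨-, F, _, _, hF, ⟨e⟩⟩
  · exact absurd h.1 (by norm_num)
  · obtain ⟨x, hx, hxt⟩ := H435.L34.exists_x hF
    have hx' : orderOf (e.symm x) = 3 := by rw [MulEquiv.orderOf_eq, hx]
    have h18 := H.all_even S (hS S).some hx'
    obtain ⟨t, ht⟩ := exists_prime_orderOf_dvd_card' (G := ↥(Subgroup.centralizer ({e.symm x} : Set G))) 2
      (by rw [h18]; norm_num)
    have htt : (t : G) * t = 1 := by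
      have := pow_orderOf_eq_one t
      rw [ht, pow_two] at this
      exact congrArg Subtype.val this
    have htx : (t : G) * e.symm x = e.symm x * t := Subgroup.mem_centralizer_singleton_iff.1 t.2
    have h1 := hxt (e t) (by rw [← map_mul, htt, map_one]) (by
      have := congrArg e htx
      rwa [map_mul, map_mul, e.apply_symm_apply] at this)
    have h2 : (t : G) = 1 := by
      rw [← e.symm_apply_apply (t : G), h1, map_one]
    have h3 : t = 1 := Subtype.ext h2
    rw [h3, orderOf_one] at ht
    omega

end Cfsg.Agent.S3716
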