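import Cfsg.Statements.S3717
import Cfsg.Agent.H435.Elim

set_option autoImplicit false
open Cfsg

namespace Cfsg.Agent.S3717

/-- Let G be a finite non-abelian simple group with an elementary abelian Sylow 3-subgroup M of order 9 which is self-centralizing (C_G(M) = M), let N = N_G(M), and suppose C_G(g) ≤ N for every nonidentity g ∈ M. If the Sylow 2-subgroups of N are semidihedral of order 16 (order 16, generated by a of order 8 and an involution b with b a b⁻¹ = a³), then G is isomorphic to the Mathieu group of degree 11. -/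
theorem result {G : Type*} [Group G] [Finite G] [IsSimpleGroup G] (hG : ¬ IsMulCommutative G) (M : Sylow 3 G) (hM9 : Nat.card ↥(M : Subgroup G) = 9)
    (hMel : ∀ m ∈ (M : Subgroup G), m ^ 3 = 1)
    (hCM : Subgroup.centralizer ((M : Subgroup G) : Set G) = (M : Subgroup G))
    (N : Subgroup G) (hN : N = Subgroup.normalizer ((M : Subgroup G) : Set G))
    (hCg : ∀ g ∈ (M : Subgroup G), g ≠ 1 → Subgroup.centralizer ({g} : Set G) ≤ N)
    (hS : ∀ S : Sylow 2 ↥N, Nat.card ↥(S : Subgroup ↥N) = 16 ∧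
      ∃ a ∈ (S : Subgroup ↥N), ∃ b ∈ (S : Subgroup ↥N), orderOf a = 8 ∧ orderOf b = 2 ∧ b * a * b⁻¹ = a ^ 3) :
    Cfsg.Spor.IsoM11 G := by
  subst hN
  have H : H435.Nine.Hyp M := ⟨hM9, hMel, hCM, hCg⟩
  obtain ⟨S⟩ : Nonempty (Sylow 2 ↥(Subgroup.normalizer ((M : Subgroup G) : Set G))) := inferInstance
  have hN := H.card_of_sylow S (hS S).1 (Or.inr rfl)
  rcases H435.Elim.elim hG H (Or.inr rfl) hN with h | h
  · exact h.2
  · exact absurd h.1 (by norm_num)

end Cfsg.Agent.S3717
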