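import Cfsg.Statements.S3722
import Cfsg.Agent.H437.Cases
import Cfsg.Agent.H437.PowMain
import Cfsg.Agent.H437.Spor
-- import your own Cfsg.Agent.* helpers here

set_option autoImplicit false
open Cfsg

namespace Cfsg.Agent.S3722

/-- The order of a finite simple group is never a perfect k-th power with k ≥ 3. -/
theorem result {G : Type*} [Group G] [Finite G] [IsSimpleGroup G] (m k : ℕ) (hk : 3 ≤ k) :
    Nat.card G ≠ m ^ k := by
  rcases H437.cases G with h1 | ⟨n, hn, ⟨e⟩⟩ | ⟨T, p, f, hL⟩ | h1 | h1
  · exact H437.prime_not_pow h1 (by omega)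
  · exact H437.fact_not_pow hn (by omega) (H437.two_mul_card_alt (by omega) e)
  · exact hL.isOrd.not_pow hk
  · exact H437.spor_not_pow (H437.spor_mem (.inl h1)) (by omega)
  · exact H437.spor_not_pow (H437.spor_mem (.inr h1)) (by omega)

end Cfsg.Agent.S3722
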