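import Cfsg.Statements.S3723
import Cfsg.Agent.H437.Cases
import Cfsg.Agent.H437.PowMain
import Cfsg.Agent.H437.Spor
-- import your own Cfsg.Agent.* helpers here

set_option autoImplicit false
open Cfsg

namespace Cfsg.Agent.S3723

/-- The order of a finite simple group G is a perfect square if and only if G is isomorphic to PSp₄(p) for a prime p such that p² + 1 is twice a square (p = 7, 41, 239, …). -/
theorem result {G : Type*} [Group G] [Finite G] [IsSimpleGroup G] :
    (∃ m : ℕ, Nat.card G = m ^ 2) ↔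
      ∃ (F : Type) (_ : Field F) (_ : Fintype F) (p y : ℕ), p.Prime ∧ p ^ 2 + 1 = 2 * y ^ 2 ∧
        Fintype.card F = p ∧ Nonempty (G ≃* Cfsg.PSp 2 F) := by
  constructor
  · rintro ⟨m, h⟩
    rcases H437.cases G with h1 | ⟨n, hn, ⟨e⟩⟩ | ⟨T, p, f, hL⟩ | h1 | h1
    · exact (H437.prime_not_pow h1 le_rfl h).elim
    · exact (H437.fact_not_pow hn le_rfl (H437.two_mul_card_alt (by omega) e) h).elim
    · obtain ⟨-, rfl, rfl, z, hz⟩ := hL.isOrd.pow_prime Nat.prime_two h
      rcases hL.rep with ⟨F, iF, iF', hF, he⟩ | ⟨h3, -⟩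
      · exact ⟨F, iF, iF', p, z, hL.prime, hz, by rw [hF, pow_one], he⟩
      · omega
    · exact (H437.spor_not_pow (H437.spor_mem (.inl h1)) le_rfl h).elim
    · exact (H437.spor_not_pow (H437.spor_mem (.inr h1)) le_rfl h).elim
  · rintro ⟨F, iF, iF', p, y, hp, hy, hF, ⟨e⟩⟩
    rw [Nat.card_congr e.toEquiv]
    exact H437.sq_of_pell hp hy (H437.card_psp hF (m := 2) (by norm_num))

end Cfsg.Agent.S3723
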