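import Cfsg.Agent.H428.SylNorm.Ten
import Cfsg.Agent.OrdDiv.Table
import Cfsg.Agent.S0000

set_option autoImplicit false

namespace Cfsg.Agent.S3725

open Cfsg Cfsg.Agent.H428.SylNorm Subgroup

universe u v

/-- the set of the orders of the Sylow normalizers -/
def NS (G : Type u) [Group G] : Set ℕ :=
  {m : ℕ | ∃ p : ℕ, p.Prime ∧ p ∣ Nat.card G ∧ ∃ P : Sylow p G, m = Nat.card ↥(Subgroup.normalizer ((P : Subgroup G) : Set G))}

theorem card_dvd {G : Type u} [Group G] [Finite G] {A : Type v} [Group A] [Finite A] (h : NS G ⊆ NS A) :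
    Nat.card G ∣ Nat.card A := by
  rw [← Nat.factorization_le_iff_dvd Nat.card_pos.ne' Nat.card_pos.ne']
  intro p
  by_cases hp : p.Prime
  swap
  · rw [Nat.factorization_eq_zero_of_not_prime _ hp]
    exact Nat.zero_le _
  by_cases hd : p ∣ Nat.card G
  swap
  · rw [Nat.factorization_eq_zero_of_not_dvd hd]
    exact Nat.zero_le _
  have : Fact p.Prime := ⟨hp⟩
  obtain ⟨P⟩ : Nonempty (Sylow p G) := inferInstance
  obtain ⟨s, hs, hsA, Q, hQ⟩ := h (⟨p, hp, hd, P, rfl⟩ : Nat.card ↥(Subgroup.normalizer ((P : Subgroup G) : Set G)) ∈ NS G)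
  have h1 : p ^ (Nat.card G).factorization p ∣ Nat.card ↥(Subgroup.normalizer ((P : Subgroup G) : Set G)) := by
    rw [← P.card_eq_multiplicity]
    exact Subgroup.card_dvd_of_le Subgroup.le_normalizer
  rw [hQ] at h1
  exact (hp.pow_dvd_iff_le_factorization Nat.card_pos.ne').mp (h1.trans (Subgroup.card_subgroup_dvd_card _))

theorem hyp {G : Type u} [Group G] [Finite G] {n : ℕ} (hn : 5 ≤ n) (h : NS G = NS (alternatingGroup (Fin n))) :
    Hyp2 G n := by
  have hc : Nat.card G = Nat.card (alternatingGroup (Fin n)) :=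
    Nat.dvd_antisymm (card_dvd h.subset) (card_dvd h.symm.subset)
  refine ⟨?_, ?_⟩
  · rw [hc]
    exact Cfsg.Agent.H363.AltPrimes.card_alternating (by omega)
  · intro p hp hp5 hpn hnp
    have : Fact p.Prime := ⟨hp⟩
    have h1 := Alt.card_sylow_alt (n := n) (p := p) (by omega) hpn hnp
    have hpA : p ∣ Nat.card (alternatingGroup (Fin n)) := by
      rw [hp.dvd_iff_one_le_factorization Nat.card_pos.ne',
        Cfsg.Agent.H363.AltPrimes.factorization_alternating (by omega) hp (by omega) hpn hnp]
    obtain ⟨P⟩ : Nonempty (Sylow p G) := inferInstance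
    have h2 : Nat.card ↥(Subgroup.normalizer ((P : Subgroup G) : Set G)) ∈ NS (alternatingGroup (Fin n)) := by
      rw [← h]
      exact ⟨p, hp, by rw [hc]; exact hpA, P, rfl⟩
    obtain ⟨s, hs, hsA, Q, hQ⟩ := h2
    have hd : p ∣ Nat.card ↥(Subgroup.normalizer ((Q : Subgroup (alternatingGroup (Fin n))) :
        Set (alternatingGroup (Fin n)))) := by
      rw [← hQ]
      exact (P.dvd_card_of_dvd_card (by rw [hc]; exact hpA)).trans (Subgroup.card_dvd_of_le Subgroup.le_normalizer)
    have hsp : s = p := by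
      by_contra hne
      have : Fact s.Prime := ⟨hs⟩
      exact Alt.not_dvd_normalizer hp hp5 hpn hnp hne hsA Q hd
    subst hsp
    have h3 := card_sylow_mul P
    have h4 := card_sylow_mul Q
    rw [hQ, hc, ← h4] at h3
    have h5 := Nat.eq_of_mul_eq_mul_right (Nat.card_pos (α := ↥(Subgroup.normalizer
      ((Q : Subgroup (alternatingGroup (Fin n))) : Set (alternatingGroup (Fin n)))))) h3
    rw [h5]
    exact h1

/-- Let n ≥ 5 and let G be a finite group such that the set of orders of the Sylow normalizers of G (over the primes dividing |G|) coincides with the corresponding set for the alternating group A_n. Then G is isomorphic to A_n. -/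
theorem result {G : Type*} [Group G] [Finite G] (n : ℕ) (hn : 5 ≤ n)
    (h : {m : ℕ | ∃ p : ℕ, p.Prime ∧ p ∣ Nat.card G ∧ ∃ P : Sylow p G, m = Nat.card ↥(Subgroup.normalizer ((P : Subgroup G) : Set G))} =
      {m : ℕ | ∃ p : ℕ, p.Prime ∧ p ∣ Nat.card ↥(alternatingGroup (Fin n)) ∧
        ∃ P : Sylow p ↥(alternatingGroup (Fin n)), m = Nat.card ↥(Subgroup.normalizer ((P : Subgroup ↥(alternatingGroup (Fin n))) : Set ↥(alternatingGroup (Fin n))))}) :
    Nonempty (G ≃* ↥(alternatingGroup (Fin n))) := by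
  have h' : NS G = NS (alternatingGroup (Fin n)) := h
  have H := hyp hn h'
  have hcl := fun (S : Type _) [Group S] [Finite S] [IsSimpleGroup S] => Cfsg.Agent.S0000.result (G := S)
  have T := Cfsg.Agent.OrdDiv.table
  rcases Nat.lt_or_ge n 13 with h13 | h13
  · interval_cases n
    · exact case5 T H hcl
    · exact case6 T H hcl
    · exact case7 T H hcl
    · exact case8 T H hcl
    · exact case9 T H hcl
    · refine case10 T H hcl ?_
      have : Fact (Nat.Prime 5) := ⟨by norm_num⟩
      obtain ⟨Q⟩ : Nonempty (Sylow 5 (alternatingGroup (Fin 10))) := inferInstance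
      have h1 : Nat.card ↥(Subgroup.normalizer ((Q : Subgroup (alternatingGroup (Fin 10))) :
          Set (alternatingGroup (Fin 10)))) ∈ NS G := by
        rw [h']
        refine ⟨5, by norm_num, ?_, Q, rfl⟩
        have hA := Cfsg.Agent.H363.AltPrimes.card_alternating (n := 10) (by norm_num)
        rw [show Nat.factorial 10 = 3628800 by decide +kernel] at hA
        omega
      obtain ⟨s, hs, hsG, P, hP⟩ := h1
      refine ⟨s, ⟨hs⟩, hsG, P, ?_⟩
      rw [← hP]
      exact not_three_dvd Q
    · exact case11 T H hcl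
    · exact case12 T H hcl
  · obtain ⟨N, hN, M, D⟩ := exists_data2 (by omega) H
    have := D.simple
    obtain ⟨m, ⟨e⟩⟩ := exists_alt2 T D H h13 (hcl M)
    exact Data.final2 D H h13 e (Cfsg.Agent.H357.Main.two_mul_card D.nonab e)

end Cfsg.Agent.S3725
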