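import Cfsg.Statements.S3727
import Cfsg.Agent.H438.SLThreeAE

set_option autoImplicit false
open Cfsg

namespace Cfsg.Agent.S3727

open MulAction Cfsg.Agent.H438.SLThree

/-- Let a finite group G act faithfully and 2-transitively on a finite set Ω of even size, and suppose the stabilizer of a point a has a normal subgroup N isomorphic to PSL₃(q) with q = 2ⁿ, n ≥ 1. Then N is transitive on the remaining points, and either G has a normal subgroup of order q³ acting regularly on Ω and n is odd, or Ω has 22 points, q = 4, and G is isomorphic to the Mathieu group M₂₂ or has a subgroup of index 2 isomorphic to M₂₂. -/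
theorem result {G Ω : Type*} [Group G] [Finite G] [Fintype Ω] [MulAction G Ω] [FaithfulSMul G Ω]
    (h2 : MulAction.IsMultiplyPretransitive G Ω 2) (hev : Even (Fintype.card Ω)) (a : Ω) (N : Subgroup G)
    (hNle : N ≤ MulAction.stabilizer G a) (hNnormal : ∀ g ∈ MulAction.stabilizer G a, ∀ x ∈ N, g * x * g⁻¹ ∈ N)
    (n : ℕ) (hn : 1 ≤ n)
    (hN : ∃ (F : Type) (_ : Field F) (_ : Fintype F), Fintype.card F = 2 ^ n ∧
      Nonempty (↥N ≃* Matrix.ProjectiveSpecialLinearGroup (Fin 3) F)) :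
    (∀ x y : Ω, x ≠ a → y ≠ a → ∃ g ∈ N, g • x = y) ∧
    ((Odd n ∧ ∃ E : Subgroup G, E.Normal ∧ Nat.card E = (2 ^ n) ^ 3 ∧ (∀ x y : Ω, ∃ r ∈ E, r • x = y) ∧
        ∀ x : Ω, ∀ r ∈ E, r • x = x → r = 1) ∨
     (Fintype.card Ω = 22 ∧ n = 2 ∧ (Cfsg.Spor.IsoM22 G ∨ ∃ H : Subgroup G, H.index = 2 ∧ Cfsg.Spor.IsoM22 ↥H))) := by
  classical
  obtain ⟨F, hFf, hFt, hF, ⟨e⟩⟩ := hN
  have : Fact (Nat.Prime 2) := ⟨Nat.prime_two⟩
  have hchar : CharP F 2 := charP_of_card_eq_prime_pow hF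
  have hfinS : Finite (Matrix.SpecialLinearGroup (Fin 3) F) := inferInstance
  -- the second point
  have hb0 : ∃ b0 : Ω, b0 ≠ a := by
    by_contra hcon
    push Not at hcon
    have h1 : Fintype.card Ω = 1 := by
      rw [Fintype.card_eq_one_iff]
      exact ⟨a, hcon⟩
    rw [h1] at hev
    exact absurd hev (by decide)
  obtain ⟨b0, hb0⟩ := hb0
  have hnt : Nontrivial Ω := ⟨⟨b0, a, hb0⟩⟩
  have htwo : ∀ a b a' b' : Ω, a ≠ b → a' ≠ b' → ∃ g : G, g • a = a' ∧ g • b = b' :=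
    fun a b a' b' hab hab' => MulAction.is_two_pretransitive_iff.mp h2 hab hab'
  have htr : ∀ b : Ω, ∃ y : G, y • a = b := by
    intro b
    obtain ⟨b', hb'⟩ := exists_ne b
    obtain ⟨g, hg, -⟩ := htwo a b0 b b' hb0.symm hb'.symm
    exact ⟨g, hg⟩
  choose y hy using htr
  -- the representation
  let ρ0 : Matrix.SpecialLinearGroup (Fin 3) F →* G :=
    N.subtype.comp (e.symm.toMonoidHom.comp (QuotientGroup.mk' (Subgroup.center (Matrix.SpecialLinearGroup (Fin 3) F))))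
  have hρ0 : ∀ g, ρ0 g ∈ N := fun g => (e.symm _).2
  have hρ0' : ∀ x ∈ N, ∃ g, ρ0 g = x := by
    intro x hx
    obtain ⟨g, hg⟩ := QuotientGroup.mk'_surjective _ (e ⟨x, hx⟩)
    refine ⟨g, ?_⟩
    change ((e.symm (QuotientGroup.mk' _ g) : N) : G) = x
    rw [hg, MulEquiv.symm_apply_apply]
  have hrep0 : ∀ g, ρ0 g = 1 ↔ g ∈ Subgroup.center (Matrix.SpecialLinearGroup (Fin 3) F) := by
    intro g
    rw [← QuotientGroup.eq_one_iff]
    change ((e.symm (QuotientGroup.mk' _ g) : N) : G) = 1 ↔ _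
    rw [OneMemClass.coe_eq_one, map_eq_one_iff e.symm e.symm.injective]
    rfl
  let ρ : Ω → (Matrix.SpecialLinearGroup (Fin 3) F →* G) := fun b => (MulAut.conj (y b)).toMonoidHom.comp ρ0
  have hρ : ∀ b g, ρ b g = y b * ρ0 g * (y b)⁻¹ := fun b g => rfl
  have hc : Cfg ρ := by
    refine ⟨htwo, ?_, ?_, ?_, ?_, ?_⟩
    · intro g hg
      apply FaithfulSMul.eq_of_smul_eq_smul (α := Ω)
      intro x
      rw [hg, one_smul]
    · rwa [Nat.card_eq_fintype_card]
    · intro b g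
      rw [← hrep0, hρ, mul_inv_eq_one, mul_eq_left]
    · intro b g
      rw [hρ, mul_smul, mul_smul]
      have h1 : (y b)⁻¹ • b = a := by rw [inv_smul_eq_iff, hy]
      rw [h1, (hNle (hρ0 g) : ρ0 g • a = a), hy]
    · intro z b g
      have h1 : ((y (z • b))⁻¹ * z * y b) ∈ stabilizer G a := by
        rw [mem_stabilizer_iff, mul_smul, mul_smul, hy, inv_smul_eq_iff, hy]
      obtain ⟨g', hg'⟩ := hρ0' _ (hNnormal _ h1 _ (hρ0 g))
      refine ⟨g', ?_⟩
      rw [hρ, hρ, hg']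
      group
  have hNa : ∀ x, x ∈ Cfsg.Agent.H438.SLThree.N ρ a → x ∈ N := by
    rintro _ ⟨g, rfl⟩
    exact hNnormal _ (hy a) _ (hρ0 g)
  rcases hc.types with hFl | ⟨ρ', hc', hN', hP'⟩
  · exact (hc.not_typeFl hFl hb0).elim
  · have hFc : Nat.card F = 2 ^ n := by rw [Nat.card_eq_fintype_card, hF]
    obtain ⟨h1, h3⟩ := hc'.pt_main hP' a hn hFc
    refine ⟨?_, ?_⟩
    · intro x x' hx hx'
      obtain ⟨g, hg⟩ := h1 x x' hx hx'
      exact ⟨ρ' a g, hNa _ (by rw [← hN']; exact rho_mem a g), hg⟩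
    · rcases h3 with ⟨h3, h4⟩ | ⟨h3, h4⟩
      · left
        refine ⟨h3, ?_⟩
        rw [← hFc]
        exact hc'.exists_regular hP' h4 hn hFc a
      · right
        obtain ⟨h5, h6⟩ := hc'.m22 hP' a (by rw [hFc, h3]; norm_num) h4
        exact ⟨h5, h3, h6⟩

end Cfsg.Agent.S3727
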