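import Cfsg.Statements.S3744
import Cfsg.Agent.H442.HallGen

set_option autoImplicit false
open Cfsg

namespace Cfsg.Agent.S3744

open Cfsg.Agent.H442.HallGen

theorem pn_iff {p n : ℕ} [hp : Fact p.Prime] (hn : n ≠ 0) : PN {q | q ≠ p} n ↔ n.Coprime p := by
  constructor
  · intro h
    rw [Nat.coprime_comm, hp.out.coprime_iff_not_dvd]
    intro hd
    exact h p hp.out hd rfl
  · intro h q hq hd
    simp only [Set.mem_ofPred_eq]
    rintro rfl
    exact hq.one_lt.ne' (Nat.eq_one_of_dvd_coprimes h hd dvd_rfl)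

theorem pn'_iff {p n : ℕ} [hp : Fact p.Prime] (hn : n ≠ 0) :
    PN' {q | q ≠ p} n ↔ ∃ k : ℕ, n = p ^ k := by
  constructor
  · intro h
    refine ⟨n.primeFactorsList.length, ?_⟩
    exact Nat.eq_prime_pow_of_unique_prime_dvd hn (fun {d} hd hdn => by
      have := h d hd hdn
      simpa using this)
  · rintro ⟨k, rfl⟩ q hq hd
    have := (Nat.prime_dvd_prime_iff_eq hq hp.out).mp (hq.dvd_of_dvd_pow hd)
    simp [this]

/-- A finite p-soluble group has a p-complement, all its p-complements are conjugate, and every subgroup of order prime to p lies in one of them. Here a p-complement is a subgroup of order prime to p whose index is a power of p. -/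
theorem result {G : Type*} [Group G] [Finite G] {p : ℕ} [Fact p.Prime] (hG : Cfsg.IsPSolvable p G) : (∃ H : Subgroup G, (Nat.card H).Coprime p ∧ ∃ n : ℕ, H.index = p ^ n) ∧ (∀ H₁ H₂ : Subgroup G, (Nat.card H₁).Coprime p → (∃ n : ℕ, H₁.index = p ^ n) → (Nat.card H₂).Coprime p → (∃ n : ℕ, H₂.index = p ^ n) → ∃ g : G, H₂ = H₁.map (MulAut.conj g).toMonoidHom) ∧ (∀ U : Subgroup G, (Nat.card U).Coprime p → ∃ H : Subgroup G, (Nat.card H).Coprime p ∧ (∃ n : ℕ, H.index = p ^ n) ∧ ∃ g : G, U.map (MulAut.conj g).toMonoidHom ≤ H) := by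
  have hD := dclass_of_pSolvable p _ G rfl hG
  have hHall : ∀ H : Subgroup G, IsHall {q | q ≠ p} H ↔
      ((Nat.card H).Coprime p ∧ ∃ n : ℕ, H.index = p ^ n) := by
    intro H
    constructor
    · rintro ⟨h1, h2⟩
      exact ⟨(pn_iff Nat.card_pos.ne').mp h1, (pn'_iff Subgroup.index_ne_zero_of_finite).mp h2⟩
    · rintro ⟨h1, h2⟩
      exact ⟨(pn_iff Nat.card_pos.ne').mpr h1, (pn'_iff Subgroup.index_ne_zero_of_finite).mpr h2⟩
  obtain ⟨K, hK, hdom⟩ := exists_hall hD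
  refine ⟨⟨K, (hHall K).mp hK⟩, ?_, ?_⟩
  · intro H₁ H₂ h₁ h₁' h₂ h₂'
    obtain ⟨g, hg⟩ := conj_of_isHall hD ((hHall H₁).mpr ⟨h₁, h₁'⟩) ((hHall H₂).mpr ⟨h₂, h₂'⟩)
    exact ⟨g, hg.symm⟩
  · intro U hU
    obtain ⟨g, hg⟩ := hdom U ((pn_iff Nat.card_pos.ne').mpr hU)
    exact ⟨K, ((hHall K).mp hK).1, ((hHall K).mp hK).2, g, hg⟩

end Cfsg.Agent.S3744
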