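import Cfsg.Statements.S3752
import Cfsg.Agent.SignalizersComponents.Bender
import Cfsg.Agent.SignalizersComponents.CharP
import Cfsg.Agent.S1312

set_option autoImplicit false
set_option linter.style.haveILetI false
open Cfsg

namespace Cfsg.Agent.S3752

open Subgroup Cfsg.Agent.Lib.Cores Cfsg.Agent.Lib.GenFitting Cfsg.Agent.SignalizersComponents.Bender

open Cfsg.Agent.SignalizersComponents.Components (layer_normal)

open Cfsg.Agent.S1312 (coreIn_le_inf coreIn_inf_eq_bot layer_subset map_subtype_eq_bot)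

variable {G : Type*} [Group G]

/-- Main step, relative version (after `SignalizersComponents.Bender.coreIn_inf_le`).  `M, N ≤ G`, `D = M ∩ N`,
`E(M) = 1`, every `O_r(M) ≤ N`, and the centralizer of `O_p(D)` in `M` lies in `N`.  Then `O_q(D) ≤ O_q(M)` for `q ≠ p`. -/
theorem coreIn_inf_le_rel [Finite G] {M N : Subgroup G} (hl : layer M = ⊥)
    (hMN : (fittingSubgroup M).map M.subtype ≤ N) {p q : ℕ} (hp : p.Prime) (hq : q.Prime)
    (hpq : p ≠ q)
    (hc : M ⊓ centralizer (coreIn p (M ⊓ N) : Set G) ≤ N) :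
    coreIn q (M ⊓ N) ≤ coreIn q M := by
  haveI := Fact.mk hp
  haveI := Fact.mk hq
  set D := M ⊓ N with hD
  have hDM : D ≤ M := inf_le_left
  have hDN : D ≤ N := inf_le_right
  have hcoreF : ∀ r : ℕ, r.Prime → coreIn r M ≤ (fittingSubgroup M).map M.subtype := by
    intro r hr
    haveI := Fact.mk hr
    exact Subgroup.map_mono (pCore_le_fittingSubgroup r)
  -- O_r(M) ≤ O_r(D)
  have hMD : ∀ r : ℕ, r.Prime → coreIn r M ≤ coreIn r D := by
    intro r hr
    have h1 : pCore r M ≤ D.subgroupOf M := by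
      intro x hx
      rw [mem_subgroupOf]
      exact ⟨x.2, hMN (hcoreF r hr ⟨x, hx, rfl⟩)⟩
    have h2 := pCore_le_of_le r h1
    have h3 := Subgroup.map_mono (f := M.subtype) h2
    rw [pCore_subgroupOf r hDM] at h3
    exact h3
  -- elements centralizing all `O_r(M)`
  have hF : ∀ z ∈ M, (∀ r : ℕ, r.Prime → ∀ w ∈ coreIn r M, w * z = z * w) →
      z ∈ (fittingSubgroup M).map M.subtype := by
    intro z hz h
    have h1 := mem_fitting_of_layer_eq_bot (x := (⟨z, hz⟩ : M)) hl (by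
      intro r hr y hy
      apply Subtype.ext
      exact h r hr y ⟨y, hy, rfl⟩)
    exact ⟨⟨z, hz⟩, h1.2, rfl⟩
  have hFp : ∀ z ∈ (fittingSubgroup M).map M.subtype, ∀ k : ℕ, z ^ p ^ k = 1 → z ∈ coreIn p M := by
    rintro _ ⟨z, hz, rfl⟩ k hk
    refine ⟨z, mem_pCore_of_mem_fitting hz (k := k) ?_, rfl⟩
    apply Subtype.ext
    exact hk
  -- the main commutation
  have key : ∀ x ∈ M, (orderOf x).Coprime p →
      (∀ r : ℕ, r.Prime → r ≠ q → ∀ w ∈ coreIn r M, w * x = x * w) →
      ∀ y ∈ coreIn p D, y * x = x * y := by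
    intro x hx hxo hxc y hy
    have hyM : y ∈ M := hDM (coreIn_le p D hy)
    set z := y⁻¹ * (x⁻¹ * y * x) with hz
    have hzM : z ∈ M := M.mul_mem (M.inv_mem hyM) (M.mul_mem (M.mul_mem (M.inv_mem hx) hyM) hx)
    have hzF : z ∈ (fittingSubgroup M).map M.subtype := by
      apply hF z hzM
      intro r hr
      apply comm_commutes (le_normalizer_coreIn r M hx) (le_normalizer_coreIn r M hyM)
      by_cases hrq : r = q
      · right
        intro w hw
        have hrp : r ≠ p := fun h => hpq (h ▸ hrq)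
        exact coreIn_commute hr hp hrp (hMD r hr hw) hy
      · left
        exact hxc r hr hrq
    have hzD : z ∈ D := ⟨hzM, hMN hzF⟩
    -- y * z is conjugate to y
    have hyz : y * z = x⁻¹ * y * x := by rw [hz]; group
    obtain ⟨k, hk⟩ := coreIn_isPGroup p D ⟨y, hy⟩
    have hk' : y ^ p ^ k = 1 := congrArg Subtype.val hk
    have hyzk : (y * z) ^ p ^ k = 1 := by
      have : x⁻¹ * y * x = x⁻¹ * y * (x⁻¹)⁻¹ := by rw [inv_inv]
      rw [hyz, this, conj_pow, hk']
      group
    -- (y z)^n ∈ O_p(D) z^n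
    have hpow : ∀ n : ℕ, ∃ c ∈ coreIn p D, (y * z) ^ n = c * z ^ n := by
      intro n
      induction n with
      | zero => exact ⟨1, one_mem _, by simp⟩
      | succ n ih =>
        obtain ⟨c, hc', hcn⟩ := ih
        refine ⟨c * (z ^ n * y * (z ^ n)⁻¹), mul_mem hc' (conj_mem_coreIn (pow_mem hzD n) hy), ?_⟩
        rw [pow_succ, hcn, pow_succ]
        group
    obtain ⟨c, hcD, hcn⟩ := hpow (p ^ k)
    rw [hyzk] at hcn
    have hzc : z ^ p ^ k ∈ coreIn p D := by
      have : z ^ p ^ k = c⁻¹ := by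
        rw [eq_inv_iff_mul_eq_one, ← mul_eq_one_iff_eq_inv.2]
        rw [← inv_eq_of_mul_eq_one_right hcn.symm]
      rw [this]
      exact inv_mem hcD
    obtain ⟨l, hl'⟩ := coreIn_isPGroup p D ⟨_, hzc⟩
    have hl'' : (z ^ p ^ k) ^ p ^ l = 1 := congrArg Subtype.val hl'
    have hzp : z ^ p ^ (k + l) = 1 := by
      rw [pow_add, pow_mul]; exact hl''
    have hzcore : z ∈ coreIn p M := hFp z hzF _ hzp
    have hzx : z * x = x * z := hxc p hp hpq z hzcore
    -- conjugating by powers of x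
    have hconj : ∀ n : ℕ, (x ^ n)⁻¹ * y * x ^ n = y * z ^ n := by
      intro n
      induction n with
      | zero => simp
      | succ n ih =>
        have hzn : x⁻¹ * z ^ n * x = z ^ n := by
          have : Commute z x := hzx
          have h2 := (this.pow_left n).eq
          rw [mul_assoc, h2]; group
        calc (x ^ (n + 1))⁻¹ * y * x ^ (n + 1)
            = x⁻¹ * ((x ^ n)⁻¹ * y * x ^ n) * x := by rw [pow_succ]; group
          _ = x⁻¹ * (y * z ^ n) * x := by rw [ih]
          _ = (x⁻¹ * y * x) * (x⁻¹ * z ^ n * x) := by group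
          _ = (y * z) * z ^ n := by rw [hzn, hyz]
          _ = y * z ^ (n + 1) := by rw [pow_succ']; group
    have h1 := hconj (orderOf x)
    rw [pow_orderOf_eq_one] at h1
    have h2 : z ^ orderOf x = 1 := by
      have : y = y * z ^ orderOf x := by simpa using h1
      exact (mul_eq_left (a := y)).1 this.symm
    have h3 : orderOf z = 1 := by
      have hd1 : orderOf z ∣ orderOf x := orderOf_dvd_of_pow_eq_one h2
      have hd2 : orderOf z ∣ p ^ (k + l) := orderOf_dvd_of_pow_eq_one hzp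
      have hcop : (orderOf x).Coprime (p ^ (k + l)) := Nat.Coprime.pow_right _ hxo
      exact Nat.eq_one_of_dvd_coprimes hcop hd1 hd2
    have h4 : z = 1 := orderOf_eq_one_iff.1 h3
    rw [h4, mul_one] at hyz
    calc y * x = x * (x⁻¹ * y * x) := by group
      _ = x * y := by rw [← hyz]
  -- the subgroup X
  set S : Set G := {x | x ∈ M ∧ (orderOf x).Coprime p ∧
      ∀ r : ℕ, r.Prime → r ≠ q → ∀ w ∈ coreIn r M, w * x = x * w} with hS
  set X : Subgroup G := closure S with hX
  have hXD : X ≤ D := by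
    rw [hX, closure_le]
    rintro x ⟨hxM, hxo, hxc⟩
    exact ⟨hxM, hc (mem_inf.2 ⟨hxM, mem_centralizer_iff.2
      (fun y hy => key x hxM hxo hxc y hy)⟩)⟩
  have hXM : X ≤ M := hXD.trans hDM
  have hMX : M ≤ normalizer (X : Set G) := by
    rw [hX, le_normalizer_closure_iff]
    intro m hm x hx
    obtain ⟨hxM, hxo, hxc⟩ := hx
    apply Subgroup.subset_closure
    refine ⟨M.mul_mem (M.mul_mem hm hxM) (M.inv_mem hm), ?_, ?_⟩
    · have : orderOf (m * x * m⁻¹) = orderOf x := by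
        rw [← MulAut.conj_apply]
        exact orderOf_injective (MulAut.conj m).toMonoidHom (MulAut.conj m).injective x
      rw [this]; exact hxo
    · intro r hr hrq w hw
      have h1 := hxc r hr hrq _ (conj_mem_coreIn' hm hw)
      calc w * (m * x * m⁻¹) = m * ((m⁻¹ * w * m) * x) * m⁻¹ := by group
        _ = m * (x * (m⁻¹ * w * m)) * m⁻¹ := by rw [h1]
        _ = m * x * m⁻¹ * w := by group
  have hRX : coreIn q D ≤ X := by
    intro y hy
    apply Subgroup.subset_closure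
    refine ⟨hDM (coreIn_le q D hy), ?_, ?_⟩
    · obtain ⟨k, hk⟩ := coreIn_isPGroup q D ⟨y, hy⟩
      have hk' : y ^ q ^ k = 1 := congrArg Subtype.val hk
      exact Nat.Coprime.coprime_dvd_left (orderOf_dvd_of_pow_eq_one hk')
        (Nat.Coprime.pow_left _ ((Nat.coprime_primes hq hp).2 hpq.symm))
    · intro r hr hrq w hw
      exact coreIn_commute hr hq hrq (hMD r hr hw) hy
  -- conclude inside the group M
  have hXn : (X.subgroupOf M).Normal := normal_subgroupOf_of_le_normalizer hMX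
  have hfin : (coreIn q D).subgroupOf M ≤ pCore q M := by
    refine le_pCore_of_normal_in_normal (X := X.subgroupOf M) hXn ?_ ?_ ?_
    · exact Subgroup.comap_mono hRX
    · intro x hx
      rw [mem_subgroupOf] at hx
      have h1 := le_normalizer_coreIn q D (hXD hx)
      rw [mem_normalizer_iff] at h1 ⊢
      intro w
      exact h1 w
    · exact (coreIn_isPGroup q D).comap_subtype
  intro y hy
  have hyM : y ∈ M := hDM (coreIn_le q D hy)
  exact mem_coreIn.2 ⟨hyM, hfin hy⟩

/-- Bender's Theorem on primitive pairs. Two distinct subgroups M₁, M₂ of G form a primitive pair when, for {i, j} = {1, 2}, every non-trivial normal subgroup A of M_i contained in M₁ ∩ M₂ satisfies N_{M_j}(A) = M₁ ∩ M₂; the pair has characteristic p when moreover C_{M_i}(O_p(M_i)) ≤ O_p(M_i) for both i and O_p(M₁)O_p(M₂) ≤ M₁ ∩ M₂. If (M₁, M₂) is a primitive pair of the finite group G with F*(M₁) ≤ M₂ and F*(M₂) ≤ M₁, then for some prime p the pair has characteristic p. -/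
theorem result {G : Type*} [Group G] [Finite G] (M₁ M₂ : Subgroup G) (hne : M₁ ≠ M₂) (hP : ∀ A : Subgroup G, A ≠ ⊥ → A ≤ M₁ ⊓ M₂ → (M₁ ≤ Subgroup.normalizer (A : Set G) → M₂ ⊓ Subgroup.normalizer (A : Set G) = M₁ ⊓ M₂) ∧ (M₂ ≤ Subgroup.normalizer (A : Set G) → M₁ ⊓ Subgroup.normalizer (A : Set G) = M₁ ⊓ M₂)) (h₁ : (Cfsg.generalizedFittingSubgroup ↥M₁).map M₁.subtype ≤ M₂) (h₂ : (Cfsg.generalizedFittingSubgroup ↥M₂).map M₂.subtype ≤ M₁) : ∃ p : ℕ, p.Prime ∧ Subgroup.centralizer (Cfsg.pCore p ↥M₁ : Set ↥M₁) ≤ Cfsg.pCore p ↥M₁ ∧ Subgroup.centralizer (Cfsg.pCore p ↥M₂ : Set ↥M₂) ≤ Cfsg.pCore p ↥M₂ ∧ (Cfsg.pCore p ↥M₁).map M₁.subtype ⊔ (Cfsg.pCore p ↥M₂).map M₂.subtype ≤ M₁ ⊓ M₂ := by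
  -- a nontrivial subgroup of the intersection normalized by both members is impossible
  have both : ∀ A : Subgroup G, A ≠ ⊥ → A ≤ M₁ ⊓ M₂ → M₁ ≤ normalizer (A : Set G) →
      M₂ ≤ normalizer (A : Set G) → False := by
    intro A hA hAD h1 h2
    have e1 := (hP A hA hAD).1 h1
    have e2 := (hP A hA hAD).2 h2
    rw [inf_eq_left.2 h2] at e1
    rw [inf_eq_left.2 h1] at e2
    exact hne (e2.trans e1.symm)
  -- the layers are trivial
  have hlM := layer_subset h₁
  have hlN : (layer M₂).map M₂.subtype = (layer ↥(M₁ ⊓ M₂)).map (M₁ ⊓ M₂).subtype := by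
    rw [layer_subset h₂, inf_comm]
  have hlMN : (layer M₁).map M₁.subtype = (layer M₂).map M₂.subtype := hlM.trans hlN.symm
  have hl : (layer M₁).map M₁.subtype = ⊥ := by
    by_contra hneb
    haveI : (layer M₁).Normal := layer_normal _
    haveI : (layer M₂).Normal := layer_normal _
    refine both _ hneb ?_ (le_normalizer_map_of_normal inferInstance) ?_
    · rw [hlM]; exact map_subtype_le _
    · rw [hlMN]; exact le_normalizer_map_of_normal inferInstance
  have hM0 : layer M₁ = ⊥ := map_subtype_eq_bot hl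
  have hN0 : layer M₂ = ⊥ := map_subtype_eq_bot (hlMN ▸ hl)
  have hFM : generalizedFittingSubgroup M₁ = fittingSubgroup M₁ := by
    rw [genFitting_def, hM0, bot_sup_eq]
  have hFN : generalizedFittingSubgroup M₂ = fittingSubgroup M₂ := by
    rw [genFitting_def, hN0, bot_sup_eq]
  rw [hFM] at h₁
  rw [hFN] at h₂
  have hle1 : ∀ r : ℕ, r.Prime → coreIn r M₁ ≤ M₁ ⊓ M₂ := by
    intro r hr
    exact (coreIn_le_inf h₁ hr).trans (coreIn_le r _)
  have hle2 : ∀ r : ℕ, r.Prime → coreIn r M₂ ≤ M₁ ⊓ M₂ := by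
    intro r hr
    rw [inf_comm]
    exact (coreIn_le_inf h₂ hr).trans (coreIn_le r _)
  -- vanishing of cores
  have hbot : ∀ r : ℕ, r.Prime → coreIn r M₁ = ⊥ → coreIn r M₂ = ⊥ := by
    intro r hr h
    have h3 := coreIn_inf_eq_bot hM0 h₁ hr h
    rw [eq_bot_iff, ← h3, inf_comm]
    exact coreIn_le_inf h₂ hr
  have hbot' : ∀ r : ℕ, r.Prime → coreIn r M₂ = ⊥ → coreIn r M₁ = ⊥ := by
    intro r hr h
    have h3 := coreIn_inf_eq_bot hN0 h₂ hr h
    rw [eq_bot_iff, ← h3, inf_comm]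
    exact coreIn_le_inf h₁ hr
  -- two different primes are impossible
  have htwo : ∀ p q : ℕ, p.Prime → q.Prime → p ≠ q → coreIn p M₁ ≠ ⊥ → coreIn q M₁ = ⊥ := by
    intro p q hp hq hpq hpM
    by_contra hqM
    have hpN : coreIn p M₂ ≠ ⊥ := fun h => hpM (hbot' p hp h)
    have a1 : coreIn q (M₁ ⊓ M₂) ≤ coreIn q M₁ := by
      refine coreIn_inf_le_rel hM0 h₁ hp hq hpq ?_
      have h3 := (hP (coreIn p M₂) hpN (hle2 p hp)).2 (le_normalizer_coreIn p M₂)
      have h4 : coreIn p M₂ ≤ coreIn p (M₁ ⊓ M₂) := by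
        rw [inf_comm]; exact coreIn_le_inf h₂ hp
      calc M₁ ⊓ centralizer (coreIn p (M₁ ⊓ M₂) : Set G)
          ≤ M₁ ⊓ normalizer (coreIn p M₂ : Set G) :=
            inf_le_inf_left _ ((Subgroup.centralizer_le h4).trans (centralizer_le_normalizer _))
        _ = M₁ ⊓ M₂ := h3
        _ ≤ M₂ := inf_le_right
    have a2 : coreIn q (M₂ ⊓ M₁) ≤ coreIn q M₂ := by
      refine coreIn_inf_le_rel hN0 h₂ hp hq hpq ?_
      have h3 := (hP (coreIn p M₁) hpM (hle1 p hp)).1 (le_normalizer_coreIn p M₁)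
      have h4 : coreIn p M₁ ≤ coreIn p (M₂ ⊓ M₁) := by
        rw [inf_comm]; exact coreIn_le_inf h₁ hp
      calc M₂ ⊓ centralizer (coreIn p (M₂ ⊓ M₁) : Set G)
          ≤ M₂ ⊓ normalizer (coreIn p M₁ : Set G) :=
            inf_le_inf_left _ ((Subgroup.centralizer_le h4).trans (centralizer_le_normalizer _))
        _ = M₁ ⊓ M₂ := h3
        _ ≤ M₁ := inf_le_left
    have b1 : coreIn q (M₁ ⊓ M₂) = coreIn q M₁ := le_antisymm a1 (coreIn_le_inf h₁ hq)
    have b2 : coreIn q (M₂ ⊓ M₁) = coreIn q M₂ := le_antisymm a2 (coreIn_le_inf h₂ hq)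
    have b3 : coreIn q M₁ = coreIn q M₂ := by rw [← b1, ← b2, inf_comm]
    refine both _ hqM (hle1 q hq) (le_normalizer_coreIn q M₁) ?_
    rw [b3]; exact le_normalizer_coreIn q M₂
  -- a group with trivial layer and trivial cores is trivial
  have htriv : ∀ H : Subgroup G, layer H = ⊥ → (∀ r : ℕ, r.Prime → coreIn r H = ⊥) → H = ⊥ := by
    intro H hH0 hno
    have hall : ∀ x : H, x ∈ fittingSubgroup H := by
      intro x
      refine (mem_fitting_of_layer_eq_bot hH0 ?_).2
      intro r hr y hy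
      have h3 := map_subtype_eq_bot (hno r hr)
      rw [h3, mem_bot] at hy
      rw [hy, one_mul, mul_one]
    have hbotF : fittingSubgroup H = ⊥ := by
      rw [fittingSubgroup_eq_iSup_pCore, iSup_eq_bot]
      intro r
      exact map_subtype_eq_bot (hno r r.2)
    rw [eq_bot_iff]
    intro x hx
    have h3 := hall ⟨x, hx⟩
    rw [hbotF, mem_bot] at h3
    exact congrArg Subtype.val h3
  -- some core is nontrivial
  have hex : ∃ p : ℕ, p.Prime ∧ coreIn p M₁ ≠ ⊥ := by
    by_contra hno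
    push Not at hno
    apply hne
    rw [htriv M₁ hM0 hno, htriv M₂ hN0 (fun r hr => hbot r hr (hno r hr))]
  obtain ⟨p, hp, hpM⟩ := hex
  haveI := Fact.mk hp
  have hqM : ∀ q : ℕ, q.Prime → q ≠ p → coreIn q M₁ = ⊥ := fun q hq hqp =>
    htwo p q hp hq (Ne.symm hqp) hpM
  have hfin : ∀ H : Subgroup G, layer H = ⊥ → (∀ q : ℕ, q.Prime → q ≠ p → coreIn q H = ⊥) →
      Subgroup.centralizer (pCore p ↥H : Set ↥H) ≤ pCore p ↥H := by
    intro H hH0 hH
    refine Cfsg.Agent.SignalizersComponents.CharP.centralizer_pCore_le_of_genFitting_eq ?_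
    rw [genFitting_def, hH0, bot_sup_eq]
    refine le_antisymm ?_ (pCore_le_fittingSubgroup p)
    rw [fittingSubgroup_eq_iSup_pCore]
    refine iSup_le fun r => ?_
    by_cases hr : (r : ℕ) = p
    · rw [hr]
    · rw [map_subtype_eq_bot (hH r r.2 hr)]
      exact bot_le
  exact ⟨p, hp, hfin M₁ hM0 hqM, hfin M₂ hN0 (fun q hq hqp => hbot q hq (hqM q hq hqp)),
    sup_le (hle1 p hp) (hle2 p hp)⟩

end Cfsg.Agent.S3752
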