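import Cfsg.Statements.S3756
import Cfsg.Agent.S0665
import Cfsg.Agent.QTUnique.Base
import Cfsg.Agent.OddOrderLocal.FittingHall
import Cfsg.Agent.StdEven.Syl
import Cfsg.Agent.PLocal.ConjFunctor

set_option autoImplicit false
open Cfsg

namespace Cfsg.Agent.S3756

open Subgroup Cfsg.Agent.StdEven.Syl

/-- The characteristic subgroup `W` of a nontrivial 2-subgroup `T`, inside the ambient group. -/
theorem exists_W {G : Type*} [Group G] [Finite G] {T : Subgroup G} (hT : IsPGroup 2 T) (hT1 : T ≠ ⊥) :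
    ∃ W : Subgroup G, W ≤ T ∧ W ≠ ⊥ ∧ normalizer (T : Set G) ≤ normalizer (W : Set G) ∧
      ∀ L : Subgroup G, T ≤ L → (∃ P : Sylow 2 L, (P : Subgroup L) = T.subgroupOf L) →
        IsOfCharacteristicTwo ↥L → ¬ Involves (Equiv.Perm (Fin 4)) ↥L → L ≤ normalizer (W : Set G) := by
  have hnt : Nontrivial T := (Subgroup.nontrivial_iff_ne_bot T).2 hT1
  obtain ⟨W, hW1, hWc, hW⟩ := Cfsg.Agent.S0665.result hT
  refine ⟨W.map T.subtype, map_subtype_le W, ?_, ?_, ?_⟩
  · rwa [Ne, map_eq_bot_iff_of_injective _ T.subtype_injective]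
  · exact Cfsg.Agent.OddOrderLocal.FittingHall.normalizer_le_normalizer_map T W hWc
  · rintro L hTL ⟨P, hP⟩ hchar hinv
    have h1 : (W.map (inclusion hTL)).Normal := by
      refine hW L (inclusion hTL) (inclusion_injective hTL) ⟨P, ?_⟩ ?_ hchar
      · rw [hP, inclusion_range]
      · rintro ⟨K, R, hR, e⟩
        exact hinv ⟨K, R, hR, e⟩
    intro l hl
    rw [mem_normalizer_iff]
    have key : ∀ l ∈ L, ∀ w ∈ W.map T.subtype, l * w * l⁻¹ ∈ W.map T.subtype := by
      rintro l hl _ ⟨w, hw, rfl⟩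
      obtain ⟨w', hw', he⟩ := h1.conj_mem (inclusion hTL w) ⟨w, hw, rfl⟩ ⟨l, hl⟩
      refine ⟨w', hw', ?_⟩
      have := congrArg Subtype.val he
      simpa using this
    intro w
    refine ⟨key l hl w, fun h => ?_⟩
    have := key l⁻¹ (L.inv_mem hl) _ h
    simpa [mul_assoc] using this


section

variable {G : Type*} [Group G] [Finite G]
  (hloc : ∀ M : Subgroup G, IsTwoLocal M →
    Group.IsSolvable M ∧ IsOfCharacteristicTwo ↥M ∧ ¬ Involves (Equiv.Perm (Fin 4)) ↥M)

include hloc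

/-- A maximal 2-local subgroup is determined by any of its Sylow 2-subgroups, and contains its normalizer. -/
theorem eq_of_isSyl {T : Subgroup G} (hT1 : T ≠ ⊥) {M₁ : Subgroup G} (h1 : IsMaximalTwoLocal M₁)
    (hs1 : IsSyl T M₁) :
    normalizer (T : Set G) ≤ M₁ ∧ ∀ M₂ : Subgroup G, IsMaximalTwoLocal M₂ → IsSyl T M₂ → M₁ = M₂ := by
  obtain ⟨W, hWT, hW1, hWn, hW⟩ := exists_W hs1.two hT1
  have hWl : IsTwoLocal (normalizer (W : Set G)) := ⟨W, hs1.two.to_le hWT, hW1, rfl⟩
  have key : ∀ M : Subgroup G, IsMaximalTwoLocal M → IsSyl T M → normalizer (W : Set G) = M := by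
    intro M hM hs
    refine hM.2 _ hWl (hW M hs.le ⟨hs.toSylow, rfl⟩ (hloc M hM.1).2.1 (hloc M hM.1).2.2)
  refine ⟨?_, fun M₂ h2 hs2 => ?_⟩
  · rw [← key M₁ h1 hs1]
    exact hWn
  · rw [← key M₁ h1 hs1, ← key M₂ h2 hs2]

theorem isSyl_top {T : Subgroup G} (hT1 : T ≠ ⊥) {M₁ : Subgroup G} (h1 : IsMaximalTwoLocal M₁)
    (hs1 : IsSyl T M₁) : IsSyl T ⊤ :=
  hs1.top_of_normalizer (eq_of_isSyl hloc hT1 h1 hs1).1

/-- Every nontrivial 2-subgroup lies in only one maximal 2-local subgroup. -/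
theorem unique (n : ℕ) : ∀ T : Subgroup G, IsPGroup 2 T → T ≠ ⊥ → Nat.card G - Nat.card T = n →
    ∀ M₁ M₂ : Subgroup G, IsMaximalTwoLocal M₁ → IsMaximalTwoLocal M₂ → T ≤ M₁ → T ≤ M₂ → M₁ = M₂ := by
  have : Fact (Nat.Prime 2) := ⟨Nat.prime_two⟩
  induction n using Nat.strong_induction_on with
  | _ n ih =>
    intro T hT hT1 hn M₁ M₂ h1 h2 hTM1 hTM2
    obtain ⟨S₁, hS1, hle1⟩ := exists_isSyl hT hTM1
    obtain ⟨S₂, hS2, hle2⟩ := exists_isSyl hT hTM2
    have hS1n : S₁ ≠ ⊥ := fun h => hT1 (le_bot_iff.1 (h ▸ hle1))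
    have hS2n : S₂ ≠ ⊥ := fun h => hT1 (le_bot_iff.1 (h ▸ hle2))
    have ht1 := isSyl_top hloc hS1n h1 hS1
    have ht2 := isSyl_top hloc hS2n h2 hS2
    by_cases he1 : T = S₁
    · subst he1
      have h3 : S₂ = T := ht1.max S₂ hS2.two le_top hle2
      subst h3
      exact (eq_of_isSyl hloc hT1 h1 hS1).2 M₂ h2 hS2
    by_cases he2 : T = S₂
    · subst he2
      have h3 : S₁ = T := ht2.max S₁ hS1.two le_top hle1
      exact absurd h3.symm he1
    obtain ⟨M₃, h3, hle3⟩ := Cfsg.Agent.QTUnique.exists_maximal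
      (N := normalizer (T : Set G)) ⟨T, hT, hT1, rfl⟩
    have step : ∀ (M S : Subgroup G), IsMaximalTwoLocal M → IsSyl S M → T ≤ S → T ≠ S → M = M₃ := by
      intro M S hM hS hle hne
      have hlt : T < S ⊓ normalizer (T : Set G) :=
        Cfsg.Agent.PLocal.ConjFunctor.lt_inf_normalizer hS.two (lt_of_le_of_ne hle hne)
      have hcard : Nat.card T < Nat.card (S ⊓ normalizer (T : Set G) : Subgroup G) := by
        by_contra hcon
        exact hlt.ne (Subgroup.eq_of_le_of_card_ge hlt.le (not_lt.1 hcon))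
      have hG : Nat.card (S ⊓ normalizer (T : Set G) : Subgroup G) ≤ Nat.card G := Subgroup.card_le_card_group _
      refine ih _ ?_ (S ⊓ normalizer (T : Set G)) (hS.two.to_le inf_le_left) (fun h => ?_) rfl M M₃ hM h3
        (inf_le_left.trans hS.le) (inf_le_right.trans hle3)
      · omega
      · rw [h] at hlt
        exact not_lt_bot hlt
    rw [step M₁ S₁ h1 hS1 hle1 he1, step M₂ S₂ h2 hS2 hle2 he2]

end

/-- Let G be a finite group of even order with O₂(G) = 1 such that every 2-local subgroup of G is solvable, of characteristic 2, and has no section isomorphic to the symmetric group of degree 4. Then every maximal 2-local subgroup of G is strongly embedded in G. -/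
theorem result {G : Type*} [Group G] [Finite G] (heven : Even (Nat.card G)) (hO : Cfsg.pCore 2 G = ⊥) (hloc : ∀ M : Subgroup G, Cfsg.IsTwoLocal M → Group.IsSolvable M ∧ Cfsg.IsOfCharacteristicTwo ↥M ∧ ¬ Cfsg.Involves (Equiv.Perm (Fin 4)) ↥M) (M : Subgroup G) (hM : Cfsg.IsMaximalTwoLocal M) : Cfsg.IsStronglyEmbedded M := by
  have : Fact (Nat.Prime 2) := ⟨Nat.prime_two⟩
  obtain ⟨T₀, hT0, hT0n, hMe⟩ := hM.1
  have hT0M : T₀ ≤ M := by rw [hMe]; exact le_normalizer
  refine ⟨?_, ?_, ?_⟩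
  · intro htop
    have hn : T₀.Normal := by
      rw [← normalizer_eq_top_iff]
      rw [← hMe, htop]
    have : T₀ ≤ pCore 2 G := le_sSup ⟨hn, hT0⟩
    rw [hO, le_bot_iff] at this
    exact hT0n this
  · obtain ⟨k, hk⟩ := IsPGroup.iff_card.1 hT0
    have hk0 : k ≠ 0 := by
      rintro rfl
      exact hT0n (Subgroup.card_eq_one.1 (by rw [hk, pow_zero]))
    have h1 : 2 ∣ Nat.card T₀ := by
      rw [hk]; exact dvd_pow_self 2 hk0
    exact even_iff_two_dvd.2 (h1.trans (Subgroup.card_dvd_of_le hT0M))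
  · intro g hg
    by_contra hodd
    rw [Nat.not_odd_iff_even, even_iff_two_dvd] at hodd
    obtain ⟨t, ht⟩ := exists_prime_orderOf_dvd_card' 2 hodd
    have ht2 : orderOf (t : G) = 2 := by rw [Subgroup.orderOf_coe, ht]
    have htp : IsPGroup 2 (zpowers (t : G)) := by
      refine IsPGroup.of_card (n := 1) ?_
      rw [Nat.card_zpowers, ht2, pow_one]
    have htn : zpowers (t : G) ≠ ⊥ := by
      rw [Ne, zpowers_eq_bot]
      intro h
      rw [h, orderOf_one] at ht2
      omega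
    have hle := t.2
    obtain ⟨hle1, hle2⟩ := Subgroup.mem_inf.1 hle
    have hMg : IsMaximalTwoLocal (M.map (MulAut.conj g).toMonoidHom) :=
      Cfsg.Agent.QTUnique.isMaximalTwoLocal_map (MulAut.conj g) hM
    have heq : M = M.map (MulAut.conj g).toMonoidHom :=
      unique hloc _ (zpowers (t : G)) htp htn rfl M _ hM hMg ((zpowers_le).2 hle1) ((zpowers_le).2 hle2)
    have hgn : g ∈ normalizer (M : Set G) := by
      refine mem_normalizer_of_conj_le fun x hx => ?_
      rw [heq]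
      exact conj_mem_map g hx
    obtain ⟨S, hS, hle3⟩ := exists_isSyl hT0 hT0M
    have hSn : S ≠ ⊥ := fun h => hT0n (le_bot_iff.1 (h ▸ hle3))
    obtain ⟨n, hn, hng⟩ := hS.frattini hgn
    have h1 := (eq_of_isSyl hloc hSn hM hS).1 hng
    exact hg (by simpa using M.mul_mem (M.inv_mem hn) h1)

end Cfsg.Agent.S3756
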