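import Cfsg.Statements.S4258
import Cfsg.Agent.H552.Main

set_option autoImplicit false
open Cfsg

namespace Cfsg.Agent.S4258

/-- Let G be a finite 2-soluble group whose Sylow 2-subgroups have exponent dividing 2^e. Then the 2-length of G is at most e. -/
theorem result {G : Type*} [Group G] [Finite G] (hG : Cfsg.IsPSolvable 2 G) (e : ℕ)
    (hexp : ∀ (P : Sylow 2 G), ∀ x ∈ (P : Subgroup G), x ^ 2 ^ e = 1) : Cfsg.PLengthLE 2 e G := by
  have hF2 : Fact (Nat.Prime 2) := ⟨Nat.prime_two⟩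
  have hexp' : ∀ x : G, H552.IsTwo x → x ^ 2 ^ e = 1 := by
    intro x hx
    have h1 : IsPGroup 2 (Subgroup.zpowers x) := by
      obtain ⟨k, hk⟩ := hx
      rintro ⟨_, n, rfl⟩
      refine ⟨k, Subtype.ext ?_⟩
      show (x ^ n) ^ 2 ^ k = 1
      rw [← zpow_natCast, ← zpow_mul, mul_comm, zpow_mul, zpow_natCast, hk, one_zpow]
    obtain ⟨P, hP⟩ := h1.exists_le_sylow
    exact hexp P x (hP (Subgroup.mem_zpowers x))
  apply H979.TwoLenA.pLengthLE_of_odd
  rcases Nat.eq_zero_or_pos e with rfl | he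
  · refine H979.TwoLenA.odd_card_of_odd_orderOf fun x => ?_
    rw [← Subgroup.orderOf_coe]
    obtain ⟨m, n, hm, hn, hx⟩ := H552.exists_odd_mul_two (x : G)
    have h1 := hexp' _ hn
    rw [pow_zero, pow_one] at h1
    rw [h1, mul_one] at hx
    rw [hx]
    exact hm
  · exact H979.TwoLenA.odd_of_EAt e he G hG hexp' fun X _ _ hX _ => H552.EAt_all e X hX

end Cfsg.Agent.S4258
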