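import Cfsg.Statements.S3803
-- import your own Cfsg.Agent.* helpers here
import Cfsg.Agent.H454.OmegaFour
import Cfsg.Agent.S0029

set_option autoImplicit false
open Cfsg

namespace Cfsg.Agent.S3803

/-- A group of odd order normalizing a cyclic 2-group centralizes it. -/
theorem comm_of_cyclic {X : Type*} [Group X] [Finite X] (E A : Subgroup X) (hE : IsCyclic E)
    {n : ℕ} (hc : Nat.card E = 2 ^ n) (hA : Odd (Nat.card A))
    (hAE : A ≤ Subgroup.normalizer (E : Set X)) : ∀ a ∈ A, ∀ x ∈ E, a * x = x * a := by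
  intro a ha x hx
  let φ : MulAut E := Subgroup.normalizerMonoidHom E ⟨a, hAE ha⟩
  have h1 : φ ^ (Nat.card A) = 1 := by
    have h0 : (⟨a, hAE ha⟩ : Subgroup.normalizer (E : Set X)) ^ (Nat.card A) = 1 := by
      have h00 : (⟨a, ha⟩ : A) ^ (Nat.card A) = 1 := pow_card_eq_one'
      apply Subtype.ext
      have h01 : a ^ (Nat.card A) = 1 := congrArg (Subtype.val) h00
      exact h01
    change (Subgroup.normalizerMonoidHom E ⟨a, hAE ha⟩) ^ (Nat.card A) = 1
    rw [← map_pow, h0, map_one]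
  have h2 : φ ^ (Nat.card (MulAut E)) = 1 := pow_card_eq_one'
  have h3 : (Nat.card A).Coprime (Nat.card (MulAut E)) := by
    rw [IsCyclic.card_mulAut, hc]
    rcases Nat.eq_zero_or_pos n with h0 | h0
    · subst h0; simp
    · rw [Nat.totient_prime_pow Nat.prime_two h0]
      simp only [Nat.add_one_sub_one, mul_one]
      apply Nat.Coprime.pow_right
      exact (Nat.coprime_two_right).mpr hA
  have h4 : φ = 1 := by
    have := pow_gcd_eq_one.mpr ⟨h1, h2⟩
    rwa [h3.gcd_eq_one, pow_one] at this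
  have h5 : ((φ ⟨x, hx⟩ : E) : X) = a * x * a⁻¹ := rfl
  rw [h4] at h5
  change x = a * x * a⁻¹ at h5
  rw [eq_mul_inv_iff_mul_eq] at h5
  exact h5.symm

/-- Intermediate orders. -/
theorem exists_between {X : Type*} [Group X] [Finite X] (P H : Subgroup X) {m n k : ℕ}
    (hP : Nat.card P = 2 ^ m) (hHP : H ≤ P) (hH : Nat.card H = 2 ^ n) (hnk : n ≤ k) (hkm : k ≤ m) :
    ∃ K : Subgroup X, H ≤ K ∧ K ≤ P ∧ Nat.card K = 2 ^ k := by
  have : Fact (Nat.Prime 2) := ⟨Nat.prime_two⟩
  have h1 : Nat.card (H.subgroupOf P) = 2 ^ n := by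
    rw [← hH]
    exact Nat.card_congr (Subgroup.subgroupOfEquivOfLe hHP).toEquiv
  obtain ⟨K, hK, hHK⟩ := Sylow.exists_subgroup_card_pow_prime_le 2
    (show 2 ^ k ∣ Nat.card P by rw [hP]; exact pow_dvd_pow 2 hkm) (H.subgroupOf P) h1 hnk
  refine ⟨K.map P.subtype, ?_, Subgroup.map_subtype_le K, ?_⟩
  · intro x hx
    exact ⟨⟨x, hHP hx⟩, hHK hx, rfl⟩
  · rw [← hK]
    exact Nat.card_congr (K.equivMapOfInjective P.subtype P.subtype_injective).symm.toEquiv

/-- Let `F` be noncyclic of order `2 ^ (d + 1)` such that all subgroups of order `2 ^ d` are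
normalized by `A`.  Then `A` centralizes `F`. -/
theorem centralizes_of_noncyclic {X : Type*} [Group X] [Finite X] (F A : Subgroup X) {d : ℕ}
    (hF : Nat.card F = 2 ^ (d + 1)) (hnc : ¬ IsCyclic F) (hA : Odd (Nat.card A))
    (hinv : ∀ E : Subgroup X, E ≤ F → Nat.card E = 2 ^ d → A ≤ Subgroup.normalizer (E : Set X)) :
    A ≤ Subgroup.centralizer (F : Set X) := by
  have hF2 : IsPGroup 2 F := IsPGroup.of_card hF
  have : Fact (Nat.Prime 2) := ⟨Nat.prime_two⟩
  have hmax : ∀ M : Subgroup F, IsCoatom M → Nat.card (M.map F.subtype) = 2 ^ d ∧ M.index = 2 := by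
    intro M hM
    have hi : M.index = 2 := Lib.FrattiniPGroup.index_of_coatom hF2 hM
    have hc := M.card_mul_index
    rw [hF, hi, pow_succ] at hc
    have hc' : Nat.card M = 2 ^ d := by omega
    refine ⟨?_, hi⟩
    rw [← hc']
    exact Nat.card_congr (M.equivMapOfInjective F.subtype F.subtype_injective).symm.toEquiv
  have hAF : A ≤ Subgroup.normalizer (F : Set X) := by
    have key : ∀ a ∈ A, ∀ x ∈ F, a * x * a⁻¹ ∈ F := by
      intro a ha x hx
      have hne : Subgroup.zpowers (⟨x, hx⟩ : F) ≠ ⊤ := by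
        intro h
        exact hnc ⟨⟨⟨x, hx⟩, fun y => by
          have : y ∈ Subgroup.zpowers (⟨x, hx⟩ : F) := by rw [h]; trivial
          exact this⟩⟩
      obtain ⟨M, hM, hxM⟩ := (eq_top_or_exists_le_coatom _).resolve_left hne
      have h1 := hinv (M.map F.subtype) (Subgroup.map_subtype_le M) (hmax M hM).1 ha
      rw [Subgroup.mem_normalizer_iff] at h1
      have h2 : x ∈ M.map F.subtype := ⟨⟨x, hx⟩, hxM (Subgroup.mem_zpowers _), rfl⟩
      exact Subgroup.map_subtype_le M ((h1 x).mp h2)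
    intro a ha
    rw [Subgroup.mem_normalizer_iff]
    intro x
    refine ⟨key a ha x, fun h => ?_⟩
    have := key a⁻¹ (A.inv_mem ha) _ h
    simpa [mul_assoc] using this
  refine S0029.result A F hAF ?_ ?_
  · have h1 : Nat.card (frattini F) ∣ 2 ^ (d + 1) := by
      rw [← hF]; exact Subgroup.card_subgroup_dvd_card _
    exact Nat.Coprime.coprime_dvd_right h1 (Nat.Coprime.pow_right _ (Nat.coprime_two_right.mpr hA))
  · intro a ha k hk
    have hk' : a * k * a⁻¹ ∈ F := (Subgroup.mem_normalizer_iff.mp (hAF ha) k).mp hk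
    refine ⟨⟨a * k * a⁻¹ * k⁻¹, F.mul_mem hk' (F.inv_mem hk)⟩, ?_, rfl⟩
    change _ ∈ frattini F
    rw [frattini, Order.radical, Subgroup.mem_iInf]
    intro M
    rw [Subgroup.mem_iInf]
    intro hM
    have hM' : IsCoatom M := hM
    obtain ⟨h1, h2⟩ := hmax M hM'
    have h3 := hinv (M.map F.subtype) (Subgroup.map_subtype_le M) h1 ha
    rw [Subgroup.mem_normalizer_iff] at h3
    have h4 : ((⟨a * k * a⁻¹, hk'⟩ : F) ∈ M ↔ (⟨k, hk⟩ : F) ∈ M) := by
      have h5 := h3 k
      constructor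
      · intro h
        have : a * k * a⁻¹ ∈ M.map F.subtype := ⟨_, h, rfl⟩
        obtain ⟨y, hy, hyk⟩ := h5.mpr this
        have : y = ⟨k, hk⟩ := Subtype.ext hyk
        rwa [← this]
      · intro h
        have : k ∈ M.map F.subtype := ⟨_, h, rfl⟩
        obtain ⟨y, hy, hyk⟩ := h5.mp this
        have : y = ⟨a * k * a⁻¹, hk'⟩ := Subtype.ext hyk
        rwa [← this]
    have h5 : (⟨a * k * a⁻¹ * k⁻¹, F.mul_mem hk' (F.inv_mem hk)⟩ : F)
        = (⟨a * k * a⁻¹, hk'⟩ : F) * (⟨k, hk⟩ : F)⁻¹ := rfl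
    rw [h5, Subgroup.mul_mem_iff_of_index_two h2, h4, inv_mem_iff]

/-- Let P be a 2-subgroup and A a subgroup of odd order of a finite group, with A normalizing P. Let D ≤ P with 1 < |D| < |P|. If every subgroup of P of order |D|, and also every subgroup of P of order 4 in case |D| = 2, is normalized by A, then A centralizes P. -/
theorem result {X : Type*} [Group X] [Finite X] (P A D : Subgroup X) (hP : IsPGroup 2 P) (hA : Odd (Nat.card A))
    (hAP : A ≤ Subgroup.normalizer (P : Set X)) (hDP : D ≤ P) (hD1 : 1 < Nat.card D) (hD2 : Nat.card D < Nat.card P)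
    (hinv : ∀ E : Subgroup X, E ≤ P → (Nat.card E = Nat.card D ∨ (Nat.card D = 2 ∧ Nat.card E = 4)) → A ≤ Subgroup.normalizer (E : Set X)) :
    A ≤ Subgroup.centralizer (P : Set X) := by
  have : Fact (Nat.Prime 2) := ⟨Nat.prime_two⟩
  obtain ⟨m, hm⟩ := IsPGroup.iff_card.mp hP
  obtain ⟨d, hd⟩ := IsPGroup.iff_card.mp (hP.to_le hDP)
  have hd0 : d ≠ 0 := by rintro rfl; rw [hd] at hD1; simp at hD1
  have hdm : d < m := by
    rw [hd, hm] at hD2
    exact (Nat.pow_lt_pow_iff_right (by norm_num)).mp hD2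
  refine H454.OmegaFour.le_centralizer_of_four P A hP hA hAP ?_
  intro x hx hx4 a ha
  have hzP : Subgroup.zpowers x ≤ P := by rwa [Subgroup.zpowers_le]
  obtain ⟨j, hj2, hj⟩ : ∃ j ≤ 2, orderOf x = 2 ^ j := by
    have : orderOf x ∣ 2 ^ 2 := orderOf_dvd_of_pow_eq_one (by simpa using hx4)
    exact (Nat.dvd_prime_pow Nat.prime_two).mp this
  have hcz : Nat.card (Subgroup.zpowers x) = 2 ^ j := by rw [Nat.card_zpowers, hj]
  by_cases hd1 : d = 1
  · -- all subgroups of order 2 and 4
    subst hd1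
    have hn : A ≤ Subgroup.normalizer ((Subgroup.zpowers x : Subgroup X) : Set X) := by
      rcases Nat.eq_zero_or_pos j with h0 | h0
      · have h1 : x = 1 := by rw [h0, pow_zero, orderOf_eq_one_iff] at hj; exact hj
        subst h1
        rw [Subgroup.zpowers_one_eq_bot]
        have : (⊥ : Subgroup X).Normal := inferInstance
        rw [Subgroup.normalizer_eq_top]
        exact le_top
      · apply hinv _ hzP
        rw [hcz, hd]
        have : j = 1 ∨ j = 2 := by omega
        rcases this with rfl | rfl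
        · left; rfl
        · right; norm_num
    exact comm_of_cyclic (Subgroup.zpowers x) A inferInstance hcz hA hn a ha x
      (Subgroup.mem_zpowers x)
  · have hd2 : 2 ≤ d := by omega
    obtain ⟨F, hxF, hFP, hF⟩ := exists_between P (Subgroup.zpowers x) hm hzP hcz
      (show j ≤ d + 1 by omega) (by omega)
    have hinvF : ∀ E : Subgroup X, E ≤ F → Nat.card E = 2 ^ d →
        A ≤ Subgroup.normalizer (E : Set X) :=
      fun E hE hcE => hinv E (hE.trans hFP) (Or.inl (by rw [hcE, hd]))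
    by_cases hc : IsCyclic F
    · obtain ⟨E, hxE, hEF, hE⟩ := exists_between F (Subgroup.zpowers x) hF hxF hcz
        (show j ≤ d by omega) (by omega)
      have hcE : IsCyclic E := by
        exact isCyclic_of_injective (Subgroup.inclusion hEF) (Subgroup.inclusion_injective hEF)
      exact comm_of_cyclic E A hcE hE hA (hinvF E hEF hE) a ha x
        (hxE (Subgroup.mem_zpowers x))
    · have := centralizes_of_noncyclic F A hF hc hA hinvF ha
      rw [Subgroup.mem_centralizer_iff] at this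
      exact (this x (hxF (Subgroup.mem_zpowers x))).symm

end Cfsg.Agent.S3803
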