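import Cfsg.Statements.S3805
import Cfsg.Agent.H454.KleinGroup

set_option autoImplicit false
open Cfsg

namespace Cfsg.Agent.S3805

open Cfsg.Agent.H454.KleinGroup Cfsg.Agent.H454.KleinChar

/-- A normal subgroup `K` containing `T` with `N_K(T) = T` gives `T` normal. -/
theorem final {G : Type*} [Group G] [Finite G] (T : Sylow 3 G) {V : Subgroup G}
    (A : Amb (T : Subgroup G) V) (hcyc : ¬ IsCyclic (T : Subgroup G)) (K : Subgroup G) [K.Normal]
    (hTK : (T : Subgroup G) ≤ K)
    (hN : Subgroup.normalizer ((T : Subgroup G) : Set G) ⊓ K = T) :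
    Subgroup.normalizer ((T : Subgroup G) : Set G) = ⊤ := by
  let P : Sylow 3 K := T.subtype hTK
  have hP : (P : Subgroup K) = (T : Subgroup G).subgroupOf K := T.coe_subtype hTK
  have memP : ∀ x : K, x ∈ (P : Subgroup K) ↔ (x : G) ∈ (T : Subgroup G) := by
    intro x; rw [hP, Subgroup.mem_subgroupOf]
  have hle : Subgroup.normalizer ((P : Subgroup K) : Set K) ≤
      Subgroup.centralizer ((P : Subgroup K) : Set K) := by
    intro x hx
    have hxN : (x : G) ∈ Subgroup.normalizer ((T : Subgroup G) : Set G) := by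
      refine Subgroup.mem_normalizer_fintype fun t ht => ?_
      have h1 := (Subgroup.mem_normalizer_iff.1 hx ⟨t, hTK ht⟩).1 ((memP _).2 ht)
      exact (memP _).1 h1
    have hxT : (x : G) ∈ (T : Subgroup G) := by
      rw [← hN]; exact ⟨hxN, x.2⟩
    rw [Subgroup.mem_centralizer_iff]
    intro y hy
    exact Subtype.ext (A.comm ((memP y).1 hy) hxT)
  set M0 := (MonoidHom.transferSylow P hle).ker with hM0
  have hcompl : Subgroup.IsComplement' M0 (P : Subgroup K) :=
    MonoidHom.ker_transferSylow_isComplement' P hle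
  have hnd : ¬ 3 ∣ Nat.card M0 := MonoidHom.not_dvd_card_ker_transferSylow P hle
  set M := M0.map K.subtype with hM
  have hMcard : Nat.card M = Nat.card M0 := Subgroup.card_map_of_injective K.subtype_injective
  -- `T` normalizes `M`
  have hTM : (T : Subgroup G) ≤ Subgroup.normalizer (M : Set G) := by
    intro t ht
    refine Subgroup.mem_normalizer_fintype fun m hm => ?_
    obtain ⟨m0, hm0, rfl⟩ := hm
    have h1 : (⟨t, hTK ht⟩ : K) * m0 * (⟨t, hTK ht⟩ : K)⁻¹ ∈ M0 :=
      (MonoidHom.normal_ker _).conj_mem m0 hm0 _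
    exact ⟨_, h1, rfl⟩
  have hcop : (Nat.card (T : Subgroup G)).Coprime (Nat.card M) := by
    rw [A.card, hMcard]
    exact Nat.Coprime.pow_left 2 ((Nat.Prime.coprime_iff_not_dvd Nat.prime_three).2 hnd)
  have hMT : ∀ x ∈ M, x ∈ (T : Subgroup G) → x = 1 := by
    rintro _ ⟨m0, hm0, rfl⟩ hx
    have h1 : m0 ∈ M0 ⊓ (P : Subgroup K) := ⟨hm0, (memP m0).2 hx⟩
    rw [hcompl.disjoint.eq_bot, Subgroup.mem_bot] at h1
    rw [h1, map_one]
  have hMK : M ≤ K := by
    rintro _ ⟨m0, _, rfl⟩
    exact m0.2
  have hcomm : IsMulCommutative (T : Subgroup G) := A.elem.1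
  have hM1 : M = ⊥ := by
    rw [← Cfsg.Agent.S0058.result (T : Subgroup G) M hcyc hTM hcop, eq_bot_iff]
    refine iSup₂_le fun a ha => ?_
    intro x hx
    have hx2 : x ∈ Subgroup.normalizer ((T : Subgroup G) : Set G) := A.loc a ha.1 ha.2 hx.2
    have hx3 : x ∈ (T : Subgroup G) := by
      rw [← hN]; exact ⟨hx2, hMK hx.1⟩
    exact Subgroup.mem_bot.2 (hMT x hx.1 hx3)
  have hM01 : M0 = ⊥ := by
    rw [eq_bot_iff]
    intro x hx
    have h1 : (x : G) ∈ M := ⟨x, hx, rfl⟩
    rw [hM1, Subgroup.mem_bot] at h1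
    exact Subgroup.mem_bot.2 (Subtype.ext h1)
  have hPtop : (P : Subgroup K) = ⊤ := by
    rw [hM01] at hcompl
    exact Subgroup.isComplement'_bot_left.1 hcompl
  have hKT : K ≤ T := by
    intro x hx
    have : (⟨x, hx⟩ : K) ∈ (P : Subgroup K) := by rw [hPtop]; trivial
    exact (memP _).1 this
  have hKeq : K = (T : Subgroup G) := le_antisymm hKT hTK
  have : (T : Subgroup G).Normal := by rw [← hKeq]; infer_instance
  exact Subgroup.normalizer_eq_top_iff.2 this

/-- Let G be a finite group whose Sylow 3-subgroup T is elementary abelian of order 9 and self-centralizing, with N_G(T)/T a Klein four-group, and suppose that the centralizer of every nonidentity element of T lies in N_G(T). Then T is normal in G. -/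
theorem result {G : Type*} [Group G] [Finite G]
    (T : Sylow 3 G) (hT : Cfsg.IsElementaryAbelian 3 (T : Subgroup G)) (hcard : Nat.card T = 9)
    (hC : Subgroup.centralizer ((T : Subgroup G) : Set G) = T)
    [hn : ((T : Subgroup G).subgroupOf (Subgroup.normalizer ((T : Subgroup G) : Set G))).Normal]
    (hK : IsKleinFour (↥(Subgroup.normalizer ((T : Subgroup G) : Set G)) ⧸
      (T : Subgroup G).subgroupOf (Subgroup.normalizer ((T : Subgroup G) : Set G))))
    (hloc : ∀ t ∈ (T : Subgroup G), t ≠ 1 →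
      Subgroup.centralizer ({t} : Set G) ≤ Subgroup.normalizer ((T : Subgroup G) : Set G)) :
    Subgroup.normalizer ((T : Subgroup G) : Set G) = ⊤ := by
  obtain ⟨V, hVN, hV4, hV2, hVT, hprod⟩ := exists_complement T hcard hK
  have A : Amb (T : Subgroup G) V := ⟨hT, hcard, hC, hloc, hVN, hV4, hV2, hVT, hprod⟩
  obtain ⟨e1, e2, z1, z2, L⟩ := exists_loc hT hcard hVN hV4 hV2 (fun v hv h => by
    have h1 : v ∈ Subgroup.centralizer ((T : Subgroup G) : Set G) := by
      rw [Subgroup.mem_centralizer_iff]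
      intro t ht
      exact (mul_inv_eq_iff_eq_mul.1 (h t ht)).symm
    rw [hC] at h1
    have h2 : v ∈ V ⊓ (T : Subgroup G) := ⟨hv, h1⟩
    rw [hVT] at h2
    exact Subgroup.mem_bot.1 h2)
  have S := L.setup A
  have h4 := S.four_le
  -- `T ≤ G'`
  have hmem : ∀ z e : G, e ^ 3 = 1 → z * e * z⁻¹ = e⁻¹ → e ∈ commutator G := by
    intro z e he hz
    have h1 : z * e * z⁻¹ * e⁻¹ ∈ commutator G := Subgroup.commutator_mem_commutator
      (Subgroup.mem_top z) (Subgroup.mem_top e)
    rw [hz, ← mul_inv_rev, mul_self_of_three he, inv_inv] at h1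
    exact h1
  have hTK : (T : Subgroup G) ≤ commutator G := by
    intro t ht
    obtain ⟨c, hc, d, hd, rfl⟩ := L.dec t ht
    exact mul_mem ((Subgroup.zpowers_le.2 (hmem z1 e1 S.e1_3 S.a11)) hc)
      ((Subgroup.zpowers_le.2 (hmem z2 e2 S.e2_3 S.a22)) hd)
  have hcyc : ¬ IsCyclic (T : Subgroup G) := by
    intro h
    obtain ⟨g, hg⟩ := h.exists_generator
    have h1 : orderOf g = Nat.card (T : Subgroup G) := orderOf_eq_card_of_forall_mem_zpowers hg
    have h2 : orderOf g ∣ 3 := orderOf_dvd_of_pow_eq_one (Subtype.ext (hT.2 g g.2))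
    rw [h1, hcard] at h2
    exact absurd (Nat.le_of_dvd (by norm_num) h2) (by norm_num)
  refine final T A hcyc (commutator G) hTK ?_
  -- the intersection of the normalizer with `G'`
  set N := Subgroup.normalizer ((T : Subgroup G) : Set G) with hN
  have hle : (T : Subgroup G) ≤ N ⊓ commutator G := le_inf Subgroup.le_normalizer hTK
  symm
  refine Subgroup.eq_of_le_of_card_ge hle ?_
  have hsup : N ⊔ commutator G = ⊤ := T.normalizer_sup_eq_top' hTK
  have hidx : (commutator G).relIndex N = (commutator G).index := by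
    rw [← Subgroup.relIndex_sup_right, hsup, Subgroup.relIndex_top_right]
  have hcN : Nat.card N = 36 := by
    have h1 := ((T : Subgroup G).subgroupOf N).card_mul_index
    have h2 : ((T : Subgroup G).subgroupOf N).index = 4 := by
      rw [Subgroup.index_eq_card]
      exact hK.card_four
    rw [h2, Nat.card_congr (Subgroup.subgroupOfEquivOfLe Subgroup.le_normalizer).toEquiv,
      hcard] at h1
    exact h1.symm
  have h5 : Nat.card (N ⊓ commutator G : Subgroup G) * (commutator G).index = 36 := by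
    have h1 := ((commutator G).subgroupOf N).card_mul_index
    rw [hcN] at h1
    have h2 : Nat.card ((commutator G).subgroupOf N) = Nat.card (N ⊓ commutator G : Subgroup G) := by
      rw [← Subgroup.inf_subgroupOf_left]
      exact Nat.card_congr (Subgroup.subgroupOfEquivOfLe inf_le_left).toEquiv
    rw [h2] at h1
    rw [← hidx]
    exact h1
  rw [hcard]
  nlinarith

end Cfsg.Agent.S3805
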