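import Cfsg.Statements.S3816
import Cfsg.Agent.H456.CoprimeEnd6

set_option autoImplicit false
open Cfsg

namespace Cfsg.Agent.S3816

/-- Let p be an odd prime, H a finite solvable group of order prime to p, and x an automorphism of H of order p (so P = ⟨x⟩ has prime order p > 2 and acts coprimely on H). For h ∈ H let [h, P] be the subgroup generated by the commutators h⁻¹·xⁱ(h), and let [H, P] be the subgroup generated by all of these. Then the fixed points of x in [H, P] are generated by the fixed points of x in the subgroups [h, P], h ∈ H. -/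
theorem result {H : Type*} [Group H] [Finite H]
    [Group.IsSolvable H] {p : ℕ} [Fact p.Prime] (hp : p ≠ 2) (hcop : (Nat.card H).Coprime p)
    (x : MulAut H) (hx : orderOf x = p) :
    Subgroup.closure {c : H | ∃ h : H, ∃ i : ℕ, c = h⁻¹ * (x ^ i) h} ⊓ (x : H →* H).eqLocus (MonoidHom.id H) =
      ⨆ h : H, Subgroup.closure {c : H | ∃ i : ℕ, c = h⁻¹ * (x ^ i) h} ⊓ (x : H →* H).eqLocus (MonoidHom.id H) := by
  let y : Monoid.End H := (x : H →* H)
  have hpow : ∀ (i : ℕ) (h : H), (y ^ i) h = (x ^ i) h := by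
    intro i
    induction i with
    | zero => intro h; rw [pow_zero, pow_zero]; rfl
    | succ n ih =>
      intro h
      rw [H456.pow_succ_apply, ih, pow_succ', MulAut.mul_apply]
      rfl
  have hy : y ^ p = 1 := by
    ext h
    rw [hpow, ← hx, pow_orderOf_eq_one]
    rfl
  have hpH : ¬ p ∣ Nat.card H := by
    rw [← Nat.Prime.coprime_iff_not_dvd Fact.out]
    exact hcop.symm
  have h1 := H456.main hp hpH y hy
  have h2 : H456.DD y ⊤ = Subgroup.closure {c : H | ∃ h : H, ∃ i : ℕ, c = h⁻¹ * (x ^ i) h} := by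
    unfold H456.DD
    congr 1
    ext c
    constructor
    · rintro ⟨h, -, i, rfl⟩
      exact ⟨h, i, by rw [hpow]⟩
    · rintro ⟨h, i, rfl⟩
      exact ⟨h, Subgroup.mem_top h, i, by rw [hpow]⟩
  have h3 : ∀ h : H, H456.cl y h = Subgroup.closure {c : H | ∃ i : ℕ, c = h⁻¹ * (x ^ i) h} := by
    intro h
    unfold H456.cl
    congr 1
    ext c
    constructor
    · rintro ⟨i, rfl⟩
      exact ⟨i, by rw [hpow]⟩
    · rintro ⟨i, rfl⟩
      exact ⟨i, by rw [hpow]⟩
  rw [h2] at h1
  simp only [h3] at h1
  exact h1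

end Cfsg.Agent.S3816
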