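import Cfsg.Statements.S3818
import Cfsg.Agent.H457.Half.Core

set_option autoImplicit false
open Cfsg

namespace Cfsg.Agent.S3818

/-- Let G be a finite solvable group and P a subgroup of G of prime order p > 3 whose conjugates generate G. Let V be a faithful irreducible representation of G over a field of positive characteristic, finite-dimensional. Then the subspace of V fixed by P has dimension less than half the dimension of V. -/
theorem result {G : Type*} [Group G] [Finite G] [Group.IsSolvable G]
    {p : ℕ} [Fact p.Prime] (hp : 3 < p) (P : Subgroup G) (hP : Nat.card P = p) (hgen : Subgroup.normalClosure (P : Set G) = ⊤)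
    {k : Type*} [Field k] (ℓ : ℕ) [Fact ℓ.Prime] [CharP k ℓ]
    {V : Type*} [AddCommGroup V] [Module k V] [FiniteDimensional k V]
    (ρ : Representation k G V) [ρ.IsIrreducible] (hfaith : Function.Injective ρ) :
    2 * Module.finrank k ↥(⨅ g : ↥P, LinearMap.ker (ρ (g : G) - LinearMap.id)) < Module.finrank k V := by
  have hI : ρ.IsIrreducible := inferInstance
  have hnt : Nontrivial V := by
    by_contra h
    have hs : Subsingleton V := not_nontrivial_iff_subsingleton.1 h
    obtain ⟨σ, τ, hne⟩ := hI.exists_pair_ne
    apply hne
    apply Subrepresentation.toSubmodule_injective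
    exact Subsingleton.elim _ _
  have hirr : Agent.H457.Half.Irr ρ := by
    intro U hU
    let σ : Subrepresentation ρ := ⟨U, fun g u hu => hU g u hu⟩
    rcases hI.eq_bot_or_eq_top σ with h | h
    · left
      exact congrArg Subrepresentation.toSubmodule h
    · right
      exact congrArg Subrepresentation.toSubmodule h
  have key := Agent.H457.Half.main' hp P hP hgen ρ hirr hfaith
  have heq : (⨅ g : ↥P, LinearMap.ker (ρ (g : G) - LinearMap.id)) = Agent.H457.Half.fix ρ P := by
    ext v
    rw [Submodule.mem_iInf, Agent.H457.Half.mem_fix]
    constructor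
    · intro h y hy
      have h1 := h ⟨y, hy⟩
      rw [LinearMap.mem_ker, LinearMap.sub_apply, LinearMap.id_apply, sub_eq_zero] at h1
      exact h1
    · intro h g
      rw [LinearMap.mem_ker, LinearMap.sub_apply, LinearMap.id_apply, sub_eq_zero]
      exact h g g.2
  rw [heq]
  exact key

end Cfsg.Agent.S3818
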