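import Cfsg.Statements.S3819
import Cfsg.Agent.H457.CoreControl
import Cfsg.Agent.S1288

set_option autoImplicit false
open Cfsg

namespace Cfsg.Agent.S3819

open Subgroup
open scoped commutatorElement

/-- `[O_{q'}(C_H(z)), P] ≤ O_{q'}(H)` -/
theorem comm_le {G : Type*} [Group G] [Finite G] {q : ℕ} [Fact q.Prime] (H P K : Subgroup G) (hHn : H.Normal)
    (hKn : K.Normal) (hKH : K ≤ H) (hK : Group.IsSolvable K) (hKP : ⁅H, P⁆ ≤ K)
    (z : G) (hz : ∃ k : ℕ, orderOf z = q ^ k) (hzP : z ∈ centralizer (P : Set G)) :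
    ⁅(Cfsg.pPrimeCore q ↥(H ⊓ centralizer ({z} : Set G))).map (H ⊓ centralizer ({z} : Set G)).subtype, P⁆ ≤
      (Cfsg.pPrimeCore q ↥H).map H.subtype := by
  set C : Subgroup G := H ⊓ centralizer ({z} : Set G) with hC
  set X : Subgroup G := (Cfsg.pPrimeCore q ↥C).map C.subtype with hX
  have hXC : X ≤ C := map_subtype_le _
  have hPC : P ≤ normalizer (C : Set G) := by
    intro a ha
    have haz : a * z = z * a := mem_centralizer_iff.1 hzP a ha
    rw [mem_normalizer_iff]
    intro c
    simp only [hC, mem_inf, mem_centralizer_iff, Set.mem_singleton_iff, forall_eq]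
    have haz2 : Commute a z := haz
    constructor
    · rintro ⟨h1, h2⟩
      refine ⟨hHn.conj_mem _ h1 a, ?_⟩
      have h3 : Commute z c := h2
      exact ((haz2.symm.mul_right h3).mul_right haz2.symm.inv_right).eq
    · rintro ⟨h1, h2⟩
      have e : a⁻¹ * (a * c * a⁻¹) * a⁻¹⁻¹ = c := by group
      refine ⟨e ▸ hHn.conj_mem _ h1 a⁻¹, ?_⟩
      have h3 : Commute z (a * c * a⁻¹) := h2
      have h4 := ((haz2.symm.inv_right.mul_right h3).mul_right haz2.symm.inv_right.inv_right).eq
      rwa [e] at h4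
  have hPX : P ≤ normalizer (X : Set G) := by
    have := Lib.Cores.pPrimeCore_characteristic (G := C) q
    exact S1288.le_normalizer_map_of_characteristic hPC _
  have h1 : ⁅X, P⁆ ≤ X := by
    rw [commutator_le]
    intro x hx a ha
    have : a * x⁻¹ * a⁻¹ ∈ X := (mem_normalizer_iff.1 (hPX ha) _).1 (inv_mem hx)
    have h2 := mul_mem hx this
    have e : ⁅x, a⁆ = x * (a * x⁻¹ * a⁻¹) := by rw [commutatorElement_def]; group
    rwa [e]
  have h2 : ⁅X, P⁆ ≤ K := (commutator_mono (hXC.trans inf_le_left) le_rfl).trans hKP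
  have h3 : X ⊓ K ≤ (pPrimeCore q K).map K.subtype := by
    refine H457.CoreControl.le_core_of_centralizer K hKn hK z hz (X ⊓ K) inf_le_right ?_ ?_ ?_
    · exact (Lib.LocalCore.card_map_pPrimeCore_coprime q C).coprime_dvd_left (card_dvd_of_le inf_le_left)
    · exact inf_le_left.trans (hXC.trans inf_le_right)
    · intro x hx
      exact inf_normalizer_le_normalizer_inf
        ⟨Lib.LocalCore.le_normalizer_map_pPrimeCore q C ⟨hKH hx.1, hx.2⟩, le_normalizer hx.1⟩
  exact (le_inf h1 h2).trans (h3.trans (H457.CoreControl.map_pPrimeCore_le_of_normal q hKn hKH))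

/-- `O_{q'}(C_H(z)) ∩ O_{q'}(C_H(P)) ≤ O_{q'}(H)` -/
theorem inf_le {G : Type*} [Group G] [Finite G] {p q : ℕ} [Fact p.Prime] [Fact q.Prime] (H P K : Subgroup G)
    (hHn : H.Normal) (hP : IsPGroup p P) (hpH : ¬ p ∣ Nat.card H)
    (hKn : K.Normal) (hKH : K ≤ H) (hK : Group.IsSolvable K) (hKP : ⁅H, P⁆ ≤ K)
    (z : G) (hz : ∃ k : ℕ, orderOf z = q ^ k) (hzP : z ∈ centralizer (P : Set G)) :
    ((Cfsg.pPrimeCore q ↥(H ⊓ centralizer ({z} : Set G))).map (H ⊓ centralizer ({z} : Set G)).subtype ⊓
      (Cfsg.pPrimeCore q ↥(H ⊓ centralizer (P : Set G))).map (H ⊓ centralizer (P : Set G)).subtype) ≤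
      (Cfsg.pPrimeCore q ↥H).map H.subtype := by
  set C : Subgroup G := H ⊓ centralizer ({z} : Set G) with hC
  set X : Subgroup G := (Cfsg.pPrimeCore q ↥C).map C.subtype with hX
  set C' : Subgroup G := H ⊓ centralizer (P : Set G) with hC'
  set X' : Subgroup G := (Cfsg.pPrimeCore q ↥C').map C'.subtype with hX'
  set N : Subgroup G := (Cfsg.pPrimeCore q ↥H).map H.subtype with hN
  have hNH : N ≤ H := map_subtype_le _
  have hNn : N.Normal := by
    rw [hN, Lib.Cores.map_subtype_pPrimeCore q hHn]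
    have := Lib.Cores.pPrimeCore_normal (G := G) q
    infer_instance
  have hNq : (Nat.card N).Coprime q := Lib.LocalCore.card_map_pPrimeCore_coprime q H
  have hq : q.Prime := Fact.out
  have hqN : ¬ q ∣ Nat.card N := fun h => by
    have := Nat.Coprime.eq_one_of_dvd hNq.symm h
    exact hq.one_lt.ne' this
  have hpN : ¬ p ∣ Nat.card N := fun h => hpH (h.trans (card_dvd_of_le hNH))
  let f : G →* G ⧸ N := QuotientGroup.mk' N
  have hf : Function.Surjective f := QuotientGroup.mk'_surjective N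
  have hker : f.ker = N := QuotientGroup.ker_mk' N
  have hzpg : IsPGroup q (zpowers z) := by
    obtain ⟨k, hk⟩ := hz
    exact IsPGroup.of_card (n := k) (by rw [Nat.card_zpowers, hk])
  -- centralizers in the quotient
  have hCz : ∀ c : G ⧸ N, c ∈ H.map f ⊓ centralizer ({f z} : Set (G ⧸ N)) → c ∈ C.map f := by
    rintro c ⟨⟨h, hh, rfl⟩, hc2⟩
    have hc3 : Commute (f z) (f h) := mem_centralizer_iff.1 hc2 (f z) rfl
    obtain ⟨g, hg, hge⟩ := SignalizersComponents.CoreOfCentralizer.exists_centralizing_of_quotient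
      (zpowers z) hzpg N hqN (f h) (by
        intro a ha
        obtain ⟨n, rfl⟩ := mem_zpowers_iff.1 ha
        have := hc3.zpow_left n
        rw [← map_zpow] at this
        exact this.eq)
    refine ⟨g, ⟨?_, ?_⟩, hge⟩
    · have h4 : f g = f h := hge
      have h5 : h⁻¹ * g ∈ N := by
        rw [← hker, MonoidHom.mem_ker, map_mul, map_inv, h4, inv_mul_cancel]
      have := mul_mem hh (hNH h5)
      rwa [mul_inv_cancel_left] at this
    · refine mem_centralizer_iff.2 ?_
      intro y hy
      rw [Set.mem_singleton_iff.1 hy]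
      exact hg z (mem_zpowers z)
  have hCP : ∀ c : G ⧸ N, c ∈ H.map f ⊓ centralizer ((P.map f : Subgroup (G ⧸ N)) : Set (G ⧸ N)) → c ∈ C'.map f := by
    rintro c ⟨⟨h, hh, rfl⟩, hc2⟩
    obtain ⟨g, hg, hge⟩ := SignalizersComponents.CoreOfCentralizer.exists_centralizing_of_quotient
      P hP N hpN (f h) (by
        intro a ha
        exact mem_centralizer_iff.1 hc2 (f a) ⟨a, ha, rfl⟩)
    refine ⟨g, ⟨?_, ?_⟩, hge⟩
    · have h4 : f g = f h := hge
      have h5 : h⁻¹ * g ∈ N := by
        rw [← hker, MonoidHom.mem_ker, map_mul, map_inv, h4, inv_mul_cancel]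
      have := mul_mem hh (hNH h5)
      rwa [mul_inv_cancel_left] at this
    · exact mem_centralizer_iff.2 hg
  have key := H457.CoreControl.inf_eq_bot (p := p) (q := q) (H.map f) (P.map f) (K.map f)
    (hHn.map f hf) (hKn.map f hf) (hP.map f)
    (fun h => hpH (h.trans (card_dvd_of_surjective (f.subgroupMap H) (f.subgroupMap_surjective H))))
    (Subgroup.map_mono hKH)
    (Group.isSolvable_of_surjective (f.subgroupMap_surjective K))
    (by rw [← map_commutator]; exact Subgroup.map_mono hKP)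
    (by
      intro W hWH hWn hWq
      set V : Subgroup G := W.comap f ⊓ H with hV
      have hVn : H ≤ normalizer (V : Set G) := by
        intro h hh
        have h1 : f h ∈ normalizer (W : Set (G ⧸ N)) := hWn ⟨h, hh, rfl⟩
        have h2 : h ∈ normalizer (W.comap f : Set G) := by
          rw [mem_normalizer_iff] at h1 ⊢
          intro g
          rw [mem_comap, mem_comap, map_mul, map_mul, map_inv]
          exact h1 (f g)
        exact inf_normalizer_le_normalizer_inf ⟨h2, le_normalizer hh⟩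
      have hNV : N ≤ V := by
        refine le_inf ?_ hNH
        intro n hn
        rw [mem_comap]
        have : f n = 1 := by rw [← MonoidHom.mem_ker, hker]; exact hn
        rw [this]; exact one_mem _
      have hVmap : V.map f = W := by
        rw [hV]
        apply le_antisymm
        · rintro _ ⟨v, hv, rfl⟩
          exact hv.1
        · intro w hw
          obtain ⟨h, hh, rfl⟩ := hWH hw
          exact ⟨h, ⟨hw, hh⟩, rfl⟩
      have hVcard : (Nat.card V).Coprime q := by
        have e1 : Nat.card V = Nat.card W * Nat.card N := by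
          have h1 := Subgroup.card_mul_index (N.subgroupOf V)
          have h2 : Nat.card (N.subgroupOf V) = Nat.card N := Nat.card_congr (subgroupOfEquivOfLe hNV).toEquiv
          have h3 : (N.subgroupOf V).index = Nat.card W := by
            have h4 : (f.comp V.subtype).ker = N.subgroupOf V := by
              ext x
              rw [MonoidHom.mem_ker, mem_subgroupOf]
              show f x = 1 ↔ _
              rw [← MonoidHom.mem_ker, hker]
            rw [← h4, Subgroup.index_ker]
            have h5 : (f.comp V.subtype).range = W := by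
              rw [← hVmap]
              ext x
              constructor
              · rintro ⟨v, rfl⟩
                exact ⟨v, v.2, rfl⟩
              · rintro ⟨v, hv, rfl⟩
                exact ⟨⟨v, hv⟩, rfl⟩
            rw [h5]
          rw [← h1, h2, h3, mul_comm]
        rw [e1]
        exact Nat.Coprime.mul_left hWq hNq
      have h6 : V ≤ N := Lib.LocalCore.le_map_pPrimeCore inf_le_right hVcard hVn
      rw [← hVmap, Subgroup.map_eq_bot_iff, hker]
      exact h6)
    (f z) (by
      obtain ⟨k, hk⟩ := hz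
      have h1 : orderOf (f z) ∣ q ^ k := hk ▸ orderOf_map_dvd f z
      obtain ⟨j, -, hj⟩ := (Nat.dvd_prime_pow hq).1 h1
      exact ⟨j, hj⟩)
    (by
      refine mem_centralizer_iff.2 ?_
      rintro _ ⟨a, ha, rfl⟩
      rw [← map_mul, ← map_mul, mem_centralizer_iff.1 hzP a ha])
    (X.map f) (X'.map f)
    (by
      rintro _ ⟨x, hx, rfl⟩
      have hxC : x ∈ C := map_subtype_le _ hx
      refine ⟨⟨x, hxC.1, rfl⟩, mem_centralizer_iff.2 ?_⟩
      intro y hy
      rw [Set.mem_singleton_iff.1 hy, ← map_mul, ← map_mul, mem_centralizer_iff.1 hxC.2 z rfl])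
    (by
      rintro _ ⟨x, hx, rfl⟩
      have hxC : x ∈ C' := map_subtype_le _ hx
      refine ⟨⟨x, hxC.1, rfl⟩, mem_centralizer_iff.2 ?_⟩
      rintro _ ⟨a, ha, rfl⟩
      rw [← map_mul, ← map_mul, mem_centralizer_iff.1 hxC.2 a ha])
    (by
      intro c hc
      obtain ⟨d, hd, rfl⟩ := hCz c hc
      exact Subgroup.le_normalizer_map f ⟨d, Lib.LocalCore.le_normalizer_map_pPrimeCore q C hd, rfl⟩)
    (by
      intro c hc
      obtain ⟨d, hd, rfl⟩ := hCP c hc
      exact Subgroup.le_normalizer_map f ⟨d, Lib.LocalCore.le_normalizer_map_pPrimeCore q C' hd, rfl⟩)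
    ((Lib.LocalCore.card_map_pPrimeCore_coprime q C).coprime_dvd_left
      (card_dvd_of_surjective (f.subgroupMap X) (f.subgroupMap_surjective X)))
    ((Lib.LocalCore.card_map_pPrimeCore_coprime q C').coprime_dvd_left
      (card_dvd_of_surjective (f.subgroupMap X') (f.subgroupMap_surjective X')))
  rintro y ⟨hy1, hy2⟩
  have h1 : f y ∈ X.map f ⊓ X'.map f := ⟨⟨y, hy1, rfl⟩, ⟨y, hy2, rfl⟩⟩
  rw [key, mem_bot] at h1
  rw [← hker]
  exact h1

/-- Let G be a finite group with Sylow p-subgroup P and H = O_{p'}(G), and suppose G = PH and the commutator subgroup [H, P] is solvable. Let q be a prime and z an element of q-power order of C_H(P). Then (O_{q'}(C_H(z)) ∩ O_{q'}(C_H(P))) · [O_{q'}(C_H(z)), P] ≤ O_{q'}(H). -/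
theorem result {G : Type*} [Group G] [Finite G] {p : ℕ} [Fact p.Prime]
    (P : Sylow p G) (hPH : Cfsg.pPrimeCore p G ⊔ (P : Subgroup G) = ⊤)
    (hsol : Group.IsSolvable ↥⁅Cfsg.pPrimeCore p G, (P : Subgroup G)⁆)
    {q : ℕ} [Fact q.Prime] (z : G) (hzH : z ∈ Cfsg.pPrimeCore p G) (hzP : z ∈ Subgroup.centralizer ((P : Subgroup G) : Set G))
    (hz : ∃ k : ℕ, orderOf z = q ^ k) :
    ((Cfsg.pPrimeCore q ↥(Cfsg.pPrimeCore p G ⊓ Subgroup.centralizer ({z} : Set G))).map
        (Cfsg.pPrimeCore p G ⊓ Subgroup.centralizer ({z} : Set G)).subtype ⊓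
      (Cfsg.pPrimeCore q ↥(Cfsg.pPrimeCore p G ⊓ Subgroup.centralizer ((P : Subgroup G) : Set G))).map
        (Cfsg.pPrimeCore p G ⊓ Subgroup.centralizer ((P : Subgroup G) : Set G)).subtype) ⊔
    ⁅(Cfsg.pPrimeCore q ↥(Cfsg.pPrimeCore p G ⊓ Subgroup.centralizer ({z} : Set G))).map
        (Cfsg.pPrimeCore p G ⊓ Subgroup.centralizer ({z} : Set G)).subtype, (P : Subgroup G)⁆ ≤
    (Cfsg.pPrimeCore q ↥(Cfsg.pPrimeCore p G)).map (Cfsg.pPrimeCore p G).subtype := by
  have hHn : (Cfsg.pPrimeCore p G).Normal := Lib.Cores.pPrimeCore_normal p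
  have hp : p.Prime := Fact.out
  have hpH : ¬ p ∣ Nat.card (Cfsg.pPrimeCore p G) := fun h => by
    have := Nat.Coprime.eq_one_of_dvd (Lib.Cores.pPrimeCore_coprime (G := G) p).symm h
    exact hp.one_lt.ne' this
  have hKn : (⁅Cfsg.pPrimeCore p G, (P : Subgroup G)⁆).Normal := by
    rw [← Subgroup.normalizer_eq_top_iff, eq_top_iff, ← hPH]
    exact sup_le (normalizer_commutator_ge_left _ _) (normalizer_commutator_ge_right _ _)
  have hKH : ⁅Cfsg.pPrimeCore p G, (P : Subgroup G)⁆ ≤ Cfsg.pPrimeCore p G := commutator_le_left _ _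
  exact sup_le
    (inf_le (Cfsg.pPrimeCore p G) P _ hHn P.isPGroup' hpH hKn hKH hsol le_rfl z hz hzP)
    (comm_le (Cfsg.pPrimeCore p G) P _ hHn hKn hKH hsol le_rfl z hz hzP)

end Cfsg.Agent.S3819
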