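import Cfsg.Statements.S3822
import Cfsg.Agent.H457.CrossMain
import Cfsg.Agent.S1288

set_option autoImplicit false
open Cfsg

namespace Cfsg.Agent.S3822

open Subgroup
open scoped commutatorElement

/-- `O_r(A)` centralizes the `q`-group `W`, `r ≠ q`. -/
theorem centralizes {G : Type*} [Group G] [Finite G]
    {p : ℕ} [Fact p.Prime] (hp : 3 < p) (P : Subgroup G) (hP : Nat.card P = p) (A : Subgroup G)
    (hA : Group.IsSolvable ↥A ∧ ∃ a ∈ A, A = P ⊔ P.map (MulAut.conj a).toMonoidHom)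
    (hmax : ∀ B : Subgroup G, A ≤ B → Group.IsSolvable ↥B →
      (∃ b ∈ B, B = P ⊔ P.map (MulAut.conj b).toMonoidHom) → B = A)
    {q r : ℕ} [hq : Fact q.Prime] [hr : Fact r.Prime] (hrq : r ≠ q) (R W₀ : Subgroup G) (hRA : R ≤ A)
    (hAR : A ≤ normalizer (R : Set G)) (hR : IsPGroup r R) (hAW₀ : A ≤ normalizer (W₀ : Set G))
    (hW₀q : IsPGroup q W₀) : R ≤ centralizer (W₀ : Set G) := by
  classical
  by_contra hcon
  -- a minimal bad subgroup
  have hwf : WellFounded ((· < ·) : Subgroup G → Subgroup G → Prop) := wellFounded_lt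
  obtain ⟨W, ⟨hWW₀, hAW, hRW⟩, hWmin⟩ := hwf.has_min
    {W : Subgroup G | W ≤ W₀ ∧ A ≤ normalizer (W : Set G) ∧ ¬ R ≤ centralizer (W : Set G)}
    ⟨W₀, le_rfl, hAW₀, hcon⟩
  have hWq : IsPGroup q W := hW₀q.to_le hWW₀
  have hWnil : Group.IsNilpotent W := hWq.isNilpotent
  obtain ⟨hAs, a, ha, hAP⟩ := hA
  have hPA : P ≤ A := by rw [hAP]; exact le_sup_left
  -- the group `A W`
  set G₁ : Subgroup G := A ⊔ W with hG₁
  have hAG : A ≤ G₁ := le_sup_left
  have hWG : W ≤ G₁ := le_sup_right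
  have hPG : P ≤ G₁ := hPA.trans hAG
  have hRG : R ≤ G₁ := hRA.trans hAG
  have hG₁W : G₁ ≤ normalizer (W : Set G) := sup_le hAW le_normalizer
  have hWn : (W.subgroupOf G₁).Normal := normal_subgroupOf_of_le_normalizer hG₁W
  have hmapc : ∀ {B : Subgroup G} (_ : B ≤ G₁) (g : G₁),
      ((B.subgroupOf G₁).map (MulAut.conj g).toMonoidHom).map G₁.subtype =
        B.map (MulAut.conj (g : G)).toMonoidHom := by
    intro B hB g
    ext x
    simp only [Subgroup.mem_map, Subgroup.mem_subgroupOf]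
    constructor
    · rintro ⟨_, ⟨y, hy, rfl⟩, rfl⟩
      exact ⟨y, hy, by simp⟩
    · rintro ⟨y, hy, rfl⟩
      exact ⟨_, ⟨⟨y, hB hy⟩, hy, rfl⟩, by simp⟩
  have hsub : ∀ {B : Subgroup G}, B ≤ G₁ → (B.subgroupOf G₁).map G₁.subtype = B := by
    intro B hB
    rw [subgroupOf_map_subtype, inf_eq_left.2 hB]
  have hA' : A.subgroupOf G₁ = P.subgroupOf G₁ ⊔ (P.subgroupOf G₁).map (MulAut.conj ⟨a, hAG ha⟩).toMonoidHom := by
    apply Subgroup.map_injective G₁.subtype_injective
    rw [Subgroup.map_sup, hmapc hPG, hsub hPG, hsub hAG]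
    exact hAP
  obtain ⟨w, hw, hgen⟩ := H457.CrossMain.exists_generate (G := G₁) hrq (W.subgroupOf G₁) (A.subgroupOf G₁)
    (R.subgroupOf G₁) (P.subgroupOf G₁) hWn
    (hWq.of_equiv (subgroupOfEquivOfLe hWG).symm)
    (by
      apply Subgroup.map_injective G₁.subtype_injective
      rw [Subgroup.map_sup, hsub hAG, hsub hWG, ← MonoidHom.range_eq_map, Subgroup.range_subtype])
    (Group.isSolvable_of_surjective (f := (subgroupOfEquivOfLe hAG).symm.toMonoidHom)
      (subgroupOfEquivOfLe hAG).symm.surjective)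
    (fun x hx => hRA hx)
    (by
      rw [← subgroupOf_normalizer_eq hRG]
      exact fun x hx => hAR hx)
    (hR.of_equiv (subgroupOfEquivOfLe hRG).symm)
    (by
      intro h
      apply hRW
      intro x hx
      rw [mem_centralizer_iff]
      intro y hy
      have h1 := mem_centralizer_iff.1 (@h ⟨x, hRG hx⟩ hx) ⟨y, hWG hy⟩ hy
      exact congrArg Subtype.val h1)
    (by
      intro W' hW' hW'n
      have h1 : W'.map G₁.subtype ≤ W := by
        rintro _ ⟨x, hx, rfl⟩
        exact hW'.le hx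
      have h2 : W'.map G₁.subtype < W := by
        refine lt_of_le_of_ne h1 ?_
        intro h
        apply hW'.ne
        apply Subgroup.map_injective G₁.subtype_injective
        rw [h, hsub hWG]
      have h3 : A ≤ normalizer ((W'.map G₁.subtype : Subgroup G) : Set G) :=
        hAG.trans (Lib.LocalCore.le_normalizer_map_subtype G₁ W' hW'n)
      by_contra hcon2
      refine hWmin (W'.map G₁.subtype) ⟨h1.trans hWW₀, h3, ?_⟩ h2
      intro h4
      apply hcon2
      intro x hx
      rw [mem_centralizer_iff]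
      intro y hy
      apply Subtype.ext
      exact mem_centralizer_iff.1 (h4 hx) (y : G) ⟨y, hy, rfl⟩)
    hp (by rw [Nat.card_congr (subgroupOfEquivOfLe hPG).toEquiv, hP])
    ⟨a, hAG ha⟩ ha hA'
  -- back to `G`
  have hgen' : G₁ = P ⊔ P.map (MulAut.conj ((w : G) * a)).toMonoidHom := by
    have h1 := congrArg (Subgroup.map G₁.subtype) hgen
    rw [Subgroup.map_sup, hmapc hPG, hsub hPG, ← MonoidHom.range_eq_map, Subgroup.range_subtype] at h1
    exact h1.symm
  have hG₁s : Group.IsSolvable G₁ := by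
    rw [hG₁, sup_comm]
    exact SignalizersComponents.CoprimeBasic.isSolvable_sup hAW inferInstance hAs
  have hG₁A : G₁ = A := hmax G₁ hAG hG₁s ⟨(w : G) * a, mul_mem w.2 (hAG ha), hgen'⟩
  have hWA : W ≤ A := by rw [← hG₁A]; exact hWG
  apply hRW
  -- `[R, W] ≤ R ∩ W = 1`
  have hcop : (Nat.card R).Coprime (Nat.card W) := by
    obtain ⟨n, hn⟩ := IsPGroup.iff_card.mp hR
    obtain ⟨m, hm⟩ := IsPGroup.iff_card.mp hWq
    rw [hn, hm]
    exact Nat.Coprime.pow _ _ ((Nat.coprime_primes hr.out hq.out).2 hrq)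
  have hRWbot : R ⊓ W = ⊥ := Disjoint.eq_bot (Subgroup.disjoint_of_coprime_natCard hcop)
  intro ρ hρ
  rw [mem_centralizer_iff]
  intro x hx
  have h1 : ρ * x * ρ⁻¹ * x⁻¹ ∈ R ⊓ W := by
    refine mem_inf.2 ⟨?_, ?_⟩
    · have h2 : x * ρ⁻¹ * x⁻¹ ∈ R := (mem_normalizer_iff.1 (hAR (hWA hx)) _).1 (inv_mem hρ)
      have e : ρ * x * ρ⁻¹ * x⁻¹ = ρ * (x * ρ⁻¹ * x⁻¹) := by group
      rw [e]; exact mul_mem hρ h2
    · exact mul_mem ((mem_normalizer_iff.1 (hAW (hRA hρ)) x).1 hx) (inv_mem hx)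
  rw [hRWbot, mem_bot] at h1
  have h3 : ρ * x * ρ⁻¹ = x := mul_inv_eq_one.1 h1
  calc x * ρ = (ρ * x * ρ⁻¹) * ρ := by rw [h3]
    _ = ρ * x := by group

/-- Let G be a finite group and P a subgroup of prime order p > 3. Consider the solvable subgroups A of G of the form A = ⟨P, aPa⁻¹⟩ for some a ∈ A, and let A be maximal under inclusion among them. Then for every nilpotent subgroup V of G normalized by A, the subgroup F(A)V generated by the Fitting subgroup of A and V is nilpotent. -/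
theorem result {G : Type*} [Group G] [Finite G]
    {p : ℕ} [Fact p.Prime] (hp : 3 < p) (P : Subgroup G) (hP : Nat.card P = p) (A : Subgroup G)
    (hA : Group.IsSolvable ↥A ∧ ∃ a ∈ A, A = P ⊔ P.map (MulAut.conj a).toMonoidHom)
    (hmax : ∀ B : Subgroup G, A ≤ B → Group.IsSolvable ↥B → (∃ b ∈ B, B = P ⊔ P.map (MulAut.conj b).toMonoidHom) → B = A)
    (V : Subgroup G) (hV : Group.IsNilpotent ↥V) (hAV : A ≤ Subgroup.normalizer (V : Set G)) :
    Group.IsNilpotent ↥((Cfsg.fittingSubgroup ↥A).map A.subtype ⊔ V) := by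
  classical
  set F : Subgroup G := (Cfsg.fittingSubgroup ↥A).map A.subtype with hF
  set N : Subgroup G := F ⊔ V with hN
  -- the primary components
  let R : ℕ → Subgroup G := fun s => (pCore s A).map A.subtype
  let W : ℕ → Subgroup G := fun s => (pCore s V).map V.subtype
  have hRA : ∀ s, R s ≤ A := fun s => map_subtype_le _
  have hWV : ∀ s, W s ≤ V := fun s => map_subtype_le _
  have hAR : ∀ s, A ≤ normalizer ((R s : Subgroup G) : Set G) := fun s => Lib.LocalCore.le_normalizer_map_pCore s A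
  have hVW : ∀ s, V ≤ normalizer ((W s : Subgroup G) : Set G) := fun s => Lib.LocalCore.le_normalizer_map_pCore s V
  have hAW : ∀ s, A ≤ normalizer ((W s : Subgroup G) : Set G) := by
    intro s
    have := Lib.Cores.pCore_characteristic (G := V) s
    exact S1288.le_normalizer_map_of_characteristic hAV _
  have hRp : ∀ s, IsPGroup s (R s) := fun s => Lib.LocalCore.isPGroup_map_pCore s A
  have hWp : ∀ s, IsPGroup s (W s) := fun s => Lib.LocalCore.isPGroup_map_pCore s V
  have hFR : F = ⨆ s : Nat.Primes, R s := by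
    rw [hF, Lib.Cores.fittingSubgroup_eq_iSup_pCore, Subgroup.map_iSup]
  have hVW' : V = ⨆ s : Nat.Primes, W s := by
    have h1 : fittingSubgroup V = ⊤ := Lib.Cores.fittingSubgroup_eq_top_iff.2 hV
    have h2 := congrArg (Subgroup.map V.subtype) h1
    rw [Lib.Cores.fittingSubgroup_eq_iSup_pCore, Subgroup.map_iSup, ← MonoidHom.range_eq_map,
      Subgroup.range_subtype] at h2
    exact h2.symm
  -- the commuting relations
  have hcRW : ∀ r q : ℕ, r.Prime → q.Prime → r ≠ q → R r ≤ centralizer ((W q : Subgroup G) : Set G) := by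
    intro r q hr hq hrq
    haveI := Fact.mk hr
    haveI := Fact.mk hq
    exact centralizes hp P hP A hA hmax hrq (R r) (W q) (hRA r) (hAR r) (hRp r) (hAW q) (hWp q)
  -- `N_q = R_q W_q`
  have hNq : ∀ s : ℕ, s.Prime → IsPGroup s ↥(R s ⊔ W s) := by
    intro s hs
    haveI := Fact.mk hs
    exact IsPGroup.to_sup_of_normal_right' (hRp s) (hWp s) ((hRA s).trans (hAW s))
  have hRR : ∀ r s : ℕ, r.Prime → s.Prime → r ≠ s → R r ≤ centralizer ((R s : Subgroup G) : Set G) := by
    intro r s hr hs hrs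
    haveI := Fact.mk hr
    haveI := Fact.mk hs
    intro x hx
    rw [mem_centralizer_iff]
    intro y hy
    have hcop : (Nat.card (R r)).Coprime (Nat.card (R s)) := by
      obtain ⟨n, hn⟩ := IsPGroup.iff_card.mp (hRp r)
      obtain ⟨m, hm⟩ := IsPGroup.iff_card.mp (hRp s)
      rw [hn, hm]
      exact Nat.Coprime.pow _ _ ((Nat.coprime_primes hr hs).2 hrs)
    have hbot : R r ⊓ R s = ⊥ := Disjoint.eq_bot (Subgroup.disjoint_of_coprime_natCard hcop)
    have h1 : y * x * y⁻¹ * x⁻¹ ∈ R r ⊓ R s := by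
      refine mem_inf.2 ⟨mul_mem ((mem_normalizer_iff.1 (hAR r (hRA s hy)) x).1 hx) (inv_mem hx), ?_⟩
      have e : y * x * y⁻¹ * x⁻¹ = y * (x * y⁻¹ * x⁻¹) := by group
      rw [e]
      exact mul_mem hy ((mem_normalizer_iff.1 (hAR s (hRA r hx)) _).1 (inv_mem hy))
    rw [hbot, mem_bot] at h1
    have h3 : y * x * y⁻¹ = x := mul_inv_eq_one.1 h1
    calc y * x = (y * x * y⁻¹) * y := by group
      _ = x * y := by rw [h3]
  have hWW : ∀ r s : ℕ, r.Prime → s.Prime → r ≠ s → W r ≤ centralizer ((W s : Subgroup G) : Set G) := by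
    intro r s hr hs hrs
    haveI := Fact.mk hr
    haveI := Fact.mk hs
    intro x hx
    rw [mem_centralizer_iff]
    intro y hy
    have hcop : (Nat.card (W r)).Coprime (Nat.card (W s)) := by
      obtain ⟨n, hn⟩ := IsPGroup.iff_card.mp (hWp r)
      obtain ⟨m, hm⟩ := IsPGroup.iff_card.mp (hWp s)
      rw [hn, hm]
      exact Nat.Coprime.pow _ _ ((Nat.coprime_primes hr hs).2 hrs)
    have hbot : W r ⊓ W s = ⊥ := Disjoint.eq_bot (Subgroup.disjoint_of_coprime_natCard hcop)
    have h1 : y * x * y⁻¹ * x⁻¹ ∈ W r ⊓ W s := by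
      refine mem_inf.2 ⟨mul_mem ((mem_normalizer_iff.1 (hVW r (hWV s hy)) x).1 hx) (inv_mem hx), ?_⟩
      have e : y * x * y⁻¹ * x⁻¹ = y * (x * y⁻¹ * x⁻¹) := by group
      rw [e]
      exact mul_mem hy ((mem_normalizer_iff.1 (hVW s (hWV r hx)) _).1 (inv_mem hy))
    rw [hbot, mem_bot] at h1
    have h3 : y * x * y⁻¹ = x := mul_inv_eq_one.1 h1
    calc y * x = (y * x * y⁻¹) * y := by group
      _ = x * y := by rw [h3]
  have hsymm : ∀ {B C : Subgroup G}, B ≤ centralizer (C : Set G) → C ≤ centralizer (B : Set G) := by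
    intro B C h x hx
    rw [mem_centralizer_iff]
    intro y hy
    exact (mem_centralizer_iff.1 (h hy) x hx).symm
  -- each `N_q` is normalized by `N`
  have hNN : ∀ s : ℕ, s.Prime → N ≤ normalizer ((R s ⊔ W s : Subgroup G) : Set G) := by
    intro s hs
    rw [hN]
    have hcent : ∀ {B : Subgroup G}, B ≤ centralizer ((R s ⊔ W s : Subgroup G) : Set G) →
        B ≤ normalizer ((R s ⊔ W s : Subgroup G) : Set G) := fun h => h.trans (centralizer_le_normalizer _)
    have hcent2 : ∀ {B : Subgroup G}, B ≤ centralizer ((R s : Subgroup G) : Set G) →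
        B ≤ centralizer ((W s : Subgroup G) : Set G) →
        B ≤ centralizer ((R s ⊔ W s : Subgroup G) : Set G) := by
      intro B h1 h2
      exact hsymm (sup_le (hsymm h1) (hsymm h2))
    refine sup_le ?_ ?_
    · rw [hFR]
      refine iSup_le ?_
      rintro ⟨r, hr⟩
      rcases eq_or_ne r s with rfl | hrs
      · exact le_sup_left.trans le_normalizer
      · exact hcent (hcent2 (hRR r s hr hs hrs) (hcRW r s hr hs hrs))
    · rw [hVW']
      refine iSup_le ?_
      rintro ⟨r, hr⟩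
      rcases eq_or_ne r s with rfl | hrs
      · exact le_sup_right.trans le_normalizer
      · exact hcent (hcent2 (hsymm (hcRW s r hs hr hrs.symm)) (hWW r s hr hs hrs))
  -- conclusion
  have hle : N ≤ (fittingSubgroup N).map N.subtype := by
    have key : ∀ s : ℕ, s.Prime → R s ⊔ W s ≤ (fittingSubgroup N).map N.subtype := by
      intro s hs
      haveI := Fact.mk hs
      refine Lib.LocalCore.le_map_fittingSubgroup ?_ (hNq s hs).isNilpotent (hNN s hs)
      refine sup_le_sup ?_ (hWV s)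
      rw [hFR]
      exact le_iSup (fun s : Nat.Primes => R s) ⟨s, hs⟩
    generalize (fittingSubgroup N).map N.subtype = M at key
    have h1 : F ≤ M := by
      rw [hFR]
      exact iSup_le fun s => le_sup_left.trans (key s s.2)
    have h2 : V ≤ M := by
      rw [hVW']
      exact iSup_le fun s => le_sup_right.trans (key s s.2)
    exact sup_le h1 h2
  rw [← Lib.Cores.fittingSubgroup_eq_top_iff, eq_top_iff]
  intro x _
  obtain ⟨y, hy, hyx⟩ := hle x.2
  exact (Subtype.ext hyx : y = x) ▸ hy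

end Cfsg.Agent.S3822
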