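import Cfsg.Statements.S3838
import Cfsg.Agent.S0081
import Cfsg.Agent.Transfer.NormalPComplement

set_option autoImplicit false
open Cfsg

namespace Cfsg.Agent.S3838

open Cfsg.Agent.Transfer.NormalPComplement

/-- Elements of order prime to `p` normalizing a `p`-group centralize it when the normalizer is
`p`-nilpotent. -/
theorem commute_of_coprime {G : Type*} [Group G] [Finite G] {p : ℕ} [Fact p.Prime]
    {D : Subgroup G} (hD : IsPGroup p D)
    (hN : Cfsg.HasNormalPComplement p ↥(Subgroup.normalizer (D : Set G)))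
    {g : G} (hg : g ∈ Subgroup.normalizer (D : Set G)) (hgp : (orderOf g).Coprime p)
    {d : G} (hd : d ∈ D) : d * g = g * d := by
  obtain ⟨N, hNn, h1, h2⟩ := hasNormalPComplement_iff.mp hN
  have hDN : D ≤ Subgroup.normalizer (D : Set G) := Subgroup.le_normalizer
  set g' : ↥(Subgroup.normalizer (D : Set G)) := ⟨g, hg⟩ with hg'
  set d' : ↥(Subgroup.normalizer (D : Set G)) := ⟨d, hDN hd⟩ with hd'
  have hgN : g' ∈ N := by
    rw [mem_iff_coprime_orderOf' N h1 h2 g', hg', Subgroup.orderOf_mk]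
    exact hgp
  have h3 : d' * g' * d'⁻¹ * g'⁻¹ ∈ N := mul_mem (hNn.conj_mem g' hgN d') (inv_mem hgN)
  have h4 : d * g * d⁻¹ * g⁻¹ ∈ D := by
    have h5 : g * d⁻¹ * g⁻¹ ∈ D := (Subgroup.mem_normalizer_iff.mp hg d⁻¹).mp (inv_mem hd)
    have h6 : d * g * d⁻¹ * g⁻¹ = d * (g * d⁻¹ * g⁻¹) := by group
    rw [h6]
    exact mul_mem hd h5
  have h5 : d * g * d⁻¹ * g⁻¹ = 1 := by
    obtain ⟨k, hk⟩ := IsPGroup.iff_card.mp hD
    have h6 : orderOf (d * g * d⁻¹ * g⁻¹) ∣ Nat.card N := by
      have := Subgroup.orderOf_dvd_natCard N h3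
      rwa [← Subgroup.orderOf_coe] at this
    have h7 : orderOf (d * g * d⁻¹ * g⁻¹) ∣ Nat.card D := Subgroup.orderOf_dvd_natCard D h4
    rw [hk] at h7
    rw [← orderOf_eq_one_iff]
    exact Nat.eq_one_of_dvd_coprimes (h1.pow_right k) h6 h7
  rw [mul_inv_eq_one, mul_inv_eq_iff_eq_mul] at h5
  exact h5

/-- Burnside's theorem in the form: a group with abelian Sylow subgroup with `p`-nilpotent
normalizer has a normal `p`-complement; relative form modulo a normal subgroup `Q` of the Sylow
subgroup containing its derived subgroup. -/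
theorem quotient_hnc {H : Type*} [Group H] [Finite H] {p : ℕ} [Fact p.Prime] (P : Sylow p H)
    (Q : Subgroup H) [Q.Normal] (hQP : Q ≤ P) (h1 : ⁅(P : Subgroup H), (P : Subgroup H)⁆ ≤ Q)
    (hN : Cfsg.HasNormalPComplement p ↥(Subgroup.normalizer ((P : Subgroup H) : Set H))) :
    Cfsg.HasNormalPComplement p (H ⧸ Q) := by
  set P' : Sylow p (H ⧸ Q) := P.mapSurjective (QuotientGroup.mk'_surjective Q) with hP'
  have hP'c : (P' : Subgroup (H ⧸ Q)) = (P : Subgroup H).map (QuotientGroup.mk' Q) := rfl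
  have key : Subgroup.normalizer ((P' : Subgroup (H ⧸ Q)) : Set (H ⧸ Q)) ≤
      Subgroup.centralizer ((P' : Subgroup (H ⧸ Q)) : Set (H ⧸ Q)) := by
    intro y hy
    obtain ⟨h, rfl⟩ := QuotientGroup.mk_surjective y
    have hmemP : ∀ x : H, (x : H ⧸ Q) ∈ (P' : Subgroup (H ⧸ Q)) ↔ x ∈ P := by
      intro x
      rw [hP'c]
      constructor
      · rintro ⟨z, hz, hzx⟩
        have h3 : z⁻¹ * x ∈ Q := QuotientGroup.eq.mp hzx
        have h4 : x = z * (z⁻¹ * x) := by group
        rw [h4]
        exact mul_mem hz (hQP h3)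
      · intro hx
        exact ⟨x, hx, rfl⟩
    have hhN : h ∈ Subgroup.normalizer ((P : Subgroup H) : Set H) := by
      rw [Subgroup.mem_normalizer_iff] at hy ⊢
      intro x
      have := hy (x : H ⧸ Q)
      have h5 : (h : H ⧸ Q) * (x : H ⧸ Q) * (h : H ⧸ Q)⁻¹ = ((h * x * h⁻¹ : H) : H ⧸ Q) := rfl
      rw [h5] at this
      exact ((hmemP x).symm.trans this).trans (hmemP _)
    -- elements of order prime to `p` in the normalizer centralize `P`
    have hcop : ∀ g ∈ Subgroup.normalizer ((P : Subgroup H) : Set H), (orderOf g).Coprime p →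
        ∀ d ∈ P, d * g = g * d := fun g hg hgp d hd => commute_of_coprime P.2 hN hg hgp hd
    rw [Subgroup.mem_centralizer_iff]
    intro z hz
    obtain ⟨x, rfl⟩ := QuotientGroup.mk_surjective z
    have hx : x ∈ P := (hmemP x).mp hz
    -- the commutator of `h` and `x` lies in `Q`
    obtain ⟨K, hK, h6, h7⟩ := hasNormalPComplement_iff.mp hN
    have hPN : (P : Subgroup H) ≤ Subgroup.normalizer ((P : Subgroup H) : Set H) :=
      Subgroup.le_normalizer
    have hcompl : K.IsComplement' (P.subtype hPN : Subgroup _) :=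
      isComplement'_of_coprime_of_isPGroup K h6 h7 (P.subtype hPN)
    obtain ⟨⟨a, b⟩, hab⟩ := hcompl.existsUnique ⟨h, hhN⟩ |>.exists
    have hb : ((b : ↥(Subgroup.normalizer ((P : Subgroup H) : Set H))) : H) ∈ P := b.2
    have ha : ∀ d ∈ P, d * ((a : ↥(Subgroup.normalizer ((P : Subgroup H) : Set H))) : H) =
        ((a : ↥(Subgroup.normalizer ((P : Subgroup H) : Set H))) : H) * d := by
      apply hcop _ (a : ↥(Subgroup.normalizer ((P : Subgroup H) : Set H))).2
      have := (mem_iff_coprime_orderOf' K h6 h7 (a : ↥(Subgroup.normalizer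
        ((P : Subgroup H) : Set H)))).mp a.2
      rwa [Subgroup.orderOf_coe]
    have hh : h = ((a : ↥(Subgroup.normalizer ((P : Subgroup H) : Set H))) : H) *
        ((b : ↥(Subgroup.normalizer ((P : Subgroup H) : Set H))) : H) :=
      (congrArg Subtype.val hab).symm
    set a' := ((a : ↥(Subgroup.normalizer ((P : Subgroup H) : Set H))) : H) with ha'
    set b' := ((b : ↥(Subgroup.normalizer ((P : Subgroup H) : Set H))) : H) with hb'
    have h8 : (x * h)⁻¹ * (h * x) ∈ Q := by
      have h9 : (x * h)⁻¹ * (h * x) = b'⁻¹ * (x⁻¹ * b' * x * b'⁻¹) * b' := by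
        have h10 : x⁻¹ * a' = a' * x⁻¹ := ha x⁻¹ (inv_mem hx)
        rw [hh]
        have : (x * (a' * b'))⁻¹ * (a' * b' * x) = b'⁻¹ * (a'⁻¹ * (x⁻¹ * a')) * b' * x := by group
        rw [this, h10]
        group
      rw [h9]
      have h11 : x⁻¹ * b' * x * b'⁻¹ ∈ Q := by
        apply h1
        have := Subgroup.commutator_mem_commutator (inv_mem hx : x⁻¹ ∈ (P : Subgroup H)) hb
        rwa [commutatorElement_def, inv_inv] at this
      have := Subgroup.Normal.conj_mem ‹Q.Normal› _ h11 b'⁻¹
      rwa [inv_inv] at this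
    exact (QuotientGroup.eq.mpr h8)
  have := MonoidHom.ker_transferSylow_isComplement' P' key
  exact ⟨P', _, inferInstance, this⟩

theorem main {H : Type*} [Group H] [Finite H] {p : ℕ} [Fact p.Prime] (P : Sylow p H)
    (Q : Subgroup H) [Q.Normal] (h1 : ⁅(P : Subgroup H), (P : Subgroup H)⁆ ≤ Q)
    (h2 : Q ≤ (frattini ↥(P : Subgroup H)).map (P : Subgroup H).subtype)
    (hN : Cfsg.HasNormalPComplement p ↥(Subgroup.normalizer ((P : Subgroup H) : Set H))) :
    Cfsg.HasNormalPComplement p H := by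
  have hQP : Q ≤ (P : Subgroup H) := h2.trans (Subgroup.map_subtype_le _)
  obtain ⟨N, hNn, hN1, hN2⟩ := hasNormalPComplement_iff.mp (quotient_hnc P Q hQP h1 hN)
  set K : Subgroup H := N.comap (QuotientGroup.mk' Q) with hK
  have hKn : K.Normal := hNn.comap _
  have hKP : K ⊓ (P : Subgroup H) ≤ (frattini ↥(P : Subgroup H)).map (P : Subgroup H).subtype := by
    refine le_trans ?_ h2
    rintro x ⟨hxK, hxP⟩
    have h3 : (x : H ⧸ Q) ∈ N := hxK
    have h4 : orderOf (x : H ⧸ Q) ∣ Nat.card N := Subgroup.orderOf_dvd_natCard N h3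
    obtain ⟨k, hk⟩ := P.2 ⟨x, hxP⟩
    have h5 : (x : H ⧸ Q) ^ p ^ k = 1 := by
      rw [← QuotientGroup.mk_pow]
      have : x ^ p ^ k = 1 := congrArg Subtype.val hk
      rw [this]
      rfl
    have h6 : orderOf (x : H ⧸ Q) ∣ p ^ k := orderOf_dvd_of_pow_eq_one h5
    have h7 : orderOf (x : H ⧸ Q) = 1 := Nat.eq_one_of_dvd_coprimes (hN1.pow_right k) h4 h6
    rw [orderOf_eq_one_iff, QuotientGroup.eq_one_iff] at h7
    exact h7
  have hKc : Cfsg.HasNormalPComplement p K := Cfsg.Agent.S0081.result P K hKP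
  rw [hasNormalPComplement_iff_coprime] at hKc ⊢
  -- every element of order prime to `p` lies in `K`
  have hmem : ∀ g : H, (orderOf g).Coprime p → g ∈ K := by
    intro g hg
    have h3 := map_eq_one_of_coprime hN2 ((QuotientGroup.mk' N).comp (QuotientGroup.mk' Q)) hg
    change ((g : H ⧸ Q) : (H ⧸ Q) ⧸ N) = 1 at h3
    rw [QuotientGroup.eq_one_iff] at h3
    exact h3
  have hle : Cfsg.pResidual p H ≤ (Cfsg.pResidual p K).map K.subtype := by
    conv_lhs => rw [Cfsg.pResidual]
    rw [Subgroup.closure_le]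
    intro g hg
    refine ⟨⟨g, hmem g hg⟩, mem_pResidual_of_coprime ?_, rfl⟩
    rw [Subgroup.orderOf_mk]
    exact hg
  refine Nat.Coprime.coprime_dvd_left (Subgroup.card_dvd_of_le hle) ?_
  exact Nat.Coprime.coprime_dvd_left (Subgroup.card_map_dvd _ _) hKc

/-- Let G be a finite group with Sylow p-subgroup P such that N_G(P) has a normal p-complement. Then N_G(Q) has a normal p-complement for every subgroup Q with [P, P] ≤ Q ≤ Φ(P). -/
theorem result {G : Type*} [Group G] [Finite G] {p : ℕ} [Fact p.Prime] (P : Sylow p G) (hN : Cfsg.HasNormalPComplement p ↥(Subgroup.normalizer ((P : Subgroup G) : Set G))) (Q : Subgroup G) (h1 : (commutator ↥(P : Subgroup G)).map (P : Subgroup G).subtype ≤ Q) (h2 : Q ≤ (frattini ↥(P : Subgroup G)).map (P : Subgroup G).subtype) : Cfsg.HasNormalPComplement p ↥(Subgroup.normalizer (Q : Set G)) := by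
  have h1' : ⁅(P : Subgroup G), (P : Subgroup G)⁆ ≤ Q := by
    rwa [Subgroup.map_subtype_commutator] at h1
  have hQP : Q ≤ (P : Subgroup G) := h2.trans (Subgroup.map_subtype_le _)
  set H := Subgroup.normalizer (Q : Set G) with hH
  have hPH : (P : Subgroup G) ≤ H := by
    intro x hx
    rw [hH, Subgroup.mem_normalizer_iff]
    intro y
    have aux : ∀ z ∈ (P : Subgroup G), ∀ w ∈ Q, z * w * z⁻¹ ∈ Q := by
      intro z hz w hw
      have h5 := h1' (Subgroup.commutator_mem_commutator hz (hQP hw))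
      rw [commutatorElement_def] at h5
      have h3 : z * w * z⁻¹ = (z * w * z⁻¹ * w⁻¹) * w := by group
      rw [h3]
      exact mul_mem h5 hw
    constructor
    · exact fun hy => aux x hx y hy
    · intro hy
      have := aux x⁻¹ (inv_mem hx) _ hy
      have h4 : x⁻¹ * (x * y * x⁻¹) * x⁻¹⁻¹ = y := by group
      rwa [h4] at this
  set P' : Sylow p H := P.subtype hPH with hP'
  have hP'c : (P' : Subgroup H) = (P : Subgroup G).subgroupOf H := rfl
  have hQn : (Q.subgroupOf H).Normal := by
    rw [hH]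
    exact Subgroup.normal_in_normalizer
  apply main P' (Q.subgroupOf H)
  · rw [Subgroup.commutator_le]
    intro x hx y hy
    have hx' : (x : G) ∈ (P : Subgroup G) := hx
    have hy' : (y : G) ∈ (P : Subgroup G) := hy
    exact h1' (Subgroup.commutator_mem_commutator hx' hy')
  · intro x hx
    obtain ⟨y, hy, hyx⟩ := h2 (show (x : G) ∈ Q from hx)
    -- transport through the isomorphism
    let e : ↥(P : Subgroup G) →* ↥(P' : Subgroup H) :=
      { toFun := fun z => ⟨⟨z, hPH z.2⟩, z.2⟩
        map_one' := rfl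
        map_mul' := fun _ _ => rfl }
    have he : Function.Surjective e := by
      rintro ⟨⟨z, hz⟩, hz'⟩
      exact ⟨⟨z, hz'⟩, rfl⟩
    have h3 := frattini_le_comap_frattini_of_surjective he hy
    refine ⟨e y, h3, ?_⟩
    apply Subtype.ext
    exact hyx
  · -- the normalizer of `P'` in `H` embeds in the normalizer of `P`
    have hle : ∀ x : ↥(Subgroup.normalizer ((P' : Subgroup H) : Set H)),
        ((x : H) : G) ∈ Subgroup.normalizer ((P : Subgroup G) : Set G) := by
      intro x
      have hx := Subgroup.mem_normalizer_iff.mp x.2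
      apply Subgroup.mem_normalizer_iff.mpr
      intro y
      constructor
      · intro hy
        exact (hx ⟨y, hPH hy⟩).mp hy
      · intro hy
        have hy2 : y ∈ H := by
          have h4 := hPH hy
          have h5 : y = ((x : H) : G)⁻¹ * (((x : H) : G) * y * ((x : H) : G)⁻¹) * ((x : H) : G) := by
            group
          rw [h5]
          exact mul_mem (mul_mem (inv_mem (x : H).2) h4) (x : H).2
        exact (hx ⟨y, hy2⟩).mpr hy
    let f : ↥(Subgroup.normalizer ((P' : Subgroup H) : Set H)) →*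
        ↥(Subgroup.normalizer ((P : Subgroup G) : Set G)) :=
      { toFun := fun x => ⟨((x : H) : G), hle x⟩
        map_one' := rfl
        map_mul' := fun _ _ => rfl }
    refine of_injective f ?_ hN
    intro a b hab
    apply Subtype.ext
    apply Subtype.ext
    exact congrArg (fun z : ↥(Subgroup.normalizer ((P : Subgroup G) : Set G)) => (z : G)) hab

end Cfsg.Agent.S3838
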