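import Cfsg.Statements.S3843
import Cfsg.Agent.H983.PairPSL
import Cfsg.Agent.H983.PairSz
import Cfsg.Agent.Classification.MinSimpleStrong
import Cfsg.Agent.OddCyclic.ClaimC.SzIso

set_option autoImplicit false
open Cfsg

namespace Cfsg.Agent.S3843

open Cfsg.Agent.H983.PairCrit

theorem not_crit {G : Type*} [Group G] [Finite G] (hG : IsMinimalSimple G) : ¬ Crit G := by
  intro hc
  rcases Cfsg.Agent.Classification.MinSimpleStrong.concl hG with
    ⟨p, hp, F, _, _, hF, ⟨e⟩⟩ | ⟨p, hp, hp2, F, _, _, hF, ⟨e⟩⟩ |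
    ⟨p, hp, hp5, F, _, _, hF, ⟨e⟩⟩ | ⟨F, _, _, hF, ⟨e⟩⟩ | ⟨F, _, _, m, hm, -, hF, ⟨e⟩⟩
  · exact Cfsg.Agent.H983.PairPSL.not_crit_psl_two
      (Cfsg.Agent.Classification.MinSimpleSuzuki.isMinimalSimple_congr e hG)
      (hc.of_injective e.symm.toMonoidHom e.symm.injective)
  · exact Cfsg.Agent.H983.PairPSL.not_crit_psl_two
      (Cfsg.Agent.Classification.MinSimpleSuzuki.isMinimalSimple_congr e hG)
      (hc.of_injective e.symm.toMonoidHom e.symm.injective)
  · exact Cfsg.Agent.H983.PairPSL.not_crit_psl_two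
      (Cfsg.Agent.Classification.MinSimpleSuzuki.isMinimalSimple_congr e hG)
      (hc.of_injective e.symm.toMonoidHom e.symm.injective)
  · exact Cfsg.Agent.H983.PairTriple.not_crit_psl_three hF
      (hc.of_injective e.symm.toMonoidHom e.symm.injective)
  · obtain ⟨i⟩ := Cfsg.Agent.OddCyclic.ClaimC.SzIso.iso hm hF
    exact Cfsg.Agent.H983.PairSz.not_crit_suzuki hm hF
      (Cfsg.Agent.Classification.MinSimpleSuzuki.isMinimalSimple_congr (e.trans i.symm) hG)
      (hc.of_injective (e.trans i.symm).symm.toMonoidHom (e.trans i.symm).symm.injective)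

/-- A solvability criterion through pairs of elements of coprime prime power orders: a finite group G is solvable if and only if, for every pair of distinct primes p, q and every p-element x and q-element y of G, whenever ⟨x, y⟩ is solvable so is ⟨x, g y g⁻¹⟩ for every g ∈ G. -/
theorem result {G : Type*} [Group G] [Finite G] :
    Group.IsSolvable G ↔ ∀ p q : ℕ, p.Prime → q.Prime → p ≠ q → ∀ x y : G, (∃ k : ℕ, orderOf x = p ^ k) → (∃ k : ℕ, orderOf y = q ^ k) →
      Group.IsSolvable ↥(Subgroup.closure ({x, y} : Set G)) → ∀ g : G, Group.IsSolvable ↥(Subgroup.closure ({x, g * y * g⁻¹} : Set G)) := by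
  constructor
  · intro h p q hp hq hpq x y hx hy hs g
    infer_instance
  · intro h
    exact solvable_of_crit (fun H N _ hm => not_crit hm) h

end Cfsg.Agent.S3843
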