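import Cfsg.Statements.S3859
import Cfsg.Agent.H466.SylowMax
import Cfsg.Agent.Lib.SylowNormalInf

set_option autoImplicit false
open Cfsg

namespace Cfsg.Agent.S3859

/-- Let G be a finite group with a normal non-abelian simple subgroup T whose centralizer is trivial (G almost simple with socle T), r a prime and R a Sylow r-subgroup of G meeting T nontrivially. If R lies in exactly one maximal subgroup of G, then G/T is an r-group. -/
theorem result {G : Type*} [Group G] [Finite G] (T : Subgroup G) [T.Normal] (hT : IsSimpleGroup T) (hna : ¬ IsMulCommutative T)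
    (hC : Subgroup.centralizer (T : Set G) = ⊥) {r : ℕ} [Fact r.Prime] (R : Sylow r G) (hR0 : (R : Subgroup G) ⊓ T ≠ ⊥)
    (huniq : ∃! M : Subgroup G, IsCoatom M ∧ (R : Subgroup G) ≤ M) : IsPGroup r (G ⧸ T) := by
  obtain ⟨M, ⟨hM, hRM⟩, hu⟩ := huniq
  have hu' : ∀ H : Subgroup G, (R : Subgroup G) ≤ H → H ≠ ⊤ → H ≤ M := by
    intro H hRH hH
    obtain ⟨M', hM', hHM'⟩ := (eq_top_or_exists_le_coatom H).resolve_left hH
    rw [← hu M' ⟨hM', hRH.trans hHM'⟩]
    exact hHM'
  have hsup : (R : Subgroup G) ⊔ T = ⊤ := by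
    by_contra hne
    have h1 : T ≤ M := le_sup_right.trans (hu' _ le_sup_left hne)
    have hFr := Cfsg.Agent.Lib.SylowNormalInf.normalizer_inf_sup_eq_top R T
    have h2 : (R : Subgroup G) ≤ Subgroup.normalizer (((R : Subgroup G) ⊓ T : Subgroup G) : Set G) := by
      intro x hx
      rw [Subgroup.mem_normalizer_iff]
      intro y
      constructor
      · rintro hy
        rw [Subgroup.mem_inf] at hy ⊢
        exact ⟨(R : Subgroup G).mul_mem ((R : Subgroup G).mul_mem hx hy.1) ((R : Subgroup G).inv_mem hx),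
          (inferInstance : T.Normal).conj_mem y hy.2 x⟩
      · rintro hy
        rw [Subgroup.mem_inf] at hy ⊢
        refine ⟨?_, ?_⟩
        · have := (R : Subgroup G).mul_mem ((R : Subgroup G).mul_mem ((R : Subgroup G).inv_mem hx) hy.1) hx
          simpa [mul_assoc] using this
        · have := (inferInstance : T.Normal).conj_mem _ hy.2 x⁻¹
          simpa [mul_assoc] using this
    have h3 : Subgroup.normalizer (((R : Subgroup G) ⊓ T : Subgroup G) : Set G) ≠ ⊤ := by
      intro h
      exact Cfsg.Agent.H466.SylowMax.not_normal_inf T hT hna R R.isPGroup' hR0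
        (Subgroup.normalizer_eq_top_iff.1 h)
    have h4 := hu' _ h2 h3
    have h5 : (⊤ : Subgroup G) ≤ M := by
      rw [← hFr]
      exact sup_le h4 h1
    exact hM.1 (top_le_iff.1 h5)
  -- `G ⧸ T` is an image of `R`
  have hsurj : Function.Surjective ((QuotientGroup.mk' T).comp (R : Subgroup G).subtype) := by
    intro q
    obtain ⟨g, rfl⟩ := QuotientGroup.mk'_surjective T q
    have hg : g ∈ (R : Subgroup G) ⊔ T := by rw [hsup]; trivial
    rw [Subgroup.mem_sup_of_normal_right] at hg
    obtain ⟨a, ha, b, hb, rfl⟩ := hg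
    refine ⟨⟨a, ha⟩, ?_⟩
    simp only [MonoidHom.comp_apply, Subgroup.coe_subtype, map_mul, QuotientGroup.mk'_apply]
    rw [(QuotientGroup.eq_one_iff b).2 hb, mul_one]
  exact R.isPGroup'.of_surjective _ hsurj

end Cfsg.Agent.S3859
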