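import Cfsg.Statements.S3860
import Cfsg.Agent.H466.RT.Main
import Cfsg.Agent.H466.RT.NoPair
import Cfsg.Agent.OddHalf.D4.Final.Mult
import Cfsg.Agent.S0000

set_option autoImplicit false
open Cfsg

namespace Cfsg.Agent.S3860

/-- Let G be a finite group in which all conjugacy classes of non-central real elements (elements conjugate to their inverses) have sizes with the same 2-part (the same largest power of 2 dividing them). Then G has 2-length at most one: there are normal subgroups N ≤ K of G with N and G/K of odd order and K/N a 2-group. -/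
theorem result {G : Type*} [Group G] [Finite G] (a : ℕ) (h : ∀ x : G, IsConj x x⁻¹ → x ∉ Subgroup.center G → ((Subgroup.centralizer ({x} : Set G)).index).factorization 2 = a) : ∃ N K : Subgroup G, N.Normal ∧ K.Normal ∧ N ≤ K ∧ Odd (Nat.card N) ∧ Odd K.index ∧ ∃ j : ℕ, N.relIndex K = 2 ^ j := by
  refine Cfsg.Agent.H466.RT.main ?_ a h
  intro M _ _ K c hp
  have hs : IsSimpleGroup (K ⧸ Subgroup.center K) := hp.qs.2
  exact hp.false_of_mult (Cfsg.Agent.OddHalf.D4.Final.Mult.mult Cfsg.Agent.OddHalf.D4.Final.Mult.opn)
    (Cfsg.Agent.OddHalf.D4.Final.Mult.multD4 Cfsg.Agent.OddHalf.D4.Final.Mult.opn) Cfsg.Agent.S0000.result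

end Cfsg.Agent.S3860
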