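import Cfsg.Statements.S3864
import Cfsg.Agent.TwoFusion.DihedralFusion
import Cfsg.Agent.S1254

set_option autoImplicit false
open Cfsg

namespace Cfsg.Agent.S3864

open Cfsg.Agent.TwoFusion.DihedralSylow Cfsg.Agent.TwoFusion.DihedralFusion

variable {X : Type*} [Group X]

theorem refl_mul_mem {S : Subgroup X} {m : ℕ} {r z : X} (hD : DihData S m r z) {t : X}
    (htS : t ∈ S) (ht : t ∉ Subgroup.zpowers r) (k : ℤ) :
    r ^ k * t ∈ S ∧ r ^ k * t ∉ Subgroup.zpowers r := by
  refine ⟨S.mul_mem (S.zpow_mem hD.r_mem k) htS, fun h => ht ?_⟩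
  have h1 := (Subgroup.zpowers r).mul_mem
    ((Subgroup.zpowers r).inv_mem (Subgroup.zpow_mem_zpowers r k)) h
  rwa [inv_mul_cancel_left] at h1

/-- a reflection inverts the rotations -/
theorem refl_conj {S : Subgroup X} {m : ℕ} {r z : X} (hD : DihData S m r z) {t : X}
    (htS : t ∈ S) (ht : t ∉ Subgroup.zpowers r) (k : ℤ) : t * r ^ k = r ^ (-k) * t := by
  obtain ⟨h1, h2⟩ := refl_mul_mem hD htS ht k
  have h3 := hD.refl_sq _ h1 h2
  have h4 := hD.refl_sq t htS ht
  have h5 : t * (r ^ k * t) = r ^ (-k) := by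
    rw [zpow_neg]
    apply eq_inv_of_mul_eq_one_right
    rw [← mul_assoc]; exact h3
  calc t * r ^ k = t * (r ^ k * t) * t⁻¹ := by group
    _ = r ^ (-k) * t := by rw [h5, inv_eq_of_mul_eq_one_left h4]

theorem refl_eq {S : Subgroup X} {m : ℕ} {r z : X} (hD : DihData S m r z) {t s : X}
    (htS : t ∈ S) (ht : t ∉ Subgroup.zpowers r) (hsS : s ∈ S) (hs : s ∉ Subgroup.zpowers r) :
    ∃ k : ℤ, s = r ^ k * t := by
  obtain ⟨k, hk⟩ := Subgroup.mem_zpowers_iff.mp (hD.refl_mul s hsS t htS hs ht)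
  refine ⟨k, ?_⟩
  rw [hk, mul_assoc, hD.refl_sq t htS ht, mul_one]

theorem conj_refl {S : Subgroup X} {m : ℕ} {r z : X} (hD : DihData S m r z) {t : X}
    (htS : t ∈ S) (ht : t ∉ Subgroup.zpowers r) (j k : ℤ) :
    r ^ j * (r ^ k * t) * (r ^ j)⁻¹ = r ^ (2 * j + k) * t := by
  have h1 := refl_conj hD htS ht (-j)
  rw [neg_neg] at h1
  calc r ^ j * (r ^ k * t) * (r ^ j)⁻¹ = r ^ j * r ^ k * (t * r ^ (-j)) := by rw [zpow_neg]; group
    _ = r ^ j * r ^ k * (r ^ j * t) := by rw [h1]
    _ = (r ^ j * r ^ k * r ^ j) * t := by group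
    _ = _ := by rw [← zpow_add, ← zpow_add]; congr 2; ring

/-- the classes of involutions -/
theorem classes [Finite X] (S : Sylow 2 X) {m : ℕ} {r z : X} (hD : DihData (S : Subgroup X) m r z)
    {t : X} (htS : t ∈ (S : Subgroup X)) (ht : t ∉ Subgroup.zpowers r) (u : X)
    (hu : orderOf u = 2) : IsConj u z ∨ IsConj u t ∨ IsConj u (r * t) := by
  obtain ⟨hu2, hu1⟩ := (orderOf_two_iff u).mp hu
  obtain ⟨g, hg⟩ := exists_conj_mem_sylow S u hu2
  have hug : IsConj u (g * u * g⁻¹) := isConj_iff.mpr ⟨g, rfl⟩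
  have h1 := conj_ne_one g hu1
  have h2 := conj_sq g hu2
  set v := g * u * g⁻¹
  by_cases hv : v ∈ Subgroup.zpowers r
  · left
    rcases hD.eq_z v hv h2 with h | h
    · exact absurd h h1
    · rwa [h] at hug
  · right
    obtain ⟨k, hk⟩ := refl_eq hD htS ht hg hv
    rcases Int.even_or_odd' k with ⟨j, hj | hj⟩
    · left
      refine hug.trans ?_
      apply IsConj.symm
      rw [isConj_iff]
      refine ⟨r ^ j, ?_⟩
      have := conj_refl hD htS ht j 0
      rw [zpow_zero, one_mul, add_zero] at this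
      rw [this, hk, hj]
    · right
      refine hug.trans ?_
      apply IsConj.symm
      rw [isConj_iff]
      refine ⟨r ^ j, ?_⟩
      have := conj_refl hD htS ht j 1
      rw [zpow_one] at this
      rw [this, hk, hj]

/-- the sign homomorphism -/
theorem exists_sign [Finite X] (S : Sylow 2 X) {m : ℕ} {r z : X}
    (hD : DihData (S : Subgroup X) m r z) :
    ∃ f : X →* ℤˣ, ∀ t ∈ (S : Subgroup X), t ∉ Subgroup.zpowers r → ¬ IsConj t z → f t = -1 := by
  classical
  obtain ⟨q, hq, hqodd⟩ := Cfsg.Agent.Transfer.ThompsonTransfer.exists_index_eq S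
    (Subgroup.zpowers r) hD.zpowers_le hD.relIndex
  have : Fintype (X ⧸ Subgroup.zpowers r) := Fintype.ofFinite _
  refine ⟨(Equiv.Perm.sign).comp (MulAction.toPermHom X (X ⧸ Subgroup.zpowers r)), ?_⟩
  intro t htS ht hc
  apply Cfsg.Agent.Transfer.ThompsonTransfer.sign_quotient_eq_neg_one _ hq hqodd t
    (by rw [sq, hD.refl_sq t htS ht])
  intro g hg
  have ht1 : t ≠ 1 := fun h => ht (h ▸ Subgroup.one_mem _)
  rcases hD.eq_z _ hg (conj_sq g (hD.refl_sq t htS ht)) with h1 | h1
  · exact conj_ne_one g ht1 h1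
  · exact hc (isConj_iff.mpr ⟨g, h1⟩)

theorem index_ker_two (f : X →* ℤˣ) {t : X} (h : f t = -1) : f.ker.index = 2 := by
  rw [Subgroup.index_ker]
  have : f.range = ⊤ := by
    rw [eq_top_iff]
    intro x _
    rcases Int.units_eq_one_or x with rfl | rfl
    · exact f.range.one_mem
    · exact ⟨t, h⟩
  rw [this, Subgroup.card_top, Nat.card_eq_fintype_card]
  rfl

/-- If no reflection is conjugate to `z`, there is a normal 2-complement. -/
theorem hnc [Finite X] (S : Sylow 2 X) {m : ℕ} {r z : X}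
    (hD : DihData (S : Subgroup X) m r z) (h4 : 4 ∣ m)
    (h : ∀ t ∈ (S : Subgroup X), t ∉ Subgroup.zpowers r → ¬ IsConj t z) :
    Cfsg.HasNormalPComplement 2 X := by
  classical
  obtain ⟨f, hf0⟩ := exists_sign S hD
  have hf : ∀ t ∈ (S : Subgroup X), t ∉ Subgroup.zpowers r → f t = -1 :=
    fun t htS ht => hf0 t htS ht (h t htS ht)
  obtain ⟨t, htS, ht⟩ := hD.exists_refl
  have hKi : f.ker.index = 2 := index_ker_two f (hf t htS ht)
  have hKS : ∀ s ∈ (S : Subgroup X), s ∈ f.ker → s ∈ Subgroup.zpowers r := by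
    intro s hs hsK
    by_contra hcon
    rw [MonoidHom.mem_ker, hf s hs hcon] at hsK
    exact absurd hsK (by decide)
  have h2 : 2 ∣ Nat.card f.ker := by
    have h1 : Nat.card f.ker * f.ker.index = Nat.card X := Subgroup.card_mul_index _
    rw [hKi] at h1
    have h3 : Nat.card (S : Subgroup X) ∣ Nat.card X := Subgroup.card_subgroup_dvd_card _
    rw [hD.card] at h3
    obtain ⟨c, rfl⟩ := h4
    obtain ⟨d, hd⟩ := h3
    refine ⟨2 * c * d, ?_⟩
    have : Nat.card f.ker * 2 = 2 * (2 * c * d) * 2 := by rw [h1, hd]; ring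
    omega
  obtain ⟨P⟩ : Nonempty (Sylow 2 f.ker) := inferInstance
  have hPm : IsPGroup 2 ((P : Subgroup f.ker).map f.ker.subtype) := P.2.map _
  obtain ⟨c, -, hc⟩ := exists_conj_mem S ⊤ _ le_top le_top hPm
  have hcyc : IsCyclic P := by
    let φ : (P : Subgroup f.ker) →* Subgroup.zpowers r :=
      { toFun := fun x => ⟨c * ((x : f.ker) : X) * c⁻¹, by
          apply hKS _ (hc _ ⟨x, x.2, rfl⟩)
          exact (inferInstance : f.ker.Normal).conj_mem _ (x : f.ker).2 c⟩
        map_one' := by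
          apply Subtype.ext
          show c * (((1 : (P : Subgroup f.ker)) : f.ker) : X) * c⁻¹ = 1
          rw [Subgroup.coe_one, Subgroup.coe_one, mul_one, mul_inv_cancel]
        map_mul' := by
          intro x y
          apply Subtype.ext
          show c * (((x * y : (P : Subgroup f.ker)) : f.ker) : X) * c⁻¹ =
            (c * ((x : f.ker) : X) * c⁻¹) * (c * ((y : f.ker) : X) * c⁻¹)
          rw [Subgroup.coe_mul, Subgroup.coe_mul]
          group }
    refine isCyclic_of_injective φ ?_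
    intro x y hxy
    have h1 : c * ((x : f.ker) : X) * c⁻¹ = c * ((y : f.ker) : X) * c⁻¹ :=
      congrArg Subtype.val hxy
    exact Subtype.ext (Subtype.ext (mul_left_cancel (mul_right_cancel h1)))
  exact Cfsg.Agent.S1254.hasNormalPComplement_of_cyclic f.ker hKi h2 P hcyc

/-- with a normal 2-complement, conjugate elements of `S` are conjugate in `S` -/
theorem conj_in_sylow [Finite X] (S : Sylow 2 X) (h : Cfsg.HasNormalPComplement 2 X) {x y : X}
    (hx : x ∈ (S : Subgroup X)) (hy : y ∈ (S : Subgroup X)) (hxy : IsConj x y) :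
    ∃ s ∈ (S : Subgroup X), s * x * s⁻¹ = y := by
  obtain ⟨P, N, hNn, hN⟩ := h
  have hN2 : ¬ 2 ∣ Nat.card N := by
    rw [← hN.index_eq_card]
    exact P.not_dvd_index
  obtain ⟨a, ha⟩ := S.2.exists_card_eq
  have ha' : Nat.card (S : Subgroup X) = 2 ^ a := ha
  have hco : Nat.Coprime (Nat.card N) (Nat.card (S : Subgroup X)) := by
    rw [ha']
    apply Nat.Coprime.pow_right
    rw [Nat.coprime_comm, Nat.Prime.coprime_iff_not_dvd Nat.prime_two]
    exact hN2
  have hc : N.IsComplement' (S : Subgroup X) := by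
    apply Subgroup.isComplement'_of_coprime _ hco
    have h1 := hN.card_mul_card
    have h2 : Nat.card (P : Subgroup X) = Nat.card (S : Subgroup X) := by
      rw [P.card_eq_multiplicity, S.card_eq_multiplicity]
    rw [← h2, h1]
  obtain ⟨g, hg⟩ := isConj_iff.mp hxy
  have hgt : g ∈ N ⊔ (S : Subgroup X) := by rw [hc.sup_eq_top]; exact Subgroup.mem_top g
  rw [← SetLike.mem_coe, Subgroup.normal_mul] at hgt
  obtain ⟨n, hn, s, hs, rfl⟩ := hgt
  have hn' : n ∈ N := hn
  have hs' : s ∈ (S : Subgroup X) := hs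
  refine ⟨s, hs', ?_⟩
  have h1 : y * (s * x * s⁻¹)⁻¹ ∈ N := by
    have e : y * (s * x * s⁻¹)⁻¹ = n * ((s * x * s⁻¹) * n⁻¹ * (s * x * s⁻¹)⁻¹) := by
      rw [← hg]; group
    rw [e]
    exact N.mul_mem hn' (hNn.conj_mem _ (N.inv_mem hn') _)
  have h2 : y * (s * x * s⁻¹)⁻¹ ∈ (S : Subgroup X) :=
    mul_mem hy (inv_mem (mul_mem (mul_mem hs' hx) (inv_mem hs')))
  have h3 : y * (s * x * s⁻¹)⁻¹ ∈ N ⊓ (S : Subgroup X) := ⟨h1, h2⟩
  rw [disjoint_iff.1 hc.disjoint, Subgroup.mem_bot, mul_inv_eq_one] at h3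
  exact h3.symm

theorem not_conj_in_sylow {S : Subgroup X} {m : ℕ} {r z : X} (hD : DihData S m r z) {t : X}
    (htS : t ∈ S) (ht : t ∉ Subgroup.zpowers r) {s : X} (hs : s ∈ S) :
    s * t * s⁻¹ ≠ r * t := by
  have key : ∀ j : ℤ, r ^ (2 * j) * t ≠ r * t := by
    intro j h
    have h1 : r ^ (2 * j) = r := mul_right_cancel h
    have h2 : r ^ (2 * j - 1) = 1 := by rw [zpow_sub_one, h1, mul_inv_cancel]
    obtain ⟨k, hk⟩ := Subgroup.mem_zpowers_iff.mp hD.z_mem
    have h3 : z ^ (2 * j - 1) = 1 := by rw [← hk, ← zpow_mul, mul_comm, zpow_mul, h2, one_zpow]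
    have h4 : z ^ (2 * j) = 1 := by
      rw [zpow_mul, zpow_two, hD.z_sq, one_zpow]
    rw [zpow_sub_one, h4, one_mul, inv_eq_one] at h3
    exact hD.z_ne h3
  by_cases hsr : s ∈ Subgroup.zpowers r
  · obtain ⟨j, rfl⟩ := Subgroup.mem_zpowers_iff.mp hsr
    have := conj_refl hD htS ht j 0
    rw [zpow_zero, one_mul, add_zero] at this
    rw [this]
    exact key j
  · obtain ⟨j, rfl⟩ := refl_eq hD htS ht hs hsr
    have := conj_refl hD htS ht j 0
    rw [zpow_zero, one_mul, add_zero] at this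
    have h1 : r ^ j * t * t * (r ^ j * t)⁻¹ = r ^ j * t * (r ^ j)⁻¹ := by group
    rw [h1, this]
    exact key j

/-- No normal subgroup of index four, if some reflection is conjugate to `z`. -/
theorem index_ne_four [Finite X] (S : Sylow 2 X) {m : ℕ} {r z : X}
    (hD : DihData (S : Subgroup X) m r z) (h4 : 4 ∣ m) {t : X} (htS : t ∈ (S : Subgroup X))
    (ht : t ∉ Subgroup.zpowers r) (hc : IsConj t z) (N : Subgroup X) (hN : N.Normal) :
    N.index ≠ 4 := by
  intro hi
  have hcard : Nat.card (X ⧸ N) = 2 ^ 2 := by rw [← Subgroup.index_eq_card, hi]; rfl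
  have : Fact (Nat.Prime 2) := ⟨Nat.prime_two⟩
  have hcomm : ∀ a b : X ⧸ N, a * b = b * a := by
    have := IsPGroup.isMulCommutative_of_card_eq_prime_sq hcard
    exact this.is_comm.comm
  have hcN : ∀ a b : X, a * b * a⁻¹ * b⁻¹ ∈ N := by
    intro a b
    rw [← QuotientGroup.eq_one_iff]
    have : ((a * b * a⁻¹ * b⁻¹ : X) : X ⧸ N) = (a : X ⧸ N) * b * (a : X ⧸ N)⁻¹ * (b : X ⧸ N)⁻¹ := rfl
    rw [this, hcomm (a : X ⧸ N) b]
    group
  have hzN : z ∈ N := by
    obtain ⟨s, hs, he⟩ := hD.swap h4 t htS ht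
    have := hcN s t
    rwa [he, mul_inv_cancel_right] at this
  have htN : t ∈ N := by
    obtain ⟨g, hg⟩ := isConj_iff.mp hc.symm
    rw [← hg]
    exact hN.conj_mem _ hzN g
  have hr2 : r ^ (2 : ℤ) ∈ N := by
    have h1 := conj_refl hD htS ht 1 0
    rw [zpow_zero, one_mul, add_zero, mul_one, zpow_one] at h1
    have h2 := hcN r t
    rwa [h1, mul_inv_cancel_right] at h2
  -- the image of `S`
  have hSr : ∀ s ∈ (S : Subgroup X), (s : X ⧸ N) = 1 ∨ (s : X ⧸ N) = (r : X ⧸ N) := by
    have hk : ∀ k : ℤ, ((r ^ k : X) : X ⧸ N) = 1 ∨ ((r ^ k : X) : X ⧸ N) = (r : X ⧸ N) := by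
      intro k
      rcases Int.even_or_odd' k with ⟨j, rfl | rfl⟩
      · left
        rw [QuotientGroup.eq_one_iff, zpow_mul]
        exact N.zpow_mem hr2 j
      · right
        rw [QuotientGroup.eq, zpow_add, zpow_one, zpow_mul]
        have : ((r ^ (2 : ℤ)) ^ j * r)⁻¹ * r = r⁻¹ * ((r ^ (2 : ℤ)) ^ j)⁻¹ * r := by group
        rw [this]
        have h5 := hN.conj_mem _ (N.inv_mem (N.zpow_mem hr2 j)) r⁻¹
        rwa [inv_inv] at h5
    intro s hs
    by_cases hsr : s ∈ Subgroup.zpowers r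
    · obtain ⟨k, rfl⟩ := Subgroup.mem_zpowers_iff.mp hsr
      exact hk k
    · obtain ⟨k, rfl⟩ := refl_eq hD htS ht hs hsr
      have h6 : ((r ^ k * t : X) : X ⧸ N) = ((r ^ k : X) : X ⧸ N) := by
        rw [QuotientGroup.mk_mul, (QuotientGroup.eq_one_iff t).mpr htN, mul_one]
      rw [h6]
      exact hk k
  -- the image of `S` is everything
  have hsurj : ∀ x : X ⧸ N, ∃ s ∈ (S : Subgroup X), (s : X ⧸ N) = x := by
    have h7 : (S : Subgroup X).map (QuotientGroup.mk' N) = ⊤ := by
      have h8 : IsPGroup 2 (⊤ : Subgroup (X ⧸ N)) := by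
        apply IsPGroup.of_card (n := 2)
        rw [Subgroup.card_top, hcard]
      have h9 := (S.mapSurjective (QuotientGroup.mk'_surjective N)).is_maximal' h8 le_top
      rw [← Sylow.coe_mapSurjective]
      exact h9.symm
    intro x
    have : x ∈ (S : Subgroup X).map (QuotientGroup.mk' N) := by rw [h7]; trivial
    obtain ⟨s, hs, rfl⟩ := this
    exact ⟨s, hs, rfl⟩
  have h10 : Nat.card (X ⧸ N) ≤ 2 := by
    have h11 : Function.Surjective (fun b : Bool => if b then (1 : X ⧸ N) else (r : X ⧸ N)) := by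
      intro x
      obtain ⟨s, hs, rfl⟩ := hsurj x
      rcases hSr s hs with h | h
      · exact ⟨true, by rw [h]; rfl⟩
      · exact ⟨false, by rw [h]; rfl⟩
    have := Nat.card_le_card_of_surjective _ h11
    rwa [Nat.card_eq_fintype_card (α := Bool), Fintype.card_bool] at this
  rw [hcard] at h10
  norm_num at h10

theorem card_classes [Finite X] {A : Finset (ConjClasses X)}
    (h : ∀ C : ConjClasses X, (∃ g : X, ConjClasses.mk g = C ∧ orderOf g = 2) ↔ C ∈ A) :
    Nat.card {C : ConjClasses X // ∃ g : X, ConjClasses.mk g = C ∧ orderOf g = 2} = A.card := by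
  rw [Nat.card_congr (Equiv.subtypeEquivRight h)]
  exact Nat.card_eq_card_toFinset _ |>.trans (by simp)

/-- Let G be a finite group whose Sylow 2-subgroups are dihedral of order 2 ^ n with n ≥ 3, and count the conjugacy classes of involutions of G. Then exactly one of the following holds: there is one class of involutions and no normal subgroup of index 2; there are two classes of involutions, a normal subgroup of index 2 and none of index 4; there are three classes of involutions and G has a normal 2-complement. -/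
theorem result {G : Type*} [Group G] [Finite G] (P : Sylow 2 G) (n : ℕ) (hn : 3 ≤ n) (hdih : Nonempty (↥(P : Subgroup G) ≃* DihedralGroup (2 ^ (n - 1)))) : (Nat.card {C : ConjClasses G // ∃ g : G, ConjClasses.mk g = C ∧ orderOf g = 2} = 1 ∧ ∀ N : Subgroup G, N.Normal → N.index ≠ 2) ∨ (Nat.card {C : ConjClasses G // ∃ g : G, ConjClasses.mk g = C ∧ orderOf g = 2} = 2 ∧ (∃ N : Subgroup G, N.Normal ∧ N.index = 2) ∧ ∀ N : Subgroup G, N.Normal → N.index ≠ 4) ∨ (Nat.card {C : ConjClasses G // ∃ g : G, ConjClasses.mk g = C ∧ orderOf g = 2} = 3 ∧ Cfsg.HasNormalPComplement 2 G) := by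
  classical
  obtain ⟨e⟩ := hdih
  have h4 : 4 ∣ 2 ^ (n - 1) := by
    have : (2 : ℕ) ^ 2 ∣ 2 ^ (n - 1) := pow_dvd_pow 2 (by omega)
    simpa using this
  have hm : 2 ≤ 2 ^ (n - 1) := by
    have := Nat.le_of_dvd (by positivity) h4
    omega
  obtain ⟨-, r, z, hD⟩ := exists_data P (2 ^ (n - 1)) hm e
  obtain ⟨t, htS, ht⟩ := hD.exists_refl
  obtain ⟨hrtS, hrt⟩ : r * t ∈ (P : Subgroup G) ∧ r * t ∉ Subgroup.zpowers r := by
    have := refl_mul_mem hD htS ht 1
    rwa [zpow_one] at this
  have hclasses := classes P hD htS ht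
  have hz2 : orderOf z = 2 := (orderOf_two_iff z).mpr ⟨hD.z_sq, hD.z_ne⟩
  have ht2 : orderOf t = 2 := (orderOf_two_iff t).mpr
    ⟨hD.refl_sq t htS ht, fun h => ht (h ▸ Subgroup.one_mem _)⟩
  have hrt2 : orderOf (r * t) = 2 := (orderOf_two_iff (r * t)).mpr
    ⟨hD.refl_sq _ hrtS hrt, fun h => hrt (h ▸ Subgroup.one_mem _)⟩
  have hcount : Nat.card {C : ConjClasses G // ∃ g : G, ConjClasses.mk g = C ∧ orderOf g = 2} =
      ({ConjClasses.mk z, ConjClasses.mk t, ConjClasses.mk (r * t)} :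
        Finset (ConjClasses G)).card := by
    apply card_classes
    intro C
    simp only [Finset.mem_insert, Finset.mem_singleton]
    constructor
    · rintro ⟨g, rfl, hg⟩
      rw [ConjClasses.mk_eq_mk_iff_isConj, ConjClasses.mk_eq_mk_iff_isConj,
        ConjClasses.mk_eq_mk_iff_isConj]
      exact hclasses g hg
    · rintro (rfl | rfl | rfl)
      · exact ⟨z, rfl, hz2⟩
      · exact ⟨t, rfl, ht2⟩
      · exact ⟨r * t, rfl, hrt2⟩
  rw [hcount]
  obtain ⟨f, hf⟩ := exists_sign P hD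
  by_cases h1 : IsConj t z
  · have e1 : ConjClasses.mk t = ConjClasses.mk z := ConjClasses.mk_eq_mk_iff_isConj.mpr h1
    by_cases h2 : IsConj (r * t) z
    · left
      have e2 : ConjClasses.mk (r * t) = ConjClasses.mk z := ConjClasses.mk_eq_mk_iff_isConj.mpr h2
      refine ⟨by rw [e1, e2]; simp, fun N _ => ?_⟩
      apply index_ne_two_of_isConj P hD
      have h3 : ∀ a : G, orderOf a = 2 → IsConj a z := by
        intro a ha
        rcases hclasses a ha with h | h | h
        · exact h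
        · exact h.trans h1
        · exact h.trans h2
      intro a b ha hb
      exact (h3 a ha).trans (h3 b hb).symm
    · right; left
      have e2 : ConjClasses.mk (r * t) ≠ ConjClasses.mk z := fun h =>
        h2 (ConjClasses.mk_eq_mk_iff_isConj.mp h)
      refine ⟨by rw [e1]; simp [e2.symm], ⟨f.ker, inferInstance, index_ker_two f (hf _ hrtS hrt h2)⟩,
        fun N hN => index_ne_four P hD h4 htS ht h1 N hN⟩
  · have e1 : ConjClasses.mk t ≠ ConjClasses.mk z := fun h =>
      h1 (ConjClasses.mk_eq_mk_iff_isConj.mp h)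
    by_cases h2 : IsConj (r * t) z
    · right; left
      have e2 : ConjClasses.mk (r * t) = ConjClasses.mk z := ConjClasses.mk_eq_mk_iff_isConj.mpr h2
      refine ⟨?_, ⟨f.ker, inferInstance, index_ker_two f (hf _ htS ht h1)⟩,
        fun N hN => index_ne_four P hD h4 hrtS hrt h2 N hN⟩
      rw [e2]
      have : ({ConjClasses.mk z, ConjClasses.mk t, ConjClasses.mk z} : Finset (ConjClasses G)) =
          {ConjClasses.mk z, ConjClasses.mk t} := by
        ext C; simp only [Finset.mem_insert, Finset.mem_singleton]; tauto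
      rw [this, Finset.card_pair e1.symm]
    · right; right
      have e2 : ConjClasses.mk (r * t) ≠ ConjClasses.mk z := fun h =>
        h2 (ConjClasses.mk_eq_mk_iff_isConj.mp h)
      have hno : ∀ s ∈ (P : Subgroup G), s ∉ Subgroup.zpowers r → ¬ IsConj s z := by
        intro s hs hsr hsz
        obtain ⟨k, rfl⟩ := refl_eq hD htS ht hs hsr
        rcases Int.even_or_odd' k with ⟨j, rfl | rfl⟩
        · apply h1
          refine IsConj.trans ?_ hsz
          rw [isConj_iff]
          refine ⟨r ^ j, ?_⟩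
          have := conj_refl hD htS ht j 0
          rwa [zpow_zero, one_mul, add_zero] at this
        · apply h2
          refine IsConj.trans ?_ hsz
          rw [isConj_iff]
          refine ⟨r ^ j, ?_⟩
          have := conj_refl hD htS ht j 1
          rwa [zpow_one] at this
      have hh := hnc P hD h4 hno
      have e3 : ConjClasses.mk t ≠ ConjClasses.mk (r * t) := by
        intro h
        obtain ⟨s, hs, he⟩ := conj_in_sylow P hh htS hrtS (ConjClasses.mk_eq_mk_iff_isConj.mp h)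
        exact not_conj_in_sylow hD htS ht hs he
      refine ⟨?_, hh⟩
      rw [Finset.card_eq_three]
      exact ⟨_, _, _, e1.symm, e2.symm, e3, rfl⟩

end Cfsg.Agent.S3864
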