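import Cfsg.Statements.S3880
import Cfsg.Agent.H470.MetaMain

set_option autoImplicit false
open Cfsg

namespace Cfsg.Agent.S3880

/-- Let p be an odd prime and G a finite metacyclic p-group (G has a cyclic normal subgroup with cyclic quotient). Then a subgroup L of G is abelian if and only if |L| ≤ |G : G'|, and L is a maximal abelian subgroup of G if and only if |L| = |G : G'|. -/
theorem result {G : Type*} [Group G] [Finite G] {p : ℕ} [Fact p.Prime] (hp : p ≠ 2) (hG : IsPGroup p G) (hmc : Cfsg.IsMetacyclic G) (L : Subgroup G) :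
    (IsMulCommutative ↥L ↔ Nat.card ↥L ≤ (commutator G).index) ∧
      (Maximal (fun K : Subgroup G => IsMulCommutative ↥K) L ↔ Nat.card ↥L = (commutator G).index) := by
  have hpp : p.Prime := Fact.out
  obtain ⟨c⟩ := Cfsg.Agent.H470.exists_coord hG hmc
  have key : ∀ K : Subgroup G, IsMulCommutative ↥K ↔ Nat.card ↥K ≤ (commutator G).index := by
    intro K
    rw [c.index_commutator hp]
    exact ⟨fun h => c.card_le_of_isMulCommutative hp h,
      fun h => c.isMulCommutative_of_card_le hG hp h⟩
  refine ⟨key L, ?_⟩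
  constructor
  · rintro ⟨hL, hmax⟩
    have hL' : Nat.card L ≤ (commutator G).index := (key L).1 hL
    by_contra hne
    have hlt : Nat.card L < (commutator G).index := lt_of_le_of_ne hL' hne
    obtain ⟨t, ht⟩ := (IsPGroup.iff_card.1 (hG.to_subgroup L))
    obtain ⟨e, he⟩ : ∃ e, (commutator G).index = p ^ e := hG.index _
    rw [ht, he, Nat.pow_lt_pow_iff_right hpp.one_lt] at hlt
    have hdvd : p ^ (t + 1) ∣ Nat.card G := by
      rw [← (commutator G).index_mul_card, he]
      exact Dvd.dvd.mul_right (pow_dvd_pow p hlt) _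
    obtain ⟨K, hK, hLK⟩ := Sylow.exists_subgroup_card_pow_succ hdvd ht
    have hKc : IsMulCommutative K := by
      rw [key, hK, he]
      exact Nat.pow_le_pow_right hpp.pos hlt
    have h1 : K ≤ L := hmax hKc hLK
    have h2 := Subgroup.card_le_of_le h1
    rw [hK, ht, Nat.pow_le_pow_iff_right hpp.one_lt] at h2
    omega
  · intro hL
    refine ⟨(key L).2 hL.le, ?_⟩
    intro K hK hLK
    have h1 := (key K).1 hK
    rw [← hL] at h1
    exact (Subgroup.eq_of_le_of_card_ge hLK h1).ge

end Cfsg.Agent.S3880
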