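import Cfsg.Statements.S3881
import Cfsg.Agent.H471.MetaClass

set_option autoImplicit false
open Cfsg

namespace Cfsg.Agent.S3881

/-- Let p be an odd prime and G a finite metacyclic p-group (G has a cyclic normal subgroup with cyclic quotient). Suppose G is non-abelian with |G'| = p^n. Then for 1 ≤ i ≤ n the number of elements of G whose conjugacy class has exactly p^i elements is |Z(G)| · (p^(2i) − p^(2i−2)). -/
theorem result {G : Type*} [Group G] [Finite G] {p : ℕ} [Fact p.Prime] (hp : p ≠ 2) (hG : IsPGroup p G) (hmc : Cfsg.IsMetacyclic G) (n : ℕ) (hn : n ≠ 0) (hGn : Nat.card ↥(commutator G) = p ^ n) (i : ℕ) (hi : 1 ≤ i) (hin : i ≤ n) :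
    Nat.card {g : G // (Subgroup.centralizer ({g} : Set G)).index = p ^ i} =
      Nat.card ↥(Subgroup.center G) * (p ^ (2 * i) - p ^ (2 * i - 2)) := by
  have hpp : p.Prime := Fact.out
  obtain ⟨c⟩ := Cfsg.Agent.H470.exists_coord hG hmc
  rw [c.card_commutator] at hGn
  have h := Nat.pow_right_injective hpp.two_le hGn
  exact Cfsg.Agent.H471.card_class_size c hp hi (by omega)

end Cfsg.Agent.S3881
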