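import Cfsg.Statements.S3883
import Cfsg.Agent.H471.MetaClass
import Cfsg.Agent.Lib.FrattiniBasic

set_option autoImplicit false
open Cfsg
open scoped commutatorElement

namespace Cfsg.Agent.S3883

open Cfsg.Agent.H470 Cfsg.Agent.H471 in
/-- The Frattini subgroup is generated by the `p`-th powers. -/
theorem frattini_eq {G : Type*} [Group G] [Finite G] {p : ℕ} [Fact p.Prime] (hG : IsPGroup p G)
    (c : MetaCoord p G) : frattini G = Subgroup.closure {x : G | ∃ y : G, y ^ p ^ 1 = x} := by
  apply le_antisymm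
  · apply Cfsg.Agent.Lib.FrattiniBasic.frattini_le_of_elementary (p := p)
    · rw [c.commutator_eq, Subgroup.zpowers_le]
      obtain ⟨z, hz⟩ := c.p_dvd_q
      apply Subgroup.subset_closure
      exact ⟨c.a ^ z, by rw [hz, pow_one, ← pow_mul, mul_comm]⟩
    · intro x
      exact Subgroup.subset_closure ⟨x, by rw [pow_one]⟩
  · rw [Subgroup.closure_le]
    rintro _ ⟨y, rfl⟩
    rw [pow_one]
    exact Cfsg.Agent.Lib.FrattiniBasic.pow_mem_frattini hG y

/-- Let p be an odd prime and G a finite metacyclic p-group (G has a cyclic normal subgroup with cyclic quotient). Suppose G is non-abelian. Then an element g of G lies outside the Frattini subgroup if and only if its centralizer C_G(g) is abelian. -/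
theorem result {G : Type*} [Group G] [Finite G] {p : ℕ} [Fact p.Prime] (hp : p ≠ 2) (hG : IsPGroup p G) (hmc : Cfsg.IsMetacyclic G) (hna : ¬ IsMulCommutative G) (g : G) :
    g ∉ frattini G ↔ IsMulCommutative ↥(Subgroup.centralizer ({g} : Set G)) := by
  have hpp : p.Prime := Fact.out
  obtain ⟨c⟩ := Cfsg.Agent.H470.exists_coord hG hmc
  have hn : 1 ≤ c.n := by
    by_contra h
    have h0 : c.n = 0 := by omega
    apply hna
    refine ⟨⟨fun x y => ?_⟩⟩
    have h1 := c.card_commutator
    rw [h0, pow_zero, Subgroup.card_eq_one] at h1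
    have h2 : ⁅x, y⁆ ∈ commutator G :=
      Subgroup.commutator_mem_commutator (Subgroup.mem_top x) (Subgroup.mem_top y)
    rw [h1, Subgroup.mem_bot, commutatorElement_eq_one_iff_mul_comm] at h2
    exact h2
  rw [frattini_eq hG c, Cfsg.Agent.H471.mem_closure_pow_iff c hp hn]
  have h1 := Cfsg.Agent.H471.pair_mul_eq_zero_iff (p := p) (Nat.sub_le c.n 1) (c.D g)
  rw [show c.n - (c.n - 1) = 1 by omega] at h1
  rw [← h1, ← Cfsg.Agent.H471.addOrderOf_le_iff]
  have h2 := Cfsg.Agent.H471.index_centralizer_singleton c hp g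
  have h3 := (Subgroup.centralizer ({g} : Set G)).index_mul_card
  rw [h2, ← c.card_eq hp] at h3
  obtain ⟨i, hi, h4⟩ := (Nat.dvd_prime_pow hpp).1 (Cfsg.Agent.H471.addOrderOf_dvd (c.D g))
  rw [h4] at h3 ⊢
  rw [Nat.pow_le_pow_iff_right hpp.one_lt]
  have h5 : Nat.card (Subgroup.centralizer ({g} : Set G)) =
      p ^ (2 * c.n - i) * Nat.card (Subgroup.center G) := by
    have h6 : p ^ (2 * c.n) = p ^ i * p ^ (2 * c.n - i) := by rw [← pow_add]; congr 1; omega
    rw [h6, mul_assoc] at h3
    exact Nat.eq_of_mul_eq_mul_left (pow_pos hpp.pos _) h3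
  have h7 : IsMulCommutative ↥(Subgroup.centralizer ({g} : Set G)) ↔
      Nat.card (Subgroup.centralizer ({g} : Set G)) ≤ p ^ c.n * Nat.card (Subgroup.center G) :=
    ⟨fun h => c.card_le_of_isMulCommutative hp h, fun h => c.isMulCommutative_of_card_le hG hp h⟩
  rw [h7, h5, Nat.mul_le_mul_right_iff Nat.card_pos, Nat.pow_le_pow_iff_right hpp.one_lt]
  omega

end Cfsg.Agent.S3883
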