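import Cfsg.Statements.S3884
import Cfsg.Agent.H470.MetaMain

set_option autoImplicit false
open Cfsg

namespace Cfsg.Agent.S3884

open Cfsg.Agent.H470

theorem sum_lam {Q : ℕ} (L : ℕ) :
    lam (1 + Q) L = Q * (∑ i ∈ Finset.range L, lam (1 + Q) i) + L := by
  rw [Finset.mul_sum]
  unfold lam
  have : ∀ i ∈ Finset.range L, (1 + Q) ^ i = Q * (∑ j ∈ Finset.range i, (1 + Q) ^ j) + 1 := by
    intro i _
    exact (mul_lam Q i).symm
  rw [Finset.sum_congr rfl this, Finset.sum_add_distrib]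
  simp

theorem dvd_sum_lam {p Q : ℕ} (hp : p.Prime) (hp2 : p ≠ 2) (hQ : p ∣ Q) (w : ℕ) :
    p ^ w ∣ ∑ i ∈ Finset.range (p ^ w), lam (1 + Q) i := by
  have hne : NeZero (p ^ w) := ⟨pow_ne_zero _ hp.ne_zero⟩
  rw [← ZMod.natCast_eq_zero_iff, Nat.cast_sum]
  have h1 : ∑ i ∈ Finset.range (p ^ w), ((lam (1 + Q) i : ℕ) : ZMod (p ^ w)) =
      ∑ x : ZMod (p ^ w), ((lam (1 + Q) x.val : ℕ) : ZMod (p ^ w)) := by
    refine Finset.sum_nbij' (fun i => (i : ZMod (p ^ w))) (fun x => x.val) ?_ ?_ ?_ ?_ ?_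
    · intro i _; exact Finset.mem_univ _
    · intro x _; exact Finset.mem_range.2 (ZMod.val_lt x)
    · intro i hi; exact ZMod.val_cast_of_lt (Finset.mem_range.1 hi)
    · intro x _; simp
    · intro i hi
      rw [ZMod.val_cast_of_lt (Finset.mem_range.1 hi)]
  have hinj : Function.Injective (fun x : ZMod (p ^ w) => ((lam (1 + Q) x.val : ℕ) : ZMod (p ^ w))) := by
    intro x y hxy
    have h2 := (lam_cast_eq_iff hp hp2 hQ w x.val y.val).1 hxy
    simpa using h2
  have hbij := Finite.injective_iff_bijective.1 hinj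
  rw [h1, hbij.sum_comp (fun x : ZMod (p ^ w) => x)]
  have h3 : ∑ x : ZMod (p ^ w), x = - ∑ x : ZMod (p ^ w), x := by
    rw [← Finset.sum_neg_distrib]
    exact (Equiv.sum_comp (Equiv.neg (ZMod (p ^ w))) (fun x => x)).symm
  have h4 : (2 : ZMod (p ^ w)) * ∑ x : ZMod (p ^ w), x = 0 := by
    rw [two_mul]
    nth_rewrite 1 [h3]
    simp
  have h5 : IsUnit ((2 : ℕ) : ZMod (p ^ w)) := by
    rw [ZMod.isUnit_iff_coprime]
    apply Nat.Coprime.pow_right
    rw [Nat.coprime_primes Nat.prime_two hp]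
    exact fun h => hp2 h.symm
  exact (IsUnit.mul_right_eq_zero (by exact_mod_cast h5)).1 h4

theorem lam_modEq {p Q : ℕ} (hp : p.Prime) (hp2 : p ≠ 2) {k m w : ℕ} (hk : k ≠ 0)
    (hQ : p ^ k ∣ Q) (hm : m ≤ w + k) : lam (1 + Q) (p ^ w) ≡ p ^ w [MOD p ^ m] := by
  have hpQ : p ∣ Q := (dvd_pow_self p hk).trans hQ
  rw [sum_lam]
  have h1 : p ^ m ∣ Q * ∑ i ∈ Finset.range (p ^ w), lam (1 + Q) i := by
    refine (pow_dvd_pow p hm).trans ?_
    rw [pow_add, mul_comm]
    exact mul_dvd_mul hQ (dvd_sum_lam hp hp2 hpQ w)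
  have h2 := (Nat.modEq_zero_iff_dvd.2 h1).add_right (p ^ w)
  rwa [zero_add] at h2

theorem pow_rule {p : ℕ} {G : Type*} [Group G] (c : MetaCoord p G) (i j l : ℕ) :
    (c.a ^ i * c.b ^ j) ^ l = c.a ^ (i * lam (c.r ^ j) l) * c.b ^ (j * l) := by
  induction l with
  | zero => simp [lam_zero]
  | succ l ih =>
    rw [pow_succ', ih, c.mul_rule]
    have h1 : lam (c.r ^ j) (l + 1) = 1 + c.r ^ j * lam (c.r ^ j) l := by
      rw [add_comm l 1, lam_add, lam_one, pow_one]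
    rw [h1]
    congr 2 <;> ring

/-- solving a congruence -/
theorem exists_neg_mul {p : ℕ} (hp : p.Prime) {v : ℕ} (hv : ¬ p ∣ v) (m z : ℕ) :
    ∃ x : ℕ, p ^ m ∣ x * v + z := by
  have hne : NeZero (p ^ m) := ⟨pow_ne_zero _ hp.ne_zero⟩
  have hu : IsUnit (v : ZMod (p ^ m)) := by
    rw [ZMod.isUnit_iff_coprime]
    apply Nat.Coprime.pow_right
    rw [Nat.coprime_comm]
    exact (Nat.Prime.coprime_iff_not_dvd hp).2 hv
  obtain ⟨u, hu⟩ := hu
  refine ⟨(-(z : ZMod (p ^ m)) * ((u⁻¹ : (ZMod (p ^ m))ˣ) : ZMod (p ^ m))).val, ?_⟩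
  rw [← ZMod.natCast_eq_zero_iff, Nat.cast_add, Nat.cast_mul, ZMod.natCast_zmod_val, ← hu]
  rw [mul_assoc, Units.inv_mul]
  ring

/-- Let p be an odd prime and G a finite metacyclic p-group (G has a cyclic normal subgroup with cyclic quotient). Then G is the product of two cyclic subgroups with trivial intersection: there are cyclic subgroups A and B with A ∩ B = 1 and |A| · |B| = |G|. -/
theorem result {G : Type*} [Group G] [Finite G] {p : ℕ} [Fact p.Prime] (hp : p ≠ 2) (hG : IsPGroup p G) (hmc : Cfsg.IsMetacyclic G) : ∃ A B : Subgroup G, IsCyclic ↥A ∧ IsCyclic ↥B ∧ A ⊓ B = ⊥ ∧ Nat.card ↥A * Nat.card ↥B = Nat.card G := by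
  have hpp : p.Prime := Fact.out
  obtain ⟨c⟩ := Cfsg.Agent.H470.exists_coord hG hmc
  have hpow1 : ∀ e : ℕ, c.a ^ e = 1 ↔ p ^ c.m ∣ e := by
    intro e; rw [← c.ha, orderOf_dvd_iff_pow_eq_one]
  have hN : (Subgroup.zpowers c.a).Normal := by
    refine ⟨fun x hx g => ?_⟩
    rw [← mem_powers_iff_mem_zpowers] at hx
    obtain ⟨i, rfl⟩ := hx
    obtain ⟨i', j, rfl⟩ := c.gen g
    have h1 : c.a ^ i' * c.b ^ j * c.a ^ i * (c.a ^ i' * c.b ^ j)⁻¹ =
        c.a ^ i' * (c.b ^ j * c.a ^ i * (c.b ^ j)⁻¹) * (c.a ^ i')⁻¹ := by group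
    simp only
    rw [h1, c.conj_a_pow]
    have hm := Subgroup.mem_zpowers c.a
    exact mul_mem (mul_mem (pow_mem hm _) (pow_mem hm _)) (inv_mem (pow_mem hm _))
  obtain ⟨t, ht⟩ : ∃ t, (Subgroup.zpowers c.a).index = p ^ t := hG.index _
  have hbq : orderOf (QuotientGroup.mk c.b : G ⧸ Subgroup.zpowers c.a) = p ^ t := by
    rw [← ht, Subgroup.index_eq_card]
    apply orderOf_eq_card_of_forall_mem_zpowers
    intro x
    obtain ⟨g, rfl⟩ := QuotientGroup.mk_surjective x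
    obtain ⟨i, j, rfl⟩ := c.gen g
    rw [Subgroup.mem_zpowers_iff]
    refine ⟨j, ?_⟩
    rw [zpow_natCast, ← QuotientGroup.mk_pow, eq_comm, QuotientGroup.mk_mul]
    have h2 : ((c.a ^ i : G) : G ⧸ Subgroup.zpowers c.a) = 1 := by
      rw [QuotientGroup.eq_one_iff]
      exact pow_mem (Subgroup.mem_zpowers c.a) _
    rw [h2, one_mul]
  have hb : ∀ j : ℕ, c.b ^ j ∈ Subgroup.zpowers c.a ↔ p ^ t ∣ j := by
    intro j
    rw [← QuotientGroup.eq_one_iff, QuotientGroup.mk_pow, ← orderOf_dvd_iff_pow_eq_one, hbq]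
  have hcardG : Nat.card G = p ^ c.m * p ^ t := by
    rw [← (Subgroup.zpowers c.a).card_mul_index, ht, Nat.card_zpowers, c.ha]
  -- the power of b
  obtain ⟨w, s, hwm, hs, hbt⟩ : ∃ w s : ℕ, w ≤ c.m ∧ ¬ p ∣ s ∧ c.b ^ (p ^ t) = c.a ^ (p ^ w * s) := by
    have h1 := (hb (p ^ t)).2 dvd_rfl
    rw [← mem_powers_iff_mem_zpowers] at h1
    obtain ⟨e, he⟩ := h1
    by_cases hd : p ^ c.m ∣ e
    · refine ⟨c.m, 1, le_rfl, fun h => hpp.one_lt.ne' (Nat.dvd_one.1 h), ?_⟩
      rw [← he, mul_one]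
      simp only
      rw [(hpow1 e).2 hd, (hpow1 _).2 dvd_rfl]
    · have he0 : e ≠ 0 := by rintro rfl; exact hd (dvd_zero _)
      obtain ⟨w, s, hs, hes⟩ := Nat.exists_eq_pow_mul_and_not_dvd he0 p hpp.one_lt.ne'
      refine ⟨w, s, ?_, hs, by rw [← hes]; exact he.symm⟩
      by_contra hcon
      apply hd
      rw [hes]
      exact Dvd.dvd.mul_right (pow_dvd_pow p (by omega)) s
  have hcop : ∀ x : ℕ, (p ^ x).Coprime s := by
    intro x
    exact Nat.Coprime.pow_left _ ((Nat.Prime.coprime_iff_not_dvd hpp).2 hs)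
  have hcopu : ∀ x : ℕ, (p ^ x).Coprime c.u := by
    intro x
    exact Nat.Coprime.pow_left _ ((Nat.Prime.coprime_iff_not_dvd hpp).2 c.hu)
  have hwk : c.m ≤ w + c.k := by
    have h1 := c.conj_a_pow (p ^ w * s) 1
    rw [pow_one, pow_one, ← hbt] at h1
    have h2 : c.b * c.b ^ p ^ t * c.b⁻¹ = c.b ^ p ^ t := by group
    rw [h2, hbt] at h1
    have h3 : c.a ^ (p ^ w * s * c.r) = c.a ^ (p ^ w * s) * c.a ^ (p ^ w * s * c.q) := by
      rw [← pow_add]; congr 1; unfold MetaCoord.r; ring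
    rw [h3, left_eq_mul, hpow1] at h1
    have h4 : p ^ w * s * c.q = p ^ (w + c.k) * (s * c.u) := by
      unfold MetaCoord.q; rw [pow_add]; ring
    rw [h4] at h1
    have h5 := Nat.Coprime.dvd_of_dvd_mul_right (Nat.Coprime.mul_right (hcop c.m) (hcopu c.m)) h1
    exact (Nat.pow_dvd_pow_iff_le_right hpp.one_lt).1 h5
  rcases le_total t w with htw | hwt
  · -- case 1: split extension
    have hl : p ^ t ∣ lam c.r (p ^ t) :=
      (dvd_lam_iff' hpp hp c.p_dvd_q t (p ^ t)).2 dvd_rfl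
    have hl' : ¬ p ^ (t + 1) ∣ lam c.r (p ^ t) := by
      intro h
      have := (dvd_lam_iff' hpp hp c.p_dvd_q (t + 1) (p ^ t)).1 h
      rw [Nat.pow_dvd_pow_iff_le_right hpp.one_lt] at this
      omega
    obtain ⟨v, hv⟩ := hl
    have hv' : ¬ p ∣ v := by
      rintro ⟨v', rfl⟩
      apply hl'
      rw [hv, pow_succ]
      exact ⟨v', by ring⟩
    obtain ⟨x, hx⟩ := exists_neg_mul hpp hv' c.m (p ^ (w - t) * s)
    set b' := c.a ^ x * c.b ^ 1 with hb'
    have hb'pow : ∀ j, b' ^ j = c.a ^ (x * lam c.r j) * c.b ^ j := by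
      intro j
      rw [hb', pow_rule, pow_one, one_mul]
    have hb'1 : b' ^ (p ^ t) = 1 := by
      rw [hb'pow, hbt, ← pow_add, hpow1, hv]
      have : x * (p ^ t * v) + p ^ w * s = p ^ t * (x * v + p ^ (w - t) * s) := by
        have : p ^ w = p ^ t * p ^ (w - t) := by rw [← pow_add]; congr 1; omega
        rw [this]; ring
      rw [this]
      exact Dvd.dvd.mul_left hx _
    have hmem : ∀ j, b' ^ j ∈ Subgroup.zpowers c.a ↔ p ^ t ∣ j := by
      intro j
      rw [hb'pow, ← hb j]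
      exact Subgroup.mul_mem_cancel_left _ (pow_mem (Subgroup.mem_zpowers c.a) _)
    have hord : orderOf b' = p ^ t := by
      apply Nat.dvd_antisymm
      · exact orderOf_dvd_of_pow_eq_one hb'1
      · rw [← hmem, pow_orderOf_eq_one]
        exact one_mem _
    refine ⟨Subgroup.zpowers c.a, Subgroup.zpowers b', inferInstance, inferInstance, ?_, ?_⟩
    · rw [eq_bot_iff]
      rintro y ⟨hy1, hy2⟩
      replace hy2 : y ∈ Subgroup.zpowers b' := hy2
      rw [← mem_powers_iff_mem_zpowers] at hy2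
      obtain ⟨j, rfl⟩ := hy2
      have h1 := (hmem j).1 hy1
      rw [← hord, orderOf_dvd_iff_pow_eq_one] at h1
      simpa using h1
    · rw [Nat.card_zpowers, Nat.card_zpowers, c.ha, hord, hcardG]
  · -- case 2
    obtain ⟨y', hy'⟩ := exists_neg_mul hpp hs c.m 1
    set y := p ^ (t - w) * y' with hy
    set a' := c.a ^ 1 * c.b ^ y with ha'
    obtain ⟨Q, hQ, hrQ⟩ : ∃ Q, p ^ c.k ∣ Q ∧ c.r ^ y = 1 + Q := by
      refine ⟨c.q * lam c.r y, ?_, ?_⟩
      · unfold MetaCoord.q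
        exact Dvd.dvd.mul_right (Dvd.dvd.mul_right dvd_rfl _) _
      · rw [c.r_pow, add_comm]
    have hpQ : p ∣ Q := (dvd_pow_self p c.hk).trans hQ
    have ha'pow : ∀ j, a' ^ j = c.a ^ (lam (1 + Q) j) * c.b ^ (y * j) := by
      intro j
      rw [ha', pow_rule, hrQ, one_mul]
    have ha'1 : a' ^ (p ^ w) = 1 := by
      have h1 : y * p ^ w = p ^ t * y' := by
        have : p ^ t = p ^ (t - w) * p ^ w := by rw [← pow_add]; congr 1; omega
        rw [this, hy]; ring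
      rw [ha'pow, h1, pow_mul, hbt, ← pow_mul, ← pow_add, hpow1, ← Nat.modEq_zero_iff_dvd]
      have h2 := (lam_modEq hpp hp c.hk hQ hwk).add_right (p ^ w * s * y')
      refine h2.trans ?_
      rw [Nat.modEq_zero_iff_dvd]
      have h3 : p ^ w + p ^ w * s * y' = p ^ w * (y' * s + 1) := by ring
      rw [h3]
      exact Dvd.dvd.mul_left hy' _
    have hmem : ∀ j, a' ^ j ∈ Subgroup.zpowers c.b → p ^ w ∣ j := by
      intro j hj
      rw [ha'pow, Subgroup.mul_mem_cancel_right _ (pow_mem (Subgroup.mem_zpowers c.b) _),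
        ← mem_powers_iff_mem_zpowers] at hj
      obtain ⟨e, he⟩ := hj
      simp only at he
      have h1 : c.b ^ e ∈ Subgroup.zpowers c.a := by
        rw [he]; exact pow_mem (Subgroup.mem_zpowers c.a) _
      rw [hb] at h1
      obtain ⟨e', rfl⟩ := h1
      rw [pow_mul, hbt, ← pow_mul, pow_eq_pow_iff_modEq, c.ha] at he
      have h2 := he.of_dvd (pow_dvd_pow p hwm)
      have h3 : p ^ w * s * e' ≡ 0 [MOD p ^ w] := by
        rw [Nat.modEq_zero_iff_dvd, mul_assoc]; exact Dvd.intro _ rfl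
      have h4 := (h2.symm.trans h3)
      rw [Nat.modEq_zero_iff_dvd] at h4
      exact (dvd_lam_iff' hpp hp hpQ w j).1 h4
    have horda : orderOf a' = p ^ w := by
      apply Nat.dvd_antisymm
      · exact orderOf_dvd_of_pow_eq_one ha'1
      · apply hmem
        rw [pow_orderOf_eq_one]
        exact one_mem _
    have hordb : orderOf c.b = p ^ t * p ^ (c.m - w) := by
      have hsplit : p ^ c.m = p ^ w * p ^ (c.m - w) := by rw [← pow_add]; congr 1; omega
      apply Nat.dvd_antisymm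
      · apply orderOf_dvd_of_pow_eq_one
        rw [pow_mul, hbt, ← pow_mul, hpow1, hsplit]
        exact ⟨s, by ring⟩
      · have h1 : c.b ^ (orderOf c.b) ∈ Subgroup.zpowers c.a := by
          rw [pow_orderOf_eq_one]; exact one_mem _
        rw [hb] at h1
        obtain ⟨e, he⟩ := h1
        have h2 : c.b ^ (p ^ t * e) = 1 := by rw [← he, pow_orderOf_eq_one]
        rw [pow_mul, hbt, ← pow_mul, hpow1, hsplit, mul_assoc] at h2
        have h3 := Nat.dvd_of_mul_dvd_mul_left (pow_pos hpp.pos w) h2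
        have h4 := Nat.Coprime.dvd_of_dvd_mul_left (hcop _) h3
        rw [he]
        exact mul_dvd_mul_left _ h4
    refine ⟨Subgroup.zpowers a', Subgroup.zpowers c.b, inferInstance, inferInstance, ?_, ?_⟩
    · rw [eq_bot_iff]
      rintro x ⟨hx1, hx2⟩
      replace hx1 : x ∈ Subgroup.zpowers a' := hx1
      rw [← mem_powers_iff_mem_zpowers] at hx1
      obtain ⟨j, rfl⟩ := hx1
      have h1 := hmem j hx2
      rw [← horda, orderOf_dvd_iff_pow_eq_one] at h1
      simpa using h1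
    · rw [Nat.card_zpowers, Nat.card_zpowers, horda, hordb, hcardG]
      have : p ^ c.m = p ^ w * p ^ (c.m - w) := by rw [← pow_add]; congr 1; omega
      rw [this]; ring

end Cfsg.Agent.S3884
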