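import Cfsg.Statements.S3898
import Cfsg.Agent.H471.KPiTwo
import Cfsg.Agent.S3895

set_option autoImplicit false
open Cfsg

namespace Cfsg.Agent.S3898

open Cfsg.Agent.H471.KPi in
/-- Let π be a finite set of primes containing 2 and G a finite group. Write k_π(G) for the number of conjugacy classes of G consisting of π-elements (elements all of whose order's prime divisors lie in π) and |G|_π for the π-part of the order of G. If k_π(G) > |G|_π/2, then G has a normal π-complement (a normal subgroup of order prime to π whose index is a π-number) and an abelian Hall subgroup for the set of odd primes in π. -/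
theorem result {G : Type*} [Group G] [Finite G] (π : Finset ℕ) (hπ : ∀ r ∈ π, r.Prime) (h2 : 2 ∈ π)
    (hk : π.prod (fun r => r ^ (Nat.card G).factorization r) < 2 * Nat.card {c : ConjClasses G // ∀ x ∈ c.carrier, ∀ r : ℕ, r.Prime → r ∣ orderOf x → r ∈ π}) :
    (∃ N : Subgroup G, N.Normal ∧ (∀ r : ℕ, r.Prime → r ∣ Nat.card ↥N → r ∉ π) ∧ ∀ r : ℕ, r.Prime → r ∣ N.index → r ∈ π) ∧ ∃ H : Subgroup G, Cfsg.IsPiHall ((↑π : Set ℕ) \ {2}) H ∧ IsMulCommutative ↥H := by
  classical
  have hf2 : Fact (Nat.Prime 2) := ⟨Nat.prime_two⟩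
  have hk' : π.prod (fun r => r ^ (Nat.card G).factorization r) < 2 * kPi (↑π : Set ℕ) G := by
    rw [← card_classes_eq_kPi]
    exact hk
  have hTpos : 0 < π.prod (fun r => r ^ (Nat.card G).factorization r) :=
    Finset.prod_pos (fun r hr => pow_pos (hπ r hr).pos _)
  -- subsets of the primes
  have hsub : ∀ σ : Finset ℕ, σ ⊆ π → σ.prod (fun r => r ^ (Nat.card G).factorization r) <
      2 * kPi (↑σ : Set ℕ) G := by
    intro σ hσ
    have h3 := kPi_subset_le (G := G) hσ hπ
    have hSpos : 0 < σ.prod (fun r => r ^ (Nat.card G).factorization r) :=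
      Finset.prod_pos (fun r hr => pow_pos (hπ r (hσ hr)).pos _)
    set T := π.prod (fun r => r ^ (Nat.card G).factorization r) with hT
    set S := σ.prod (fun r => r ^ (Nat.card G).factorization r) with hS
    have h4 : T * S < T * (2 * kPi (↑σ : Set ℕ) G) := by
      calc T * S < (2 * kPi (↑π : Set ℕ) G) * S := Nat.mul_lt_mul_of_pos_right hk' hSpos
        _ = 2 * (kPi (↑π : Set ℕ) G * S) := by ring
        _ ≤ 2 * (kPi (↑σ : Set ℕ) G * T) := Nat.mul_le_mul_left _ h3
        _ = _ := by ring
    exact lt_of_mul_lt_mul_left h4 (Nat.zero_le _)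
  -- the prime two
  have htwo : ∃ N : Subgroup G, N.Normal ∧ ¬ 2 ∣ Nat.card N ∧ ∃ k, N.index = 2 ^ k := by
    have h3 := hsub {2} (Finset.singleton_subset_iff.2 h2)
    rw [Finset.prod_singleton, Finset.coe_singleton, ← card_classes_eq_kPi' Nat.prime_two] at h3
    obtain ⟨P⟩ : Nonempty (Sylow 2 G) := inferInstance
    rw [← P.card_eq_multiplicity] at h3
    obtain ⟨h4, -⟩ := (Cfsg.Agent.S3895.result P).1 h3
    obtain ⟨P', N, hN, hc⟩ := h4
    refine ⟨N, hN, ?_, ?_⟩
    · rw [← hc.index_eq_card]
      exact P'.not_dvd_index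
    · rw [hc.symm.index_eq_card, P'.card_eq_multiplicity]
      exact ⟨_, rfl⟩
  obtain ⟨K, hK, hK2, k, hKi⟩ := htwo
  have hodd : ∀ q ∈ π.erase 2, ∃ N : Subgroup G, (N.Normal ∧ ¬ q ∣ Nat.card N ∧ ∃ k, N.index = q ^ k) ∧
      commutator G ≤ N := by
    intro q hq
    obtain ⟨hq2, hqπ⟩ := Finset.mem_erase.1 hq
    have hqp : Fact q.Prime := ⟨hπ q hqπ⟩
    apply complement_data_two hq2 K hK hK2 hKi
    have h3 := hsub {q, 2} (by
      intro x hx
      rw [Finset.mem_insert, Finset.mem_singleton] at hx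
      rcases hx with rfl | rfl <;> assumption)
    rw [Finset.prod_pair hq2, Finset.coe_pair, mul_comm] at h3
    exact h3
  choose! N hN hab using hodd
  constructor
  · refine ⟨_, exists_normal_piComplement π hπ (fun q => if q = 2 then K else N q) ?_⟩
    intro q hq
    by_cases hq2 : q = 2
    · subst hq2
      simp only [if_true]
      exact ⟨hK, hK2, k, hKi⟩
    · simp only [hq2, if_false]
      exact hN q (Finset.mem_erase.2 ⟨hq2, hq⟩)
  · have h5 := exists_abelian_hall (π.erase 2) (fun r hr => hπ r (Finset.mem_of_mem_erase hr)) N hN hab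
    rw [Finset.coe_erase] at h5
    exact h5

end Cfsg.Agent.S3898
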