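import Cfsg.Statements.S3899
import Cfsg.Agent.H471.KPiAssemble

set_option autoImplicit false
open Cfsg

namespace Cfsg.Agent.S3899

open Cfsg.Agent.H471.KPi in
/-- Let π be a finite non-empty set of odd primes with smallest member p and G a finite group. Write k_π(G) for the number of conjugacy classes of G consisting of π-elements (elements all of whose order's prime divisors lie in π) and |G|_π for the π-part of the order of G. If k_π(G) > (p + 1)|G|_π/(2p), then G has a normal π-complement (a normal subgroup of order prime to π whose index is a π-number) and an abelian Hall π-subgroup. -/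
theorem result {G : Type*} [Group G] [Finite G] (π : Finset ℕ) (hπ : ∀ r ∈ π, r.Prime) (h2 : 2 ∉ π) (p : ℕ) (hp : p ∈ π)
    (hmin : ∀ r ∈ π, p ≤ r) (hk : (p + 1) * π.prod (fun r => r ^ (Nat.card G).factorization r) < 2 * p * Nat.card {c : ConjClasses G // ∀ x ∈ c.carrier, ∀ r : ℕ, r.Prime → r ∣ orderOf x → r ∈ π}) :
    (∃ N : Subgroup G, N.Normal ∧ (∀ r : ℕ, r.Prime → r ∣ Nat.card ↥N → r ∉ π) ∧ ∀ r : ℕ, r.Prime → r ∣ N.index → r ∈ π) ∧ ∃ H : Subgroup G, Cfsg.IsPiHall (↑π : Set ℕ) H ∧ IsMulCommutative ↥H := by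
  classical
  have hk' : (p + 1) * π.prod (fun r => r ^ (Nat.card G).factorization r) <
      2 * p * kPi (↑π : Set ℕ) G := by
    rw [← card_classes_eq_kPi]
    exact hk
  have hpp : p.Prime := hπ p hp
  have key : ∀ q ∈ π, ∃ N : Subgroup G, (N.Normal ∧ ¬ q ∣ Nat.card N ∧ ∃ k, N.index = q ^ k) ∧
      commutator G ≤ N := by
    intro q hq
    have hqp : Fact q.Prime := ⟨hπ q hq⟩
    have hq2 : q ≠ 2 := fun h => h2 (h ▸ hq)
    apply complement_data hq2
    have h3 := kPi_subset_le (G := G) (σ := {q}) (π := π) (Finset.singleton_subset_iff.2 hq) hπ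
    rw [Finset.prod_singleton, Finset.coe_singleton] at h3
    set T := π.prod (fun r => r ^ (Nat.card G).factorization r) with hT
    set Q := q ^ (Nat.card G).factorization q with hQ
    set A := kPi (↑π : Set ℕ) G with hA
    set B := kPi {q} G with hB
    have hTpos : 0 < T := Finset.prod_pos (fun r hr => pow_pos (hπ r hr).pos _)
    have hQpos : 0 < Q := pow_pos hqp.out.pos _
    have hpq := hmin q hq
    -- (p+1) T Q < 2 p A Q ≤ 2 p B T
    have h4 : (p + 1) * T * Q < 2 * p * A * Q := Nat.mul_lt_mul_of_pos_right hk' hQpos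
    have h5 : 2 * p * A * Q ≤ 2 * p * B * T := by
      calc 2 * p * A * Q = 2 * p * (A * Q) := by ring
        _ ≤ 2 * p * (B * T) := Nat.mul_le_mul_left _ h3
        _ = _ := by ring
    have h6 : T * ((p + 1) * Q) < T * (2 * p * B) := by
      calc T * ((p + 1) * Q) = (p + 1) * T * Q := by ring
        _ < 2 * p * A * Q := h4
        _ ≤ 2 * p * B * T := h5
        _ = _ := by ring
    have h7 : (p + 1) * Q < 2 * p * B := lt_of_mul_lt_mul_left h6 (Nat.zero_le _)
    have h8 : p * ((q + 1) * Q) < p * (2 * q * B) := by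
      calc p * ((q + 1) * Q) = (p * (q + 1)) * Q := by ring
        _ ≤ (q * (p + 1)) * Q := Nat.mul_le_mul_right _ (by nlinarith)
        _ = q * ((p + 1) * Q) := by ring
        _ < q * (2 * p * B) := Nat.mul_lt_mul_of_pos_left h7 hqp.out.pos
        _ = _ := by ring
    exact lt_of_mul_lt_mul_left h8 (Nat.zero_le _)
  choose! N hN hab using key
  refine ⟨⟨_, exists_normal_piComplement π hπ N hN⟩, exists_abelian_hall π hπ N hN hab⟩

end Cfsg.Agent.S3899
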