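import Cfsg.Statements.S3901
import Cfsg.Agent.H35.PPOut
import Cfsg.Agent.S0071
import Cfsg.Agent.S0205


set_option autoImplicit false
open Cfsg

namespace Cfsg.Agent.S3901

/-- Let N be a non-trivial normal subgroup of the finite group G such that every element of G outside N has prime power order. If N is not solvable, then G/N is solvable. -/
theorem result {G : Type*} [Group G] [Finite G] (N : Subgroup G) [N.Normal] (hN : N ≠ ⊥) (hns : ¬ Group.IsSolvable ↥N)
    (h : ∀ x : G, x ∉ N → IsPrimePow (orderOf x)) : Group.IsSolvable (G ⧸ N) := by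
  classical
  by_contra hQ
  haveI : Fact (Nat.Prime 2) := ⟨Nat.prime_two⟩
  -- `G ⧸ N` has no normal 2-complement
  have hno : ∃ D : Subgroup (G ⧸ N), IsPGroup 2 D ∧ ∃ g ∈ Subgroup.normalizer (D : Set (G ⧸ N)),
      Nat.Coprime (orderOf g) 2 ∧ g ∉ Subgroup.centralizer (D : Set (G ⧸ N)) := by
    by_contra hcon
    push Not at hcon
    apply hQ
    let P : Sylow 2 (G ⧸ N) := default
    obtain ⟨M, hM, hMP⟩ := (S0071.result P).mpr (fun D hD g hg hg2 =>
      hcon D (P.isPGroup'.to_le hD) g hg hg2)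
    rw [Group.isSolvable_iff_subgroup_quotient M]
    constructor
    · apply S0205.result
      rw [← Nat.not_even_iff_odd, even_iff_two_dvd]
      intro h2
      apply P.not_dvd_index
      rwa [hMP.index_eq_card]
    · have h1 : IsPGroup 2 ((G ⧸ N) ⧸ M) :=
        P.isPGroup'.of_equiv (hMP.symm.QuotientMulEquiv).symm
      have h2 : Group.IsNilpotent ((G ⧸ N) ⧸ M) := h1.isNilpotent
      infer_instance
  obtain ⟨D, hD, g, hg, hg2, hgD⟩ := hno
  have hg1 : g ≠ 1 := fun h1 => hgD (h1 ▸ Subgroup.one_mem _)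
  obtain ⟨x0, rfl⟩ := QuotientGroup.mk'_surjective N g
  have hx0 : x0 ∉ N := by
    intro h1
    apply hg1
    rwa [QuotientGroup.mk'_apply, QuotientGroup.eq_one_iff]
  obtain ⟨s, n, hs, hn, hsn⟩ := h x0 hx0
  have hs' : s.Prime := hs.nat_prime
  have hdvd : orderOf (QuotientGroup.mk' N x0) ∣ s ^ n := by
    rw [hsn]
    exact orderOf_map_dvd _ _
  obtain ⟨j, -, hj⟩ := (Nat.dvd_prime_pow hs').mp hdvd
  have hj0 : j ≠ 0 := by
    rintro rfl
    exact hg1 (orderOf_eq_one_iff.mp (by simpa using hj))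
  have hs2 : s ≠ 2 := by
    rintro rfl
    rw [hj] at hg2
    have h1 : 2 ∣ Nat.gcd (2 ^ j) 2 := Nat.dvd_gcd (dvd_pow_self 2 hj0) dvd_rfl
    rw [hg2] at h1
    omega
  obtain ⟨i, rfl⟩ := Nat.exists_eq_succ_of_ne_zero hj0
  set E : Subgroup G := D.comap (QuotientGroup.mk' N) with hE
  have hNE : N ≤ E := by
    intro y hy
    rw [hE, Subgroup.mem_comap, QuotientGroup.mk'_apply, (QuotientGroup.eq_one_iff y).mpr hy]
    exact D.one_mem
  have hEN : ¬ E ≤ N := by
    intro h1
    apply hgD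
    have hDb : ∀ d ∈ D, d = 1 := by
      intro d hd
      obtain ⟨e, rfl⟩ := QuotientGroup.mk'_surjective N d
      have he : e ∈ N := h1 (Subgroup.mem_comap.mpr hd)
      rwa [QuotientGroup.mk'_apply, QuotientGroup.eq_one_iff]
    rw [Subgroup.mem_centralizer_iff]
    intro d hd
    rw [hDb d hd, one_mul, mul_one]
  have hE2 : ∀ e ∈ E, ∃ k : ℕ, e ^ (2 ^ k) ∈ N := by
    intro e he
    obtain ⟨k, hk⟩ := hD ⟨_, he⟩
    refine ⟨k, ?_⟩
    have h1 : (QuotientGroup.mk' N e) ^ (2 ^ k) = 1 := congrArg Subtype.val hk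
    rwa [← map_pow, QuotientGroup.mk'_apply, QuotientGroup.eq_one_iff] at h1
  have hx0E : x0 ∈ Subgroup.normalizer (E : Set G) := by
    rw [Subgroup.mem_normalizer_iff] at hg ⊢
    intro y
    have h1 := hg (QuotientGroup.mk' N y)
    rw [← map_mul, ← map_inv, ← map_mul] at h1
    exact h1
  have hxE : x0 ^ (s ^ i) ∈ Subgroup.normalizer (E : Set G) := Subgroup.pow_mem _ hx0E _
  have hxN : x0 ^ (s ^ i) ∉ N := by
    intro h1
    rw [← QuotientGroup.eq_one_iff, ← QuotientGroup.mk'_apply, map_pow] at h1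
    have h2 := orderOf_dvd_of_pow_eq_one h1
    rw [hj] at h2
    exact absurd (Nat.le_of_dvd (pow_pos hs'.pos i) h2)
      (not_le.mpr (Nat.pow_lt_pow_right hs'.one_lt (Nat.lt_succ_self i)))
  have hxs : (x0 ^ (s ^ i)) ^ s ∈ N := by
    rw [← QuotientGroup.eq_one_iff, ← QuotientGroup.mk'_apply, map_pow, map_pow, ← pow_mul,
      ← pow_succ, ← hj, pow_orderOf_eq_one]
  have key : ∀ r : ℕ, r.Prime → r ≠ 2 → r ≠ s → ¬ r ∣ Nat.card N := fun r hr hr2 hrs =>
    H35.PPOut.card_not_dvd h hNE hEN hE2 hs' hs2 hxE hxN hxs hr hr2 hrs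
  apply hns
  have hpos : Nat.card N ≠ 0 := Nat.card_pos.ne'
  have h1 : Nat.card N = 2 ^ (Nat.card N).factorization 2 *
      (Nat.card N / 2 ^ (Nat.card N).factorization 2) :=
    (Nat.ordProj_mul_ordCompl_eq_self _ _).symm
  have h3 : Nat.card N / 2 ^ (Nat.card N).factorization 2 ≠ 0 :=
    (Nat.ordCompl_pos 2 hpos).ne'
  have h2 := Nat.eq_prime_pow_of_unique_prime_dvd (p := s) h3 (by
    intro d hd hdd
    by_contra hds
    have hd2 : d ≠ 2 := by
      rintro rfl
      exact Nat.not_dvd_ordCompl Nat.prime_two hpos hdd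
    exact key d hd hd2 hds (hdd.trans (Nat.ordCompl_dvd _ _)))
  refine GH.C2SevenTop.solvable_of_dvd Nat.prime_two hs'
    (a := (Nat.card N).factorization 2)
    (b := (Nat.card N / 2 ^ (Nat.card N).factorization 2).primeFactorsList.length) ?_
  rw [← h2, ← h1]

end Cfsg.Agent.S3901
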