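import Cfsg.Statements.S3903
import Cfsg.Agent.H475.MaxPGroup

set_option autoImplicit false
open Cfsg

namespace Cfsg.Agent.S3903

open Subgroup Cfsg.Agent.H475.MaxPGroup

/-- The centralizer of a `p`-element outside `N` is a `p`-group. -/
theorem isPGroup_centralizer {G : Type*} [Group G] [Finite G] (N : Subgroup G) [N.Normal]
    (h : ∀ x : G, x ∉ N → IsPrimePow (orderOf x)) {x : G} (hx : x ∉ N) {p k : ℕ} (hp : p.Prime)
    (ho : orderOf x = p ^ k) : IsPGroup p (centralizer ({x} : Set G)) := by
  have : Fact p.Prime := ⟨hp⟩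
  rw [IsPGroup.iff_orderOf]
  intro y
  -- every prime divisor of the order of `y` is `p`
  have key : ∀ r : ℕ, r.Prime → r ∣ orderOf (y : G) → r = p := by
    intro r hr hry
    by_contra hrp
    set m := orderOf (y : G) / r with hm
    have hm0 : orderOf ((y : G) ^ m) = r := by
      have h1 : m ≠ 0 := by
        have : 0 < m := Nat.div_pos (Nat.le_of_dvd (orderOf_pos _) hry) hr.pos
        omega
      rw [orderOf_pow_of_dvd h1 (Nat.div_dvd_of_dvd hry)]
      exact Nat.div_div_self hry (orderOf_pos _).ne'
    set z := (y : G) ^ m with hz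
    have hzx : z * x = x * z := by
      have : z ∈ centralizer ({x} : Set G) := Subgroup.pow_mem _ y.2 m
      exact (Subgroup.mem_centralizer_singleton_iff.1 this)
    have hcop : (orderOf x).Coprime (orderOf z) := by
      rw [ho, hm0]
      exact Nat.Coprime.pow_left _ ((Nat.coprime_primes hp hr).2 (Ne.symm hrp))
    have hord : orderOf (x * z) = orderOf x * orderOf z :=
      (show Commute x z from hzx.symm).orderOf_mul_eq_mul_orderOf_of_coprime hcop
    by_cases hxz : x * z ∈ N
    · -- then `x ^ r ∈ N`
      have h1 : (x * z) ^ r ∈ N := N.pow_mem hxz r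
      rw [(show Commute x z from hzx.symm).mul_pow, ← hm0, pow_orderOf_eq_one, mul_one, hm0] at h1
      apply hx
      have h2 : x ∈ zpowers (x ^ r) := by
        have h3 : (orderOf x).Coprime r := hm0 ▸ hcop
        have h5 : Nat.card (zpowers (x ^ r)) = Nat.card (zpowers x) := by
          rw [Nat.card_zpowers, Nat.card_zpowers]
          exact h3.orderOf_pow
        have h6 : zpowers (x ^ r) = zpowers x := by
          apply Subgroup.eq_of_le_of_card_ge
          · rw [Subgroup.zpowers_le]
            exact Subgroup.pow_mem _ (mem_zpowers x) r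
          · rw [h5]
        rw [h6]
        exact mem_zpowers x
      exact (Subgroup.zpowers_le.2 h1) h2
    · have h1 := h _ hxz
      rw [hord, hm0] at h1
      obtain ⟨q, j, hq, hj, hqj⟩ := h1
      have hq' : q.Prime := Nat.prime_iff.2 hq
      have hk : k ≠ 0 := by
        rintro rfl
        rw [pow_zero, orderOf_eq_one_iff] at ho
        exact hx (ho ▸ N.one_mem)
      have h2 : p ∣ q ^ j := hqj ▸ (ho ▸ (dvd_pow_self p hk)).mul_right r
      have h3 : r ∣ q ^ j := hqj ▸ dvd_mul_left r _
      have h4 := (Nat.prime_dvd_prime_iff_eq hp hq').1 (hp.dvd_of_dvd_pow h2)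
      have h5 := (Nat.prime_dvd_prime_iff_eq hr hq').1 (hr.dvd_of_dvd_pow h3)
      exact hrp (h5.trans h4.symm)
  rw [Subgroup.orderOf_coe] at key
  exact ⟨_, Nat.eq_prime_pow_of_unique_prime_dvd (orderOf_pos _).ne' (fun {d} hd hdd => key d hd hdd)⟩

/-- Let N be a proper normal subgroup of the finite group G such that every element x of G outside N has prime power order and has centralizer C_G(x) a maximal subgroup of G. Then N is solvable. -/
theorem result {G : Type*} [Group G] [Finite G] (N : Subgroup G) [N.Normal] (hN : N ≠ ⊤)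
    (h : ∀ x : G, x ∉ N → IsPrimePow (orderOf x) ∧ IsCoatom (Subgroup.centralizer ({x} : Set G))) : Group.IsSolvable ↥N := by
  classical
  suffices hG : Group.IsSolvable G by infer_instance
  by_contra hns
  -- every element outside `N` is a `2`-element, its centralizer a Sylow `2`-subgroup
  have h1 : ∀ x : G, x ∉ N → ∃ P : Sylow 2 G, (P : Subgroup G) = centralizer ({x} : Set G) := by
    intro x hx
    obtain ⟨hpp, hco⟩ := h x hx
    obtain ⟨p, k, hp, hk, hpk⟩ := hpp
    have hp' : p.Prime := Nat.prime_iff.2 hp
    have : Fact p.Prime := ⟨hp'⟩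
    have hpg := isPGroup_centralizer N (fun y hy => (h y hy).1) hx hp' hpk.symm
    by_cases hp2 : p = 2
    · subst hp2
      exact exists_sylow_eq _ hco hpg hns
    · exact absurd (isSolvable_of_odd hp2 _ rfl _ hco hpg) hns
  choose f hf using fun x : {x : G // x ∉ N} => h1 x.1 x.2
  have : Fintype G := Fintype.ofFinite G
  have : Fintype (Sylow 2 G) := Fintype.ofFinite _
  obtain ⟨P⟩ : Nonempty (Sylow 2 G) := inferInstance
  -- the centre of a Sylow subgroup
  let Z : Sylow 2 G → Subgroup G := fun Q => (Q : Subgroup G) ⊓ centralizer ((Q : Subgroup G) : Set G)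
  have hZ : ∀ Q : Sylow 2 G, Nat.card (Z Q) = Nat.card (Z P) := by
    intro Q
    obtain ⟨g, hg⟩ := MulAction.exists_smul_eq G P Q
    have h2 : Z Q = (Z P).map (MulAut.conj g).toMonoidHom := by
      rw [← hg]
      ext y
      have hmem : ∀ w : G, w ∈ ((g • P : Sylow 2 G) : Subgroup G) ↔ g⁻¹ * w * g ∈ (P : Subgroup G) := by
        intro w
        have : w ∈ ((g • P : Sylow 2 G) : Subgroup G) ↔ (MulAut.conj g)⁻¹ • w ∈ (P : Subgroup G) := by
          exact Subgroup.mem_pointwise_smul_iff_inv_smul_mem
        rw [this]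
        simp [mul_assoc]
      simp only [Z, Subgroup.mem_inf, hmem, mem_centralizer_iff, SetLike.mem_coe]
      constructor
      · rintro ⟨h3, h4⟩
        refine ⟨g⁻¹ * y * g, ⟨h3, ?_⟩, by simp [mul_assoc]⟩
        intro w hw
        have h5 := h4 (g * w * g⁻¹) (by
          have : g⁻¹ * (g * w * g⁻¹) * g = w := by simp [mul_assoc]
          rw [this]; exact hw)
        have h6 : g⁻¹ * (g * w * g⁻¹ * y) * g = g⁻¹ * (y * (g * w * g⁻¹)) * g := by rw [h5]
        simpa [mul_assoc] using h6
      · rintro ⟨z, ⟨h3, h4⟩, rfl⟩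
        have h5 : (MulAut.conj g).toMonoidHom z = g * z * g⁻¹ := by simp
        rw [h5]
        refine ⟨by
          have : g⁻¹ * (g * z * g⁻¹) * g = z := by simp [mul_assoc]
          rw [this]; exact h3, ?_⟩
        intro w hw
        have h6 := h4 (g⁻¹ * w * g) hw
        have h7 : g * (g⁻¹ * w * g * z) * g⁻¹ = g * (z * (g⁻¹ * w * g)) * g⁻¹ := by rw [h6]
        simpa [mul_assoc] using h7
    rw [h2, Subgroup.card_map_of_injective (MulAut.conj g).injective]
  -- count the elements outside `N`
  have hcount : Fintype.card {x : G // x ∉ N} ≤ (Nat.card (Z P) - 1) * Fintype.card (Sylow 2 G) := by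
    have := Finset.card_le_mul_card_image_of_maps_to
      (s := (Finset.univ : Finset {x : G // x ∉ N})) (t := (Finset.univ : Finset (Sylow 2 G)))
      (f := f) (fun _ _ => Finset.mem_univ _) (Nat.card (Z P) - 1) ?_
    · simpa using this
    · intro Q _
      rw [← hZ Q]
      have hsub : (Finset.univ.filter fun a : {x : G // x ∉ N} => f a = Q).image Subtype.val ⊆
          ((Z Q : Set G).toFinite.toFinset).erase 1 := by
        intro y hy
        rw [Finset.mem_image] at hy
        obtain ⟨⟨a, ha⟩, haQ, rfl⟩ := hy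
        rw [Finset.mem_filter] at haQ
        have h2 := hf ⟨a, ha⟩
        rw [haQ.2] at h2
        rw [Finset.mem_erase, Set.Finite.mem_toFinset]
        refine ⟨fun h1 => ha (by
          have h1' : a = 1 := h1
          rw [h1']; exact N.one_mem), ?_, ?_⟩
        · change a ∈ (Q : Subgroup G)
          rw [h2]
          exact Subgroup.mem_centralizer_singleton_iff.2 rfl
        · change a ∈ centralizer ((Q : Subgroup G) : Set G)
          rw [mem_centralizer_iff, h2]
          intro w hw
          exact (Subgroup.mem_centralizer_singleton_iff.1 hw)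
      have h2 := Finset.card_le_card hsub
      rw [Finset.card_image_of_injective _ Subtype.val_injective] at h2
      refine h2.trans ?_
      rw [Finset.card_erase_of_mem (by rw [Set.Finite.mem_toFinset]; exact (Z Q).one_mem)]
      have h3 : ((Z Q : Set G).toFinite.toFinset).card = Nat.card (Z Q) := by
        rw [← Set.ncard_eq_toFinset_card]
        rfl
      rw [h3]
  have hN2 : Nat.card G ≤ 2 * Fintype.card {x : G // x ∉ N} := by
    have h2 : Fintype.card {x : G // x ∉ N} = Nat.card G - Nat.card N := by
      have h3 := Fintype.card_subtype_compl (fun x : G => x ∈ N)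
      rw [Nat.card_eq_fintype_card (α := G), Nat.card_eq_fintype_card (α := N)]
      exact h3
    have h3 : Nat.card N * N.index = Nat.card G := N.card_mul_index
    have h4 : 2 ≤ N.index := by
      have h5 : N.index ≠ 0 := Subgroup.index_ne_zero_of_finite
      have h6 : N.index ≠ 1 := fun h => hN (Subgroup.index_eq_one.1 h)
      omega
    rw [h2]
    have : Nat.card N * 2 ≤ Nat.card G := by
      rw [← h3]
      exact Nat.mul_le_mul_left _ h4
    omega
  have hsyl : Fintype.card (Sylow 2 G) * Nat.card P ≤ Nat.card G := by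
    have h2 : Fintype.card (Sylow 2 G) = (normalizer ((P : Subgroup G) : Set G)).index := by
      rw [← Nat.card_eq_fintype_card]
      exact Sylow.card_eq_index_normalizer P
    rw [h2]
    have h3 : (normalizer ((P : Subgroup G) : Set G)).index ≤ (P : Subgroup G).index :=
      Nat.le_of_dvd (Nat.pos_of_ne_zero Subgroup.index_ne_zero_of_finite)
        (Subgroup.index_dvd_of_le Subgroup.le_normalizer)
    calc _ ≤ (P : Subgroup G).index * Nat.card P := Nat.mul_le_mul_right _ h3
      _ = Nat.card G := Subgroup.index_mul_card _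
  have hZ1 : 1 ≤ Nat.card (Z P) := Nat.card_pos
  have hS1 : 0 < Fintype.card (Sylow 2 G) := Fintype.card_pos
  have hlt : Nat.card P < 2 * Nat.card (Z P) := by
    by_contra hcon
    push Not at hcon
    have h2 : Fintype.card (Sylow 2 G) * (2 * Nat.card (Z P)) ≤
        2 * ((Nat.card (Z P) - 1) * Fintype.card (Sylow 2 G)) :=
      calc _ ≤ Fintype.card (Sylow 2 G) * Nat.card P := Nat.mul_le_mul_left _ hcon
        _ ≤ Nat.card G := hsyl
        _ ≤ 2 * Fintype.card {x : G // x ∉ N} := hN2
        _ ≤ _ := Nat.mul_le_mul_left _ hcount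
    obtain ⟨c, hc⟩ : ∃ c, Nat.card (Z P) = c + 1 := ⟨_, (Nat.sub_add_cancel hZ1).symm⟩
    rw [hc] at h2
    simp only [Nat.add_sub_cancel] at h2
    nlinarith
  have hZP : Z P = P := by
    apply Subgroup.eq_of_le_of_card_ge inf_le_left
    obtain ⟨c, hc⟩ := Subgroup.card_dvd_of_le (inf_le_left : Z P ≤ P)
    have h3 : Nat.card P = Nat.card (Z P) * c := hc
    have h4 : c = 1 := by
      have h5 : c ≠ 0 := by
        rintro rfl
        rw [mul_zero] at h3
        exact Nat.card_pos.ne' h3
      have h6 : c < 2 := by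
        rw [h3, mul_comm 2] at hlt
        exact Nat.lt_of_mul_lt_mul_left hlt
      omega
    rw [h4, mul_one] at h3
    exact h3.le
  have hab : ∀ x ∈ (P : Subgroup G), ∀ y ∈ (P : Subgroup G), x * y = y * x := by
    intro x hx y hy
    have h2 : y ∈ Z P := by rw [hZP]; exact hy
    exact mem_centralizer_iff.1 h2.2 x hx
  -- `P` is maximal
  obtain ⟨x, hx⟩ : ∃ x : G, x ∉ N := by
    by_contra hcon
    push Not at hcon
    exact hN (eq_top_iff.2 fun x _ => hcon x)
  obtain ⟨Q, hQ⟩ := h1 x hx
  have hZQ : ∀ a ∈ (Q : Subgroup G), ∀ b ∈ (Q : Subgroup G), a * b = b * a := by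
    have h2 : Z Q = Q := by
      apply Subgroup.eq_of_le_of_card_ge inf_le_left
      rw [hZ Q, hZP]
      exact (Sylow.card_eq_multiplicity Q).le.trans (Sylow.card_eq_multiplicity P).ge
    intro a ha b hb
    have h3 : b ∈ Z Q := by rw [h2]; exact hb
    exact mem_centralizer_iff.1 h3.2 a ha
  exact hns (isSolvable_of_comm (Q : Subgroup G) (hQ ▸ (h x hx).2) Q.isPGroup' hZQ)

end Cfsg.Agent.S3903
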