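import Cfsg.Statements.S3904
import Cfsg.Agent.H476.MaxCentFrob

set_option autoImplicit false
open Cfsg

namespace Cfsg.Agent.S3904

open Cfsg.Agent.H476.MaxCentralizer Pointwise

theorem centralizer_top_eq {G : Type*} [Group G] :
    Subgroup.centralizer ((⊤ : Subgroup G) : Set G) = Subgroup.center G := by
  rw [Subgroup.coe_top, Subgroup.centralizer_univ]

/-- Let G be a non-abelian finite group in which the centralizer of every non-central element is a maximal subgroup. Then G/Z(G) is either an elementary abelian p-group for some prime p, or a minimal non-abelian group (non-abelian with all proper subgroups abelian) of order p^a · q for distinct primes p, q with a normal Sylow p-subgroup. -/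
theorem result {G : Type*} [Group G] [Finite G] (hna : ¬ IsMulCommutative G)
    (h : ∀ x : G, x ∉ Subgroup.center G → IsCoatom (Subgroup.centralizer ({x} : Set G))) :
    (∃ p : ℕ, p.Prime ∧ Cfsg.IsElementaryAbelian p (⊤ : Subgroup (G ⧸ Subgroup.center G))) ∨
    (¬ IsMulCommutative (G ⧸ Subgroup.center G) ∧ (∀ H : Subgroup (G ⧸ Subgroup.center G), H ≠ ⊤ → IsMulCommutative ↥H) ∧
      ∃ p q a : ℕ, p.Prime ∧ q.Prime ∧ p ≠ q ∧ Nat.card (G ⧸ Subgroup.center G) = p ^ a * q ∧
        ∀ P : Subgroup (G ⧸ Subgroup.center G), Nat.card ↥P = p ^ a → P.Normal) := by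
  classical
  have h' : ∀ x : G, x ∈ (⊤ : Subgroup G) → x ∉ Subgroup.centralizer ((⊤ : Subgroup G) : Set G) →
      IsCoatom (Subgroup.centralizer ({x} : Set G)) := by
    intro x _ hx
    rw [centralizer_top_eq] at hx
    exact h x hx
  set f := QuotientGroup.mk' (Subgroup.center G) with hf
  have hker : ∀ n : G, f n = 1 ↔ n ∈ Subgroup.center G := fun n => QuotientGroup.eq_one_iff n
  have hsurj : Function.Surjective f := QuotientGroup.mk'_surjective _
  by_cases hab : ∀ x ∈ (⊤ : Subgroup G), x ∈ Subgroup.centralizer ((Subgroup.normalClosure {x} : Subgroup G) : Set G) ∨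
      x ∈ Subgroup.centralizer ((⊤ : Subgroup G) : Set G)
  · left
    obtain ⟨p, hp, hexp, hcomm⟩ := abelian_case ⊤ h' hab
    rw [centralizer_top_eq] at hexp hcomm
    refine ⟨p, hp, ⟨⟨?_⟩⟩, ?_⟩
    · rintro ⟨a, -⟩ ⟨b, -⟩
      apply Subtype.ext
      obtain ⟨a, rfl⟩ := hsurj a
      obtain ⟨b, rfl⟩ := hsurj b
      change f a * f b = f b * f a
      have h1 := (hker (a * b * a⁻¹ * b⁻¹)).2 (hcomm (Subgroup.commutator_mem_commutator (Subgroup.mem_top a) (Subgroup.mem_top b)))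
      rw [map_mul, map_mul, map_mul, map_inv, map_inv, mul_inv_eq_one, mul_inv_eq_iff_eq_mul] at h1
      exact h1
    · intro a _
      obtain ⟨a, rfl⟩ := hsurj a
      rw [← map_pow]
      exact (hker _).2 (hexp a (Subgroup.mem_top a))
  right
  push Not at hab
  obtain ⟨x, hx, hxc, -⟩ := hab
  obtain ⟨S, hSn, -, hSc, ⟨p, hp, hexp⟩, hScomm, ⟨q, hq, hxq⟩, hfix, hdec⟩ := nonabelian_case ⊤ h' x hx hxc
  rw [centralizer_top_eq] at hSc hxq
  simp only [centralizer_top_eq] at hexp hfix hdec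
  set K : Subgroup (G ⧸ Subgroup.center G) := S.map f with hK
  have hKn : K.Normal := hSn.map f hsurj
  have hKbot : K ≠ ⊥ := by
    intro h1
    apply hSc
    intro s hs
    have h2 : f s ∈ K := ⟨s, hs, rfl⟩
    rw [h1, Subgroup.mem_bot] at h2
    exact (hker _).1 h2
  set xb := f x with hxb
  have hxb1 : xb ^ q = 1 := by
    rw [hxb, ← map_pow]
    exact (hker _).2 hxq
  have hsup : K ⊔ Subgroup.zpowers xb = ⊤ := by
    rw [eq_top_iff]
    intro g _
    obtain ⟨n, rfl⟩ := hsurj g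
    obtain ⟨s, hs, w, hw, z, hz, hn⟩ := hdec n (Subgroup.mem_top n)
    obtain ⟨k, rfl⟩ := Subgroup.mem_zpowers_iff.1 hw
    rw [hn, map_mul, map_mul, map_zpow, (hker z).2 hz, mul_one]
    exact Subgroup.mul_mem _ (Subgroup.mem_sup_left ⟨s, hs, rfl⟩)
      (Subgroup.mem_sup_right (Subgroup.mem_zpowers_iff.2 ⟨k, rfl⟩))
  have hfix' : ∀ v ∈ K, v * xb = xb * v → v = 1 := by
    rintro _ ⟨s, hs, rfl⟩ hvx
    apply (hker _).2
    apply hfix s hs
    have h1 : f (s * x * s⁻¹ * x⁻¹) = 1 := by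
      rw [map_mul, map_mul, map_mul, map_inv, map_inv, ← hxb, hvx]
      group
    exact (hker _).1 h1
  obtain ⟨hF, hcard, hkernel⟩ := H476.FrobSimple.frobenius_of_fpf K xb q hq hxb1 hKbot hsup hfix'
  set Q := Subgroup.zpowers xb with hQ
  have hKcomm : ∀ a ∈ K, ∀ b ∈ K, a * b = b * a := by
    rintro _ ⟨a, ha, rfl⟩ _ ⟨b, hb, rfl⟩
    rw [← map_mul, ← map_mul, hScomm a ha b hb]
  have hKexp : ∀ a ∈ K, a ^ p = 1 := by
    rintro _ ⟨a, ha, rfl⟩
    rw [← map_pow]
    exact (hker _).2 (hexp a ha)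
  have hxQ : xb ∈ Q := Subgroup.mem_zpowers xb
  obtain ⟨v₀, hv₀, hv₀1⟩ : ∃ v ∈ K, v ≠ 1 := by
    obtain ⟨a, ha⟩ := Subgroup.ne_bot_iff_exists_ne_one.1 hKbot
    exact ⟨a, a.2, fun h => ha (Subtype.ext h)⟩
  -- nontrivial elements of `Q` generate `Q`
  have hgen : ∀ w ∈ Q, w ≠ 1 → Subgroup.zpowers w = Q := by
    intro w hw hw1
    apply Subgroup.eq_of_le_of_card_ge (Subgroup.zpowers_le.2 hw)
    rw [hcard, Nat.card_zpowers]
    have h1 : orderOf w ∣ q := by rw [← hcard]; exact Subgroup.orderOf_dvd_natCard _ hw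
    rcases (Nat.dvd_prime hq).1 h1 with h2 | h2
    · exact absurd (orderOf_eq_one_iff.1 h2) hw1
    · exact h2.ge
  have hmemconj : ∀ g y : G ⧸ Subgroup.center G, y ∈ MulAut.conj g • Q ↔ g⁻¹ * y * g ∈ Q := by
    intro g y
    rw [Subgroup.mem_pointwise_smul_iff_inv_smul_mem, ← map_inv, MulAut.smul_def, MulAut.conj_apply, inv_inv]
  -- elements commuting with a nontrivial element of `Q` are in `Q`
  have hcentQ : ∀ w ∈ Q, w ≠ 1 → ∀ c : G ⧸ Subgroup.center G, c * w = w * c → c ∈ Q := by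
    intro w hw hw1 c hc
    by_contra hcQ
    have h1 := hF.2.2 c hcQ
    apply hw1
    have h2 : w ∈ Q ⊓ (MulAut.conj c • Q) := by
      refine Subgroup.mem_inf.2 ⟨hw, ?_⟩
      rw [hmemconj]
      have : c⁻¹ * w * c = w := by rw [mul_assoc, ← hc, inv_mul_cancel_left]
      rw [this]; exact hw
    rw [h1, Subgroup.mem_bot] at h2
    exact h2
  haveI : Fact p.Prime := ⟨hp⟩
  haveI : Fact q.Prime := ⟨hq⟩
  have hKp : IsPGroup p K := fun a => ⟨1, Subtype.ext (by rw [pow_one]; exact hKexp a a.2)⟩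
  obtain ⟨a, ha⟩ := (IsPGroup.iff_card).1 hKp
  have hKQ : K ⊓ Q = ⊥ := by
    rw [eq_bot_iff]
    intro w hw
    obtain ⟨h1, h2⟩ := Subgroup.mem_inf.1 hw
    rw [Subgroup.mem_bot]
    apply hfix' w h1
    obtain ⟨k, rfl⟩ := Subgroup.mem_zpowers_iff.1 h2
    exact (Commute.zpow_left (Commute.refl xb) k).eq
  have hcompl : K.IsComplement' Q := by
    apply Subgroup.isComplement'_of_disjoint_and_mul_eq_univ
    · exact disjoint_iff.2 hKQ
    · rw [Set.eq_univ_iff_forall]
      intro g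
      have hg : g ∈ K ⊔ Q := by rw [hsup]; exact Subgroup.mem_top g
      rw [Subgroup.mem_sup_of_normal_left] at hg
      obtain ⟨s, hs, m, hm, h⟩ := hg
      exact ⟨s, hs, m, hm, h⟩
  have hcardG : Nat.card (G ⧸ Subgroup.center G) = p ^ a * q := by
    rw [← hcompl.card_mul_card, ha, hcard]
  have hxb1' : xb ≠ 1 := by
    intro h1
    apply hv₀1
    apply hfix' v₀ hv₀
    rw [h1, mul_one, one_mul]
  -- `p ≠ q`
  have hpq : p ≠ q := by
    rintro rfl
    have hG : IsPGroup p (G ⧸ Subgroup.center G) := by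
      apply IsPGroup.of_card (n := a + 1)
      rw [hcardG, pow_succ]
    haveI : Nontrivial (G ⧸ Subgroup.center G) := ⟨⟨xb, 1, hxb1'⟩⟩
    have h1 := hG.center_nontrivial
    obtain ⟨⟨z, hz⟩, hz1⟩ := exists_ne (1 : Subgroup.center (G ⧸ Subgroup.center G))
    have hz1' : z ≠ 1 := fun h => hz1 (Subtype.ext h)
    have h2 : z ∈ Q := hcentQ xb hxQ hxb1' z (Subgroup.mem_center_iff.1 hz xb).symm
    have h3 : v₀ ∈ Q := hcentQ z h2 hz1' v₀ (Subgroup.mem_center_iff.1 hz v₀)
    have h4 : v₀ ∈ K ⊓ Q := Subgroup.mem_inf.2 ⟨hv₀, h3⟩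
    rw [hKQ] at h4
    exact hv₀1 (Subgroup.mem_bot.1 h4)
  refine ⟨?_, ?_, p, q, a, hp, hq, hpq, hcardG, ?_⟩
  · intro hc
    exact hv₀1 (hfix' v₀ hv₀ (hc.is_comm.comm _ _))
  · intro A hA
    by_cases hAK : A ≤ K
    · refine ⟨⟨?_⟩⟩
      rintro ⟨b, hb⟩ ⟨c, hc⟩
      exact Subtype.ext (hKcomm b (hAK hb) c (hAK hc))
    obtain ⟨b, hb, hbK⟩ := SetLike.not_le_iff_exists.1 hAK
    have hbK' : b ∉ (K : Set (G ⧸ Subgroup.center G)) := hbK
    rw [hkernel] at hbK'
    change ¬ (b = 1 ∨ ∀ g, b ∉ MulAut.conj g • Q) at hbK'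
    push Not at hbK'
    obtain ⟨hb1, g, hg⟩ := hbK'
    rw [hmemconj] at hg
    obtain ⟨b', rfl⟩ := hsurj b
    have hb'c : b' ∉ Subgroup.center G := fun h1 => hb1 ((hker b').2 h1)
    have hM := h b' hb'c
    -- the centralizer of `b'` maps into `⟨b⟩`
    have hle : ∀ c ∈ Subgroup.centralizer ({b'} : Set G), f c ∈ Subgroup.zpowers (f b') := by
      intro c hc
      have h1 : c * b' = b' * c := mem_cz.1 hc
      have h2 : g⁻¹ * f b' * g ≠ 1 := by
        intro h3
        apply hb1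
        have h4 : f b' = g * (g⁻¹ * f b' * g) * g⁻¹ := by group
        rw [h4, h3]; group
      have h3 : g⁻¹ * f c * g ∈ Q := by
        apply hcentQ _ hg h2
        have h4 : f c * f b' = f b' * f c := by rw [← map_mul, ← map_mul, h1]
        calc g⁻¹ * f c * g * (g⁻¹ * f b' * g) = g⁻¹ * (f c * f b') * g := by group
          _ = g⁻¹ * (f b' * f c) * g := by rw [h4]
          _ = _ := by group
      rw [← hgen _ hg h2, Subgroup.mem_zpowers_iff] at h3
      obtain ⟨k, hk⟩ := h3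
      rw [Subgroup.mem_zpowers_iff]
      refine ⟨k, ?_⟩
      have h5 : g * (g⁻¹ * f b' * g) ^ k * g⁻¹ = f c := by rw [hk]; group
      rw [← h5]
      have h6 := conj_zpow (i := k) (a := g⁻¹) (b := f b')
      rw [inv_inv] at h6
      rw [h6]; group
    have hle2 : Subgroup.centralizer ({b'} : Set G) ≤ A.comap f := by
      intro c hc
      exact (Subgroup.zpowers_le.2 hb) (hle c hc)
    have heq : A.comap f = Subgroup.centralizer ({b'} : Set G) := by
      rcases hM.le_iff.1 hle2 with h1 | h1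
      · exfalso
        apply hA
        rw [← Subgroup.map_comap_eq_self_of_surjective hsurj A, h1, Subgroup.map_top_of_surjective _ hsurj]
      · exact h1
    have hAz : A ≤ Subgroup.zpowers (f b') := by
      intro c hc
      obtain ⟨c', rfl⟩ := hsurj c
      have : c' ∈ A.comap f := hc
      rw [heq] at this
      exact hle c' this
    refine ⟨⟨?_⟩⟩
    rintro ⟨c, hc⟩ ⟨d, hd⟩
    obtain ⟨i, hi⟩ := Subgroup.mem_zpowers_iff.1 (hAz hc)
    obtain ⟨j, hj⟩ := Subgroup.mem_zpowers_iff.1 (hAz hd)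
    apply Subtype.ext
    change c * d = d * c
    rw [← hi, ← hj, ← zpow_add, ← zpow_add, add_comm]
  · intro P hP
    have hPK : P = K := by
      apply Subgroup.eq_of_le_of_card_ge _ (by rw [hP, ha])
      intro y hy
      have h1 : y ^ p ^ a = 1 := by
        have := Subgroup.orderOf_dvd_natCard P hy
        rw [hP] at this
        exact orderOf_dvd_iff_pow_eq_one.1 this
      have hyg : y ∈ K ⊔ Q := by rw [hsup]; exact Subgroup.mem_top y
      -- in the quotient by `K`
      set g := QuotientGroup.mk' K with hg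
      have h2 : (g y) ^ p ^ a = 1 := by rw [← map_pow, h1, map_one]
      have h3 : (g y) ^ q = 1 := by
        have h4 : Nat.card ((G ⧸ Subgroup.center G) ⧸ K) = q := by
          rw [← Subgroup.index_eq_card, hcompl.symm.index_eq_card, hcard]
        rw [← h4]
        exact pow_card_eq_one'
      have h4 : orderOf (g y) ∣ Nat.gcd (p ^ a) q :=
        Nat.dvd_gcd (orderOf_dvd_of_pow_eq_one h2) (orderOf_dvd_of_pow_eq_one h3)
      have h5 : Nat.gcd (p ^ a) q = 1 := Nat.Coprime.pow_left a ((Nat.coprime_primes hp hq).2 hpq)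
      rw [h5, Nat.dvd_one, orderOf_eq_one_iff] at h4
      exact (QuotientGroup.eq_one_iff y).1 h4
    rw [hPK]; exact hKn

end Cfsg.Agent.S3904
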