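import Cfsg.Statements.S3905
import Cfsg.Agent.H476.MaxCentFrob

set_option autoImplicit false
open Cfsg

namespace Cfsg.Agent.S3905

/-- Let N be a normal subgroup of the finite group G such that for every element x of N outside the center of N the centralizer C_G(x) is a maximal subgroup of G. Then N/Z(N) is either an elementary abelian p-group for some prime p, or a Frobenius group whose kernel is an elementary abelian normal subgroup and whose complement has prime order. -/
theorem result {G : Type*} [Group G] [Finite G] (N : Subgroup G) [N.Normal]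
    (h : ∀ x : G, x ∈ N → x ∉ Subgroup.centralizer (N : Set G) → IsCoatom (Subgroup.centralizer ({x} : Set G))) :
    (∃ p : ℕ, p.Prime ∧ Cfsg.IsElementaryAbelian p (⊤ : Subgroup (↥N ⧸ Subgroup.center ↥N))) ∨
    (∃ (Q K : Subgroup (↥N ⧸ Subgroup.center ↥N)) (p : ℕ), p.Prime ∧ Cfsg.IsFrobeniusComplement Q ∧ (Nat.card ↥Q).Prime ∧
      K.Normal ∧ (K : Set (↥N ⧸ Subgroup.center ↥N)) = Cfsg.frobeniusKernel Q ∧ Cfsg.IsElementaryAbelian p K) := by
  by_cases hab : ∀ x ∈ N, x ∈ Subgroup.centralizer ((Subgroup.normalClosure {x} : Subgroup G) : Set G) ∨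
      x ∈ Subgroup.centralizer (N : Set G)
  · left
    obtain ⟨p, hp, hexp, hcomm⟩ := H476.MaxCentralizer.abelian_case N h hab
    have hker : ∀ n : N, (QuotientGroup.mk n : ↥N ⧸ Subgroup.center ↥N) = 1 ↔
        (n : G) ∈ Subgroup.centralizer (N : Set G) := by
      intro n
      rw [QuotientGroup.eq_one_iff, Subgroup.mem_center_iff, Subgroup.mem_centralizer_iff]
      constructor
      · intro h1 g hg
        exact congrArg Subtype.val (h1 ⟨g, hg⟩)
      · intro h1 g
        exact Subtype.ext (h1 g g.2)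
    refine ⟨p, hp, ⟨⟨?_⟩⟩, ?_⟩
    · rintro ⟨a, -⟩ ⟨b, -⟩
      apply Subtype.ext
      obtain ⟨a, rfl⟩ := QuotientGroup.mk_surjective a
      obtain ⟨b, rfl⟩ := QuotientGroup.mk_surjective b
      change (QuotientGroup.mk a * QuotientGroup.mk b : ↥N ⧸ Subgroup.center ↥N) =
        QuotientGroup.mk b * QuotientGroup.mk a
      have h1 := (hker (a * b * a⁻¹ * b⁻¹)).2 (hcomm (Subgroup.commutator_mem_commutator a.2 b.2))
      rw [QuotientGroup.mk_mul, QuotientGroup.mk_mul, QuotientGroup.mk_mul, QuotientGroup.mk_inv,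
        QuotientGroup.mk_inv, mul_inv_eq_one, mul_inv_eq_iff_eq_mul] at h1
      exact h1
    · intro a _
      obtain ⟨a, rfl⟩ := QuotientGroup.mk_surjective a
      rw [← QuotientGroup.mk_pow]
      exact (hker _).2 (hexp a a.2)
  · right
    push Not at hab
    obtain ⟨x, hx, hx1, -⟩ := hab
    obtain ⟨Q, K, p, h1, h2, h3, h4, h5, h6, -⟩ := H476.MaxCentralizer.frobenius_quotient N h x hx hx1
    exact ⟨Q, K, p, h1, h2, h3, h4, h5, h6⟩

end Cfsg.Agent.S3905
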