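import Cfsg.Statements.S3907
import Cfsg.Agent.H476.SpMain

set_option autoImplicit false
open Cfsg

namespace Cfsg.Agent.S3907

/-- Let p be a prime and let k ≥ 3 and c ≥ 0 be integers. There is a bound B depending only on p, k and c such that the following holds for every finite group G of order prime to p and every elementary abelian subgroup A of order p^k of the automorphism group of G: if, for every non-identity a ∈ A, the (k−2)-th term of the lower central series of the fixed-point subgroup C_G(a) (the first term being the whole group) is nilpotent of class at most c, then the (k−2)-th term of the lower central series of G is nilpotent of class at most B. -/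
theorem result (p k c : ℕ) (hp : p.Prime) (hk : 3 ≤ k) :
    ∃ B : ℕ, ∀ (G : Type) [Group G] [Finite G], (Nat.card G).Coprime p →
      ∀ A : Subgroup (MulAut G), Cfsg.IsElementaryAbelian p A → Nat.card ↥A = p ^ k →
        (∀ a ∈ A, a ≠ 1 → ((⊤ : Subgroup ↥((a : MulAut G).toMonoidHom.eqLocus (MonoidHom.id G))).lowerCentralSeries (k - 3)).lowerCentralSeries c = ⊥) →
        ((⊤ : Subgroup G).lowerCentralSeries (k - 3)).lowerCentralSeries B = ⊥ := by
  have hl : Cfsg.Agent.H476.Special.leaves (Cfsg.Agent.H476.Special.W true (k - 3)) + 2 ≤ k := by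
    rw [Cfsg.Agent.H476.Special.leaves_W_true]; omega
  obtain ⟨B, hB⟩ := Cfsg.Agent.H476.SpMain.class_ev p k c hp hk true (k - 3) hl
  refine ⟨B, fun G _ _ hG A hA hAc h => ?_⟩
  have h1 := hB G hG A hA hAc fun a ha ha1 => ?_
  · rwa [Cfsg.Agent.H476.Special.ev_W_true] at h1
  · rw [Cfsg.Agent.H476.Special.ev_W_true, 
      ← Subgroup.top_subtype_lowerCentralSeries ((a : MulAut G).toMonoidHom.eqLocus (MonoidHom.id G)) (k - 3),
      ← Subgroup.map_lowerCentralSeries, h a ha ha1, Subgroup.map_bot]

end Cfsg.Agent.S3907
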