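import Cfsg.Statements.S3909
import Cfsg.Agent.H477.Basic

set_option autoImplicit false
open Cfsg

namespace Cfsg.Agent.S3909

/-- Let G be a finite group in which any two abelian subgroups of the same order are conjugate. Let M be a normal subgroup of G. If M contains an element of the same order as a ∈ G, then a ∈ M; and if M is elementary abelian of order p^t with p prime and t ≥ 2, then M is the unique Sylow p-subgroup of G. -/
theorem result {G : Type*} [Group G] [Finite G] (hB : ∀ A B : Subgroup G, IsMulCommutative ↥A → IsMulCommutative ↥B → Nat.card ↥A = Nat.card ↥B → ∃ g : G, B = A.map (MulAut.conj g).toMonoidHom) (M : Subgroup G) [M.Normal] :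
    (∀ a : G, (∃ m ∈ M, orderOf m = orderOf a) → a ∈ M) ∧
    ∀ (p t : ℕ) [Fact p.Prime], 2 ≤ t → Nat.card ↥M = p ^ t → Cfsg.IsElementaryAbelian p M → ∀ P : Sylow p G, (P : Subgroup G) = M := by
  have hB' : Cfsg.Agent.H477.IsB G := hB
  refine ⟨fun a ⟨m, hm, h⟩ => hB'.mem_of_orderOf hm h, ?_⟩
  intro p t _ ht hM hE P
  exact hB'.eq_sylow ht hM hE.1 hE.2 P

end Cfsg.Agent.S3909
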