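import Cfsg.Statements.S3913
import Cfsg.Agent.H477.SolvB

set_option autoImplicit false
open Cfsg

namespace Cfsg.Agent.S3913

/-- If G is a finite solvable group in which any two abelian subgroups of the same order are conjugate, then any two subgroups of G of the same order are conjugate. -/
theorem result {G : Type*} [Group G] [Finite G] (hB : ∀ A B : Subgroup G, IsMulCommutative ↥A → IsMulCommutative ↥B → Nat.card ↥A = Nat.card ↥B → ∃ g : G, B = A.map (MulAut.conj g).toMonoidHom) (hsol : Group.IsSolvable G) (A B : Subgroup G)
    (h : Nat.card ↥A = Nat.card ↥B) : ∃ g : G, B = A.map (MulAut.conj g).toMonoidHom := by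
  have hB' : Cfsg.Agent.H477.IsB G := hB
  exact hB'.isC A B h

end Cfsg.Agent.S3913
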