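import Cfsg.Statements.S3917
import Cfsg.Agent.Transfer.PGroupNormal

set_option autoImplicit false
open Cfsg

namespace Cfsg.Agent.S3917

/-- Say that a group has self-centralizing non-cyclic subgroups when every non-cyclic subgroup H satisfies C_G(H) ≤ H. A finite abelian group with self-centralizing non-cyclic subgroups is cyclic or elementary abelian of order p² for a prime p. -/
theorem result {G : Type*} [CommGroup G] [Finite G] (hX : (∀ H : Subgroup G, ¬ IsCyclic ↥H → Subgroup.centralizer (H : Set G) ≤ H)) :
    IsCyclic G ∨ ∃ p : ℕ, p.Prime ∧ Nat.card G = p ^ 2 ∧ Monoid.exponent G = p := by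
  by_cases hc : IsCyclic G
  · exact Or.inl hc
  right
  have htop : ∀ H : Subgroup G, ¬ IsCyclic ↥H → H = ⊤ := by
    intro H hH
    have h1 := hX H hH
    rw [eq_top_iff]
    intro x _
    exact h1 (Subgroup.mem_centralizer_iff.2 fun y _ => mul_comm y x)
  -- some Sylow subgroup is not cyclic
  have hz : ¬ IsZGroup G := fun h => hc inferInstance
  rw [isZGroup_iff] at hz
  push Not at hz
  obtain ⟨p, hp, P, hP⟩ := hz
  have hPtop : (P : Subgroup G) = ⊤ := htop _ hP
  haveI : Fact p.Prime := ⟨hp⟩
  have hpG : IsPGroup p G := by
    have := P.isPGroup'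
    rw [hPtop] at this
    exact this.of_equiv Subgroup.topEquiv
  have hK : (powMonoidHom p : G →* G).ker = ⊤ := by
    apply htop
    intro hcy
    apply hc
    apply Cfsg.Agent.Transfer.PGroupNormal.isCyclic_of_card_ker_pow_le hpG
    obtain ⟨g, hg⟩ := hcy.exists_generator
    have h1 : Nat.card (powMonoidHom p : G →* G).ker = orderOf g :=
      (orderOf_eq_card_of_forall_mem_zpowers hg).symm
    rw [h1]
    apply Nat.le_of_dvd hp.pos
    apply orderOf_dvd_of_pow_eq_one
    have := g.2
    rw [MonoidHom.mem_ker] at this
    apply Subtype.ext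
    simpa using this
  have hexp : ∀ g : G, g ^ p = 1 := by
    intro g
    have : g ∈ (powMonoidHom p : G →* G).ker := by rw [hK]; trivial
    simpa [MonoidHom.mem_ker] using this
  obtain ⟨n, hn⟩ := hpG.exists_card_eq
  have hn2 : 2 ≤ n := by
    by_contra h
    push Not at h
    interval_cases n
    · apply hc
      haveI : Subsingleton G := (Nat.card_eq_one_iff_unique.1 (by simpa using hn)).1
      infer_instance
    · exact hc (isCyclic_of_prime_card (p := p) (by simpa using hn))
  refine ⟨p, hp, ?_, ?_⟩
  · obtain ⟨K, hK⟩ := Sylow.exists_subgroup_card_pow_prime (G := G) p (n := 2)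
      (by rw [hn]; exact pow_dvd_pow p hn2)
    have hKtop : K = ⊤ := by
      apply htop
      intro hcy
      obtain ⟨g, hg⟩ := hcy.exists_generator
      have h1 : Nat.card K = orderOf g := (orderOf_eq_card_of_forall_mem_zpowers hg).symm
      have h2 : orderOf g ∣ p := by
        apply orderOf_dvd_of_pow_eq_one
        apply Subtype.ext
        simpa using hexp (g : G)
      rw [← h1, hK] at h2
      have h3 := Nat.le_of_dvd hp.pos h2
      nlinarith [hp.two_le]
    rw [hKtop] at hK
    simpa using hK
  · have h1 : Monoid.exponent G ∣ p := Monoid.exponent_dvd_of_forall_pow_eq_one hexp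
    rcases (Nat.dvd_prime hp).1 h1 with h | h
    · exfalso
      apply hc
      haveI : Subsingleton G := Monoid.exp_eq_one_iff.1 h
      infer_instance
    · exact h

end Cfsg.Agent.S3917
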