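import Cfsg.Statements.S3918
import Cfsg.Agent.S0126
import Cfsg.Agent.Blocks.ClassScalar

set_option autoImplicit false
open Cfsg

namespace Cfsg.Agent.S3918

/-- A group of order `p` or `p ^ 2` or `1` is commutative. -/
theorem comm_of_card {G : Type*} [Group G] [Finite G] {p : ℕ} [Fact p.Prime] {k : ℕ} (hk : k ≤ 2)
    (h : Nat.card G = p ^ k) : IsMulCommutative G := by
  interval_cases k
  · have : Subsingleton G := (Nat.card_eq_one_iff_unique.1 (by simpa using h)).1
    exact ⟨⟨fun a b => Subsingleton.elim _ _⟩⟩
  · have : IsCyclic G := isCyclic_of_prime_card (p := p) (by simpa using h)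
    exact ⟨⟨fun a b => by
      let _ : CommGroup G := IsCyclic.commGroup
      exact mul_comm a b⟩⟩
  · exact IsPGroup.isMulCommutative_of_card_eq_prime_sq h

/-- Say that a group has self-centralizing non-cyclic subgroups when every non-cyclic subgroup H satisfies C_G(H) ≤ H. For an odd prime p, a finite non-abelian p-group has self-centralizing non-cyclic subgroups if and only if it has order p³. -/
theorem result {G : Type*} [Group G] [Finite G] {p : ℕ} [Fact p.Prime] (hp : p ≠ 2) (hG : IsPGroup p G) (hna : ¬ IsMulCommutative G) :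
    (∀ H : Subgroup G, ¬ IsCyclic ↥H → Subgroup.centralizer (H : Set G) ≤ H) ↔ Nat.card G = p ^ 3 := by
  have hp1 : p.Prime := Fact.out
  constructor
  · intro hX
    have hnc : ¬ IsCyclic G := fun h => hna ⟨⟨fun a b => by
      let _ : CommGroup G := IsCyclic.commGroup
      exact mul_comm a b⟩⟩
    obtain ⟨A, hAn, hAe, hAc⟩ := Cfsg.Agent.S0126.result hp hG hnc
    have hAnc : ¬ IsCyclic ↥A := by
      intro hcy
      obtain ⟨g, hg⟩ := hcy.exists_generator
      have h1 : Nat.card A = orderOf g := (orderOf_eq_card_of_forall_mem_zpowers hg).symm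
      have h2 : orderOf g ∣ p := by
        apply orderOf_dvd_of_pow_eq_one
        apply Subtype.ext
        simpa using hAe.2 (g : G) g.2
      rw [← h1, hAc] at h2
      have h3 := Nat.le_of_dvd hp1.pos h2
      nlinarith [hp1.two_le]
    have hAX := hX A hAnc
    have hAbot : A ≠ ⊥ := by
      rintro rfl
      rw [Subgroup.card_bot] at hAc
      have : 1 < p ^ 2 := Nat.one_lt_pow (by norm_num) hp1.one_lt
      omega
    obtain ⟨z, hzA, hzc, hzo⟩ :=
      Cfsg.Agent.Transfer.PGroupNormal.exists_mem_inf_center_orderOf hG A hAbot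
    have hzle : Subgroup.zpowers z ≤ A := Subgroup.zpowers_le.2 hzA
    have hzcard : Nat.card (Subgroup.zpowers z) = p := by rw [Nat.card_zpowers, hzo]
    have hne : ¬ A ≤ Subgroup.zpowers z := by
      intro h
      have := Subgroup.card_le_of_le h
      rw [hAc, hzcard] at this
      nlinarith [hp1.two_le]
    obtain ⟨a, haA, haz⟩ := SetLike.not_le_iff_exists.1 hne
    -- the centralizer of `a` centralizes `A`
    have hCA : Subgroup.centralizer ({a} : Set G) ≤ Subgroup.centralizer (A : Set G) := by
      intro x hx
      have h1 : A ⊓ Subgroup.centralizer ({x} : Set G) = A := by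
        have hmz : z ∈ A ⊓ Subgroup.centralizer ({x} : Set G) := by
          refine ⟨hzA, Subgroup.mem_centralizer_iff.2 ?_⟩
          intro y hy
          exact Subgroup.mem_center_iff.1 hzc y
        have hma : a ∈ A ⊓ Subgroup.centralizer ({x} : Set G) := by
          refine ⟨haA, Subgroup.mem_centralizer_iff.2 ?_⟩
          intro y hy
          rw [Set.mem_singleton_iff.1 hy]
          exact ((Subgroup.mem_centralizer_iff.1 hx) a rfl).symm
        have h2 : Nat.card ↥(A ⊓ Subgroup.centralizer ({x} : Set G)) ∣ p ^ 2 := by
          rw [← hAc]; exact Subgroup.card_dvd_of_le inf_le_left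
        obtain ⟨k, hk, hk2⟩ := (Nat.dvd_prime_pow hp1).1 h2
        have h3 : Subgroup.zpowers z < A ⊓ Subgroup.centralizer ({x} : Set G) := by
          refine lt_of_le_of_ne (Subgroup.zpowers_le.2 hmz) ?_
          intro h
          rw [← h] at hma
          exact haz hma
        have h4 : p < Nat.card ↥(A ⊓ Subgroup.centralizer ({x} : Set G)) := by
          rw [← hzcard]
          exact Set.Finite.card_lt_card (Set.toFinite _) h3
        rw [hk2] at h4
        have h5 : k = 2 := by
          have : 1 < k := by
            have : p ^ 1 < p ^ k := by simpa using h4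
            exact (Nat.pow_lt_pow_iff_right hp1.one_lt).1 this
          omega
        apply Subgroup.eq_of_le_of_card_ge inf_le_left
        rw [hk2, h5, hAc]
      rw [Subgroup.mem_centralizer_iff]
      intro y hy
      have : y ∈ A ⊓ Subgroup.centralizer ({x} : Set G) := by rw [h1]; exact hy
      exact ((Subgroup.mem_centralizer_iff.1 this.2) x rfl).symm
    -- the class of `a`
    have hidx : (Subgroup.centralizer ({a} : Set G)).index < p ^ 2 := by
      rw [Cfsg.Agent.Blocks.ClassScalar.index_centralizer]
      have h1 : {x : G | IsConj a x} ⊆ (A : Set G) \ {1} := by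
        intro x hx
        obtain ⟨g, rfl⟩ := isConj_iff.1 hx
        refine ⟨hAn.conj_mem a haA g, ?_⟩
        intro h
        apply haz
        have h2 : a = 1 := by
          have h3 : g * a * g⁻¹ = 1 := h
          have h4 := congrArg (fun t => g⁻¹ * t * g) h3
          simpa [mul_assoc] using h4
        rw [h2]; exact one_mem _
      have h2 : Nat.card {x : G // IsConj a x} ≤ Nat.card ↥((A : Set G) \ {1}) :=
        Nat.card_le_card_of_injective (fun x => ⟨x.1, h1 x.2⟩)
          (fun x y h => Subtype.ext (by simpa using h))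
      have h3 : Nat.card ↥((A : Set G) \ {1}) < Nat.card (A : Set G) :=
        Set.Finite.card_lt_card (Set.toFinite _)
          (Set.ssubset_iff_sdiff_singleton.2 ⟨1, one_mem A, subset_rfl⟩)
      have h4 : Nat.card (A : Set G) = p ^ 2 := hAc
      omega
    have hcardG := (Subgroup.centralizer ({a} : Set G)).index_mul_card
    obtain ⟨n, hn⟩ := hG.exists_card_eq
    have hid : (Subgroup.centralizer ({a} : Set G)).index ∣ p ^ n := by
      rw [← hn]; exact Subgroup.index_dvd_card _
    obtain ⟨k, hk, hk2⟩ := (Nat.dvd_prime_pow hp1).1 hid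
    rw [hk2] at hidx
    have hk1 : k < 2 := (Nat.pow_lt_pow_iff_right hp1.one_lt).1 hidx
    have hCc : Nat.card (Subgroup.centralizer ({a} : Set G)) ∣ p ^ 2 := by
      rw [← hAc]
      exact Subgroup.card_dvd_of_le (hCA.trans hAX)
    obtain ⟨l, hl, hl2⟩ := (Nat.dvd_prime_pow hp1).1 hCc
    rw [hk2, hl2, hn, ← pow_add] at hcardG
    have hkl : k + l = n := Nat.pow_right_injective hp1.two_le hcardG
    have hn3 : 3 ≤ n := by
      by_contra h
      exact hna (comm_of_card (p := p) (k := n) (by omega) hn)
    rw [hn]
    congr 1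
    omega
  · intro hc H hH
    by_contra hcon
    have hHd : Nat.card H ∣ p ^ 3 := by rw [← hc]; exact Subgroup.card_subgroup_dvd_card H
    obtain ⟨j, hj, hj2⟩ := (Nat.dvd_prime_pow hp1).1 hHd
    have hj3 : j = 2 := by
      have h0 : j ≠ 0 := by
        rintro rfl
        apply hH
        have : Subsingleton H := (Nat.card_eq_one_iff_unique.1 (by simpa using hj2)).1
        infer_instance
      have h1 : j ≠ 1 := by
        rintro rfl
        exact hH (isCyclic_of_prime_card (p := p) (by simpa using hj2))
      have h3 : j ≠ 3 := by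
        rintro rfl
        apply hcon
        have : H = ⊤ := Subgroup.eq_top_of_card_eq H (by rw [hj2, hc])
        rw [this]; exact le_top
      omega
    subst hj3
    have hHcomm : IsMulCommutative ↥H := IsPGroup.isMulCommutative_of_card_eq_prime_sq hj2
    have hle : H ≤ Subgroup.centralizer (H : Set G) := by
      intro x hx
      rw [Subgroup.mem_centralizer_iff]
      intro y hy
      exact congrArg Subtype.val (hHcomm.is_comm.comm (⟨y, hy⟩ : H) ⟨x, hx⟩)
    have hCd : Nat.card (Subgroup.centralizer (H : Set G)) ∣ p ^ 3 := by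
      rw [← hc]; exact Subgroup.card_subgroup_dvd_card _
    obtain ⟨i, hi, hi2⟩ := (Nat.dvd_prime_pow hp1).1 hCd
    have hlt : Nat.card H < Nat.card (Subgroup.centralizer (H : Set G)) :=
      Set.Finite.card_lt_card (Set.toFinite _) (lt_of_le_not_ge hle hcon)
    rw [hj2, hi2] at hlt
    have hi3 : i = 3 := by
      have := (Nat.pow_lt_pow_iff_right hp1.one_lt).1 hlt
      omega
    subst hi3
    have hCtop : Subgroup.centralizer (H : Set G) = ⊤ := Subgroup.eq_top_of_card_eq _ (by rw [hi2, hc])
    have hHZ : H ≤ Subgroup.center G := by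
      intro x hx
      rw [Subgroup.mem_center_iff]
      intro g
      have : g ∈ Subgroup.centralizer (H : Set G) := by rw [hCtop]; trivial
      exact ((Subgroup.mem_centralizer_iff.1 this) x hx).symm
    have hHn : H.Normal := ⟨fun x hx g => by
      rw [← Subgroup.mem_center_iff.1 (hHZ hx) g |>.symm]
      simpa using hx⟩
    have hq : Nat.card (G ⧸ H) = p := by
      have := Subgroup.card_eq_card_quotient_mul_card_subgroup H
      rw [hc, hj2] at this
      have h2 : p ^ 2 ≠ 0 := pow_ne_zero _ hp1.ne_zero
      apply Nat.eq_of_mul_eq_mul_right (Nat.pos_of_ne_zero h2)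
      rw [← this]; ring
    have : IsCyclic (G ⧸ H) := isCyclic_of_prime_card hq
    apply hna
    exact MonoidHom.isMulCommutative_of_isCyclic_of_ker_le_center (QuotientGroup.mk' H) (by rw [QuotientGroup.ker_mk']; exact hHZ)

end Cfsg.Agent.S3918
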