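import Cfsg.Statements.S3919
import Cfsg.Agent.S0016
import Cfsg.Agent.S0112
import Cfsg.Agent.Transfer.MaximalClass

set_option autoImplicit false
open Cfsg

namespace Cfsg.Agent.S3919

open Subgroup
open scoped commutatorElement

/-- In a quaternion group of order `2 ^ (m + 2)` the `k`-th term of the lower central series contains the
`2 ^ k`-th power of the rotation. -/
theorem quaternion_lcs {G : Type*} [Group G] (m : ℕ) (φ : G ≃* QuaternionGroup (2 ^ m)) (k : ℕ) :
    φ.symm (QuaternionGroup.a ((2 ^ k : ℕ) : ZMod (2 * 2 ^ m))) ∈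
      (⊤ : Subgroup G).lowerCentralSeries k := by
  induction k with
  | zero => simp
  | succ k ih =>
    rw [Subgroup.lowerCentralSeries_succ]
    have h := Subgroup.commutator_mem_commutator ih (Subgroup.mem_top (φ.symm (QuaternionGroup.xa 0)))
    have e : (QuaternionGroup.a ((2 ^ (k + 1) : ℕ) : ZMod (2 * 2 ^ m)) : QuaternionGroup (2 ^ m)) =
        ⁅QuaternionGroup.a ((2 ^ k : ℕ) : ZMod (2 * 2 ^ m)), QuaternionGroup.xa 0⁆ := by
      rw [commutatorElement_def, QuaternionGroup.a_mul_xa, eq_mul_inv_iff_mul_eq,
        eq_mul_inv_iff_mul_eq, mul_assoc, QuaternionGroup.xa_mul_a, QuaternionGroup.a_mul_xa]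
      congr 1
      push_cast
      ring
    rw [e, map_commutatorElement]
    exact h

/-- a group of order `4` that is not cyclic is commutative -/
theorem comm_of_card_four {G : Type*} [Group G] (A : Subgroup G) (hA : Nat.card A = 4) :
    ∀ a ∈ A, ∀ b ∈ A, a * b = b * a := by
  haveI : Finite A := Nat.finite_of_card_ne_zero (by rw [hA]; norm_num)
  have : ∀ a b : A, a * b = b * a := by
    let _ := IsPGroup.commGroupOfCardEqPrimeSq (p := 2) (G := A) (by rw [hA]; norm_num)
    exact mul_comm
  intro a ha b hb
  exact congrArg Subtype.val (this ⟨a, ha⟩ ⟨b, hb⟩)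

theorem two_le_of_nonabelian {G : Type*} [Group G] [Finite G] (hna : ¬ IsMulCommutative G) (n : ℕ)
    (hG : Nat.card G = 2 ^ n) : 3 ≤ n := by
  by_contra hn
  push Not at hn
  apply hna
  refine ⟨⟨?_⟩⟩
  interval_cases n
  · have : Subsingleton G := (Nat.card_eq_one_iff_unique.1 (by rw [hG]; norm_num)).1
    intro a b
    exact Subsingleton.elim _ _
  · haveI : Fact (Nat.Prime 2) := ⟨Nat.prime_two⟩
    haveI : IsCyclic G := isCyclic_of_prime_card (p := 2) (by rw [hG]; norm_num)
    let _ := IsCyclic.commGroup (α := G)
    exact mul_comm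
  · let _ := IsPGroup.commGroupOfCardEqPrimeSq (p := 2) (G := G) hG
    exact mul_comm

theorem le_of_card_eq {P : Type*} [Group P] [Finite P] [IsCyclic P] {H K : Subgroup P}
    (h : Nat.card H = Nat.card K) : H ≤ K := by
  classical
  have := Fintype.ofFinite P
  intro g hg
  have hpow : ∀ (L : Subgroup P) (x : P), x ∈ L → x ^ Nat.card L = 1 := fun L x hx =>
    congrArg Subtype.val (pow_card_eq_one' (x := (⟨x, hx⟩ : L)))
  have hn : 0 < Nat.card K := Nat.card_pos
  have h1 := IsCyclic.card_pow_eq_one_le (α := P) hn
  have h2 : (Finset.univ.filter fun x : P => x ∈ K) ⊆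
      (Finset.univ.filter fun x : P => x ^ Nat.card K = 1) := by
    intro x hx
    rw [Finset.mem_filter] at hx ⊢
    exact ⟨Finset.mem_univ _, hpow K x hx.2⟩
  have h3 : (Finset.univ.filter fun x : P => x ∈ K).card = Nat.card K := by
    rw [Nat.card_eq_fintype_card, Fintype.card_subtype]
  have h4 := Finset.eq_of_subset_of_card_le h2 (by rw [h3]; exact h1)
  have h5 : g ∈ (Finset.univ.filter fun x : P => x ^ Nat.card K = 1) := by
    rw [Finset.mem_filter]
    refine ⟨Finset.mem_univ _, ?_⟩
    rw [← h]
    exact hpow H g hg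
  rw [← h4, Finset.mem_filter] at h5
  exact h5.2

theorem forward {G : Type*} [Group G] [Finite G] (hna : ¬ IsMulCommutative G) (n : ℕ) (hG : Nat.card G = 2 ^ n)
    (h : ∀ H : Subgroup G, ¬ IsCyclic ↥H → Subgroup.centralizer (H : Set G) ≤ H) :
    (⊤ : Subgroup G).lowerCentralSeries (n - 2) ≠ ⊥ := by
  haveI : Fact (Nat.Prime 2) := ⟨Nat.prime_two⟩
  have hn : 3 ≤ n := two_le_of_nonabelian hna n hG
  have hp : IsPGroup 2 G := IsPGroup.of_card hG
  haveI : Group.IsNilpotent G := hp.isNilpotent
  by_cases hex : ∃ A : Subgroup G, Nat.card A = 4 ∧ ¬ IsCyclic A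
  · obtain ⟨A, hA, hAc⟩ := hex
    have hcA : Subgroup.centralizer (A : Set G) = A := by
      apply le_antisymm (h A hAc)
      intro a ha
      rw [mem_centralizer_iff]
      intro b hb
      exact comm_of_card_four A hA b hb a ha
    have hcl := Cfsg.Agent.S0112.result (p := 2) n hG A (by rw [hA]; norm_num) hcA
    rw [Ne, Subgroup.lowerCentralSeries_eq_bot_iff_nilpotencyClass_le, hcl]
    omega
  · push Not at hex
    have huniq : ∀ H K : Subgroup G, Nat.card H = 2 → Nat.card K = 2 → H = K := by
      -- two subgroups of order two commute with a central one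
      intro H K hH hK
      -- a central involution
      have hcen : ∃ z ∈ center G, orderOf z = 2 := by
        haveI : Nontrivial G := by
          rw [← Finite.one_lt_card_iff_nontrivial, hG]
          exact Nat.one_lt_pow (by omega) (by norm_num)
        haveI : Nontrivial (center G) := hp.center_nontrivial
        have : 2 ∣ Nat.card (center G) := by
          have h2 := (hp.to_subgroup (center G)).card_eq_or_dvd
          rcases h2 with h2 | h2
          · have := Finite.one_lt_card (α := center G)
            omega
          · exact h2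
        obtain ⟨z, hz⟩ := exists_prime_orderOf_dvd_card' 2 this
        exact ⟨z, z.2, by rw [← hz]; exact (orderOf_submonoid z)⟩
      obtain ⟨z, hz, hz2⟩ := hcen
      have key : ∀ L : Subgroup G, Nat.card L = 2 → L = zpowers z := by
        intro L hL
        by_contra hne
        obtain ⟨x, hx⟩ := exists_prime_orderOf_dvd_card' (G := L) 2 (by rw [hL])
        have hxo : orderOf (x : G) = 2 := by rw [← hx]; exact orderOf_submonoid x
        have hLx : L = zpowers (x : G) := by
          symm
          apply eq_of_le_of_card_ge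
          · rw [zpowers_le]; exact x.2
          · rw [hL, Nat.card_zpowers, hxo]
        have hxz : (x : G) ≠ z := by
          intro hxz
          rw [hxz] at hLx
          exact hne hLx
        have hcomm : Commute (x : G) z := (mem_center_iff.1 hz x)
        -- the subgroup generated by `x`, `z`
        let f : L × zpowers z →* G :=
          { toFun := fun p => (p.1 : G) * (p.2 : G)
            map_one' := by simp
            map_mul' := by
              rintro ⟨a, b⟩ ⟨c, d⟩
              have hb : (b : G) ∈ center G := (zpowers_le.2 hz) b.2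
              have := mem_center_iff.1 hb (c : G)
              simp only [Prod.mk_mul_mk, Subgroup.coe_mul]
              rw [mul_assoc, mul_assoc, ← mul_assoc (c : G), this, mul_assoc] }
        have hinj : Function.Injective f := by
          rw [injective_iff_map_eq_one]
          rintro ⟨a, b⟩ hab
          have hab' : (a : G) * (b : G) = 1 := hab
          have h1 : (a : G) ∈ L ⊓ zpowers z := by
            refine ⟨a.2, ?_⟩
            rw [eq_inv_of_mul_eq_one_left hab']
            exact (zpowers z).inv_mem b.2
          have h2 : L ⊓ zpowers z = ⊥ := by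
            rw [← card_eq_one]
            have h3 := card_dvd_of_le (inf_le_left : L ⊓ zpowers z ≤ L)
            rw [hL, Nat.dvd_prime Nat.prime_two] at h3
            rcases h3 with h3 | h3
            · exact h3
            · exfalso
              have h4 : L ⊓ zpowers z = L := eq_of_le_of_card_ge inf_le_left (by rw [hL, h3])
              have h5 : L ≤ zpowers z := by rw [← h4]; exact inf_le_right
              exact hne (eq_of_le_of_card_ge h5 (by rw [hL, Nat.card_zpowers, hz2]))
          rw [h2, mem_bot] at h1
          rw [h1, one_mul] at hab'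
          exact Prod.ext (Subtype.ext h1) (Subtype.ext hab')
        have hcardr : Nat.card f.range = 4 := by
          rw [← Nat.card_congr (MonoidHom.ofInjective hinj).toEquiv, Nat.card_prod, hL,
            Nat.card_zpowers, hz2]
        obtain ⟨⟨g, hg⟩⟩ := hex _ hcardr
        have hgo : orderOf g = 4 := by
          rw [← hcardr]
          exact orderOf_eq_card_of_forall_mem_zpowers hg
        obtain ⟨⟨a, b⟩, hab⟩ := g.2
        have hg2 : g ^ 2 = 1 := by
          apply Subtype.ext
          rw [Subgroup.coe_pow, ← hab, ← map_pow]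
          have ha2 : a ^ 2 = 1 := by
            rw [← hL]; exact pow_card_eq_one'
          have hb2 : b ^ 2 = 1 := by
            have : Nat.card (zpowers z) = 2 := by rw [Nat.card_zpowers, hz2]
            rw [← this]; exact pow_card_eq_one'
          have : (a, b) ^ 2 = 1 := by
            rw [Prod.pow_mk, ha2, hb2]; rfl
          rw [this, map_one]; rfl
        have := orderOf_dvd_of_pow_eq_one hg2
        rw [hgo] at this
        norm_num at this
      rw [key H hH, key K hK]
    rcases Cfsg.Agent.S0016.result 2 hp huniq with hc | ⟨-, m, ⟨φ⟩⟩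
    · exfalso
      apply hna
      refine ⟨⟨?_⟩⟩
      let _ := IsCyclic.commGroup (α := G)
      exact mul_comm
    · have hcard : Nat.card G = 2 ^ (m + 2) := by
        rw [Nat.card_congr φ.toEquiv, Nat.card_eq_fintype_card, QuaternionGroup.card, pow_add]
        ring
      have hnm : n = m + 2 := by
        rw [hG] at hcard
        exact Nat.pow_right_injective (le_refl 2) hcard
      subst hnm
      intro hbot
      have h1 := quaternion_lcs m φ m
      rw [Nat.add_sub_cancel] at hbot
      rw [hbot, mem_bot, map_eq_one_iff _ φ.symm.injective, QuaternionGroup.one_def] at h1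
      have h2 : ((2 ^ m : ℕ) : ZMod (2 * 2 ^ m)) = 0 := by injection h1
      rw [ZMod.natCast_eq_zero_iff] at h2
      have h3 := Nat.le_of_dvd (by positivity) h2
      have h4 : 0 < 2 ^ m := by positivity
      omega

theorem backward {G : Type*} [Group G] [Finite G] (hna : ¬ IsMulCommutative G) (n : ℕ) (hG : Nat.card G = 2 ^ n)
    (h : (⊤ : Subgroup G).lowerCentralSeries (n - 2) ≠ ⊥) :
    ∀ H : Subgroup G, ¬ IsCyclic ↥H → Subgroup.centralizer (H : Set G) ≤ H := by
  haveI : Fact (Nat.Prime 2) := ⟨Nat.prime_two⟩
  have hn : 3 ≤ n := two_le_of_nonabelian hna n hG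
  have hp : IsPGroup 2 G := IsPGroup.of_card hG
  haveI : Group.IsNilpotent G := hp.isNilpotent
  rw [Ne, Subgroup.lowerCentralSeries_eq_bot_iff_nilpotencyClass_le] at h
  have hle := Cfsg.Agent.Transfer.MaximalClass.nilpotencyClass_le_pred (p := 2) n G hG (by omega)
  have hcl : Group.nilpotencyClass G = n - 1 := by omega
  obtain ⟨C, hC, hC2⟩ :=
    Cfsg.Agent.Transfer.MaximalClass.exists_isCyclic_index_two_of_maxClass n hn G hG hcl
  have hZ := Cfsg.Agent.Transfer.MaximalClass.card_center_of_maxClass (p := 2) hn hG hcl
  have hCab : ∀ a ∈ C, ∀ b ∈ C, a * b = b * a := by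
    intro a ha b hb
    let _ := IsCyclic.commGroup (α := C)
    exact congrArg Subtype.val (mul_comm (⟨a, ha⟩ : C) ⟨b, hb⟩)
  -- an element of `C` commuting with an element outside `C` is central
  have hcent : ∀ g : G, g ∉ C → ∀ x ∈ C, x * g = g * x → x ∈ center G := by
    intro g hg x hx hxg
    rw [mem_center_iff]
    intro y
    by_cases hy : y ∈ C
    · exact hCab y hy x hx
    · have hyg : y * g ∈ C := by
        rw [mul_mem_iff_of_index_two hC2]
        exact ⟨fun h => absurd h hy, fun h => absurd h hg⟩
      have h1 := hCab (y * g) hyg x hx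
      -- y g x = x y g , x g = g x
      have h2 : y * x * g = x * y * g := by
        rw [mul_assoc, hxg, ← mul_assoc, h1, ← mul_assoc]
      exact mul_right_cancel h2
  have hex : ∃ g : G, g ∉ C := by
    by_contra hcon
    push Not at hcon
    apply hna
    exact ⟨⟨fun a b => hCab a (hcon a) b (hcon b)⟩⟩
  -- the centre lies in `C`
  have hZC : center G ≤ C := by
    intro z hz
    by_contra hzC
    apply hna
    refine ⟨⟨fun a b => ?_⟩⟩
    have hCZ : ∀ x ∈ C, x ∈ center G := by
      intro x hx
      exact hcent z hzC x hx (mem_center_iff.1 hz x)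
    have hall : ∀ x : G, x ∈ center G := by
      intro x
      by_cases hx : x ∈ C
      · exact hCZ x hx
      · have h1 : x * z ∈ C := by
          rw [mul_mem_iff_of_index_two hC2]
          exact ⟨fun h => absurd h hx, fun h => absurd h hzC⟩
        have h2 := (center G).mul_mem (hCZ _ h1) (inv_mem hz)
        rwa [mul_inv_cancel_right] at h2
    exact mem_center_iff.1 (hall b) a
  intro H hH
  -- `H` is not contained in `C`
  have hHC : ¬ H ≤ C := by
    intro hle
    apply hH
    haveI := hC
    exact isCyclic_of_injective (Subgroup.inclusion hle) (Subgroup.inclusion_injective hle)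
  obtain ⟨g, hgH, hgC⟩ := SetLike.not_le_iff_exists.1 hHC
  -- `H ⊓ C` is not trivial
  have hHCne : H ⊓ C ≠ ⊥ := by
    intro hbot
    apply hH
    refine ⟨⟨⟨g, hgH⟩, ?_⟩⟩
    rintro ⟨x, hx⟩
    by_cases hxC : x ∈ C
    · have : x ∈ H ⊓ C := ⟨hx, hxC⟩
      rw [hbot, mem_bot] at this
      subst this
      exact (zpowers (⟨g, hgH⟩ : H)).one_mem
    · have h1 : g⁻¹ * x ∈ C := by
        rw [mul_mem_iff_of_index_two hC2]
        exact ⟨fun h => absurd (inv_mem_iff.1 h) hgC, fun h => absurd h hxC⟩
      have h2 : g⁻¹ * x ∈ H ⊓ C := ⟨H.mul_mem (inv_mem hgH) hx, h1⟩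
      rw [hbot, mem_bot, inv_mul_eq_one] at h2
      subst h2
      exact mem_zpowers _
  -- so it contains the centre
  have hZH : center G ≤ H := by
    have hnt : Nontrivial ↥(H ⊓ C) := (nontrivial_iff_ne_bot _).2 hHCne
    have h2 : 2 ∣ Nat.card ↥(H ⊓ C) := by
      rcases (hp.to_subgroup (H ⊓ C)).card_eq_or_dvd with h2 | h2
      · have := Finite.one_lt_card (α := ↥(H ⊓ C))
        omega
      · exact h2
    obtain ⟨w, hw⟩ := exists_prime_orderOf_dvd_card' 2 h2
    have hwo : orderOf (w : G) = 2 := by rw [← hw]; exact orderOf_submonoid w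
    have hww : Nat.card (zpowers (w : G)) = 2 := by rw [Nat.card_zpowers, hwo]
    have hwC : zpowers (w : G) ≤ C := by rw [zpowers_le]; exact w.2.2
    have heq : center G = zpowers (w : G) := by
      -- both are subgroups of order two of the cyclic group `C`
      have h3 : Nat.card ((center G).subgroupOf C) = Nat.card ((zpowers (w : G)).subgroupOf C) := by
        rw [Nat.card_congr (subgroupOfEquivOfLe hZC).toEquiv,
          Nat.card_congr (subgroupOfEquivOfLe hwC).toEquiv, hZ, hww]
      have h4 : (center G).subgroupOf C = (zpowers (w : G)).subgroupOf C :=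
        le_antisymm (le_of_card_eq h3) (le_of_card_eq h3.symm)
      rw [subgroupOf_inj, inf_eq_left.2 hZC, inf_eq_left.2 hwC] at h4
      exact h4
    rw [heq, zpowers_le]
    exact w.2.1
  intro x hx
  rw [mem_centralizer_iff] at hx
  have hxg := hx g hgH
  by_cases hxC : x ∈ C
  · exact hZH (hcent g hgC x hxC hxg.symm)
  · have h1 : x * g⁻¹ ∈ C := by
      rw [mul_mem_iff_of_index_two hC2]
      exact ⟨fun h => absurd h hxC, fun h => absurd (inv_mem_iff.1 h) hgC⟩
    have h2 : x * g⁻¹ ∈ center G := by
      apply hcent g hgC _ h1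
      rw [inv_mul_cancel_right, ← mul_assoc, hxg, mul_inv_cancel_right]
    have h3 := H.mul_mem (hZH h2) hgH
    rwa [inv_mul_cancel_right] at h3

/-- Say that a group has self-centralizing non-cyclic subgroups when every non-cyclic subgroup H satisfies C_G(H) ≤ H. A finite non-abelian 2-group G of order 2^n has self-centralizing non-cyclic subgroups if and only if G has nilpotency class n − 1 (that is, G is dihedral, semidihedral or generalized quaternion). -/
theorem result {G : Type*} [Group G] [Finite G] (hna : ¬ IsMulCommutative G) (n : ℕ) (hG : Nat.card G = 2 ^ n) :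
    (∀ H : Subgroup G, ¬ IsCyclic ↥H → Subgroup.centralizer (H : Set G) ≤ H) ↔ (⊤ : Subgroup G).lowerCentralSeries (n - 2) ≠ ⊥ :=
  ⟨forward hna n hG, backward hna n hG⟩

end Cfsg.Agent.S3919
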