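import Cfsg.Statements.S3921
import Cfsg.Agent.H479.SelfCentPSL
import Cfsg.Agent.H479.SelfCentCIT
import Cfsg.Agent.H479.PSL3Four
import Cfsg.Agent.S0348
import Cfsg.Agent.S0252
import Cfsg.Agent.S0253
import Cfsg.Agent.StdU3.EndLie
import Cfsg.Agent.WeakTI.PslTwo
import Cfsg.Agent.Walter.PSLFacts

set_option autoImplicit false
open Cfsg

namespace Cfsg.Agent.S3921

open Subgroup Cfsg.Agent.H479.SelfCent

theorem not_simple_six {G : Type*} [Group G] [Finite G] [IsSimpleGroup G] : Nat.card G ≠ 6 := by
  intro h6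
  haveI : Fact (Nat.Prime 3) := ⟨Nat.prime_three⟩
  obtain ⟨x, hx⟩ := exists_prime_orderOf_dvd_card' (G := G) 3 (by rw [h6]; norm_num)
  have h1 := card_mul_index (zpowers x)
  rw [Nat.card_zpowers, hx, h6] at h1
  have h2 : (zpowers x).index = 2 := by omega
  have hn := normal_of_index_eq_two h2
  rcases hn.eq_bot_or_eq_top with h | h
  · rw [zpowers_eq_bot] at h
    rw [h, orderOf_one] at hx
    omega
  · rw [h, index_top] at h2
    omega

theorem forward {G : Type*} [Group G] [Finite G] [IsSimpleGroup G] (hna : ∃ a b : G, a * b ≠ b * a)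
    (hS : SCN G) : ∃ (F : Type) (_ : Field F) (_ : Fintype F),
      (Fintype.card F = 4 ∨ Fintype.card F = 9 ∨ ((Fintype.card F).Prime ∧ ∃ k : ℕ, Fintype.card F = 2 ^ k + 1 ∨ Fintype.card F = 2 ^ k - 1)) ∧
      Nonempty (G ≃* Matrix.ProjectiveSpecialLinearGroup (Fin 2) F) := by
  rcases Cfsg.Agent.S0348.result hna (fun t ht => hS.cit hna t ht) with
    ⟨F, _, _, hF, ⟨e⟩⟩ | ⟨F, _, _, hF, ⟨e⟩⟩ | hsuz
  · rcases hF with h9 | ⟨n, hn⟩ | ⟨hp, k, hk⟩
    · exact ⟨F, inferInstance, inferInstance, Or.inr (Or.inl h9), ⟨e⟩⟩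
    · have hn0 : n ≠ 0 := by
        rintro rfl
        have := Fintype.one_lt_card (α := F)
        rw [hn] at this
        norm_num at this
      haveI : Fact (Nat.Prime 2) := ⟨Nat.prime_two⟩
      obtain ⟨S⟩ : Nonempty (Sylow 2 G) := inferInstance
      obtain ⟨h1, -, h3⟩ := Cfsg.Agent.Walter.PSLFacts.even_facts hn0 hn e S
      have h4 := hS.card_le_four (S : Subgroup G) h1
      rw [h3] at h4
      have hn2 : n ≤ 2 := by
        by_contra hlt
        push Not at hlt
        have : 2 ^ 3 ≤ 2 ^ n := Nat.pow_le_pow_right (by norm_num) hlt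
        omega
      have hn12 : n = 1 ∨ n = 2 := by omega
      rcases hn12 with rfl | rfl
      · exfalso
        haveI : CharP F 2 := by
          obtain ⟨p, hpF⟩ := CharP.exists F
          haveI := hpF
          have hpp : p.Prime := CharP.char_is_prime F p
          haveI : Fact p.Prime := ⟨hpp⟩
          obtain ⟨f, -, hf⟩ := FiniteField.card F p
          rw [hn] at hf
          have h5 : p ∣ 2 := by
            have : p ∣ 2 ^ 1 := by rw [hf]; exact dvd_pow_self p f.2.ne'
            simpa using this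
          have := (Nat.prime_dvd_prime_iff_eq hpp Nat.prime_two).1 h5
          rw [← this]
          exact hpF
        have h5 := Cfsg.Agent.WeakTI.PslTwo.card_eq e
        rw [hn] at h5
        exact not_simple_six (G := G) (by rw [h5]; norm_num)
      · exact ⟨F, inferInstance, inferInstance, Or.inl (by rw [hn]; norm_num), ⟨e⟩⟩
    · refine ⟨F, inferInstance, inferInstance, Or.inr (Or.inr ⟨hp, k, ?_⟩), ⟨e⟩⟩
      rcases hk with hk | hk
      · exact Or.inl hk
      · right; omega
  · exfalso
    haveI : CharP F 2 := by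
      obtain ⟨p, hpF⟩ := CharP.exists F
      haveI := hpF
      have hpp : p.Prime := CharP.char_is_prime F p
      haveI : Fact p.Prime := ⟨hpp⟩
      obtain ⟨f, -, hf⟩ := FiniteField.card F p
      rw [hF] at hf
      have h5 : p ∣ 2 := by
        have h6 : p ∣ 2 ^ 2 := by
          rw [show (2 : ℕ) ^ 2 = 4 by norm_num, hf]
          exact dvd_pow_self p f.2.ne'
        exact hpp.dvd_of_dvd_pow h6
      have := (Nat.prime_dvd_prime_iff_eq hpp Nat.prime_two).1 h5
      rw [← this]
      exact hpF
    obtain ⟨E, hE, hcard⟩ := Cfsg.Agent.H479.PSL3Four.exists_subgroup F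
    have hfin : Finite (Matrix.ProjectiveSpecialLinearGroup (Fin 3) F) := Finite.of_equiv G e.toEquiv
    have h4 := (hS.of_mulEquiv e).card_le_four E hE
    rw [hcard, hF] at h4
    norm_num at h4
  · exfalso
    apply Cfsg.Agent.StdU3.EndLie.not_three_dvd_suzuki hsuz
    apply hS.three_dvd hna
    obtain ⟨-, m, -, hm⟩ := hsuz
    rw [hm]
    apply Dvd.dvd.mul_right
    apply Dvd.dvd.mul_right
    exact (dvd_pow_self 2 (by omega)).trans (dvd_pow_self _ (by norm_num))

/-- Say that a group has self-centralizing non-cyclic subgroups when every non-cyclic subgroup H satisfies C_G(H) ≤ H. A non-abelian finite simple group has self-centralizing non-cyclic subgroups if and only if it is isomorphic to PSL₂(q) with q = 4, q = 9, or q a prime of the form 2^k + 1 or 2^k − 1. -/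
theorem result {G : Type*} [Group G] [Finite G] [IsSimpleGroup G] (hna : ¬ IsMulCommutative G) :
    (∀ H : Subgroup G, ¬ IsCyclic ↥H → Subgroup.centralizer (H : Set G) ≤ H) ↔ ∃ (F : Type) (_ : Field F) (_ : Fintype F),
      (Fintype.card F = 4 ∨ Fintype.card F = 9 ∨ ((Fintype.card F).Prime ∧ ∃ k : ℕ, Fintype.card F = 2 ^ k + 1 ∨ Fintype.card F = 2 ^ k - 1)) ∧
      Nonempty (G ≃* Matrix.ProjectiveSpecialLinearGroup (Fin 2) F) := by
  constructor
  · intro h
    refine forward ?_ h
    by_contra hcon
    push Not at hcon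
    exact hna ⟨⟨hcon⟩⟩
  · rintro ⟨F, _, _, hF, ⟨e⟩⟩
    rcases hF with h4 | h9 | ⟨hp, k, hk⟩
    · haveI : Fact (Nat.Prime 5) := ⟨by norm_num⟩
      obtain ⟨e4⟩ := Cfsg.Agent.S0252.result h4
      obtain ⟨e5⟩ := Cfsg.Agent.S0253.result (F := ZMod 5) (ZMod.card 5)
      refine scn_psl (F := ZMod 5) (e.trans (e4.trans e5.symm)) ?_ (Or.inl ?_)
      · rw [ZMod.card]; decide
      · rw [ZMod.card]
        exact ⟨by norm_num, 2, Or.inl (by norm_num)⟩
    · exact scn_psl e (by rw [h9]; decide) (Or.inr h9)
    · have h1 := Fintype.one_lt_card (α := F)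
      by_cases h2 : Fintype.card F = 2
      · exfalso
        haveI : CharP F 2 := by
          obtain ⟨p, hpF⟩ := CharP.exists F
          haveI := hpF
          have hpp : p.Prime := CharP.char_is_prime F p
          haveI : Fact p.Prime := ⟨hpp⟩
          obtain ⟨f, -, hf⟩ := FiniteField.card F p
          rw [h2] at hf
          have h5 : p ∣ 2 := by rw [hf]; exact dvd_pow_self p f.2.ne'
          have := (Nat.prime_dvd_prime_iff_eq hpp Nat.prime_two).1 h5
          rw [← this]
          exact hpF
        have h5 := Cfsg.Agent.WeakTI.PslTwo.card_eq e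
        rw [h2] at h5
        exact not_simple_six (G := G) (by rw [h5]; norm_num)
      · refine scn_psl e (hp.odd_of_ne_two h2) (Or.inl ⟨hp, k, ?_⟩)
        rcases hk with hk | hk
        · exact Or.inl hk
        · right; omega

end Cfsg.Agent.S3921
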