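import Cfsg.Statements.S3933
-- import your own Cfsg.Agent.* helpers here
import Mathlib
import Cfsg.Agent.S0007
import Cfsg.Agent.S0144
import Cfsg.Agent.S0493
import Cfsg.Agent.H482.SylowNumbers

set_option autoImplicit false
open Cfsg

namespace Cfsg.Agent.S3933

open Subgroup Cfsg.Agent.H482.SylowNumbers

/-- If `r` does not divide the index of `B`, then `B` contains a Sylow `r`-subgroup of `G`. -/
theorem exists_sylow_le {G : Type*} [Group G] [Finite G] {r : ℕ} [Fact r.Prime] (B : Subgroup G)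
    (h : ¬ r ∣ B.index) : ∃ R : Sylow r G, (R : Subgroup G) ≤ B := by
  obtain ⟨Q⟩ : Nonempty (Sylow r B) := inferInstance
  have hQ : ¬ r ∣ ((Q : Subgroup B).map B.subtype).index := by
    rw [Subgroup.index_map_subtype]
    exact (Fact.out : r.Prime).not_dvd_mul Q.not_dvd_index h
  refine ⟨(Q.2.map B.subtype).toSylow hQ, ?_⟩
  rw [IsPGroup.toSylow_coe]
  exact map_subtype_le _

theorem key {G : Type*} [Group G] [Finite G] [IsSimpleGroup G] (hG : ¬ IsCyclic G)
    {r₁ r₂ s₁ s₂ a b : ℕ} (hr₁ : r₁.Prime) (hr₂ : r₂.Prime) (h₁ : r₁ ∣ Nat.card G)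
    (h₂ : r₂ ∣ Nat.card G) (hs₁ : s₁.Prime) (hs₂ : s₂.Prime) (hn₁ : Nat.card (Sylow r₁ G) = s₁ ^ a)
    (hn₂ : Nat.card (Sylow r₂ G) = s₂ ^ b) (hs : s₁ ≠ s₂) : s₂ = r₁ := by
  by_contra hne
  have := Fact.mk hr₁
  have := Fact.mk hr₂
  obtain ⟨R₂⟩ : Nonempty (Sylow r₂ G) := inferInstance
  set B := normalizer ((R₂ : Subgroup G) : Set G) with hB
  have hBi : B.index = s₂ ^ b := by rw [← hn₂, card_eq_index R₂]
  have hdB : ¬ r₁ ∣ B.index := by
    rw [hBi]
    intro h
    exact hne ((Nat.prime_dvd_prime_iff_eq hr₁ hs₂).1 (hr₁.dvd_of_dvd_pow h)).symm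
  obtain ⟨R₁, hR₁⟩ := exists_sylow_le B hdB
  set A := normalizer ((R₁ : Subgroup G) : Set G) with hA
  have hAi : A.index = s₁ ^ a := by rw [← hn₁, card_eq_index R₁]
  have hcop : B.index.Coprime A.index := by
    rw [hAi, hBi]
    exact Nat.Coprime.pow _ _ ((Nat.coprime_primes hs₂ hs₁).2 (Ne.symm hs))
  have hcl : Subgroup.normalClosure ((R₁ : Subgroup G) : Set G) ≤ B := by
    rw [Subgroup.normalClosure, Subgroup.closure_le]
    intro x hx
    obtain ⟨y, hy, hxy⟩ := Group.mem_conjugatesOfSet_iff.1 hx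
    obtain ⟨g, rfl⟩ := isConj_iff.1 hxy
    obtain ⟨b', hb', a', ha', rfl⟩ := Cfsg.Agent.S0007.exists_mul_eq B A hcop g
    have h3 : a' * y * a'⁻¹ ∈ (R₁ : Subgroup G) := (mem_normalizer_iff.1 ha' y).1 hy
    have h4 := B.mul_mem (B.mul_mem hb' (hR₁ h3)) (B.inv_mem hb')
    have h5 : b' * (a' * y * a'⁻¹) * b'⁻¹ = b' * a' * y * (b' * a')⁻¹ := by group
    rw [← h5]
    exact h4
  have hR₁ne : (R₁ : Subgroup G) ≠ ⊥ := R₁.ne_bot_of_dvd_card h₁
  have htop : Subgroup.normalClosure ((R₁ : Subgroup G) : Set G) = ⊤ := by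
    refine (IsSimpleGroup.eq_bot_or_eq_top_of_normal _ Subgroup.normalClosure_normal).resolve_left ?_
    intro h
    apply hR₁ne
    rw [eq_bot_iff, ← h]
    exact Subgroup.subset_normalClosure
  have hBtop : B = ⊤ := top_le_iff.1 (htop ▸ hcl)
  apply Cfsg.Agent.S0493.card_sylow_ne_one hG h₂
  rw [card_eq_index R₂, ← hB, hBtop, index_top]

/-- A number with all its prime divisors among two primes `p`, `q` is `p ^ a * q ^ b`. -/
theorem exists_pow_mul_pow {n p q : ℕ} (hn : n ≠ 0) (hp : p.Prime) (hq : q.Prime)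
    (h : ∀ u : ℕ, u.Prime → u ∣ n → u = p ∨ u = q) : ∃ a b, n = p ^ a * q ^ b := by
  obtain ⟨a, m, hpm, rfl⟩ := Nat.exists_eq_pow_mul_and_not_dvd hn p hp.ne_one
  have hm : m ≠ 0 := fun h => hn (by rw [h, mul_zero])
  obtain ⟨b, k, hqk, rfl⟩ := Nat.exists_eq_pow_mul_and_not_dvd hm q hq.ne_one
  refine ⟨a, b, ?_⟩
  have hk : k = 1 := by
    by_contra hk
    obtain ⟨u, hu, huk⟩ := Nat.exists_prime_and_dvd hk
    rcases h u hu (Dvd.dvd.mul_left (Dvd.dvd.mul_left huk _) _) with rfl | rfl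
    · exact hpm (Dvd.dvd.mul_left huk _)
    · exact hqk huk
  rw [hk, mul_one]

theorem simple_case {G : Type*} [Group G] [Finite G] [IsSimpleGroup G]
    (h : ∀ (r : ℕ) [Fact r.Prime],
      Nat.card (Sylow r G) = 1 ∨ IsPrimePow (Nat.card (Sylow r G))) : Group.IsSolvable G := by
  by_contra hns
  have hG : ¬ IsCyclic G := by
    intro hc
    let _ := hc.commGroup
    exact hns inferInstance
  have hpp : ∀ r : ℕ, r.Prime → r ∣ Nat.card G →
      ∃ s a : ℕ, s.Prime ∧ s ∣ Nat.card G ∧ Nat.card (Sylow r G) = s ^ a ∧ s ≠ r := by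
    intro r hr hrG
    have := Fact.mk hr
    have h1 := (h r).resolve_left (Cfsg.Agent.S0493.card_sylow_ne_one hG hrG)
    obtain ⟨s, k, hs, hk, hsk⟩ := (isPrimePow_nat_iff _).1 h1
    obtain ⟨P⟩ : Nonempty (Sylow r G) := inferInstance
    have hsd : s ∣ Nat.card (Sylow r G) := hsk ▸ dvd_pow_self s hk.ne'
    refine ⟨s, k, hs, ?_, hsk.symm, ?_⟩
    · exact (hsd.trans (P.card_dvd_index)).trans (Subgroup.index_dvd_card _)
    · rintro rfl
      exact not_dvd_card_sylow s G hsd
  -- two primes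
  have hGne : Nat.card G ≠ 1 := Finite.one_lt_card.ne'
  obtain ⟨r, hr, hrG⟩ := Nat.exists_prime_and_dvd hGne
  obtain ⟨s, a, hs, hsG, hnr, hsr⟩ := hpp r hr hrG
  obtain ⟨t, b, ht, htG, hns', hts⟩ := hpp s hs hsG
  have htr : t = r := key hG hr hs hrG hsG hs ht hnr hns' (Ne.symm hts)
  subst htr
  -- a third prime
  have h3 : ∃ u : ℕ, u.Prime ∧ u ∣ Nat.card G ∧ u ≠ t ∧ u ≠ s := by
    by_contra hcon
    push Not at hcon
    obtain ⟨x, y, hxy⟩ := exists_pow_mul_pow (Nat.card_pos.ne') ht hs (fun u hu hud => by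
      by_cases hut : u = t
      · exact Or.inl hut
      · exact Or.inr (hcon u hu hud hut))
    exact hns (Cfsg.Agent.S0144.result t s x y ht hs hxy)
  obtain ⟨u, hu, huG, hut, hus⟩ := h3
  obtain ⟨w, c, hw, hwG, hnu, hwu⟩ := hpp u hu huG
  by_cases hws : w = s
  · subst hws
    have := key hG hu hw huG hwG hw ht hnu hns' (Ne.symm hts)
    exact hut this.symm
  · have := key hG hu ht huG hrG hw hs hnu hnr hws
    exact hus this.symm

universe u

theorem main (n : ℕ) : ∀ {G : Type u} [Group G] [Finite G] (_ : ∀ (r : ℕ) [Fact r.Prime],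
      Nat.card (Sylow r G) = 1 ∨ IsPrimePow (Nat.card (Sylow r G))) (_ : Nat.card G = n),
      Group.IsSolvable G := by
  induction n using Nat.strong_induction_on with
  | _ n ih =>
    intro G _ _ h hn
    rcases subsingleton_or_nontrivial G with hG | hG
    · infer_instance
    by_cases hs : IsSimpleGroup G
    · exact simple_case h
    · -- a proper nontrivial normal subgroup
      have : ∃ N : Subgroup G, N.Normal ∧ N ≠ ⊥ ∧ N ≠ ⊤ := by
        by_contra hcon
        push Not at hcon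
        apply hs
        exact ⟨fun N hN => by
          by_cases h : N = ⊥
          · exact Or.inl h
          · exact Or.inr (hcon N hN h)⟩
      obtain ⟨N, hN, hbot, htop⟩ := this
      have hcardmul : Nat.card N * N.index = Nat.card G := N.card_mul_index
      have hNpos : 0 < Nat.card N := Nat.card_pos
      have hIpos : 0 < N.index := Nat.pos_of_ne_zero (Subgroup.index_ne_zero_of_finite)
      have h1 : Nat.card N ≠ 1 := by
        intro h
        exact hbot (Subgroup.eq_bot_of_card_eq N h)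
      have h2 : N.index ≠ 1 := by
        intro h
        exact htop (Subgroup.index_eq_one.1 h)
      have hNlt : Nat.card N < n := by
        rw [← hn, ← hcardmul]
        exact lt_mul_of_one_lt_right hNpos (by omega)
      have hIlt : Nat.card (G ⧸ N) < n := by
        rw [← hn, ← hcardmul, ← Subgroup.index_eq_card]
        exact lt_mul_of_one_lt_left hIpos (by omega)
      have hdv : ∀ m k : ℕ, m ∣ k → (k = 1 ∨ IsPrimePow k) → (m = 1 ∨ IsPrimePow m) := by
        intro m k hmk hk
        by_cases hm : m = 1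
        · exact Or.inl hm
        · refine Or.inr ?_
          rcases hk with rfl | hk
          · exact absurd (Nat.dvd_one.1 hmk) hm
          · exact hk.dvd hmk hm
      exact (Group.isSolvable_iff_subgroup_quotient N).2
        ⟨ih _ hNlt (fun r _ => hdv _ _ (card_sylow_normal_dvd r N) (h r)) rfl,
          ih _ hIlt (fun r _ => hdv _ _ (card_sylow_quotient_dvd r N) (h r)) rfl⟩

/-- If for every prime r the number of Sylow r-subgroups of the finite group G is a prime power or 1, then G is solvable. -/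
theorem result {G : Type*} [Group G] [Finite G] (h : ∀ (r : ℕ) [Fact r.Prime], Nat.card (Sylow r G) = 1 ∨ IsPrimePow (Nat.card (Sylow r G))) :
    Group.IsSolvable G := by
  exact main (Nat.card G) h rfl

end Cfsg.Agent.S3933
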