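import Cfsg.Statements.S3934
import Cfsg.Agent.H541.CoprimeCF
import Cfsg.Agent.H254.CopAll
import Cfsg.Agent.S0000

set_option autoImplicit false
open Cfsg

namespace Cfsg.Agent.S3934

/-- Let A be an abelian, non-cyclic group of automorphisms of the finite group G with |A| coprime to |G|. Then every composition factor of G occurs as a composition factor of the fixed-point subgroup C_G(a) of some non-identity a ∈ A: for every subnormal subgroup H of G and maximal normal subgroup K of H there are a ∈ A, a ≠ 1, a subnormal subgroup H' of C_G(a) and a normal subgroup K' of H' with H'/K' ≅ H/K. -/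
theorem result {G : Type*} [Group G] [Finite G] (A : Subgroup (MulAut G)) (hab : IsMulCommutative ↥A) (hnc : ¬ IsCyclic ↥A)
    (hcop : (Nat.card ↥A).Coprime (Nat.card G)) (H : Subgroup G) (hH : H.IsSubnormal) (K : Subgroup ↥H) [K.Normal]
    (hK : IsSimpleGroup (↥H ⧸ K)) :
    ∃ a ∈ A, a ≠ 1 ∧ ∃ (H' : Subgroup ↥((a : MulAut G).toMonoidHom.eqLocus (MonoidHom.id G))) (_ : H'.IsSubnormal)
      (K' : Subgroup ↥H') (_ : K'.Normal), Nonempty (↥H' ⧸ K' ≃* ↥H ⧸ K) := by
  have hfin : Finite (MulAut G) :=
    Finite.of_injective (fun g : MulAut G => (g : G → G)) DFunLike.coe_injective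
  have h : H541.CF (↥H ⧸ K) G := ⟨H, hH, QuotientGroup.mk' K, QuotientGroup.mk'_surjective K⟩
  obtain ⟨a, ha, H', hH', f, hf⟩ := H541.main_aux (A := ↥A) (fun a b => hab.is_comm.comm a b) hnc
    (fun L _ _ _ hL => H254.CopAll.known L hL S0000.result) (Nat.card G) G A.subtype rfl hcop h
  refine ⟨a, a.2, fun h1 => ha (Subtype.ext h1), H', hH', f.ker, f.normal_ker,
    ⟨QuotientGroup.quotientKerEquivOfSurjective f hf⟩⟩

end Cfsg.Agent.S3934
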