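import Cfsg.Statements.S3935
import Cfsg.Agent.H482.VMain
import Cfsg.Agent.Classification.MinSimpleStrong

set_option autoImplicit false
open Cfsg

namespace Cfsg.Agent.S3935

/-- A two-variable identity characterizing finite solvable groups. For elements x, y define v₁ = x⁻²y⁻¹x and v_{n+1} = [x v_n x⁻¹, y v_n y⁻¹], where [a, b] = aba⁻¹b⁻¹. A finite group G is solvable if and only if for some n the word v_n takes only the value 1 on G. -/
theorem result {G : Type*} [Group G] [Finite G] :
    Group.IsSolvable G ↔ ∃ n : ℕ, ∀ x y : G,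
      @Nat.rec (fun _ => G) (x⁻¹ * x⁻¹ * y⁻¹ * x) (fun _ v => (x * v * x⁻¹) * (y * v * y⁻¹) * (x * v * x⁻¹)⁻¹ * (y * v * y⁻¹)⁻¹) n = 1 :=
  Cfsg.Agent.H482.VMain.solvable_iff_law
    (fun _ _ _ hH => Cfsg.Agent.Classification.MinSimpleStrong.concl hH)

end Cfsg.Agent.S3935
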