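import Cfsg.Statements.S3936
import Cfsg.Agent.H483.LawMain
import Cfsg.Agent.Classification.MinSimpleStrong

set_option autoImplicit false
open Cfsg

namespace Cfsg.Agent.S3936

/-- A two-variable identity characterizing finite solvable groups. For elements x, y define s₁ = x and s_{n+1} = [y⁻¹ s_n y, s_n⁻¹], where [a, b] = aba⁻¹b⁻¹. A finite group G is solvable if and only if for some n the word s_n takes only the value 1 on G. -/
theorem result {G : Type*} [Group G] [Finite G] :
    Group.IsSolvable G ↔ ∃ n : ℕ, ∀ x y : G,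
      @Nat.rec (fun _ => G) x (fun _ s => (y⁻¹ * s * y) * (s⁻¹) * (y⁻¹ * s * y)⁻¹ * (s⁻¹)⁻¹) n = 1 := by
  exact Cfsg.Agent.H483.LawMain.solvable_iff_law
    (fun _ _ _ h => Cfsg.Agent.Classification.MinSimpleStrong.concl h)

end Cfsg.Agent.S3936
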