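import Cfsg.Statements.S3939
import Cfsg.Agent.H483.Hyper

set_option autoImplicit false
open Cfsg

namespace Cfsg.Agent.S3939

/-- In a finite group G the set of elements g such that the subgroup generated by g and x is nilpotent for every x ∈ G is exactly the hypercenter of G (the last term of the upper central series). -/
theorem result {G : Type*} [Group G] [Finite G] (g : G) :
    (∀ x : G, Group.IsNilpotent ↥(Subgroup.closure ({x, g} : Set G))) ↔ g ∈ ⨆ n : ℕ, Subgroup.upperCentralSeries G n := by
  obtain ⟨n, hn, -⟩ := Cfsg.Agent.H483.Hyper.exists_stable G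
  constructor
  · intro h
    by_contra hg
    set Z : Subgroup G := Subgroup.upperCentralSeries G n with hZ
    have hgZ : g ∉ Z := by rwa [hn] at hg
    have hne : orderOf (QuotientGroup.mk' Z g) ≠ 1 := by
      rw [Ne, orderOf_eq_one_iff]
      intro h1
      exact hgZ ((QuotientGroup.eq_one_iff g).1 h1)
    obtain ⟨p, hp, hpd⟩ := Nat.exists_prime_and_dvd hne
    have : Fact p.Prime := ⟨hp⟩
    have hN0 : orderOf g ≠ 0 := (orderOf_pos g).ne'
    set r : ℕ := orderOf g / p ^ (orderOf g).factorization p with hr
    have hprod : p ^ (orderOf g).factorization p * r = orderOf g :=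
      Nat.ordProj_mul_ordCompl_eq_self (orderOf g) p
    have hk : (g ^ r) ^ p ^ (orderOf g).factorization p = 1 := by
      rw [← pow_mul, mul_comm, hprod, pow_orderOf_eq_one]
    have hmem : g ^ r ∈ ⨆ n : ℕ, Subgroup.upperCentralSeries G n := by
      refine Cfsg.Agent.H483.Hyper.mem_of_pElement (p := p) hk fun x => ?_
      have hnil := h x
      have hle : Subgroup.closure ({x, g ^ r} : Set G) ≤ Subgroup.closure ({x, g} : Set G) := by
        rw [Subgroup.closure_le]
        rintro y (rfl | rfl)
        · exact Subgroup.subset_closure (by simp)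
        · exact pow_mem (Subgroup.subset_closure (by simp)) r
      exact Group.isNilpotent_congr (Subgroup.subgroupOfEquivOfLe hle) |>.mp inferInstance
    rw [hn] at hmem
    have h2 : (QuotientGroup.mk' Z g) ^ r = 1 := by
      rw [← map_pow]
      exact (QuotientGroup.eq_one_iff _).2 hmem
    have h3 : p ∣ r := hpd.trans (orderOf_dvd_of_pow_eq_one h2)
    exact Nat.not_dvd_ordCompl hp hN0 h3
  · intro h x
    rw [hn] at h
    exact Cfsg.Agent.H483.Hyper.nilpotent_closure h x

end Cfsg.Agent.S3939
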