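import Cfsg.Statements.S3940
import Cfsg.Agent.Classification.MinSimpleStrong
import Cfsg.Agent.Lib.SolvableMinNormal
import Cfsg.Agent.H484.NonNil
import Cfsg.Agent.H484.NonNilPSL
import Cfsg.Agent.H484.NonNilSz

set_option autoImplicit false
open Cfsg

namespace Cfsg.Agent.S3940

open Cfsg.Agent.H484.NonNil

universe u

/-- The minimal simple groups have non-nilpotent `p'`-subgroups. -/
theorem hasNN_of_isMinimalSimple {G : Type u} [Group G] [Finite G] (h : IsMinimalSimple G) {p : ℕ}
    (hp : p.Prime) (hp3 : 3 < p) : HasNN p G := by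
  rcases Cfsg.Agent.Classification.MinSimpleStrong.concl h with
    ⟨k, hk, F, _, _, hF, ⟨e⟩⟩ | ⟨k, hk, hk2, F, _, _, hF, ⟨e⟩⟩ |
    ⟨k, hk, hk5, F, _, _, hF, ⟨e⟩⟩ | ⟨F, _, _, hF, ⟨e⟩⟩ | ⟨F, _, _, m, hm, -, hF, ⟨e⟩⟩
  · exact (Cfsg.Agent.H484.NonNilPSL.psl_two (F := F) hp hp3).of_mulEquiv e.symm
  · exact (Cfsg.Agent.H484.NonNilPSL.psl_two (F := F) hp hp3).of_mulEquiv e.symm
  · exact (Cfsg.Agent.H484.NonNilPSL.psl_two (F := F) hp hp3).of_mulEquiv e.symm
  · refine (Cfsg.Agent.H484.NonNilPSL.psl_three (F := F) ?_ hp hp3).of_mulEquiv e.symm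
    intro h2
    have h3 : (Fintype.card F : F) = 0 := Nat.cast_card_eq_zero F
    rw [hF] at h3
    have h4 : (1 : F) = 0 := by
      have : ((3 : ℕ) : F) = 2 + 1 := by norm_num
      rw [this, h2, zero_add] at h3
      exact h3
    exact one_ne_zero h4
  · have hs : IsSimpleGroup ↥(Cfsg.Lie.Sz F (2 ^ (m + 1))) := by
      have := h.1
      exact e.isSimpleGroup_congr.mp this
    exact (Cfsg.Agent.H484.NonNilSz.sz hm hF hp hp3).of_mulEquiv e.symm

theorem hasNN_of_not_isSolvable {p : ℕ} (hp : p.Prime) (hp3 : 3 < p) :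
    ∀ (n : ℕ) (G : Type u) [Group G] [Finite G], Nat.card G = n → ¬ Group.IsSolvable G →
      HasNN p G := by
  intro n
  induction n using Nat.strong_induction_on with
  | _ n ih =>
    intro G _ _ hcard hG
    by_cases hsub : ∃ H : Subgroup G, H ≠ ⊤ ∧ ¬ Group.IsSolvable H
    · obtain ⟨H, hH, hHs⟩ := hsub
      have hlt : Nat.card H < n := by
        rw [← hcard]
        refine lt_of_le_of_ne (Subgroup.card_le_card_group H) ?_
        intro h
        exact hH (Subgroup.eq_top_of_card_eq H h)
      exact (ih _ hlt H rfl hHs).of_injective H.subtype H.subtype_injective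
    · push Not at hsub
      by_cases hN : ∃ N : Subgroup G, N.Normal ∧ N ≠ ⊥ ∧ N ≠ ⊤
      · obtain ⟨N, hNn, hN1, hN2⟩ := hN
        have hNs : Group.IsSolvable N := hsub N hN2
        have : Nontrivial N := (Subgroup.nontrivial_iff_ne_bot N).mpr hN1
        obtain ⟨r, hr, P, hPc, -, hPp, hPne⟩ :=
          Cfsg.Agent.Lib.SolvableMinNormal.exists_characteristic_pgroup (G := N)
        have : Fact r.Prime := ⟨hr⟩
        set Q : Subgroup G := P.map N.subtype with hQ
        have hQn : Q.Normal := inferInstance
        have hQp : IsPGroup r Q := hPp.map _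
        have hQne : Q ≠ ⊥ := by
          intro h
          rw [hQ, Subgroup.map_eq_bot_iff_of_injective _ N.subtype_injective] at h
          exact hPne h
        have hlt : Nat.card (G ⧸ Q) < n := by
          rw [← hcard, Subgroup.card_eq_card_quotient_mul_card_subgroup Q]
          have h1 : 1 < Nat.card Q := by
            rw [Subgroup.one_lt_card_iff_ne_bot]
            exact hQne
          have h2 : 0 < Nat.card (G ⧸ Q) := Nat.card_pos
          nlinarith
        have hquot : ¬ Group.IsSolvable (G ⧸ Q) := by
          intro h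
          have hQs : Group.IsSolvable Q := by
            have := hQp.isNilpotent
            infer_instance
          exact hG ((Group.isSolvable_iff_subgroup_quotient Q).mpr ⟨hQs, h⟩)
        exact (ih _ hlt (G ⧸ Q) rfl hquot).of_quotient hp hr Q hQp
      · push Not at hN
        refine hasNN_of_isMinimalSimple ⟨?_, ?_, hsub⟩ hp hp3
        · have hnt : Nontrivial G := by
            by_contra h
            rw [not_nontrivial_iff_subsingleton] at h
            exact hG inferInstance
          refine { exists_pair_ne := hnt.exists_pair_ne, eq_bot_or_eq_top_of_normal := ?_ }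
          intro H hH
          by_cases h : H = ⊥
          · exact Or.inl h
          · exact Or.inr (hN H hH h)
        · intro hc
          apply hG
          exact Group.isSolvable_of_comm mul_comm'

/-- Let p > 3 be a prime and G a finite group in which every subgroup of order prime to p is nilpotent. Then G is solvable. -/
theorem result {G : Type*} [Group G] [Finite G] (p : ℕ) (hp : p.Prime) (hp3 : 3 < p)
    (h : ∀ H : Subgroup G, (Nat.card ↥H).Coprime p → Group.IsNilpotent ↥H) : Group.IsSolvable G := by
  by_contra hs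
  obtain ⟨H, hc, hn⟩ := hasNN_of_not_isSolvable hp hp3 _ G rfl hs
  exact hn (h H hc)

end Cfsg.Agent.S3940
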