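import Cfsg.Statements.S3941
import Mathlib.GroupTheory.SpecificGroups.Alternating.Simple

set_option autoImplicit false
open Cfsg

namespace Cfsg.Agent.S3941

open Equiv Equiv.Perm

/-- A simple group of even order is not `p`-closed when `p` is an odd prime
divisor of its order. -/
theorem not_pClosed_simple {A : Type*} [Group A] [Finite A] [IsSimpleGroup A] (p : ℕ)
    [Fact p.Prime] (hp : p ≠ 2) (h2 : 2 ∣ Nat.card A) (hd : p ∣ Nat.card A)
    (h : Cfsg.IsPClosed p A) : False := by
  obtain ⟨P⟩ := (inferInstance : Nonempty (Sylow p A))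
  rcases (h P).eq_bot_or_eq_top with hb | ht
  · exact P.ne_bot_of_dvd_card hd hb
  · have hP : IsPGroup p A := by
      have := P.isPGroup'
      rw [ht] at this
      intro g
      obtain ⟨k, hk⟩ := this ⟨g, Subgroup.mem_top g⟩
      exact ⟨k, by simpa using congrArg Subtype.val hk⟩
    obtain ⟨k, hk⟩ := (IsPGroup.iff_card).mp hP
    rw [hk] at h2
    have := (Nat.prime_dvd_prime_iff_eq Nat.prime_two (Fact.out : p.Prime)).mp
      (Nat.prime_two.dvd_of_dvd_pow h2)
    exact hp this.symm

theorem pClosed_of_equiv {A B : Type*} [Group A] [Group B] [Finite A] [Finite B] (p : ℕ)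
    [Fact p.Prime] (f : A ≃* B) (h : Cfsg.IsPClosed p B) : Cfsg.IsPClosed p A := by
  intro P
  have hs : Function.Surjective (f : A →* B) := f.surjective
  have hi : Function.Injective (f : A →* B) := f.injective
  have hn := h (P.mapSurjective hs)
  have h1 : (P : Subgroup A) = ((P.mapSurjective hs : Sylow p B) : Subgroup B).comap
      (f : A →* B) := by
    rw [Sylow.coe_mapSurjective]
    exact (Subgroup.comap_map_eq_self_of_injective hi _).symm
  rw [h1]
  exact hn.comap _

theorem five_case (h : Cfsg.IsPClosed 3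
    ↥(alternatingGroup.ofSubtype ({0, 1, 2, 3} : Finset (Fin 5))).range) : False := by
  have : Fact (Nat.Prime 3) := ⟨Nat.prime_three⟩
  set H := (alternatingGroup.ofSubtype ({0, 1, 2, 3} : Finset (Fin 5))).range with hH
  have ha : (swap 0 1 * swap 1 2 : Perm (Fin 5)) ∈ alternatingGroup (Fin 5) := by
    rw [mem_alternatingGroup]; decide
  have hb : (swap 0 1 * swap 1 3 : Perm (Fin 5)) ∈ alternatingGroup (Fin 5) := by
    rw [mem_alternatingGroup]; decide
  have haH : (⟨(swap 0 1 * swap 1 2 : Perm (Fin 5)), ha⟩ : alternatingGroup (Fin 5)) ∈ H := by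
    rw [hH, alternatingGroup.mem_range_ofSubtype_iff]
    change (swap 0 1 * swap 1 2 : Perm (Fin 5)).support ⊆ {0, 1, 2, 3}
    decide
  have hbH : (⟨(swap 0 1 * swap 1 3 : Perm (Fin 5)), hb⟩ : alternatingGroup (Fin 5)) ∈ H := by
    rw [hH, alternatingGroup.mem_range_ofSubtype_iff]
    change (swap 0 1 * swap 1 3 : Perm (Fin 5)).support ⊆ {0, 1, 2, 3}
    decide
  have key : ∀ x : H, x ^ 3 = 1 → ∀ P : Sylow 3 H, x ∈ P := by
    intro x hx P
    have hz : IsPGroup 3 (Subgroup.zpowers x) := by
      intro g
      obtain ⟨k, hk⟩ := Subgroup.mem_zpowers_iff.mp g.2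
      refine ⟨1, ?_⟩
      apply Subtype.ext
      rw [pow_one, SubgroupClass.coe_pow, ← hk, ← zpow_natCast, ← zpow_mul, mul_comm, zpow_mul]
      have : x ^ ((3 : ℕ) : ℤ) = 1 := by rw [zpow_natCast]; exact hx
      rw [this]; simp
    obtain ⟨Q, hQ⟩ := hz.exists_le_sylow
    have := Sylow.unique_of_normal Q (h Q)
    have hPQ : P = Q := Subsingleton.elim _ _
    rw [hPQ]
    exact hQ (Subgroup.mem_zpowers x)
  obtain ⟨P⟩ := (inferInstance : Nonempty (Sylow 3 H))
  have hA : (⟨⟨swap 0 1 * swap 1 2, ha⟩, haH⟩ : H) ∈ P := key _ (by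
    apply Subtype.ext; apply Subtype.ext
    change ((swap 0 1 * swap 1 2 : Perm (Fin 5))) ^ 3 = 1
    decide) P
  have hB : (⟨⟨swap 0 1 * swap 1 3, hb⟩, hbH⟩ : H) ∈ P := key _ (by
    apply Subtype.ext; apply Subtype.ext
    change ((swap 0 1 * swap 1 3 : Perm (Fin 5))) ^ 3 = 1
    decide) P
  have hAB := mul_mem hA hB
  obtain ⟨k, hk⟩ := P.isPGroup' ⟨_, hAB⟩
  have hk' : (swap 0 1 * swap 1 2 * (swap 0 1 * swap 1 3) : Perm (Fin 5)) ^ (3 ^ k) = 1 := by
    simpa using congrArg (fun z : P => ((z : H) : alternatingGroup (Fin 5)).1) hk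
  have h2 : (swap 0 1 * swap 1 2 * (swap 0 1 * swap 1 3) : Perm (Fin 5)) ^ 2 = 1 := by
    decide
  have hco : Nat.Coprime (3 ^ k) 2 := Nat.Coprime.pow_left k (by norm_num)
  have h1 := pow_gcd_eq_one.mpr ⟨hk', h2⟩
  rw [hco.gcd_eq_one, pow_one] at h1
  revert h1
  decide

/-- Let n ≥ 5 and p an odd prime with p ≤ n, and suppose that every proper subgroup of the alternating group of degree n whose order is divisible by p has a normal Sylow p-subgroup. Then n = p. -/
theorem result (n p : ℕ) (hn : 5 ≤ n) [Fact p.Prime] (hp : p ≠ 2) (hpn : p ≤ n)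
    (h : ∀ H : Subgroup ↥(alternatingGroup (Fin n)), H ≠ ⊤ → p ∣ Nat.card ↥H → Cfsg.IsPClosed p ↥H) : n = p := by
  by_contra hne
  have hpp : p.Prime := Fact.out
  have hlt : p < n := lt_of_le_of_ne hpn (Ne.symm hne)
  have hcard : ∀ s : Finset (Fin n), 2 ≤ s.card → s.card < n →
      (alternatingGroup.ofSubtype s).range ≠ ⊤ := by
    intro s hs2 hs htop
    have h1 : Nat.card (alternatingGroup s) = Nat.card (alternatingGroup (Fin n)) := by
      have e := (MonoidHom.ofInjective (alternatingGroup.ofSubtype_injective (s := s)))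
      have := Nat.card_congr e.toEquiv
      rw [this, htop]
      exact Nat.card_congr Subgroup.topEquiv.toEquiv
    have : Nontrivial s := by
      rw [← Fintype.one_lt_card_iff_nontrivial, Fintype.card_coe]; omega
    have : Nontrivial (Fin n) := by
      rw [← Fintype.one_lt_card_iff_nontrivial, Fintype.card_fin]; omega
    have h2 := two_mul_nat_card_alternatingGroup (α := s)
    have h3 := two_mul_nat_card_alternatingGroup (α := Fin n)
    rw [h1, h3, Nat.card_perm, Nat.card_perm, Nat.card_fin, Nat.card_eq_fintype_card,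
      Fintype.card_coe] at h2
    have := Nat.factorial_lt_of_lt (n := s.card) (m := n) (by omega) hs
    omega
  have hdvd : ∀ s : Finset (Fin n), 2 ≤ s.card → p ≤ s.card →
      p ∣ Nat.card (alternatingGroup s) := by
    intro s hs2 hs
    have : Nontrivial s := by
      rw [← Fintype.one_lt_card_iff_nontrivial, Fintype.card_coe]; omega
    have h2 := two_mul_nat_card_alternatingGroup (α := s)
    rw [Nat.card_perm, Nat.card_eq_fintype_card (α := s), Fintype.card_coe] at h2
    have h3 : p ∣ 2 * Nat.card (alternatingGroup s) := by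
      rw [h2]; exact (Nat.Prime.dvd_factorial hpp).mpr hs
    rcases (Nat.Prime.dvd_mul hpp).mp h3 with h4 | h4
    · exact absurd ((Nat.prime_dvd_prime_iff_eq hpp Nat.prime_two).mp h4) hp
    · exact h4
  by_cases h5 : n = 5
  · subst h5
    have hp3 : p = 3 := by
      have := hpp.two_le
      interval_cases p
      · exact absurd rfl hp
      · rfl
      · exact absurd hpp (by norm_num)
    subst hp3
    have hc : ({0, 1, 2, 3} : Finset (Fin 5)).card = 4 := by decide
    refine five_case (h _ (hcard _ (by omega) (by omega)) ?_)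
    have := hdvd ({0, 1, 2, 3} : Finset (Fin 5)) (by omega) (by omega)
    rwa [Nat.card_congr (MonoidHom.ofInjective
      (alternatingGroup.ofSubtype_injective (s := ({0, 1, 2, 3} : Finset (Fin 5))))).toEquiv] at this
  · obtain ⟨m, rfl⟩ : ∃ m, n = m + 1 := ⟨n - 1, by omega⟩
    let s : Finset (Fin (m + 1)) := Finset.univ.erase 0
    have hs : s.card = m := by
      simp [s, Finset.card_erase_of_mem]
    have hr := h (alternatingGroup.ofSubtype s).range (hcard s (by omega) (by omega)) (by
      have := hdvd s (by omega) (by omega)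
      rwa [Nat.card_congr (MonoidHom.ofInjective
        (alternatingGroup.ofSubtype_injective (s := s))).toEquiv] at this)
    have hs5 : 5 ≤ Nat.card s := by
      rw [Nat.card_eq_fintype_card, Fintype.card_coe]; omega
    have : IsSimpleGroup (alternatingGroup s) := alternatingGroup.isSimpleGroup hs5
    have hpc : Cfsg.IsPClosed p (alternatingGroup s) :=
      pClosed_of_equiv p (MonoidHom.ofInjective
        (alternatingGroup.ofSubtype_injective (s := s))) hr
    refine not_pClosed_simple p hp ?_ (hdvd s (by omega) (by omega)) hpc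
    have : Nontrivial s := by
      rw [← Fintype.one_lt_card_iff_nontrivial, Fintype.card_coe]; omega
    have h2 := two_mul_nat_card_alternatingGroup (α := s)
    rw [Nat.card_perm, Nat.card_eq_fintype_card (α := s), Fintype.card_coe] at h2
    have h3 : 2 * 2 ∣ 2 * Nat.card (alternatingGroup s) := by
      rw [h2]
      have : (4 : ℕ) ∣ s.card.factorial := Nat.dvd_factorial (by norm_num) (by omega)
      simpa using this
    exact (Nat.mul_dvd_mul_iff_left (by norm_num)).mp h3

end Cfsg.Agent.S3941
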