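import Cfsg.Statements.S3944
import Cfsg.Agent.H485.Red
import Cfsg.Agent.H485.SimpleCase
import Cfsg.Agent.S0000

set_option autoImplicit false
open Cfsg

namespace Cfsg.Agent.S3944

/-- Let A be a group of automorphisms of the finite group G with |A| coprime to |G|, let C = C_G(A) be the subgroup of common fixed points, and suppose a Sylow 2-subgroup of C is cyclic or elementary abelian. If G is not solvable, then G has a composition factor isomorphic to PSL₂(2^n) with n ≥ 2, to PSL₂(q^n) with q a prime power congruent to 3 or 5 modulo 8 and q^n ≠ 3, to a Suzuki group Sz(2^(2m+1)) with m ≥ 1, to a Ree group ²G₂(3^(2m+1)) with m ≥ 1, or to the first Janko group J₁ (a composition factor being a simple quotient H/K of a subnormal subgroup H by a normal subgroup K of H). -/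
theorem result {G : Type*} [Group G] [Finite G] (A : Subgroup (MulAut G)) (hcop : (Nat.card ↥A).Coprime (Nat.card G)) (C : Subgroup G) (hC : C = ⨅ a ∈ A, (a : MulAut G).toMonoidHom.eqLocus (MonoidHom.id G))
    (h2 : ∀ P : Sylow 2 ↥C, IsCyclic ↥(P : Subgroup ↥C) ∨ Cfsg.IsElementaryAbelian 2 (P : Subgroup ↥C)) (hns : ¬ Group.IsSolvable G) :
    ∃ (H : Subgroup G) (_ : H.IsSubnormal) (K : Subgroup ↥H) (_ : K.Normal), IsSimpleGroup (↥H ⧸ K) ∧
      ((∃ (F : Type) (_ : Field F) (_ : Fintype F), ((∃ n : ℕ, 2 ≤ n ∧ Fintype.card F = 2 ^ n) ∨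
        (∃ q n : ℕ, IsPrimePow q ∧ (q % 8 = 3 ∨ q % 8 = 5) ∧ 1 ≤ n ∧ Fintype.card F = q ^ n ∧ Fintype.card F ≠ 3)) ∧
        Nonempty (↥H ⧸ K ≃* Matrix.ProjectiveSpecialLinearGroup (Fin 2) F)) ∨
      Cfsg.Lie.IsoSuzuki (↥H ⧸ K) ∨ Cfsg.Lie.IsoRee (↥H ⧸ K) ∨ Cfsg.Spor.IsoJ1 (↥H ⧸ K)) := by
  have h2f : Fact (Nat.Prime 2) := ⟨Nat.prime_two⟩
  have hCF : C = H566.Fx A := by
    rw [hC]
    ext x
    rw [H566.mem_Fx]
    simp only [Subgroup.mem_iInf]
    rfl
  have hCE : H485.Red.CE ↥(H566.Fx A) := by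
    rw [← hCF]
    intro Q hQ
    obtain ⟨P, hP⟩ := hQ.exists_le_sylow
    rcases h2 P with h | h
    · left
      exact isCyclic_of_injective (Subgroup.inclusion hP) (Subgroup.inclusion_injective hP)
    · right
      intro x hx
      have := h.2 x (hP hx)
      rwa [pow_two] at this
  have hdvd : 2 ∣ Nat.card G := by
    by_contra h3
    exact hns (Cfsg.Agent.S0205.result (Nat.not_even_iff_odd.1 fun h => h3 (even_iff_two_dvd.1 h)))
  have hA : Group.IsSolvable ↥A := Cfsg.Agent.S0205.result (H485.Adm.odd_of_coprime hcop hdvd)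
  obtain ⟨H, hH, L, iL, f, hf, hs, hP⟩ := H485.Red.factor_of_simples (Pr := fun L _ => H485.LieCase.InList L)
    (fun S _ _ _ hna hadm => H485.SimpleCase.inList_of_known hna Cfsg.Agent.S0000.result hadm) G hns A hcop hA hCE
  have e : (↥H ⧸ f.ker) ≃* L := QuotientGroup.quotientKerEquivOfSurjective f hf
  exact ⟨H, hH, f.ker, inferInstance, e.isSimpleGroup, hP.congr e⟩

end Cfsg.Agent.S3944
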