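import Cfsg.Statements.S3945
import Cfsg.Agent.H487.FxKnown
import Cfsg.Agent.S0000

set_option autoImplicit false
open Cfsg

namespace Cfsg.Agent.S3945

open Cfsg.Agent.H487.EvenCoset in
/-- Call an automorphism α of order n of a group G splitting when x · α(x) · α²(x) ⋯ α^(n−1)(x) = 1 for every x ∈ G. A finite group admitting a splitting automorphism of odd order is solvable. -/
theorem result {G : Type*} [Group G] [Finite G] (α : MulAut G) (hodd : Odd (orderOf α))
    (hsplit : ∀ x : G, (((List.range (orderOf α)).map (fun i : ℕ => (α ^ i) x)).prod = 1)) : Group.IsSolvable G := by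
  exact solvable_of_spl (fun K _ _ _ hna => fx_known hna S0000.result) hodd ⟨pow_orderOf_eq_one α, hsplit⟩

end Cfsg.Agent.S3945
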