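import Cfsg.Statements.S3984
import Cfsg.Agent.H492.TI

set_option autoImplicit false
open scoped Pointwise
open Cfsg Cfsg.Agent.H492

namespace Cfsg.Agent.S3984

/-- Let P be a Sylow p-subgroup of the finite group G that meets each conjugate g P g⁻¹ with g outside N_G(P) trivially, and let N be a normal subgroup of G of order prime to p. Then every Sylow p-subgroup Q of G ⧸ N meets each conjugate x Q x⁻¹ with x outside its normalizer trivially. -/
theorem result {G : Type*} [Group G] [Finite G] (p : ℕ) [Fact p.Prime] (P : Sylow p G) (hTI : ∀ g : G, g ∉ Subgroup.normalizer ((P : Subgroup G) : Set G) → (P : Subgroup G) ⊓ (MulAut.conj g • (P : Subgroup G)) = ⊥) (N : Subgroup G) [N.Normal] (hN : (Nat.card ↥N).Coprime p) (Q : Sylow p (G ⧸ N)) : ∀ x : G ⧸ N, x ∉ Subgroup.normalizer ((Q : Subgroup (G ⧸ N)) : Set (G ⧸ N)) → (Q : Subgroup (G ⧸ N)) ⊓ (MulAut.conj x • (Q : Subgroup (G ⧸ N))) = ⊥ := by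
  exact (sylow_ti_iff p Q).2 (sylow_ti_quotient p ((sylow_ti_iff p P).1 hTI)
    (QuotientGroup.mk' N) (QuotientGroup.mk'_surjective N))

end Cfsg.Agent.S3984
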