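import Cfsg.Statements.S3985
import Mathlib.GroupTheory.Sylow
import Mathlib.GroupTheory.SpecificGroups.Cyclic
import Mathlib.NumberTheory.Basic

set_option autoImplicit false
open scoped Pointwise
open Cfsg

namespace Cfsg.Agent.S3985

/-- A `p`-element normalizing a Sylow subgroup lies in it. -/
theorem mem_of_mem_normalizer {G : Type*} [Group G] [Finite G] (p : ℕ) [Fact p.Prime] (P : Sylow p G)
    (u : G) (hu : u ∈ Subgroup.normalizer ((P : Subgroup G) : Set G)) (a : ℕ)
    (ha : u ^ p ^ a = 1) : u ∈ (P : Subgroup G) := by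
  have h1 : IsPGroup p (Subgroup.zpowers u) := by
    rintro ⟨y, n, rfl⟩
    refine ⟨a, ?_⟩
    apply Subtype.ext
    change ((u ^ n) ^ p ^ a) = 1
    rw [← zpow_natCast, ← zpow_mul, mul_comm, zpow_mul, zpow_natCast, ha, one_zpow]
  have h2 : u ∈ Subgroup.zpowers u ⊓ Subgroup.normalizer ((P : Subgroup G) : Set G) :=
    ⟨Subgroup.mem_zpowers u, hu⟩
  have h3 := h1.inf_normalizer_sylow P
  exact (h3.le h2).2

/-- Let P be a cyclic Sylow p-subgroup of the finite group G. Then P meets each conjugate g P g⁻¹ with g outside N_G(P) trivially if and only if P is weakly self-centralizing: C_G(x) = C_G(P) for every non-identity x ∈ P. -/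
theorem result {G : Type*} [Group G] [Finite G] (p : ℕ) [Fact p.Prime] (P : Sylow p G) (hcyc : IsCyclic ↥(P : Subgroup G)) : (∀ g : G, g ∉ Subgroup.normalizer ((P : Subgroup G) : Set G) → (P : Subgroup G) ⊓ (MulAut.conj g • (P : Subgroup G)) = ⊥) ↔ ∀ x : G, x ∈ (P : Subgroup G) → x ≠ 1 → Subgroup.centralizer ({x} : Set G) = Subgroup.centralizer ((P : Subgroup G) : Set G) := by
  have hab : ∀ a b : G, a ∈ (P : Subgroup G) → b ∈ (P : Subgroup G) → a * b = b * a := by
    intro a b ha hb
    have := (IsCyclic.isMulCommutative (α := ↥(P : Subgroup G))).is_comm.comm ⟨a, ha⟩ ⟨b, hb⟩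
    exact congrArg Subtype.val this
  have hp : p.Prime := Fact.out
  constructor
  · intro h x hx hx1
    apply le_antisymm
    · intro g hg
      have hgx : g * x * g⁻¹ = x := by
        rw [Subgroup.mem_centralizer_singleton_iff] at hg
        rw [hg]; group
      have hgN : g ∈ Subgroup.normalizer ((P : Subgroup G) : Set G) := by
        by_contra hcon
        have h1 := h g hcon
        have h2 : x ∈ (P : Subgroup G) ⊓ (MulAut.conj g • (P : Subgroup G)) := by
          refine ⟨hx, ?_⟩
          change x ∈ (MulAut.conj g • (P : Subgroup G))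
          have : MulAut.conj g • x ∈ (MulAut.conj g • (P : Subgroup G)) :=
            Subgroup.smul_mem_pointwise_smul _ _ _ hx
          rwa [MulAut.smul_def, MulAut.conj_apply, hgx] at this
        rw [h1, Subgroup.mem_bot] at h2
        exact hx1 h2
      obtain ⟨⟨z, hz⟩, hzg⟩ := hcyc.exists_generator
      have hgen : ∀ w ∈ (P : Subgroup G), ∃ n : ℤ, w = z ^ n := by
        intro w hw
        obtain ⟨n, hn⟩ := hzg ⟨w, hw⟩
        exact ⟨n, (congrArg Subtype.val hn).symm⟩
      obtain ⟨k, hk⟩ := hgen (g * z * g⁻¹) ((Subgroup.mem_normalizer_iff.1 hgN z).1 hz)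
      have hall : ∀ w ∈ (P : Subgroup G), g * w * g⁻¹ = w ^ k := by
        intro w hw
        obtain ⟨n, rfl⟩ := hgen w hw
        rw [← conj_zpow, hk, ← zpow_mul, ← zpow_mul, mul_comm]
      have hpow : ∀ (n : ℕ) (w : G), w ∈ (P : Subgroup G) → g ^ n * w * (g ^ n)⁻¹ = w ^ (k ^ n) := by
        intro n
        induction n with
        | zero => intro w _; simp
        | succ n ih =>
          intro w hw
          have : g ^ (n + 1) * w * (g ^ (n + 1))⁻¹ = g ^ n * (g * w * g⁻¹) * (g ^ n)⁻¹ := by
            rw [pow_succ]; group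
          rw [this, hall w hw, ih _ ((P : Subgroup G).zpow_mem hw k), ← zpow_mul, pow_succ,
            mul_comm]
      -- `k ≡ 1` modulo `p`
      have hkp : (p : ℤ) ∣ k - 1 := by
        have h1 : x ^ (k - 1) = 1 := by
          rw [zpow_sub, zpow_one, ← hall x hx, hgx, mul_inv_cancel]
        have h2 : ((orderOf x : ℕ) : ℤ) ∣ k - 1 := orderOf_dvd_iff_zpow_eq_one.2 h1
        have h3 : p ∣ orderOf x := by
          obtain ⟨a, ha⟩ := P.isPGroup' ⟨x, hx⟩
          have ha' : x ^ p ^ a = 1 := congrArg Subtype.val ha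
          obtain ⟨b, -, hb⟩ := (Nat.dvd_prime_pow hp).1 (orderOf_dvd_of_pow_eq_one ha')
          rcases Nat.eq_zero_or_pos b with rfl | hb0
          · rw [pow_zero, orderOf_eq_one_iff] at hb
            exact absurd hb hx1
          · rw [hb]; exact dvd_pow_self p hb0.ne'
        exact (Int.natCast_dvd_natCast.2 h3).trans h2
      obtain ⟨m, hm⟩ := (IsPGroup.iff_card (p := p)).1 P.isPGroup'
      have hcen1 : g ^ (p ^ m) ∈ Subgroup.centralizer ((P : Subgroup G) : Set G) := by
        rw [Subgroup.mem_centralizer_iff]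
        intro w hw
        have h1 := hpow (p ^ m) w hw
        have h2 : w ^ (k ^ (p ^ m)) = w := by
          have h3 := dvd_sub_pow_of_dvd_sub (R := ℤ) hkp m
          rw [one_pow] at h3
          have h4 : ((orderOf w : ℕ) : ℤ) ∣ k ^ p ^ m - 1 := by
            refine dvd_trans ?_ h3
            have h5 : orderOf w ∣ p ^ m := by
              rw [← hm]
              have := orderOf_dvd_natCard (⟨w, hw⟩ : (P : Subgroup G))
              rwa [← Subgroup.orderOf_coe] at this
            exact_mod_cast h5.trans (pow_dvd_pow p (Nat.le_succ m))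
          have h6 := orderOf_dvd_iff_zpow_eq_one.1 h4
          rw [zpow_sub, zpow_one, mul_inv_eq_one] at h6
          exact h6
        rw [h2] at h1
        calc w * g ^ p ^ m = (g ^ p ^ m * w * (g ^ p ^ m)⁻¹) * g ^ p ^ m := by rw [h1]
          _ = g ^ p ^ m * w := by group
      have hn0 : orderOf g ≠ 0 := (orderOf_pos g).ne'
      obtain ⟨a, r, hr, hn⟩ := Nat.exists_eq_pow_mul_and_not_dvd hn0 p hp.ne_one
      have hcen2 : g ^ r ∈ Subgroup.centralizer ((P : Subgroup G) : Set G) := by
        have h1 : g ^ r ∈ (P : Subgroup G) := by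
          apply mem_of_mem_normalizer p P (g ^ r) (Subgroup.pow_mem _ hgN r) a
          rw [← pow_mul, mul_comm, ← hn, pow_orderOf_eq_one]
        rw [Subgroup.mem_centralizer_iff]
        intro w hw
        exact hab _ _ hw h1
      have hcop : Nat.Coprime (p ^ m) r := Nat.Coprime.pow_left _ ((Nat.Prime.coprime_iff_not_dvd hp).2 hr)
      have hbez := Nat.gcd_eq_gcd_ab (p ^ m) r
      rw [hcop.gcd_eq_one] at hbez
      have : g = (g ^ (p ^ m)) ^ ((p ^ m).gcdA r) * (g ^ r) ^ ((p ^ m).gcdB r) := by
        rw [← zpow_natCast, ← zpow_natCast, ← zpow_mul, ← zpow_mul, ← zpow_add, ← hbez]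
        simp
      rw [this]
      exact Subgroup.mul_mem _ (Subgroup.zpow_mem _ hcen1 _) (Subgroup.zpow_mem _ hcen2 _)
    · exact Subgroup.centralizer_le (Set.singleton_subset_iff.2 hx)
  · intro h g hg
    by_contra hne
    obtain ⟨⟨x, hxP, hxQ⟩, hx1⟩ := Subgroup.ne_bot_iff_exists_ne_one.1 hne
    have hx1' : x ≠ 1 := fun h' => hx1 (Subtype.ext h')
    have hcx := h x hxP hx1'
    have hxQ' : x ∈ (MulAut.conj g • (P : Subgroup G)) := hxQ
    rw [Subgroup.mem_pointwise_smul_iff_inv_smul_mem] at hxQ'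
    have hxQ2 : g⁻¹ * x * g ∈ (P : Subgroup G) := by
      rw [← map_inv, MulAut.smul_def, MulAut.conj_apply, inv_inv] at hxQ'
      exact hxQ'
    apply hg
    have hle : ((g • P : Sylow p G) : Subgroup G) ≤ (P : Subgroup G) := by
      intro y hy
      have hy' := hy
      rw [Sylow.coe_subgroup_smul, Subgroup.mem_pointwise_smul_iff_inv_smul_mem,
        ← map_inv, MulAut.smul_def, MulAut.conj_apply, inv_inv] at hy'
      have hyx : y ∈ Subgroup.centralizer ({x} : Set G) := by
        rw [Subgroup.mem_centralizer_singleton_iff]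
        have := hab _ _ hy' hxQ2
        calc y * x = g * ((g⁻¹ * y * g) * (g⁻¹ * x * g)) * g⁻¹ := by group
          _ = g * ((g⁻¹ * x * g) * (g⁻¹ * y * g)) * g⁻¹ := by rw [this]
          _ = x * y := by group
      rw [hcx] at hyx
      obtain ⟨a, ha⟩ := (g • P : Sylow p G).isPGroup' ⟨y, hy⟩
      exact mem_of_mem_normalizer p P y (Subgroup.centralizer_le_normalizer _ hyx) a
        (congrArg Subtype.val ha)
    have heq : g • P = P := Sylow.ext ((g • P).is_maximal' P.isPGroup' hle).symm
    exact Sylow.smul_eq_iff_mem_normalizer.1 heq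

end Cfsg.Agent.S3985
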