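import Cfsg.Statements.S3986
import Mathlib.GroupTheory.Sylow
import Mathlib.GroupTheory.SchurZassenhaus

set_option autoImplicit false
open Cfsg

namespace Cfsg.Agent.S3986

/-- A subgroup containing a Sylow `q`-subgroup for every prime `q` is everything. -/
theorem eq_top_of_sylow_le {G : Type*} [Group G] [Finite G] (H : Subgroup G)
    (h : ∀ q : ℕ, q.Prime → ∃ S : Sylow q G, (S : Subgroup G) ≤ H) : H = ⊤ := by
  rw [← Subgroup.index_eq_one]
  by_contra hne
  obtain ⟨q, hq, hqd⟩ := Nat.exists_prime_and_dvd hne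
  have : Fact q.Prime := ⟨hq⟩
  obtain ⟨S, hS⟩ := h q hq
  exact S.not_dvd_index (hqd.trans (Subgroup.index_dvd_of_le hS))

theorem exists_orderOf_eq {G : Type*} [Group G] {q : ℕ} (hq : q.Prime) {S : Subgroup G}
    (hS : IsPGroup q S) {y : G} (hy : y ∈ S) : ∃ b : ℕ, orderOf y = q ^ b := by
  obtain ⟨a, ha⟩ := hS ⟨y, hy⟩
  have ha' : y ^ q ^ a = 1 := congrArg Subtype.val ha
  obtain ⟨b, -, hb⟩ := (Nat.dvd_prime_pow hq).1 (orderOf_dvd_of_pow_eq_one ha')
  exact ⟨b, hb⟩

/-- Let p be a prime and G a finite group. Then some Sylow p-subgroup of G is a direct factor of G (it is normal and has a normal complement) if and only if every element of p-power order commutes with every element whose order is a power of a prime other than p. -/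
theorem result {G : Type*} [Group G] [Finite G] (p : ℕ) [Fact p.Prime] : (∃ (P : Sylow p G) (K : Subgroup G), (P : Subgroup G).Normal ∧ K.Normal ∧ (P : Subgroup G) ⊓ K = ⊥ ∧ (P : Subgroup G) ⊔ K = ⊤) ↔ ∀ x y : G, (∃ a : ℕ, orderOf x = p ^ a) → (∃ q b : ℕ, q.Prime ∧ q ≠ p ∧ orderOf y = q ^ b) → x * y = y * x := by
  have hp : p.Prime := Fact.out
  constructor
  · rintro ⟨P, K, hPn, hKn, hinf, hsup⟩ x y ⟨a, hx⟩ ⟨q, b, hq, hqp, hy⟩
    -- elements of coprime orders `p ^ a`, `q ^ b`
    have hcop : Nat.Coprime (p ^ a) (q ^ b) :=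
      Nat.Coprime.pow _ _ ((Nat.coprime_primes hp hq).2 (Ne.symm hqp))
    have hxP : x ∈ (P : Subgroup G) := by
      have h1 : IsPGroup p (Subgroup.zpowers x) := by
        rw [IsPGroup.iff_card]
        exact ⟨a, by rw [Nat.card_zpowers, hx]⟩
      obtain ⟨Q, hQ⟩ := h1.exists_le_sylow
      have : Q = P := by
        haveI := Sylow.unique_of_normal P hPn
        exact Subsingleton.elim _ _
      rw [← this]
      exact hQ (Subgroup.mem_zpowers x)
    have hcomp : Subgroup.IsComplement' (P : Subgroup G) K := by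
      apply Subgroup.isComplement'_of_disjoint_and_mul_eq_univ (disjoint_iff.2 hinf)
      rw [← Subgroup.normal_mul, hsup]; rfl
    have hyK : y ∈ K := by
      have h1 : orderOf (QuotientGroup.mk' K y) ∣ q ^ b := by
        rw [← hy]; exact orderOf_map_dvd _ _
      have h2 : orderOf (QuotientGroup.mk' K y) ∣ Nat.card (P : Subgroup G) := by
        have h3 := orderOf_dvd_natCard (QuotientGroup.mk' K y)
        have h4 : Nat.card (G ⧸ K) = Nat.card (P : Subgroup G) := hcomp.index_eq_card
        rwa [h4] at h3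
      obtain ⟨m, hm⟩ := (IsPGroup.iff_card (p := p)).1 P.isPGroup'
      rw [hm] at h2
      have hc : Nat.Coprime (q ^ b) (p ^ m) :=
        Nat.Coprime.pow _ _ ((Nat.coprime_primes hq hp).2 hqp)
      have h5 := Nat.eq_one_of_dvd_coprimes hc h1 h2
      rw [orderOf_eq_one_iff] at h5
      exact (QuotientGroup.eq_one_iff y).1 h5
    exact Subgroup.commute_of_normal_of_disjoint _ _ hPn hKn (disjoint_iff.2 hinf) x y hxP hyK
  · intro h
    let P : Sylow p G := default
    have hPcomm : ∀ x ∈ (P : Subgroup G), ∀ y : G, (∃ q b : ℕ, q.Prime ∧ q ≠ p ∧ orderOf y = q ^ b) →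
        x * y = y * x := fun x hx y hy => h x y (exists_orderOf_eq hp P.isPGroup' hx) hy
    have hPn : (P : Subgroup G).Normal := by
      rw [← Subgroup.normalizer_eq_top_iff]
      apply eq_top_of_sylow_le
      intro q hq
      have : Fact q.Prime := ⟨hq⟩
      by_cases hqp : q = p
      · subst hqp
        exact ⟨P, Subgroup.le_normalizer⟩
      · refine ⟨default, ?_⟩
        intro y hy
        obtain ⟨b, hb⟩ := exists_orderOf_eq hq (Sylow.isPGroup' _) hy
        apply Subgroup.centralizer_le_normalizer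
        rw [Subgroup.mem_centralizer_iff]
        intro x hx
        exact hPcomm x hx y ⟨q, b, hq, hqp, hb⟩
    obtain ⟨K, hK⟩ := Subgroup.exists_right_complement'_of_coprime P.card_coprime_index
    have hKidx : Nat.card K = (P : Subgroup G).index := hK.symm.index_eq_card.symm
    have hpK : ¬ p ∣ Nat.card K := by rw [hKidx]; exact P.not_dvd_index
    have hKcen : K ≤ Subgroup.centralizer ((P : Subgroup G) : Set G) := by
      have h1 : (Subgroup.centralizer ((P : Subgroup G) : Set G)).subgroupOf K = ⊤ := by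
        apply eq_top_of_sylow_le
        intro q hq
        have : Fact q.Prime := ⟨hq⟩
        refine ⟨default, ?_⟩
        intro y hy
        rw [Subgroup.mem_subgroupOf, Subgroup.mem_centralizer_iff]
        intro x hx
        obtain ⟨b, hb⟩ := exists_orderOf_eq hq (Sylow.isPGroup' _) hy
        by_cases hqp : q = p
        · subst hqp
          have h2 : orderOf y ∣ Nat.card K := orderOf_dvd_natCard y
          rcases Nat.eq_zero_or_pos b with rfl | hb0
          · rw [pow_zero, orderOf_eq_one_iff] at hb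
            rw [hb]; simp
          · exact absurd ((dvd_pow_self q hb0.ne').trans (hb ▸ h2)) hpK
        · exact hPcomm x hx y ⟨q, b, hq, hqp, by rw [Subgroup.orderOf_coe]; exact hb⟩
      rwa [Subgroup.subgroupOf_eq_top] at h1
    refine ⟨P, K, hPn, ?_, hK.isCompl.inf_eq_bot, hK.sup_eq_top⟩
    rw [← Subgroup.normalizer_eq_top_iff, eq_top_iff, ← hK.sup_eq_top, sup_le_iff]
    refine ⟨?_, Subgroup.le_normalizer⟩
    refine le_trans ?_ (Subgroup.centralizer_le_normalizer _)
    rwa [Subgroup.le_centralizer_iff]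

end Cfsg.Agent.S3986
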