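import Cfsg.Statements.S3987
import Cfsg.Agent.H493.PrimePow

set_option autoImplicit false
open Cfsg

namespace Cfsg.Agent.S3987

universe u

variable {G : Type u} [Group G] [Finite G]

theorem eq_of_index_le {A B : Subgroup G} (h : A ≤ B) (hi : A.index ≤ B.index) : A = B := by
  apply Subgroup.eq_of_le_of_card_ge h
  have h1 := Subgroup.card_mul_index A
  have h2 := Subgroup.card_mul_index B
  have hB : 0 < B.index := Nat.pos_of_ne_zero Subgroup.FiniteIndex.index_ne_zero
  by_contra hlt
  push Not at hlt
  have h3 : Nat.card A * A.index < Nat.card B * B.index :=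
    calc Nat.card A * A.index ≤ Nat.card A * B.index := Nat.mul_le_mul_left _ hi
      _ < Nat.card B * B.index := Nat.mul_lt_mul_of_pos_right hlt hB
  omega

/-- Equality of the class sizes forces commutation. -/
theorem comm_of_index {x y : G} (h : (Subgroup.centralizer ({x * y} : Set G)).index =
    (Subgroup.centralizer ({x} : Set G)).index * (Subgroup.centralizer ({y} : Set G)).index) :
    x * y = y * x := by
  have hle : Subgroup.centralizer ({x} : Set G) ⊓ Subgroup.centralizer ({y} : Set G) ≤
      Subgroup.centralizer ({x * y} : Set G) := by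
    intro g hg
    have h1 := Subgroup.mem_centralizer_singleton_iff.mp (Subgroup.mem_inf.mp hg).1
    have h2 := Subgroup.mem_centralizer_singleton_iff.mp (Subgroup.mem_inf.mp hg).2
    rw [Subgroup.mem_centralizer_singleton_iff]
    rw [← mul_assoc, h1, mul_assoc, h2, mul_assoc]
  have he := eq_of_index_le hle (by rw [h]; exact Subgroup.index_inf_le)
  have h1 : x * y ∈ Subgroup.centralizer ({x * y} : Set G) :=
    Subgroup.mem_centralizer_singleton_iff.mpr rfl
  rw [← he] at h1
  have h2 := Subgroup.mem_centralizer_singleton_iff.mp h1.1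
  have h3 : x * (y * x) = x * (x * y) := by rw [← mul_assoc, h2]
  exact (mul_left_cancel h3).symm

theorem index_of_commute {p : ℕ} [hp : Fact p.Prime] (P : Sylow p G) (K : Subgroup G)
    (hP : (P : Subgroup G).Normal) (hK : K.Normal) (h1 : (P : Subgroup G) ⊓ K = ⊥)
    (h2 : (P : Subgroup G) ⊔ K = ⊤) (x y : G) (hx : ∃ a : ℕ, orderOf x = p ^ a)
    (hy : ∃ q b : ℕ, q.Prime ∧ q ≠ p ∧ orderOf y = q ^ b) :
    (Subgroup.centralizer ({x * y} : Set G)).index =
      (Subgroup.centralizer ({x} : Set G)).index * (Subgroup.centralizer ({y} : Set G)).index := by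
  have hcompl : Subgroup.IsComplement' (P : Subgroup G) K :=
    Subgroup.isComplement'_of_disjoint_and_mul_eq_univ (disjoint_iff.mpr h1) (by
      rw [← Subgroup.mul_normal, h2]; rfl)
  have hKi : K.index = Nat.card P := hcompl.index_eq_card
  have hcardK : Nat.card K = (P : Subgroup G).index := hcompl.symm.index_eq_card.symm
  have hcomm : ∀ a ∈ (P : Subgroup G), ∀ b ∈ K, a * b = b * a := by
    intro a ha b hb
    have h3 : a * b * a⁻¹ * b⁻¹ ∈ (P : Subgroup G) ⊓ K := by
      refine Subgroup.mem_inf.mpr ⟨?_, mul_mem (hK.conj_mem _ hb a) (inv_mem hb)⟩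
      have h5 : b * a⁻¹ * b⁻¹ ∈ (P : Subgroup G) := hP.conj_mem _ (inv_mem ha) b
      have h4 := mul_mem ha h5
      convert h4 using 1
      group
    rw [h1, Subgroup.mem_bot] at h3
    have h6 : a * b * a⁻¹ * b⁻¹ * (b * a) = b * a := by rw [h3, one_mul]
    rw [← h6]; group
  obtain ⟨a, ha⟩ := hx
  obtain ⟨q, b, hq, hqp, hb⟩ := hy
  have hxP : x ∈ (P : Subgroup G) := by
    have hz : IsPGroup p (Subgroup.zpowers x) :=
      IsPGroup.of_card (n := a) (by rw [Nat.card_zpowers, ha])
    have hsub : Subgroup.zpowers x ≤ (P : Subgroup G) := by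
      obtain ⟨Q, hQ⟩ := hz.exists_le_sylow
      have := Sylow.unique_of_normal P hP
      rw [Subsingleton.elim P Q]
      exact hQ
    exact hsub (Subgroup.mem_zpowers x)
  have hyK : y ∈ K := by
    rw [← QuotientGroup.eq_one_iff]
    have h3 : orderOf (QuotientGroup.mk' K y) ∣ q ^ b := hb ▸ orderOf_map_dvd _ y
    have h4 : orderOf (QuotientGroup.mk' K y) ∣ Nat.card P := by
      rw [← hKi, Subgroup.index_eq_card]
      exact orderOf_dvd_natCard _
    obtain ⟨n, hn⟩ := IsPGroup.iff_card.mp P.isPGroup'
    rw [hn] at h4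
    have h5 : Nat.Coprime (q ^ b) (p ^ n) :=
      Nat.Coprime.pow _ _ ((Nat.coprime_primes hq hp.out).mpr hqp)
    have h6 := Nat.eq_one_of_dvd_coprimes h5 h3 h4
    exact orderOf_eq_one_iff.mp h6
  have hxy := hcomm x hxP y hyK
  have hcop : Nat.Coprime (orderOf x) (orderOf y) := by
    rw [ha, hb]
    exact Nat.Coprime.pow _ _ ((Nat.coprime_primes hp.out hq).mpr hqp.symm)
  -- `C(xy) = C(x) ∩ C(y)`
  have hC : Subgroup.centralizer ({x * y} : Set G) =
      Subgroup.centralizer ({x} : Set G) ⊓ Subgroup.centralizer ({y} : Set G) := by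
    apply le_antisymm
    · intro g hg
      rw [Subgroup.mem_centralizer_singleton_iff] at hg
      have hg' : Commute g (x * y) := hg
      have hc : Commute x y := hxy
      obtain ⟨k, hk1, hk2⟩ := Nat.chineseRemainder hcop 1 0
      have e1 : (x * y) ^ k = x := by
        rw [hc.mul_pow]
        have e2 : x ^ k = x ^ 1 := pow_eq_pow_iff_modEq.mpr hk1
        have e3 : y ^ k = y ^ 0 := pow_eq_pow_iff_modEq.mpr hk2
        rw [e2, e3, pow_one, pow_zero, mul_one]
      have hgx : Commute g x := by
        have := hg'.pow_right k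
        rwa [e1] at this
      have hgy : Commute g y := by
        have h7 : Commute g (x⁻¹ * (x * y)) := hgx.inv_right.mul_right hg'
        rwa [inv_mul_cancel_left] at h7
      exact ⟨Subgroup.mem_centralizer_singleton_iff.mpr hgx,
        Subgroup.mem_centralizer_singleton_iff.mpr hgy⟩
    · intro g hg
      have h1 := Subgroup.mem_centralizer_singleton_iff.mp (Subgroup.mem_inf.mp hg).1
      have h2 := Subgroup.mem_centralizer_singleton_iff.mp (Subgroup.mem_inf.mp hg).2
      rw [Subgroup.mem_centralizer_singleton_iff]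
      rw [← mul_assoc, h1, mul_assoc, h2, mul_assoc]
  rw [hC]
  apply le_antisymm Subgroup.index_inf_le
  have hd1 : (Subgroup.centralizer ({x} : Set G)).index ∣ K.index :=
    Subgroup.index_dvd_of_le (fun k hk => Subgroup.mem_centralizer_singleton_iff.mpr
      (hcomm x hxP k hk).symm)
  have hd2 : (Subgroup.centralizer ({y} : Set G)).index ∣ (P : Subgroup G).index :=
    Subgroup.index_dvd_of_le (fun k hk => Subgroup.mem_centralizer_singleton_iff.mpr
      (hcomm k hk y hyK))
  have hcop2 : Nat.Coprime (Subgroup.centralizer ({x} : Set G)).index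
      (Subgroup.centralizer ({y} : Set G)).index := by
    refine Nat.Coprime.coprime_dvd_left hd1 (Nat.Coprime.coprime_dvd_right hd2 ?_)
    rw [hKi]
    obtain ⟨n, hn⟩ := IsPGroup.iff_card.mp P.isPGroup'
    rw [hn]
    exact Nat.Coprime.pow_left _ ((Nat.Prime.coprime_iff_not_dvd hp.out).mpr P.not_dvd_index)
  apply Nat.le_of_dvd (Nat.pos_of_ne_zero Subgroup.FiniteIndex.index_ne_zero)
  exact hcop2.mul_dvd_of_dvd_of_dvd (Subgroup.index_dvd_of_le inf_le_left)
    (Subgroup.index_dvd_of_le inf_le_right)

theorem exists_of_commute {p : ℕ} [hp : Fact p.Prime]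
    (h : ∀ x y : G, (∃ a : ℕ, orderOf x = p ^ a) →
      (∃ q b : ℕ, q.Prime ∧ q ≠ p ∧ orderOf y = q ^ b) → x * y = y * x) :
    ∃ (P : Sylow p G) (K : Subgroup G), (P : Subgroup G).Normal ∧ K.Normal ∧
      (P : Subgroup G) ⊓ K = ⊥ ∧ (P : Subgroup G) ⊔ K = ⊤ := by
  obtain ⟨P⟩ : Nonempty (Sylow p G) := inferInstance
  have hPord : ∀ x ∈ (P : Subgroup G), ∃ a : ℕ, orderOf x = p ^ a := fun x hx => by
    obtain ⟨a, ha⟩ := (IsPGroup.iff_orderOf.mp P.isPGroup') ⟨x, hx⟩
    exact ⟨a, by rw [← ha, Subgroup.orderOf_mk]⟩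
  -- elements of order prime to `p` centralise `P`
  have hcen : ∀ y : G, ¬ p ∣ orderOf y → ∀ x ∈ (P : Subgroup G), x * y = y * x := by
    intro y hy x hx
    have h1 : y ∈ Subgroup.centralizer ({x} : Set G) := by
      refine H493.mem_of_primePow _ (orderOf y) y rfl (orderOf_pos y) ?_
      intro k q b hq hb
      rw [Subgroup.mem_centralizer_singleton_iff]
      by_cases hqp : q = p
      · subst hqp
        have hb0 : b = 0 := by
          by_contra hb0
          exact hy ((dvd_pow_self q hb0).trans (hb ▸ orderOf_pow_dvd k))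
        rw [hb0, pow_zero, orderOf_eq_one_iff] at hb
        rw [hb, one_mul, mul_one]
      · exact (h x (y ^ k) (hPord x hx) ⟨q, b, hq, hqp, hb⟩).symm
    exact (Subgroup.mem_centralizer_singleton_iff.mp h1).symm
  -- the normalizer of `P` is everything
  have hnorm : (P : Subgroup G).Normal := by
    rw [← Subgroup.normalizer_eq_top_iff, ← Subgroup.index_eq_one]
    by_contra hne
    obtain ⟨q, hq, hqd⟩ := Nat.exists_prime_and_dvd hne
    haveI : Fact q.Prime := ⟨hq⟩
    by_cases hqp : q = p
    · subst hqp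
      exact P.not_dvd_index (hqd.trans (Subgroup.index_dvd_of_le Subgroup.le_normalizer))
    · obtain ⟨Q⟩ : Nonempty (Sylow q G) := inferInstance
      refine Q.not_dvd_index (hqd.trans (Subgroup.index_dvd_of_le ?_))
      intro y hy
      obtain ⟨b, hb⟩ := (IsPGroup.iff_orderOf.mp Q.isPGroup') ⟨y, hy⟩
      rw [Subgroup.orderOf_mk] at hb
      have hyp : ∀ x ∈ (P : Subgroup G), x * y = y * x := hcen y (by
        rw [hb]; intro hd
        exact hqp ((Nat.prime_dvd_prime_iff_eq hp.out hq).mp (hp.out.dvd_of_dvd_pow hd)).symm)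
      rw [Subgroup.mem_normalizer_iff]
      intro x
      constructor
      · intro hx; rw [← hyp x hx, mul_inv_cancel_right]; exact hx
      · intro hx
        have h2 := hyp _ hx
        have h3 : y * x * y⁻¹ = x := by
          have : y * (y * x * y⁻¹) = y * x := by rw [← h2]; group
          exact mul_left_cancel this
        rwa [h3] at hx
  haveI := hnorm
  have hcop : Nat.Coprime (Nat.card P) (P : Subgroup G).index := by
    obtain ⟨n, hn⟩ := IsPGroup.iff_card.mp P.isPGroup'
    rw [hn]
    exact Nat.Coprime.pow_left _ ((Nat.Prime.coprime_iff_not_dvd hp.out).mpr P.not_dvd_index)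
  obtain ⟨K, hK⟩ := Subgroup.exists_right_complement'_of_coprime hcop
  have hcardK : Nat.card K = (P : Subgroup G).index := hK.symm.index_eq_card.symm
  have hsup : (P : Subgroup G) ⊔ K = ⊤ := hK.sup_eq_top
  refine ⟨P, K, hnorm, ?_, disjoint_iff.mp hK.disjoint, hsup⟩
  rw [← Subgroup.normalizer_eq_top_iff, eq_top_iff, ← hsup, sup_le_iff]
  refine ⟨?_, Subgroup.le_normalizer⟩
  intro x hx
  have hKc : ∀ y ∈ K, x * y = y * x := fun y hy => hcen y (by
    intro hd
    have h1 : orderOf y ∣ Nat.card K := Subgroup.orderOf_dvd_natCard K hy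
    exact P.not_dvd_index (hcardK ▸ hd.trans h1)) x hx
  rw [Subgroup.mem_normalizer_iff]
  intro y
  constructor
  · intro hy; rw [hKc y hy, mul_inv_cancel_right]; exact hy
  · intro hy
    have h2 := hKc _ hy
    have h3 : x * y * x⁻¹ = y := by
      have h4 : x * (x * y * x⁻¹) = x * y := by rw [h2]; group
      exact mul_left_cancel h4
    rwa [h3] at hy

/-- Let p be a prime and G a finite group. Then some Sylow p-subgroup of G is a direct factor of G (normal with a normal complement) if and only if for every element x of p-power order and every element y whose order is a power of a prime other than p, the conjugacy class of x y has as many elements as the product of the sizes of the classes of x and of y. -/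
theorem result {G : Type*} [Group G] [Finite G] (p : ℕ) [Fact p.Prime] : (∃ (P : Sylow p G) (K : Subgroup G), (P : Subgroup G).Normal ∧ K.Normal ∧ (P : Subgroup G) ⊓ K = ⊥ ∧ (P : Subgroup G) ⊔ K = ⊤) ↔ ∀ x y : G, (∃ a : ℕ, orderOf x = p ^ a) → (∃ q b : ℕ, q.Prime ∧ q ≠ p ∧ orderOf y = q ^ b) → (Subgroup.centralizer ({x * y} : Set G)).index = (Subgroup.centralizer ({x} : Set G)).index * (Subgroup.centralizer ({y} : Set G)).index := by
  constructor
  · rintro ⟨P, K, hP, hK, h1, h2⟩ x y hx hy
    exact index_of_commute P K hP hK h1 h2 x y hx hy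
  · intro h
    exact exists_of_commute (fun x y hx hy => comm_of_index (h x y hx hy))

end Cfsg.Agent.S3987
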