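import Cfsg.Statements.S4002
import Cfsg.Agent.H496.ThreePrimes

set_option autoImplicit false
open Cfsg

namespace Cfsg.Agent.S4002

/-- If the set of element orders of a finite group G is {1, 2, …, n} with n ≥ 7, then G is not solvable. -/
theorem result {G : Type*} [Group G] [Finite G] (n : ℕ) (hn : 7 ≤ n) (h : Set.range (orderOf : G → ℕ) = {k : ℕ | 1 ≤ k ∧ k ≤ n}) : ¬ Group.IsSolvable G := by
  intro hsol
  obtain ⟨p, q, r, hp, hq, hr, hpq, hqr, hrn, hlt⟩ :=
    Cfsg.Agent.H496.ThreePrimes.exists_primes hn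
  have hdvd : ∀ a : ℕ, a.Prime → a ≤ n → a ∣ Nat.card G := by
    intro a ha han
    have h1 : a ∈ Set.range (orderOf : G → ℕ) := by
      rw [h]
      exact ⟨ha.one_lt.le, han⟩
    obtain ⟨g, hg⟩ := h1
    rw [← hg]
    exact orderOf_dvd_natCard g
  have hle : ∀ g : G, orderOf g ≤ n := by
    intro g
    have h1 : orderOf g ∈ Set.range (orderOf : G → ℕ) := ⟨g, rfl⟩
    rw [h] at h1
    exact h1.2
  have h1 : p * q ≤ p * r := Nat.mul_le_mul_left _ hqr.le
  have h2 : p * q ≤ q * r := Nat.mul_le_mul hpq.le hqr.le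
  rcases Cfsg.Agent.H496.ThreePrimes.three_primes (G := G) hp hq hr hpq.ne (hpq.trans hqr).ne
    hqr.ne (hdvd p hp (by omega)) (hdvd q hq (by omega)) (hdvd r hr hrn) with
    ⟨g, hg⟩ | ⟨g, hg⟩ | ⟨g, hg⟩
  all_goals
    have h3 := hle g
    omega

end Cfsg.Agent.S4002
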