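import Cfsg.Statements.S4013

set_option autoImplicit false
open Cfsg

namespace Cfsg.Agent.S4013

/-- Let G be a finite p-group (p prime) and N < M normal subgroups of G such that for some g ∈ M ∖ N the conjugacy class of g is exactly M ∖ N. Then p = 2 and N has index 2 in M. -/
theorem result {G : Type*} [Group G] [Finite G] (p : ℕ) [Fact p.Prime] (hG : IsPGroup p G) (N M : Subgroup G) [N.Normal] [M.Normal] (hNM : N < M) (g : G) (hgM : g ∈ M) (hgN : g ∉ N) (hcl : {h : G | IsConj g h} = (M : Set G) \ (N : Set G)) : p = 2 ∧ N.relIndex M = 2 := by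
  have hp : p.Prime := Fact.out
  -- size of the class is a p-power
  have hcard : ∃ k : ℕ, Nat.card {h : G | IsConj g h} = p ^ k := by
    have h3 : MulAction.orbit (ConjAct G) g = {h : G | IsConj g h} := by
      ext h
      rw [ConjAct.mem_orbit_conjAct, Set.mem_ofPred_eq]
      exact isConj_comm
    have h1 : Nat.card {h : G | IsConj g h} ∣ Nat.card G := by
      rw [← h3, Nat.card_coe_set_eq, ← MulAction.index_stabilizer]
      exact Subgroup.index_dvd_card _
    obtain ⟨n, hn⟩ := IsPGroup.iff_card.mp hG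
    rw [hn] at h1
    obtain ⟨k, -, hk⟩ := (Nat.dvd_prime_pow hp).mp h1
    exact ⟨k, hk⟩
  obtain ⟨k, hk⟩ := hcard
  have hrel : Nat.card N * N.relIndex M = Nat.card M := by
    have h := Subgroup.relIndex_mul_relIndex (⊥ : Subgroup G) N M bot_le hNM.le
    rwa [Subgroup.relIndex_bot_left, Subgroup.relIndex_bot_left] at h
  rw [hcl, Nat.card_coe_set_eq, Set.ncard_diff hNM.le (Set.toFinite _)] at hk
  have hM : (M : Set G).ncard = Nat.card M := (Nat.card_coe_set_eq _).symm
  have hN : (N : Set G).ncard = Nat.card N := (Nat.card_coe_set_eq _).symm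
  rw [hM, hN, ← hrel] at hk
  -- relative index is p^j
  obtain ⟨m, hm⟩ : ∃ m : ℕ, N.relIndex M = p ^ m := by
    obtain ⟨n, hn⟩ := IsPGroup.iff_card.mp (hG.to_subgroup M)
    have h1 : N.relIndex M ∣ p ^ n := by
      rw [← hn, ← hrel]; exact dvd_mul_left _ _
    obtain ⟨m, -, hm⟩ := (Nat.dvd_prime_pow hp).mp h1
    exact ⟨m, hm⟩
  have hne : N.relIndex M ≠ 1 := by
    intro h
    exact hNM.not_ge (Subgroup.relIndex_eq_one.mp h)
  have hm0 : m ≠ 0 := by
    rintro rfl
    exact hne (by rw [hm, pow_zero])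
  have hk' : Nat.card N * (N.relIndex M - 1) = p ^ k := by
    rw [Nat.mul_sub, mul_one]; exact hk
  have hdvd : N.relIndex M - 1 ∣ p ^ k := ⟨_, by rw [← hk', mul_comm]⟩
  obtain ⟨j, -, hj⟩ := (Nat.dvd_prime_pow hp).mp hdvd
  have hpm : 1 ≤ p ^ m := Nat.one_le_pow _ _ hp.pos
  rw [hm] at hj
  have hj0 : j = 0 := by
    by_contra hj0
    have h1 : p ∣ p ^ m - 1 := by rw [hj]; exact dvd_pow_self p hj0
    have h2 : p ∣ p ^ m := dvd_pow_self p hm0
    have h3 : p ∣ p ^ m - (p ^ m - 1) := Nat.dvd_sub h2 h1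
    have h4 : p ^ m - (p ^ m - 1) = 1 := by omega
    rw [h4] at h3
    exact hp.one_lt.ne' (Nat.dvd_one.mp h3)
  rw [hj0, pow_zero] at hj
  have h2 : p ^ m = 2 := by omega
  have hpd : p ∣ 2 := by rw [← h2]; exact dvd_pow_self p hm0
  have hp2 : p = 2 := (Nat.prime_dvd_prime_iff_eq hp Nat.prime_two).mp hpd
  exact ⟨hp2, by rw [hm, h2]⟩

end Cfsg.Agent.S4013
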