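import Cfsg.Statements.S4020
import Cfsg.Agent.H500.NoCube

set_option autoImplicit false
open Cfsg

namespace Cfsg.Agent.S4020

/-- Let G be a finite group in which, for every prime p, any two p-subgroups of the same order are conjugate. Then every Sylow subgroup of G is cyclic, elementary abelian, or a quaternion group of order 8. -/
theorem result {G : Type*} [Group G] [Finite G]
    (hD : ∀ p : ℕ, p.Prime → ∀ H K : Subgroup G, IsPGroup p H → IsPGroup p K → Nat.card H = Nat.card K →
      ∃ g : G, K = H.map (MulAut.conj g).toMonoidHom) {p : ℕ} [Fact p.Prime] (P : Sylow p G) :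
    IsCyclic P ∨ Cfsg.IsElementaryAbelian p (P : Subgroup G) ∨ Nonempty ((P : Subgroup G) ≃* QuaternionGroup 2) := by
  rcases H501.EqConj.types (hD p Fact.out) (P : Subgroup G) P.isPGroup' with h | h | ⟨-, h⟩ | ⟨h1, h2, h3, h4⟩
  · exact Or.inl h
  · exact Or.inr (Or.inl h)
  · exact Or.inr (Or.inr h)
  · exfalso
    refine H500.no_cube_main h1 (hD p Fact.out) (hD 2 Nat.prime_two) P h3 ?_ ?_
    · intro a ha
      have := Monoid.pow_exponent_eq_one (⟨a, ha⟩ : (P : Subgroup G))
      rw [h4] at this
      exact congrArg Subtype.val this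
    · intro h
      exact h2 ⟨⟨fun a b => Subtype.ext (h a a.2 b b.2)⟩⟩

end Cfsg.Agent.S4020
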