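import Cfsg.Statements.S4025
import Cfsg.Agent.H501.AffRec
import Cfsg.Agent.H501.EqOrderG
import Cfsg.Agent.Lib.PSolvable
import Cfsg.Agent.Lib.Cores

set_option autoImplicit false
open Cfsg

namespace Cfsg.Agent.S4025

open Subgroup

/-- Burnside: subgroups of an abelian Sylow subgroup that are conjugate are conjugate in its normaliser. -/
theorem burnside {G : Type*} [Group G] [Finite G] {p : ℕ} [Fact p.Prime] (P : Sylow p G)
    (hc : ∀ a ∈ (P : Subgroup G), ∀ b ∈ (P : Subgroup G), a * b = b * a) (X Y : Subgroup G)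
    (hX : X ≤ (P : Subgroup G)) (hY : Y ≤ (P : Subgroup G)) (g : G)
    (hg : Y = X.map (MulAut.conj g).toMonoidHom) :
    ∃ n ∈ normalizer ((P : Subgroup G) : Set G), Y = X.map (MulAut.conj n).toMonoidHom := by
  set C : Subgroup G := centralizer (Y : Set G) with hC
  have hPC : (P : Subgroup G) ≤ C := by
    intro a ha
    rw [hC, mem_centralizer_iff]
    intro y hy
    exact hc y (hY hy) a ha
  have hgC : ((g • P : Sylow p G) : Subgroup G) ≤ C := by
    intro a ha
    rw [Sylow.coe_subgroup_smul, Subgroup.mem_pointwise_smul_iff_inv_smul_mem] at ha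
    have ha' : g⁻¹ * a * g ∈ (P : Subgroup G) := by
      simpa [MulAut.smul_def] using ha
    rw [hC, mem_centralizer_iff]
    intro y hy
    rw [hg] at hy
    obtain ⟨x, hx, rfl⟩ := hy
    have h1 := hc x (hX hx) _ ha'
    show (g * x * g⁻¹) * a = a * (g * x * g⁻¹)
    calc (g * x * g⁻¹) * a = g * (x * (g⁻¹ * a * g)) * g⁻¹ := by group
      _ = g * ((g⁻¹ * a * g) * x) * g⁻¹ := by rw [h1]
      _ = a * (g * x * g⁻¹) := by group
  obtain ⟨c, hcc⟩ := MulAction.exists_smul_eq C ((g • P).subtype hgC) (P.subtype hPC)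
  refine ⟨(c : G) * g, ?_, ?_⟩
  · have h1 : ∀ a ∈ (P : Subgroup G), ((c : G) * g) * a * ((c : G) * g)⁻¹ ∈ (P : Subgroup G) := by
      intro a ha
      have h2 : g * a * g⁻¹ ∈ ((g • P : Sylow p G) : Subgroup G) := by
        rw [Sylow.coe_subgroup_smul]
        exact Subgroup.smul_mem_pointwise_smul a (MulAut.conj g) _ ha
      have h3 : (⟨g * a * g⁻¹, hgC h2⟩ : C) ∈ ((g • P).subtype hgC : Subgroup C) := by
        rw [Sylow.coe_subtype, Subgroup.mem_subgroupOf]; exact h2
      have h4 : c * ⟨g * a * g⁻¹, hgC h2⟩ * c⁻¹ ∈ (P.subtype hPC : Subgroup C) := by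
        rw [← hcc, Sylow.coe_subgroup_smul]
        exact Subgroup.smul_mem_pointwise_smul _ (MulAut.conj c) _ h3
      rw [Sylow.coe_subtype, Subgroup.mem_subgroupOf] at h4
      have h5 : ((c * ⟨g * a * g⁻¹, hgC h2⟩ * c⁻¹ : C) : G) = ((c : G) * g) * a * ((c : G) * g)⁻¹ := by
        push_cast; group
      rwa [h5] at h4
    have h6 : (P : Subgroup G).map (MulAut.conj ((c : G) * g)).toMonoidHom = (P : Subgroup G) := by
      apply eq_of_le_of_card_ge
      · rintro _ ⟨a, ha, rfl⟩
        exact h1 a ha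
      · rw [Subgroup.card_map_of_injective (MulAut.conj _).injective]
    rw [mem_normalizer_iff]
    intro a
    refine ⟨h1 a, fun ha => ?_⟩
    have h7 : ((c : G) * g) * a * ((c : G) * g)⁻¹ ∈ (P : Subgroup G).map (MulAut.conj ((c : G) * g)).toMonoidHom := by
      rw [h6]; exact ha
    obtain ⟨w, hw, hw'⟩ := h7
    have h8 : w = a := (MulAut.conj ((c : G) * g)).injective hw'
    exact h8 ▸ hw
  · have h1 : ∀ y ∈ Y, (c : G) * y * (c : G)⁻¹ = y := by
      intro y hy
      have := mem_centralizer_iff.mp c.2 y hy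
      rw [← this, mul_inv_cancel_right]
    symm
    apply eq_of_le_of_card_ge
    · rintro _ ⟨x, hx, rfl⟩
      show ((c : G) * g) * x * ((c : G) * g)⁻¹ ∈ Y
      have hy : g * x * g⁻¹ ∈ Y := by rw [hg]; exact ⟨x, hx, rfl⟩
      have h2 : ((c : G) * g) * x * ((c : G) * g)⁻¹ = (c : G) * (g * x * g⁻¹) * (c : G)⁻¹ := by group
      rw [h2, h1 _ hy]
      exact hy
    · rw [Subgroup.card_map_of_injective (MulAut.conj _).injective, hg,
        Subgroup.card_map_of_injective (MulAut.conj _).injective]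

/-- Let p be a prime and G a finite group in which any two p-subgroups of the same order are conjugate, and suppose a Sylow p-subgroup P of G is elementary abelian of order pⁿ with n ≥ 3. Let N be the normalizer of P and K the largest normal subgroup of N of order prime to p, and assume N/K is solvable. Then either n = 3 and N/K embeds in the one-dimensional semi-affine group over the field with p³ elements (and for p = 2 it is isomorphic to the affine or the semi-affine group over the field with 8 elements), or n = 5, p = 2 and N/K is isomorphic to the one-dimensional semi-affine group over the field with 32 elements. -/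
theorem result {G : Type*} [Group G] [Finite G]
    {p : ℕ} [Fact p.Prime] (hC : ∀ H K : Subgroup G, IsPGroup p H → IsPGroup p K → Nat.card H = Nat.card K →
      ∃ g : G, K = H.map (MulAut.conj g).toMonoidHom) (P : Sylow p G) (n : ℕ) (hn : 3 ≤ n)
    (hel : Cfsg.IsElementaryAbelian p (P : Subgroup G)) (hcard : Nat.card P = p ^ n)
    (N : Subgroup G) (hN : N = Subgroup.normalizer ((P : Subgroup G) : Set G))
    (hsolv : Group.IsSolvable (↥N ⧸ Cfsg.pPrimeCore p ↥N)) :
    (n = 3 ∧ (∃ f : ↥N ⧸ Cfsg.pPrimeCore p ↥N →* ↥(Cfsg.semiaffineGroup (GaloisField p 3)), Function.Injective f) ∧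
      (p = 2 → Nonempty (↥N ⧸ Cfsg.pPrimeCore p ↥N ≃* Cfsg.semiaffineGroup (GaloisField 2 3)) ∨
               Nonempty (↥N ⧸ Cfsg.pPrimeCore p ↥N ≃* Cfsg.affineGroup (GaloisField 2 3)))) ∨
    (n = 5 ∧ p = 2 ∧ Nonempty (↥N ⧸ Cfsg.pPrimeCore p ↥N ≃* Cfsg.semiaffineGroup (GaloisField 2 5))) := by
  classical
  have hc : ∀ a ∈ (P : Subgroup G), ∀ b ∈ (P : Subgroup G), a * b = b * a := fun a ha b hb =>
    congrArg Subtype.val (hel.1.is_comm.comm (⟨a, ha⟩ : (P : Subgroup G)) ⟨b, hb⟩)
  have hPN : (P : Subgroup G) ≤ N := hN ▸ le_normalizer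
  set K := Cfsg.pPrimeCore p ↥N with hK
  have hKn : K.Normal := Lib.Cores.pPrimeCore_normal p
  have hKc : (Nat.card K).Coprime p := Lib.Cores.pPrimeCore_coprime p
  let f : N →* N ⧸ K := QuotientGroup.mk' K
  have hf : Function.Surjective f := QuotientGroup.mk'_surjective K
  let P' : Sylow p N := P.subtype hPN
  have hP'c : ((P' : Sylow p N) : Subgroup N) = (P : Subgroup G).subgroupOf N := rfl
  have hP'n : (P' : Subgroup N).Normal := by
    rw [hP'c]
    exact Subgroup.normal_subgroupOf_of_le_normalizer (hN ▸ le_rfl)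
  let Q : Sylow p (N ⧸ K) := P'.mapSurjective hf
  let S : Subgroup (N ⧸ K) := Q
  have hSmap : S = (P' : Subgroup N).map f := Sylow.coe_mapSurjective hf P'
  have hSn : S.Normal := by
    rw [hSmap]; exact hP'n.map f hf
  have hmemS : ∀ x ∈ S, ∃ (a : G) (ha : a ∈ (P : Subgroup G)), x = f ⟨a, hPN ha⟩ := by
    intro x hx
    rw [hSmap] at hx
    obtain ⟨y, hy, rfl⟩ := hx
    exact ⟨y, hy, rfl⟩
  have hSc : ∀ a ∈ S, ∀ b ∈ S, a * b = b * a := by
    intro x hx y hy
    obtain ⟨a, ha, rfl⟩ := hmemS x hx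
    obtain ⟨b, hb, rfl⟩ := hmemS y hy
    rw [← map_mul, ← map_mul]
    congr 1
    exact Subtype.ext (hc a ha b hb)
  have hSe : ∀ a ∈ S, a ^ p = 1 := by
    intro x hx
    obtain ⟨a, ha, rfl⟩ := hmemS x hx
    rw [← map_pow]
    have : (⟨a, hPN ha⟩ : N) ^ p = 1 := Subtype.ext (hel.2 a ha)
    rw [this, map_one]
  have hdisj : Disjoint (P' : Subgroup N) K := by
    apply Subgroup.disjoint_of_coprime_natCard
    obtain ⟨k, hk⟩ := IsPGroup.iff_card.mp P'.isPGroup'
    rw [hk]
    exact (hKc.pow_right k).symm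
  have hinjP : ∀ x ∈ (P' : Subgroup N), f x = 1 → x = 1 := by
    intro x hx hfx
    have h1 : x ∈ K := (QuotientGroup.eq_one_iff x).mp hfx
    exact mem_bot.mp (hdisj.le_bot (mem_inf.mpr ⟨hx, h1⟩))
  -- the order of `S`
  have hScard : Nat.card S = p ^ n := by
    rw [← hcard]
    symm
    let e : ↥(P : Subgroup G) → ↥S := fun a => ⟨f ⟨a, hPN a.2⟩, by
      rw [hSmap]; exact ⟨_, a.2, rfl⟩⟩
    refine Nat.card_congr (Equiv.ofBijective e ⟨?_, ?_⟩)
    · intro a b hab
      have h1 : f ⟨a, hPN a.2⟩ = f ⟨b, hPN b.2⟩ := congrArg Subtype.val hab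
      have h2 : f ((⟨a, hPN a.2⟩ : N)⁻¹ * ⟨b, hPN b.2⟩) = 1 := by
        rw [map_mul, map_inv, h1, inv_mul_cancel]
      have h3 := hinjP _ (mul_mem (inv_mem (show (⟨a, hPN a.2⟩ : N) ∈ (P' : Subgroup N) from a.2))
        (show (⟨b, hPN b.2⟩ : N) ∈ (P' : Subgroup N) from b.2)) h2
      have h4 := inv_mul_eq_one.mp h3
      exact Subtype.ext (congrArg (fun t : N => (t : G)) h4)
    · rintro ⟨x, hx⟩
      obtain ⟨a, ha, rfl⟩ := hmemS x hx
      exact ⟨⟨a, ha⟩, rfl⟩
  have hcop : (Nat.card S).Coprime S.index := by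
    rw [hScard]
    apply Nat.Coprime.pow_left
    rw [Nat.Prime.coprime_iff_not_dvd Fact.out]
    exact Q.not_dvd_index
  -- the centraliser
  have hCS : centralizer (S : Set (N ⧸ K)) ≤ S := by
    have h1 : Cfsg.pPrimeCore p (N ⧸ K) = ⊥ := Lib.Cores.pPrimeCore_quotient_pPrimeCore p
    have h2 := Lib.PSolvable.centralizer_pCore_le_of_pSolvable p
      (Lib.PSolvable.IsPSolvable_of_solvable (G := N ⧸ K) p) h1
    have h3 : Cfsg.pCore p (N ⧸ K) = S := by
      apply le_antisymm
      · exact Lib.Cores.pCore_le_sylow Q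
      · exact Lib.Cores.le_pCore hSn Q.isPGroup'
    rwa [h3] at h2
  refine H501.AffRec.main hsolv S hSc hSe hScard hn hcop hCS ?_
  intro U W hU hW hUW
  let pre : Subgroup (N ⧸ K) → Subgroup N := fun U => U.comap f ⊓ (P' : Subgroup N)
  have hpre : ∀ U : Subgroup (N ⧸ K), U ≤ S → (pre U).map f = U := by
    intro U hU
    apply le_antisymm
    · rintro _ ⟨x, hx, rfl⟩
      exact hx.1
    · intro x hx
      obtain ⟨a, ha, rfl⟩ := hmemS x (hU hx)
      exact ⟨⟨a, hPN ha⟩, ⟨hx, ha⟩, rfl⟩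
  have hprec : ∀ U : Subgroup (N ⧸ K), U ≤ S → Nat.card (pre U) = Nat.card U := by
    intro U hU
    have h1 := hpre U hU
    have h2 : Nat.card ((pre U).map f) = Nat.card (pre U) := by
      let e : ↥(pre U) → ↥((pre U).map f) := fun x => ⟨f x, ⟨x, x.2, rfl⟩⟩
      symm
      refine Nat.card_congr (Equiv.ofBijective e ⟨?_, ?_⟩)
      · intro a b hab
        have h1 : f a = f b := congrArg Subtype.val hab
        have h2 : f ((a : N)⁻¹ * b) = 1 := by rw [map_mul, map_inv, h1, inv_mul_cancel]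
        have h3 := hinjP _ (mul_mem (inv_mem a.2.2) b.2.2) h2
        exact Subtype.ext (inv_mul_eq_one.mp h3)
      · rintro ⟨_, x, hx, rfl⟩
        exact ⟨⟨x, hx⟩, rfl⟩
    rw [← h2, h1]
  have hpreP : ∀ U : Subgroup (N ⧸ K), (pre U).map N.subtype ≤ (P : Subgroup G) := by
    rintro U _ ⟨x, hx, rfl⟩
    exact hx.2
  obtain ⟨g, hg⟩ := hC ((pre U).map N.subtype) ((pre W).map N.subtype)
    (P.isPGroup'.to_le (hpreP U)) (P.isPGroup'.to_le (hpreP W))
    (by rw [Subgroup.card_map_of_injective N.subtype_injective,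
      Subgroup.card_map_of_injective N.subtype_injective, hprec U hU, hprec W hW, hUW])
  obtain ⟨m, hm, hmg⟩ := burnside P hc _ _ (hpreP U) (hpreP W) g hg
  rw [← hN] at hm
  refine ⟨f ⟨m, hm⟩, ?_⟩
  have h1 : pre W = (pre U).map (MulAut.conj (⟨m, hm⟩ : N)).toMonoidHom := by
    apply Subgroup.map_injective N.subtype_injective
    rw [hmg, Subgroup.map_map, Subgroup.map_map]
    congr 1
  rw [← hpre W hW, h1]
  conv_rhs => rw [← hpre U hU]
  rw [Subgroup.map_map, Subgroup.map_map]
  congr 1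

end Cfsg.Agent.S4025
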