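import Cfsg.Statements.S4027
import Cfsg.Agent.H501.NormCent
import Cfsg.Agent.Involutions.BaerSuzuki

set_option autoImplicit false
open Cfsg

namespace Cfsg.Agent.S4027

open Subgroup

universe u

/-- An element of odd order has no even prime divisor of its order, and conversely. -/
theorem odd_of {n : ℕ} (h : ∀ r : ℕ, r.Prime → r ∣ n → r ≠ 2) : n.Coprime 2 := by
  rw [Nat.coprime_two_right]
  by_contra hodd
  rw [Nat.not_odd_iff_even] at hodd
  exact h 2 Nat.prime_two hodd.two_dvd rfl

/-- The hypothesis passes to the quotient by a normal 2-subgroup. -/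
theorem quot {G : Type u} [Group G] [Finite G] (N : Subgroup G) [N.Normal] (hN : IsPGroup 2 N)
    (hirr : ∀ x : G, (∀ r : ℕ, r.Prime → r ∣ orderOf x → r ≠ 2) →
      Subgroup.normalizer ((Subgroup.zpowers x : Subgroup G) : Set G) ≤ Subgroup.centralizer {x})
    (xb : G ⧸ N) (hx : ∀ r : ℕ, r.Prime → r ∣ orderOf xb → r ≠ 2) :
    Subgroup.normalizer ((Subgroup.zpowers xb : Subgroup (G ⧸ N)) : Set (G ⧸ N)) ≤
      Subgroup.centralizer {xb} := by
  obtain ⟨g, hg⟩ := QuotientGroup.mk'_surjective N xb
  obtain ⟨x, hxx, hxo⟩ := H501.exists_lift (QuotientGroup.mk' N) xb _ g rfl hg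
  have hx2 : ∀ r : ℕ, r.Prime → r ∣ orderOf x → r ≠ 2 := fun r hr hrx => hx r hr (hxo r hr hrx)
  have hcop : (orderOf x).Coprime (Nat.card N) := by
    obtain ⟨k, hk⟩ := hN.exists_card_eq
    rw [hk]
    exact (odd_of hx2).pow_right k
  intro yb hyb
  obtain ⟨y, rfl⟩ := QuotientGroup.mk'_surjective N yb
  subst hxx
  obtain ⟨n, hn, hny⟩ := H501.exists_mul_mem_normalizer N x y hcop hyb
  have h1 := hirr x hx2 hny
  rw [mem_centralizer_singleton_iff] at h1 ⊢
  have h2 := congrArg (QuotientGroup.mk' N) h1
  have h3 : QuotientGroup.mk' N n = 1 := (QuotientGroup.eq_one_iff n).mpr hn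
  simp only [map_mul, h3, one_mul] at h2
  exact h2

theorem aux (n : ℕ) : ∀ {G : Type u} [Group G] [Finite G], Nat.card G = n →
    (∀ x : G, (∀ r : ℕ, r.Prime → r ∣ orderOf x → r ≠ 2) →
      Subgroup.normalizer ((Subgroup.zpowers x : Subgroup G) : Set G) ≤ Subgroup.centralizer {x}) →
    ∀ P : Sylow 2 G, (P : Subgroup G).Normal := by
  induction n using Nat.strong_induction_on with
  | _ n ih =>
    intro G _ _ hcard hirr P
    by_cases h2 : 2 ∣ Nat.card G
    · haveI : Fact (Nat.Prime 2) := ⟨Nat.prime_two⟩
      obtain ⟨t, ht⟩ := exists_prime_orderOf_dvd_card' 2 h2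
      have ht1 : t ≠ 1 := by
        intro h
        rw [h, orderOf_one] at ht
        exact absurd ht (by norm_num)
      have htt : t * t = 1 := by
        rw [← pow_two, ← ht, pow_orderOf_eq_one]
      have hNp : IsPGroup 2 (normalClosure {t} : Subgroup G) := by
        by_contra hc
        obtain ⟨h, h1, hodd, hinv⟩ := Involutions.BaerSuzuki.exists_odd_inverted t htt hc
        have hx : ∀ r : ℕ, r.Prime → r ∣ orderOf h → r ≠ 2 := by
          intro r _ hrx hr2
          subst hr2
          exact (Nat.not_even_iff_odd.mpr hodd) (even_iff_two_dvd.mpr hrx)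
        have htn : t ∈ normalizer ((zpowers h : Subgroup G) : Set G) := by
          have key : ∀ z ∈ zpowers h, t * z * t⁻¹ ∈ zpowers h := by
            intro z hz
            obtain ⟨k, rfl⟩ := mem_zpowers_iff.mp hz
            have : t * h ^ k * t⁻¹ = (h⁻¹) ^ k := by
              rw [← hinv, conj_zpow]
            rw [this]
            exact zpow_mem (inv_mem (mem_zpowers h)) k
          rw [mem_normalizer_iff]
          intro z
          constructor
          · exact key z
          · intro hz
            have h3 := key _ hz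
            have htinv : t⁻¹ = t := by
              rw [inv_eq_iff_mul_eq_one]; exact htt
            have h4 : t * (t * z * t⁻¹) * t⁻¹ = z := by
              rw [htinv]
              calc t * (t * z * t) * t = (t * t) * z * (t * t) := by group
                _ = z := by rw [htt]; group
            rwa [h4] at h3
        have hc := hirr h hx htn
        rw [mem_centralizer_singleton_iff] at hc
        have h5 : h = h⁻¹ := by
          rw [← hinv, hc]; group
        have h6 : h ^ 2 = 1 := by
          rw [pow_two]
          nth_rewrite 1 [h5]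
          exact inv_mul_cancel h
        have h7 : orderOf h ∣ 2 := orderOf_dvd_of_pow_eq_one h6
        rcases (Nat.dvd_prime Nat.prime_two).mp h7 with h8 | h8
        · exact h1 (orderOf_eq_one_iff.mp h8)
        · rw [h8] at hodd
          exact absurd hodd (by decide)
      set N : Subgroup G := normalClosure {t} with hN
      have htN : t ∈ N := subset_normalClosure rfl
      have hNn : N.Normal := normalClosure_normal
      have hlt : Nat.card (G ⧸ N) < n := by
        have h9 : 1 < Nat.card N := by
          rw [Finite.one_lt_card_iff_nontrivial]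
          exact ⟨⟨t, htN⟩, 1, fun h => ht1 (congrArg Subtype.val h)⟩
        have h10 := Subgroup.card_eq_card_quotient_mul_card_subgroup N
        have h11 : 0 < Nat.card (G ⧸ N) := Nat.card_pos
        rw [← hcard, h10]
        nlinarith
      have hsurj : Function.Surjective (QuotientGroup.mk' N) := QuotientGroup.mk'_surjective N
      have hQ := ih _ hlt rfl (quot N hNp hirr) (P.mapSurjective hsurj)
      have hNP : N ≤ (P : Subgroup G) := by
        obtain ⟨Q, hQ'⟩ := hNp.exists_le_sylow
        obtain ⟨g, hg⟩ := MulAction.exists_smul_eq G Q P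
        intro z hz
        rw [← hg]
        have : (g⁻¹ * z * g⁻¹⁻¹) ∈ (Q : Subgroup G) := hQ' (hNn.conj_mem z hz g⁻¹)
        rw [Sylow.coe_subgroup_smul, Subgroup.mem_pointwise_smul_iff_inv_smul_mem]
        simpa [MulAut.smul_def] using this
      have h12 : (P : Subgroup G) = ((P.mapSurjective hsurj : Sylow 2 (G ⧸ N)) : Subgroup (G ⧸ N)).comap
          (QuotientGroup.mk' N) := by
        rw [Sylow.coe_mapSurjective, comap_map_eq, QuotientGroup.ker_mk', sup_eq_left.mpr hNP]
      rw [h12]
      exact hQ.comap _
    · have hb : (P : Subgroup G) = ⊥ := by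
        haveI : Fact (Nat.Prime 2) := ⟨Nat.prime_two⟩
        rw [← Subgroup.card_eq_one]
        obtain ⟨k, hk⟩ := P.2.exists_card_eq
        have h3 : Nat.card (P : Subgroup G) ∣ Nat.card G := Subgroup.card_subgroup_dvd_card _
        have hk' : Nat.card (P : Subgroup G) = 2 ^ k := hk
        rcases Nat.eq_zero_or_pos k with h4 | h4
        · rw [hk', h4, pow_zero]
        · exact absurd ((dvd_pow_self 2 h4.ne').trans (hk' ▸ h3)) h2
      rw [hb]
      infer_instance

/-- Let G be a finite group in which every element x of odd order satisfies N_G(⟨x⟩) = C_G(x). Then the Sylow 2-subgroups of G are normal. -/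
theorem result {G : Type*} [Group G] [Finite G]
    (hirr : ∀ x : G, (∀ r : ℕ, r.Prime → r ∣ orderOf x → r ≠ 2) →
      Subgroup.normalizer ((Subgroup.zpowers x : Subgroup G) : Set G) ≤ Subgroup.centralizer {x}) (P : Sylow 2 G) :
    (P : Subgroup G).Normal := by
  exact aux _ rfl hirr P

end Cfsg.Agent.S4027
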