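import Cfsg.Statements.S4029
import Cfsg.Agent.S0160
import Cfsg.Agent.S0012
import Cfsg.Agent.Characters.Linear

set_option autoImplicit false
open Cfsg

namespace Cfsg.Agent.S4029

open Subgroup

/-- A real element squares to one. -/
theorem sq_of_real {P : Type*} [Group P] [Finite P]
    (hirr : ∀ y : P, Subgroup.normalizer ((Subgroup.zpowers y : Subgroup P) : Set P) ≤ Subgroup.centralizer {y})
    {g : P} (hg : IsConj g g⁻¹) : g * g = 1 := by
  obtain ⟨h, hh⟩ := isConj_iff.mp hg
  have h1 : h ∈ normalizer ((zpowers g : Subgroup P) : Set P) := by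
    rw [mem_normalizer_iff]
    intro w
    simp only [mem_zpowers_iff]
    have key : ∀ k : ℤ, h * g ^ k * h⁻¹ = g ^ (-k) := by
      intro k
      rw [← conj_zpow, hh, inv_zpow, zpow_neg]
    constructor
    · rintro ⟨k, rfl⟩
      exact ⟨-k, (key k).symm⟩
    · rintro ⟨k, hk⟩
      refine ⟨-k, ?_⟩
      have h2 := key (-k)
      rw [neg_neg, hk] at h2
      have h3 : h⁻¹ * (h * g ^ (-k) * h⁻¹) * h = h⁻¹ * (h * w * h⁻¹) * h := by rw [h2]
      simpa [mul_assoc] using h3
  have h2 := hirr g h1
  rw [mem_centralizer_singleton_iff] at h2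
  have h3 : h * g * h⁻¹ = g := by rw [h2]; simp
  rw [h3] at hh
  nth_rewrite 2 [hh]
  simp

/-- Let P be a finite 2-group in which N_P(⟨y⟩) = C_P(y) for every y ∈ P. If s is the number of conjugacy classes of involutions of P, then #(P/Φ(P)) ≤ s + 1; in particular the subgroup generated by the involutions of P has order at least #(P/Φ(P)). -/
theorem result {P : Type*} [Group P] [Finite P] (hP : IsPGroup 2 P)
    (hirr : ∀ y : P, Subgroup.normalizer ((Subgroup.zpowers y : Subgroup P) : Set P) ≤ Subgroup.centralizer {y}) :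
    Nat.card (P ⧸ frattini P) ≤ Nat.card {c : ConjClasses P // ∃ y : P, ConjClasses.mk y = c ∧ orderOf y = 2} + 1 ∧
    Nat.card (P ⧸ frattini P) ≤ Nat.card (Subgroup.closure {y : P | orderOf y = 2}) := by
  classical
  have : Fact (Nat.Prime 2) := ⟨Nat.prime_two⟩
  have : Finite (ConjClasses P) := Quotient.finite _
  have : Finite (Cfsg.IrrCharacter P) := S0160.finite_irrCharacter P
  obtain ⟨hcomm, hsq⟩ := S0012.result 2 hP
  have hfin : Finite {c : ConjClasses P // ∃ y : P, ConjClasses.mk y = c ∧ orderOf y = 2} := inferInstance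
  -- the first inequality
  have h1 : Nat.card (P ⧸ frattini P) ≤
      Nat.card {χ : Cfsg.IrrCharacter P // ∀ g : P, ((χ : P → ℂ) g).im = 0} := by
    have hab : ∀ a b : P ⧸ frattini P, a * b = b * a := by
      intro a b
      obtain ⟨a, rfl⟩ := QuotientGroup.mk'_surjective _ a
      obtain ⟨b, rfl⟩ := QuotientGroup.mk'_surjective _ b
      have : a * b * a⁻¹ * b⁻¹ ∈ frattini P := hcomm (by
        rw [commutator_def]
        exact commutator_mem_commutator (mem_top a) (mem_top b))
      have h2 := (QuotientGroup.eq_one_iff (N := frattini P) _).mpr this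
      have h3 : QuotientGroup.mk' (frattini P) (a * b * a⁻¹ * b⁻¹) = 1 := h2
      simp only [map_mul, map_inv] at h3
      rw [mul_inv_eq_one, mul_inv_eq_iff_eq_mul] at h3
      exact h3
    let _ : CommGroup (P ⧸ frattini P) := { (inferInstance : Group (P ⧸ frattini P)) with mul_comm := hab }
    have hcard : Nat.card (P ⧸ frattini P →* ℂˣ) = Nat.card (P ⧸ frattini P) :=
      CommGroup.card_monoidHom_of_hasEnoughRootsOfUnity (P ⧸ frattini P) ℂ
    rw [← hcard]
    have hval : ∀ (f : P ⧸ frattini P →* ℂˣ) (g : P), ((f (g : P ⧸ frattini P) : ℂˣ) : ℂ).im = 0 := by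
      intro f g
      have h2 : ((g : P ⧸ frattini P)) ^ 2 = 1 := by
        have := (QuotientGroup.eq_one_iff (N := frattini P) _).mpr (hsq g)
        simpa using this
      have h3 : ((f (g : P ⧸ frattini P) : ℂˣ) : ℂ) ^ 2 = 1 := by
        rw [← Units.val_pow_eq_pow_val, ← map_pow, h2, map_one, Units.val_one]
      rcases (by simpa using h3 : ((f (g : P ⧸ frattini P) : ℂˣ) : ℂ) = 1 ∨ ((f (g : P ⧸ frattini P) : ℂˣ) : ℂ) = -1) with h4 | h4
      · rw [h4]; simp
      · rw [h4]; simp
    let F : (P ⧸ frattini P →* ℂˣ) → {χ : Cfsg.IrrCharacter P // ∀ g : P, ((χ : P → ℂ) g).im = 0} :=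
      fun f => ⟨⟨fun g => ((f.comp (QuotientGroup.mk' (frattini P))) g : ℂ),
        Characters.Linear.isIrrCharacter_hom (f.comp (QuotientGroup.mk' (frattini P)))⟩, fun g => hval f g⟩
    have hF : Function.Injective F := by
      intro f f' hff
      have h2 : ((F f).1 : P → ℂ) = ((F f').1 : P → ℂ) := by rw [hff]
      refine MonoidHom.ext fun x => ?_
      obtain ⟨g, rfl⟩ := QuotientGroup.mk'_surjective _ x
      exact Units.ext (congrFun h2 g)
    exact Nat.card_le_card_of_injective F hF
  have h2 : Nat.card {χ : Cfsg.IrrCharacter P // ∀ g : P, ((χ : P → ℂ) g).im = 0} ≤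
      Nat.card {c : ConjClasses P // ∃ y : P, ConjClasses.mk y = c ∧ orderOf y = 2} + 1 := by
    rw [S0160.result, ← Finite.card_option]
    have key : ∀ C : ConjClasses P, (∀ g : P, ConjClasses.mk g = C → IsConj g g⁻¹) → C ≠ 1 →
        ∃ y : P, ConjClasses.mk y = C ∧ orderOf y = 2 := by
      intro C hC hC1
      obtain ⟨g, rfl⟩ := ConjClasses.mk_surjective C
      refine ⟨g, rfl, ?_⟩
      have h3 := sq_of_real hirr (hC g rfl)
      rw [orderOf_eq_prime_iff]
      refine ⟨by rw [pow_two, h3], ?_⟩
      rintro rfl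
      exact hC1 rfl
    let F : {C : ConjClasses P // ∀ g : P, ConjClasses.mk g = C → IsConj g g⁻¹} →
        Option {c : ConjClasses P // ∃ y : P, ConjClasses.mk y = c ∧ orderOf y = 2} :=
      fun C => if h : C.1 = 1 then none else some ⟨C.1, key C.1 C.2 h⟩
    refine Nat.card_le_card_of_injective F ?_
    intro C D hCD
    by_cases hC : C.1 = 1
    · by_cases hD : D.1 = 1
      · exact Subtype.ext (hC.trans hD.symm)
      · simp [F, hC, hD] at hCD
    · by_cases hD : D.1 = 1
      · simp [F, hC, hD] at hCD
      · simp only [F, hC, hD, dite_false, Option.some.injEq, Subtype.mk.injEq] at hCD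
        exact Subtype.ext hCD
  have h3 : Nat.card {c : ConjClasses P // ∃ y : P, ConjClasses.mk y = c ∧ orderOf y = 2} + 1 ≤
      Nat.card (Subgroup.closure {y : P | orderOf y = 2}) := by
    rw [← Finite.card_option]
    let F : Option {c : ConjClasses P // ∃ y : P, ConjClasses.mk y = c ∧ orderOf y = 2} →
        (Subgroup.closure {y : P | orderOf y = 2}) := fun c =>
      match c with
      | none => 1
      | some c => ⟨c.2.choose, Subgroup.subset_closure c.2.choose_spec.2⟩
    refine Nat.card_le_card_of_injective F ?_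
    intro c d hcd
    match c, d, hcd with
    | none, none, _ => rfl
    | none, some d, hcd =>
      exfalso
      have h4 : (1 : P) = d.2.choose := congrArg Subtype.val hcd
      have h5 := d.2.choose_spec.2
      rw [← h4, orderOf_one] at h5
      exact absurd h5 (by norm_num)
    | some c, none, hcd =>
      exfalso
      have h4 : c.2.choose = (1 : P) := congrArg Subtype.val hcd
      have h5 := c.2.choose_spec.2
      rw [h4, orderOf_one] at h5
      exact absurd h5 (by norm_num)
    | some c, some d, hcd =>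
      have h4 : c.2.choose = d.2.choose := congrArg Subtype.val hcd
      have h5 := c.2.choose_spec.1
      rw [h4, d.2.choose_spec.1] at h5
      exact congrArg some (Subtype.ext h5.symm)
  exact ⟨h1.trans h2, (h1.trans h2).trans h3⟩

end Cfsg.Agent.S4029
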