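import Cfsg.Statements.S4038
import Cfsg.Agent.S0205
import Cfsg.Agent.H504.MaxNil
import Cfsg.Agent.H504.ClassLe

set_option autoImplicit false
open Cfsg

namespace Cfsg.Agent.S4038

open Subgroup

/-- In a nilpotent subgroup whose Sylow `2`-subgroups have class at most two the `2`-elements satisfy
`[[a, b], c] = 1`. -/
theorem twoCl_of_sylow {G : Type*} [Group G] [Finite G] (M : Subgroup G)
    (hnil : Group.IsNilpotent M)
    (h2 : ∀ S : Sylow 2 ↥M, Group.nilpotencyClass ↥(S : Subgroup ↥M) ≤ 2) :
    Cfsg.Agent.H504.MaxNil.TwoCl M := by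
  have hp : Fact (Nat.Prime 2) := ⟨Nat.prime_two⟩
  obtain ⟨S⟩ : Nonempty (Sylow 2 M) := inferInstance
  have hSn : (S : Subgroup M).Normal :=
    ((Group.isNilpotent_of_finite_tfae (G := M)).out 0 3 rfl rfl).mp hnil 2 hp S
  have hSmem : ∀ m : M, (∃ k : ℕ, (m : G) ^ 2 ^ k = 1) → m ∈ (S : Subgroup M) := by
    rintro m ⟨k, hk⟩
    have hm : m ^ 2 ^ k = 1 := Subtype.ext hk
    have h1 : IsPGroup 2 (zpowers m) := by
      rw [isPGroup_iff_pow_pow_eq_one]
      rintro ⟨_, n, rfl⟩
      refine ⟨k, Subtype.ext ?_⟩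
      change (m ^ n) ^ 2 ^ k = 1
      rw [← zpow_natCast, ← zpow_mul, mul_comm, zpow_mul, zpow_natCast, hm, one_zpow]
    obtain ⟨R, hR⟩ := h1.exists_le_sylow
    have := S.unique_of_normal hSn
    have h2 : R = S := Subsingleton.elim _ _
    rw [← h2]
    exact hR (mem_zpowers m)
  intro a ha b hb c hc ha2 hb2 hc2
  have h3 := Cfsg.Agent.H504.ClassLe.commutator_commute S.2.isNilpotent (h2 S)
    ⟨⟨a, ha⟩, hSmem _ ha2⟩ ⟨⟨b, hb⟩, hSmem _ hb2⟩ ⟨⟨c, hc⟩, hSmem _ hc2⟩
  exact congrArg (fun z : S => ((z : M) : G)) h3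

/-- The subgroup `M ⋊ A` of `G ⋊ A`. -/
def ext {G A : Type*} [Group G] [Group A] (φ : A →* MulAut G) (M : Subgroup G)
    (hMinv : ∀ a : A, ∀ m : G, m ∈ M → φ a m ∈ M) : Subgroup (G ⋊[φ] A) where
  carrier := {g | g.left ∈ M}
  one_mem' := M.one_mem
  mul_mem' := by
    intro g h hg hh
    change (g * h).left ∈ M
    rw [SemidirectProduct.mul_left]
    exact M.mul_mem hg (hMinv _ _ hh)
  inv_mem' := by
    intro g hg
    change (g⁻¹).left ∈ M
    rw [SemidirectProduct.inv_left]
    exact hMinv _ _ (M.inv_mem hg)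

theorem solvable_of_solvable {G A : Type*} [Group G] [Finite G]
    [Group A] [Finite A] (φ : A →* MulAut G) (hcop : (Nat.card A).Coprime (Nat.card G))
    (M : Subgroup G) (hMtop : M ≠ ⊤) (hMinv : ∀ a : A, ∀ m : G, m ∈ M → φ a m ∈ M)
    (hMmax : ∀ H : Subgroup G, M ≤ H → H ≠ ⊤ → (∀ a : A, ∀ h : G, h ∈ H → φ a h ∈ H) → H = M)
    (hnil : Group.IsNilpotent M) (h2 : ∀ S : Sylow 2 ↥M, Group.nilpotencyClass ↥(S : Subgroup ↥M) ≤ 2)
    (hA : Group.IsSolvable A) : Group.IsSolvable G := by
  have hfin : Finite (G ⋊[φ] A) := Finite.of_equiv _ (SemidirectProduct.equivProd (φ := φ)).symm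
  set L := ext φ M hMinv with hL
  have hLmem : ∀ g : G ⋊[φ] A, g ∈ L ↔ g.left ∈ M := fun g => Iff.rfl
  set G' : Subgroup (G ⋊[φ] A) := (SemidirectProduct.inl : G →* G ⋊[φ] A).range with hG'
  have hG'ker : G' = (SemidirectProduct.rightHom : G ⋊[φ] A →* A).ker :=
    SemidirectProduct.range_inl_eq_ker_rightHom
  have hG'n : G'.Normal := by rw [hG'ker]; infer_instance
  have hcard : Nat.card G' = Nat.card G :=
    (Nat.card_congr (MonoidHom.ofInjective SemidirectProduct.inl_injective).toEquiv).symm
  have hidx : G'.index = Nat.card A := by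
    rw [hG'ker, index_ker, MonoidHom.range_eq_top.mpr SemidirectProduct.rightHom_surjective,
      card_top]
  have hmap : G' ⊓ L = M.map (SemidirectProduct.inl : G →* G ⋊[φ] A) := by
    ext g
    constructor
    · rintro ⟨⟨m, rfl⟩, hg⟩
      exact ⟨m, hg, rfl⟩
    · rintro ⟨m, hm, rfl⟩
      exact ⟨⟨m, rfl⟩, hm⟩
  have h1 : Group.IsSolvable G' := by
    refine Cfsg.Agent.H504.MaxNil.isSolvable_of_maximal G' L ?_ ?_ ?_ ?_ ?_ ?_
    · rw [hcard, hidx]; exact hcop.symm
    · -- `L` is solvable
      have h3 : Group.IsSolvable M := inferInstance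
      refine Group.isSolvable_of_ker_le_range (G' := M) (G'' := A)
        (((SemidirectProduct.inl : G →* G ⋊[φ] A).comp M.subtype).codRestrict L (fun m => m.2))
        ((SemidirectProduct.rightHom : G ⋊[φ] A →* A).comp L.subtype) ?_
      rintro ⟨g, hg⟩ hg1
      have h4 : g.right = 1 := hg1
      refine ⟨⟨g.left, hg⟩, Subtype.ext ?_⟩
      change (SemidirectProduct.inl g.left : G ⋊[φ] A) = g
      apply SemidirectProduct.ext
      · simp
      · simp [h4]
    · constructor
      · intro h
        apply hMtop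
        rw [eq_top_iff]
        intro g _
        have : (SemidirectProduct.inl g : G ⋊[φ] A) ∈ L := by rw [h]; exact mem_top _
        exact this
      · intro K hK
        have hinr : ∀ a : A, (SemidirectProduct.inr a : G ⋊[φ] A) ∈ K := by
          intro a
          apply hK.le
          rw [hLmem]
          exact M.one_mem
        have h5 := hMmax (K.comap SemidirectProduct.inl)
          (by
            intro m hm
            rw [mem_comap]
            exact hK.le hm)
        have h6 : K.comap SemidirectProduct.inl = ⊤ := by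
          by_contra h7
          have h8 := h5 h7 (by
            intro a h hh
            rw [mem_comap] at hh ⊢
            rw [SemidirectProduct.inl_aut]
            exact mul_mem (mul_mem (hinr a) hh) (hinr _))
          apply hK.not_ge
          intro k hk
          rw [hLmem, ← h8, mem_comap]
          have h9 : (SemidirectProduct.inl k.left : G ⋊[φ] A) = k * (SemidirectProduct.inr k.right)⁻¹ := by
            rw [eq_mul_inv_iff_mul_eq, SemidirectProduct.inl_left_mul_inr_right]
          rw [h9]
          exact mul_mem hk (inv_mem (hinr _))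
        rw [eq_top_iff]
        intro k _
        rw [← SemidirectProduct.inl_left_mul_inr_right k]
        refine mul_mem ?_ (hinr _)
        have h7 : k.left ∈ K.comap SemidirectProduct.inl := by rw [h6]; exact mem_top _
        exact h7
    · intro h
      apply hMtop
      rw [eq_top_iff]
      intro g _
      exact h ⟨g, rfl⟩
    · rw [hmap]
      exact Group.nilpotent_of_mulEquiv
        (M.equivMapOfInjective (SemidirectProduct.inl : G →* G ⋊[φ] A) SemidirectProduct.inl_injective)
    · rw [hmap]
      exact (twoCl_of_sylow M hnil h2).map _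
  exact Group.isSolvable_of_isSolvable_injective
    (f := (MonoidHom.ofInjective (SemidirectProduct.inl_injective (φ := φ))).toMonoidHom)
    (MonoidHom.ofInjective (SemidirectProduct.inl_injective (φ := φ))).injective


/-- Let A and G be finite groups of coprime orders with A acting on G by automorphisms. Suppose G has a proper A-invariant subgroup M, maximal among proper A-invariant subgroups, which is nilpotent and whose Sylow 2-subgroups have nilpotency class at most 2. Then G is solvable. -/
theorem result {G A : Type*} [Group G] [Finite G]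
    [Group A] [Finite A] (φ : A →* MulAut G) (hcop : (Nat.card A).Coprime (Nat.card G))
    (M : Subgroup G) (hMtop : M ≠ ⊤) (hMinv : ∀ a : A, ∀ m : G, m ∈ M → φ a m ∈ M)
    (hMmax : ∀ H : Subgroup G, M ≤ H → H ≠ ⊤ → (∀ a : A, ∀ h : G, h ∈ H → φ a h ∈ H) → H = M)
    (hnil : Group.IsNilpotent M) (h2 : ∀ S : Sylow 2 ↥M, Group.nilpotencyClass ↥(S : Subgroup ↥M) ≤ 2) :
    Group.IsSolvable G := by
  by_cases hG : Odd (Nat.card G)
  · exact Cfsg.Agent.S0205.result hG
  · have hA : Odd (Nat.card A) := by
      rw [← Nat.not_even_iff_odd, even_iff_two_dvd]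
      intro h
      rw [Nat.not_odd_iff_even, even_iff_two_dvd] at hG
      have := Nat.dvd_gcd h hG
      rw [hcop] at this
      norm_num at this
    exact solvable_of_solvable φ hcop M hMtop hMinv hMmax hnil h2 (Cfsg.Agent.S0205.result hA)

end Cfsg.Agent.S4038
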