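import Cfsg.Statements.S4042
import Cfsg.Agent.H505.FpfCycMain

set_option autoImplicit false
open Cfsg

namespace Cfsg.Agent.S4042

/-- Let G be a finite group and π the set of primes dividing its order. Let a finite group A act on G by automorphisms so that the identity is the only element of G fixed by every element of A, and suppose A has a cyclic Hall π-subgroup and a normal π-complement (a normal subgroup whose order is divisible by no prime of π and whose index is divisible only by primes of π). Then G is solvable. -/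
theorem result {G A : Type*} [Group G] [Finite G]
    [Group A] [Finite A] (φ : A →* MulAut G) (hfpf : ∀ g : G, (∀ a : A, φ a g = g) → g = 1)
    (hHall : ∃ H : Subgroup A, Cfsg.IsPiHall {r : ℕ | r.Prime ∧ r ∣ Nat.card G} H ∧ IsCyclic H)
    (hcomp : ∃ K : Subgroup A, K.Normal ∧ (∀ r : ℕ, r.Prime → r ∣ Nat.card K → ¬ r ∣ Nat.card G) ∧
      ∀ r : ℕ, r.Prime → r ∣ K.index → r ∣ Nat.card G) :
    Group.IsSolvable G := by
  obtain ⟨K, hK, hK1, hK2⟩ := hcomp
  obtain ⟨H, ⟨hH1, hH2⟩, hHc⟩ := hHall
  have hcop : (Nat.card K).Coprime (Nat.card G) := by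
    rw [Nat.Coprime, ← Nat.dvd_one]
    by_contra hne
    obtain ⟨r, hr, hrd⟩ := Nat.exists_prime_and_dvd (n := (Nat.card K).gcd (Nat.card G))
      (fun h => hne (by rw [h]))
    exact hK1 r hr (hrd.trans (Nat.gcd_dvd_left _ _)) (hrd.trans (Nat.gcd_dvd_right _ _))
  have htop : K ⊔ H = ⊤ := by
    rw [← Subgroup.index_eq_one]
    by_contra hne
    obtain ⟨r, hr, hrd⟩ := Nat.exists_prime_and_dvd hne
    have h1 : r ∣ K.index := hrd.trans (Subgroup.index_dvd_of_le le_sup_left)
    have h2 : r ∣ H.index := hrd.trans (Subgroup.index_dvd_of_le le_sup_right)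
    exact hH2 r hr ⟨hr, hK2 r hr h1⟩ h2
  refine H505.FpfCyc.solvable (φ := φ) (K := K) ⟨hK, hcop, ?_, hfpf⟩
  obtain ⟨h, hh⟩ := hHc.exists_generator
  refine ⟨h, fun a => ?_⟩
  have h1 : H ≤ Subgroup.zpowers (h : A) := by
    intro x hx
    obtain ⟨n, hn⟩ := hh ⟨x, hx⟩
    exact ⟨n, congrArg Subtype.val hn⟩
  have h2 : a ∈ K ⊔ H := by rw [htop]; trivial
  exact (sup_le_sup_left h1 K) h2

end Cfsg.Agent.S4042
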