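import Cfsg.Statements.S4043
import Cfsg.Agent.Solvable.SchurZassenhausConj

set_option autoImplicit false
open Cfsg

namespace Cfsg.Agent.S4043

open Subgroup

/-- The image in `G` of the normal `p`-complement and of a Sylow subgroup of `A`. -/
theorem pcomp_data {G : Type*} [Group G] [Finite G] {p : ℕ} [Fact p.Prime] (A : Subgroup G)
    (hAp : Cfsg.HasNormalPComplement p A) :
    ∃ K P : Subgroup G, K ≤ A ∧ P ≤ A ∧ (∀ a ∈ A, ∀ k ∈ K, a * k * a⁻¹ ∈ K) ∧
      IsPGroup p P ∧ (Nat.card K).Coprime p ∧ (∀ a ∈ A, ∃ k ∈ K, ∃ x ∈ P, a = k * x) := by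
  obtain ⟨P, K, hK, hKP⟩ := hAp
  refine ⟨K.map A.subtype, (P : Subgroup A).map A.subtype, ?_, ?_, ?_, ?_, ?_, ?_⟩
  · exact map_subtype_le K
  · exact map_subtype_le _
  · rintro a ha _ ⟨k, hk, rfl⟩
    exact ⟨⟨a, ha⟩ * k * ⟨a, ha⟩⁻¹, hK.conj_mem k hk ⟨a, ha⟩, rfl⟩
  · exact P.isPGroup'.map _
  · have h1 : Nat.card (K.map A.subtype) = Nat.card K :=
      Nat.card_congr (K.equivMapOfInjective _ A.subtype_injective).toEquiv.symm
    rw [h1]
    have h2 : Nat.card K = (P : Subgroup A).index := by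
      have h3 := hKP.card_mul
      have h4 := (P : Subgroup A).card_mul_index
      have h5 : 0 < Nat.card (P : Subgroup A) := Nat.card_pos
      have h6 : Nat.card (P : Subgroup A) * Nat.card K
          = Nat.card (P : Subgroup A) * (P : Subgroup A).index := by
        rw [h4, mul_comm]; exact h3
      exact Nat.eq_of_mul_eq_mul_left h5 h6
    rw [h2]
    exact ((Nat.Prime.coprime_iff_not_dvd Fact.out).mpr P.not_dvd_index).symm
  · intro a ha
    have h1 := hKP.surjective ⟨a, ha⟩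
    obtain ⟨⟨k, x⟩, hkx⟩ := h1
    refine ⟨(k : A), ⟨k, k.2, rfl⟩, (x : A), ⟨x, x.2, rfl⟩, ?_⟩
    have := congrArg (fun t : A => (t : G)) hkx
    simpa using this.symm

/-- a `p`-group acting on a `p`-group without nontrivial fixed points -/
theorem cent_trivial {G : Type*} [Group G] [Finite G] {p : ℕ} [Fact p.Prime]
    (N : Subgroup G) [N.Normal] (hN : IsPGroup p N) (A K P : Subgroup G)
    (hKA : K ≤ A) (hPA : P ≤ A) (hnorm : ∀ a ∈ A, ∀ k ∈ K, a * k * a⁻¹ ∈ K)
    (hP : IsPGroup p P) (hKP : ∀ a ∈ A, ∃ k ∈ K, ∃ x ∈ P, a = k * x)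
    (hC : ∀ n : G, n ∈ N → (∀ a : G, a ∈ A → a * n * a⁻¹ = n) → n = 1) :
    ∀ n ∈ N, (∀ k ∈ K, k * n * k⁻¹ = n) → n = 1 := by
  classical
  -- the centraliser of `K` in `N`
  set C : Subgroup G := N ⊓ Subgroup.centralizer (K : Set G) with hCdef
  have hCp : IsPGroup p C := hN.to_le inf_le_left
  have hCmem : ∀ n, n ∈ C ↔ n ∈ N ∧ ∀ k ∈ K, k * n * k⁻¹ = n := by
    intro n
    rw [hCdef, mem_inf, mem_centralizer_iff]
    constructor
    · rintro ⟨h1, h2⟩
      refine ⟨h1, fun k hk => ?_⟩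
      rw [h2 k hk]; group
    · rintro ⟨h1, h2⟩
      refine ⟨h1, fun k hk => ?_⟩
      have := h2 k hk
      exact mul_inv_eq_iff_eq_mul.mp this
  have hstable : ∀ a ∈ A, ∀ n ∈ C, a * n * a⁻¹ ∈ C := by
    intro a ha n hn
    rw [hCmem] at hn ⊢
    refine ⟨(inferInstance : N.Normal).conj_mem n hn.1 a, fun k hk => ?_⟩
    have h1 := hn.2 (a⁻¹ * k * a) (by
      have := hnorm a⁻¹ (A.inv_mem ha) k hk
      simpa using this)
    calc k * (a * n * a⁻¹) * k⁻¹ = a * ((a⁻¹ * k * a) * n * (a⁻¹ * k * a)⁻¹) * a⁻¹ := by group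
      _ = a * n * a⁻¹ := by rw [h1]
  -- the action of `P` on `C`
  letI act : MulAction P C :=
    { smul := fun x n => ⟨(x : G) * n * (x : G)⁻¹, hstable x (hPA x.2) n n.2⟩
      one_smul := fun n => by
        apply Subtype.ext
        change ((1 : P) : G) * n * ((1 : P) : G)⁻¹ = n
        simp
      mul_smul := fun x y n => by
        apply Subtype.ext
        change ((x * y : P) : G) * n * ((x * y : P) : G)⁻¹
          = (x : G) * ((y : G) * n * (y : G)⁻¹) * (x : G)⁻¹
        push_cast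
        group }
  have hsmul : ∀ (x : P) (n : C), ((x • n : C) : G) = (x : G) * n * (x : G)⁻¹ := fun _ _ => rfl
  have hfix : MulAction.fixedPoints P C = {1} := by
    ext n
    rw [MulAction.mem_fixedPoints, Set.mem_singleton_iff]
    constructor
    · intro h
      apply Subtype.ext
      apply hC n ((hCmem n).mp n.2).1
      intro a ha
      obtain ⟨k, hk, x, hx, rfl⟩ := hKP a ha
      have h1 := congrArg (fun t : C => (t : G)) (h ⟨x, hx⟩)
      simp only [hsmul] at h1
      have h2 := ((hCmem n).mp n.2).2 k hk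
      calc k * x * n * (k * x)⁻¹ = k * (x * n * x⁻¹) * k⁻¹ := by group
        _ = n := by rw [h1, h2]
    · rintro rfl x
      apply Subtype.ext
      rw [hsmul]
      simp
  have hcard := hP.card_modEq_card_fixedPoints C
  have hC1 : Nat.card C = 1 := by
    obtain ⟨m, hm⟩ := IsPGroup.iff_card.mp hCp
    rw [hfix] at hcard
    rcases Nat.eq_zero_or_pos m with h0 | hpos
    · rw [hm, h0, pow_zero]
    · exfalso
      have hp1 : 1 < p := (Fact.out : p.Prime).one_lt
      have h2 : Nat.card ({1} : Set C) = 1 := by simp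
      rw [hm, h2] at hcard
      have h3 : p ∣ p ^ m := dvd_pow_self p hpos.ne'
      have h4 : p ^ m % p = 0 := Nat.mod_eq_zero_of_dvd h3
      have h5 : 1 % p = 1 := Nat.mod_eq_of_lt hp1
      unfold Nat.ModEq at hcard
      rw [h4, h5] at hcard
      exact absurd hcard (by norm_num)
  intro n hn hk
  have h1 : n ∈ C := (hCmem n).mpr ⟨hn, hk⟩
  have h2 : C = ⊥ := Subgroup.eq_bot_of_card_eq C hC1
  rw [h2, mem_bot] at h1
  exact h1

/-- Let G be a finite group that is the semidirect product of a normal p-subgroup N by a subgroup A, and also of N by a subgroup A₁, where p is a prime and A and A₁ both have normal p-complements. If C_N(A) = C_N(A₁) = 1, then A₁ is conjugate to A by an element of N. -/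
theorem result {G : Type*} [Group G] [Finite G] {p : ℕ}
    [Fact p.Prime] (N : Subgroup G) [N.Normal] (hN : IsPGroup p N) (A A₁ : Subgroup G)
    (hA : A.IsComplement' N) (hA₁ : A₁.IsComplement' N)
    (hAp : Cfsg.HasNormalPComplement p A) (hA₁p : Cfsg.HasNormalPComplement p A₁)
    (hC : ∀ n : G, n ∈ N → (∀ a : G, a ∈ A → a * n * a⁻¹ = n) → n = 1)
    (hC₁ : ∀ n : G, n ∈ N → (∀ a : G, a ∈ A₁ → a * n * a⁻¹ = n) → n = 1) :
    ∃ n : G, n ∈ N ∧ A₁ = A.map (MulAut.conj n).toMonoidHom := by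
  classical
  obtain ⟨K, P, hKA, hPA, hKn, hP, hKc, hKP⟩ := pcomp_data A hAp
  obtain ⟨K₁, P₁, hKA₁, hPA₁, hKn₁, hP₁, hKc₁, hKP₁⟩ := pcomp_data A₁ hA₁p
  have hCK := cent_trivial N hN A K P hKA hPA hKn hP hKP hC
  have hNn : N.Normal := inferInstance
  -- N ∩ A = 1
  have hdisj : ∀ x, x ∈ N → x ∈ A → x = 1 := by
    intro x h1 h2
    have := hA.disjoint
    rw [Subgroup.disjoint_def] at this
    exact this h2 h1
  have hdisj₁ : ∀ x, x ∈ N → x ∈ A₁ → x = 1 := by
    intro x h1 h2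
    have := hA₁.disjoint
    rw [Subgroup.disjoint_def] at this
    exact this h2 h1
  -- every element is a product
  have hprod : ∀ g : G, ∃ m ∈ N, ∃ a ∈ A, g = m * a := by
    intro g
    obtain ⟨⟨m, a⟩, hma⟩ := hA.symm.surjective g
    exact ⟨m, m.2, a, a.2, hma.symm⟩
  have hprod₁ : ∀ g : G, ∃ m ∈ N, ∃ a ∈ A₁, g = m * a := by
    intro g
    obtain ⟨⟨m, a⟩, hma⟩ := hA₁.symm.surjective g
    exact ⟨m, m.2, a, a.2, hma.symm⟩
  -- the product `M = N K`
  set M : Subgroup G := N ⊔ K with hM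
  have hMmem : ∀ g, g ∈ M ↔ ∃ m ∈ N, ∃ k ∈ K, m * k = g := by
    intro g
    rw [hM, Subgroup.mem_sup_of_normal_left]
  have hMnorm : M.Normal := by
    refine ⟨fun x hx g => ?_⟩
    obtain ⟨m, hm, k, hk, rfl⟩ := (hMmem x).mp hx
    obtain ⟨u, hu, a, ha, rfl⟩ := hprod g
    have e : u * a * (m * k) * (u * a)⁻¹
        = (u * (a * m * a⁻¹) * u⁻¹) * (u * (a * k * a⁻¹) * u⁻¹) := by group
    rw [e]
    have h1 : u * (a * m * a⁻¹) * u⁻¹ ∈ M :=
      (le_sup_left : N ≤ M) (hNn.conj_mem _ (hNn.conj_mem _ hm _) _)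
    have h2 : u * (a * k * a⁻¹) * u⁻¹ ∈ M := by
      have h3 : a * k * a⁻¹ ∈ M := (le_sup_right : K ≤ M) (hKn a ha k hk)
      have h4 : u ∈ M := (le_sup_left : N ≤ M) hu
      exact M.mul_mem (M.mul_mem h4 h3) (M.inv_mem h4)
    exact M.mul_mem h1 h2
  -- index of M in G is a power of p
  have hPM : ∀ g : G, ∃ j : ℕ, g ^ (p ^ j) ∈ M := by
    intro g
    obtain ⟨m, hm, a, ha, rfl⟩ := hprod g
    obtain ⟨k, hk, x, hx, rfl⟩ := hKP a ha
    obtain ⟨j, hj⟩ := hP ⟨x, hx⟩
    refine ⟨j, ?_⟩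
    have hj' : x ^ p ^ j = 1 := by
      have := congrArg (fun t : P => (t : G)) hj
      simpa using this
    rw [← QuotientGroup.eq_one_iff (N := M)]
    have hmk : ((m * k : G) : G ⧸ M) = 1 := by
      rw [QuotientGroup.eq_one_iff]
      exact M.mul_mem ((le_sup_left : N ≤ M) hm) ((le_sup_right : K ≤ M) hk)
    have e : m * (k * x) = (m * k) * x := by group
    rw [e, QuotientGroup.mk_pow, QuotientGroup.mk_mul, hmk, one_mul, ← QuotientGroup.mk_pow, hj',
      QuotientGroup.mk_one]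
  -- `K₁ ≤ M`
  have hK₁M : K₁ ≤ M := by
    intro x hx
    obtain ⟨j, hj⟩ := hPM x
    have hcop : (orderOf x).Coprime (p ^ j) := by
      apply Nat.Coprime.pow_right
      have h1 : orderOf x ∣ Nat.card K₁ := Subgroup.orderOf_dvd_natCard K₁ hx
      exact Nat.Coprime.coprime_dvd_left h1 hKc₁
    obtain ⟨i, hi⟩ := exists_pow_eq_self_of_coprime hcop.symm
    rw [← hi]
    exact M.pow_mem hj i
  -- cardinalities: M = N K₁
  have hKcard : Nat.card K₁ = Nat.card K := by
    -- both are the largest divisor prime to `p` of the order of `A ≃ G/N`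
    have e1 : ∀ (B L Q : Subgroup G), L ≤ B → Q ≤ B → (∀ a ∈ B, ∀ k ∈ L, a * k * a⁻¹ ∈ L) →
        IsPGroup p Q → (Nat.card L).Coprime p → (∀ a ∈ B, ∃ k ∈ L, ∃ x ∈ Q, a = k * x) →
        ∃ j, Nat.card B = Nat.card L * p ^ j := by
      intro B L Q hL hQ hn hpQ hc hLQ
      obtain ⟨j, hj⟩ := IsPGroup.iff_card.mp hpQ
      refine ⟨j, ?_⟩
      rw [← hj]
      have hLQ' : Disjoint L Q := by
        rw [Subgroup.disjoint_def]
        intro x h1 h2
        have h3 : orderOf x ∣ Nat.card L := Subgroup.orderOf_dvd_natCard L h1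
        have h4 : orderOf x ∣ Nat.card Q := Subgroup.orderOf_dvd_natCard Q h2
        have h5 : (Nat.card L).Coprime (Nat.card Q) := by
          rw [hj]; exact Nat.Coprime.pow_right j hc
        have h6 := Nat.dvd_gcd h3 h4
        rw [h5] at h6
        exact orderOf_eq_one_iff.mp (Nat.dvd_one.mp h6)
      have hinj : Function.Injective (fun q : L × Q => (⟨q.1 * q.2,
          B.mul_mem (hL q.1.2) (hQ q.2.2)⟩ : B)) := by
        rintro ⟨a, b⟩ ⟨c, d⟩ h
        have h' : (a : G) * b = c * d := congrArg (fun t : B => (t : G)) h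
        have := (Subgroup.mul_injective_of_disjoint hLQ') (a₁ := (a, b)) (a₂ := (c, d)) h'
        exact this
      have hsurj : Function.Surjective (fun q : L × Q => (⟨q.1 * q.2,
          B.mul_mem (hL q.1.2) (hQ q.2.2)⟩ : B)) := by
        rintro ⟨a, ha⟩
        obtain ⟨k, hk, x, hx, rfl⟩ := hLQ a ha
        exact ⟨(⟨k, hk⟩, ⟨x, hx⟩), rfl⟩
      have := Nat.card_congr (Equiv.ofBijective _ ⟨hinj, hsurj⟩)
      rw [← this, Nat.card_prod]
    obtain ⟨j, hj⟩ := e1 A K P hKA hPA hKn hP hKc hKP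
    obtain ⟨j₁, hj₁⟩ := e1 A₁ K₁ P₁ hKA₁ hPA₁ hKn₁ hP₁ hKc₁ hKP₁
    have hAA : Nat.card A = Nat.card A₁ := by
      have h1 := hA.card_mul
      have h2 := hA₁.card_mul
      have h3 : 0 < Nat.card N := Nat.card_pos
      exact Nat.eq_of_mul_eq_mul_right h3 (h1.trans h2.symm)
    rw [hj, hj₁] at hAA
    have d1 : Nat.card K ∣ Nat.card K₁ := by
      have : Nat.card K ∣ Nat.card K₁ * p ^ j₁ := ⟨p ^ j, hAA.symm⟩
      exact (Nat.Coprime.pow_right j₁ hKc).dvd_of_dvd_mul_right this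
    have d2 : Nat.card K₁ ∣ Nat.card K := by
      have : Nat.card K₁ ∣ Nat.card K * p ^ j := ⟨p ^ j₁, hAA⟩
      exact (Nat.Coprime.pow_right j hKc₁).dvd_of_dvd_mul_right this
    exact Nat.dvd_antisymm d2 d1
  have hcompl : ∀ L : Subgroup G, L ≤ M → (Nat.card L).Coprime p → Nat.card L = Nat.card K →
      (N.subgroupOf M).IsComplement' (L.subgroupOf M) := by
    intro L hLM hLp hLK
    have hNM : N ≤ M := le_sup_left
    have hcN : Nat.card (N.subgroupOf M) = Nat.card N :=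
      Nat.card_congr (Subgroup.subgroupOfEquivOfLe hNM).toEquiv
    have hcL : Nat.card (L.subgroupOf M) = Nat.card L :=
      Nat.card_congr (Subgroup.subgroupOfEquivOfLe hLM).toEquiv
    apply Subgroup.isComplement'_of_coprime
    · rw [hcN, hcL, hLK]
      -- card M = card N * card K
      have hdis : Disjoint N K := by
        rw [Subgroup.disjoint_def]
        intro x h1 h2
        exact hdisj x h1 (hKA h2)
      have hinj : Function.Injective (fun q : N × K => (⟨q.1 * q.2,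
          M.mul_mem (hNM q.1.2) ((le_sup_right : K ≤ M) q.2.2)⟩ : M)) := by
        rintro ⟨a, b⟩ ⟨c, d⟩ h
        have h' : (a : G) * b = c * d := congrArg (fun t : M => (t : G)) h
        exact (Subgroup.mul_injective_of_disjoint hdis) (a₁ := (a, b)) (a₂ := (c, d)) h'
      have hsurj : Function.Surjective (fun q : N × K => (⟨q.1 * q.2,
          M.mul_mem (hNM q.1.2) ((le_sup_right : K ≤ M) q.2.2)⟩ : M)) := by
        rintro ⟨g, hg⟩
        obtain ⟨m, hm, k, hk, rfl⟩ := (hMmem g).mp hg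
        exact ⟨(⟨m, hm⟩, ⟨k, hk⟩), rfl⟩
      have := Nat.card_congr (Equiv.ofBijective _ ⟨hinj, hsurj⟩)
      rw [← this, Nat.card_prod]
    · rw [hcN, hcL]
      obtain ⟨j, hj⟩ := IsPGroup.iff_card.mp hN
      rw [hj]
      exact (Nat.Coprime.pow_right j hLp).symm
  have hc1 := hcompl K le_sup_right hKc rfl
  have hc2 := hcompl K₁ hK₁M hKc₁ hKcard
  haveI : (N.subgroupOf M).Normal := inferInstance
  have hsolv : Group.IsSolvable (N.subgroupOf M) := by
    have hp : IsPGroup p (N.subgroupOf M) := hN.comap_of_injective M.subtype M.subtype_injective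
    haveI : Group.IsNilpotent (N.subgroupOf M) := hp.isNilpotent
    infer_instance
  have hcop : (Nat.card (N.subgroupOf M)).Coprime (N.subgroupOf M).index := by
    have h1 : (N.subgroupOf M).index = Nat.card (K.subgroupOf M) := hc1.symm.index_eq_card
    rw [h1]
    have hcN : Nat.card (N.subgroupOf M) = Nat.card N :=
      Nat.card_congr (Subgroup.subgroupOfEquivOfLe (le_sup_left : N ≤ M)).toEquiv
    have hcL : Nat.card (K.subgroupOf M) = Nat.card K :=
      Nat.card_congr (Subgroup.subgroupOfEquivOfLe (le_sup_right : K ≤ M)).toEquiv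
    rw [hcN, hcL]
    obtain ⟨j, hj⟩ := IsPGroup.iff_card.mp hN
    rw [hj]
    exact (Nat.Coprime.pow_right j hKc).symm
  obtain ⟨g, hg⟩ := Cfsg.Agent.Solvable.SchurZassenhausConj.conj_of_solvable (N.subgroupOf M) hcop
    (Or.inl hsolv) (K.subgroupOf M) (K₁.subgroupOf M) hc1 hc2
  -- split `g = n k`
  obtain ⟨n, hn, k₀, hk₀, hnk⟩ := (hMmem g).mp g.2
  have hconj : ∀ x ∈ K, n * x * n⁻¹ ∈ K₁ := by
    intro x hx
    have hxM : x ∈ M := (le_sup_right : K ≤ M) hx
    have h1 : k₀⁻¹ * x * k₀ ∈ K := K.mul_mem (K.mul_mem (K.inv_mem hk₀) hx) hk₀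
    have h2 : (⟨k₀⁻¹ * x * k₀, (le_sup_right : K ≤ M) h1⟩ : M) ∈ K.subgroupOf M := by
      rw [Subgroup.mem_subgroupOf]; exact h1
    have h3 : MulAut.conj g (⟨k₀⁻¹ * x * k₀, (le_sup_right : K ≤ M) h1⟩ : M) ∈
        (K₁.subgroupOf M) := by
      rw [← hg]
      exact Subgroup.smul_mem_pointwise_smul _ _ _ h2
    rw [Subgroup.mem_subgroupOf] at h3
    have h4 : ((MulAut.conj g (⟨k₀⁻¹ * x * k₀, (le_sup_right : K ≤ M) h1⟩ : M) : M) : G)
        = n * x * n⁻¹ := by
      rw [MulAut.conj_apply]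
      push_cast
      rw [← hnk]
      group
    rwa [h4] at h3
  have hconj' : ∀ x ∈ K₁, n⁻¹ * x * n ∈ K := by
    -- by cardinality
    have hle : K.map (MulAut.conj n).toMonoidHom ≤ K₁ := by
      rintro _ ⟨x, hx, rfl⟩
      exact hconj x hx
    have hcard : Nat.card (K.map (MulAut.conj n).toMonoidHom) = Nat.card K :=
      Nat.card_congr (K.equivMapOfInjective _ (MulAut.conj n).injective).toEquiv.symm
    have heq : K.map (MulAut.conj n).toMonoidHom = K₁ :=
      Subgroup.eq_of_le_of_card_ge hle (by rw [hcard, hKcard])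
    intro x hx
    rw [← heq] at hx
    obtain ⟨y, hy, rfl⟩ := hx
    have : n⁻¹ * ((MulAut.conj n).toMonoidHom y) * n = y := by
      change n⁻¹ * (n * y * n⁻¹) * n = y
      group
    rw [this]
    exact hy
  refine ⟨n, hn, ?_⟩
  have hle : A₁ ≤ A.map (MulAut.conj n).toMonoidHom := by
    intro a₁ ha₁
    obtain ⟨m, hm, a, ha, hma⟩ := hprod (n⁻¹ * a₁ * n)
    -- `m` normalises `K`
    have hmK : ∀ k ∈ K, m * k * m⁻¹ ∈ K := by
      intro k hk
      have e : m * k * m⁻¹ = n⁻¹ * (a₁ * (n * (a⁻¹ * k * a) * n⁻¹) * a₁⁻¹) * n := by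
        have hm' : m = n⁻¹ * a₁ * n * a⁻¹ := by rw [hma]; group
        rw [hm']; group
      rw [e]
      apply hconj'
      apply hKn₁ a₁ ha₁
      apply hconj
      have := hKn a⁻¹ (A.inv_mem ha) k hk
      simpa using this
    have hmC : ∀ k ∈ K, k * m * k⁻¹ = m := by
      intro k hk
      have h1 : m * k * m⁻¹ * k⁻¹ ∈ K := K.mul_mem (hmK k hk) (K.inv_mem hk)
      have h2 : m * k * m⁻¹ * k⁻¹ ∈ N := by
        have : m * k * m⁻¹ * k⁻¹ = m * (k * m⁻¹ * k⁻¹) := by group
        rw [this]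
        exact N.mul_mem hm (hNn.conj_mem _ (N.inv_mem hm) _)
      have h3 := hdisj _ h2 (hKA h1)
      have h4 : m * k = k * m := by
        have := mul_inv_eq_one.mp h3
        exact mul_inv_eq_iff_eq_mul.mp this
      rw [← h4]; group
    have hm1 := hCK m hm hmC
    rw [hm1, one_mul] at hma
    refine ⟨a, ha, ?_⟩
    change n * a * n⁻¹ = a₁
    rw [← hma]; group
  apply Subgroup.eq_of_le_of_card_ge hle
  have hcard : Nat.card (A.map (MulAut.conj n).toMonoidHom) = Nat.card A :=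
    Nat.card_congr (A.equivMapOfInjective _ (MulAut.conj n).injective).toEquiv.symm
  rw [hcard]
  have h1 := hA.card_mul
  have h2 := hA₁.card_mul
  have h3 : 0 < Nat.card N := Nat.card_pos
  exact (Nat.eq_of_mul_eq_mul_right h3 (h1.trans h2.symm)).le

end Cfsg.Agent.S4043
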