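import Cfsg.Statements.S4044
import Cfsg.Agent.Solvable.Hall
import Cfsg.Agent.H505.HallNumOne
import Cfsg.Agent.H505.HallNumTwo

set_option autoImplicit false
open Cfsg

namespace Cfsg.Agent.S4044

open Cfsg.Agent.H505.HallNumTwo

/-- For an integer m ≥ 2 the following are equivalent: (a) every finite group whose order n is divisible by m with gcd(m, n/m) = 1 has a subgroup of order m; (b) m is a prime power, or m ≡ 2 (mod 4), or m ∈ {12, 24, 60}. -/
theorem result (m : ℕ) (hm : 2 ≤ m) :
    (∀ (G : Type) [Group G] [Finite G], m ∣ Nat.card G → m.Coprime (Nat.card G / m) →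
        ∃ H : Subgroup G, Nat.card H = m) ↔
    (IsPrimePow m ∨ m % 4 = 2 ∨ m = 12 ∨ m = 24 ∨ m = 60) := by
  constructor
  · intro h
    by_contra hcon
    push Not at hcon
    obtain ⟨h1, h2, h12, h24, h60⟩ := hcon
    obtain ⟨G, i1, i2, hdvd, hcop, hno⟩ :=
      Cfsg.Agent.H505.HallNumOne.not_hall hm h1 h2 h12 h24 h60
    obtain ⟨H, hH⟩ := h G hdvd hcop
    exact hno H hH
  · intro h G _ _ hdvd hcop
    obtain ⟨k, hk⟩ := hdvd
    have hm0 : 0 < m := by omega
    have hk' : Nat.card G / m = k := by rw [hk]; exact Nat.mul_div_cancel_left k hm0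
    rw [hk'] at hcop
    have hprime : ∀ p : ℕ, p.Prime → p ∣ m → ¬ p ∣ k := by
      intro p hp h1 h2
      have h3 := Nat.dvd_gcd h1 h2
      rw [hcop] at h3
      exact hp.ne_one (Nat.dvd_one.mp h3)
    have hsol : Group.IsSolvable G → ∃ H : Subgroup G, Nat.card H = m := fun hs =>
      Cfsg.Agent.Solvable.Hall.hall_exists m k hk hcop
    rcases h with h | h | h | h | h
    · obtain ⟨p, a, hp, ha, hpa⟩ := h
      rw [← Nat.prime_iff] at hp
      haveI : Fact p.Prime := ⟨hp⟩
      obtain ⟨H, hH⟩ := Sylow.exists_subgroup_card_pow_prime (G := G) p (n := a)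
        (by rw [hpa, hk]; exact dvd_mul_right _ _)
      exact ⟨H, hH.trans hpa⟩
    · apply hsol
      apply solvable_of_not_four
      intro h4
      have h2m : 2 ∣ m := by omega
      have h2k := hprime 2 Nat.prime_two h2m
      rw [hk] at h4
      have hcop4 : Nat.Coprime 4 k :=
        Nat.Coprime.pow_left 2 ((Nat.Prime.coprime_iff_not_dvd Nat.prime_two).mpr h2k)
      have := hcop4.dvd_of_dvd_mul_right h4
      omega
    · subst h
      have h2 := hprime 2 Nat.prime_two (by norm_num)
      have h3 := hprime 3 Nat.prime_three (by norm_num)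
      refine exists_card_of_E hk ?_ ?_ (claim12 ?_ ?_)
      · intro p hp hd
        have hd' : p ∣ 2 ^ 2 * 3 := hd
        rcases (hp.dvd_mul).mp hd' with h | h
        · left; exact (Nat.prime_dvd_prime_iff_eq hp Nat.prime_two).mp (hp.dvd_of_dvd_pow h)
        · right; exact (Nat.prime_dvd_prime_iff_eq hp Nat.prime_three).mp h
      · intro p hp hd hπ
        rcases hπ with rfl | hπ
        · exact h2 hd
        · rw [Set.mem_singleton_iff] at hπ; subst hπ; exact h3 hd
      · rw [hk]; omega
      · rw [hk]; omega
    · subst h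
      have h2 := hprime 2 Nat.prime_two (by norm_num)
      have h3 := hprime 3 Nat.prime_three (by norm_num)
      refine exists_card_of_E hk ?_ ?_ (claim24 _ G rfl ?_ ?_)
      · intro p hp hd
        have hd' : p ∣ 2 ^ 3 * 3 := hd
        rcases (hp.dvd_mul).mp hd' with h | h
        · left; exact (Nat.prime_dvd_prime_iff_eq hp Nat.prime_two).mp (hp.dvd_of_dvd_pow h)
        · right; exact (Nat.prime_dvd_prime_iff_eq hp Nat.prime_three).mp h
      · intro p hp hd hπ
        rcases hπ with rfl | hπ
        · exact h2 hd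
        · rw [Set.mem_singleton_iff] at hπ; subst hπ; exact h3 hd
      · rw [hk]; omega
      · rw [hk]; omega
    · subst h
      have h2 := hprime 2 Nat.prime_two (by norm_num)
      have h3 := hprime 3 Nat.prime_three (by norm_num)
      have h5 := hprime 5 Nat.prime_five (by norm_num)
      refine exists_card_of_E hk ?_ ?_ (claim60 _ G rfl ?_ ?_ ?_)
      · intro p hp hd
        have hd' : p ∣ 2 ^ 2 * 3 * 5 := hd
        rcases (hp.dvd_mul).mp hd' with h | h
        · rcases (hp.dvd_mul).mp h with h | h
          · left; exact (Nat.prime_dvd_prime_iff_eq hp Nat.prime_two).mp (hp.dvd_of_dvd_pow h)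
          · right; left; exact (Nat.prime_dvd_prime_iff_eq hp Nat.prime_three).mp h
        · right; right; exact (Nat.prime_dvd_prime_iff_eq hp Nat.prime_five).mp h
      · intro p hp hd hπ
        rcases hπ with rfl | rfl | hπ
        · exact h2 hd
        · exact h3 hd
        · rw [Set.mem_singleton_iff] at hπ; subst hπ; exact h5 hd
      · rw [hk]; omega
      · rw [hk]; omega
      · rw [hk]; omega

end Cfsg.Agent.S4044
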