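import Cfsg.Statements.S4046
import Cfsg.Agent.H506.PiMinSimple

set_option autoImplicit false
open Cfsg

namespace Cfsg.Agent.S4046

/-- Let π be a set of odd primes and G a finite group all of whose π'-subgroups (subgroups whose order is divisible by no prime of π) are solvable. If N_G(H)/C_G(H) is a π-group for every nontrivial π-subgroup H of G, then the π'-elements of G form a subgroup. -/
theorem result {G : Type*} [Group G] [Finite G] (π : Set ℕ)
    (hodd : ∀ p ∈ π, p.Prime ∧ p ≠ 2) (hsol : ∀ H : Subgroup G, (∀ p : ℕ, p.Prime → p ∣ Nat.card ↥H → p ∉ π) → Group.IsSolvable ↥H)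
    (hhom : (∀ H : Subgroup G, H ≠ ⊥ → (∀ p : ℕ, p.Prime → p ∣ Nat.card ↥H → p ∈ π) →
        ∀ p : ℕ, p.Prime → p ∣ (Subgroup.centralizer (H : Set G)).relIndex (Subgroup.normalizer (H : Set G)) → p ∈ π)) :
    (∃ K : Subgroup G, ∀ x : G, x ∈ K ↔ ∀ p : ℕ, p.Prime → p ∣ orderOf x → p ∉ π) :=
  H506.PiMinSimple.closedPr_of_solvSub (fun h => (hodd 2 h).2 rfl) hsol
    (H506.PiHomog.homog_of_relIndex hhom)

end Cfsg.Agent.S4046
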