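import Cfsg.Statements.S4047
import Cfsg.Agent.H506.PiAbDih

set_option autoImplicit false
open Cfsg

namespace Cfsg.Agent.S4047

/-- Let π be a set of odd primes and G a finite group whose Sylow 2-subgroups are dihedral or abelian. If N_G(H)/C_G(H) is a π-group for every nontrivial π-subgroup H of G, then the π'-elements of G form a subgroup. -/
theorem result {G : Type*} [Group G] [Finite G] (π : Set ℕ)
    (hodd : ∀ p ∈ π, p.Prime ∧ p ≠ 2) (h2 : ∀ S : Sylow 2 G, IsMulCommutative S ∨ ∃ n : ℕ, Nonempty ((S : Subgroup G) ≃* DihedralGroup n))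
    (hhom : (∀ H : Subgroup G, H ≠ ⊥ → (∀ p : ℕ, p.Prime → p ∣ Nat.card ↥H → p ∈ π) →
        ∀ p : ℕ, p.Prime → p ∣ (Subgroup.centralizer (H : Set G)).relIndex (Subgroup.normalizer (H : Set G)) → p ∈ π)) :
    (∃ K : Subgroup G, ∀ x : G, x ∈ K ↔ ∀ p : ℕ, p.Prime → p ∣ orderOf x → p ∉ π) := by
  refine H506.PiAbDih.closedPr_of_goodTwo (fun h => (hodd 2 h).2 rfl) ?_
    (H506.PiHomog.homog_of_relIndex hhom)
  intro Q hQ
  obtain ⟨S, hS⟩ := hQ.exists_le_sylow
  have hgood : H506.PiDih.Good S := by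
    rcases h2 S with h | ⟨n, ⟨e⟩⟩
    · left
      intro a b
      exact h.is_comm.comm a b
    · exact (H506.PiDih.good_dihedral n).of_injective e.toMonoidHom e.injective
  exact hgood.of_injective (Subgroup.inclusion hS) (Subgroup.inclusion_injective hS)

end Cfsg.Agent.S4047
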