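import Cfsg.Statements.S4048
import Cfsg.Agent.H506.PiMinSimple
import Cfsg.Agent.S0144

set_option autoImplicit false
open Cfsg

namespace Cfsg.Agent.S4048

/-- Burnside: at most two prime divisors. -/
theorem isSolvable_of_card_primeFactors {G : Type*} [Group G] [Finite G]
    (h : (Nat.card G).primeFactors.card ≤ 2) : Group.IsSolvable G := by
  classical
  obtain ⟨s, hs, hs2, hs3⟩ : ∃ s : Finset ℕ, (Nat.card G).primeFactors ⊆ s ∧ s.card = 2 ∧
      ∀ p ∈ s, p.Prime := by
    have h0 : (Nat.card G).primeFactors.card = 0 ∨ (Nat.card G).primeFactors.card = 1 ∨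
        (Nat.card G).primeFactors.card = 2 := by omega
    rcases h0 with h0 | h0 | h0
    · refine ⟨{2, 3}, ?_, rfl, ?_⟩
      · rw [Finset.card_eq_zero.1 h0]; exact Finset.empty_subset _
      · intro p hp
        simp only [Finset.mem_insert, Finset.mem_singleton] at hp
        rcases hp with rfl | rfl <;> norm_num
    · obtain ⟨p, hp⟩ := Finset.card_eq_one.1 h0
      have hpp : p.Prime := Nat.prime_of_mem_primeFactors (by rw [hp]; simp)
      obtain ⟨q, hq, hqp⟩ := Nat.exists_infinite_primes (p + 1)
      refine ⟨{p, q}, by rw [hp]; simp, Finset.card_pair (by omega), ?_⟩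
      intro r hr
      simp only [Finset.mem_insert, Finset.mem_singleton] at hr
      rcases hr with rfl | rfl
      · exact hpp
      · exact hqp
    · exact ⟨_, subset_rfl, h0, fun p hp => Nat.prime_of_mem_primeFactors hp⟩
  obtain ⟨p, q, hpq, rfl⟩ := Finset.card_eq_two.1 hs2
  have h1 : Nat.card G = p ^ (Nat.card G).factorization p * q ^ (Nat.card G).factorization q := by
    conv_lhs => rw [← Nat.prod_factorization_pow_eq_self (Nat.card_pos (α := G)).ne']
    rw [Finsupp.prod, Nat.support_factorization, Finset.prod_subset hs, Finset.prod_pair hpq]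
    intro r hrs hr
    rw [Nat.factorization_eq_zero_of_not_dvd, pow_zero]
    intro hd
    exact hr (Nat.mem_primeFactors.2 ⟨hs3 r hrs, hd, Nat.card_pos.ne'⟩)
  exact S0144.result p q _ _ (hs3 p (by simp)) (hs3 q (by simp)) h1

open H506.PiHomog in
/-- Let π be a set of odd primes and G a finite group whose order has exactly four distinct prime divisors. Then the π'-elements of G form a subgroup if and only if N_G(H)/C_G(H) is a π-group for every nontrivial π-subgroup H of G. -/
theorem result {G : Type*} [Group G] [Finite G] (π : Set ℕ)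
    (hodd : ∀ p ∈ π, p.Prime ∧ p ≠ 2) (h4 : (Nat.card G).primeFactors.card = 4) :
    (∃ K : Subgroup G, ∀ x : G, x ∈ K ↔ ∀ p : ℕ, p.Prime → p ∣ orderOf x → p ∉ π) ↔ (∀ H : Subgroup G, H ≠ ⊥ → (∀ p : ℕ, p.Prime → p ∣ Nat.card ↥H → p ∈ π) →
        ∀ p : ℕ, p.Prime → p ∣ (Subgroup.centralizer (H : Set G)).relIndex (Subgroup.normalizer (H : Set G)) → p ∈ π) := by
  classical
  constructor
  · intro h H _ hH
    have h1 : ClosedPr π G := h
    exact relIndex_of_homog h1.homog H hH
  · intro h
    have hG : Homog π G := homog_of_relIndex h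
    have h2 : 2 ∉ π := fun h => (hodd 2 h).2 rfl
    show ClosedPr π G
    by_cases h1 : ((Nat.card G).primeFactors.filter (· ∈ π)).card ≤ 1
    · obtain ⟨p, hp, hp2⟩ : ∃ p : ℕ, p.Prime ∧ ∀ r ∈ π, r.Prime → r ∣ Nat.card G → r = p := by
        rcases Nat.lt_or_ge ((Nat.card G).primeFactors.filter (· ∈ π)).card 1 with h3 | h3
        · refine ⟨2, Nat.prime_two, fun r hr hrp hrd => ?_⟩
          have h5 : r ∈ (Nat.card G).primeFactors.filter (· ∈ π) :=
            Finset.mem_filter.2 ⟨Nat.mem_primeFactors.2 ⟨hrp, hrd, Nat.card_pos.ne'⟩, hr⟩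
          have := Finset.card_pos.2 ⟨r, h5⟩
          omega
        · obtain ⟨p, hp⟩ := Finset.card_eq_one.1 (le_antisymm h1 h3)
          have hpm : p ∈ (Nat.card G).primeFactors.filter (· ∈ π) := by rw [hp]; simp
          refine ⟨p, Nat.prime_of_mem_primeFactors (Finset.mem_filter.1 hpm).1, fun r hr hrp hrd => ?_⟩
          have h5 : r ∈ (Nat.card G).primeFactors.filter (· ∈ π) :=
            Finset.mem_filter.2 ⟨Nat.mem_primeFactors.2 ⟨hrp, hrd, Nat.card_pos.ne'⟩, hr⟩
          rw [hp] at h5
          exact Finset.mem_singleton.1 h5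
      exact H506.PiCyc.closedPr_of_single hG hp hp2
    · apply H506.PiMinSimple.closedPr_of_solvSub h2 _ hG
      intro H hH
      apply isSolvable_of_card_primeFactors
      have h6 : (Nat.card H).primeFactors ⊆ (Nat.card G).primeFactors.filter (fun p => ¬ (p ∈ π)) := by
        intro r hr
        obtain ⟨hr1, hr2, hr3⟩ := Nat.mem_primeFactors.1 hr
        exact Finset.mem_filter.2 ⟨Nat.mem_primeFactors.2
          ⟨hr1, hr2.trans (Subgroup.card_subgroup_dvd_card H), Nat.card_pos.ne'⟩, hH r hr1 hr2⟩
      have h7 := Finset.card_le_card h6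
      have h8 := Finset.card_filter_add_card_filter_not (s := (Nat.card G).primeFactors) (fun p => p ∈ π)
      omega

end Cfsg.Agent.S4048
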