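import Cfsg.Statements.S4056
import Cfsg.Agent.H508.Basic

set_option autoImplicit false
open Cfsg

namespace Cfsg.Agent.S4056

/-- In a finite 2-group of nilpotency class at most 2 and exponent dividing 4, the Frattini subgroup lies in the centre and is elementary abelian. -/
theorem result {P : Type*} [Group P] [Finite P] (hP : IsPGroup 2 P)
    (hcl : Group.nilpotencyClass P ≤ 2) (hexp : Monoid.exponent P ∣ 4) :
    frattini P ≤ Subgroup.center P ∧ Cfsg.IsElementaryAbelian 2 (frattini P) := by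
  haveI : Fact (Nat.Prime 2) := ⟨Nat.prime_two⟩
  haveI := hP.isNilpotent
  have h4 : ∀ x : P, x ^ 4 = 1 := Monoid.exponent_dvd_iff_forall_pow_eq_one.1 hexp
  have hle := Cfsg.Agent.H508.frattini_le_omegaCenter_two (Cfsg.Agent.H508.comm_mem_center hcl) h4
  refine ⟨fun x hx => (hle hx).1, ?_, fun x hx => (hle hx).2⟩
  refine ⟨⟨?_⟩⟩
  rintro ⟨a, ha⟩ ⟨b, hb⟩
  exact Subtype.ext ((Subgroup.mem_center_iff.1 (hle hb).1 a))

end Cfsg.Agent.S4056
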