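import Cfsg.Statements.S4057
import Cfsg.Agent.H508.GLGen
import Cfsg.Agent.H508.ThompsonGen

set_option autoImplicit false
set_option linter.style.haveILetI false
open Cfsg

namespace Cfsg.Agent.S4057

open Subgroup Cfsg.Agent.H508

/-- Let p be an odd prime and P a finite p-group in which every normal abelian subgroup can be generated by k elements. Then every subgroup of P can be generated by at most ⌊k(k+4)/4⌋ elements. -/
theorem result {P : Type*} [Group P] [Finite P] {p : ℕ} [Fact p.Prime]
    (hp : p ≠ 2) (hP : IsPGroup p P) (k : ℕ)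
    (hab : ∀ A : Subgroup P, A.Normal → IsMulCommutative A → ∃ S : Finset P, S.card ≤ k ∧ Subgroup.closure (S : Set P) = A) :
    ∀ H : Subgroup P, ∃ S : Finset P, S.card ≤ k * (k + 4) / 4 ∧ Subgroup.closure (S : Set P) = H := by
  classical
  have hpp : p.Prime := Fact.out
  -- a maximal normal elementary abelian subgroup
  obtain ⟨A, -, hAn, hA, hmax⟩ := Cfsg.Agent.Lib.NormalElementary.exists_maximal_ge p (⊥ : Subgroup P)
    inferInstance (by
      refine ⟨⟨⟨?_⟩⟩, ?_⟩
      · rintro ⟨a, ha⟩ ⟨b, hb⟩
        exact Subsingleton.elim _ _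
      · intro a ha
        rw [mem_bot] at ha
        rw [ha, one_pow])
  haveI := hAn
  have halp : ∀ x : P, x ∈ centralizer (A : Set P) → x ^ p = 1 → x ∈ A := fun x hx hxp =>
    Cfsg.Agent.Lib.NormalElementary.mem_of_maximal hp hP A hA hmax hx hxp
  obtain ⟨a, ha⟩ := (hP.to_subgroup A).exists_card_eq
  have hAcomm : ∀ x y : A, x * y = y * x := fun x y => hA.1.is_comm.comm x y
  have hApow : ∀ x : A, x ^ p = 1 := fun x => Subtype.ext (hA.2 x x.2)
  -- the rank of `A` is at most `k`
  have hak : a ≤ k := by
    obtain ⟨S, hS, hcl⟩ := hab A hAn hA.1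
    have hSA : ∀ s ∈ S, s ∈ A := fun s hs => by rw [← hcl]; exact subset_closure hs
    let T : Finset A := S.attach.image (fun s => ⟨s.1, hSA s.1 s.2⟩)
    have hT : T.card ≤ S.card := by
      refine Finset.card_image_le.trans ?_
      rw [Finset.card_attach]
    have hTcl : closure (T : Set A) = ⊤ := by
      rw [eq_top_iff]
      rintro ⟨x, hx⟩ -
      have h1 : x ∈ (closure (T : Set A)).map A.subtype := by
        rw [MonoidHom.map_closure]
        rw [← hcl] at hx
        refine closure_mono ?_ hx
        intro s hs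
        refine ⟨⟨s, hSA s hs⟩, ?_, rfl⟩
        rw [Finset.coe_image]
        exact ⟨⟨s, hs⟩, Finset.mem_coe.2 (Finset.mem_attach _ _), rfl⟩
      obtain ⟨y, hy, hyx⟩ := h1
      have : y = ⟨x, hx⟩ := Subtype.ext hyx
      rwa [← this]
    have hfr : (frattini A).index = p ^ a := by
      have h1 : frattini A = ⊥ := by
        rw [eq_bot_iff]
        apply Cfsg.Agent.Lib.FrattiniPGroup.frattini_le (p := p)
        · intro x y
          rw [mem_bot, commutatorElement_eq_one_iff_mul_comm]
          exact hAcomm x y
        · intro x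
          rw [mem_bot]
          exact hApow x
      rw [h1, Subgroup.index_bot, ha]
    have h2 := (Cfsg.Agent.S0014.result p a (hP.to_subgroup A) hfr).2 T hTcl
    omega
  intro H
  -- the action on `A`
  let f : H →* MulAut A := (MulAut.conjNormal (H := A)).comp H.subtype
  have hker : ∀ x : H, x ∈ f.ker → (x : P) ∈ centralizer (A : Set P) := by
    intro x hx
    rw [MonoidHom.mem_ker] at hx
    rw [mem_centralizer_iff]
    intro y hy
    have h1 := congrArg (fun φ : MulAut A => ((φ ⟨y, hy⟩ : A) : P)) hx
    have h2 : (x : P) * y * (x : P)⁻¹ = y := by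
      simpa [f, MulAut.conjNormal_apply] using h1
    calc y * (x : P) = ((x : P) * y * (x : P)⁻¹) * x := by rw [h2]
      _ = x * y := by group
  -- the kernel
  have hPH : IsPGroup p H := hP.to_subgroup H
  have hPK : IsPGroup p f.ker := hPH.to_subgroup f.ker
  obtain ⟨T₂, hT₂, hcl₂⟩ : ∃ T : Finset f.ker, T.card ≤ a ∧ closure (T : Set f.ker) = ⊤ := by
    apply ThompsonGen.exists_gen hp hPK
    · intro x hx
      rw [mem_center_iff]
      intro g
      have hx' : ((x : H) : P) ∈ A := halp _ (hker x x.2) (by
        have := congrArg (fun z : f.ker => ((z : H) : P)) hx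
        simpa using this)
      have h1 := mem_centralizer_iff.1 (hker g g.2) _ hx'
      exact Subtype.ext (Subtype.ext h1.symm)
    · rw [← ha]
      refine Nat.card_le_card_of_injective (fun x : {x : f.ker // x ^ p = 1} =>
        (⟨((x.1 : H) : P), halp _ (hker x.1 x.1.2) (by
          have := congrArg (fun z : f.ker => ((z : H) : P)) x.2
          simpa using this)⟩ : A)) ?_
      intro x y hxy
      have h1 : ((x.1 : H) : P) = ((y.1 : H) : P) := by
        simpa using congrArg (fun z : A => (z : P)) hxy
      exact Subtype.ext (Subtype.ext (Subtype.ext h1))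
  -- the quotient
  obtain ⟨T₁, hT₁, hcl₁⟩ := GLGen.exists_gen_mulAut (X := H ⧸ f.ker) (V := A) (hPH.to_quotient f.ker)
    hAcomm hApow ha (QuotientGroup.kerLift f) (QuotientGroup.kerLift_injective f)
  obtain ⟨T, hT, hcl⟩ := ThompsonGen.exists_gen_extension f.ker T₁ T₂ hcl₁ hcl₂
  refine ⟨T.image (Subtype.val : H → P), ?_, ?_⟩
  · refine Finset.card_image_le.trans ?_
    rw [Nat.le_div_iff_mul_le (by norm_num)]
    have h1 : a ^ 2 ≤ k ^ 2 := Nat.pow_le_pow_left hak 2
    have h2 : k * (k + 4) = k ^ 2 + 4 * k := by ring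
    omega
  · rw [Finset.coe_image]
    have h1 := MonoidHom.map_closure H.subtype (T : Set H)
    rw [hcl] at h1
    have h2 : (⊤ : Subgroup H).map H.subtype = H := by rw [← MonoidHom.range_eq_map, Subgroup.range_subtype]
    rw [h2] at h1
    exact h1.symm

end Cfsg.Agent.S4057
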