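import Cfsg.Statements.S4068
import Cfsg.Agent.S0144
import Cfsg.Agent.H510.AllPrime

set_option autoImplicit false
open Cfsg

namespace Cfsg.Agent.S4068

theorem eq_pow_mul_pow {n p q : ℕ} (hn : n ≠ 0) (hpq : p ≠ q)
    (h : n.primeFactors ⊆ {p, q}) : n = p ^ n.factorization p * q ^ n.factorization q := by
  conv_lhs => rw [← Nat.prod_factorization_pow_eq_self hn]
  rw [Finsupp.prod_of_support_subset _ (s := {p, q}) (by simpa using h) _ (by simp),
    Finset.prod_pair hpq]

theorem exists_prime {G : Type*} [Group G] [Finite G] (hns : ¬ Group.IsSolvable G) {p q : ℕ}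
    (hp : p.Prime) (hq : q.Prime) (hpq : p ≠ q) :
    ∃ r : ℕ, r.Prime ∧ r ∣ Nat.card G ∧ r ≠ p ∧ r ≠ q := by
  by_contra hcon
  push Not at hcon
  apply hns
  refine Cfsg.Agent.S0144.result p q _ _ hp hq (eq_pow_mul_pow Nat.card_pos.ne' hpq ?_)
  intro r hr
  have hrp := Nat.prime_of_mem_primeFactors hr
  have hrd := Nat.dvd_of_mem_primeFactors hr
  by_cases h : r = p
  · simp [h]
  · simp [hcon r hrp hrd h]

theorem orderOf_rel {G : Type*} [Group G] (x y : G) (h : MulAction.orbitRel (MulAut G) G x y) :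
    orderOf x = orderOf y := by
  rw [MulAction.orbitRel_apply, MulAction.mem_orbit_iff] at h
  obtain ⟨a, rfl⟩ := h
  exact orderOf_injective (a : G ≃* G).toMonoidHom a.injective y

/-- A finite non-solvable group on which its automorphism group has exactly four orbits is isomorphic to the alternating group of degree 5. -/
theorem result {G : Type*} [Group G] [Finite G] (hns : ¬ Group.IsSolvable G)
    (h4 : Nat.card (MulAction.orbitRel.Quotient (MulAut G) G) = 4) : Nonempty (G ≃* alternatingGroup (Fin 5)) := by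
  classical
  apply Cfsg.Agent.H510.AllPrime.main hns
  obtain ⟨p, hp, hpd, hp2, hp3⟩ := exists_prime hns Nat.prime_two Nat.prime_three (by norm_num)
  obtain ⟨q, hq, hqd, hqp, hq2⟩ := exists_prime hns hp Nat.prime_two hp2
  obtain ⟨r, hr, hrd, hrp, hrq⟩ := exists_prime hns hp hq (Ne.symm hqp)
  have : Fact p.Prime := ⟨hp⟩
  have : Fact q.Prime := ⟨hq⟩
  have : Fact r.Prime := ⟨hr⟩
  obtain ⟨xp, hxp⟩ := exists_prime_orderOf_dvd_card' p hpd
  obtain ⟨xq, hxq⟩ := exists_prime_orderOf_dvd_card' q hqd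
  obtain ⟨xr, hxr⟩ := exists_prime_orderOf_dvd_card' r hrd
  haveI : Fintype (MulAction.orbitRel.Quotient (MulAut G) G) := Fintype.ofFinite _
  let f : MulAction.orbitRel.Quotient (MulAut G) G → ℕ :=
    Quotient.lift (fun x : G => orderOf x) orderOf_rel
  have hf : ∀ x : G, f (Quotient.mk _ x) = orderOf x := fun x => rfl
  intro x hx
  by_contra hnp
  have hsub : ({1, p, q, r, orderOf x} : Finset ℕ) ⊆ Finset.univ.image f := by
    intro m hm
    simp only [Finset.mem_insert, Finset.mem_singleton] at hm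
    rw [Finset.mem_image]
    rcases hm with rfl | rfl | rfl | rfl | rfl
    · exact ⟨Quotient.mk _ 1, Finset.mem_univ _, by rw [hf, orderOf_one]⟩
    · exact ⟨Quotient.mk _ xp, Finset.mem_univ _, by rw [hf, hxp]⟩
    · exact ⟨Quotient.mk _ xq, Finset.mem_univ _, by rw [hf, hxq]⟩
    · exact ⟨Quotient.mk _ xr, Finset.mem_univ _, by rw [hf, hxr]⟩
    · exact ⟨Quotient.mk _ x, Finset.mem_univ _, by rw [hf]⟩
  have hcard : ({1, p, q, r, orderOf x} : Finset ℕ).card = 5 := by
    have h1 : (1 : ℕ) ∉ ({p, q, r, orderOf x} : Finset ℕ) := by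
      simp only [Finset.mem_insert, Finset.mem_singleton, not_or]
      refine ⟨hp.ne_one.symm, hq.ne_one.symm, hr.ne_one.symm, fun h => hx (orderOf_eq_one_iff.1 h.symm)⟩
    have h2 : p ∉ ({q, r, orderOf x} : Finset ℕ) := by
      simp only [Finset.mem_insert, Finset.mem_singleton, not_or]
      exact ⟨hqp.symm, hrp.symm, fun h => hnp (h ▸ hp)⟩
    have h3 : q ∉ ({r, orderOf x} : Finset ℕ) := by
      simp only [Finset.mem_insert, Finset.mem_singleton, not_or]
      exact ⟨hrq.symm, fun h => hnp (h ▸ hq)⟩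
    have h4 : r ∉ ({orderOf x} : Finset ℕ) := by
      simp only [Finset.mem_singleton]
      exact fun h => hnp (h ▸ hr)
    rw [Finset.card_insert_of_notMem h1, Finset.card_insert_of_notMem h2,
      Finset.card_insert_of_notMem h3, Finset.card_insert_of_notMem h4, Finset.card_singleton]
  have h5 := Finset.card_le_card hsub
  have h6 : (Finset.univ.image f).card ≤ 4 := by
    rw [← h4, Nat.card_eq_fintype_card]
    exact Finset.card_image_le
  omega

end Cfsg.Agent.S4068
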