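import Cfsg.Statements.S4069
import Cfsg.Agent.H511.AlmostCycMain
import Cfsg.Agent.S0205
import Cfsg.Agent.S0482

set_option autoImplicit false
open Cfsg

namespace Cfsg.Agent.S4069

/-- Let G be a finite non-solvable group whose Sylow subgroups of odd order are cyclic and whose Sylow 2-subgroups contain a cyclic subgroup of index at most 2. Then G has a normal subgroup G₀ of index at most 2 that is an internal direct product X × L of normal subgroups, where X has odd order and is an extension of a cyclic group by a cyclic group, L is isomorphic to PSL₂(p) or SL₂(p) for some prime p ≥ 5, and the orders of X and L are coprime. -/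
theorem result {G : Type*} [Group G] [Finite G] (hns : ¬ Group.IsSolvable G)
    (hodd : ∀ p : ℕ, p.Prime → p ≠ 2 → ∀ P : Sylow p G, IsCyclic P)
    (h2 : ∀ S : Sylow 2 G, ∃ C : Subgroup ↥(S : Subgroup G), IsCyclic C ∧ C.index ∣ 2) :
    ∃ G₀ : Subgroup G, G₀.Normal ∧ G₀.index ∣ 2 ∧
      ∃ X L : Subgroup ↥G₀, X.Normal ∧ L.Normal ∧ X ⊓ L = ⊥ ∧ X ⊔ L = ⊤ ∧ (Nat.card X).Coprime (Nat.card L) ∧
        Odd (Nat.card X) ∧ (∃ (C : Subgroup ↥X) (_ : C.Normal), IsCyclic C ∧ IsCyclic (↥X ⧸ C)) ∧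
        ∃ (p : ℕ) (_ : Fact p.Prime), 5 ≤ p ∧
          (Nonempty (↥L ≃* Matrix.ProjectiveSpecialLinearGroup (Fin 2) (ZMod p)) ∨
           Nonempty (↥L ≃* Matrix.SpecialLinearGroup (Fin 2) (ZMod p))) :=
Cfsg.Agent.H511.AC.main hns ⟨fun p P hp hp2 => hodd p hp hp2 P, h2⟩
    (fun H _ _ ho => Cfsg.Agent.S0205.result ho) (fun H _ _ _ hc hr => Cfsg.Agent.S0482.result hc hr)

end Cfsg.Agent.S4069
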