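import Cfsg.Statements.S4075
import Mathlib

set_option autoImplicit false
open Cfsg

namespace Cfsg.Agent.S4075

/-- Let G be a finite nilpotent group. Every non-abelian subgroup of G is self-normalizing if and only if G is abelian or G is a minimal non-abelian p-group for some prime p (non-abelian of prime-power order with every proper subgroup abelian). -/
theorem result {G : Type*} [Group G] [Finite G]
    [Group.IsNilpotent G] :
    (∀ H : Subgroup G, ¬ IsMulCommutative H → Subgroup.normalizer (H : Set G) = H) ↔
    (IsMulCommutative G ∨ (IsPrimePow (Nat.card G) ∧ ¬ IsMulCommutative G ∧ ∀ H : Subgroup G, H ≠ ⊤ → IsMulCommutative H)) := by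
  constructor
  · intro h
    by_cases hG : IsMulCommutative G
    · exact Or.inl hG
    right
    have hprop : ∀ H : Subgroup G, H ≠ ⊤ → IsMulCommutative H := by
      intro H hH
      by_contra hc
      apply hH
      exact (normalizerCondition_iff_only_full_group_self_normalizing.1
        Group.normalizerCondition_of_isNilpotent) H (h H hc)
    refine ⟨?_, hG, hprop⟩
    by_contra hpp
    apply hG
    have hall : ∀ p : (Nat.card G).primeFactors, ∀ P : Sylow p G, IsMulCommutative P := by
      intro p P
      apply hprop
      intro htop
      apply hpp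
      have hp : (p : ℕ).Prime := Nat.prime_of_mem_primeFactors p.2
      have hfact : Fact (p : ℕ).Prime := ⟨hp⟩
      obtain ⟨k, hk⟩ := P.2.exists_card_eq
      rw [htop, Subgroup.card_top] at hk
      rw [hk]
      refine hp.isPrimePow.pow ?_
      rintro rfl
      have h1 : (p : ℕ) ∣ 1 := (Nat.dvd_of_mem_primeFactors p.2).trans (by rw [hk, pow_zero])
      exact hp.one_lt.ne' (Nat.dvd_one.1 h1)
    obtain ⟨e⟩ := ((Group.isNilpotent_of_finite_tfae (G := G)).out 0 4).mp ‹Group.IsNilpotent G›
    refine ⟨⟨fun a b => ?_⟩⟩
    apply e.symm.injective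
    rw [map_mul, map_mul]
    funext p
    funext P
    exact (hall p P).is_comm.comm _ _
  · rintro (h | ⟨-, -, h⟩) H hH
    · exfalso
      exact hH ⟨⟨fun a b => Subtype.ext (h.is_comm.comm _ _)⟩⟩
    · by_cases htop : H = ⊤
      · rw [htop]
        exact Subgroup.normalizer_eq_top _
      · exact absurd (h H htop) hH

end Cfsg.Agent.S4075
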