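-- S4080: automorphisms of order p of C_{p²} × C_{p²}, p > 3
import Cfsg.Statements.S4080

set_option autoImplicit false
open Cfsg

namespace Cfsg.Agent.S4080

open Polynomial in
/-- A nilpotent `2 × 2` matrix over a field has square zero. -/
theorem sq_zero {F : Type*} [Field F] (N : Matrix (Fin 2) (Fin 2) F) (h : IsNilpotent N) : N ^ 2 = 0 := by
  have h1 := Matrix.isNilpotent_charpoly_sub_pow_of_isNilpotent h
  have h2 : N.charpoly - X ^ Fintype.card (Fin 2) = 0 := h1.eq_zero
  have h3 : N.charpoly = X ^ 2 := by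
    rw [sub_eq_zero] at h2
    simpa using h2
  have h4 := Matrix.aeval_self_charpoly N
  rw [h3] at h4
  simpa using h4

/-- The kernel of `ZMod (p ^ 2) → ZMod p` consists of multiples of `p`. -/
theorem ker_cast {p : ℕ} [Fact p.Prime] (φ : ZMod (p ^ 2) →+* ZMod p) (r : ZMod (p ^ 2)) (h : φ r = 0) :
    ∃ b : ZMod (p ^ 2), r = (p : ZMod (p ^ 2)) * b := by
  have hp : 0 < p ^ 2 := pow_pos (Fact.out : p.Prime).pos 2
  have : NeZero (p ^ 2) := ⟨hp.ne'⟩
  obtain ⟨k, rfl⟩ := ZMod.natCast_zmod_surjective r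
  rw [map_natCast, ZMod.natCast_eq_zero_iff] at h
  obtain ⟨m, rfl⟩ := h
  exact ⟨m, by push_cast; ring⟩

/-- A matrix over `ZMod (p ^ 2)` that vanishes mod `p` is a multiple of `p`. -/
theorem mat_ker {p : ℕ} [Fact p.Prime] (φ : ZMod (p ^ 2) →+* ZMod p)
    (N : Matrix (Fin 2) (Fin 2) (ZMod (p ^ 2))) (h : φ.mapMatrix N = 0) :
    ∃ B : Matrix (Fin 2) (Fin 2) (ZMod (p ^ 2)), N = (p : ZMod (p ^ 2)) • B := by
  have h1 : ∀ i j, ∃ b : ZMod (p ^ 2), N i j = (p : ZMod (p ^ 2)) * b := fun i j => by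
    refine ker_cast φ _ ?_
    have := congrFun (congrFun h i) j
    simpa using this
  choose B hB using h1
  refine ⟨Matrix.of B, ?_⟩
  ext i j
  simp [hB i j]

theorem p_sq {p : ℕ} : (p : ZMod (p ^ 2)) * (p : ZMod (p ^ 2)) = 0 := by
  have : ((p ^ 2 : ℕ) : ZMod (p ^ 2)) = 0 := ZMod.natCast_self _
  rw [← this]; push_cast; ring

/-- The key computation. -/
theorem key {p : ℕ} [Fact p.Prime] (hp : 3 < p) (φ : ZMod (p ^ 2) →+* ZMod p)
    (A : Matrix (Fin 2) (Fin 2) (ZMod (p ^ 2))) (hA : A ^ p = 1) :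
    ∃ B : Matrix (Fin 2) (Fin 2) (ZMod (p ^ 2)), A = 1 + (p : ZMod (p ^ 2)) • B := by
  have hpp : p.Prime := Fact.out
  set N := A - 1 with hN
  have hAN : A = N + 1 := by rw [hN]; abel
  -- `N` is nilpotent modulo `p`
  have h1 : (φ.mapMatrix N) ^ p = 0 := by
    have h2 : (φ.mapMatrix A) ^ p = 1 := by rw [← map_pow, hA, map_one]
    rw [hAN, map_add, map_one, add_pow_char_of_commute p (Commute.one_right _), one_pow] at h2
    simpa using h2
  have h2 : (φ.mapMatrix N) ^ 2 = 0 := sq_zero _ ⟨p, h1⟩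
  rw [← map_pow] at h2
  obtain ⟨B, hB⟩ := mat_ker φ _ h2
  have h3 : (p : ZMod (p ^ 2)) • N ^ 2 = 0 := by
    rw [hB, smul_smul, p_sq, zero_smul]
  have h4 : N ^ 4 = 0 := by
    have : N ^ 4 = N ^ 2 * N ^ 2 := by rw [← pow_add]
    rw [this, hB, smul_mul_smul_comm, p_sq, zero_smul]
  have h3' : ∀ m, 2 ≤ m → (p : ZMod (p ^ 2)) • N ^ m = 0 := fun m hm => by
    obtain ⟨k, rfl⟩ := Nat.exists_eq_add_of_le hm
    rw [pow_add, ← smul_mul_assoc, h3, zero_mul]
  have h4' : ∀ m, 4 ≤ m → N ^ m = 0 := fun m hm => by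
    obtain ⟨k, rfl⟩ := Nat.exists_eq_add_of_le hm
    rw [pow_add, h4, zero_mul]
  have h5 : (N + 1) ^ p = 1 + (p : ZMod (p ^ 2)) • N := by
    rw [(Commute.one_right N).add_pow, Finset.sum_eq_add_of_mem 0 1 (by simp) (by simp; omega) (by simp)]
    · simp [Algebra.smul_def, Nat.cast_comm]
    · intro m hm hm'
      have hm2 : 2 ≤ m := by omega
      rw [one_pow, mul_one]
      by_cases hm4 : 4 ≤ m
      · rw [h4' m hm4, zero_mul]
      · have hmp : m ≠ p := by omega
        have hd : p ∣ p.choose m := hpp.dvd_choose_self (by omega) (by omega)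
        obtain ⟨c, hc⟩ := hd
        have : N ^ m * ((p * c : ℕ) : Matrix (Fin 2) (Fin 2) (ZMod (p ^ 2))) = 0 := by
          have h6 : N ^ m * ((p : ℕ) : Matrix (Fin 2) (Fin 2) (ZMod (p ^ 2))) = 0 := by
            rw [← h3' m hm2, ← Nat.cast_comm, Algebra.smul_def]
            simp
          rw [Nat.cast_mul, ← mul_assoc, h6, zero_mul]
        rw [hc, this]
  rw [hAN] at hA
  rw [h5] at hA
  have h6 : (p : ZMod (p ^ 2)) • N = 0 := by simpa using hA
  have h7 : φ.mapMatrix N = 0 := by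
    ext i j
    have h8 := congrFun (congrFun h6 i) j
    have h9 : (p : ZMod (p ^ 2)) * N i j = 0 := by simpa using h8
    have : NeZero (p ^ 2) := ⟨(pow_pos hpp.pos 2).ne'⟩
    obtain ⟨k, hk⟩ := ZMod.natCast_zmod_surjective (N i j)
    rw [← hk, ← Nat.cast_mul, ZMod.natCast_eq_zero_iff, pow_two] at h9
    have h10 : p ∣ k := Nat.dvd_of_mul_dvd_mul_left hpp.pos h9
    have h11 : φ (N i j) = 0 := by
      rw [← hk, map_natCast, ZMod.natCast_eq_zero_iff]
      exact h10
    simpa using h11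
  obtain ⟨C, hC⟩ := mat_ker φ _ h7
  exact ⟨C, by rw [hAN, hC, add_comm]⟩

/-- Let p > 3 be a prime and L the direct product of two cyclic groups of order p². Every automorphism of L of order p fixes every element of order p of L. -/
theorem result {p : ℕ} [Fact p.Prime] (hp : 3 < p)
    (a : MulAut (Multiplicative (ZMod (p ^ 2) × ZMod (p ^ 2)))) (ha : orderOf a = p)
    (x : Multiplicative (ZMod (p ^ 2) × ZMod (p ^ 2))) (hx : orderOf x = p) : a x = x := by
  classical
  let R := ZMod (p ^ 2)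
  let f : (R × R) →+ (R × R) :=
    { toFun := fun m => Multiplicative.toAdd (a (Multiplicative.ofAdd m))
      map_zero' := by simp
      map_add' := fun u v => by simp }
  let L : Module.End R (R × R) := f.toZModLinearMap (p ^ 2)
  have hL : ∀ m, L m = Multiplicative.toAdd (a (Multiplicative.ofAdd m)) := fun m => rfl
  have hLk : ∀ (k : ℕ) (m : R × R), (L ^ k) m = Multiplicative.toAdd ((a ^ k) (Multiplicative.ofAdd m)) := by
    intro k
    induction k with
    | zero => intro m; simp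
    | succ n ih =>
      intro m
      have h1 : (L ^ (n + 1)) m = L ((L ^ n) m) := by
        rw [show L ^ (n + 1) = L * L ^ n from pow_succ' L n]; rfl
      rw [h1, ih, hL, show a ^ (n + 1) = a * a ^ n from pow_succ' a n]
      simp
  have hap : a ^ p = 1 := orderOf_dvd_iff_pow_eq_one.mp (dvd_of_eq ha)
  have hLp : L ^ p = 1 := by
    refine LinearMap.ext fun m => ?_
    rw [hLk, hap]; rfl
  let e := LinearMap.toMatrixAlgEquiv (Module.Basis.finTwoProd R)
  have hA : (e L) ^ p = 1 := by rw [← map_pow, hLp, map_one]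
  let φ : ZMod (p ^ 2) →+* ZMod p := ZMod.castHom (dvd_pow_self p two_ne_zero) (ZMod p)
  obtain ⟨B, hB⟩ := key hp φ (e L) hA
  have hL2 : L = 1 + (p : R) • e.symm B := by
    apply e.injective
    rw [map_add, map_one, map_smul, e.apply_symm_apply]
    exact hB
  have hx' : (p : R) • (Multiplicative.toAdd x : R × R) = 0 := by
    have h1 : x ^ p = 1 := orderOf_dvd_iff_pow_eq_one.mp (dvd_of_eq hx)
    have h2 : (p : ℕ) • (Multiplicative.toAdd x : R × R) = 0 := by
      rw [← toAdd_pow, h1]; rfl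
    rw [Nat.cast_smul_eq_nsmul]
    exact h2
  have h3 : L (Multiplicative.toAdd x) = Multiplicative.toAdd x := by
    conv_lhs => rw [hL2]
    rw [LinearMap.add_apply, LinearMap.smul_apply, ← map_smul, hx', map_zero, add_zero]
    rfl
  rw [hL] at h3
  exact Multiplicative.toAdd.injective h3

end Cfsg.Agent.S4080
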