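import Cfsg.Statements.S4083
import Cfsg.Agent.Classification.DihStructure
import Cfsg.Agent.TwoFusion.QuatSolvable

set_option autoImplicit false
open Cfsg

namespace Cfsg.Agent.S4083

open Cfsg.Agent.Classification.DihedralCentral Cfsg.Agent.Classification.DihReduction
  Cfsg.Agent.Classification.TransferSign

theorem eq_one_of_odd {X : Type*} [Group X] {S : Subgroup X} (hS : IsPGroup 2 S) {x : X}
    (hx : x ∈ S) (ho : Odd (orderOf x)) : x = 1 := by
  obtain ⟨k, hk⟩ := hS ⟨x, hx⟩
  have hk' : x ^ 2 ^ k = 1 := congrArg Subtype.val hk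
  have h1 : orderOf x ∣ 2 ^ k := orderOf_dvd_of_pow_eq_one hk'
  have h2 : Nat.Coprime (orderOf x) (2 ^ k) := (Nat.coprime_two_right.mpr ho).pow_right k
  exact orderOf_eq_one_iff.mp (Nat.Coprime.eq_one_of_dvd h2 h1)

/-- structure of a group with normal Sylow 2-subgroup and `OddClosed` -/
theorem exists_odd_gen {X : Type*} [Group X] [Finite X] (S : Subgroup X) [S.Normal]
    (hS : IsPGroup 2 S) (hodd : Odd S.index) (hX : OddClosed X) [hc : IsCyclic (X ⧸ S)] :
    ∃ c : X, Odd (orderOf c) ∧ (∀ s ∈ S, s * c = c * s) ∧ orderOf c = S.index ∧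
      ∀ x : X, ∃ s ∈ S, ∃ i : ℤ, x = s * c ^ i := by
  obtain ⟨a, ha⟩ := IsPGroup.iff_card.mp hS
  obtain ⟨gb, hgb⟩ := hc.exists_generator
  obtain ⟨g, rfl⟩ := QuotientGroup.mk_surjective gb
  have hord : orderOf (QuotientGroup.mk g : X ⧸ S) = S.index := by
    rw [orderOf_eq_card_of_forall_mem_zpowers hgb, Subgroup.index]
  set c := g ^ (2 ^ a) with hcdef
  have hcb : (QuotientGroup.mk c : X ⧸ S) = (QuotientGroup.mk g : X ⧸ S) ^ (2 ^ a) := rfl
  have hordc : orderOf (QuotientGroup.mk c : X ⧸ S) = S.index := by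
    rw [hcb, Nat.Coprime.orderOf_pow, hord]
    rw [hord]
    exact (Nat.coprime_two_right.mpr hodd).pow_right a
  have hcm : c ^ S.index = 1 := by
    rw [hcdef, ← pow_mul, ← ha, Subgroup.card_mul_index]
    exact pow_card_eq_one'
  have hordc' : orderOf c = S.index := by
    apply Nat.dvd_antisymm (orderOf_dvd_of_pow_eq_one hcm)
    rw [← hordc]
    exact orderOf_map_dvd (QuotientGroup.mk' S) c
  have hcodd : Odd (orderOf c) := hordc' ▸ hodd
  refine ⟨c, hcodd, ?_, hordc', ?_⟩
  · intro s hs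
    have h1 : s * c * s⁻¹ * c⁻¹ ∈ S := by
      have h2 : c * s⁻¹ * c⁻¹ ∈ S := Subgroup.Normal.conj_mem inferInstance _ (S.inv_mem hs) c
      have h3 := S.mul_mem hs h2
      have h4 : s * c * s⁻¹ * c⁻¹ = s * (c * s⁻¹ * c⁻¹) := by group
      rw [h4]; exact h3
    have h2 : Odd (orderOf (s * c * s⁻¹ * c⁻¹)) := by
      apply hX
      · have h5 : orderOf (s * c * s⁻¹) = orderOf c := by
          have := orderOf_injective (MulAut.conj s).toMonoidHom (MulAut.conj s).injective c
          simpa using this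
        rw [h5]; exact hcodd
      · rw [orderOf_inv]; exact hcodd
    have h3 := eq_one_of_odd hS h1 h2
    have h4 : s * c * s⁻¹ * c⁻¹ = (s * c) * (c * s)⁻¹ := by group
    rw [h4, mul_inv_eq_one] at h3
    exact h3
  · intro x
    have htop : Subgroup.zpowers (QuotientGroup.mk c : X ⧸ S) = ⊤ := by
      apply Subgroup.eq_top_of_card_eq
      rw [Nat.card_zpowers, hordc, Subgroup.index]
    have hx : (QuotientGroup.mk x : X ⧸ S) ∈ Subgroup.zpowers (QuotientGroup.mk c : X ⧸ S) := by
      rw [htop]; exact Subgroup.mem_top _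
    obtain ⟨i, hi⟩ := hx
    refine ⟨x * (c ^ i)⁻¹, ?_, i, by group⟩
    have h1 : (QuotientGroup.mk (c ^ i) : X ⧸ S) = QuotientGroup.mk x := by
      rw [← hi]; rfl
    have h2 := QuotientGroup.eq.mp h1
    have h3 := Subgroup.Normal.conj_mem (H := S) inferInstance _ h2 (c ^ i)
    have h4 : c ^ i * ((c ^ i)⁻¹ * x) * (c ^ i)⁻¹ = x * (c ^ i)⁻¹ := by group
    rwa [h4] at h3

theorem center_unique {k : ℕ} (hk : 2 ≤ k) (w w' : DihedralGroup (2 ^ k))
    (hw : ∀ x, w * x = x * w) (hw' : ∀ x, w' * x = x * w') (h1 : w ≠ 1) (h1' : w' ≠ 1) :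
    w = w' := by
  have h2ne : (2 : ZMod (2 ^ k)) ≠ 0 := by
    intro h
    have h3 : ((2 : ℕ) : ZMod (2 ^ k)) = 0 := by exact_mod_cast h
    rw [ZMod.natCast_eq_zero_iff] at h3
    have h4 := Nat.le_of_dvd (by norm_num) h3
    have h5 : 2 ^ 2 ≤ 2 ^ k := Nat.pow_le_pow_right (by norm_num) hk
    omega
  have hform : ∀ v : DihedralGroup (2 ^ k), (∀ x, v * x = x * v) → v ≠ 1 →
      ∃ i : ZMod (2 ^ k), v = DihedralGroup.r i ∧ i + i = 0 ∧ i ≠ 0 := by
    intro v hv hv1
    rcases v with i | i
    · refine ⟨i, rfl, ?_, ?_⟩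
      · have h := hv (DihedralGroup.sr 0)
        simp only [DihedralGroup.r_mul_sr, DihedralGroup.sr_mul_r, DihedralGroup.sr.injEq] at h
        have : i + i = (0 + i) - (0 - i) := by ring
        rw [this, h, sub_self]
      · rintro rfl
        exact hv1 rfl
    · exfalso
      have h := hv (DihedralGroup.r 1)
      simp only [DihedralGroup.r_mul_sr, DihedralGroup.sr_mul_r, DihedralGroup.sr.injEq] at h
      apply h2ne
      have : (2 : ZMod (2 ^ k)) = (i + 1) - (i - 1) := by ring
      rw [this, h, sub_self]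
  obtain ⟨i, rfl, hi, hi0⟩ := hform w hw h1
  obtain ⟨j, rfl, hj, hj0⟩ := hform w' hw' h1'
  have hval : ∀ i : ZMod (2 ^ k), i + i = 0 → i ≠ 0 → 2 * i.val = 2 ^ k := by
    intro i hi hi0
    have : NeZero (2 ^ k) := ⟨by positivity⟩
    have h1 : ((2 * i.val : ℕ) : ZMod (2 ^ k)) = 0 := by
      rw [Nat.cast_mul, ZMod.natCast_zmod_val, Nat.cast_two, two_mul, hi]
    rw [ZMod.natCast_eq_zero_iff] at h1
    obtain ⟨d, hd⟩ := h1
    have h2 : i.val < 2 ^ k := ZMod.val_lt i
    have h3 : i.val ≠ 0 := by rwa [Ne, ZMod.val_eq_zero]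
    have h4 : d = 1 := by
      have h5 : 2 ^ k * d < 2 ^ k * 2 := by omega
      have h6 : d < 2 := lt_of_mul_lt_mul_left h5 (Nat.zero_le _)
      have h7 : d ≠ 0 := by rintro rfl; omega
      omega
    rw [hd, h4, mul_one]
  have hi' := hval i hi hi0
  have hj' := hval j hj hj0
  have : NeZero (2 ^ k) := ⟨by positivity⟩
  have : i = j := ZMod.val_injective _ (by omega)
  rw [this]

/-- every 2-subgroup is conjugate into `P` -/
theorem conj_le {G : Type*} [Group G] [Finite G] (P : Sylow 2 G) (T : Subgroup G)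
    (hT : IsPGroup 2 T) : ∃ g : G, T.map (MulAut.conj g).toMonoidHom ≤ (P : Subgroup G) := by
  obtain ⟨Q, hQ⟩ := hT.exists_le_sylow
  obtain ⟨g, hg⟩ := MulAction.exists_smul_eq G Q P
  refine ⟨g, ?_⟩
  have h1 : (P : Subgroup G) = (Q : Subgroup G).map (MulAut.conj g).toMonoidHom := by
    rw [← hg]; rfl
  rw [h1]
  exact Subgroup.map_mono hQ

theorem subDihedral_of_cyclic {G : Type*} [Group G] [Finite G] (P : Sylow 2 G)
    (hP : IsCyclic P) : SubDihedral G := by
  intro T hT
  obtain ⟨g, hg⟩ := conj_le P T hT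
  have h1 : IsCyclic (T.map (MulAut.conj g).toMonoidHom) := by
    have : IsCyclic (P : Subgroup G) := hP
    exact Subgroup.isCyclic_of_le hg
  have h2 : IsCyclic T := by
    have e := T.equivMapOfInjective (MulAut.conj g).toMonoidHom (MulAut.conj g).injective
    exact e.isCyclic.mpr h1
  exact ⟨T, h2, fun x hx hxR => absurd hx hxR⟩

/-- a four-group is self-centralizing as soon as those in `P` are -/
theorem cent_all {G : Type*} [Group G] [Finite G] (P : Sylow 2 G)
    (hP : ∀ K : Subgroup G, K ≤ P → Nat.card K = 4 → (∀ k ∈ K, k ^ 2 = 1) →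
      Subgroup.centralizer (K : Set G) = K) (K : Subgroup G) (hK : Nat.card K = 4)
    (hsq : ∀ k ∈ K, k ^ 2 = 1) (c : G) (hc : ∀ k ∈ K, k * c = c * k) : c ∈ K := by
  have hK2 : IsPGroup 2 K := IsPGroup.of_card (n := 2) (by rw [hK]; norm_num)
  obtain ⟨g, hg⟩ := conj_le P K hK2
  have h1 := hP _ hg (by
    rw [← hK]
    exact Nat.card_congr (K.equivMapOfInjective (MulAut.conj g).toMonoidHom
      (MulAut.conj g).injective).symm.toEquiv) (by
    rintro _ ⟨k, hk, rfl⟩
    rw [← map_pow, hsq k hk, map_one])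
  have h2 : (MulAut.conj g) c ∈ Subgroup.centralizer
      ((K.map (MulAut.conj g).toMonoidHom : Subgroup G) : Set G) := by
    rw [Subgroup.mem_centralizer_iff]
    rintro _ ⟨k, hk, rfl⟩
    have := hc k hk
    change (MulAut.conj g) k * (MulAut.conj g) c = (MulAut.conj g) c * (MulAut.conj g) k
    rw [← map_mul, ← map_mul, this]
  rw [h1] at h2
  obtain ⟨k, hk, hkc⟩ := h2
  have h3 : k = c := (MulAut.conj g).injective hkc
  rw [← h3]; exact hk


/-- a normal 2-subgroup `S` with a unique nontrivial element with a conjugation invariant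
property `Q`: central involution of `X` -/
theorem exists_central {X : Type*} [Group X] (S : Subgroup X) [S.Normal] (Q : X → Prop)
    (hex : ∃ w ∈ S, w ≠ 1 ∧ Q w) (huniq : ∀ w ∈ S, ∀ w' ∈ S, w ≠ 1 → w' ≠ 1 → Q w → Q w' → w = w')
    (hconj : ∀ g w, w ∈ S → Q w → Q (g * w * g⁻¹)) (hinv : ∀ w, w ∈ S → Q w → Q w⁻¹) :
    ∃ w ∈ S, w ≠ 1 ∧ w * w = 1 ∧ ∀ g : X, g * w = w * g := by
  obtain ⟨w, hw, hw1, hQ⟩ := hex
  refine ⟨w, hw, hw1, ?_, ?_⟩
  · have h1 := huniq w hw w⁻¹ (S.inv_mem hw) hw1 (inv_ne_one.mpr hw1) hQ (hinv w hw hQ)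
    nth_rewrite 2 [h1]
    exact mul_inv_cancel w
  · intro g
    have h1 : g * w * g⁻¹ ∈ S := Subgroup.Normal.conj_mem inferInstance _ hw g
    have h2 : g * w * g⁻¹ ≠ 1 := by
      intro h
      apply hw1
      have h3 : w = g⁻¹ * (g * w * g⁻¹) * g := by group
      rw [h3, h]; group
    have h3 := huniq _ h1 w hw h2 hw1 (hconj g w hw hQ) hQ
    calc g * w = (g * w * g⁻¹) * g := by group
      _ = w * g := by rw [h3]

theorem cyclic_unique_involution {S : Type*} [Group S] [Finite S] [IsCyclic S] (x y : S) (hx : x ≠ 1)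
    (hy : y ≠ 1) (hxx : x * x = 1) (hyy : y * y = 1) : x = y := by
  classical
  letI : Fintype S := Fintype.ofFinite S
  have h := IsCyclic.card_pow_eq_one_le (α := S) (n := 2) (by norm_num)
  by_contra hne
  have h1 : ({1, x, y} : Finset S) ⊆ Finset.univ.filter (fun a : S => a ^ 2 = 1) := by
    intro z hz
    simp only [Finset.mem_insert, Finset.mem_singleton] at hz
    simp only [Finset.mem_filter, Finset.mem_univ, true_and]
    rcases hz with rfl | rfl | rfl
    · simp
    · rw [pow_two]; exact hxx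
    · rw [pow_two]; exact hyy
  have h2 := Finset.card_le_card h1
  have h3 : ({1, x, y} : Finset S).card = 3 := by
    rw [Finset.card_insert_of_notMem, Finset.card_insert_of_notMem, Finset.card_singleton]
    · simpa using hne
    · simp only [Finset.mem_insert, Finset.mem_singleton, not_or]
      exact ⟨fun h => hx h.symm, fun h => hy h.symm⟩
  omega

/-- the Sylow 2-subgroup is cyclic -/
theorem case_cyclic {X : Type*} [Group X] [Finite X] (S : Subgroup X) [S.Normal]
    (hS : IsPGroup 2 S) (hodd : Odd S.index) (hX : SubDihedral X) [hc : IsCyclic (X ⧸ S)]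
    (hSc : IsCyclic S) : IsCyclic X := by
  have hOC : OddClosed X := by
    by_cases hbot : S = ⊥
    · have hcard : Odd (Nat.card X) := by
        rw [← Subgroup.card_mul_index S, hbot, Subgroup.card_bot, one_mul, ← hbot]
        exact hodd
      intro x y _ _
      exact Odd.of_dvd_nat hcard (orderOf_dvd_natCard _)
    · obtain ⟨x, hx, hx1⟩ := (Subgroup.ne_bot_iff_exists_ne_one.mp hbot) |> fun ⟨x, hx⟩ =>
        (⟨x.1, x.2, fun h => hx (Subtype.ext h)⟩ : ∃ x : X, x ∈ S ∧ x ≠ 1)
      obtain ⟨k, hk⟩ := hS ⟨x, hx⟩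
      obtain ⟨n, hn1, hn2⟩ := exists_pow_involution x k (congrArg Subtype.val hk) hx1
      obtain ⟨w, hw, hw1, hww, hwc⟩ := exists_central S (fun w => w * w = 1)
        ⟨x ^ n, S.pow_mem hx n, hn1, hn2⟩ (by
          intro w hw w' hw' h1 h1' h2 h2'
          have := cyclic_unique_involution (⟨w, hw⟩ : S) ⟨w', hw'⟩ (fun h => h1 (congrArg Subtype.val h))
            (fun h => h1' (congrArg Subtype.val h)) (Subtype.ext h2) (Subtype.ext h2')
          exact congrArg Subtype.val this) (by
          intro g w _ h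
          change g * w * g⁻¹ * (g * w * g⁻¹) = 1
          have : g * w * g⁻¹ * (g * w * g⁻¹) = g * (w * w) * g⁻¹ := by group
          rw [this, h]; group) (by
          intro w _ h
          change w⁻¹ * w⁻¹ = 1
          rw [← mul_inv_rev, h, inv_one])
      exact oddClosed_of_subDihedral (Nat.card X) le_rfl hX w hw1 hww hwc
  obtain ⟨c, hcodd, hcomm, hcord, -⟩ := exists_odd_gen S hS hodd hOC
  obtain ⟨s, hs⟩ := hSc.exists_generator
  have hsord : orderOf (s : X) = Nat.card S := by
    rw [Subgroup.orderOf_coe]; exact orderOf_eq_card_of_forall_mem_zpowers hs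
  have hcop : Nat.Coprime (orderOf (s : X)) (orderOf c) := by
    rw [hsord]
    obtain ⟨a, ha⟩ := IsPGroup.iff_card.mp hS
    rw [ha]
    exact ((Nat.coprime_two_left.mpr hcodd)).pow_left a
  have h1 : Commute (s : X) c := hcomm s s.2
  have h2 := h1.orderOf_mul_eq_mul_orderOf_of_coprime hcop
  exact isCyclic_of_orderOf_eq_card ((s : X) * c) (by
    rw [h2, hsord, hcord, Subgroup.card_mul_index])

/-- the Sylow 2-subgroup is dihedral of order at least 8 -/
theorem case_dihedral {X : Type*} [Group X] [Finite X] (S : Subgroup X) [S.Normal]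
    (hS : IsPGroup 2 S) (hodd : Odd S.index) (hX : SubDihedral X) [hc : IsCyclic (X ⧸ S)]
    {k : ℕ} (hk : 2 ≤ k) (e : S ≃* DihedralGroup (2 ^ k))
    (hcent : ∀ V : Subgroup X, IsKleinFour V → ∀ c : X, (∀ v ∈ V, v * c = c * v) → c ∈ V) :
    S = ⊤ := by
  have hnt : Nontrivial S := by
    have : Nontrivial (DihedralGroup (2 ^ k)) := inferInstance
    exact e.toEquiv.nontrivial
  have hz : Nontrivial (Subgroup.center S) := hS.center_nontrivial
  obtain ⟨⟨w, hwz⟩, hw1⟩ := exists_ne (1 : Subgroup.center S)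
  have hw1' : w ≠ 1 := fun h => hw1 (Subtype.ext h)
  have hOC : OddClosed X := by
    obtain ⟨w, hw, hw1, hww, hwc⟩ := exists_central S (fun w => ∀ s ∈ S, w * s = s * w)
        ⟨w, w.2, fun h => hw1' (Subtype.ext h), fun s hs => by
          have := Subgroup.mem_center_iff.mp hwz ⟨s, hs⟩
          exact (congrArg Subtype.val this).symm⟩ (by
          intro w hw w' hw' h1 h1' h2 h2'
          have h3 := center_unique hk (e ⟨w, hw⟩) (e ⟨w', hw'⟩) (by
            intro x
            obtain ⟨y, rfl⟩ := e.surjective x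
            rw [← map_mul, ← map_mul]
            congr 1
            exact Subtype.ext (h2 y y.2)) (by
            intro x
            obtain ⟨y, rfl⟩ := e.surjective x
            rw [← map_mul, ← map_mul]
            congr 1
            exact Subtype.ext (h2' y y.2)) (by
            rw [Ne, map_eq_one_iff e e.injective]
            exact fun h => h1 (congrArg Subtype.val h)) (by
            rw [Ne, map_eq_one_iff e e.injective]
            exact fun h => h1' (congrArg Subtype.val h))
          exact congrArg Subtype.val (e.injective h3)) (by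
          intro g w _ h s hs
          have h2 : g⁻¹ * s * g ∈ S := by
            have := Subgroup.Normal.conj_mem (H := S) inferInstance _ hs g⁻¹
            simpa using this
          have h3 := h _ h2
          calc g * w * g⁻¹ * s = g * (w * (g⁻¹ * s * g)) * g⁻¹ := by group
            _ = g * ((g⁻¹ * s * g) * w) * g⁻¹ := by rw [h3]
            _ = s * (g * w * g⁻¹) := by group) (by
          intro w _ h s hs
          have h3 := h s hs
          calc w⁻¹ * s = w⁻¹ * (s * w) * w⁻¹ := by group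
            _ = w⁻¹ * (w * s) * w⁻¹ := by rw [h3]
            _ = s * w⁻¹ := by group)
    exact oddClosed_of_subDihedral (Nat.card X) le_rfl hX w hw1 hww hwc
  obtain ⟨c, hcodd, hcomm, hcord, -⟩ := exists_odd_gen S hS hodd hOC
  obtain ⟨V, hVS, hV⟩ := Cfsg.Agent.Classification.DihStructure.exists_kleinFour_of_dihedral S hS
    (2 ^ k) (by
      calc 2 = 2 ^ 1 := by norm_num
        _ ≤ 2 ^ k := Nat.pow_le_pow_right (by norm_num) (by omega)) e
  have h1 := hcent V hV c (fun v hv => hcomm v (hVS hv))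
  have h2 := eq_one_of_odd hS (hVS h1) hcodd
  rw [h2, orderOf_one] at hcord
  exact Subgroup.index_eq_one.mp hcord.symm

/-- the Sylow 2-subgroup is a four-group -/
theorem case_four {X : Type*} [Group X] [Finite X] (S : Subgroup X) [S.Normal]
    (hodd : Odd S.index) (hS4 : Nat.card S = 4) (hsq : ∀ s ∈ S, s ^ 2 = 1)
    (hcent : ∀ c : X, (∀ v ∈ S, v * c = c * v) → c ∈ S) :
    S = ⊤ ∨ Nonempty (X ≃* alternatingGroup (Fin 4)) := by
  have hker : (MulAut.conjNormal (H := S)).ker = S := by
    ext g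
    rw [MonoidHom.mem_ker]
    constructor
    · intro h
      apply hcent
      intro v hv
      have h1 : MulAut.conjNormal g (⟨v, hv⟩ : S) = ⟨v, hv⟩ := by rw [h]; rfl
      have h2 := congrArg Subtype.val h1
      rw [MulAut.conjNormal_apply] at h2
      simp only at h2
      calc v * g = (g * v * g⁻¹) * g := by rw [h2]
        _ = g * v := by group
    · intro hg
      ext v
      rw [MulAut.conjNormal_apply]
      have h1 : g ^ 2 = 1 := hsq g hg
      have h2 : (v : X) ^ 2 = 1 := hsq v v.2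
      have h3 : (g * v) ^ 2 = 1 := hsq _ (S.mul_mem hg v.2)
      rw [pow_two] at h1 h2 h3
      have h4 : g * v * g * v = 1 := by rw [← h3]; group
      have h5 : g⁻¹ = g := inv_eq_of_mul_eq_one_left h1
      rw [h5]
      calc g * v * g = (g * v * g * v) * (v : X)⁻¹ := by group
        _ = (v : X)⁻¹ := by rw [h4, one_mul]
        _ = v := inv_eq_of_mul_eq_one_left h2
  have h1 : S.index ∣ 6 := by
    have h2 := Cfsg.Agent.SmallSimple.KleinFourAut.card_mulAut_dvd S
    rw [hS4] at h2
    have h3 : Nat.card (X ⧸ (MulAut.conjNormal (H := S)).ker) ∣ Nat.card (MulAut S) := by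
      rw [Nat.card_congr (QuotientGroup.quotientKerEquivRange (MulAut.conjNormal (H := S))).toEquiv]
      exact Subgroup.card_subgroup_dvd_card _
    have h4 : S.index = Nat.card (X ⧸ (MulAut.conjNormal (H := S)).ker) := by
      rw [← Subgroup.index, hker]
    rw [h4]
    exact h3.trans h2
  have h2 : S.index = 1 ∨ S.index = 3 := by
    have h3 : S.index ≤ 6 := Nat.le_of_dvd (by norm_num) h1
    have h4 : S.index % 2 = 1 := Nat.odd_iff.mp hodd
    interval_cases h : S.index <;> simp_all
  rcases h2 with h2 | h2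
  · exact Or.inl (Subgroup.index_eq_one.mp h2)
  · right
    refine Cfsg.Agent.TwoFusion.QuatSolvable.equiv_A4 (by
      rw [← Subgroup.card_mul_index S, hS4, h2]) S hS4 hsq (fun g hg => hcent g (fun v hv => (hg v hv).symm))


theorem pow_of_isPGroup {m : ℕ} (hm : m ≠ 0) (h : IsPGroup 2 (DihedralGroup m)) :
    ∃ k : ℕ, m = 2 ^ k := by
  have : NeZero m := ⟨hm⟩
  obtain ⟨n, hn⟩ := IsPGroup.iff_card.mp h
  rw [DihedralGroup.nat_card] at hn
  have h1 : m ∣ 2 ^ n := ⟨2, by rw [← hn]; ring⟩
  obtain ⟨k, -, hk⟩ := (Nat.dvd_prime_pow Nat.prime_two).mp h1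
  exact ⟨k, hk⟩

theorem comm_dihedral {n : ℕ} (h : ∀ x y : DihedralGroup (2 ^ n), x * y = y * x) : n ≤ 1 := by
  have h1 := h (DihedralGroup.r 1) (DihedralGroup.sr 0)
  simp only [DihedralGroup.r_mul_sr, DihedralGroup.sr_mul_r, DihedralGroup.sr.injEq] at h1
  have h3 : ((2 : ℕ) : ZMod (2 ^ n)) = 0 := by
    have : ((2 : ℕ) : ZMod (2 ^ n)) = (0 + 1) - (0 - 1) := by push_cast; ring
    rw [this, h1, sub_self]
  rw [ZMod.natCast_eq_zero_iff] at h3
  have h4 := Nat.le_of_dvd (by norm_num) h3
  by_contra hn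
  have h5 : 2 ^ 2 ≤ 2 ^ n := Nat.pow_le_pow_right (by norm_num) (by omega)
  omega

theorem alt_four_not_comm {X : Type*} [Group X] (e : X ≃* alternatingGroup (Fin 4))
    (h : ∀ x y : X, x * y = y * x) : False := by
  have h1 : ∀ x y : alternatingGroup (Fin 4), x * y = y * x := by
    intro x y
    apply e.symm.injective
    rw [map_mul, map_mul, h]
  have h2 := h1 ⟨c[0, 1, 2], Equiv.Perm.mem_alternatingGroup.mpr (by decide)⟩
    ⟨c[1, 2, 3], Equiv.Perm.mem_alternatingGroup.mpr (by decide)⟩
  have h3 : (c[0, 1, 2] * c[1, 2, 3] : Equiv.Perm (Fin 4)) = c[1, 2, 3] * c[0, 1, 2] :=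
    congrArg Subtype.val h2
  have h4 : (c[0, 1, 2] * c[1, 2, 3] : Equiv.Perm (Fin 4)) ≠ c[1, 2, 3] * c[0, 1, 2] := by decide
  exact h4 h3

theorem sylow_eq_top {X : Type*} [Group X] (h : IsPGroup 2 X) (S : Sylow 2 X) :
    (S : Subgroup X) = ⊤ := by
  have := S.is_maximal' (Q := ⊤) (h.to_subgroup ⊤) le_top
  exact this.symm

/-- the first direction -/
theorem mp_dir {G : Type*} [Group G] [Finite G] (P : Sylow 2 G)
    (h : ∀ H : Subgroup G, (∀ S : Sylow 2 ↥H, (S : Subgroup ↥H).Normal) →
        (∀ (S : Sylow 2 ↥H) [(S : Subgroup ↥H).Normal], IsCyclic (↥H ⧸ (S : Subgroup ↥H))) →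
        IsCyclic H ∨ (∃ n : ℕ, Nonempty (H ≃* DihedralGroup (2 ^ n))) ∨ Nonempty (H ≃* alternatingGroup (Fin 4))) :
    (IsCyclic P ∨
      ((∃ n : ℕ, 1 ≤ n ∧ Nonempty ((P : Subgroup G) ≃* DihedralGroup (2 ^ n))) ∧
        ∀ K : Subgroup G, K ≤ P → Nat.card K = 4 → (∀ k ∈ K, k ^ 2 = 1) → Subgroup.centralizer (K : Set G) = K)) := by
  have hPp : IsPGroup 2 (P : Subgroup G) := P.isPGroup'
  have h1 := h P (fun S => by rw [sylow_eq_top hPp S]; infer_instance) (fun S _ => by
    have hS := sylow_eq_top hPp S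
    have : Subsingleton (↥(P : Subgroup G) ⧸ (S : Subgroup ↥(P : Subgroup G))) := by
      rw [hS]; exact QuotientGroup.subsingleton_quotient_top
    exact isCyclic_of_subsingleton)
  rcases h1 with h1 | ⟨n, ⟨e⟩⟩ | ⟨⟨e⟩⟩
  · exact Or.inl h1
  · by_cases hn : n = 0
    · left
      subst hn
      have hc : Nat.card (P : Subgroup G) = 2 := by
        rw [Nat.card_congr e.toEquiv, DihedralGroup.nat_card]; norm_num
      have : Fact (Nat.Prime 2) := ⟨Nat.prime_two⟩
      exact isCyclic_of_prime_card hc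
    right
    refine ⟨⟨n, by omega, ⟨e⟩⟩, fun K hKP hK4 hsq => ?_⟩
    have hKcomm : ∀ x ∈ K, ∀ y ∈ K, x * y = y * x := by
      intro x hx y hy
      have h1 := hsq x hx
      have h2 := hsq y hy
      have h3 := hsq _ (K.mul_mem hx hy)
      rw [pow_two] at h1 h2 h3
      calc x * y = x * (x * y * (x * y)) * y := by rw [h3]; group
        _ = (x * x) * (y * x) * (y * y) := by group
        _ = y * x := by rw [h1, h2]; group
    have hKp : IsPGroup 2 K := IsPGroup.of_card (n := 2) (by rw [hK4]; norm_num)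
    apply le_antisymm
    · intro c hc
      rw [Subgroup.mem_centralizer_iff] at hc
      -- the abelian group `H = ⟨K, c⟩`
      set H := K ⊔ Subgroup.zpowers c with hH
      have hKH : K ≤ H := le_sup_left
      have hcH : c ∈ H := (le_sup_right : Subgroup.zpowers c ≤ H) (Subgroup.mem_zpowers c)
      have hmemH : ∀ x ∈ H, ∃ k ∈ K, ∃ i : ℤ, x = k * c ^ i := by
        intro x hx
        have hnorm : Subgroup.zpowers c ≤ Subgroup.normalizer (K : Set G) := by
          rw [Subgroup.zpowers_le]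
          apply Subgroup.centralizer_le_normalizer
          rw [Subgroup.mem_centralizer_iff]
          exact hc
        rw [hH, ← SetLike.mem_coe, Subgroup.coe_mul_of_right_le_normalizer_left _ _ hnorm] at hx
        obtain ⟨k, hk, z, ⟨i, rfl⟩, rfl⟩ := hx
        exact ⟨k, hk, i, rfl⟩
      have hHcomm : ∀ x ∈ H, ∀ y ∈ H, x * y = y * x := by
        intro x hx y hy
        obtain ⟨k, hk, i, rfl⟩ := hmemH x hx
        obtain ⟨l, hl, j, rfl⟩ := hmemH y hy
        have h1 : Commute k l := hKcomm k hk l hl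
        have h2 : Commute k (c ^ j) := Commute.zpow_right (hc k hk) j
        have h3 : Commute (c ^ i) l := (Commute.zpow_right (hc l hl) i).symm
        have h4 : Commute (c ^ i) (c ^ j) := (Commute.refl c).zpow_zpow i j
        exact ((h1.mul_right h2).mul_left (h3.mul_right h4))
      have hHc' : ∀ x y : H, x * y = y * x := fun x y => Subtype.ext (hHcomm x x.2 y y.2)
      have hnormal : ∀ L : Subgroup H, L.Normal := by
        intro L
        refine ⟨fun n hn g => ?_⟩
        rw [hHc' g n, mul_inv_cancel_right]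
        exact hn
      have hKS : ∀ S : Sylow 2 H, K.subgroupOf H ≤ (S : Subgroup H) := by
        intro S
        have h5 : IsPGroup 2 (K.subgroupOf H) := hKp.comap_of_injective H.subtype H.subtype_injective
        obtain ⟨S', hS'⟩ := h5.exists_le_sylow
        have := hnormal S
        have h6 : Unique (Sylow 2 H) := Sylow.unique_of_normal S (hnormal S)
        rw [Subsingleton.elim S S']
        exact hS'
      have h2 := h H (fun S => hnormal S) (fun S _ => by
        refine ⟨⟨QuotientGroup.mk ⟨c, hcH⟩, fun y => ?_⟩⟩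
        obtain ⟨x, rfl⟩ := QuotientGroup.mk_surjective y
        obtain ⟨k, hk, i, hx⟩ := hmemH x x.2
        refine ⟨i, ?_⟩
        change (QuotientGroup.mk ((⟨c, hcH⟩ : H) ^ i) : ↥H ⧸ (S : Subgroup ↥H)) = QuotientGroup.mk x
        rw [QuotientGroup.eq]
        apply hKS S
        rw [Subgroup.mem_subgroupOf]
        have h7 : (((⟨c, hcH⟩ : H) ^ i)⁻¹ * x : H).1 = (c ^ i)⁻¹ * (k * c ^ i) := by
          rw [← hx]; rfl
        rw [h7]
        have h8 : Commute k (c ^ i) := Commute.zpow_right (hc k hk) i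
        have h9 : (c ^ i)⁻¹ * (k * c ^ i) = k := by
          rw [h8.eq]; group
        rw [h9]; exact hk)
      have hK4' : Nat.card (K.subgroupOf H) = 4 := by
        rw [← hK4]
        exact Nat.card_congr (Subgroup.subgroupOfEquivOfLe hKH).toEquiv
      rcases h2 with h2 | ⟨m, ⟨e2⟩⟩ | ⟨⟨e2⟩⟩
      · exfalso
        have h3 : IsCyclic K := Subgroup.isCyclic_of_le hKH
        obtain ⟨g, hg⟩ := h3.exists_generator
        have h4 : orderOf g = 4 := by rw [← hK4]; exact orderOf_eq_card_of_forall_mem_zpowers hg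
        have h5 : g ^ 2 = 1 := Subtype.ext (hsq g g.2)
        have h6 := orderOf_dvd_of_pow_eq_one h5
        rw [h4] at h6
        norm_num at h6
      · have hm : m ≤ 1 := comm_dihedral (fun x y => by
          apply e2.symm.injective
          rw [map_mul, map_mul, hHc'])
        have hcard : Nat.card H ≤ Nat.card K := by
          rw [Nat.card_congr e2.toEquiv, DihedralGroup.nat_card, hK4]
          have : 2 ^ m ≤ 2 ^ 1 := Nat.pow_le_pow_right (by norm_num) hm
          omega
        have : K = H := Subgroup.eq_of_le_of_card_ge hKH hcard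
        rw [this]; exact hcH
      · exact absurd hHc' (fun h => alt_four_not_comm e2 h)
    · intro k hk
      rw [Subgroup.mem_centralizer_iff]
      exact fun l hl => hKcomm l hl k hk
  · exfalso
    obtain ⟨k, hk⟩ := IsPGroup.iff_card.mp hPp
    rw [Nat.card_congr e.toEquiv] at hk
    have h12 : Nat.card (alternatingGroup (Fin 4)) = 12 := by
      rw [nat_card_alternatingGroup, Nat.card_eq_fintype_card, Fintype.card_fin]; rfl
    rw [h12] at hk
    have h3 : 3 ∣ 2 ^ k := by rw [← hk]; norm_num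
    have := Nat.prime_three.dvd_of_dvd_pow h3
    norm_num at this


theorem kleinFour_map {G : Type*} [Group G] (H : Subgroup G) (V : Subgroup H) (hV : IsKleinFour V) :
    Nat.card (V.map H.subtype) = 4 ∧ ∀ k ∈ V.map H.subtype, k ^ 2 = 1 := by
  constructor
  · rw [← hV.card_four]
    exact Nat.card_congr (V.equivMapOfInjective H.subtype H.subtype_injective).symm.toEquiv
  · rintro _ ⟨v, hv, rfl⟩
    have h1 : (⟨v, hv⟩ : V) * ⟨v, hv⟩ = 1 := hV.mul_self _
    have h2 : v * v = 1 := congrArg Subtype.val h1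
    rw [← map_pow, pow_two, h2, map_one]

/-- the second direction -/
theorem mpr_dir {G : Type*} [Group G] [Finite G] (P : Sylow 2 G)
    (h : IsCyclic P ∨
      ((∃ n : ℕ, 1 ≤ n ∧ Nonempty ((P : Subgroup G) ≃* DihedralGroup (2 ^ n))) ∧
        ∀ K : Subgroup G, K ≤ P → Nat.card K = 4 → (∀ k ∈ K, k ^ 2 = 1) → Subgroup.centralizer (K : Set G) = K))
    (H : Subgroup G) (hn : ∀ S : Sylow 2 ↥H, (S : Subgroup ↥H).Normal)
    (hq : ∀ (S : Sylow 2 ↥H) [(S : Subgroup ↥H).Normal], IsCyclic (↥H ⧸ (S : Subgroup ↥H))) :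
    IsCyclic H ∨ (∃ n : ℕ, Nonempty (H ≃* DihedralGroup (2 ^ n))) ∨ Nonempty (H ≃* alternatingGroup (Fin 4)) := by
  have : Fact (Nat.Prime 2) := ⟨Nat.prime_two⟩
  let S : Sylow 2 H := default
  have hSn : (S : Subgroup H).Normal := hn S
  have hSq : IsCyclic (↥H ⧸ (S : Subgroup ↥H)) := hq S
  have hSp : IsPGroup 2 (S : Subgroup H) := S.isPGroup'
  have hodd : Odd (S : Subgroup H).index := by
    rw [← Nat.not_even_iff_odd, even_iff_two_dvd]
    exact S.not_dvd_index
  have hSDG : SubDihedral G := by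
    rcases h with h | ⟨⟨n, -, ⟨e⟩⟩, -⟩
    · exact subDihedral_of_cyclic P h
    · exact subDihedral_of_sylow P _ e
  have hSD : SubDihedral H := subDihedral_of_injective H.subtype H.subtype_injective hSDG
  rcases isCyclic_or_dihedral hSD (S : Subgroup H) hSp with hcyc | ⟨m, hm, ⟨e⟩⟩
  · exact Or.inl (case_cyclic (S : Subgroup H) hSp hodd hSD hcyc)
  right
  -- `S` is dihedral so `P` is not cyclic
  have hK : ∀ K : Subgroup G, K ≤ P → Nat.card K = 4 → (∀ k ∈ K, k ^ 2 = 1) →
      Subgroup.centralizer (K : Set G) = K := by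
    rcases h with h | ⟨-, h⟩
    · exfalso
      obtain ⟨V, hVS, hV⟩ := Cfsg.Agent.Classification.DihStructure.exists_kleinFour_of_dihedral
        (S : Subgroup H) hSp m hm e
      have h1 := kleinFour_map H V hV
      obtain ⟨g, hg⟩ := conj_le P (V.map H.subtype)
        (IsPGroup.of_card (n := 2) (by rw [h1.1]; norm_num))
      have h2 : IsCyclic ((V.map H.subtype).map (MulAut.conj g).toMonoidHom) := by
        have : IsCyclic (P : Subgroup G) := h
        exact Subgroup.isCyclic_of_le hg
      have h3 : IsCyclic (V.map H.subtype) :=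
        ((V.map H.subtype).equivMapOfInjective (MulAut.conj g).toMonoidHom
          (MulAut.conj g).injective).isCyclic.mpr h2
      have h4 : IsCyclic V := (V.equivMapOfInjective H.subtype H.subtype_injective).isCyclic.mpr h3
      exact hV.not_isCyclic h4
    · exact h
  have hcent : ∀ V : Subgroup H, IsKleinFour V → ∀ c : H, (∀ v ∈ V, v * c = c * v) → c ∈ V := by
    intro V hV c hc
    have h1 := kleinFour_map H V hV
    have h2 := cent_all P hK (V.map H.subtype) h1.1 h1.2 (c : G) (by
      rintro _ ⟨v, hv, rfl⟩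
      exact congrArg Subtype.val (hc v hv))
    obtain ⟨v, hv, hvc⟩ := h2
    have h3 : v = c := Subtype.ext hvc
    rw [← h3]; exact hv
  obtain ⟨k, rfl⟩ := pow_of_isPGroup (by omega) (hSp.of_equiv e)
  by_cases hk : 2 ≤ k
  · have htop := case_dihedral (S : Subgroup H) hSp hodd hSD hk e hcent
    left
    refine ⟨k, ⟨?_⟩⟩
    have e1 : (S : Subgroup H) ≃* H := by
      rw [htop]; exact Subgroup.topEquiv
    exact e1.symm.trans e
  · have hk1 : k = 1 := by
      rcases k with _ | _ | k
      · norm_num at hm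
      · rfl
      · omega
    subst hk1
    have hS4 : Nat.card (S : Subgroup H) = 4 := by
      rw [Nat.card_congr e.toEquiv, DihedralGroup.nat_card]; norm_num
    have hD : ∀ d : DihedralGroup (2 ^ 1), d ^ 2 = 1 := by decide
    have hsq : ∀ s ∈ (S : Subgroup H), s ^ 2 = 1 := by
      intro s hs
      have h1 := hD (e ⟨s, hs⟩)
      rw [← map_pow, map_eq_one_iff e e.injective] at h1
      exact congrArg Subtype.val h1
    have hKF : IsKleinFour (S : Subgroup H) := by
      apply Cfsg.Agent.SmallSimple.KleinFourAut.isKleinFour_of_not_isCyclic hS4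
      intro hcyc
      obtain ⟨g, hg⟩ := hcyc.exists_generator
      have h4 : orderOf g = 4 := by rw [← hS4]; exact orderOf_eq_card_of_forall_mem_zpowers hg
      have h5 : g ^ 2 = 1 := Subtype.ext (hsq g g.2)
      have h6 := orderOf_dvd_of_pow_eq_one h5
      rw [h4] at h6
      norm_num at h6
    rcases case_four (S : Subgroup H) hodd hS4 hsq (hcent _ hKF) with htop | h12
    · left
      refine ⟨1, ⟨?_⟩⟩
      have e1 : (S : Subgroup H) ≃* H := by
        rw [htop]; exact Subgroup.topEquiv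
      exact e1.symm.trans e
    · exact Or.inr h12

/-- Let G be a finite group with Sylow 2-subgroup P. Every subgroup H of G whose Sylow 2-subgroup is normal in H with cyclic quotient is cyclic, dihedral of 2-power order, or isomorphic to the alternating group of degree 4, if and only if either P is cyclic, or P is dihedral (of order at least 4) and every elementary abelian subgroup K of order 4 of P satisfies C_G(K) = K. -/
theorem result {G : Type*} [Group G] [Finite G] (P : Sylow 2 G) :
    (∀ H : Subgroup G, (∀ S : Sylow 2 ↥H, (S : Subgroup ↥H).Normal) →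
        (∀ (S : Sylow 2 ↥H) [(S : Subgroup ↥H).Normal], IsCyclic (↥H ⧸ (S : Subgroup ↥H))) →
        IsCyclic H ∨ (∃ n : ℕ, Nonempty (H ≃* DihedralGroup (2 ^ n))) ∨ Nonempty (H ≃* alternatingGroup (Fin 4))) ↔
    (IsCyclic P ∨
      ((∃ n : ℕ, 1 ≤ n ∧ Nonempty ((P : Subgroup G) ≃* DihedralGroup (2 ^ n))) ∧
        ∀ K : Subgroup G, K ≤ P → Nat.card K = 4 → (∀ k ∈ K, k ^ 2 = 1) → Subgroup.centralizer (K : Set G) = K)) :=
  ⟨mp_dir P, fun h H hn hq => mpr_dir P h H hn hq⟩

end Cfsg.Agent.S4083
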