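import Cfsg.Statements.S4085
import Mathlib.GroupTheory.SpecificGroups.Cyclic
import Mathlib.GroupTheory.OrderOfElement
import Mathlib.Data.Nat.Totient
import Mathlib.Data.Set.Finite.Lemmas

set_option autoImplicit false
open Cfsg

namespace Cfsg.Agent.S4085

section Cyclic

variable {G : Type*} [Group G]

/-- adjacency in the power graph -/
def Adj (x y : G) : Prop := x ∈ Subgroup.zpowers y ∨ y ∈ Subgroup.zpowers x

theorem Adj.symm {x y : G} (h : Adj x y) : Adj y x := Or.symm h

theorem adj_self (x : G) : Adj x x := Or.inl (Subgroup.mem_zpowers x)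

theorem adj_one (x : G) : Adj x 1 := Or.inr (Subgroup.one_mem _)

theorem one_adj (x : G) : Adj 1 x := Or.inl (Subgroup.one_mem _)

variable [Finite G]

/-- in the cyclic group generated by `m` membership in cyclic subgroups is divisibility of orders -/
theorem mem_of_dvd {m x y : G} (hx : x ∈ Subgroup.zpowers m) (hy : y ∈ Subgroup.zpowers m)
    (h : orderOf x ∣ orderOf y) : x ∈ Subgroup.zpowers y := by
  have hpos : 0 < orderOf m := orderOf_pos m
  have hgen : ∀ z : G, z ∈ Subgroup.zpowers m →
      Subgroup.zpowers z = Subgroup.zpowers (m ^ (orderOf m / orderOf z)) := by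
    intro z hz
    obtain ⟨n, rfl⟩ := (mem_powers_iff_mem_zpowers.mpr hz)
    simp only
    have hz' : orderOf (m ^ n) = orderOf m / Nat.gcd (orderOf m) n := orderOf_pow m
    have hgd : Nat.gcd (orderOf m) n ∣ orderOf m := Nat.gcd_dvd_left _ _
    have hdiv : orderOf m / orderOf (m ^ n) = Nat.gcd (orderOf m) n := by
      rw [hz', Nat.div_div_self hgd hpos.ne']
    rw [hdiv]
    refine Subgroup.eq_of_le_of_card_ge ?_ ?_
    · rw [Subgroup.zpowers_le]
      obtain ⟨k, hk⟩ := Nat.gcd_dvd_right (orderOf m) n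
      have : m ^ n = (m ^ (Nat.gcd (orderOf m) n)) ^ k := by rw [← pow_mul, ← hk]
      rw [this]
      exact Subgroup.npow_mem_zpowers _ _
    · rw [Nat.card_zpowers, Nat.card_zpowers, hz', orderOf_pow, Nat.gcd_eq_right hgd]
  rw [hgen y hy]
  have h1 : x ∈ Subgroup.zpowers (m ^ (orderOf m / orderOf x)) := by
    rw [← hgen x hx]; exact Subgroup.mem_zpowers x
  have h2 : orderOf m / orderOf y ∣ orderOf m / orderOf x := by
    have hym : orderOf y ∣ orderOf m := orderOf_dvd_of_mem_zpowers hy
    obtain ⟨k, hk⟩ := h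
    obtain ⟨l, hl⟩ := hym
    have hy0 : 0 < orderOf y := orderOf_pos y
    have hx0 : 0 < orderOf x := orderOf_pos x
    have e1 : orderOf m / orderOf y = l := by
      rw [hl]; exact Nat.mul_div_cancel_left _ hy0
    have e2 : orderOf m / orderOf x = k * l := by
      rw [hl, hk, mul_assoc]; exact Nat.mul_div_cancel_left _ hx0
    rw [e1, e2]
    exact dvd_mul_left _ _
  obtain ⟨k, hk⟩ := h2
  rw [hk, pow_mul] at h1
  have : Subgroup.zpowers ((m ^ (orderOf m / orderOf y)) ^ k) ≤
      Subgroup.zpowers (m ^ (orderOf m / orderOf y)) := by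
    rw [Subgroup.zpowers_le]; exact Subgroup.npow_mem_zpowers _ _
  exact this h1

theorem orderOf_pow_div {m : G} {d : ℕ} (hd : d ∣ orderOf m) : orderOf (m ^ (orderOf m / d)) = d := by
  have hpos : 0 < orderOf m := orderOf_pos m
  have hd0 : d ≠ 0 := by rintro rfl; rw [zero_dvd_iff] at hd; omega
  rw [orderOf_pow, Nat.gcd_eq_right (Nat.div_dvd_of_dvd hd), Nat.div_div_self hd hpos.ne']

theorem exists_orderOf {m : G} {d : ℕ} (hd : d ∣ orderOf m) :
    ∃ y ∈ Subgroup.zpowers m, orderOf y = d :=
  ⟨m ^ (orderOf m / d), Subgroup.npow_mem_zpowers _ _, orderOf_pow_div hd⟩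

theorem adj_iff {m x y : G} (hx : x ∈ Subgroup.zpowers m) (hy : y ∈ Subgroup.zpowers m) :
    Adj x y ↔ (orderOf x ∣ orderOf y ∨ orderOf y ∣ orderOf x) :=
  ⟨fun h => h.imp orderOf_dvd_of_mem_zpowers orderOf_dvd_of_mem_zpowers,
    fun h => h.imp (mem_of_dvd hx hy) (mem_of_dvd hy hx)⟩

theorem ncard_gens (g : G) :
    Set.ncard {x : G | x ∈ Subgroup.zpowers g ∧ orderOf x = orderOf g} = (orderOf g).totient := by
  classical
  letI : Fintype (Subgroup.zpowers g) := Fintype.ofFinite _
  have h1 := IsCyclic.card_orderOf_eq_totient (α := Subgroup.zpowers g) (d := orderOf g) (by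
    rw [← Nat.card_eq_fintype_card, Nat.card_zpowers])
  rw [← h1]
  have h2 : {x : G | x ∈ Subgroup.zpowers g ∧ orderOf x = orderOf g} =
      Subtype.val '' (((Finset.univ.filter (fun a : Subgroup.zpowers g => orderOf a = orderOf g)) : Finset _) : Set (Subgroup.zpowers g)) := by
    ext x
    simp only [Set.mem_ofPred_eq, Finset.coe_filter, Finset.mem_univ, true_and, Set.mem_image, Subtype.exists,
      Subgroup.orderOf_mk, exists_and_left, exists_prop, exists_eq_right_right]
    tauto
  rw [h2, Set.ncard_image_of_injective _ Subtype.val_injective, Set.ncard_coe_finset]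

/-- a non-universal element of the cyclic group is not comparable to some Sylow generator -/
theorem exists_nonadj {m u : G} (hu : u ∈ Subgroup.zpowers m) (hu1 : u ≠ 1)
    (hum : orderOf u ≠ orderOf m) {p q : ℕ} (hp : p.Prime) (hq : q.Prime) (hpq : p ≠ q)
    (hpm : p ∣ orderOf m) (hqm : q ∣ orderOf m) :
    ∃ r : ℕ, r.Prime ∧ r ∣ orderOf m ∧
      ¬ Adj u (m ^ (orderOf m / r ^ (orderOf m).factorization r)) := by
  have hm0 : orderOf m ≠ 0 := (orderOf_pos m).ne'
  have hu0 : orderOf u ≠ 0 := (orderOf_pos u).ne'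
  have hdvd : orderOf u ∣ orderOf m := orderOf_dvd_of_mem_zpowers hu
  have hou : orderOf u ≠ 1 := by rwa [ne_eq, orderOf_eq_one_iff]
  have hle : (orderOf u).factorization ≤ (orderOf m).factorization :=
    (Nat.factorization_le_iff_dvd hu0 hm0).mpr hdvd
  obtain ⟨r, hr⟩ : ∃ r, (orderOf u).factorization r < (orderOf m).factorization r := by
    by_contra hcon
    rw [not_exists] at hcon
    exact hum (Nat.eq_of_factorization_eq hu0 hm0 (fun r => le_antisymm (hle r) (not_lt.mp (hcon r))))
  have hrp : r.Prime := by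
    by_contra hrp
    have h0 := Nat.factorization_eq_zero_of_not_prime (orderOf m) hrp
    omega
  have hrm : r ∣ orderOf m := Nat.dvd_of_factorization_pos (by omega)
  -- the element of order `r ^ v_r(n)` is not in `⟨u⟩`
  by_cases hur : Adj u (m ^ (orderOf m / r ^ (orderOf m).factorization r))
  swap
  · exact ⟨r, hrp, hrm, hur⟩
  have hpm' : m ^ (orderOf m / r ^ (orderOf m).factorization r) ∈ Subgroup.zpowers m :=
    Subgroup.npow_mem_zpowers _ _
  rw [adj_iff hu hpm', orderOf_pow_div (Nat.ordProj_dvd _ _)] at hur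
  have hur' : orderOf u ∣ r ^ (orderOf m).factorization r := by
    rcases hur with h | h
    · exact h
    · exfalso
      have := (hrp.pow_dvd_iff_le_factorization hu0).mp h
      omega
  obtain ⟨i, -, hi⟩ := (Nat.dvd_prime_pow hrp).mp hur'
  have hi0 : i ≠ 0 := by rintro rfl; simp at hi; exact hu1 hi
  -- another prime
  obtain ⟨s, hsp, hsm, hsr⟩ : ∃ s : ℕ, s.Prime ∧ s ∣ orderOf m ∧ s ≠ r := by
    by_cases h : p = r
    · exact ⟨q, hq, hqm, fun h' => hpq (h.trans h'.symm)⟩
    · exact ⟨p, hp, hpm, h⟩
  refine ⟨s, hsp, hsm, ?_⟩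
  have hsv : 0 < (orderOf m).factorization s := hsp.factorization_pos_of_dvd hm0 hsm
  rw [adj_iff hu (Subgroup.npow_mem_zpowers _ _), orderOf_pow_div (Nat.ordProj_dvd _ _), hi]
  rintro (h | h)
  · have h1 : r ∣ s ^ (orderOf m).factorization s := (dvd_pow_self r hi0).trans h
    exact hsr ((Nat.prime_dvd_prime_iff_eq hrp hsp).mp (hrp.dvd_of_dvd_pow h1)).symm
  · have h1 : s ∣ r ^ i := (dvd_pow_self s hsv.ne').trans h
    exact hsr ((Nat.prime_dvd_prime_iff_eq hsp hrp).mp (hsp.dvd_of_dvd_pow h1))

/-- the Sylow generators for different primes are not comparable -/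
theorem sylow_nonadj {m : G} {r s : ℕ} (hr : r.Prime) (hs : s.Prime) (hrm : r ∣ orderOf m)
    (hsm : s ∣ orderOf m)
    (h : Adj (m ^ (orderOf m / r ^ (orderOf m).factorization r))
      (m ^ (orderOf m / s ^ (orderOf m).factorization s))) : r = s := by
  have hm0 : orderOf m ≠ 0 := (orderOf_pos m).ne'
  have hrv : 0 < (orderOf m).factorization r := hr.factorization_pos_of_dvd hm0 hrm
  have hsv : 0 < (orderOf m).factorization s := hs.factorization_pos_of_dvd hm0 hsm
  rw [adj_iff (Subgroup.npow_mem_zpowers _ _) (Subgroup.npow_mem_zpowers _ _),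
    orderOf_pow_div (Nat.ordProj_dvd _ _), orderOf_pow_div (Nat.ordProj_dvd _ _)] at h
  rcases h with h | h
  · have h1 : r ∣ s ^ (orderOf m).factorization s := (dvd_pow_self r hrv.ne').trans h
    exact ((Nat.prime_dvd_prime_iff_eq hr hs).mp (hr.dvd_of_dvd_pow h1))
  · have h1 : s ∣ r ^ (orderOf m).factorization r := (dvd_pow_self s hsv.ne').trans h
    exact ((Nat.prime_dvd_prime_iff_eq hs hr).mp (hs.dvd_of_dvd_pow h1)).symm

/-- the class of an element `w` of order `p` in a cyclic group of order divisible by `p q` -/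
theorem mem_of_same_nbhd {m w w' : G} (hw : w ∈ Subgroup.zpowers m) (hw' : w' ∈ Subgroup.zpowers m)
    {p q : ℕ} (hp : p.Prime) (hq : q.Prime) (hpq : p ≠ q)
    (hm : p * q ∣ orderOf m) (hwp : orderOf w = p) (hw1 : w' ≠ 1)
    (h : ∀ y ∈ Subgroup.zpowers m, (Adj w y ↔ Adj w' y)) :
    w' ∈ Subgroup.zpowers w ∧ orderOf w' = p := by
  have hw0' : orderOf w' ≠ 0 := (orderOf_pos w').ne'
  have hw'm : orderOf w' ∣ orderOf m := orderOf_dvd_of_mem_zpowers hw'
  -- all primes dividing the order of `w'` are `p`
  have hprime : ∀ s : ℕ, s.Prime → s ∣ orderOf w' → s = p := by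
    intro s hs hsw
    obtain ⟨y, hy, hys⟩ := exists_orderOf (m := m) (d := s) (hsw.trans hw'm)
    have h1 : Adj w' y := (adj_iff hw' hy).mpr (Or.inr (by rw [hys]; exact hsw))
    have h2 : Adj w y := (h y hy).mpr h1
    rw [adj_iff hw hy, hwp, hys] at h2
    rcases h2 with h2 | h2
    · exact ((Nat.prime_dvd_prime_iff_eq hp hs).mp h2).symm
    · exact ((Nat.prime_dvd_prime_iff_eq hs hp).mp h2)
  have hord : orderOf w' = p := by
    have h1 : orderOf w' ≠ 1 := by rwa [ne_eq, orderOf_eq_one_iff]
    obtain ⟨s, hs, hsw⟩ := Nat.exists_prime_and_dvd h1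
    have hps : p ∣ orderOf w' := (hprime s hs hsw) ▸ hsw
    obtain ⟨d, hd⟩ := hps
    by_cases hd1 : d = 1
    · rw [hd, hd1, mul_one]
    exfalso
    obtain ⟨s', hs', hsd⟩ := Nat.exists_prime_and_dvd hd1
    have hs'p : s' = p := hprime s' hs' (hd ▸ (hsd.trans (dvd_mul_left d p)))
    rw [hs'p] at hsd
    obtain ⟨y, hy, hys⟩ := exists_orderOf (m := m) (d := p * q) hm
    have h1 : Adj w y := (adj_iff hw hy).mpr (Or.inl (by rw [hys, hwp]; exact dvd_mul_right p q))
    have h2 : Adj w' y := (h y hy).mp h1
    rw [adj_iff hw' hy, hys] at h2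
    rcases h2 with h2 | h2
    · rw [hd] at h2
      have : d ∣ q := Nat.dvd_of_mul_dvd_mul_left hp.pos h2
      exact hpq ((Nat.prime_dvd_prime_iff_eq hp hq).mp (hsd.trans this))
    · exact hpq (hprime q hq ((dvd_mul_left q p).trans h2)).symm
  exact ⟨mem_of_dvd hw' hw (by rw [hord, hwp]), hord⟩

end Cyclic


/-- the universal elements of a cyclic group whose order is not a prime power -/
theorem ncard_universal {G : Type*} [Group G] [Finite G] (m : G) {p q : ℕ} (hp : p.Prime)
    (hq : q.Prime) (hpq : p ≠ q) (hpm : p ∣ orderOf m) (hqm : q ∣ orderOf m) :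
    Set.ncard {u : G | u ∈ Subgroup.zpowers m ∧ ∀ v ∈ Subgroup.zpowers m, Adj u v} =
      (orderOf m).totient + 1 := by
  have h1 : {u : G | u ∈ Subgroup.zpowers m ∧ ∀ v ∈ Subgroup.zpowers m, Adj u v} =
      insert 1 {x : G | x ∈ Subgroup.zpowers m ∧ orderOf x = orderOf m} := by
    ext u
    constructor
    · rintro ⟨hu, huv⟩
      by_cases hu1 : u = 1
      · exact Or.inl hu1
      · right
        refine ⟨hu, ?_⟩
        by_contra hum
        obtain ⟨r, -, -, h⟩ := exists_nonadj hu hu1 hum hp hq hpq hpm hqm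
        exact h (huv _ (Subgroup.npow_mem_zpowers _ _))
    · rintro (rfl | ⟨hu, hum⟩)
      · exact ⟨Subgroup.one_mem _, fun v _ => one_adj v⟩
      · exact ⟨hu, fun v hv => (adj_iff hu hv).mpr
          (Or.inr (by rw [hum]; exact orderOf_dvd_of_mem_zpowers hv))⟩
  rw [h1, Set.ncard_insert_of_notMem, ncard_gens]
  rintro ⟨-, h⟩
  rw [orderOf_one] at h
  rw [← h] at hpm
  exact hp.one_lt.ne' (Nat.dvd_one.mp hpm)

/-- an element of maximal order above a given element -/
theorem exists_max_above {G : Type*} [Group G] [Finite G] (g : G) :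
    ∃ m : G, g ∈ Subgroup.zpowers m ∧ ∀ z : G, m ∈ Subgroup.zpowers z → z ∈ Subgroup.zpowers m := by
  obtain ⟨m, hm, hmax⟩ := Set.exists_max_image {m : G | g ∈ Subgroup.zpowers m} orderOf (Set.toFinite _)
    ⟨g, Subgroup.mem_zpowers g⟩
  refine ⟨m, hm, fun z hz => ?_⟩
  have h1 : Subgroup.zpowers m ≤ Subgroup.zpowers z := by rwa [Subgroup.zpowers_le]
  have h2 : orderOf z ≤ orderOf m := hmax z (h1 hm)
  have h3 : Subgroup.zpowers m = Subgroup.zpowers z :=
    Subgroup.eq_of_le_of_card_ge h1 (by rw [Nat.card_zpowers, Nat.card_zpowers]; exact h2)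
  rw [h3]; exact Subgroup.mem_zpowers z

/-- totient of a prime power order -/
theorem totient_of_pairwise_adj {H : Type*} [Group H] [Finite H] (x : H)
    (h : ∀ y ∈ Subgroup.zpowers x, ∀ z ∈ Subgroup.zpowers x, Adj y z) :
    orderOf x ≤ 2 * (orderOf x).totient := by
  by_cases h1 : orderOf x = 1
  · rw [h1]; simp
  have hx0 : orderOf x ≠ 0 := (orderOf_pos x).ne'
  obtain ⟨r, hr, hrx⟩ := Nat.exists_prime_and_dvd h1
  have hpow : orderOf x = r ^ (orderOf x).factorization r := by
    by_contra hne
    have h2 : orderOf x / r ^ (orderOf x).factorization r ≠ 1 := by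
      intro h3
      have := Nat.ordProj_mul_ordCompl_eq_self (orderOf x) r
      rw [h3, mul_one] at this
      exact hne this.symm
    obtain ⟨s, hs, hsx⟩ := Nat.exists_prime_and_dvd h2
    have hsx' : s ∣ orderOf x := hsx.trans (Nat.ordCompl_dvd _ _)
    have hsr : r = s := sylow_nonadj hr hs hrx hsx'
      (h _ (Subgroup.npow_mem_zpowers _ _) _ (Subgroup.npow_mem_zpowers _ _))
    rw [← hsr] at hsx
    exact Nat.not_dvd_ordCompl hr hx0 hsx
  have hk : 0 < (orderOf x).factorization r := hr.factorization_pos_of_dvd hx0 hrx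
  set k := (orderOf x).factorization r with hkdef
  rw [hpow, Nat.totient_prime_pow hr hk]
  obtain ⟨j, hj⟩ : ∃ j, k = j + 1 := ⟨k - 1, by omega⟩
  rw [hj]
  simp only [Nat.add_sub_cancel]
  rw [pow_succ]
  have h2 : 2 ≤ r := hr.two_le
  have h3 : r ≤ 2 * (r - 1) := by omega
  calc r ^ j * r ≤ r ^ j * (2 * (r - 1)) := Nat.mul_le_mul_left _ h3
    _ = 2 * (r ^ j * (r - 1)) := by ring

/-- one direction, `e 1 = 1`, `p < q` -/
theorem one_dir_aux {G H : Type*} [Group G] [Finite G] [Group H] [Finite H] (e : G ≃ H)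
    (he : ∀ x y : G, Adj x y ↔ Adj (e x) (e y)) (he1 : e 1 = 1)
    {p q : ℕ} (hp : p.Prime) (hq : q.Prime) (hpq : p < q)
    (h : ∃ g : G, orderOf g = p * q) : (∃ h : H, orderOf h = p * q) := by
  obtain ⟨g, hg⟩ := h
  obtain ⟨m, hgm, hmmax⟩ := exists_max_above g
  have hpqm : p * q ∣ orderOf m := hg ▸ orderOf_dvd_of_mem_zpowers hgm
  have hpm : p ∣ orderOf m := (dvd_mul_right p q).trans hpqm
  have hqm : q ∣ orderOf m := (dvd_mul_left q p).trans hpqm
  have hm0 : orderOf m ≠ 0 := (orderOf_pos m).ne'
  have hm1 : orderOf m ≠ 1 := by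
    intro h; rw [h] at hpm; exact hp.one_lt.ne' (Nat.dvd_one.mp hpm)
  -- generators of `⟨m⟩`
  have hgens : ∀ m' : G, m' ∈ Subgroup.zpowers m → orderOf m' = orderOf m →
      ∀ y : G, Adj m' y ↔ y ∈ Subgroup.zpowers m := by
    intro m' hm' hord y
    have hz : Subgroup.zpowers m' = Subgroup.zpowers m :=
      Subgroup.eq_of_le_of_card_ge (by rwa [Subgroup.zpowers_le])
        (by rw [Nat.card_zpowers, Nat.card_zpowers, hord])
    constructor
    · rintro (h | h)
      · apply hmmax
        rw [← Subgroup.zpowers_le, hz, Subgroup.zpowers_le] at h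
        exact h
      · rwa [hz] at h
    · intro hy; right; rwa [hz]
  -- universal elements
  set UG : Set G := {u : G | u ∈ Subgroup.zpowers m ∧ ∀ v ∈ Subgroup.zpowers m, Adj u v} with hUG
  have hUGcard : UG.ncard = (orderOf m).totient + 1 := ncard_universal m hp hq hpq.ne hpm hqm
  have hUGchar : ∀ u ∈ UG, u ≠ 1 → orderOf u = orderOf m := by
    rintro u ⟨hu, huv⟩ hu1
    by_contra hum
    obtain ⟨r, -, -, h⟩ := exists_nonadj hu hu1 hum hp hq hpq.ne hpm hqm
    exact h (huv _ (Subgroup.npow_mem_zpowers _ _))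
  -- claim 1
  have claim1 : ∀ m' : G, m' ∈ Subgroup.zpowers m → orderOf m' = orderOf m →
      (∀ a : H, e m' ∈ Subgroup.zpowers a → e.symm a ∈ UG) ∨
      (∀ b : H, b ∈ Subgroup.zpowers (e m') → e.symm b ∈ UG) := by
    intro m' hm' hord
    by_contra hcon
    rw [not_or] at hcon
    obtain ⟨hcon1, hcon2⟩ := hcon
    rw [not_forall] at hcon1 hcon2
    obtain ⟨a, hcon1⟩ := hcon1
    obtain ⟨b, hcon2⟩ := hcon2
    rw [Classical.not_imp] at hcon1 hcon2
    obtain ⟨ha, haU⟩ := hcon1
    obtain ⟨hb, hbU⟩ := hcon2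
    have hN := hgens m' hm' hord
    have haM : e.symm a ∈ Subgroup.zpowers m := by
      rw [← hN, he, e.apply_symm_apply]; exact Or.inl ha
    have hbM : e.symm b ∈ Subgroup.zpowers m := by
      rw [← hN, he, e.apply_symm_apply]; exact Or.inr hb
    have hne : ∀ u : G, u ∈ Subgroup.zpowers m → u ∉ UG →
        ∃ r : ℕ, r.Prime ∧ r ∣ orderOf m ∧
          ¬ Adj u (m ^ (orderOf m / r ^ (orderOf m).factorization r)) := by
      intro u hu huU
      refine exists_nonadj hu ?_ ?_ hp hq hpq.ne hpm hqm
      · rintro rfl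
        exact huU ⟨hu, fun v _ => one_adj v⟩
      · intro hord'
        exact huU ⟨hu, fun v hv => (hgens u hu hord' v).mpr hv⟩
    obtain ⟨r, hr, hrm, hra⟩ := hne _ haM haU
    obtain ⟨s, hs, hsm, hsb⟩ := hne _ hbM hbU
    rw [he, e.apply_symm_apply] at hra hsb
    have hwr : Adj (e m') (e (m ^ (orderOf m / r ^ (orderOf m).factorization r))) := by
      rw [← he, hN]; exact Subgroup.npow_mem_zpowers _ _
    have hws : Adj (e m') (e (m ^ (orderOf m / s ^ (orderOf m).factorization s))) := by
      rw [← he, hN]; exact Subgroup.npow_mem_zpowers _ _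
    have hwr' : e m' ∈ Subgroup.zpowers (e (m ^ (orderOf m / r ^ (orderOf m).factorization r))) := by
      rcases hwr with h | h
      · exact h
      · exfalso
        apply hra
        right
        have : Subgroup.zpowers (e m') ≤ Subgroup.zpowers a := by rwa [Subgroup.zpowers_le]
        exact this h
    have hws' : e (m ^ (orderOf m / s ^ (orderOf m).factorization s)) ∈ Subgroup.zpowers (e m') := by
      rcases hws with h | h
      · exfalso
        apply hsb
        left
        have : Subgroup.zpowers (e m') ≤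
            Subgroup.zpowers (e (m ^ (orderOf m / s ^ (orderOf m).factorization s))) := by
          rwa [Subgroup.zpowers_le]
        exact this hb
      · exact h
    have hadj : Adj (m ^ (orderOf m / r ^ (orderOf m).factorization r))
        (m ^ (orderOf m / s ^ (orderOf m).factorization s)) := by
      rw [he]
      right
      have : Subgroup.zpowers (e m') ≤
          Subgroup.zpowers (e (m ^ (orderOf m / r ^ (orderOf m).factorization r))) := by
        rwa [Subgroup.zpowers_le]
      exact this hws'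
    have hrs : r = s := sylow_nonadj hr hs hrm hsm hadj
    rw [← hrs] at hws'
    apply hra
    right
    have : Subgroup.zpowers (e m') ≤ Subgroup.zpowers a := by rwa [Subgroup.zpowers_le]
    exact this hws'
  by_cases hcase : ∃ m' : G, m' ∈ Subgroup.zpowers m ∧ orderOf m' = orderOf m ∧
      (∀ a : H, e m' ∈ Subgroup.zpowers a → e.symm a ∈ UG)
  · -- `H` has an element of order `orderOf m`
    obtain ⟨m', hm', hord, hall⟩ := hcase
    obtain ⟨x, hx, hxmax⟩ := exists_max_above (e m')
    have hxU := hall x hx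
    have hm'1 : m' ≠ 1 := by
      rintro rfl
      rw [orderOf_one] at hord
      exact hm1 hord.symm
    have hx1 : e.symm x ≠ 1 := by
      intro h1
      have hx1 : x = 1 := by rw [← he1, ← h1, e.apply_symm_apply]
      rw [hx1, Subgroup.zpowers_one_eq_bot, Subgroup.mem_bot, ← he1] at hx
      exact hm'1 (e.injective hx)
    have hxord := hUGchar _ hxU hx1
    have hxN := hgens _ hxU.1 hxord
    have hset : (Subgroup.zpowers x : Set H) = e '' (Subgroup.zpowers m : Set G) := by
      ext z
      constructor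
      · intro hz
        refine ⟨e.symm z, ?_, by simp⟩
        have : Adj x z := Or.inr hz
        rw [SetLike.mem_coe, ← hxN, he]
        simpa using this
      · rintro ⟨y, hy, rfl⟩
        rw [SetLike.mem_coe, ← hxN, he, e.apply_symm_apply] at hy
        rcases hy with h | h
        · exact hxmax _ h
        · exact h
    have hcard : orderOf x = orderOf m := by
      rw [← Nat.card_zpowers, ← Nat.card_zpowers]
      have h1 : Nat.card (Subgroup.zpowers x) = Nat.card (Subgroup.zpowers x : Set H) := rfl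
      have h2 : Nat.card (Subgroup.zpowers m) = Nat.card (Subgroup.zpowers m : Set G) := rfl
      rw [h1, h2, hset]
      exact Nat.card_image_of_injective e.injective _
    obtain ⟨y, -, hy⟩ := exists_orderOf (m := x) (d := p * q) (hcard ▸ hpqm)
    exact ⟨y, hy⟩
  · -- contradiction
    exfalso
    have hall : ∀ m' : G, m' ∈ Subgroup.zpowers m → orderOf m' = orderOf m →
        (∀ b : H, b ∈ Subgroup.zpowers (e m') → e.symm b ∈ UG) := by
      intro m' hm' hord
      rcases claim1 m' hm' hord with h | h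
      · exact absurd ⟨m', hm', hord, h⟩ hcase
      · exact h
    have hUclosed : ∀ z : H, e.symm z ∈ UG → ∀ b ∈ Subgroup.zpowers z, e.symm b ∈ UG := by
      intro z hz b hb
      by_cases hz1 : e.symm z = 1
      · have hz1' : z = 1 := by rw [← he1, ← hz1, e.apply_symm_apply]
        rw [hz1', Subgroup.zpowers_one_eq_bot, Subgroup.mem_bot] at hb
        rw [hb, ← hz1']; exact hz
      · exact hall _ hz.1 (hUGchar _ hz hz1) b (by rwa [e.apply_symm_apply])
    -- the largest element of `e(UG)`
    obtain ⟨x, hxU, hxmax⟩ := Set.exists_max_image {z : H | e.symm z ∈ UG} orderOf (Set.toFinite _)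
      ⟨e m, by
        simp only [Set.mem_ofPred_eq, e.symm_apply_apply]
        exact ⟨Subgroup.mem_zpowers m, fun v hv => (hgens m (Subgroup.mem_zpowers m) rfl v).mpr hv⟩⟩
    have hadjU : ∀ y z : H, e.symm y ∈ UG → e.symm z ∈ UG → Adj y z := by
      intro y z hy hz
      have := hy.2 _ hz.1
      rw [he] at this
      simpa using this
    have hsetU : (Subgroup.zpowers x : Set H) = e '' UG := by
      ext z
      constructor
      · intro hz
        exact ⟨e.symm z, hUclosed x hxU z hz, by simp⟩
      · rintro ⟨y, hy, rfl⟩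
        have hyU : e.symm (e y) ∈ UG := by rwa [e.symm_apply_apply]
        rcases hadjU x (e y) hxU hyU with h | h
        · have h1 : Subgroup.zpowers x ≤ Subgroup.zpowers (e y) := by rwa [Subgroup.zpowers_le]
          have h2 := hxmax (e y) hyU
          have h3 : Subgroup.zpowers x = Subgroup.zpowers (e y) :=
            Subgroup.eq_of_le_of_card_ge h1 (by rw [Nat.card_zpowers, Nat.card_zpowers]; exact h2)
          rw [h3]; exact Subgroup.mem_zpowers _
        · exact h
    have hxord : orderOf x = (orderOf m).totient + 1 := by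
      rw [← hUGcard, ← Nat.card_zpowers]
      have h1 : Nat.card (Subgroup.zpowers x) = Nat.card (Subgroup.zpowers x : Set H) := rfl
      rw [h1, hsetU, Nat.card_image_of_injective e.injective]
      rfl
    have hxadj : ∀ y ∈ Subgroup.zpowers x, ∀ z ∈ Subgroup.zpowers x, Adj y z := by
      intro y hy z hz
      exact hadjU y z (hUclosed x hxU y hy) (hUclosed x hxU z hz)
    have hxtot := totient_of_pairwise_adj x hxadj
    -- the element of order `p`
    obtain ⟨w, hw, hwp⟩ := exists_orderOf (m := m) (d := p) hpm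
    have hwU : w ∉ UG := by
      intro hwU
      have hw1 : w ≠ 1 := by
        rintro rfl; rw [orderOf_one] at hwp; exact hp.one_lt.ne hwp
      have h1 := hUGchar w hwU hw1
      rw [hwp] at h1
      rw [← h1] at hqm
      have := (Nat.prime_dvd_prime_iff_eq hq hp).mp hqm
      omega
    have hxz : x ∈ Subgroup.zpowers (e w) := by
      have h1 : Adj x (e w) := by
        have := hxU.2 w hw
        rw [he] at this
        simpa using this
      rcases h1 with h | h
      · exact h
      · exfalso
        apply hwU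
        have := hUclosed x hxU _ h
        rwa [e.symm_apply_apply] at this
    -- bounding the number of generators of `⟨e w⟩`
    have hcount : (orderOf (e w)).totient ≤ p - 1 := by
      rw [← ncard_gens (e w)]
      have h1 : {z : H | z ∈ Subgroup.zpowers (e w) ∧ orderOf z = orderOf (e w)} ⊆
          e '' {u : G | u ∈ Subgroup.zpowers w ∧ orderOf u = orderOf w} := by
        rintro z ⟨hz, hzo⟩
        have hzz : Subgroup.zpowers z = Subgroup.zpowers (e w) :=
          Subgroup.eq_of_le_of_card_ge (by rwa [Subgroup.zpowers_le])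
            (by rw [Nat.card_zpowers, Nat.card_zpowers, hzo])
        have hsame : ∀ y : H, Adj (e w) y ↔ Adj z y := by
          intro y
          unfold Adj
          rw [hzz]
          refine or_congr_left ?_
          rw [← Subgroup.zpowers_le, ← Subgroup.zpowers_le (g := z), hzz]
        have hsame' : ∀ y : G, Adj w y ↔ Adj (e.symm z) y := by
          intro y
          rw [he w y, he (e.symm z) y, e.apply_symm_apply]
          exact hsame _
        have hzM : e.symm z ∈ Subgroup.zpowers m := by
          have h2 : Adj w m := Or.inl hw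
          rw [hsame'] at h2
          exact (hgens m (Subgroup.mem_zpowers m) rfl _).mp h2.symm
        have hz1 : e.symm z ≠ 1 := by
          intro hz1
          apply hwU
          refine ⟨hw, fun v hv => ?_⟩
          rw [hsame', hz1]
          exact one_adj v
        obtain ⟨h3, h4⟩ := mem_of_same_nbhd hw hzM hp hq hpq.ne hpqm hwp hz1 (fun y _ => hsame' y)
        exact ⟨e.symm z, ⟨h3, by rw [h4, hwp]⟩, by simp⟩
      calc Set.ncard {z : H | z ∈ Subgroup.zpowers (e w) ∧ orderOf z = orderOf (e w)}
          ≤ Set.ncard (e '' {u : G | u ∈ Subgroup.zpowers w ∧ orderOf u = orderOf w}) :=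
            Set.ncard_le_ncard h1 (Set.toFinite _)
        _ = Set.ncard {u : G | u ∈ Subgroup.zpowers w ∧ orderOf u = orderOf w} :=
            Set.ncard_image_of_injective _ e.injective
        _ = p - 1 := by rw [ncard_gens, hwp, Nat.totient_prime hp]
    have h1 : (orderOf x).totient ≤ (orderOf (e w)).totient :=
      Nat.le_of_dvd (Nat.totient_pos.mpr (orderOf_pos _))
        (Nat.totient_dvd_of_dvd (orderOf_dvd_of_mem_zpowers hxz))
    have h2 : (p * q).totient ≤ (orderOf m).totient :=
      Nat.le_of_dvd (Nat.totient_pos.mpr (orderOf_pos _)) (Nat.totient_dvd_of_dvd hpqm)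
    rw [Nat.totient_mul ((Nat.coprime_primes hp hq).mpr hpq.ne), Nat.totient_prime hp,
      Nat.totient_prime hq] at h2
    have h3 : 2 ≤ q - 1 := by
      have := hp.two_le
      omega
    have h4 : (p - 1) * 2 ≤ (p - 1) * (q - 1) := Nat.mul_le_mul_left _ h3
    omega

/-- one direction, `p < q` -/
theorem one_dir {G H : Type*} [Group G] [Finite G] [Group H] [Finite H] (e : G ≃ H)
    (he : ∀ x y : G, Adj x y ↔ Adj (e x) (e y))
    {p q : ℕ} (hp : p.Prime) (hq : q.Prime) (hpq : p < q)
    (h : ∃ g : G, orderOf g = p * q) : (∃ h : H, orderOf h = p * q) := by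
  classical
  refine one_dir_aux ((Equiv.swap 1 (e.symm 1)).trans e) ?_ ?_ hp hq hpq h
  · have huniv : ∀ y : G, Adj (e.symm 1) y := by
      intro y
      rw [he, e.apply_symm_apply]
      exact one_adj _
    have hswap : ∀ x : G, x = 1 ∨ x = e.symm 1 ∨ Equiv.swap 1 (e.symm 1) x = x := by
      intro x
      by_cases h1 : x = 1
      · exact Or.inl h1
      by_cases h2 : x = e.symm 1
      · exact Or.inr (Or.inl h2)
      · exact Or.inr (Or.inr (Equiv.swap_apply_of_ne_of_ne h1 h2))
    have hs : ∀ x y : G, Adj x y ↔ Adj (Equiv.swap 1 (e.symm 1) x) (Equiv.swap 1 (e.symm 1) y) := by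
      intro x y
      rcases hswap x with rfl | rfl | hx
      · rw [Equiv.swap_apply_left]
        exact ⟨fun _ => huniv _, fun _ => one_adj _⟩
      · rw [Equiv.swap_apply_right]
        exact ⟨fun _ => one_adj _, fun _ => huniv _⟩
      · rcases hswap y with rfl | rfl | hy
        · rw [Equiv.swap_apply_left]
          exact ⟨fun _ => (huniv _).symm, fun _ => adj_one _⟩
        · rw [Equiv.swap_apply_right]
          exact ⟨fun _ => adj_one _, fun _ => (huniv _).symm⟩
        · rw [hx, hy]
    intro x y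
    rw [hs, he]
    rfl
  · simp

/-- Let G and H be finite groups whose power graphs are isomorphic: there is a bijection e : G → H such that, for all x, y, one of x, y is a power of the other exactly when one of e(x), e(y) is a power of the other. Then G and H have the same prime graph: for distinct primes p, q, G has an element of order pq if and only if H does. -/
theorem result {G H : Type*} [Group G] [Finite G] [Group H] [Finite H] (e : G ≃ H)
    (he : ∀ x y : G, (x ∈ Subgroup.zpowers y ∨ y ∈ Subgroup.zpowers x) ↔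
      (e x ∈ Subgroup.zpowers (e y) ∨ e y ∈ Subgroup.zpowers (e x)))
    {p q : ℕ} (hp : p.Prime) (hq : q.Prime) (hpq : p ≠ q) :
    (∃ g : G, orderOf g = p * q) ↔ (∃ h : H, orderOf h = p * q) := by
  have he' : ∀ x y : H, Adj x y ↔ Adj (e.symm x) (e.symm y) := by
    intro x y
    have := he (e.symm x) (e.symm y)
    rw [e.apply_symm_apply, e.apply_symm_apply] at this
    exact this.symm
  rcases lt_or_gt_of_ne hpq with hlt | hlt
  · exact ⟨one_dir e he hp hq hlt, one_dir e.symm he' hp hq hlt⟩
  · rw [mul_comm p q]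
    exact ⟨one_dir e he hq hp hlt, one_dir e.symm he' hq hp hlt⟩

end Cfsg.Agent.S4085
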