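import Cfsg.Statements.S4089
import Cfsg.Agent.H515.Subn

set_option autoImplicit false
open Cfsg

namespace Cfsg.Agent.S4089

open Cfsg.Agent.H515.Subn

/-- a `p`-radical subgroup is the intersection of the Sylow subgroups containing it -/
theorem sInf_le_of_radical {G : Type*} [Group G] [Finite G] {p : ℕ} [Fact p.Prime] (R : Subgroup G)
    (hR : IsPGroup p R)
    (hrad : (pCore p (Subgroup.normalizer (R : Set G))).map (Subgroup.normalizer (R : Set G)).subtype = R) :
    sInf {K : Subgroup G | ∃ Q : Sylow p G, R ≤ (Q : Subgroup G) ∧ K = (Q : Subgroup G)} ≤ R := by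
  set N := Subgroup.normalizer (R : Set G) with hN
  set D : Subgroup G := sInf {K : Subgroup G | ∃ Q : Sylow p G, R ≤ (Q : Subgroup G) ∧ K = (Q : Subgroup G)} with hD
  have hRD : R ≤ D := by
    refine le_sInf ?_
    rintro K ⟨Q, hQ, rfl⟩
    exact hQ
  obtain ⟨Q0, hQ0⟩ := hR.exists_le_sylow
  have hDQ : ∀ Q : Sylow p G, R ≤ (Q : Subgroup G) → D ≤ Q := fun Q hQ => sInf_le ⟨Q, hQ, rfl⟩
  have hDp : IsPGroup p D := Q0.2.to_le (hDQ Q0 hQ0)
  -- `D ⊓ N ≤ R`
  have hDN : D ⊓ N ≤ R := by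
    -- the intersection of all Sylow subgroups of N is O_p(N)
    have h1 : (D.subgroupOf N) ≤ pCore p N := by
      rw [Cfsg.Agent.Lib.Cores.pCore_eq_iInf_sylow]
      refine le_iInf fun T => ?_
      have hTp : IsPGroup p ((T : Subgroup N).map N.subtype) := T.2.map _
      obtain ⟨Q, hQ⟩ := hTp.exists_le_sylow
      have hRT : R ≤ (T : Subgroup N).map N.subtype := by
        rw [← hrad]
        refine Subgroup.map_mono ?_
        exact Cfsg.Agent.Lib.Cores.pCore_le_sylow T
      have h3 : D ≤ Q := hDQ Q (hRT.trans hQ)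
      have h4 : (Q : Subgroup G).subgroupOf N = T := by
        refine T.3 (Q.2.comap_of_injective N.subtype (Subgroup.subtype_injective N)) ?_
        intro x hx
        rw [Subgroup.mem_subgroupOf]
        exact hQ ⟨x, hx, rfl⟩
      rw [← h4]
      exact Subgroup.comap_mono h3
    intro x hx
    rw [← hrad]
    exact ⟨⟨x, hx.2⟩, h1 (Subgroup.mem_subgroupOf.mpr hx.1), rfl⟩
  -- then R = D as D is a p-group
  have hnil : Group.IsNilpotent D := hDp.isNilpotent
  by_contra hcon
  have hlt : R.subgroupOf D < ⊤ := by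
    rw [lt_top_iff_ne_top]
    intro h
    exact hcon (Subgroup.subgroupOf_eq_top.mp h)
  have h1 := Group.normalizerCondition_of_isNilpotent _ hlt
  obtain ⟨x, hx1, hx2⟩ := SetLike.exists_of_lt h1
  apply hx2
  rw [Subgroup.mem_subgroupOf]
  refine hDN ⟨x.2, ?_⟩
  change (x : G) ∈ Subgroup.normalizer (R : Set G)
  rw [Subgroup.mem_normalizer_iff]
  rw [Subgroup.mem_normalizer_iff] at hx1
  intro h
  constructor
  · intro hh
    have := (hx1 ⟨h, hRD hh⟩).1 (Subgroup.mem_subgroupOf.mpr hh)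
    exact this
  · intro hh
    have hD' : (x : G)⁻¹ * (x * h * (x : G)⁻¹) * (x : G)⁻¹⁻¹ ∈ D :=
      D.mul_mem (D.mul_mem (D.inv_mem x.2) (hRD hh)) (D.inv_mem (D.inv_mem x.2))
    have e : (x : G)⁻¹ * (x * h * (x : G)⁻¹) * (x : G)⁻¹⁻¹ = h := by group
    rw [e] at hD'
    exact (hx1 ⟨h, hD'⟩).2 (Subgroup.mem_subgroupOf.mpr hh)

/-- Let G be a finite group, p a prime and H a p-subgroup of G. Then the set of elements g of G such that H is subnormal in the subgroup generated by H and g is the union of the normalizers N_G(R) over the subgroups R of G containing H with R = O_p(N_G(R)); and this set does not change when H is replaced by the intersection of all Sylow p-subgroups of G containing H. -/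
theorem result {G : Type*} [Group G] [Finite G] (p : ℕ) [Fact p.Prime]
    (H : Subgroup G) (hH : IsPGroup p H) :
    {g : G | ((H).subgroupOf (H ⊔ Subgroup.zpowers g)).IsSubnormal} =
      {g : G | ∃ R : Subgroup G, H ≤ R ∧ (Cfsg.pCore p (Subgroup.normalizer (R : Set G))).map (Subgroup.normalizer (R : Set G)).subtype = R ∧ g ∈ Subgroup.normalizer (R : Set G)} ∧
    ∀ g : G, (((H).subgroupOf (H ⊔ Subgroup.zpowers g)).IsSubnormal ↔
      (((sInf {K : Subgroup G | ∃ Q : Sylow p G, H ≤ (Q : Subgroup G) ∧ K = (Q : Subgroup G)})).subgroupOf ((sInf {K : Subgroup G | ∃ Q : Sylow p G, H ≤ (Q : Subgroup G) ∧ K = (Q : Subgroup G)}) ⊔ Subgroup.zpowers g)).IsSubnormal) := by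
  have hfirst : ∀ g : G, ((H).subgroupOf (H ⊔ Subgroup.zpowers g)).IsSubnormal ↔
      ∃ R : Subgroup G, H ≤ R ∧ (Cfsg.pCore p (Subgroup.normalizer (R : Set G))).map (Subgroup.normalizer (R : Set G)).subtype = R ∧ g ∈ Subgroup.normalizer (R : Set G) := by
    intro g
    rw [isSubnormal_iff_mem hH]
    constructor
    · rintro ⟨R, hR, hHR, hg⟩
      obtain ⟨R', h1, -, h3, h4⟩ := exists_radical _ R rfl hR
      exact ⟨R', hHR.trans h1, h3, h4 hg⟩
    · rintro ⟨R, hHR, hR, hg⟩
      refine ⟨R, ?_, hHR, hg⟩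
      rw [← hR]
      exact (Cfsg.Agent.Lib.Cores.pCore_isPGroup p).map _
  refine ⟨Set.ext hfirst, fun g => ?_⟩
  set I : Subgroup G := sInf {K : Subgroup G | ∃ Q : Sylow p G, H ≤ (Q : Subgroup G) ∧ K = (Q : Subgroup G)} with hI
  have hHI : H ≤ I := by
    refine le_sInf ?_
    rintro K ⟨Q, hQ, rfl⟩
    exact hQ
  have hIp : IsPGroup p I := by
    obtain ⟨Q0, hQ0⟩ := hH.exists_le_sylow
    exact Q0.2.to_le (sInf_le ⟨Q0, hQ0, rfl⟩)
  rw [isSubnormal_iff_mem hIp]
  constructor
  · intro h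
    obtain ⟨R, hHR, hR, hg⟩ := (hfirst g).1 h
    have hRp : IsPGroup p R := by
      rw [← hR]
      exact (Cfsg.Agent.Lib.Cores.pCore_isPGroup p).map _
    refine ⟨R, hRp, ?_, hg⟩
    refine le_trans ?_ (sInf_le_of_radical R hRp hR)
    refine sInf_le_sInf ?_
    rintro K ⟨Q, hQ, rfl⟩
    exact ⟨Q, hHR.trans hQ, rfl⟩
  · rintro ⟨R, hR, hIR, hg⟩
    rw [isSubnormal_iff_mem hH]
    exact ⟨R, hR, hHI.trans hIR, hg⟩

end Cfsg.Agent.S4089
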