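import Cfsg.Statements.S4091
import Cfsg.Agent.H515.Lam
import Cfsg.Agent.S4090

set_option autoImplicit false
open Cfsg
open scoped BigOperators Pointwise

namespace Cfsg.Agent.S4091

open Cfsg.Agent.H515.Count Cfsg.Agent.H515.Lam Cfsg.Agent.S4090

theorem lam_subsingleton {p : ℕ} [Fact p.Prime] {G : Type*} [Group G] [Finite G] [Subsingleton G] (H : Subgroup G) :
    lam p H = 1 := by
  unfold lam
  rw [Nat.card_eq_one_iff_unique]
  refine ⟨⟨fun S T => Subtype.ext (Sylow.ext (Subsingleton.elim _ _))⟩, ⟨⟨default, ?_⟩⟩⟩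
  intro x _
  rw [Subsingleton.elim x 1]
  exact Subgroup.one_mem _

/-- **the product of the `lam`'s over a Sylow subgroup of a `p`-solvable group** -/
theorem prod_lam_le {G : Type*} [Group G] [Finite G] (p : ℕ) [Fact p.Prime]
    (hG : Cfsg.IsPSolvable p G) (P : Sylow p G) [Fintype (P : Subgroup G)] :
    (∏ x : (P : Subgroup G), lam p (Subgroup.zpowers (x : G))) ^ p ≤
      (Nat.card (Sylow p G)) ^ Nat.card (P : Subgroup G) := by
  classical
  obtain ⟨n, M, h0, hn, hmono, hnormal, hfac⟩ := hG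
  let ψ : ∀ i : Fin (n + 1), (P : Subgroup G) →* G ⧸ M i := fun i =>
    (@QuotientGroup.mk' G _ (M i) (hnormal i)).comp (P : Subgroup G).subtype
  have hle : ∀ i : Fin n, M i.castSucc ≤ M i.succ := fun i => hmono (Fin.castSucc_lt_succ).le
  have key : ∀ i : Fin (n + 1),
      (∏ x : (P : Subgroup G), lam p ((Subgroup.zpowers x).map (ψ i))) ^ p ≤
        (lam p (⊥ : Subgroup (G ⧸ M i))) ^ Nat.card (P : Subgroup G) := by
    intro i
    induction i using Fin.reverseInduction with
    | last =>
      have hN := hnormal (Fin.last n)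
      have hsub : Subsingleton (G ⧸ M (Fin.last n)) := by
        rw [hn]; exact QuotientGroup.subsingleton_quotient_top
      simp only [lam_subsingleton, Finset.prod_const_one, one_pow, le_refl]
    | cast i ih =>
      have hA := hnormal i.castSucc
      have hB := hnormal i.succ
      have hmap : ∀ X : Subgroup (P : Subgroup G), (X.map (ψ i.castSucc)).map (proj _ _ (hle i)) = X.map (ψ i.succ) := by
        intro X
        rw [Subgroup.map_map]; rfl
      simp only [← hmap] at ih
      by_cases hcop : ((M i.castSucc).relIndex (M i.succ)).Coprime p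
      · let S : Sylow p (G ⧸ M i.castSucc) := P.mapSurjective (QuotientGroup.mk'_surjective (M i.castSucc))
        refine step_coprime (proj _ _ (hle i)) (proj_surjective (hle i)) (by rw [card_ker_proj]; exact hcop)
          (ψ i.castSucc) P.2 S ?_ ih
        change (P : Subgroup G).map (QuotientGroup.mk' (M i.castSucc)) = _
        rw [← Subgroup.map_map, ← MonoidHom.range_eq_map, Subgroup.range_subtype]
      · obtain ⟨m, hm⟩ := (hfac i).resolve_right hcop
        exact step_pgroup (proj _ _ (hle i)) (proj_surjective (hle i))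
          (isPGroup_ker_proj (hle i) hm) (ψ i.castSucc) ih
  have h1 := key 0
  have hN := hnormal 0
  have hker : (QuotientGroup.mk' (M 0)).ker = ⊥ := by rw [QuotientGroup.ker_mk', h0]
  have hkp : IsPGroup p (QuotientGroup.mk' (M 0)).ker := by rw [hker]; exact IsPGroup.of_bot
  have h2 := step_pgroup (QuotientGroup.mk' (M 0)) (QuotientGroup.mk'_surjective _) hkp
    (P : Subgroup G).subtype (by
      have e : ∀ X : Subgroup (P : Subgroup G), (X.map (P : Subgroup G).subtype).map (QuotientGroup.mk' (M 0)) =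
          X.map (ψ 0) := by
        intro X
        rw [Subgroup.map_map]
      simp only [e]
      exact h1)
  have h3 : lam p (⊥ : Subgroup G) = Nat.card (Sylow p G) :=
    Nat.card_congr ⟨fun S => S.1, fun S => ⟨S, bot_le⟩, fun _ => rfl, fun _ => rfl⟩
  have h4 : ∀ x : (P : Subgroup G), (Subgroup.zpowers x).map (P : Subgroup G).subtype = Subgroup.zpowers (x : G) :=
    fun x => MonoidHom.map_zpowers _ _
  simp only [h3, h4] at h2
  exact h2

theorem lam_pos {G : Type*} [Group G] [Finite G] {p : ℕ} [Fact p.Prime] (S : Sylow p G) {g : G} (hg : g ∈ (S : Subgroup G)) :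
    0 < lam p (Subgroup.zpowers g) := by
  have : Nonempty {S : Sylow p G // Subgroup.zpowers g ≤ (S : Subgroup G)} := ⟨⟨S, by rwa [Subgroup.zpowers_le]⟩⟩
  exact Nat.card_pos

theorem lam_conj {G : Type*} [Group G] [Finite G] {p : ℕ} [Fact p.Prime] (h g : G) :
    lam p (Subgroup.zpowers (h * g * h⁻¹)) = lam p (Subgroup.zpowers g) := by
  have hmem : ∀ (S : Sylow p G), g ∈ (S : Subgroup G) ↔ h * g * h⁻¹ ∈ ((h • S : Sylow p G) : Subgroup G) := by
    intro S
    rw [Sylow.coe_subgroup_smul]
    constructor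
    · intro hg
      rw [Subgroup.mem_smul_pointwise_iff_exists]
      exact ⟨g, hg, rfl⟩
    · intro hg
      rw [Subgroup.mem_smul_pointwise_iff_exists] at hg
      obtain ⟨s, hs, hsg⟩ := hg
      have h1 : h * s * h⁻¹ = h * g * h⁻¹ := hsg
      have h2 : s = g := by
        have := congrArg (fun z => h⁻¹ * z * h) h1
        have e : ∀ z : G, h⁻¹ * (h * z * h⁻¹) * h = z := by intro z; group
        simpa only [e] using this
      rwa [← h2]
  refine (Nat.card_congr (Equiv.subtypeEquiv (MulAction.toPerm h : Equiv.Perm (Sylow p G)) fun S => ?_)).symm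
  rw [Subgroup.zpowers_le, Subgroup.zpowers_le]
  exact hmem S

open Classical in
/-- double counting -/
theorem card_pelements {G : Type*} [Group G] [Finite G] (p : ℕ) [Fact p.Prime] (P : Sylow p G)
    [Fintype (P : Subgroup G)] :
    (Nat.card {g : G // ∃ k : ℕ, orderOf g = p ^ k} : ℝ) =
      Nat.card (Sylow p G) * ∑ x : (P : Subgroup G), ((lam p (Subgroup.zpowers (x : G)) : ℝ))⁻¹ := by
  have : Fintype G := Fintype.ofFinite G
  have : Fintype (Sylow p G) := Fintype.ofFinite _
  have hp : p.Prime := Fact.out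
  let L : G → ℝ := fun g => (lam p (Subgroup.zpowers g) : ℝ)
  -- rows
  have hrow : ∀ g : G, ∑ S : Sylow p G, (if g ∈ (S : Subgroup G) then (L g)⁻¹ else 0) =
      if (∃ k : ℕ, orderOf g = p ^ k) then 1 else 0 := by
    intro g
    rw [← Finset.sum_filter, Finset.sum_const, nsmul_eq_mul]
    have h1 : (Finset.univ.filter (fun S : Sylow p G => g ∈ (S : Subgroup G))).card = lam p (Subgroup.zpowers g) := by
      unfold lam
      rw [← Nat.subtype_card (Finset.univ.filter (fun S : Sylow p G => g ∈ (S : Subgroup G)))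
        (p := fun S : Sylow p G => Subgroup.zpowers g ≤ (S : Subgroup G))
        (by intro S; rw [Finset.mem_filter, Subgroup.zpowers_le]; exact and_iff_right (Finset.mem_univ S))]
    rw [h1]
    split_ifs with h
    · obtain ⟨k, hk⟩ := h
      have h2 : IsPGroup p (Subgroup.zpowers g) := IsPGroup.of_card (n := k) (by rw [Nat.card_zpowers, hk])
      obtain ⟨S, hS⟩ := h2.exists_le_sylow
      have h3 := lam_pos (p := p) S (hS (Subgroup.mem_zpowers g))
      exact mul_inv_cancel₀ (by exact_mod_cast h3.ne')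
    · have h2 : lam p (Subgroup.zpowers g) = 0 := by
        unfold lam
        rw [Nat.card_eq_zero]
        left
        refine ⟨fun S => h ?_⟩
        obtain ⟨k, hk⟩ := S.1.2 ⟨g, S.2 (Subgroup.mem_zpowers g)⟩
        have h1 : g ^ p ^ k = 1 := by simpa using congrArg Subtype.val hk
        obtain ⟨m, _, hm⟩ := (Nat.dvd_prime_pow hp).1 (orderOf_dvd_of_pow_eq_one h1)
        exact ⟨m, hm⟩
      rw [h2]; simp
  -- columns
  have hcol : ∀ S : Sylow p G, ∑ g : G, (if g ∈ (S : Subgroup G) then (L g)⁻¹ else 0) =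
      ∑ x : (P : Subgroup G), (L x)⁻¹ := by
    have hP : ∑ g : G, (if g ∈ (P : Subgroup G) then (L g)⁻¹ else 0) = ∑ x : (P : Subgroup G), (L x)⁻¹ := by
      rw [← Finset.sum_filter]
      refine (Finset.sum_subtype _ (fun g => ?_) (fun g => (L g)⁻¹))
      rw [Finset.mem_filter]; exact and_iff_right (Finset.mem_univ g)
    intro S
    rw [← hP]
    obtain ⟨h, rfl⟩ := MulAction.exists_smul_eq G P S
    symm
    refine Fintype.sum_equiv (MulAut.conj h).toEquiv _ _ (fun g => ?_)
    have e1 : (MulAut.conj h).toEquiv g = h * g * h⁻¹ := rfl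
    rw [e1]
    have e2 : L (h * g * h⁻¹) = L g := by
      change (lam p (Subgroup.zpowers (h * g * h⁻¹)) : ℝ) = lam p (Subgroup.zpowers g)
      rw [lam_conj]
    rw [e2]
    have e3 : h * g * h⁻¹ ∈ ((h • P : Sylow p G) : Subgroup G) ↔ g ∈ (P : Subgroup G) := by
      rw [Sylow.coe_subgroup_smul]
      constructor
      · intro hg
        rw [Subgroup.mem_smul_pointwise_iff_exists] at hg
        obtain ⟨s, hs, hsg⟩ := hg
        have h1 : h * s * h⁻¹ = h * g * h⁻¹ := hsg
        have h2 : s = g := by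
          have := congrArg (fun z => h⁻¹ * z * h) h1
          have e : ∀ z : G, h⁻¹ * (h * z * h⁻¹) * h = z := by intro z; group
          simpa only [e] using this
        rwa [← h2]
      · intro hg
        rw [Subgroup.mem_smul_pointwise_iff_exists]
        exact ⟨g, hg, rfl⟩
    simp only [e3]
  have h1 : ∑ g : G, ∑ S : Sylow p G, (if g ∈ (S : Subgroup G) then (L g)⁻¹ else 0) =
      (Nat.card {g : G // ∃ k : ℕ, orderOf g = p ^ k} : ℝ) := by
    rw [Finset.sum_congr rfl (fun g _ => hrow g), ← Finset.sum_filter, Finset.sum_const, nsmul_eq_mul, mul_one]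
    congr 1
    rw [← Nat.subtype_card (Finset.univ.filter (fun g : G => ∃ k : ℕ, orderOf g = p ^ k))
        (p := fun g : G => ∃ k : ℕ, orderOf g = p ^ k)
        (by intro S; rw [Finset.mem_filter]; exact and_iff_right (Finset.mem_univ S))]
  rw [← h1, Finset.sum_comm, Finset.sum_congr rfl (fun S _ => hcol S), Finset.sum_const, Finset.card_univ,
    nsmul_eq_mul, Nat.card_eq_fintype_card]

/-- AM-GM -/
theorem prod_le_pow {ι : Type*} [Fintype ι] (z : ι → ℝ) (hz : ∀ i, 0 ≤ z i) (hN : 0 < Fintype.card ι) :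
    ∏ i, z i ≤ ((∑ i, z i) / Fintype.card ι) ^ Fintype.card ι := by
  set N := Fintype.card ι with hNdef
  have hN' : (0 : ℝ) < N := by exact_mod_cast hN
  have h1 := Real.geom_mean_le_arith_mean_weighted Finset.univ (fun _ : ι => (1 / (N : ℝ))) z
    (fun i _ => by positivity) (by
      rw [Finset.sum_const, Finset.card_univ, nsmul_eq_mul, ← hNdef]
      field_simp) (fun i _ => hz i)
  have h2 : ∏ i, z i = (∏ i, z i ^ (1 / (N : ℝ))) ^ N := by
    rw [← Finset.prod_pow]
    refine Finset.prod_congr rfl fun i _ => ?_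
    rw [← Real.rpow_natCast, ← Real.rpow_mul (hz i)]
    rw [one_div, inv_mul_cancel₀ hN'.ne', Real.rpow_one]
  rw [h2]
  refine pow_le_pow_left₀ (Finset.prod_nonneg fun i _ => Real.rpow_nonneg (hz i) _) (h1.trans ?_) N
  rw [← Finset.mul_sum]
  rw [one_div, inv_mul_eq_div]

/-- Let G be a finite p-solvable group, P a Sylow p-subgroup of G, u the number of p-elements of G (elements of p-power order, the identity included) and n the number of Sylow p-subgroups of G. Then u/#P ≥ n^((p−1)/p), stated as u^p ≥ #P^p · n^(p−1). -/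
theorem result {G : Type*} [Group G] [Finite G] (p : ℕ) [Fact p.Prime]
    (hG : Cfsg.IsPSolvable p G) (P : Sylow p G) :
    Nat.card (P : Subgroup G) ^ p * Nat.card (Sylow p G) ^ (p - 1) ≤ Nat.card {g : G // ∃ k : ℕ, orderOf g = p ^ k} ^ p := by
  classical
  have hp : p.Prime := Fact.out
  have : Fintype (P : Subgroup G) := Fintype.ofFinite _
  have h1 := prod_lam_le p hG P
  have h2 := card_pelements p P
  set N := Nat.card (P : Subgroup G) with hN
  set n := Nat.card (Sylow p G) with hn
  set u := Nat.card {g : G // ∃ k : ℕ, orderOf g = p ^ k} with hu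
  have hNpos : 0 < N := Nat.card_pos
  have hnpos : 0 < n := Nat.card_pos
  have hNcard : Fintype.card (P : Subgroup G) = N := by rw [hN, Nat.card_eq_fintype_card]
  set A : ℕ := ∏ x : (P : Subgroup G), lam p (Subgroup.zpowers (x : G)) with hA
  have hApos : 0 < A := Finset.prod_pos fun x _ => lam_pos P x.2
  set s : ℝ := ∑ x : (P : Subgroup G), ((lam p (Subgroup.zpowers (x : G)) : ℝ))⁻¹ with hs
  have hspos : 0 ≤ s := Finset.sum_nonneg fun x _ => by positivity
  have h3 := prod_le_pow (fun x : (P : Subgroup G) => ((lam p (Subgroup.zpowers (x : G)) : ℝ))⁻¹)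
    (fun x => by positivity) (by rw [hNcard]; exact hNpos)
  rw [hNcard, Finset.prod_inv_distrib, ← hs] at h3
  have hAr : (∏ x : (P : Subgroup G), (lam p (Subgroup.zpowers (x : G)) : ℝ)) = (A : ℝ) := by
    rw [hA]; push_cast; rfl
  rw [hAr] at h3
  -- `1 / A ≤ (s / N)^N`
  have hAr' : (A : ℝ) ^ p ≤ (n : ℝ) ^ N := by exact_mod_cast h1
  have hAp : (0 : ℝ) < A := by exact_mod_cast hApos
  have hNr : (0 : ℝ) < N := by exact_mod_cast hNpos
  have hnr : (0 : ℝ) < n := by exact_mod_cast hnpos
  have h4 : ((n : ℝ)⁻¹) ^ N ≤ ((s / N) ^ p) ^ N := by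
    calc ((n : ℝ)⁻¹) ^ N = ((n : ℝ) ^ N)⁻¹ := by rw [inv_pow]
      _ ≤ ((A : ℝ) ^ p)⁻¹ := inv_anti₀ (by positivity) hAr'
      _ = ((A : ℝ)⁻¹) ^ p := by rw [inv_pow]
      _ ≤ ((s / N) ^ N) ^ p := pow_le_pow_left₀ (by positivity) h3 p
      _ = ((s / N) ^ p) ^ N := by rw [← pow_mul, ← pow_mul, mul_comm]
  have h5 : (n : ℝ)⁻¹ ≤ (s / N) ^ p := le_of_pow_le_pow_left₀ hNpos.ne' (by positivity) h4
  have h6 : (N : ℝ) ^ p * (n : ℝ) ^ (p - 1) ≤ (u : ℝ) ^ p := by
    rw [h2, mul_pow]
    have h7 : (s / N) ^ p = s ^ p / (N : ℝ) ^ p := div_pow _ _ _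
    rw [h7, le_div_iff₀ (by positivity)] at h5
    have e : (n : ℝ) ^ p = n ^ (p - 1) * n := by
      rw [← pow_succ, Nat.sub_add_cancel hp.one_lt.le]
    calc (N : ℝ) ^ p * (n : ℝ) ^ (p - 1) = (n : ℝ) ^ (p - 1) * n * ((n : ℝ)⁻¹ * (N : ℝ) ^ p) := by
          field_simp
      _ ≤ (n : ℝ) ^ (p - 1) * n * s ^ p := mul_le_mul_of_nonneg_left h5 (by positivity)
      _ = _ := by rw [e]
  exact_mod_cast h6

end Cfsg.Agent.S4091
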