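import Cfsg.Statements.S4097
import Cfsg.Agent.Lib.GoldschmidtFusion
import Cfsg.Agent.SignalizersComponents.ComponentExists
import Cfsg.Agent.Solvable.FrobeniusTheorem
import Cfsg.Agent.Solvable.FrobeniusInvariant

/-!
# A solvable subgroup central in every solvable overgroup is central

In a minimal counterexample `C = C_G(A)` contains every proper subgroup containing `A`, in
particular the normalizers of its nontrivial `p`-subgroups, so it is a Frobenius complement; by
Frobenius' theorem `A` then normalizes, hence centralizes, a nontrivial abelian subgroup of the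
Frobenius kernel.
-/

set_option autoImplicit false
open Cfsg

namespace Cfsg.Agent.S4097

open Subgroup
open scoped Pointwise
open Cfsg.Agent.SignalizersComponents.ComponentExists (isSolvable_sup_of_normal isSolvable_map)

universe u

/-- The hypothesis on `A`. -/
def CentralHyp {G : Type u} [Group G] (A : Subgroup G) : Prop :=
  ∀ S : Subgroup G, A ≤ S → Group.IsSolvable S → ∀ a ∈ A, ∀ s ∈ S, a * s = s * a

theorem comap_solvable {G : Type u} [Group G] {N : Subgroup G} [N.Normal]
    (hN : Group.IsSolvable N) {S : Subgroup (G ⧸ N)} (hS : Group.IsSolvable S) :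
    Group.IsSolvable (S.comap (QuotientGroup.mk' N)) := by
  have hNT : N ≤ S.comap (QuotientGroup.mk' N) := by
    intro x hx
    rw [mem_comap]
    have : QuotientGroup.mk' N x = 1 := (QuotientGroup.eq_one_iff x).2 hx
    rw [this]; exact S.one_mem
  refine Group.isSolvable_of_ker_le_range (inclusion hNT) ((QuotientGroup.mk' N).subgroupComap S) ?_
  intro y hy
  have h1 : (QuotientGroup.mk' N).subgroupComap S y = 1 := hy
  have h2 : QuotientGroup.mk' N (y : G) = 1 := congrArg Subtype.val h1
  exact ⟨⟨y, (QuotientGroup.eq_one_iff (y : G)).1 h2⟩, rfl⟩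

/-- Inheritance by subgroups. -/
theorem CentralHyp.subgroupOf {G : Type u} [Group G] {A : Subgroup G} (h : CentralHyp A)
    {H : Subgroup G} (hAH : A ≤ H) : CentralHyp (A.subgroupOf H) := by
  intro S hAS hS a ha s hs
  have h1 : A ≤ S.map H.subtype := by
    intro x hx
    exact ⟨⟨x, hAH hx⟩, hAS (mem_subgroupOf.2 hx), rfl⟩
  have h2 := h (S.map H.subtype) h1 (isSolvable_map hS _) (a : G) (mem_subgroupOf.1 ha) (s : G)
    ⟨s, hs, rfl⟩
  exact Subtype.ext h2

/-- Inheritance by quotients by solvable groups. -/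
theorem CentralHyp.quot {G : Type u} [Group G] {A : Subgroup G} (h : CentralHyp A)
    {N : Subgroup G} [N.Normal] (hN : Group.IsSolvable N) :
    CentralHyp (A.map (QuotientGroup.mk' N)) := by
  intro S hAS hS a ha s hs
  obtain ⟨b, hb, rfl⟩ := ha
  obtain ⟨t, rfl⟩ := QuotientGroup.mk'_surjective N s
  have h1 : A ≤ S.comap (QuotientGroup.mk' N) := map_le_iff_le_comap.1 hAS
  have h2 := h _ h1 (comap_solvable hN hS) b hb t hs
  rw [← map_mul, ← map_mul, h2]

/-- If `A` is central modulo a normal solvable subgroup, it is central. -/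
theorem central_of_quot {G : Type u} [Group G] {A : Subgroup G} (hA : Group.IsSolvable A)
    (h : CentralHyp A) {N : Subgroup G} [N.Normal] (hN : Group.IsSolvable N)
    (hc : A.map (QuotientGroup.mk' N) ≤ center (G ⧸ N)) : A ≤ center G := by
  intro a ha
  rw [mem_center_iff]
  intro g
  set B : Subgroup (G ⧸ N) := A.map (QuotientGroup.mk' N) with hB
  have hBn : B.Normal := by
    constructor
    intro b hb x
    have := mem_center_iff.1 (hc hb) x
    rw [this, mul_assoc, mul_inv_cancel, mul_one]
    exact hb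
  have hBs : Group.IsSolvable B := isSolvable_map hA _
  have hz : Group.IsSolvable (zpowers (QuotientGroup.mk' N g)) := by
    apply Group.isSolvable_of_comm
    rintro ⟨x, i, rfl⟩ ⟨y, j, rfl⟩
    apply Subtype.ext
    exact ((Commute.refl (QuotientGroup.mk' N g)).zpow_zpow i j)
  have hT : Group.IsSolvable ↥(zpowers (QuotientGroup.mk' N g) ⊔ B) :=
    isSolvable_sup_of_normal hz hBs
  have h1 := h _ (map_le_iff_le_comap.1 (le_sup_right :
    A.map (QuotientGroup.mk' N) ≤ zpowers (QuotientGroup.mk' N g) ⊔ B)) (comap_solvable hN hT)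
    a ha g (by
      rw [mem_comap]
      exact (le_sup_left : zpowers (QuotientGroup.mk' N g) ≤ _) (mem_zpowers _))
  exact h1.symm

/-- Malnormality of `C` from the normalizers of its `p`-subgroups. -/
theorem malnormal_of_normalizers {G : Type u} [Group G] [Finite G] {C : Subgroup G} {p : ℕ}
    [Fact p.Prime]
    (hC : ∀ Q : Subgroup G, Q ≤ C → Q ≠ ⊥ → IsPGroup p Q → normalizer (Q : Set G) ≤ C)
    {g : G} {Q : Subgroup G} (hQ : IsPGroup p Q) (hQ1 : Q ≠ ⊥) (hQC : Q ≤ C)
    (hQg : Q ≤ C.map (MulAut.conj g).toMonoidHom) : g ∈ C := by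
  -- downward induction on the order of `Q`
  induction hn : Nat.card G - Nat.card Q using Nat.strong_induction_on generalizing Q with
  | _ n ih =>
  have hcardlt : ∀ R : Subgroup G, Q < R → Nat.card G - Nat.card R < n := by
    intro R hR
    have h1 : Nat.card Q < Nat.card R := by
      exact Set.ncard_lt_ncard (s := (Q : Set G)) (t := (R : Set G)) hR (Set.toFinite _)
    have h2 : Nat.card R ≤ Nat.card G := card_le_card_group R
    omega
  -- the normalizer of `Q` lies in both
  have hN1 : normalizer (Q : Set G) ≤ C := hC Q hQC hQ1 hQ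
  set f : G →* G := (MulAut.conj g).toMonoidHom with hf
  have hfi : Function.Injective f := (MulAut.conj g).injective
  have hconj : ∀ X : Subgroup G, X ≤ C.map f → X.map (MulAut.conj g⁻¹).toMonoidHom ≤ C := by
    intro X hX
    rw [map_le_iff_le_comap]
    intro x hx
    obtain ⟨c, hc, hcx⟩ := hX hx
    rw [mem_comap, ← hcx]
    have : (MulAut.conj g⁻¹).toMonoidHom (f c) = c := by
      simp [hf, mul_assoc]
    rw [this]; exact hc
  have hN2 : normalizer (Q : Set G) ≤ C.map f := by
    have h1 : Q.map (MulAut.conj g⁻¹).toMonoidHom ≤ C := hconj Q hQg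
    have h2 : Q.map (MulAut.conj g⁻¹).toMonoidHom ≠ ⊥ := by
      intro h0
      rw [map_eq_bot_iff_of_injective _ (MulAut.conj g⁻¹).injective] at h0
      exact hQ1 h0
    have h3 := hC _ h1 h2 (hQ.map _)
    intro x hx
    have h4 : (MulAut.conj g⁻¹) x ∈ normalizer
        ((Q.map (MulAut.conj g⁻¹).toMonoidHom : Subgroup G) : Set G) := by
      rw [mem_normalizer_iff]
      intro y
      rw [mem_normalizer_iff] at hx
      constructor
      · rintro ⟨q, hq, rfl⟩
        refine ⟨x * q * x⁻¹, (hx q).1 hq, ?_⟩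
        simp [mul_assoc]
      · rintro ⟨q, hq, hqy⟩
        refine ⟨x⁻¹ * q * x, ?_, ?_⟩
        · have := (hx (x⁻¹ * q * x)).2 (by simpa [mul_assoc] using hq)
          exact this
        · have h5 : y = ((MulAut.conj g⁻¹) x)⁻¹ * (MulAut.conj g⁻¹).toMonoidHom q *
              (MulAut.conj g⁻¹) x := by
            rw [hqy]; group
          rw [h5]
          simp [mul_assoc]
    refine ⟨(MulAut.conj g⁻¹) x, h3 h4, ?_⟩
    simp [hf, mul_assoc]
  -- `Q` is Sylow in `C`
  have hsyl : ∀ X : Subgroup G, normalizer (Q : Set G) ⊓ X ≤ C ⊓ C.map f → Q ≤ X →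
      IsPGroup p X → (∀ R : Subgroup G, Q < R → R ≤ X → R ≤ C ⊓ C.map f → g ∈ C) → X = Q ∨ g ∈ C := by
    intro X hX hQX hXp h
    by_cases heq : X = Q
    · exact Or.inl heq
    right
    have hlt : Q < X := lt_of_le_of_ne hQX (Ne.symm heq)
    have h1 := Cfsg.Agent.Lib.GoldschmidtFusion.lt_inf_normalizer hXp hlt
    exact h _ h1 inf_le_left (le_trans (by rw [inf_comm]) hX)
  have hmain : ∀ X : Subgroup G, Q ≤ X → IsPGroup p X → (X ≤ C ∨ X ≤ C.map f) → X = Q ∨ g ∈ C := by
    intro X hQX hXp hX
    refine hsyl X ?_ hQX hXp ?_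
    · exact le_inf (inf_le_left.trans hN1) (inf_le_left.trans hN2)
    · intro R hQR hRX hR
      refine ih _ (hcardlt R hQR) (hXp.to_le hRX) ?_ (hR.trans inf_le_left) (hR.trans inf_le_right) rfl
      intro h0
      rw [h0] at hQR
      exact absurd hQR not_lt_bot
  by_contra hg
  -- `Q` and its conjugate are Sylow subgroups of `C`
  have hS1 : ∀ X : Subgroup G, Q ≤ X → IsPGroup p X → X ≤ C → X = Q := fun X h1 h2 h3 =>
    (hmain X h1 h2 (Or.inl h3)).resolve_right hg
  set Q' : Subgroup G := Q.map (MulAut.conj g⁻¹).toMonoidHom with hQ'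
  have hQ'C : Q' ≤ C := hconj Q hQg
  have hback : ∀ X : Subgroup G, (X.map (MulAut.conj g⁻¹).toMonoidHom).map f = X := by
    intro X
    rw [map_map]
    have : f.comp (MulAut.conj g⁻¹).toMonoidHom = MonoidHom.id G := by
      ext x; simp [hf, mul_assoc]
    rw [this, map_id]
  have hback' : ∀ X : Subgroup G, (X.map f).map (MulAut.conj g⁻¹).toMonoidHom = X := by
    intro X
    rw [map_map]
    have : (MulAut.conj g⁻¹).toMonoidHom.comp f = MonoidHom.id G := by
      ext x; simp [hf, mul_assoc]
    rw [this, map_id]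
  have hS2 : ∀ X : Subgroup G, Q' ≤ X → IsPGroup p X → X ≤ C → X = Q' := by
    intro X h1 h2 h3
    have h4 : Q ≤ X.map f := by rw [← hback Q]; exact map_mono h1
    have h5 := (hmain (X.map f) h4 (h2.map f) (Or.inr (map_mono h3))).resolve_right hg
    rw [hQ', ← h5, hback']
  -- as Sylow subgroups of `C`
  have mk : ∀ Y : Subgroup G, Y ≤ C → IsPGroup p Y →
      (∀ X : Subgroup G, Y ≤ X → IsPGroup p X → X ≤ C → X = Y) →
      ∃ P : Sylow p C, (P : Subgroup C).map C.subtype = Y := by
    intro Y hYC hYp hY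
    refine ⟨⟨Y.subgroupOf C, ?_, ?_⟩, ?_⟩
    · exact hYp.comap_of_injective C.subtype C.subtype_injective
    · intro R hR hYR
      have h1 : R.map C.subtype = Y := by
        apply hY
        · intro y hy
          exact ⟨⟨y, hYC hy⟩, hYR (mem_subgroupOf.2 hy), rfl⟩
        · exact hR.map _
        · exact map_subtype_le R
      have h2 : R = (R.map C.subtype).subgroupOf C := by
        rw [Subgroup.subgroupOf, comap_map_eq_self_of_injective C.subtype_injective]
      rw [h2, h1]
    · exact map_subgroupOf_eq_of_le hYC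
  obtain ⟨P1, hP1⟩ := mk Q hQC hQ hS1
  obtain ⟨P2, hP2⟩ := mk Q' hQ'C (hQ.map _) hS2
  obtain ⟨c, hc⟩ := MulAction.exists_smul_eq C P2 P1
  -- `c g⁻¹` normalizes `Q`
  have h6 : Q'.map (MulAut.conj (c : G)).toMonoidHom = Q := by
    rw [← hP1, ← hP2, ← hc, Sylow.coe_subgroup_smul]
    ext x
    constructor
    · rintro ⟨y, ⟨z, hz, rfl⟩, rfl⟩
      refine ⟨c * z * c⁻¹, ?_, by simp⟩
      exact ⟨z, hz, rfl⟩
    · rintro ⟨y, ⟨z, hz, rfl⟩, rfl⟩
      exact ⟨z, ⟨z, hz, rfl⟩, by simp⟩
  have h7 : (c : G) * g⁻¹ ∈ normalizer (Q : Set G) := by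
    have h8 : Q.map (MulAut.conj ((c : G) * g⁻¹)).toMonoidHom = Q := by
      have : (MulAut.conj ((c : G) * g⁻¹)).toMonoidHom =
          (MulAut.conj (c : G)).toMonoidHom.comp (MulAut.conj g⁻¹).toMonoidHom := by
        ext x; simp [mul_assoc]
      rw [this, ← map_map, ← hQ', h6]
    rw [mem_normalizer_iff]
    intro y
    constructor
    · intro hy
      rw [← h8]
      exact ⟨y, hy, by simp [mul_assoc]⟩
    · intro hy
      rw [← h8] at hy
      obtain ⟨z, hz, hzy⟩ := hy
      have : z = y := by
        have h9 : (c : G) * g⁻¹ * z * ((c : G) * g⁻¹)⁻¹ = (c : G) * g⁻¹ * y * ((c : G) * g⁻¹)⁻¹ := by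
          simpa [mul_assoc] using hzy
        exact mul_left_cancel (mul_right_cancel h9)
      rw [← this]; exact hz
  have h10 : (c : G) * g⁻¹ ∈ C := hN1 h7
  have h11 : g⁻¹ ∈ C := by
    have := C.mul_mem (C.inv_mem c.2) h10
    simpa using this
  exact hg (by simpa using C.inv_mem h11)

theorem aux (n : ℕ) : ∀ (G : Type u) [Group G] [Finite G], Nat.card G = n →
    ∀ A : Subgroup G, Group.IsSolvable A → CentralHyp A → A ≤ center G := by
  induction n using Nat.strong_induction_on with
  | _ n ih =>
  intro G _ _ hn A hA h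
  by_contra hcon
  set C : Subgroup G := centralizer (A : Set G) with hCdef
  -- proper subgroups containing `A` lie in `C`
  have hsub : ∀ H : Subgroup G, A ≤ H → H ≠ ⊤ → H ≤ C := by
    intro H hAH hH
    have h1 : Nat.card H < n := by
      rw [← hn]
      exact lt_of_le_of_ne (card_le_card_group H) (fun h0 => hH (eq_top_of_card_eq H h0))
    have h2 : Group.IsSolvable (A.subgroupOf H) :=
      Group.isSolvable_of_isSolvable_injective
        (f := (subgroupOfEquivOfLe hAH).toMonoidHom) (subgroupOfEquivOfLe hAH).injective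
    have h3 := ih _ h1 H rfl (A.subgroupOf H) h2 (h.subgroupOf hAH)
    intro x hx
    rw [hCdef, mem_centralizer_iff]
    intro a ha
    have h4 := mem_center_iff.1 (h3 (mem_subgroupOf.2 ha : (⟨a, hAH ha⟩ : H) ∈ _)) ⟨x, hx⟩
    exact (congrArg Subtype.val h4).symm
  -- no normal solvable subgroup
  have hnorm : ∀ N : Subgroup G, N.Normal → Group.IsSolvable N → N = ⊥ := by
    intro N hN hNs
    by_contra hN1
    have h1 : Nat.card (G ⧸ N) < n := by
      rw [← hn, card_eq_card_quotient_mul_card_subgroup N]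
      have h2 : 1 < Nat.card N := (one_lt_card_iff_ne_bot N).2 hN1
      have h3 : 0 < Nat.card (G ⧸ N) := Nat.card_pos
      nlinarith
    exact hcon (central_of_quot hA h hNs
      (ih _ h1 (G ⧸ N) rfl _ (isSolvable_map hA _) (h.quot hNs)))
  have hAC : A ≤ C := by
    intro x hx
    rw [hCdef, mem_centralizer_iff]
    intro a ha
    exact h A le_rfl hA a ha x hx
  have hA1 : A ≠ ⊥ := by
    rintro rfl
    exact hcon bot_le
  have hCtop : C ≠ ⊤ := by
    intro h0
    apply hcon
    intro a ha
    rw [mem_center_iff]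
    intro g
    have : g ∈ C := by rw [h0]; trivial
    exact ((mem_centralizer_iff.1 this) a ha).symm
  -- normalizers of `p`-subgroups
  have hnz : ∀ p : ℕ, p.Prime → ∀ Q : Subgroup G, Q ≤ C → Q ≠ ⊥ → IsPGroup p Q →
      normalizer (Q : Set G) ≤ C := by
    intro p hp Q hQC hQ1 hQ
    have : Fact p.Prime := ⟨hp⟩
    apply hsub
    · intro a ha
      have h1 : a ∈ centralizer (Q : Set G) := by
        rw [mem_centralizer_iff]
        intro q hq
        exact ((mem_centralizer_iff.1 (hQC hq)) a ha).symm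
      exact centralizer_le_normalizer _ h1
    · intro h0
      have hQn : Q.Normal := normalizer_eq_top_iff.1 h0
      have hnil : Group.IsNilpotent Q := hQ.isNilpotent
      exact hQ1 (hnorm Q hQn inferInstance)
  -- Frobenius complement
  have hFC : Cfsg.IsFrobeniusComplement C := by
    refine ⟨fun h0 => hA1 (eq_bot_iff.2 (h0 ▸ hAC)), hCtop, ?_⟩
    intro g hg
    by_contra h0
    have h1 : Nat.card ↥(C ⊓ (MulAut.conj g • C)) ≠ 1 := by
      intro h2; exact h0 (eq_bot_of_card_eq _ h2)
    obtain ⟨p, hp, hpd⟩ := Nat.exists_prime_and_dvd h1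
    have : Fact p.Prime := ⟨hp⟩
    obtain ⟨x, hx⟩ := exists_prime_orderOf_dvd_card' p hpd
    have hxC : (x : G) ∈ C := x.2.1
    have hxg : (x : G) ∈ C.map (MulAut.conj g).toMonoidHom := x.2.2
    have hox : orderOf (x : G) = p := by rw [orderOf_coe, hx]
    apply hg
    refine malnormal_of_normalizers (p := p) (hnz p hp) (Q := zpowers (x : G)) ?_ ?_ ?_ ?_
    · apply IsPGroup.of_card (n := 1)
      rw [Nat.card_zpowers, hox, pow_one]
    · intro h2
      rw [zpowers_eq_bot] at h2
      rw [h2, orderOf_one] at hox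
      exact hp.one_lt.ne hox
    · rwa [zpowers_le]
    · rwa [zpowers_le]
  obtain ⟨N, -, hNn, hcompl⟩ := Cfsg.Agent.Solvable.FrobeniusTheorem.frobenius hFC
  obtain ⟨V, hVN, hV1, hVc, hCV⟩ :=
    Cfsg.Agent.Solvable.FrobeniusInvariant.exists_abelian_normalized C N hFC hcompl
  have hVs : Group.IsSolvable V := Group.isSolvable_of_comm (fun a b => Subtype.ext (hVc a a.2 b b.2))
  -- `A V` is solvable
  have hAV : Group.IsSolvable ↥(A ⊔ V) := by
    have hle : A ⊔ V ≤ normalizer (V : Set G) := sup_le (hAC.trans hCV) le_normalizer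
    have h1 : (V.subgroupOf (normalizer (V : Set G))).Normal := inferInstance
    have h2 : Group.IsSolvable (V.subgroupOf (normalizer (V : Set G))) :=
      Group.isSolvable_of_isSolvable_injective
        (f := (subgroupOfEquivOfLe (le_normalizer (H := V))).toMonoidHom)
        (subgroupOfEquivOfLe le_normalizer).injective
    have h3 : Group.IsSolvable (A.subgroupOf (normalizer (V : Set G))) :=
      Group.isSolvable_of_isSolvable_injective
        (f := (subgroupOfEquivOfLe (hAC.trans hCV)).toMonoidHom)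
        (subgroupOfEquivOfLe (hAC.trans hCV)).injective
    have h4 := isSolvable_sup_of_normal h3 h2
    have h5 := isSolvable_map h4 (normalizer (V : Set G)).subtype
    rwa [Subgroup.map_sup, map_subgroupOf_eq_of_le (hAC.trans hCV),
      map_subgroupOf_eq_of_le le_normalizer] at h5
  have hVC : V ≤ C := by
    intro v hv
    rw [hCdef, mem_centralizer_iff]
    intro a ha
    exact h (A ⊔ V) le_sup_left hAV a ha v ((le_sup_right : V ≤ A ⊔ V) hv)
  have h8 := hcompl.disjoint
  exact hV1 (eq_bot_iff.2 (h8 hVN hVC))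

/-- Let A be a solvable subgroup of a finite group G such that A lies in the centre of every solvable subgroup of G containing A. Then A lies in the centre of G. -/
theorem result {G : Type*} [Group G] [Finite G]
    (A : Subgroup G) (hA : Group.IsSolvable A)
    (hc : ∀ S : Subgroup G, A ≤ S → Group.IsSolvable S → ∀ a ∈ A, ∀ s ∈ S, a * s = s * a) : A ≤ Subgroup.center G :=
  aux _ G rfl A hA hc

end Cfsg.Agent.S4097
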