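import Cfsg.Statements.S4098
import Cfsg.Agent.S0000
import Cfsg.Agent.H517.Main98

set_option autoImplicit false
open Cfsg

namespace Cfsg.Agent.S4098

/-- Let S be a finite non-abelian simple group in which the centralizer of every involution is solvable. Then S is isomorphic to one of: the Mathieu groups M₁₁ or M₂₂; an alternating group of degree between 5 and 8; PSL₂(q) for a prime power q ≥ 4; PSL₃(q) for q a power of 2; PSU₃(q) for q a power of 2; PSL₃(3); PSp₄(3); PSU₃(3); PSU₄(2); PSU₄(3); PSU₅(2); G₂(3); a Suzuki group; or S is simple of order 17971200 (the order of the Tits group). -/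
theorem result {S : Type} [Group S] [Finite S] [IsSimpleGroup S]
    (hna : ¬ IsMulCommutative S) (h : ∀ t : S, t ≠ 1 → t * t = 1 → Group.IsSolvable (Subgroup.centralizer ({t} : Set S))) :
    Nonempty (S ≃* Cfsg.Spor.M11) ∨ Nonempty (S ≃* Cfsg.Spor.M22) ∨
    (∃ n : ℕ, 5 ≤ n ∧ n ≤ 8 ∧ Nonempty (S ≃* alternatingGroup (Fin n))) ∨
    (∃ (F : Type) (_ : Field F) (_ : Fintype F), 4 ≤ Fintype.card F ∧
        Nonempty (S ≃* Matrix.ProjectiveSpecialLinearGroup (Fin 2) F)) ∨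
    (∃ (F : Type) (_ : Field F) (_ : Fintype F), ringChar F = 2 ∧
        Nonempty (S ≃* Matrix.ProjectiveSpecialLinearGroup (Fin 3) F)) ∨
    (∃ (F : Type) (_ : Field F) (_ : Fintype F) (f : ℕ), Fintype.card F = (2 ^ f) ^ 2 ∧
        Nonempty (S ≃* Cfsg.PSU 3 F (2 ^ f))) ∨
    Nonempty (S ≃* Matrix.ProjectiveSpecialLinearGroup (Fin 3) (ZMod 3)) ∨
    Nonempty (S ≃* Cfsg.PSp 2 (ZMod 3)) ∨
    (∃ (F : Type) (_ : Field F) (_ : Fintype F), Fintype.card F = 9 ∧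
        (Nonempty (S ≃* Cfsg.PSU 3 F 3) ∨ Nonempty (S ≃* Cfsg.PSU 4 F 3))) ∨
    (∃ (F : Type) (_ : Field F) (_ : Fintype F), Fintype.card F = 4 ∧
        (Nonempty (S ≃* Cfsg.PSU 4 F 2) ∨ Nonempty (S ≃* Cfsg.PSU 5 F 2))) ∨
    Nonempty (S ≃* Cfsg.Lie.G2 (ZMod 3)) ∨ Cfsg.Lie.IsoSuzuki S ∨ Cfsg.IsTits S := by
  rcases Cfsg.Agent.H517.Main98.main hna Cfsg.Agent.S0000.result with h1 | h1
  · exact (h1.not_all h).elim
  · rcases h1 with h1 | h1 | h1 | h1 | h1 | ⟨F, _, _, f, -, h1⟩ | h1 | h1 | h1 | h1 | h1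
    · exact Or.inl h1
    · exact Or.inr (Or.inl h1)
    · exact Or.inr (Or.inr (Or.inl h1))
    · exact Or.inr (Or.inr (Or.inr (Or.inl h1)))
    · exact Or.inr (Or.inr (Or.inr (Or.inr (Or.inl h1))))
    · exact Or.inr (Or.inr (Or.inr (Or.inr (Or.inr (Or.inl ⟨F, _, _, f, h1⟩)))))
    · exact Or.inr (Or.inr (Or.inr (Or.inr (Or.inr (Or.inr (Or.inl h1))))))
    · exact Or.inr (Or.inr (Or.inr (Or.inr (Or.inr (Or.inr (Or.inr (Or.inl h1)))))))
    · exact Or.inr (Or.inr (Or.inr (Or.inr (Or.inr (Or.inr (Or.inr (Or.inr (Or.inl h1))))))))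
    · exact Or.inr (Or.inr (Or.inr (Or.inr (Or.inr (Or.inr (Or.inr (Or.inr (Or.inr (Or.inl h1)))))))))
    · exact Or.inr (Or.inr (Or.inr (Or.inr (Or.inr (Or.inr (Or.inr (Or.inr (Or.inr (Or.inr h1)))))))))

end Cfsg.Agent.S4098
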