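import Cfsg.Statements.S4099
import Cfsg.Agent.S0000
import Cfsg.Agent.S0243
import Cfsg.Agent.S0249
import Cfsg.Agent.S0495
import Cfsg.Agent.H517.Main98
import Cfsg.Agent.H517.PsuThree

set_option autoImplicit false
open Cfsg

namespace Cfsg.Agent.S4099

open Subgroup Equiv Cfsg.Agent.H517

/-- an element of order 3 of `A₈` centralises an `A₅` -/
theorem nsx_eight : NSX (alternatingGroup (Fin 8)) := by
  let t : alternatingGroup (Fin 8) := ⟨swap 5 6 * swap 6 7, by rw [Equiv.Perm.mem_alternatingGroup]; decide⟩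
  let a : alternatingGroup (Fin 8) := ⟨swap 0 1 * swap 2 3, by rw [Equiv.Perm.mem_alternatingGroup]; decide⟩
  let b : alternatingGroup (Fin 8) := ⟨swap 0 2 * swap 2 4, by rw [Equiv.Perm.mem_alternatingGroup]; decide⟩
  have hta : a * t = t * a := by decide
  have htb : b * t = t * b := by decide
  have h := not_isSolvable_triangle (G := alternatingGroup (Fin 8)) (a := a) (b := b) (p := 2) (q := 3) (r := 5)
    (by decide) (by decide) (by decide) (by norm_num) (by norm_num) (by norm_num) (by decide)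
  have hle : closure ({a, b} : Set (alternatingGroup (Fin 8))) ≤ centralizer ({t} : Set _) := by
    rw [closure_le]
    rintro x (rfl | rfl)
    · exact mem_centralizer_singleton_iff.2 hta
    · exact mem_centralizer_singleton_iff.2 htb
  exact ⟨t, by decide, fun hs => h (isSolvable_mono hle hs)⟩

/-- `PSL₃(2) ≅ PSL₂(7)` -/
theorem psl_three_two {S : Type} [Group S] {F : Type} [Field F] [Fintype F] (hF : Fintype.card F = 2)
    (e : S ≃* Matrix.ProjectiveSpecialLinearGroup (Fin 3) F) :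
    Nonempty (S ≃* Matrix.ProjectiveSpecialLinearGroup (Fin 2) (ZMod 7)) := by
  have hs : IsSimpleGroup (Matrix.ProjectiveSpecialLinearGroup (Fin 3) F) := Cfsg.Agent.S0249.result 3 le_rfl
  have hc : Nat.card (Matrix.ProjectiveSpecialLinearGroup (Fin 3) F) = 168 := by
    have h1 := Cfsg.Agent.S0243.result hF 3 (by norm_num)
    rw [Fin.prod_univ_three] at h1
    simp at h1
    omega
  have hp : Fact (Nat.Prime 7) := ⟨by norm_num⟩
  obtain ⟨f⟩ := Cfsg.Agent.S0495.result hc (F := ZMod 7) (ZMod.card 7)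
  exact ⟨e.trans f⟩

/-- Let S be a finite non-abelian simple group in which the centralizer of every non-identity element is solvable. Then S is isomorphic to one of: an alternating group of degree 5, 6 or 7; PSL₂(q) for a prime power q ≥ 4; PSL₃(3); PSL₃(4); PSp₄(3); PSU₃(3); PSU₄(2); PSU₄(3); PSU₅(2); G₂(3); a Suzuki group; the Mathieu groups M₁₁ or M₂₂; or S is simple of order 17971200 (the order of the Tits group). -/
theorem result {S : Type} [Group S] [Finite S] [IsSimpleGroup S]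
    (hna : ¬ IsMulCommutative S) (h : ∀ x : S, x ≠ 1 → Group.IsSolvable (Subgroup.centralizer ({x} : Set S))) :
    (∃ n : ℕ, 5 ≤ n ∧ n ≤ 7 ∧ Nonempty (S ≃* alternatingGroup (Fin n))) ∨
    (∃ (F : Type) (_ : Field F) (_ : Fintype F), 4 ≤ Fintype.card F ∧
        Nonempty (S ≃* Matrix.ProjectiveSpecialLinearGroup (Fin 2) F)) ∨
    Nonempty (S ≃* Matrix.ProjectiveSpecialLinearGroup (Fin 3) (ZMod 3)) ∨
    (∃ (F : Type) (_ : Field F) (_ : Fintype F), Fintype.card F = 4 ∧
        (Nonempty (S ≃* Matrix.ProjectiveSpecialLinearGroup (Fin 3) F) ∨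
         Nonempty (S ≃* Cfsg.PSU 4 F 2) ∨ Nonempty (S ≃* Cfsg.PSU 5 F 2))) ∨
    Nonempty (S ≃* Cfsg.PSp 2 (ZMod 3)) ∨
    (∃ (F : Type) (_ : Field F) (_ : Fintype F), Fintype.card F = 9 ∧
        (Nonempty (S ≃* Cfsg.PSU 3 F 3) ∨ Nonempty (S ≃* Cfsg.PSU 4 F 3))) ∨
    Nonempty (S ≃* Cfsg.Lie.G2 (ZMod 3)) ∨ Cfsg.Lie.IsoSuzuki S ∨
    Nonempty (S ≃* Cfsg.Spor.M11) ∨ Nonempty (S ≃* Cfsg.Spor.M22) ∨ Cfsg.IsTits S := by
  rcases Cfsg.Agent.H517.Main98.main hna Cfsg.Agent.S0000.result with h1 | h1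
  · exact (h1.nsx.not_all h).elim
  rcases h1 with h1 | h1 | ⟨n, hn, hn', ⟨e⟩⟩ | h1 | ⟨F, _, _, hF, ⟨e⟩⟩ | ⟨F, _, _, f, hf, hF, ⟨e⟩⟩ | h1 | h1 | h1 | ⟨F, _, _, hF, h1⟩ |
    h1 | h1 | h1
  · exact Or.inr (Or.inr (Or.inr (Or.inr (Or.inr (Or.inr (Or.inr (Or.inr (Or.inl h1))))))))
  · exact Or.inr (Or.inr (Or.inr (Or.inr (Or.inr (Or.inr (Or.inr (Or.inr (Or.inr (Or.inl h1)))))))))
  · rcases Nat.lt_or_ge n 8 with h8 | h8
    · exact Or.inl ⟨n, hn, by omega, ⟨e⟩⟩
    · obtain rfl : n = 8 := by omega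
      exact ((nsx_eight.of_equiv e.symm).not_all h).elim
  · exact Or.inr (Or.inl h1)
  · have hc : CharP F 2 := ringChar.of_eq hF
    have h2 := Fintype.one_lt_card (α := F)
    rcases Nat.lt_or_ge (Fintype.card F) 5 with h5 | h5
    · obtain ⟨m, hm, hm'⟩ := FiniteField.card F 2
      have h3 : Fintype.card F = 2 ∨ Fintype.card F = 4 := by
        rw [hm'] at h2 h5 ⊢
        obtain ⟨m, hm0⟩ := m
        rcases m with _ | _ | _ | m
        · simp at hm0
        · simp
        · simp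
        · exfalso
          have h6 : 2 ^ 3 ≤ 2 ^ (m + 1 + 1 + 1) := Nat.pow_le_pow_right (by norm_num) (by omega)
          simp only [PNat.mk_coe] at h5
          omega
      rcases h3 with h3 | h3
      · obtain ⟨f⟩ := psl_three_two h3 e
        have hp : Fact (Nat.Prime 7) := ⟨by norm_num⟩
        exact Or.inr (Or.inl ⟨ZMod 7, inferInstance, inferInstance, by rw [ZMod.card]; norm_num, ⟨f⟩⟩)
      · exact Or.inr (Or.inr (Or.inr (Or.inl ⟨F, _, _, h3, Or.inl ⟨e⟩⟩)))
    · exact ((PslThree.nsx (by rw [Nat.card_eq_fintype_card]; exact h5) e).not_all h).elim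
  · have hc : CharP F 2 := by
      obtain ⟨p, hp⟩ := CharP.exists F
      have hpp : Fact p.Prime := ⟨(CharP.char_is_prime_or_zero F p).resolve_right (CharP.char_ne_zero_of_finite F p)⟩
      obtain ⟨m, hm, hm'⟩ := FiniteField.card F p
      have h2 : p ∣ Fintype.card F := by
        rw [hm']
        exact dvd_pow_self p m.ne_zero
      rw [hF, ← pow_mul] at h2
      have h3 : p = 2 := (Nat.prime_dvd_prime_iff_eq hpp.out Nat.prime_two).1 (hpp.out.dvd_of_dvd_pow h2)
      exact h3 ▸ hp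
    have hq : 4 ≤ 2 ^ f := le_trans (by norm_num) (Nat.pow_le_pow_right (by norm_num) hf : 2 ^ 2 ≤ 2 ^ f)
    exact (((PsuThree.nsx hF hq).of_equiv e.symm).not_all h).elim
  · exact Or.inr (Or.inr (Or.inl h1))
  · exact Or.inr (Or.inr (Or.inr (Or.inr (Or.inl h1))))
  · exact Or.inr (Or.inr (Or.inr (Or.inr (Or.inr (Or.inl h1)))))
  · exact Or.inr (Or.inr (Or.inr (Or.inl ⟨F, _, _, hF, Or.inr h1⟩)))
  · exact Or.inr (Or.inr (Or.inr (Or.inr (Or.inr (Or.inr (Or.inl h1))))))
  · exact Or.inr (Or.inr (Or.inr (Or.inr (Or.inr (Or.inr (Or.inr (Or.inl h1)))))))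
  · exact Or.inr (Or.inr (Or.inr (Or.inr (Or.inr (Or.inr (Or.inr (Or.inr (Or.inr (Or.inr h1)))))))))

end Cfsg.Agent.S4099
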