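import Cfsg.Statements.S4100
import Cfsg.Agent.H196.AltElt
import Cfsg.Agent.H196.Two
import Cfsg.Agent.H196.FiveB
-- import your own Cfsg.Agent.* helpers here

set_option autoImplicit false
open Cfsg

namespace Cfsg.Agent.S4100

open Subgroup Cfsg.Agent.H196.GA Cfsg.Agent.H196.AltElt Cfsg.Agent.H196.AltLift

universe u

/-- the hypothesis passes to centralizers in subgroups -/
theorem cent_sub {G : Type u} [Group G] {L : Type u} [Group L] (ι : L →* G) (hι : Function.Injective ι) (x : L)
    (h : Group.IsSolvable (centralizer ({ι x} : Set G))) : Group.IsSolvable (centralizer ({x} : Set L)) := by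
  refine Group.isSolvable_of_isSolvable_injective
    (f := (ι.comp (centralizer ({x} : Set L)).subtype).codRestrict (centralizer ({ι x} : Set G)) fun z => ?_) ?_
  · rw [mem_centralizer_singleton_iff]
    show ι z * ι x = ι x * ι z
    rw [← map_mul, ← map_mul, mem_centralizer_singleton_iff.1 z.2]
  · intro a b hab
    have hab' := congrArg Subtype.val hab
    exact Subtype.ext (hι hab')

theorem exists_orderOf {S : Type*} [Group S] {p : ℕ} (hp : p.Prime) {c : S} (hc : c ^ p = 1) :
    ∃ k, orderOf c = p ^ k := by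
  rcases (Nat.dvd_prime hp).1 (orderOf_dvd_of_pow_eq_one hc) with h | h
  · exact ⟨0, by rw [h, pow_zero]⟩
  · exact ⟨1, by rw [h, pow_one]⟩

/-- the cases `p = 2` and `p = 5` -/
theorem small {G : Type u} [Group G] [Finite G] (p : ℕ) [hp : Fact p.Prime]
    (h : ∀ x : G, x ∉ Subgroup.center G → (∃ k : ℕ, orderOf x = p ^ k) →
      Group.IsSolvable (Subgroup.centralizer ({x} : Set G))) (q : ℕ) (hq : 3 ≤ q) (hqp : q ∣ 2 * p)
    (hmod : ∀ (V : Type u) [AddCommGroup V] [DistribMulAction (Equiv.Perm (Fin (q + 5))) V],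
      (∀ v : V, p • v = 0) → NF (q + 5) V → ∀ v : V, v = 0)
    {L : Type u} [Group L] [Finite L] (ι : L →* G) (hι : Function.Injective ι)
    (ψ : L →* alternatingGroup (Fin (q + 5))) (hψ : Function.Surjective ψ) : False := by
  obtain ⟨c, D, hc1, hcp, hD, hDs, -⟩ := exists_elt q p hq hqp
  have hcen : center (alternatingGroup (Fin (q + 5))) = ⊥ := alternatingGroup.center_eq_bot (by
    rw [Nat.card_eq_fintype_card, Fintype.card_fin]; omega)
  have hinj : ∀ z : L, ι z ∈ center G → z ∈ center L := by
    intro z hz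
    rw [mem_center_iff]
    intro g
    apply hι
    rw [map_mul, map_mul, mem_center_iff.1 hz]
  refine Cfsg.Agent.H196.AltMain.main hmod c (by rw [hcen, mem_bot]; exact hc1) ?_ D hD hDs (Nat.card L) L rfl
    ((center G).comap ι) (fun z hz => hinj z hz) ?_ ψ hψ
  · exact exists_orderOf hp.out hcp
  · rintro x ⟨k, hk⟩ hx
    exact cent_sub ι hι x (h (ι x) hx ⟨k, by rw [orderOf_injective ι hι, hk]⟩)

/-- the case `p ≥ 7` -/
theorem large {G : Type u} [Group G] [Finite G] (p : ℕ) [hp : Fact p.Prime] (hp7 : ¬ p ∣ 120) (hp3 : 3 ≤ p)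
    (h : ∀ x : G, x ∉ Subgroup.center G → (∃ k : ℕ, orderOf x = p ^ k) →
      Group.IsSolvable (Subgroup.centralizer ({x} : Set G)))
    {L : Type u} [Group L] [Finite L] (ι : L →* G) (hι : Function.Injective ι)
    (ψ : L →* alternatingGroup (Fin (p + 5))) (hψ : Function.Surjective ψ) : False := by
  obtain ⟨c, D, hc1, hcp, hD, hDs, hDc⟩ := exists_elt p p hp3 (Dvd.intro_left 2 rfl)
  have hcen : center (alternatingGroup (Fin (p + 5))) = ⊥ := alternatingGroup.center_eq_bot (by
    rw [Nat.card_eq_fintype_card, Fintype.card_fin]; omega)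
  obtain ⟨y, hy, ⟨k, hk⟩, hys⟩ := lift_coprime (φ := ψ) (c := c) (D := D) (p := p) hψ
    (exists_orderOf hp.out hcp) hD hDs (fun h' => hp7 (h'.trans hDc))
  refine hys (cent_sub ι hι y (h (ι y) (fun hyc => hc1 ?_) ⟨k, by rw [orderOf_injective ι hι, hk]⟩))
  have h1 : c ∈ center (alternatingGroup (Fin (p + 5))) := by
    rw [mem_center_iff]
    intro g
    obtain ⟨x, rfl⟩ := hψ g
    rw [← hy, ← map_mul, ← map_mul]
    congr 1
    apply hι
    rw [map_mul, map_mul, mem_center_iff.1 hyc]
  rwa [hcen, mem_bot] at h1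

/-- Let G be a finite group and p a prime other than 3 such that the centralizer of every non-central element of p-power order is solvable. Then every alternating group of degree at least 5 involved in G (as a section) has degree at most p + 4, or at most p + 6 = 8 when p = 2. -/
theorem result {G : Type*} [Group G] [Finite G] (p : ℕ) [Fact p.Prime] (hp3 : p ≠ 3)
    (h : ∀ x : G, x ∉ Subgroup.center G → (∃ k : ℕ, orderOf x = p ^ k) → Group.IsSolvable (Subgroup.centralizer ({x} : Set G)))
    (d : ℕ) (hd : 5 ≤ d) (hinv : Cfsg.Involves (alternatingGroup (Fin d)) G) :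
    d ≤ p + 4 + (if p = 2 then 2 else 0) := by
  by_contra hlt
  rw [not_le] at hlt
  have hp : p.Prime := Fact.out
  obtain ⟨K, R, hn, ⟨e⟩⟩ := hinv
  let φ : K →* alternatingGroup (Fin d) := e.toMonoidHom.comp (QuotientGroup.mk' (R.subgroupOf K))
  have hφ : Function.Surjective φ := e.surjective.comp (QuotientGroup.mk'_surjective _)
  by_cases h2 : p = 2
  · subst h2
    rw [if_pos rfl] at hlt
    obtain ⟨L, ψ, hψ⟩ := exists_section φ hφ (m := 4 + 5) (by omega)
    exact small 2 h 4 (by norm_num) (by norm_num)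
      (fun V _ _ hV hNF v => Cfsg.Agent.H196.Two.two hV hNF v)
      (K.subtype.comp L.subtype) (K.subtype_injective.comp L.subtype_injective) ψ hψ
  · rw [if_neg h2] at hlt
    obtain ⟨L, ψ, hψ⟩ := exists_section φ hφ (m := p + 5) (by omega)
    by_cases h5 : p = 5
    · subst h5
      exact small 5 h 5 (by norm_num) (by norm_num)
        (fun V _ _ hV hNF v => Cfsg.Agent.H196.Five.five hV hNF v)
        (K.subtype.comp L.subtype) (K.subtype_injective.comp L.subtype_injective) ψ hψ
    · have h1 := hp.two_le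
      refine large p (fun hdvd => ?_) (by omega) h (K.subtype.comp L.subtype)
        (K.subtype_injective.comp L.subtype_injective) ψ hψ
      have h120 : (120 : ℕ) = 2 ^ 3 * (3 * 5) := by norm_num
      rw [h120, hp.dvd_mul, hp.dvd_mul] at hdvd
      rcases hdvd with hdvd | hdvd | hdvd
      · exact h2 ((Nat.prime_dvd_prime_iff_eq hp Nat.prime_two).1 (hp.dvd_of_dvd_pow hdvd))
      · exact hp3 ((Nat.prime_dvd_prime_iff_eq hp Nat.prime_three).1 hdvd)
      · exact h5 ((Nat.prime_dvd_prime_iff_eq hp Nat.prime_five).1 hdvd)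

end Cfsg.Agent.S4100
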