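import Cfsg.Statements.S4103
import Cfsg.Agent.Classification.MinSimpleStrong
import Cfsg.Agent.H181.TwoConjPSL
import Cfsg.Agent.H181.TwoConjThree

set_option autoImplicit false
open Cfsg

namespace Cfsg.Agent.S4103

open Cfsg.Agent.H181

universe u

/-- The property of the statement. -/
def Pr (G : Type*) [Group G] : Prop :=
  ∀ x y : G, (∃ p k : ℕ, p.Prime ∧ p ≠ 2 ∧ orderOf x = p ^ k) → (∃ k : ℕ, orderOf y = 2 ^ k) →
      Group.IsSolvable (Subgroup.closure ({x, y * x * y⁻¹} : Set G))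

theorem map_pair {G G' : Type*} [Group G] [Group G'] (f : G →* G') (x y : G) :
    (Subgroup.closure ({x, y * x * y⁻¹} : Set G)).map f =
      Subgroup.closure ({f x, f y * f x * (f y)⁻¹} : Set G') := by
  rw [MonoidHom.map_closure, Set.image_pair, map_mul, map_mul, map_inv]

theorem Pr.of_injective {G G' : Type*} [Group G] [Group G'] (h : Pr G) {f : G' →* G}
    (hf : Function.Injective f) : Pr G' := by
  rintro x y ⟨p, k, hp, hp2, hx⟩ ⟨l, hy⟩
  have h1 := h (f x) (f y) ⟨p, k, hp, hp2, by rw [orderOf_injective f hf, hx]⟩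
    ⟨l, by rw [orderOf_injective f hf, hy]⟩
  rw [← map_pair] at h1
  let e := (Subgroup.closure ({x, y * x * y⁻¹} : Set G')).equivMapOfInjective f hf
  exact Group.isSolvable_of_isSolvable_injective (f := e.toMonoidHom) e.injective

/-- lifting elements of prime power order -/
theorem exists_lift {G : Type*} [Group G] [Finite G] (N : Subgroup G) [N.Normal] {p k : ℕ} (hp : p.Prime)
    (x : G ⧸ N) (hx : orderOf x = p ^ k) : ∃ (z : G) (l : ℕ), (QuotientGroup.mk z : G ⧸ N) = x ∧
      orderOf z = p ^ l := by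
  obtain ⟨g, rfl⟩ := QuotientGroup.mk_surjective x
  have hg0 : orderOf g ≠ 0 := (orderOf_pos g).ne'
  obtain ⟨l, m, hm, hgm⟩ := Nat.exists_eq_pow_mul_and_not_dvd hg0 p hp.ne_one
  have hcop : Nat.Coprime m (p ^ (k + l)) := by
    refine (Nat.Coprime.pow_left _ ?_).symm
    exact (Nat.Prime.coprime_iff_not_dvd hp).2 hm
  obtain ⟨c, hc1, hc2⟩ := Nat.chineseRemainder hcop 0 1
  have hmc : m ∣ c := (Nat.modEq_zero_iff_dvd).1 hc1
  have hpow : (g ^ c) ^ (p ^ l) = 1 := by
    rw [← pow_mul]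
    refine orderOf_dvd_iff_pow_eq_one.1 ?_
    rw [hgm, mul_comm c]
    exact Nat.mul_dvd_mul_left _ hmc
  obtain ⟨j, -, hj⟩ := (Nat.dvd_prime_pow hp).1 (orderOf_dvd_of_pow_eq_one hpow)
  refine ⟨g ^ c, j, ?_, hj⟩
  have h1 : (QuotientGroup.mk (g ^ c) : G ⧸ N) = (QuotientGroup.mk g : G ⧸ N) ^ c := rfl
  rw [h1]
  have h2 : c ≡ 1 [MOD orderOf (QuotientGroup.mk g : G ⧸ N)] := by
    rw [hx]
    exact hc2.of_dvd (pow_dvd_pow p (Nat.le_add_right k l))
  rw [pow_eq_pow_iff_modEq.2 h2, pow_one]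

theorem Pr.quotient {G : Type*} [Group G] [Finite G] (h : Pr G) (N : Subgroup G) [N.Normal] :
    Pr (G ⧸ N) := by
  rintro x y ⟨p, k, hp, hp2, hx⟩ ⟨l, hy⟩
  obtain ⟨x', k', hx', hxo⟩ := exists_lift N hp x hx
  obtain ⟨y', l', hy', hyo⟩ := exists_lift N Nat.prime_two y hy
  have h1 := h x' y' ⟨p, k', hp, hp2, hxo⟩ ⟨l', hyo⟩
  have h2 := map_pair (QuotientGroup.mk' N) x' y'
  have ex : QuotientGroup.mk' N x' = x := hx'
  have ey : QuotientGroup.mk' N y' = y := hy'
  rw [ex, ey] at h2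
  rw [← h2]
  exact Group.isSolvable_of_surjective
    (f := (QuotientGroup.mk' N).subgroupMap (Subgroup.closure ({x', y' * x' * y'⁻¹} : Set G)))
    ((QuotientGroup.mk' N).subgroupMap_surjective _)

theorem not_pr_of {G : Type*} [Group G] (h : ∃ (x y : G) (r : ℕ), r.Prime ∧ r ≠ 2 ∧ orderOf x = r ∧
      y ^ 2 = 1 ∧ ¬ Group.IsSolvable (Subgroup.closure ({x, y * x * y⁻¹} : Set G))) : ¬ Pr G := by
  obtain ⟨x, y, r, hr, hr2, hx, hy, hn⟩ := h
  intro hP
  obtain ⟨j, -, hj⟩ := (Nat.dvd_prime_pow Nat.prime_two (m := 1)).1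
    (orderOf_dvd_of_pow_eq_one (by rw [pow_one]; exact hy) : orderOf y ∣ 2 ^ 1)
  exact hn (hP x y ⟨r, 1, hr, hr2, by rw [pow_one]; exact hx⟩ ⟨j, hj⟩)

theorem not_pr {G : Type u} [Group G] [Finite G] (hG : Cfsg.IsMinimalSimple G) : ¬ Pr G := by
  rcases Cfsg.Agent.Classification.MinSimpleStrong.concl hG with
      ⟨p, hp, F, _, _, hF, ⟨e⟩⟩ | ⟨p, hp, hp2, F, _, _, hF, ⟨e⟩⟩ | ⟨p, hp, h5, F, _, _, hF, ⟨e⟩⟩ |
      ⟨F, _, _, hF, ⟨e⟩⟩ | ⟨F, _, _, m, hm, -, hF, ⟨e⟩⟩
  · intro hP
    exact not_pr_of (TwoConj.psl_two hp hF) (hP.of_injective (f := e.symm.toMonoidHom) e.symm.injective)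
  · intro hP
    exact not_pr_of (TwoConj.psl_three_pow hp hp2 hF)
      (hP.of_injective (f := e.symm.toMonoidHom) e.symm.injective)
  · intro hP
    exact not_pr_of (TwoConj.psl_prime hp (by omega) hF)
      (hP.of_injective (f := e.symm.toMonoidHom) e.symm.injective)
  · intro hP
    exact not_pr_of (TwoConjThree.psl_three hF)
      (hP.of_injective (f := e.symm.toMonoidHom) e.symm.injective)
  · intro hP
    exact not_pr_of (TwoConj.suzuki hm hF)
      (hP.of_injective (f := e.symm.toMonoidHom) e.symm.injective)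

theorem solvable_of_pr : ∀ (n : ℕ) (G : Type u) [Group G] [Finite G], Nat.card G = n → Pr G →
    Group.IsSolvable G := by
  intro n
  induction n using Nat.strong_induction_on with
  | _ n ih =>
  intro G _ _ hn hP
  by_contra hns
  -- proper subgroups are solvable
  have hsubs : ∀ K : Subgroup G, K ≠ ⊤ → Group.IsSolvable K := by
    intro K hK
    refine ih _ ?_ K rfl (hP.of_injective (f := K.subtype) K.subtype_injective)
    rw [← hn]
    exact lt_of_le_of_ne (Subgroup.card_le_card_group K)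
      (fun h => hK (Subgroup.eq_top_of_card_eq K h))
  have hnt : Nontrivial G := by
    by_contra h
    rw [not_nontrivial_iff_subsingleton] at h
    exact hns inferInstance
  have hsimple : IsSimpleGroup G := by
    refine ⟨fun N hN => ?_⟩
    by_contra hcon
    push Not at hcon
    have h1 := hsubs N hcon.2
    have h2 : Group.IsSolvable (G ⧸ N) := by
      refine ih _ ?_ (G ⧸ N) rfl (hP.quotient N)
      rw [← hn, Subgroup.card_eq_card_quotient_mul_card_subgroup N]
      have h3 : 1 < Nat.card N := by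
        have : Nontrivial N := (Subgroup.nontrivial_iff_ne_bot N).2 hcon.1
        exact Finite.one_lt_card
      have h4 : 0 < Nat.card (G ⧸ N) := Nat.card_pos
      nlinarith
    exact hns (Group.isSolvable_of_ker_le_range N.subtype (QuotientGroup.mk' N)
      (by rw [QuotientGroup.ker_mk', Subgroup.range_subtype]))
  refine not_pr ⟨hsimple, ?_, hsubs⟩ hP
  intro hc
  apply hns
  exact Group.isSolvable_of_comm fun a b => hc.is_comm.comm a b


/-- A finite group G is solvable if and only if for every x ∈ G of odd prime-power order and every y ∈ G of 2-power order the subgroup generated by x and yxy⁻¹ is solvable. -/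
theorem result {G : Type*} [Group G] [Finite G] :
    Group.IsSolvable G ↔ ∀ x y : G, (∃ p k : ℕ, p.Prime ∧ p ≠ 2 ∧ orderOf x = p ^ k) → (∃ k : ℕ, orderOf y = 2 ^ k) →
      Group.IsSolvable (Subgroup.closure ({x, y * x * y⁻¹} : Set G)) := by
  constructor
  · intro h x y _ _
    infer_instance
  · intro h
    exact solvable_of_pr _ G rfl h

end Cfsg.Agent.S4103
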