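import Cfsg.Statements.S4104
import Cfsg.Agent.H518.PiFinal

set_option autoImplicit false
open Cfsg

namespace Cfsg.Agent.S4104

/-- Let G be a finite group, π a set of primes with least member p, m the π-part of the order of G and k the number of conjugacy classes of G consisting of π-elements (elements whose order is divisible only by primes in π). If k > m/p, then G has a nilpotent Hall π-subgroup (a nilpotent subgroup of order m) whose derived subgroup has order at most p. -/
theorem result {G : Type*} [Group G] [Finite G]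
    (π : Set ℕ) (hπ : ∀ q ∈ π, q.Prime) (p : ℕ) (hp : p ∈ π) (hmin : ∀ q ∈ π, p ≤ q)
    (m : ℕ) (hm : m ∣ Nat.card G) (hmπ : ∀ q : ℕ, q.Prime → q ∣ m → q ∈ π)
    (hm' : ∀ q ∈ π, ¬ q ∣ Nat.card G / m)
    (k : ℕ) (hk : k = Nat.card {C : ConjClasses G // ∀ q : ℕ, q.Prime → (∃ g : G, ConjClasses.mk g = C ∧ q ∣ orderOf g) → q ∈ π})
    (hmany : m < p * k) :
    ∃ H : Subgroup G, Nat.card H = m ∧ Group.IsNilpotent H ∧ Nat.card (commutator H) ≤ p := by
  classical
  obtain ⟨hpart, hle⟩ := Cfsg.Agent.H518.PiFinal.card_classes_le π m hm hmπ hm'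
  have hG : Nat.card G ≠ 0 := Nat.card_pos.ne'
  have hm0 : m ≠ 0 := fun h => by rw [h, zero_dvd_iff] at hm; exact hG hm
  have hs : ∀ q ∈ m.primeFactors, q.Prime := fun q hq => Nat.prime_of_mem_primeFactors hq
  have hpm : ∀ q ∈ m.primeFactors, p ≤ q := fun q hq =>
    hmin q (hmπ q (hs q hq) (Nat.dvd_of_mem_primeFactors hq))
  rw [← hk] at hle
  by_cases hA : ∃ A : Subgroup G, Cfsg.Agent.H518.PiHall.NilHall m.primeFactors A
  · obtain ⟨A, hA⟩ := hA
    refine ⟨A, by rw [hA.card, ← hpart], hA.nil, ?_⟩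
    by_contra hcon
    push Not at hcon
    have h1 := Cfsg.Agent.H518.PiFinal.mul_card_conjClasses_le (H := A) (p := p) (hπ p hp).two_le
      (fun q hq hqd => hpm q (hA.mem_of_dvd hs hq hqd)) hcon
    have h2 := Cfsg.Agent.H518.PiCount.kc_le_card_conjClasses A (hA.cov hs)
    rw [hA.card, ← hpart] at h1
    have h3 : p * k ≤ m := (Nat.mul_le_mul_left p (hle.trans h2)).trans h1
    omega
  · exfalso
    have h1 := Cfsg.Agent.H518.PiMain.main m.primeFactors hs G hA p hpm
    rw [← hpart] at h1
    have h3 : p * k ≤ m := (Nat.mul_le_mul_left p hle).trans h1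
    omega

end Cfsg.Agent.S4104
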