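import Cfsg.Statements.S4108
import Mathlib

set_option autoImplicit false
open Cfsg

namespace Cfsg.Agent.S4108

open scoped Pointwise

theorem frob_of_free {G : Type*} [Group G] [Finite G] (N H : Subgroup G) [N.Normal] (hN1 : N ≠ ⊥)
    (hH : H ≠ ⊥) (hdis : ∀ x ∈ N, x ∈ H → x = 1)
    (hfree : ∀ h ∈ H, h ≠ 1 → ∀ n ∈ N, n * h = h * n → n = 1) :
    Cfsg.IsFrobeniusComplement (H.subgroupOf (N ⊔ H)) ∧
      Cfsg.frobeniusKernel (H.subgroupOf (N ⊔ H)) = (N.subgroupOf (N ⊔ H) : Set ↥(N ⊔ H)) := by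
  have hdecomp : ∀ x ∈ N ⊔ H, ∃ n ∈ N, ∃ h ∈ H, n * h = x := by
    intro x hx
    have : x ∈ ((N ⊔ H : Subgroup G) : Set G) := hx
    rw [Subgroup.normal_mul] at this
    obtain ⟨n, hn, h, hh, e⟩ := this
    exact ⟨n, hn, h, hh, e⟩
  refine ⟨⟨?_, ?_, ?_⟩, ?_⟩
  · intro h
    apply hH
    rw [Subgroup.subgroupOf_eq_bot] at h
    have := h le_rfl (le_sup_right : H ≤ N ⊔ H)
    exact le_bot_iff.1 this
  · intro h
    rw [Subgroup.subgroupOf_eq_top] at h
    apply hN1
    rw [Subgroup.eq_bot_iff_forall]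
    intro x hx
    exact hdis x hx (h (Subgroup.mem_sup_left hx))
  · rintro ⟨g, hg⟩ hgH
    rw [Subgroup.mem_subgroupOf] at hgH
    simp only at hgH
    rw [Subgroup.eq_bot_iff_forall]
    rintro ⟨z, hzX⟩ ⟨hz1, hz2⟩
    have hz1 : z ∈ H := hz1
    have hz2 : (⟨z, hzX⟩ : ↥(N ⊔ H)) ∈ (MulAut.conj (⟨g, hg⟩ : ↥(N ⊔ H)) • H.subgroupOf (N ⊔ H)) := hz2
    rw [Subgroup.mem_pointwise_smul_iff_inv_smul_mem] at hz2
    have hz2 : g⁻¹ * z * g ∈ H := by
      have : (⟨g, hg⟩ : ↥(N ⊔ H))⁻¹ * ⟨z, hzX⟩ * ⟨g, hg⟩ ∈ H.subgroupOf (N ⊔ H) := by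
        simpa [MulAut.smul_def, ← map_inv] using hz2
      simpa [Subgroup.mem_subgroupOf] using this
    apply Subtype.ext
    show z = 1
    by_contra hz
    obtain ⟨n, hn, h, hh, rfl⟩ := hdecomp g hg
    -- z' = n⁻¹ z n ∈ H
    have hz3 : n⁻¹ * z * n ∈ H := by
      have := H.mul_mem (H.mul_mem hh hz2) (H.inv_mem hh)
      have e : h * ((n * h)⁻¹ * z * (n * h)) * h⁻¹ = n⁻¹ * z * n := by group
      rwa [e] at this
    have h4 : z⁻¹ * (n⁻¹ * z * n) = 1 := by
      apply hdis
      · have h5 : z⁻¹ * n⁻¹ * z ∈ N := by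
          have := Subgroup.Normal.conj_mem (‹N.Normal›) n⁻¹ (N.inv_mem hn) z⁻¹
          simpa using this
        have := N.mul_mem h5 hn
        have e : z⁻¹ * n⁻¹ * z * n = z⁻¹ * (n⁻¹ * z * n) := by group
        rwa [e] at this
      · exact H.mul_mem (H.inv_mem hz1) hz3
    have h5 : n * z = z * n := by
      have : n⁻¹ * z * n = z := by
        have := congrArg (fun t => z * t) h4
        simpa using this
      calc n * z = n * (n⁻¹ * z * n) := by rw [this]
        _ = z * n := by group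
    have := hfree z hz1 hz n hn h5
    apply hgH
    rw [this, one_mul]
    exact hh
  · ext ⟨x, hx⟩
    rw [SetLike.mem_coe, Subgroup.mem_subgroupOf]
    constructor
    · rintro (h | h)
      · have : x = 1 := congrArg Subtype.val h
        simp only
        rw [this]; exact N.one_mem
      · simp only
        by_contra hxN
        obtain ⟨n, hn, y, hy, rfl⟩ := hdecomp x hx
        have hy1 : y ≠ 1 := by
          rintro rfl
          exact hxN (by simpa using hn)
        let f : N → N := fun m => ⟨(m : G) * (y * (m : G)⁻¹ * y⁻¹), N.mul_mem m.2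
          (Subgroup.Normal.conj_mem (‹N.Normal›) _ (N.inv_mem m.2) y)⟩
        have hinj : Function.Injective f := by
          intro a b hab
          have hab' : (a : G) * (y * (a : G)⁻¹ * y⁻¹) = (b : G) * (y * (b : G)⁻¹ * y⁻¹) :=
            congrArg Subtype.val hab
          have e : ((b : G)⁻¹ * a) * y = y * ((b : G)⁻¹ * a) := by
            have h1 : (a : G) * y * (a : G)⁻¹ = (b : G) * y * (b : G)⁻¹ := by
              have := congrArg (fun t => t * y) hab'
              simpa [mul_assoc] using this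
            calc ((b : G)⁻¹ * a) * y = (b : G)⁻¹ * ((a : G) * y * (a : G)⁻¹) * a := by group
              _ = (b : G)⁻¹ * ((b : G) * y * (b : G)⁻¹) * a := by rw [h1]
              _ = y * ((b : G)⁻¹ * a) := by group
          have := hfree y hy hy1 _ (N.mul_mem (N.inv_mem b.2) a.2) e
          apply Subtype.ext
          exact (inv_mul_eq_one.1 this).symm
        have hsurj : Function.Surjective f := Finite.surjective_of_injective hinj
        obtain ⟨m, hm⟩ := hsurj ⟨n, hn⟩
        have hm' : (m : G) * (y * (m : G)⁻¹ * y⁻¹) = n := congrArg Subtype.val hm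
        apply h ⟨(m : G), Subgroup.mem_sup_left m.2⟩
        rw [Subgroup.mem_pointwise_smul_iff_inv_smul_mem]
        have e2 : (m : G)⁻¹ * (n * y) * m = y := by rw [← hm']; group
        have : (⟨(m : G), Subgroup.mem_sup_left m.2⟩ : ↥(N ⊔ H))⁻¹ * ⟨n * y, hx⟩ * ⟨(m : G), Subgroup.mem_sup_left m.2⟩ ∈ H.subgroupOf (N ⊔ H) := by
          rw [Subgroup.mem_subgroupOf]
          simp only [Subgroup.coe_mul, Subgroup.coe_inv]
          rw [e2]; exact hy
        simpa [MulAut.smul_def, ← map_inv] using this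
    · intro hxN
      simp only at hxN
      by_cases h1 : x = 1
      · left; exact Subtype.ext h1
      · right
        rintro ⟨g, hg⟩ hmem
        apply h1
        rw [Subgroup.mem_pointwise_smul_iff_inv_smul_mem] at hmem
        have hmem' : g⁻¹ * x * g ∈ H := by
          have : (⟨g, hg⟩ : ↥(N ⊔ H))⁻¹ * ⟨x, hx⟩ * ⟨g, hg⟩ ∈ H.subgroupOf (N ⊔ H) := by
            simpa [MulAut.smul_def, ← map_inv] using hmem
          simpa [Subgroup.mem_subgroupOf] using this
        have h3 : g⁻¹ * x * g ∈ N := by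
          have := Subgroup.Normal.conj_mem (‹N.Normal›) x hxN g⁻¹
          simpa using this
        have h4 := hdis _ h3 hmem'
        have : x = g * (g⁻¹ * x * g) * g⁻¹ := by group
        rw [this, h4]; group

/-- Let G be a finite group, p a prime and N a proper non-trivial normal p-subgroup such that for every x outside N all elements of the coset xN have the same order as x. Then every non-trivial subgroup H of G of order prime to p acts fixed-point-freely on N: NH is a Frobenius group with complement H and kernel N. -/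
theorem result {G : Type*} [Group G] [Finite G] (N : Subgroup G) [N.Normal] (hN1 : N ≠ ⊥) (hN2 : N ≠ ⊤)
    (heq : ∀ x : G, x ∉ N → ∀ n ∈ N, orderOf (x * n) = orderOf x)
    (p : ℕ) [Fact p.Prime] (hNp : IsPGroup p N) :
    ∀ H : Subgroup G, H ≠ ⊥ → (Nat.card H).Coprime p →
      Cfsg.IsFrobeniusComplement (H.subgroupOf (N ⊔ H)) ∧ Cfsg.frobeniusKernel (H.subgroupOf (N ⊔ H)) = (N.subgroupOf (N ⊔ H) : Set ↥(N ⊔ H)) := by
  intro H hH hcop
  have hordN : ∀ x ∈ N, ∃ k : ℕ, orderOf x = p ^ k := by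
    intro x hx
    obtain ⟨k, hk⟩ := (IsPGroup.iff_orderOf.1 hNp) ⟨x, hx⟩
    exact ⟨k, by rw [← hk, ← Subgroup.orderOf_coe]⟩
  have hordH : ∀ x ∈ H, (orderOf x).Coprime p := by
    intro x hx
    have : orderOf x ∣ Nat.card H := by
      have := orderOf_dvd_natCard (⟨x, hx⟩ : H)
      rwa [← Subgroup.orderOf_coe] at this
    exact Nat.Coprime.coprime_dvd_left this hcop
  have hdis : ∀ x ∈ N, x ∈ H → x = 1 := by
    intro x hxN hxH
    obtain ⟨k, hk⟩ := hordN x hxN
    have h1 := hordH x hxH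
    rw [← orderOf_eq_one_iff]
    have h2 : (orderOf x).Coprime (p ^ k) := h1.pow_right k
    rw [← hk] at h2
    exact (Nat.coprime_self _).1 h2
  refine frob_of_free N H hN1 hH hdis ?_
  intro h hh h1 n hn hcomm
  have hhN : h ∉ N := fun hc => h1 (hdis h hc hh)
  have h2 := heq h hhN n hn
  obtain ⟨k, hk⟩ := hordN n hn
  have hc : Commute h n := hcomm.symm
  have hco : (orderOf h).Coprime (orderOf n) := by
    rw [hk]; exact (hordH h hh).pow_right k
  rw [hc.orderOf_mul_eq_mul_orderOf_of_coprime hco] at h2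
  have h3 : orderOf n = 1 := by
    have hpos := orderOf_pos h
    nlinarith [orderOf_pos n]
  exact orderOf_eq_one_iff.1 h3

end Cfsg.Agent.S4108
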