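import Cfsg.Statements.S4118
import Cfsg.Agent.PLocal.SL2Perfect
import Cfsg.Agent.H521.TIHall
import Cfsg.Agent.H521.FpfSection
import Cfsg.Agent.H521.PerfAct
import Cfsg.Agent.H521.FrobComp
import Cfsg.Agent.H521.PiSepTI

set_option autoImplicit false
open Cfsg

namespace Cfsg.Agent.S4118

open Subgroup
open scoped commutatorElement Pointwise

/-- `SL(2,5)` is not solvable. -/
theorem not_isSolvable_sl25 : ¬ Group.IsSolvable (Matrix.SpecialLinearGroup (Fin 2) (ZMod 5)) := by
  intro h
  have : Fact (Nat.Prime 5) := ⟨by norm_num⟩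
  have hnt : Nontrivial (Matrix.SpecialLinearGroup (Fin 2) (ZMod 5)) := by
    refine ⟨1, ⟨!![1, 1; 0, 1], by simp [Matrix.det_fin_two]⟩, ?_⟩
    intro h1
    have h2 := congrArg (fun M : Matrix.SpecialLinearGroup (Fin 2) (ZMod 5) => M 0 1) h1
    simp at h2
  have h1 : commutator (Matrix.SpecialLinearGroup (Fin 2) (ZMod 5)) < ⊤ := Group.IsSolvable.commutator_lt_top_of_nontrivial _
  exact h1.ne (Cfsg.Agent.PLocal.SL2Perfect.commutator_eq_top (by norm_num) (by norm_num))

/-- Let G be a finite group and H a non-normal subgroup meeting each of its conjugates by elements outside N_G(H) trivially, with the order of H coprime to its index in N_G(H); let π be the set of primes dividing the order of H and suppose G is π-separable (it has a chain of normal subgroups from 1 to G each of whose factors has order divisible only by primes in π or coprime to the order of H). Let O be the largest normal subgroup of G of order coprime to the order of H. Then G = O·N_G(H), O·H is normal in G, and G is solvable if and only if O is solvable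 and H has no subgroup isomorphic to SL₂(5). -/
theorem result {G : Type*} [Group G] [Finite G] (H : Subgroup G)
    (hTI : Cfsg.IsTISubset (H : Set G)) (hnn : ¬ H.Normal)
    (hHall : (Nat.card H).Coprime (H.subgroupOf (Subgroup.normalizer (H : Set G))).index)
    (hsep : ∃ (n : ℕ) (M : Fin (n + 1) → Subgroup G), M 0 = ⊥ ∧ M (Fin.last n) = ⊤ ∧ Monotone M ∧ (∀ i, (M i).Normal) ∧
      ∀ i : Fin n, (∀ q : ℕ, q.Prime → q ∣ (M i.castSucc).relIndex (M i.succ) → q ∣ Nat.card H) ∨
        ((M i.castSucc).relIndex (M i.succ)).Coprime (Nat.card H))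
    (O : Subgroup G) (hO : O = sSup {K : Subgroup G | K.Normal ∧ (Nat.card K).Coprime (Nat.card H)}) :
    O ⊔ Subgroup.normalizer (H : Set G) = ⊤ ∧ (O ⊔ H).Normal ∧
    (Group.IsSolvable G ↔ Group.IsSolvable O ∧
      ∀ K : Subgroup G, K ≤ H → ¬ Nonempty (K ≃* Matrix.SpecialLinearGroup (Fin 2) (ZMod 5))) := by
  classical
  obtain ⟨hOn, hOc, hOmax⟩ := Cfsg.Agent.H521.PiSepTI.core_spec (Nat.card H) hO
  obtain ⟨htop, hXn⟩ := Cfsg.Agent.H521.PiSepTI.structureA hTI hnn hHall hsep hO
  have hH := Cfsg.Agent.H521.TIHall.hall_of_ti hTI hHall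
  refine ⟨htop, hXn, ?_⟩
  constructor
  · intro hG
    refine ⟨inferInstance, ?_⟩
    rintro K hKH ⟨e⟩
    apply not_isSolvable_sl25
    have h1 : Group.IsSolvable K := inferInstance
    exact Group.isSolvable_of_surjective (f := e.toMonoidHom) e.surjective
  rintro ⟨hOs, hno⟩
  -- `H ∩ O = 1`
  have hHO : Disjoint O H := Subgroup.disjoint_of_coprime_natCard hOc
  -- `H` is a Frobenius complement
  set X : Subgroup G := O ⊔ H with hX
  have hHX : H ≤ X := le_sup_right
  have hOX : O ≤ X := le_sup_left
  have hcompl : (O.subgroupOf X).IsComplement' (H.subgroupOf X) := by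
    apply isComplement'_of_disjoint_and_mul_eq_univ
    · rw [disjoint_def]
      rintro ⟨x, hx⟩ h1 h2
      exact Subtype.ext (disjoint_def.mp hHO h1 h2)
    · rw [← normal_mul, ← subgroupOf_sup hOX hHX, ← hX, subgroupOf_self]
      rfl
  have hcardHX : Nat.card (H.subgroupOf X) = Nat.card H := Nat.card_congr (subgroupOfEquivOfLe hHX).toEquiv
  have hidxHX : (H.subgroupOf X).index = Nat.card O := by
    rw [hcompl.index_eq_card]
    exact Nat.card_congr (subgroupOfEquivOfLe hOX).toEquiv
  have hnormX : ∀ g : X, g ∈ normalizer (H.subgroupOf X : Set X) ↔ (g : G) ∈ normalizer (H : Set G) := by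
    intro g
    rw [mem_normalizer_iff, mem_normalizer_iff]
    constructor
    · intro h x
      constructor
      · intro hx
        exact (h ⟨x, hHX hx⟩).mp hx
      · intro hx
        have h1 := (h ⟨x, by
          have h2 : x = (g : G)⁻¹ * ((g : G) * x * (g : G)⁻¹) * (g : G) := by group
          rw [h2]
          exact mul_mem (mul_mem (inv_mem g.2) (hHX hx)) g.2⟩).mpr hx
        exact h1
    · rintro h ⟨x, hx⟩
      exact h x
  obtain ⟨F, _, _, C, hC, ⟨e⟩⟩ := Cfsg.Agent.H521.FpfSection.frobenius_of_normal_complement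
    (H := H.subgroupOf X) (M := O.subgroupOf X) hcompl (by rw [hcardHX, hidxHX]; exact hOc.symm) (by
      intro g hg x hx hgx
      have h1 : (g : G) ∉ normalizer (H : Set G) := fun h => hg ((hnormX g).mpr h)
      exact Subtype.ext (hTI g h1 x hx hgx)) (by
      intro hn
      apply hnn
      have hXN : X ≤ normalizer (H : Set G) := by
        intro g hg
        have h1 : (⟨g, hg⟩ : X) ∈ normalizer (H.subgroupOf X : Set X) := by
          rw [normalizer_eq_top_iff.mpr hn]
          exact mem_top _
        exact (hnormX _).mp h1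
      refine ⟨fun h hh g => ?_⟩
      have h1 : g * h * g⁻¹ ∈ X := hXn.conj_mem h (hHX hh) g
      refine Cfsg.Agent.H521.TIHall.mem_of_mem_normalizer hHall (hXN h1) (fun q hq hqd => ?_)
      have h2 : orderOf (g * h * g⁻¹) = orderOf h := by
        have := orderOf_injective (MulAut.conj g).toMonoidHom (MulAut.conj g).injective h
        simpa using this
      rw [h2] at hqd
      exact hqd.trans (Subgroup.orderOf_dvd_natCard H hh))
  let e' : H ≃* C := (subgroupOfEquivOfLe hHX).symm.trans e
  -- `H` is solvable
  have hCs : Group.IsSolvable C := by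
    apply Cfsg.Agent.H521.FrobComp.isSolvable_of_no_sl C hC
    rintro K hKC ⟨f⟩
    -- transport `K` to `H`
    let ι : K →* H := e'.symm.toMonoidHom.comp (inclusion hKC)
    have hι : Function.Injective ι := e'.symm.injective.comp (inclusion_injective hKC)
    let ι' : K →* G := H.subtype.comp ι
    have hι' : Function.Injective ι' := H.subtype_injective.comp hι
    apply hno ι'.range
    · rintro _ ⟨k, rfl⟩
      exact (ι k).2
    · exact ⟨(MonoidHom.ofInjective hι').symm.trans f⟩
  have hHs : Group.IsSolvable H := Group.isSolvable_of_surjective (f := e'.symm.toMonoidHom) e'.symm.surjective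
  -- `X` is solvable
  have hXs : Group.IsSolvable X := by
    have h1 : Group.IsSolvable (O.subgroupOf X) := Group.isSolvable_of_isSolvable_injective
      (f := (subgroupOfEquivOfLe hOX).toMonoidHom) (subgroupOfEquivOfLe hOX).injective
    have h2 : Group.IsSolvable (X ⧸ O.subgroupOf X) := by
      have h3 : Group.IsSolvable (H.subgroupOf X) := Group.isSolvable_of_isSolvable_injective
        (f := (subgroupOfEquivOfLe hHX).toMonoidHom) (subgroupOfEquivOfLe hHX).injective
      refine Group.isSolvable_of_surjective (G := H.subgroupOf X)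
        (f := (QuotientGroup.mk' (O.subgroupOf X)).comp (H.subgroupOf X).subtype) ?_
      intro v
      obtain ⟨x, rfl⟩ := QuotientGroup.mk_surjective v
      have h4 : x ∈ ((O.subgroupOf X : Set X) * (H.subgroupOf X : Set X)) := by
        rw [hcompl.mul_eq]; exact Set.mem_univ _
      obtain ⟨o, ho, h, hh, rfl⟩ := h4
      refine ⟨⟨h, hh⟩, ?_⟩
      change ((h : X) : X ⧸ O.subgroupOf X) = ((o * h : X) : X ⧸ O.subgroupOf X)
      rw [QuotientGroup.mk_mul, (QuotientGroup.eq_one_iff o).mpr ho, one_mul]
    exact (Group.isSolvable_iff_subgroup_quotient (O.subgroupOf X)).mpr ⟨h1, h2⟩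
  -- a complement of `H` in its normalizer
  set N : Subgroup G := normalizer (H : Set G) with hN
  have hHN : H ≤ N := le_normalizer
  have hHNn : (H.subgroupOf N).Normal := Subgroup.normal_in_normalizer
  have hcardHN : Nat.card (H.subgroupOf N) = Nat.card H := Nat.card_congr (subgroupOfEquivOfLe hHN).toEquiv
  obtain ⟨T₀, hT₀⟩ := Subgroup.exists_right_complement'_of_coprime (N := H.subgroupOf N)
    (by rw [hcardHN]; exact hHall)
  set T : Subgroup G := T₀.map N.subtype with hT
  have hTN : T ≤ N := map_subtype_le _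
  have hTcard : Nat.card T = (H.subgroupOf N).index := by
    rw [hT, card_map_of_injective N.subtype_injective, hT₀.symm.index_eq_card]
  have hTcop : (Nat.card T).Coprime (Nat.card H) := by
    rw [hTcard]
    exact hHall.symm
  have hHT : N ≤ H ⊔ T := by
    intro x hx
    have h4 : (⟨x, hx⟩ : N) ∈ ((H.subgroupOf N : Set N) * (T₀ : Set N)) := by
      rw [hT₀.mul_eq]; exact Set.mem_univ _
    obtain ⟨h, hh, t, ht, hht⟩ := h4
    have h5 : x = (h : G) * t := (congrArg Subtype.val hht).symm
    rw [h5]
    exact mul_mem (mem_sup_left hh) (mem_sup_right ⟨t, ht, rfl⟩)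
  have hXT : X ⊔ T = ⊤ := by
    rw [eq_top_iff, ← htop]
    apply sup_le (hOX.trans le_sup_left)
    exact hHT.trans (sup_le (hHX.trans le_sup_left) le_sup_right)
  -- `C_T(H) ≤ O`
  set K₁ : Subgroup G := T ⊓ centralizer (H : Set G) with hK₁
  have hK₁N : N ≤ normalizer (K₁ : Set G) := by
    apply hHT.trans
    apply sup_le
    · -- `H` centralizes `K₁`
      intro h hh
      have h1 : h ∈ centralizer (K₁ : Set G) := by
        rw [mem_centralizer_iff]
        intro k hk
        exact (mem_centralizer_iff.mp hk.2 h hh).symm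
      exact centralizer_le_normalizer _ h1
    · have key : ∀ t ∈ T, ∀ k ∈ K₁, t * k * t⁻¹ ∈ K₁ := by
        intro t ht k hk
        refine ⟨T.mul_mem (T.mul_mem ht hk.1) (T.inv_mem ht), ?_⟩
        change t * k * t⁻¹ ∈ centralizer (H : Set G)
        rw [mem_centralizer_iff]
        intro h hh
        have h1 : t⁻¹ * h * t ∈ H := by
          have := (mem_normalizer_iff.mp (inv_mem (hTN ht)) h).mp hh
          simpa using this
        have h2 := mem_centralizer_iff.mp hk.2 _ h1
        calc h * (t * k * t⁻¹) = t * ((t⁻¹ * h * t) * k) * t⁻¹ := by group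
          _ = t * (k * (t⁻¹ * h * t)) * t⁻¹ := by rw [h2]
          _ = t * k * t⁻¹ * h := by group
      intro t ht
      rw [mem_normalizer_iff]
      intro x
      refine ⟨fun hx => key t ht x hx, fun hx => ?_⟩
      have h3 := key t⁻¹ (inv_mem ht) _ hx
      have h4 : t⁻¹ * (t * x * t⁻¹) * t⁻¹⁻¹ = x := by group
      rwa [h4] at h3
  have hK₁O : K₁ ≤ O := by
    have hn : (O ⊔ K₁).Normal := by
      rw [← normalizer_eq_top_iff, eq_top_iff, ← htop]
      apply sup_le
      · exact le_sup_left.trans le_normalizer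
      · intro g hg
        have h1 := mem_normalizer_iff_map_conj_eq.mp (hK₁N hg)
        have h2 : g ∈ normalizer (O : Set G) := by
          rw [normalizer_eq_top_iff.mpr hOn]
          exact mem_top g
        have h3 := mem_normalizer_iff_map_conj_eq.mp h2
        rw [mem_normalizer_iff_map_conj_eq]
        exact (Subgroup.map_sup O K₁ _).trans (congrArg₂ (· ⊔ ·) h3 h1)
    have hc : (Nat.card (O ⊔ K₁ : Subgroup G)).Coprime (Nat.card H) := by
      rw [sup_comm]
      apply Nat.Coprime.coprime_dvd_left (Cfsg.Agent.H521.PiSepTI.card_sup_dvd K₁ O)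
      apply Nat.Coprime.mul_left _ hOc
      exact Nat.Coprime.coprime_dvd_left (card_dvd_of_le inf_le_left) hTcop
    exact le_sup_right.trans (hOmax _ hn hc)
  -- the perfect core of `T` centralizes `H`
  set R : Subgroup G := Cfsg.Agent.TwoFusion.PerfCore.perf T with hR
  have hRT : R ≤ T := Cfsg.Agent.TwoFusion.PerfCore.perf_le T
  have hRC : R ≤ centralizer (H : Set G) := by
    apply Cfsg.Agent.H521.PerfAct.le_centralizer_of_sylow
      (Cfsg.Agent.TwoFusion.PerfCore.perf_perfect T) (hRT.trans hTN)
      (Nat.Coprime.coprime_dvd_left (card_dvd_of_le hRT) hTcop) hHs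
    intro p hp P hP
    exact Cfsg.Agent.H521.FrobComp.sylow_cyclic_or_quaternion C hC hp hP
      (C.subtype.comp (e'.toMonoidHom.comp P.subtype))
      (C.subtype_injective.comp (e'.injective.comp P.subtype_injective)) (fun x => (e' x).2)
  have hRX : R ≤ X := (le_inf hRT hRC).trans (hK₁O.trans hOX)
  -- conclusion
  have hfin : Cfsg.Agent.TwoFusion.PerfCore.perf (⊤ : Subgroup G) ≤ X := by
    have h1 : (⊤ : Subgroup G).map (QuotientGroup.mk' X) = T.map (QuotientGroup.mk' X) := by
      rw [← hXT, Subgroup.map_sup]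
      have h2 : X.map (QuotientGroup.mk' X) = ⊥ := by
        rw [Subgroup.map_eq_bot_iff, QuotientGroup.ker_mk']
      rw [h2, bot_sup_eq]
    have h3 := Cfsg.Agent.TwoFusion.PerfCore.map_perf (QuotientGroup.mk' X) (⊤ : Subgroup G)
    rw [h1, ← Cfsg.Agent.TwoFusion.PerfCore.map_perf] at h3
    have h4 : R.map (QuotientGroup.mk' X) = ⊥ := by
      rw [Subgroup.map_eq_bot_iff, QuotientGroup.ker_mk']
      exact hRX
    rw [h4, Subgroup.map_eq_bot_iff, QuotientGroup.ker_mk'] at h3
    exact h3
  have hperf : Cfsg.Agent.TwoFusion.PerfCore.perf (⊤ : Subgroup G) = ⊥ := by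
    apply Cfsg.Agent.TwoFusion.PerfCore.eq_bot_of_perfect_of_solvable
      (Cfsg.Agent.TwoFusion.PerfCore.perf_perfect _)
    exact Group.isSolvable_of_isSolvable_injective (f := inclusion hfin) (inclusion_injective hfin)
  have h5 := Cfsg.Agent.TwoFusion.PerfCore.solvable_of_perf_eq_bot hperf
  exact Group.isSolvable_of_surjective (f := (topEquiv : (⊤ : Subgroup G) ≃* G).toMonoidHom) topEquiv.surjective

end Cfsg.Agent.S4118
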