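import Cfsg.Statements.S4119
import Cfsg.Agent.H864.FrobOrder
import Cfsg.Agent.H522.FrobSetup
import Cfsg.Agent.S4124

set_option autoImplicit false
open Cfsg

namespace Cfsg.Agent.S4119

/-- Let the finite group A act faithfully on the finite group G by automorphisms, and suppose A is a Frobenius group with kernel F (a normal subgroup) and complement H such that F fixes only the identity of G. Then the order of G equals the order of the fixed-point subgroup C_G(H) raised to the power #H. (The orders of G and A need not be coprime.) -/
theorem result {G A : Type*} [Group G] [Finite G] [Group A] [Finite A] [MulDistribMulAction A G] [FaithfulSMul A G]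
    (Fk Hc : Subgroup A) [Fk.Normal] (hHc : Cfsg.IsFrobeniusComplement Hc) (hker : Cfsg.frobeniusKernel Hc = (Fk : Set A))
    (hCF : ∀ g : G, (∀ f ∈ Fk, f • g = g) → g = 1) : Nat.card G = Nat.card {g : G | ∀ h ∈ Hc, h • g = g} ^ Nat.card Hc := by
  have hp := H522.frobPair_of Fk Hc hHc hker
  have hnil := H522.nilpotent_of Fk Hc hHc hker
  have hsol : Group.IsSolvable G := S4124.result (G := G) (A := Fk) hnil (fun g hg => hCF g (fun f hf => hg ⟨f, hf⟩))
  exact H864.FrobOrder.card_eq hp hnil (Nat.card G) G le_rfl hsol hCF

end Cfsg.Agent.S4119
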