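import Cfsg.Statements.S4120
import Cfsg.Agent.H522.FrobSetup
import Cfsg.Agent.H522.FrobNil
import Cfsg.Agent.H522.FrobSolv

set_option autoImplicit false
open Cfsg

namespace Cfsg.Agent.S4120

/-- Let the finite group A act faithfully on the finite group G by automorphisms, and suppose A is a Frobenius group with kernel F and complement H such that F fixes only the identity of G. If the fixed-point subgroup C_G(H) is nilpotent, then G is nilpotent. -/
theorem result {G A : Type*} [Group G] [Finite G] [Group A] [Finite A] [MulDistribMulAction A G] [FaithfulSMul A G]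
    (Fk Hc : Subgroup A) [Fk.Normal] (hHc : Cfsg.IsFrobeniusComplement Hc) (hker : Cfsg.frobeniusKernel Hc = (Fk : Set A))
    (hCF : ∀ g : G, (∀ f ∈ Fk, f • g = g) → g = 1) (hnil : Group.IsNilpotent (Subgroup.closure {g : G | ∀ h ∈ Hc, h • g = g})) : Group.IsNilpotent G := by
  have hp := Cfsg.Agent.H522.frobPair_of Fk Hc hHc hker
  have hF := Cfsg.Agent.H522.nilpotent_of Fk Hc hHc hker
  have hcl : Subgroup.closure {g : G | ∀ h ∈ Hc, h • g = g} = Cfsg.Agent.H522.fixedBy Hc G :=
    Subgroup.closure_eq (Cfsg.Agent.H522.fixedBy Hc G)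
  rw [hcl] at hnil
  exact Cfsg.Agent.H522.nilpotent_of_fixedBy_nilpotent hp hF (Nat.card G) G le_rfl
    (Cfsg.Agent.H522.solvable_of_fpf Fk hF hCF) hCF hnil

end Cfsg.Agent.S4120
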