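import Cfsg.Statements.S4121
import Cfsg.Agent.H522.FrobSetup
import Cfsg.Agent.H522.FrobAct
import Cfsg.Agent.H522.FrobSolv

set_option autoImplicit false
open Cfsg

namespace Cfsg.Agent.S4121

/-- Let the finite group A act faithfully on the finite group G by automorphisms, A a Frobenius group with kernel F and complement H, and let N be an A-invariant normal subgroup of G on which F fixes only the identity. Then the fixed points of H on G/N are covered by C_G(H): every coset gN fixed by H contains an element fixed by H. -/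
theorem result {G A : Type*} [Group G] [Finite G] [Group A] [Finite A] [MulDistribMulAction A G] [FaithfulSMul A G]
    (Fk Hc : Subgroup A) [Fk.Normal] (hHc : Cfsg.IsFrobeniusComplement Hc) (hker : Cfsg.frobeniusKernel Hc = (Fk : Set A))
    (N : Subgroup G) [N.Normal] (hNA : ∀ (a : A) (n : G), n ∈ N → a • n ∈ N)
    (hCNF : ∀ n ∈ N, (∀ f ∈ Fk, f • n = n) → n = 1)
    (g : G) (hg : ∀ h ∈ Hc, g⁻¹ * h • g ∈ N) : ∃ c : G, (∀ h ∈ Hc, h • c = c) ∧ c⁻¹ * g ∈ N := by
  have hp := Cfsg.Agent.H522.frobPair_of Fk Hc hHc hker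
  have hF := Cfsg.Agent.H522.nilpotent_of Fk Hc hHc hker
  let _inst : MulDistribMulAction A N := Cfsg.Agent.H522.subAct N hNA
  have hN : Group.IsSolvable N := Cfsg.Agent.H522.solvable_of_fpf Fk hF
    (fun n hn => Subtype.ext (hCNF n n.2 (fun f hf => congrArg Subtype.val (hn f hf))))
  exact Cfsg.Agent.H522.lift_fixed hp hF N hN hNA hCNF g hg

end Cfsg.Agent.S4121
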