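import Cfsg.Statements.S4123
import Cfsg.Agent.H523.FpfAct
import Cfsg.Agent.S0042
import Cfsg.Agent.S4124

set_option autoImplicit false
open Cfsg

namespace Cfsg.Agent.S4123

open Pointwise in
/-- Let the finite group A act faithfully on the finite group G by automorphisms, A a Frobenius group with kernel F and complement H such that F fixes only the identity of G. Then for every prime p there is exactly one A-invariant Sylow p-subgroup of G. -/
theorem result {G A : Type*} [Group G] [Finite G] [Group A] [Finite A] [MulDistribMulAction A G] [FaithfulSMul A G]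
    (Fk Hc : Subgroup A) [Fk.Normal] (hHc : Cfsg.IsFrobeniusComplement Hc) (hker : Cfsg.frobeniusKernel Hc = (Fk : Set A))
    (hCF : ∀ g : G, (∀ f ∈ Fk, f • g = g) → g = 1) (p : ℕ) [Fact p.Prime] : ∃! P : Sylow p G, ∀ (a : A) (x : G), x ∈ (P : Subgroup G) → a • x ∈ (P : Subgroup G) := by
  have hFn : Group.IsNilpotent Fk := by
    obtain ⟨N, hN, -, hNn⟩ := Cfsg.Agent.S0042.result Hc hHc
    have h1 : N = Fk := SetLike.coe_injective (hN.trans hker)
    rw [← h1]; exact hNn
  have hfix : ∀ g : G, (∀ f : Fk, f • g = g) → g = 1 := fun g hg => hCF g (fun f hf => hg ⟨f, hf⟩)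
  have hsol : Group.IsSolvable G := Cfsg.Agent.S4124.result (A := Fk) hFn hfix
  obtain ⟨P, hP, huniq⟩ := Cfsg.Agent.H523.FpfAct.existsUnique_sylow hsol hFn hfix p
  have hP' : ∀ (f : A), f ∈ Fk → ∀ x ∈ (P : Subgroup G), f • x ∈ (P : Subgroup G) :=
    fun f hf x hx => hP ⟨f, hf⟩ x hx
  refine ⟨P, ?_, ?_⟩
  · intro a x hx
    have h1 : a • P = P := by
      refine huniq (a • P) ?_
      rintro ⟨f, hf⟩ y hy
      change y ∈ a • (P : Subgroup G) at hy
      change f • y ∈ a • (P : Subgroup G)
      rw [Subgroup.mem_pointwise_smul_iff_inv_smul_mem] at hy ⊢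
      have h2 : a⁻¹ • f • y = (a⁻¹ * f * a) • (a⁻¹ • y) := by
        rw [← mul_smul, ← mul_smul]; congr 1; group
      rw [h2]
      exact hP' _ (by simpa using ‹Fk.Normal›.conj_mem f hf a⁻¹) _ hy
    have h2 : a • x ∈ a • (P : Subgroup G) := Subgroup.smul_mem_pointwise_smul _ _ _ hx
    have h3 : ((a • P : Sylow p G) : Subgroup G) = a • (P : Subgroup G) := rfl
    rw [← h3, h1] at h2
    exact h2
  · intro Q hQ
    exact huniq Q (fun b x hx => hQ b x hx)

end Cfsg.Agent.S4123
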