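import Cfsg.Statements.S4131
import Cfsg.Agent.H32.FourRed
import Cfsg.Agent.H647.FourAll
import Cfsg.Agent.S0205

set_option autoImplicit false
open Cfsg

namespace Cfsg.Agent.S4131

/-- Let G be a finite group and p the smallest prime dividing its order. Suppose p² does not divide the conjugacy class size of any element whose order is a power of a prime other than p. Then G has a normal p-complement; in particular G is solvable. -/
theorem result {G : Type*} [Group G] [Finite G] (p : ℕ) [Fact p.Prime]
    (hp : p ∣ Nat.card G) (hmin : ∀ r : ℕ, r.Prime → r ∣ Nat.card G → p ≤ r)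
    (h : ∀ x : G, (∃ (r : ℕ) (k : ℕ), r.Prime ∧ r ≠ p ∧ orderOf x = r ^ k) → ¬ p ^ 2 ∣ (Subgroup.centralizer ({x} : Set G)).index) :
    Cfsg.HasNormalPComplement p G ∧ Group.IsSolvable G :=
  Cfsg.Agent.H32.FourRed.main Cfsg.Agent.S0205.result
    (fun X _ _ _ hX => Cfsg.Agent.H647.four_of_simple hX) hmin h

end Cfsg.Agent.S4131
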