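import Cfsg.Statements.S4132
import Cfsg.Agent.S4131
import Cfsg.Agent.H683.SqfPStr

set_option autoImplicit false
open Cfsg

namespace Cfsg.Agent.S4132

/-- Let G be a finite group in which every element of prime-power order has a conjugacy class of square-free size. Then G is supersolvable, its third derived subgroup is trivial, G/F(G) is abelian of square-free exponent (a direct product of elementary abelian groups), and the derived subgroup of F(G) has square-free order. -/
theorem result {G : Type*} [Group G] [Finite G]
    (h : ∀ x : G, (∃ (r : ℕ) (k : ℕ), r.Prime ∧ orderOf x = r ^ k) → Squarefree (Subgroup.centralizer ({x} : Set G)).index) :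
    Cfsg.IsSupersolvable G ∧ derivedSeries G 3 = ⊥ ∧
    (∀ _h : (Cfsg.fittingSubgroup G).Normal, IsMulCommutative (G ⧸ Cfsg.fittingSubgroup G) ∧ Squarefree (Monoid.exponent (G ⧸ Cfsg.fittingSubgroup G))) ∧
    Squarefree (Nat.card (commutator ↥(Cfsg.fittingSubgroup G))) := by
  have hsolv : Group.IsSolvable G := by
    rcases subsingleton_or_nontrivial G with hG | hG
    · infer_instance
    · have h1 : Nat.card G ≠ 1 := (Finite.one_lt_card (α := G)).ne'
      have : Fact (Nat.card G).minFac.Prime := ⟨Nat.minFac_prime h1⟩
      refine (Cfsg.Agent.S4131.result (G := G) (Nat.card G).minFac (Nat.minFac_dvd _)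
        (fun r hr hrd => Nat.minFac_le_of_dvd hr.two_le hrd) ?_).2
      rintro x ⟨r, k, hr, -, hx⟩ hd
      have h2 := h x ⟨r, k, hr, hx⟩
      rw [pow_two] at hd
      have h3 := h2 _ hd
      exact (Nat.minFac_prime h1).one_lt.ne' (Nat.isUnit_iff.1 h3)
  exact Cfsg.Agent.H683.SqfP.SFP.structure_theorem h

end Cfsg.Agent.S4132
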