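import Cfsg.Statements.S4138
import Cfsg.Agent.H683.CopTopD

set_option autoImplicit false
open Cfsg

namespace Cfsg.Agent.S4138

open Subgroup Cfsg.Agent.H683.TwoSize Cfsg.Agent.H683.CopTop
open scoped Pointwise

theorem aux {G : Type*} [Group G] [Finite G] {m n : ℕ} (H : Hyp G m n) {x y : G}
    (hx : IsX m n x) (hy : (cz y).index = m) :
    (∀ a ∈ cz x, ∀ b ∈ cz x, a * b = b * a) ∧
    Cfsg.IsFrobeniusComplement ((cz y).map (QuotientGroup.mk' (center G))) ∧
    Cfsg.frobeniusKernel ((cz y).map (QuotientGroup.mk' (center G))) =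
      ((cz x).map (QuotientGroup.mk' (center G)) : Set (G ⧸ center G)) := by
  set π := QuotientGroup.mk' (center G) with hπ
  have hπ1 : ∀ g : G, π g = 1 ↔ g ∈ center G := fun g => QuotientGroup.eq_one_iff g
  have hcardY : Nat.card ((cz y).map π) = n := by
    rw [← Subgroup.relIndex_ker, hπ, QuotientGroup.ker_mk']
    exact H.relIndex_v hx hy hy
  have hcardX : Nat.card ((cz x).map π) = m := by
    rw [← Subgroup.relIndex_ker, hπ, QuotientGroup.ker_mk']
    exact H.relIndex_x hx hy
  have hindex : ((cz y).map π).index = m := by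
    rw [← hy]
    exact Subgroup.index_map_eq _ (QuotientGroup.mk'_surjective _)
      (by rw [QuotientGroup.ker_mk']; exact center_le_cz y)
  have hconjidx : ∀ g : G, (cz (g * y * g⁻¹)).index = m := by
    intro g
    rw [← hy, ← card_cls, ← card_cls]
    congr 2
    ext k
    constructor
    · rintro ⟨h, rfl⟩
      exact ⟨h * g, by group⟩
    · rintro ⟨h, rfl⟩
      refine ⟨h * g⁻¹, ?_⟩
      dsimp only
      group
  have hconj : ∀ g u : G, u ∈ cz y → g * u * g⁻¹ ∈ cz (g * y * g⁻¹) := by
    intro g u hu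
    rw [mem_cz] at hu ⊢
    calc g * u * g⁻¹ * (g * y * g⁻¹) = g * (u * y) * g⁻¹ := by group
      _ = g * (y * u) * g⁻¹ := by rw [hu]
      _ = _ := by group
  have hconj' : ∀ g u : G, g * u * g⁻¹ ∈ cz (g * y * g⁻¹) → u ∈ cz y := by
    intro g u hu
    rw [mem_cz] at hu ⊢
    calc u * y = g⁻¹ * ((g * u * g⁻¹) * (g * y * g⁻¹)) * g := by group
      _ = g⁻¹ * ((g * y * g⁻¹) * (g * u * g⁻¹)) * g := by rw [hu]
      _ = _ := by group
  have hn1 := H.hn
  have hmn := H.hmn
  have hF : Cfsg.IsFrobeniusComplement ((cz y).map π) := by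
    refine ⟨?_, ?_, ?_⟩
    · intro h
      rw [h, Subgroup.card_bot] at hcardY
      omega
    · intro h
      rw [h, Subgroup.index_top] at hindex
      omega
    · intro g' hg'
      obtain ⟨g, rfl⟩ := QuotientGroup.mk'_surjective (center G) g'
      rw [eq_bot_iff]
      rintro k hk
      obtain ⟨hk1, hk2⟩ := Subgroup.mem_inf.1 hk
      obtain ⟨u, hu, rfl⟩ := hk1
      rw [Subgroup.mem_pointwise_smul_iff_inv_smul_mem, ← map_inv, MulAut.smul_def,
        MulAut.conj_apply, ← map_inv, ← map_inv, ← map_mul, ← map_mul, inv_inv] at hk2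
      obtain ⟨w, hw, hwe⟩ := hk2
      rw [Subgroup.mem_bot, hπ1]
      by_contra huZ
      apply hg'
      -- `g⁻¹ u g = w z`
      have hz : w⁻¹ * (g⁻¹ * u * g) ∈ center G := by
        rw [← hπ1, map_mul, map_inv, hwe, inv_mul_cancel]
      have hwy : g⁻¹ * u * g ∈ cz y := by
        have e : g⁻¹ * u * g = w * (w⁻¹ * (g⁻¹ * u * g)) := by group
        rw [e]
        exact mul_mem hw (center_le_cz y hz)
      have hwZ : g⁻¹ * u * g ∉ center G := by
        intro h
        apply huZ
        have h1 := mem_center_iff.1 h g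
        have e : u = g * (g⁻¹ * u * g) * g⁻¹ := by group
        rw [e, h1, mul_inv_cancel_right]
        exact h
      have h1 := H.cz_eq hx hy hwy hwZ
      have h2 := H.cz_eq hx hy hu huZ
      refine ⟨g, ?_, rfl⟩
      apply H.self_normalizing hx hy
      intro v hv
      rw [← h1, mem_cz] at hv
      rw [← h2, mem_cz]
      calc g * v * g⁻¹ * u = g * (v * (g⁻¹ * u * g)) * g⁻¹ := by group
        _ = g * (g⁻¹ * u * g * v) * g⁻¹ := by rw [hv]
        _ = _ := by group
  have hker : ((cz x).map π : Set (G ⧸ center G)) ⊆ Cfsg.frobeniusKernel ((cz y).map π) := by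
    rintro _ ⟨c, hc, rfl⟩
    by_cases hcZ : c ∈ center G
    · left
      exact (hπ1 c).2 hcZ
    · right
      intro g' hg'
      obtain ⟨g, rfl⟩ := QuotientGroup.mk'_surjective (center G) g'
      rw [Subgroup.mem_pointwise_smul_iff_inv_smul_mem, ← map_inv, MulAut.smul_def,
        MulAut.conj_apply, ← map_inv, ← map_inv, ← map_mul, ← map_mul, inv_inv] at hg'
      obtain ⟨w, hw, hwe⟩ := hg'
      have hz : w⁻¹ * (g⁻¹ * c * g) ∈ center G := by
        rw [← hπ1, map_mul, map_inv, hwe, inv_mul_cancel]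
      have hwy : g⁻¹ * c * g ∈ cz y := by
        have e : g⁻¹ * c * g = w * (w⁻¹ * (g⁻¹ * c * g)) := by group
        rw [e]
        exact mul_mem hw (center_le_cz y hz)
      apply hcZ
      rw [← H.inf_eq hx hy (hconjidx g), Subgroup.mem_inf]
      refine ⟨hc, ?_⟩
      have e : c = g * (g⁻¹ * c * g) * g⁻¹ := by group
      rw [e]
      exact hconj g _ hwy
  have hkereq : Cfsg.frobeniusKernel ((cz y).map π) = ((cz x).map π : Set (G ⧸ center G)) := by
    refine (Set.eq_of_subset_of_ncard_le hker ?_ (Set.toFinite _)).symm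
    rw [← Nat.card_coe_set_eq, ← Nat.card_coe_set_eq, (Cfsg.Agent.S0034.result _ hF).1, hindex]
    exact hcardX.ge
  refine ⟨?_, hF, hkereq⟩
  -- `C(x)` is abelian
  have hXe : ∀ v ∈ cz x, v ∉ center G → cz v = cz x := by
    intro v hv hvZ
    have hinf : ∀ g : G, ∀ u : G, u ∈ cz v → u ∈ cz (g * y * g⁻¹) → u ∈ center G := by
      intro g u hu1 hu2
      by_contra huZ
      apply hvZ
      rw [← H.inf_eq hx hy (hconjidx g), Subgroup.mem_inf]
      refine ⟨hv, ?_⟩
      rw [← H.cz_eq hx (hconjidx g) hu2 huZ, mem_cz]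
      exact (mem_cz.1 hu1).symm
    have hle : cz v ≤ cz x := by
      intro u hu
      have h1 : π u ∈ Cfsg.frobeniusKernel ((cz y).map π) := by
        by_cases huZ : u ∈ center G
        · left
          exact (hπ1 u).2 huZ
        · right
          intro g' hg'
          obtain ⟨g, rfl⟩ := QuotientGroup.mk'_surjective (center G) g'
          rw [Subgroup.mem_pointwise_smul_iff_inv_smul_mem, ← map_inv, MulAut.smul_def,
            MulAut.conj_apply, ← map_inv, ← map_inv, ← map_mul, ← map_mul, inv_inv] at hg'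
          obtain ⟨w, hw, hwe⟩ := hg'
          have hz : w⁻¹ * (g⁻¹ * u * g) ∈ center G := by
            rw [← hπ1, map_mul, map_inv, hwe, inv_mul_cancel]
          have hwy : g⁻¹ * u * g ∈ cz y := by
            have e : g⁻¹ * u * g = w * (w⁻¹ * (g⁻¹ * u * g)) := by group
            rw [e]
            exact mul_mem hw (center_le_cz y hz)
          apply huZ
          apply hinf g u hu
          have e : u = g * (g⁻¹ * u * g) * g⁻¹ := by group
          rw [e]
          exact hconj g _ hwy
      rw [hkereq] at h1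
      obtain ⟨w, hw, hwe⟩ := h1
      have hz : w⁻¹ * u ∈ center G := by
        rw [← hπ1, map_mul, map_inv, hwe, inv_mul_cancel]
      have e : u = w * (w⁻¹ * u) := by group
      rw [e]
      exact mul_mem hw (center_le_cz x hz)
    have hn : n ≤ (cz v).index := by
      rw [← hx.index_eq]
      exact Nat.le_of_dvd (index_pos v) (Subgroup.index_dvd_of_le hle)
    have hn' : (cz v).index = n :=
      le_antisymm (H.hsec v (lt_of_le_of_ne (H.htop v) (H.ne_top hx hy hv))) hn
    exact cz_eq_of_le hle (by rw [hn', hx.index_eq])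
  intro a ha b hb
  by_cases haZ : a ∈ center G
  · exact (mem_center_iff.1 haZ b).symm
  · rw [← hXe a ha haZ] at hb
    exact (mem_cz.1 hb).symm

/-- Let G be a finite group whose two largest conjugacy class sizes m > n > 1 are coprime, and let x, y ∈ G have classes of sizes n and m respectively. Then C_G(x) and C_G(y) are abelian, and G/Z(G) is a Frobenius group with kernel C_G(x)/Z(G) and complement C_G(y)/Z(G). -/
theorem result {G : Type*} [Group G] [Finite G] (m n : ℕ) (hmn : n < m) (hn : 1 < n)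
    (hcop : m.Coprime n) (htop : ∀ z : G, (Subgroup.centralizer ({z} : Set G)).index ≤ m) (hsecond : ∀ z : G, (Subgroup.centralizer ({z} : Set G)).index < m → (Subgroup.centralizer ({z} : Set G)).index ≤ n)
    (x y : G) (hx : (Subgroup.centralizer ({x} : Set G)).index = n) (hy : (Subgroup.centralizer ({y} : Set G)).index = m) :
    IsMulCommutative (Subgroup.centralizer ({x} : Set G)) ∧ IsMulCommutative (Subgroup.centralizer ({y} : Set G)) ∧
    Cfsg.IsFrobeniusComplement ((Subgroup.centralizer ({y} : Set G)).map (QuotientGroup.mk' (Subgroup.center G))) ∧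
    Cfsg.frobeniusKernel ((Subgroup.centralizer ({y} : Set G)).map (QuotientGroup.mk' (Subgroup.center G))) =
      ((Subgroup.centralizer ({x} : Set G)).map (QuotientGroup.mk' (Subgroup.center G)) : Set (G ⧸ Subgroup.center G)) := by
  have H : Hyp G m n := ⟨hmn, hn, hcop, htop, hsecond⟩
  obtain ⟨x', hx', hxe⟩ := H.exists_isX hx hy
  have hxe' : Subgroup.centralizer ({x} : Set G) = cz x' := hxe.symm
  obtain ⟨h1, h2, h3⟩ := aux H hx' hy
  rw [hxe']
  refine ⟨⟨⟨fun a b => Subtype.ext (h1 a a.2 b b.2)⟩⟩,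
    ⟨⟨fun a b => Subtype.ext (H.y_comm hx' hy a a.2 b b.2)⟩⟩, h2, h3⟩

end Cfsg.Agent.S4138
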