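import Cfsg.Statements.S4141
import Cfsg.Agent.H679.TheoremA

set_option autoImplicit false
open Cfsg

namespace Cfsg.Agent.S4141

/-- Let G be a finite group and N a proper non-trivial normal subgroup such that for every g outside N the conjugacy class of g is a union of cosets of N. Then N is solvable, and if G/N is solvable then G is solvable. -/
theorem result {G : Type*} [Group G] [Finite G] (N : Subgroup G) [N.Normal] (hN1 : N ≠ ⊥) (hN2 : N ≠ ⊤)
    (hcam : ∀ g : G, g ∉ N → ∀ n ∈ N, ∃ x : G, x * g * x⁻¹ = g * n) :
    (Group.IsSolvable (G ⧸ N) → Group.IsSolvable G) ∧ Group.IsSolvable N := by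
  have h : Group.IsSolvable N := by
    obtain ⟨g, hg⟩ : ∃ g : G, g ∉ N := by
      by_contra hcon
      push Not at hcon
      exact hN2 (eq_top_iff.mpr fun g _ => hcon g)
    exact Cfsg.Agent.H679.solvable_of_conj N g (hcam g hg)
  exact ⟨fun hq => (Group.isSolvable_iff_subgroup_quotient N).mpr ⟨h, hq⟩, h⟩

end Cfsg.Agent.S4141
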