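import Cfsg.Statements.S4147
import Cfsg.Agent.H528.CPMain
import Cfsg.Agent.H528.CPModels
import Cfsg.Agent.H528.ExclThree
import Cfsg.Agent.S3719
import Cfsg.Agent.S0205

set_option autoImplicit false
open Cfsg

namespace Cfsg.Agent.S4147

open Cfsg.Agent.H528.ClassSize Cfsg.Agent.H528.CP

/-- The two simple groups of the conclusion. -/
def Tgt (S : Type*) [Group S] : Prop :=
  Nonempty (S ≃* alternatingGroup (Fin 5)) ∨
    Nonempty (S ≃* Matrix.ProjectiveSpecialLinearGroup (Fin 2) (GaloisField 2 3))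

theorem no_of_equiv {S H : Type*} [Group S] [Finite S] [IsSimpleGroup S] [Group H]
    (hns : ¬ Group.IsSolvable S) (hH : Hyp S) (e : S ≃* H) :
    Finite H ∧ IsSimpleGroup H ∧ ¬ Group.IsSolvable H ∧ Hyp H := by
  refine ⟨Finite.of_equiv S e.toEquiv, ?_, ?_, hH.of_surjective e.toMonoidHom e.surjective⟩
  · haveI : Nontrivial H := e.toEquiv.symm.nontrivial
    exact IsSimpleGroup.isSimpleGroup_of_surjective e.toMonoidHom e.surjective
  · intro h
    exact hns (solvable_of_solvable_injective (f := e.toMonoidHom) e.injective)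

theorem simple_case {S : Type*} [Group S] [Finite S] [IsSimpleGroup S]
    (hns : ¬ Group.IsSolvable S) (hH : Hyp S) : Tgt S := by
  have hnc : ¬ IsMulCommutative S := fun h => hns
    (isSolvable_of_comm (fun a b => h.is_comm.comm a b))
  have h3 := three_primes hns hH
  haveI f3 : Fact (Nat.Prime 3) := ⟨Nat.prime_three⟩
  have hd2 : 2 ∣ Nat.card S := by
    by_contra h2
    exact hns (Cfsg.Agent.S0205.result (Nat.odd_iff.2 (Nat.two_dvd_ne_zero.1 h2)))
  rcases Cfsg.Agent.S3719.result hnc h3 with h | h | h | h | h | h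
  · exact Or.inl h
  · obtain ⟨e⟩ := h
    exfalso
    haveI : Fintype (GaloisField 3 2) := Fintype.ofFinite _
    have hF : Fintype.card (GaloisField 3 2) = 9 := by
      rw [← Nat.card_eq_fintype_card, GaloisField.card 3 2 (by norm_num)]; norm_num
    obtain ⟨e'⟩ := Cfsg.Agent.S0254.result hF
    obtain ⟨h1, h2, h4, h5⟩ := no_of_equiv hns hH (e.trans e'.symm)
    exact excl_psl (Or.inr (Or.inl hF)) h4 h5
  · obtain ⟨F, _, _, hF, ⟨e⟩⟩ := h
    obtain ⟨h1, h2, h4, h5⟩ := no_of_equiv hns hH e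
    rcases hF with hF | hF | hF
    · exact (excl_psl (Or.inl hF) h4 h5).elim
    · right
      haveI : Fintype (GaloisField 2 3) := Fintype.ofFinite _
      have hF' : Fintype.card (GaloisField 2 3) = 8 := by
        rw [← Nat.card_eq_fintype_card, GaloisField.card 2 3 (by norm_num)]; norm_num
      have r := FiniteField.ringEquivOfCardEq (K := F) (K' := GaloisField 2 3) (by rw [hF, hF'])
      exact ⟨e.trans (Cfsg.Agent.LieClassical.SmallIso.pslCongr (Fin 2) r)⟩
    · exact (excl_psl (Or.inr (Or.inr hF)) h4 h5).elim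
  · obtain ⟨F, _, _, hF, ⟨e⟩⟩ := h
    exfalso
    obtain ⟨h1, h2, h4, h5⟩ := no_of_equiv hns hH e
    have h6 : (3 : F) = 0 := by
      have h7 : ((Fintype.card F : ℕ) : F) = 0 := FiniteField.cast_card_eq_zero F
      rw [hF] at h7
      exact_mod_cast h7
    obtain ⟨V, hV, hnc⟩ := exists_psl3 (F := F) h6
    exact no_three h4 h5 (Nat.card_congr e.toEquiv ▸ hd2) hV hnc
  · obtain ⟨F, _, _, hF, ⟨e⟩⟩ := h
    exfalso
    obtain ⟨h1, h2, h4, h5⟩ := no_of_equiv hns hH e
    obtain ⟨V, hV, hnc⟩ := exists_psu3 (F := F) hF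
    exact no_three h4 h5 (Nat.card_congr e.toEquiv ▸ hd2) hV hnc
  · obtain ⟨F, _, _, hF, ⟨e⟩⟩ := h
    exfalso
    obtain ⟨h1, h2, h4, h5⟩ := no_of_equiv hns hH e
    obtain ⟨V, hV, hnc⟩ := exists_psu4 (F := F) hF
    exact no_three h4 h5 (Nat.card_congr e.toEquiv ▸ hd2) hV hnc

/-- Let G be a finite group in which every conjugacy class size is divisible by at most two distinct primes. Then G is solvable, or G is the direct product of its centre and a subgroup isomorphic to the alternating group A₅ or to PSL₂(8). -/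
theorem result {G : Type*} [Group G] [Finite G]
    (h : ∀ x : G, ((Subgroup.centralizer ({x} : Set G)).index).primeFactors.card ≤ 2) :
    Group.IsSolvable G ∨ ∃ S : Subgroup G, S.Normal ∧ Subgroup.center G ⊓ S = ⊥ ∧ Subgroup.center G ⊔ S = ⊤ ∧
      (Nonempty (S ≃* alternatingGroup (Fin 5)) ∨ Nonempty (S ≃* Matrix.ProjectiveSpecialLinearGroup (Fin 2) (GaloisField 2 3))) := by
  by_cases hs : Group.IsSolvable G
  · exact Or.inl hs
  · right
    obtain ⟨S, hS, h1, h2, h3⟩ := Cfsg.Agent.H528.CP.main (fun S _ => Tgt S)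
      (by
        rintro S S' _ _ e (⟨⟨f⟩⟩ | ⟨⟨f⟩⟩)
        · exact Or.inl ⟨e.symm.trans f⟩
        · exact Or.inr ⟨e.symm.trans f⟩)
      (by
        rintro S _ (⟨⟨f⟩⟩ | ⟨⟨f⟩⟩)
        · exact good_alt.congr f.symm
        · exact good_galois.congr f.symm)
      (fun S _ _ _ => simple_case) (Nat.card G) G rfl h hs
    exact ⟨S, hS, h1, h2, h3⟩

end Cfsg.Agent.S4147
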