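import Cfsg.Statements.S4151
import Cfsg.Agent.S0023
import Cfsg.Agent.S0025
import Cfsg.Agent.S0026
import Cfsg.Agent.S0056
import Cfsg.Agent.S0058
import Cfsg.Agent.Solvable.UniqueOrderP
import Cfsg.Agent.SignalizersComponents.SylowFixed
import Cfsg.Agent.SignalizersComponents.CoprimeBasic
import Cfsg.Agent.Lib.CoprimeCommutator

set_option autoImplicit false
open Cfsg

namespace Cfsg.Agent.S4151

open Subgroup
open scoped commutatorElement

variable {G : Type*} [Group G]

theorem card_mul_relIndex {H K : Subgroup G} (h : H ≤ K) :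
    Nat.card H * H.relIndex K = Nat.card K := by
  have := Subgroup.relIndex_mul_relIndex ⊥ H K bot_le h
  rwa [Subgroup.relIndex_bot_left, Subgroup.relIndex_bot_left] at this

/-- In a TI-subgroup, the normalizer of a nontrivial subgroup of `H` lies in `N(H)`. -/
theorem normalizer_le_of_TI {H : Subgroup G} (hTI : Cfsg.IsTISubset (H : Set G)) {P : Subgroup G}
    (hPH : P ≤ H) (hP : P ≠ ⊥) :
    Subgroup.normalizer (P : Set G) ≤ Subgroup.normalizer (H : Set G) := by
  intro g hg
  by_contra hgn
  apply hP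
  rw [Subgroup.eq_bot_iff_forall]
  intro x hx
  exact hTI g hgn x (hPH hx) (hPH ((Subgroup.mem_normalizer_iff.1 hg x).1 hx))

/-- A TI-subgroup that is Hall in its normalizer is Hall. -/
theorem coprime_index [Finite G] {H : Subgroup G} (hTI : Cfsg.IsTISubset (H : Set G))
    (hHall : (Nat.card H).Coprime (H.subgroupOf (Subgroup.normalizer (H : Set G))).index) :
    (Nat.card H).Coprime H.index := by
  refine Nat.coprime_of_dvd ?_
  intro p hp hpH hpi
  have : Fact p.Prime := ⟨hp⟩
  obtain ⟨P⟩ : Nonempty (Sylow p H) := inferInstance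
  set P' : Subgroup G := (P : Subgroup H).map H.subtype with hP'
  have hP'H : P' ≤ H := Subgroup.map_subtype_le _
  have hcardP' : Nat.card P' = Nat.card (P : Subgroup H) :=
    Nat.card_congr (Subgroup.equivMapOfInjective _ _ H.subtype_injective).toEquiv.symm
  have hP'ne : P' ≠ ⊥ := by
    intro h
    have h1 : Nat.card P' = 1 := by rw [h]; exact Subgroup.card_bot
    have h2 : p ∣ Nat.card (P : Subgroup H) := P.dvd_card_of_dvd_card hpH
    rw [← hcardP', h1] at h2
    exact hp.one_lt.ne' (Nat.dvd_one.1 h2)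
  have hN := normalizer_le_of_TI hTI hP'H hP'ne
  -- index of P' in N(H)
  have h1 : ¬ p ∣ P'.relIndex (Subgroup.normalizer (H : Set G)) := by
    rw [← Subgroup.relIndex_mul_relIndex P' H _ hP'H Subgroup.le_normalizer]
    intro hd
    rcases hp.dvd_mul.1 hd with h | h
    · have h3 : P'.relIndex H = (P : Subgroup H).index := by
        rw [Subgroup.relIndex, hP', Subgroup.subgroupOf, Subgroup.comap_map_eq_self_of_injective H.subtype_injective]
      rw [h3] at h
      exact P.not_dvd_index h
    · exact hp.one_lt.ne' (Nat.eq_one_of_dvd_coprimes hHall hpH h)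
  have h2 : ¬ p ∣ P'.relIndex (Subgroup.normalizer (P' : Set G)) := by
    intro hd
    apply h1
    rw [← Subgroup.relIndex_mul_relIndex P' _ _ Subgroup.le_normalizer hN]
    exact Dvd.dvd.mul_right hd _
  obtain ⟨n, hn⟩ : ∃ n, Nat.card P' = p ^ n := by
    rw [hcardP']
    exact IsPGroup.iff_card.1 P.isPGroup'
  have h3 := Sylow.card_quotient_normalizer_modEq_card_quotient hn
  have h4 : p ∣ Nat.card (G ⧸ P') := by
    have h5 : Nat.card (G ⧸ P') = P'.index := rfl
    rw [h5, ← Subgroup.relIndex_mul_index hP'H]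
    exact Dvd.dvd.mul_left hpi _
  apply h2
  have h6 : Nat.card (Subgroup.normalizer (P' : Set G) ⧸ P'.comap (Subgroup.normalizer (P' : Set G)).subtype) =
    P'.relIndex (Subgroup.normalizer (P' : Set G)) := rfl
  rw [h6] at h3
  exact (Nat.ModEq.dvd_iff h3 dvd_rfl).2 h4

theorem mem_sup_of_normal {L N : Subgroup G} [hL : L.Normal] {x : G} (hx : x ∈ N ⊔ L) :
    ∃ n ∈ N, ∃ l ∈ L, x = n * l := by
  have h1 : x ∈ ((N ⊔ L : Subgroup G) : Set G) := hx
  rw [Subgroup.mul_normal] at h1
  obtain ⟨n, hn, l, hl, h⟩ := h1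
  exact ⟨n, hn, l, hl, h.symm⟩

/-- Existence of a normal subgroup `K` of order prime to `|H|` with `G = K N(H)`. -/
theorem exists_core [Finite G] {H : Subgroup G} (hTI : Cfsg.IsTISubset (H : Set G)) (hnn : ¬ H.Normal)
    (hcop : (Nat.card H).Coprime H.index)
    (hsep : ∃ (n : ℕ) (M : Fin (n + 1) → Subgroup G), M 0 = ⊥ ∧ M (Fin.last n) = ⊤ ∧ Monotone M ∧ (∀ i, (M i).Normal) ∧
      ∀ i : Fin n, (∀ q : ℕ, q.Prime → q ∣ (M i.castSucc).relIndex (M i.succ) → q ∣ Nat.card H) ∨
        ((M i.castSucc).relIndex (M i.succ)).Coprime (Nat.card H)) :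
    ∃ K : Subgroup G, K.Normal ∧ (Nat.card K).Coprime (Nat.card H) ∧
      K ⊔ Subgroup.normalizer (H : Set G) = ⊤ := by
  obtain ⟨n, M, h0, hlast, hmono, hnorm, hfac⟩ := hsep
  -- maximal K
  obtain ⟨K, ⟨hKn, hKc⟩, hmax⟩ : ∃ K : Subgroup G, (K.Normal ∧ (Nat.card K).Coprime (Nat.card H)) ∧
      ∀ L : Subgroup G, (L.Normal ∧ (Nat.card L).Coprime (Nat.card H)) → Nat.card L ≤ Nat.card K := by
    have hfin : Set.Finite {K : Subgroup G | K.Normal ∧ (Nat.card K).Coprime (Nat.card H)} := Set.toFinite _
    have hne : Set.Nonempty {K : Subgroup G | K.Normal ∧ (Nat.card K).Coprime (Nat.card H)} :=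
      ⟨⊥, inferInstance, by rw [Subgroup.card_bot]; exact Nat.coprime_one_left _⟩
    obtain ⟨K, hK, hm⟩ := Set.exists_max_image _ (fun K : Subgroup G => Nat.card K) hfin hne
    exact ⟨K, hK, hm⟩
  refine ⟨K, hKn, hKc, ?_⟩
  have hH1 : Nat.card H ≠ 1 := by
    intro h
    apply hnn
    rw [Subgroup.card_eq_one.1 h]
    infer_instance
  have hKtop : K ≠ ⊤ := by
    rintro rfl
    rw [Subgroup.card_top] at hKc
    have h1 : Nat.card H ∣ Nat.card G := Subgroup.card_subgroup_dvd_card H
    exact hH1 (Nat.eq_one_of_dvd_coprimes hKc h1 dvd_rfl)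
  -- the index i
  obtain ⟨i, hi1, hi2⟩ : ∃ i : Fin n, M i.castSucc ≤ K ∧ ¬ M i.succ ≤ K := by
    by_contra hcon
    push Not at hcon
    have : ∀ i : Fin (n + 1), M i ≤ K := by
      intro i
      induction i using Fin.induction with
      | zero => rw [h0]; exact bot_le
      | succ i ih => exact hcon i ih
    have h1 := this (Fin.last n)
    rw [hlast] at h1
    exact hKtop (top_le_iff.1 h1)
  set A := M i.castSucc with hA
  set B := M i.succ with hB
  have hAB : A ≤ B := hmono (Fin.castSucc_lt_succ (i := i)).le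
  have hBn : B.Normal := hnorm _
  set L := B ⊔ K with hL
  have hLn : L.Normal := Subgroup.sup_normal B K
  have hKL : K ≤ L := le_sup_right
  have hrel : K.relIndex L = K.relIndex B := Subgroup.relIndex_sup_right B K
  have hrel2 : K.relIndex B ∣ A.relIndex B := Subgroup.relIndex_dvd_of_le_left B hi1
  have hrelne : K.relIndex B ≠ 1 := fun h => hi2 (Subgroup.relIndex_eq_one.1 h)
  rcases hfac i with hpi | hpi'
  · -- π-factor
    have hπ : ∀ q : ℕ, q.Prime → q ∣ K.relIndex L → q ∣ Nat.card H := by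
      intro q hq hqd
      rw [hrel] at hqd
      exact hpi q hq (hqd.trans hrel2)
    obtain ⟨q, hq, hqd⟩ := Nat.exists_prime_and_dvd hrelne
    rw [← hrel] at hqd
    have hqH := hπ q hq hqd
    have hqL : q ∣ Nat.card L := hqd.trans (Subgroup.relIndex_dvd_card K L)
    have : Fact q.Prime := ⟨hq⟩
    obtain ⟨R⟩ : Nonempty (Sylow q L) := inferInstance
    have hfrat := Sylow.normalizer_sup_eq_top R
    set R' : Subgroup G := (R : Subgroup L).map L.subtype with hR'
    have hcardR' : Nat.card R' = Nat.card (R : Subgroup L) :=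
      Nat.card_congr (Subgroup.equivMapOfInjective _ _ L.subtype_injective).toEquiv.symm
    have hR'p : IsPGroup q R' := R.isPGroup'.map _
    have hR'ne : R' ≠ ⊥ := by
      intro h
      have h1 : Nat.card R' = 1 := by rw [h]; exact Subgroup.card_bot
      have h2 : q ∣ Nat.card (R : Subgroup L) := R.dvd_card_of_dvd_card hqL
      rw [← hcardR', h1] at h2
      exact hq.one_lt.ne' (Nat.dvd_one.1 h2)
    -- conjugate into H
    have hqidx : ¬ q ∣ Nat.card (G ⧸ H) := fun h => hq.one_lt.ne' (Nat.eq_one_of_dvd_coprimes hcop hqH h)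
    obtain ⟨x, hx⟩ := hR'p.nonempty_fixed_point_of_prime_not_dvd_card (G ⧸ H) hqidx
    obtain ⟨g, rfl⟩ := QuotientGroup.mk_surjective x
    have hconj : ∀ r ∈ R', g⁻¹ * r * g ∈ H := by
      intro r hr
      have h1 := hx ⟨r, hr⟩
      have h2 : ((r * g : G) : G ⧸ H) = (g : G ⧸ H) := h1
      rw [QuotientGroup.eq] at h2
      have h3 := H.inv_mem h2
      have h4 : ((r * g)⁻¹ * g)⁻¹ = g⁻¹ * r * g := by group
      rwa [h4] at h3
    have hnorm' : ∀ n ∈ Subgroup.normalizer (R' : Set G), g⁻¹ * n * g ∈ Subgroup.normalizer (H : Set G) := by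
      intro n hn
      by_contra hnot
      apply hR'ne
      rw [Subgroup.eq_bot_iff_forall]
      intro r hr
      have h1 := hTI _ hnot (g⁻¹ * r * g) (hconj r hr) (by
        have h2 := hconj _ ((Subgroup.mem_normalizer_iff.1 hn r).1 hr)
        have h3 : g⁻¹ * n * g * (g⁻¹ * r * g) * (g⁻¹ * n * g)⁻¹ = g⁻¹ * (n * r * n⁻¹) * g := by group
        rw [h3]
        exact h2)
      have h4 : r = g * (g⁻¹ * r * g) * g⁻¹ := by group
      rw [h4, h1]; group
    have htop : Subgroup.normalizer (H : Set G) ⊔ L = ⊤ := by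
      rw [eq_top_iff]
      intro x _
      have h1 : g * x * g⁻¹ ∈ Subgroup.normalizer (R' : Set G) ⊔ L := by rw [hfrat]; trivial
      obtain ⟨n, hn, l, hl, hnl⟩ := mem_sup_of_normal h1
      have h2 : x = (g⁻¹ * n * g) * (g⁻¹ * l * g) := by
        calc x = g⁻¹ * (g * x * g⁻¹) * g := by group
          _ = g⁻¹ * (n * l) * g := by rw [hnl]
          _ = _ := by group
      rw [h2]
      apply Subgroup.mul_mem_sup (hnorm' n hn)
      have := hLn.conj_mem l hl g⁻¹
      simpa using this
    -- L = K (L ∩ H)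
    have hLJ : L ≤ K ⊔ (L ⊓ H) := by
      have hJL : K ⊔ (L ⊓ H) ≤ L := sup_le hKL inf_le_left
      rw [← Subgroup.relIndex_eq_one]
      by_contra hne
      obtain ⟨r, hr, hrd⟩ := Nat.exists_prime_and_dvd hne
      have h1 : r ∣ K.relIndex L := hrd.trans (Subgroup.relIndex_dvd_of_le_left L le_sup_left)
      have h2 : r ∣ (L ⊓ H).relIndex L := hrd.trans (Subgroup.relIndex_dvd_of_le_left L le_sup_right)
      have hrH := hπ r hr h1
      -- (L ⊓ H).relIndex L = H.relIndex (H ⊔ L)
      have e1 : Nat.card L * L.relIndex (H ⊔ L) = Nat.card (H ⊔ L : Subgroup G) := card_mul_relIndex le_sup_right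
      have e2 : L.relIndex (H ⊔ L) = L.relIndex H := Subgroup.relIndex_sup_right H L
      have e3 : Nat.card (L ⊓ H : Subgroup G) * (L ⊓ H).relIndex H = Nat.card H := card_mul_relIndex inf_le_right
      have e4 : (L ⊓ H).relIndex H = L.relIndex H := Subgroup.inf_relIndex_right L H
      have e5 : Nat.card (L ⊓ H : Subgroup G) * (L ⊓ H).relIndex L = Nat.card L := card_mul_relIndex inf_le_left
      have e6 : Nat.card H * H.relIndex (H ⊔ L) = Nat.card (H ⊔ L : Subgroup G) := card_mul_relIndex le_sup_left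
      have e7 : (L ⊓ H).relIndex L = H.relIndex (H ⊔ L) := by
        have hpos : 0 < Nat.card H := Nat.card_pos
        apply Nat.eq_of_mul_eq_mul_left hpos
        rw [e6, ← e1, e2, ← e5, ← e3, e4]
        ring
      rw [e7] at h2
      have h3 : r ∣ H.index := h2.trans (Subgroup.relIndex_dvd_index_of_le le_sup_left)
      exact hr.one_lt.ne' (Nat.eq_one_of_dvd_coprimes hcop hrH h3)
    rw [eq_top_iff, ← htop]
    refine sup_le le_sup_right (hLJ.trans ?_)
    exact sup_le le_sup_left ((inf_le_right.trans Subgroup.le_normalizer).trans le_sup_right)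
  · -- π'-factor: contradiction
    exfalso
    have h1 : Nat.card L = Nat.card K * K.relIndex L := (card_mul_relIndex hKL).symm
    have h2 : (K.relIndex L).Coprime (Nat.card H) := by
      rw [hrel]
      exact Nat.Coprime.coprime_dvd_left hrel2 hpi'
    have h3 : (Nat.card L).Coprime (Nat.card H) := by
      rw [h1]; exact Nat.Coprime.mul_left hKc h2
    have h4 := hmax L ⟨hLn, h3⟩
    have h5 : K = L := Subgroup.eq_of_le_of_card_ge hKL h4
    apply hi2
    rw [h5]
    exact le_sup_left

/-- an element of `K` commuting with a nontrivial element of `H` centralises `H` -/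
theorem mem_centralizer_of_comm {H K : Subgroup G} (hTI : Cfsg.IsTISubset (H : Set G)) (hK : K.Normal)
    (hdisj : K ⊓ H = ⊥) {c h : G} (hc : c ∈ K) (hh : h ∈ H) (hh1 : h ≠ 1) (hch : c * h = h * c) :
    c ∈ Subgroup.centralizer (H : Set G) := by
  have hcN : c ∈ Subgroup.normalizer (H : Set G) := by
    by_contra hn
    apply hh1
    apply hTI c hn h hh
    rw [hch, mul_inv_cancel_right]
    exact hh
  rw [Subgroup.mem_centralizer_iff]
  intro x hx
  have hx : x ∈ H := hx
  have h1 : c * x * c⁻¹ * x⁻¹ ∈ K ⊓ H := by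
    refine ⟨?_, H.mul_mem ((Subgroup.mem_normalizer_iff.1 hcN x).1 hx) (H.inv_mem hx)⟩
    have h2 : x * c⁻¹ * x⁻¹ ∈ K := hK.conj_mem _ (K.inv_mem hc) x
    have h3 : c * x * c⁻¹ * x⁻¹ = c * (x * c⁻¹ * x⁻¹) := by group
    rw [h3]
    exact K.mul_mem hc h2
  rw [hdisj, Subgroup.mem_bot] at h1
  have h4 : c * x * c⁻¹ * x⁻¹ * (x * c) = x * c := by rw [h1, one_mul]
  have h5 : c * x = x * c := by
    rw [← h4]; group
  exact h5.symm

theorem cyclic_of_comm [Finite G] {H K : Subgroup G} (hTI : Cfsg.IsTISubset (H : Set G)) (hnn : ¬ H.Normal)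
    (hK : K.Normal) (hKc : (Nat.card K).Coprime (Nat.card H))
    (htop : K ⊔ Subgroup.normalizer (H : Set G) = ⊤) (A : Subgroup G) (hAH : A ≤ H)
    [IsMulCommutative A] : IsCyclic A := by
  by_contra hA
  have hdisj : K ⊓ H = ⊥ := (Subgroup.disjoint_of_coprime_natCard hKc).eq_bot
  have hAK : A ≤ Subgroup.normalizer (K : Set G) := by
    rw [Subgroup.normalizer_eq_top_iff.2 hK]; exact le_top
  have hcop : (Nat.card A).Coprime (Nat.card K) :=
    Nat.Coprime.coprime_dvd_left (Subgroup.card_dvd_of_le hAH) hKc.symm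
  have h1 := Cfsg.Agent.S0058.result A K hA hAK hcop
  have h2 : K ≤ Subgroup.centralizer (H : Set G) := by
    rw [← h1]
    refine iSup₂_le ?_
    rintro a ⟨haA, ha1⟩ c ⟨hcK, hca⟩
    exact mem_centralizer_of_comm hTI hK hdisj hcK (hAH haA) ha1
      (Subgroup.mem_centralizer_singleton_iff.1 hca)
  have h3 : K ≤ Subgroup.normalizer (H : Set G) := h2.trans (Subgroup.centralizer_le_normalizer _)
  rw [sup_eq_right.2 h3] at htop
  exact hnn (Subgroup.normalizer_eq_top_iff.1 htop)

/-- a `p`-group all of whose commutative subgroups are cyclic has a unique subgroup of order `p` -/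
theorem uniqueP_of_comm {P : Type*} [Group P] [Finite P] {p : ℕ} [hp : Fact p.Prime] (hP : IsPGroup p P)
    (hcyc : ∀ A : Subgroup P, IsMulCommutative A → IsCyclic A) :
    Cfsg.Agent.Solvable.UniqueOrderP.UniqueP p P := by
  classical
  intro x y hx1 hxp hyp
  have hnt : Nontrivial P := ⟨⟨x, 1, hx1⟩⟩
  have hcnt : Nontrivial (Subgroup.center P) := hP.center_nontrivial
  have hpc : IsPGroup p (Subgroup.center P) := hP.to_subgroup _
  have hpd : p ∣ Nat.card (Subgroup.center P) := by
    obtain ⟨n, hn⟩ := IsPGroup.iff_card.1 hpc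
    rw [hn]
    apply dvd_pow_self
    rintro rfl
    rw [pow_zero] at hn
    exact (Finite.one_lt_card (α := Subgroup.center P)).ne' hn
  obtain ⟨z, hz⟩ := exists_prime_orderOf_dvd_card' p hpd
  have hzP : orderOf (z : P) = p := by rw [Subgroup.orderOf_coe]; exact hz
  have key : ∀ w : P, w ^ p = 1 → w ∈ Subgroup.zpowers (z : P) := by
    intro w hw
    set A : Subgroup P := Subgroup.closure {w, (z : P)} with hA
    have hcomm : ∀ a ∈ ({w, (z : P)} : Set P), ∀ b ∈ ({w, (z : P)} : Set P), a * b = b * a := by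
      have hzw : w * z = z * w := Subgroup.mem_center_iff.1 z.2 w
      rintro a (rfl | rfl) b (rfl | rfl)
      · rfl
      · exact hzw
      · exact hzw.symm
      · rfl
    have hAc : IsMulCommutative A := Subgroup.isMulCommutative_closure hcomm
    have hAcyc := hcyc A hAc
    have hwA : w ∈ A := Subgroup.subset_closure (by simp)
    have hzA : (z : P) ∈ A := Subgroup.subset_closure (by simp)
    have : Fintype A := Fintype.ofFinite A
    have h1 := IsCyclic.card_pow_eq_one_le (α := A) hp.out.pos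
    -- the elements of zpowers z inside A
    set Z : Subgroup A := Subgroup.zpowers ⟨(z : P), hzA⟩ with hZ
    have hZc : Nat.card Z = p := by
      rw [hZ, Nat.card_zpowers, Subgroup.orderOf_mk]; exact hzP
    have h2 : (Finset.univ.filter (fun a : A => a ∈ Z)) ⊆ (Finset.univ.filter (fun a : A => a ^ p = 1)) := by
      intro a ha
      rw [Finset.mem_filter] at ha ⊢
      refine ⟨Finset.mem_univ _, ?_⟩
      have h3 : (⟨a, ha.2⟩ : Z) ^ Nat.card Z = 1 := pow_card_eq_one'
      rw [hZc] at h3
      simpa using congrArg (fun t : Z => (t : A)) h3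
    have h3 : (Finset.univ.filter (fun a : A => a ∈ Z)).card = p := by
      rw [← hZc, Nat.card_eq_fintype_card, Fintype.card_subtype]
    have h4 := Finset.eq_of_subset_of_card_le h2 (by rw [h3]; exact h1)
    have h5 : (⟨w, hwA⟩ : A) ∈ Z := by
      have h6 : (⟨w, hwA⟩ : A) ∈ (Finset.univ.filter (fun a : A => a ^ p = 1)) := by
        rw [Finset.mem_filter]
        exact ⟨Finset.mem_univ _, Subtype.ext (by simpa using hw)⟩
      rw [← h4, Finset.mem_filter] at h6
      exact h6.2
    obtain ⟨k, hk⟩ := Subgroup.mem_zpowers_iff.1 h5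
    rw [Subgroup.mem_zpowers_iff]
    exact ⟨k, by simpa using congrArg (fun t : A => (t : P)) hk⟩
  have hxz := key x hxp
  have hyz := key y hyp
  have hxo : orderOf x = p := orderOf_eq_prime hxp hx1
  have h6 : Subgroup.zpowers x = Subgroup.zpowers (z : P) := by
    apply Subgroup.eq_of_le_of_card_ge (Subgroup.zpowers_le.2 hxz)
    rw [Nat.card_zpowers, Nat.card_zpowers, hxo, hzP]
  rw [h6]
  exact hyz

theorem isZGroup [Finite G] {H K : Subgroup G} (hTI : Cfsg.IsTISubset (H : Set G)) (hnn : ¬ H.Normal)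
    (hK : K.Normal) (hKc : (Nat.card K).Coprime (Nat.card H))
    (htop : K ⊔ Subgroup.normalizer (H : Set G) = ⊤)
    (h2 : ∀ P : Sylow 2 H, IsMulCommutative (P : Subgroup H)) : IsZGroup H := by
  rw [isZGroup_iff]
  intro p hp P
  have : Fact p.Prime := ⟨hp⟩
  have hcyc : ∀ A : Subgroup (P : Subgroup H), IsMulCommutative A → IsCyclic A := by
    intro A hA
    set f : (P : Subgroup H) →* G := H.subtype.comp (P : Subgroup H).subtype with hf
    have hfinj : Function.Injective f := H.subtype_injective.comp (P : Subgroup H).subtype_injective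
    have e : A ≃* A.map f := Subgroup.equivMapOfInjective A f hfinj
    have hle : A.map f ≤ H := by
      rintro _ ⟨a, _, rfl⟩
      exact ((a : H)).2
    have hc : IsMulCommutative (A.map f) := by
      refine ⟨⟨?_⟩⟩
      intro a b
      obtain ⟨a', rfl⟩ := e.surjective a
      obtain ⟨b', rfl⟩ := e.surjective b
      rw [← map_mul, ← map_mul]
      congr 1
      exact hA.is_comm.comm a' b'
    have := cyclic_of_comm hTI hnn hK hKc htop (A.map f) hle
    exact isCyclic_of_surjective e.symm e.symm.surjective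
  by_cases hp2 : p = 2
  · subst hp2
    have h3 := h2 P
    have h4 : IsMulCommutative (⊤ : Subgroup (P : Subgroup H)) := by
      refine ⟨⟨?_⟩⟩
      intro a b
      exact Subtype.ext (h3.is_comm.comm a.1 b.1)
    have h5 := hcyc ⊤ h4
    exact isCyclic_of_surjective Subgroup.topEquiv Subgroup.topEquiv.surjective
  · exact Cfsg.Agent.Solvable.UniqueOrderP.isCyclic_of_uniqueP hp2 P.isPGroup' (uniqueP_of_comm P.isPGroup' hcyc)

/-- a Sylow subgroup of `H` centralised by `Q` -/
theorem exists_sylow_fixed [Finite G] {H Q : Subgroup G} (hZ : IsZGroup H)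
    (hQ : Q ≤ Subgroup.normalizer (H : Set G)) (hcop : (Nat.card Q).Coprime (Nat.card H)) {p : ℕ}
    [hp : Fact p.Prime] (hpC : p ∣ Nat.card (H ⊓ Subgroup.centralizer (Q : Set G) : Subgroup G)) :
    ∃ P : Subgroup G, P ≤ H ∧ IsPGroup p P ∧ ¬ p ∣ P.relIndex H ∧ Q ≤ Subgroup.centralizer (P : Set G) := by
  obtain ⟨x, hx⟩ := exists_prime_orderOf_dvd_card' p hpC
  have hxo : orderOf (x : G) = p := by rw [Subgroup.orderOf_coe]; exact hx
  have hsolv : Group.IsSolvable H := inferInstance
  have hUc : Q ≤ Subgroup.centralizer ((Subgroup.zpowers (x : G) : Subgroup G) : Set G) := by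
    intro q hq
    rw [Subgroup.mem_centralizer_iff]
    intro y hy
    obtain ⟨k, rfl⟩ := Subgroup.mem_zpowers_iff.1 hy
    have h1 : q * (x : G) = x * q := Subgroup.mem_centralizer_iff.1 x.2.2 q hq
    have h2 : Commute (x : G) q := h1.symm
    exact (h2.zpow_left k).eq
  have hUp : IsPGroup p (Subgroup.zpowers (x : G)) :=
    IsPGroup.of_card (n := 1) (by rw [Nat.card_zpowers, hxo, pow_one])
  obtain ⟨P, hUP, hPQ⟩ := Cfsg.Agent.S0025.result Q H hQ hcop (Or.inr hsolv) p (Subgroup.zpowers (x : G))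
    (Subgroup.zpowers_le.2 x.2.1) hUp (hUc.trans (Subgroup.centralizer_le_normalizer _))
  set P' : Subgroup G := (P : Subgroup H).map H.subtype with hP'
  have hP'p : IsPGroup p P' := P.isPGroup'.map _
  have hPcyc : IsCyclic (P : Subgroup H) := inferInstance
  have hP'cyc : IsCyclic P' := by
    have e := Subgroup.equivMapOfInjective (P : Subgroup H) H.subtype H.subtype_injective
    exact isCyclic_of_surjective e e.surjective
  have hP'comm : IsMulCommutative P' := IsCyclic.isMulCommutative
  have hP'H : P' ≤ H := Subgroup.map_subtype_le _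
  have hxP : (x : G) ∈ P' := hUP (Subgroup.mem_zpowers _)
  refine ⟨P', hP'H, hP'p, ?_, ?_⟩
  · have h3 : P'.relIndex H = (P : Subgroup H).index := by
      rw [Subgroup.relIndex, hP', Subgroup.subgroupOf, Subgroup.comap_map_eq_self_of_injective H.subtype_injective]
    rw [h3]
    exact P.not_dvd_index
  · have hcop' : (Nat.card Q).Coprime (Nat.card P') :=
      Nat.Coprime.coprime_dvd_right (Subgroup.card_dvd_of_le hP'H) hcop
    apply Cfsg.Agent.S0056.result Q P' hPQ hcop'
    intro v hv hvo a ha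
    have huniq : Cfsg.Agent.Solvable.UniqueOrderP.UniqueP p P' :=
      uniqueP_of_comm hP'p (fun A _ => inferInstance)
    have hvp : orderOf v = p := by
      have h4 : orderOf (⟨v, hv⟩ : P') = orderOf v := Subgroup.orderOf_mk v hv
      obtain ⟨k, hk⟩ := IsPGroup.iff_orderOf.1 hP'p ⟨v, hv⟩
      rw [h4] at hk
      rw [hk] at hvo
      have hk1 : k = 1 := by
        have := (Nat.Prime.eq_one_of_pow (n := k) (x := p) hvo)
        exact this
      rw [hk, hk1, pow_one]
    have h5 := huniq ⟨x, hxP⟩ ⟨v, hv⟩ (by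
      intro h
      have h6 : (x : G) = 1 := congrArg (fun t : P' => (t : G)) h
      rw [h6, orderOf_one] at hxo
      exact hp.out.one_lt.ne hxo) (by
      apply Subtype.ext
      show (x : G) ^ p = 1
      rw [← hxo, pow_orderOf_eq_one]) (by
      apply Subtype.ext
      show v ^ p = 1
      rw [← hvp, pow_orderOf_eq_one])
    obtain ⟨k, hk⟩ := Subgroup.mem_zpowers_iff.1 h5
    have h7 : (x : G) ^ k = v := by simpa using congrArg (fun t : P' => (t : G)) hk
    have h8 : v ∈ Subgroup.zpowers (x : G) := Subgroup.mem_zpowers_iff.2 ⟨k, h7⟩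
    exact (Subgroup.mem_centralizer_iff.1 (hUc ha) v h8).symm

/-- Let G be a finite group and H a non-normal subgroup meeting each of its conjugates by elements outside N_G(H) trivially, with the order of H coprime to its index in N_G(H), such that G is π-separable for π the set of primes dividing the order of H (G has a chain of normal subgroups from 1 to G each of whose factors has order divisible only by primes dividing the order of H or coprime to it). Suppose a Sylow 2-subgroup of H is abelian and Q is a complement of H in N_G(H). Then C_H(Q), the subgroup of elements of H commuting with Q, has order coprime to its index in G and has a normal complement in G. -/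
theorem result {G : Type*} [Group G] [Finite G] (H : Subgroup G)
    (hTI : Cfsg.IsTISubset (H : Set G)) (hnn : ¬ H.Normal)
    (hHall : (Nat.card H).Coprime (H.subgroupOf (Subgroup.normalizer (H : Set G))).index)
    (hsep : ∃ (n : ℕ) (M : Fin (n + 1) → Subgroup G), M 0 = ⊥ ∧ M (Fin.last n) = ⊤ ∧ Monotone M ∧ (∀ i, (M i).Normal) ∧
      ∀ i : Fin n, (∀ q : ℕ, q.Prime → q ∣ (M i.castSucc).relIndex (M i.succ) → q ∣ Nat.card H) ∨
        ((M i.castSucc).relIndex (M i.succ)).Coprime (Nat.card H))
    (h2 : ∀ P : Sylow 2 H, IsMulCommutative (P : Subgroup H))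
    (Q : Subgroup G) (hQ : Q ≤ Subgroup.normalizer (H : Set G)) (hQH : Q ⊓ H = ⊥) (hQH' : Q ⊔ H = Subgroup.normalizer (H : Set G)) :
    (Nat.card ↥(H ⊓ Subgroup.centralizer (Q : Set G))).Coprime (H ⊓ Subgroup.centralizer (Q : Set G)).index ∧
    ∃ N : Subgroup G, N.Normal ∧ N.IsComplement' (H ⊓ Subgroup.centralizer (Q : Set G)) := by
  have hcop := coprime_index hTI hHall
  obtain ⟨K, hK, hKc, htop⟩ := exists_core hTI hnn hcop hsep
  have hZ := isZGroup hTI hnn hK hKc htop h2
  have hsolv : Group.IsSolvable H := inferInstance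
  set C : Subgroup G := H ⊓ Subgroup.centralizer (Q : Set G) with hC
  have hCH : C ≤ H := inf_le_left
  -- |Q| prime to |H|
  have hQc : (Nat.card Q).Coprime (Nat.card H) := by
    have hn : (H.subgroupOf (Subgroup.normalizer (H : Set G))).Normal := inferInstance
    have h3 := Subgroup.relIndex_dvd_index_of_normal (H.subgroupOf (Subgroup.normalizer (H : Set G)))
      (Q.subgroupOf (Subgroup.normalizer (H : Set G)))
    rw [Subgroup.relIndex_subgroupOf hQ] at h3
    have h4 : H.relIndex Q = Nat.card Q := by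
      rw [← Subgroup.inf_relIndex_right, inf_comm, hQH, Subgroup.relIndex_bot_left]
    rw [h4] at h3
    exact Nat.Coprime.coprime_dvd_left h3 hHall.symm
  have hP : ∀ p : ℕ, p.Prime → p ∣ Nat.card C → ¬ p ∣ C.relIndex H ∧ ¬ p ∣ Nat.card (⁅H, Q⁆ : Subgroup G) := by
    intro p hp hpd
    have : Fact p.Prime := ⟨hp⟩
    obtain ⟨P, hPH, hPp, hPi, hPQ⟩ := exists_sylow_fixed hZ hQ hQc hpd
    have hPC : P ≤ C := by
      refine le_inf hPH ?_
      rw [Subgroup.le_centralizer_iff]
      exact hPQ
    constructor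
    · intro h
      exact hPi (h.trans (Subgroup.relIndex_dvd_of_le_left H hPC))
    · have h5 := Cfsg.Agent.SignalizersComponents.SylowFixed.commutator_le_of_sylow (q := p) hsolv hQ hQc hPH hPp hPi hPQ
      exact Cfsg.Agent.SignalizersComponents.OPi.not_dvd_of_piNum hp
        (Cfsg.Agent.SignalizersComponents.InvariantHall.PiNum.mono
          (Cfsg.Agent.SignalizersComponents.OPi.piNum_oPi) h5)
  have hfirst : (Nat.card C).Coprime C.index := by
    refine Nat.coprime_of_dvd ?_
    intro p hp hpC hpi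
    rw [← Subgroup.relIndex_mul_index hCH] at hpi
    rcases hp.dvd_mul.1 hpi with h | h
    · exact (hP p hp hpC).1 h
    · exact hp.one_lt.ne' (Nat.eq_one_of_dvd_coprimes hcop (hpC.trans (Subgroup.card_dvd_of_le hCH)) h)
  refine ⟨hfirst, ?_⟩
  set D : Subgroup G := ⁅H, Q⁆ with hD
  have hDC : (Nat.card D).Coprime (Nat.card C) := by
    refine Nat.coprime_of_dvd ?_
    intro p hp hpD hpC
    exact (hP p hp hpC).2 hpD
  have hQD : Q ≤ Subgroup.normalizer (D : Set G) := Cfsg.Agent.Lib.CoprimeCommutator.right_le_normalizer_commutator H Q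
  have hHD : H ≤ Subgroup.normalizer (D : Set G) := Cfsg.Agent.Lib.CoprimeCommutator.left_le_normalizer_commutator H Q
  set M : Subgroup G := K ⊔ (D ⊔ Q) with hM
  have hMC : (Nat.card M).Coprime (Nat.card C) := by
    have h6 : Nat.card M ∣ Nat.card K * Nat.card (D ⊔ Q : Subgroup G) :=
      Cfsg.Agent.SignalizersComponents.CoprimeBasic.card_sup_dvd (by
        rw [Subgroup.normalizer_eq_top_iff.2 hK]; exact le_top)
    have h7 : Nat.card (D ⊔ Q : Subgroup G) ∣ Nat.card D * Nat.card Q :=
      Cfsg.Agent.SignalizersComponents.CoprimeBasic.card_sup_dvd hQD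
    have h8 : Nat.card M ∣ Nat.card K * (Nat.card D * Nat.card Q) := h6.trans (Nat.mul_dvd_mul_left _ h7)
    refine Nat.Coprime.coprime_dvd_left h8 ?_
    have hCd : Nat.card C ∣ Nat.card H := Subgroup.card_dvd_of_le hCH
    exact Nat.Coprime.mul_left (Nat.Coprime.coprime_dvd_right hCd hKc)
      (Nat.Coprime.mul_left hDC (Nat.Coprime.coprime_dvd_right hCd hQc))
  have hKM : K ≤ M := le_sup_left
  have hDM : D ≤ M := le_sup_left.trans le_sup_right
  have hQM : Q ≤ M := le_sup_right.trans le_sup_right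
  -- `M` is normal
  have hMn : M.Normal := by
    rw [← Subgroup.normalizer_eq_top_iff, eq_top_iff, ← htop, ← hQH']
    have hMM : M ≤ Subgroup.normalizer (M : Set G) := Subgroup.le_normalizer
    refine sup_le (hKM.trans hMM) (sup_le (hQM.trans hMM) ?_)
    have key : ∀ h ∈ H, ∀ x ∈ M, h * x * h⁻¹ ∈ M := by
      intro h hh x hx
      have h9 : M.map (MulAut.conj h).toMonoidHom ≤ M := by
        rw [hM, Subgroup.map_sup, Subgroup.map_sup]
        refine sup_le ?_ (sup_le ?_ ?_)
        · rintro _ ⟨k, hk, rfl⟩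
          exact hKM (hK.conj_mem k hk h)
        · rintro _ ⟨d, hd, rfl⟩
          exact hDM ((Subgroup.mem_normalizer_iff.1 (hHD hh) d).1 hd)
        · rintro _ ⟨q, hq, rfl⟩
          have h10 : (MulAut.conj h).toMonoidHom q = ⁅h, q⁆ * q := by
            simp [commutatorElement_def]
          rw [h10]
          exact M.mul_mem (hDM (Subgroup.commutator_mem_commutator hh hq)) (hQM hq)
      exact h9 ⟨x, hx, rfl⟩
    intro h hh
    rw [Subgroup.mem_normalizer_iff]
    intro x
    constructor
    · exact key h hh x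
    · intro hx
      have := key h⁻¹ (H.inv_mem hh) _ hx
      have h11 : h⁻¹ * (h * x * h⁻¹) * h⁻¹⁻¹ = x := by group
      rwa [h11] at this
  refine ⟨M, hMn, ?_⟩
  apply Subgroup.isComplement'_of_disjoint_and_mul_eq_univ (Subgroup.disjoint_of_coprime_natCard hMC)
  have htop2 : M ⊔ C = ⊤ := by
    rw [eq_top_iff, ← htop, ← hQH']
    have hHdc := Cfsg.Agent.S0026.result Q H hQ hQc (Or.inr hsolv)
    refine sup_le (hKM.trans le_sup_left) (sup_le (hQM.trans le_sup_left) ?_)
    rw [← hHdc]
    exact sup_le (hDM.trans le_sup_left) le_sup_right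
  rw [← Subgroup.normal_mul, htop2, Subgroup.coe_top]

end Cfsg.Agent.S4151
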