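import Cfsg.Statements.S4153
import Cfsg.Agent.H529.PiElem

set_option autoImplicit false
open Cfsg

namespace Cfsg.Agent.S4153

open Cfsg.Agent.H529.PiElem

theorem card_mul_relIndex {G : Type*} [Group G] {H K : Subgroup G} (h : H ≤ K) :
    Nat.card H * H.relIndex K = Nat.card K := by
  have := Subgroup.relIndex_mul_relIndex ⊥ H K bot_le h
  rwa [Subgroup.relIndex_bot_left, Subgroup.relIndex_bot_left] at this

theorem pEl_iff {G : Type*} [Group G] [Finite G] (p : ℕ) [Fact p.Prime] (g : G) :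
    (∃ k : ℕ, orderOf g = p ^ k) ↔ IsPiEl {p} g := by
  constructor
  · rintro ⟨k, hk⟩ q hq hqd
    rw [hk] at hqd
    exact (Nat.prime_dvd_prime_iff_eq hq Fact.out).1 (hq.dvd_of_dvd_pow hqd)
  · intro h
    refine ⟨_, Nat.eq_prime_pow_of_unique_prime_dvd (orderOf_pos g).ne' ?_⟩
    intro q hq hqd
    exact h q hq hqd

theorem pEl_of_mem {G : Type*} [Group G] (p : ℕ) [hp : Fact p.Prime] {P : Subgroup G} (hP : IsPGroup p P)
    {g : G} (hg : g ∈ P) : ∃ k : ℕ, orderOf g = p ^ k := by
  obtain ⟨k, hk⟩ := hP ⟨g, hg⟩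
  have h1 : g ^ p ^ k = 1 := by
    have := congrArg (fun y : P => (y : G)) hk
    simpa using this
  have h2 : orderOf g ∣ p ^ k := orderOf_dvd_of_pow_eq_one h1
  obtain ⟨j, _, hj⟩ := (Nat.dvd_prime_pow hp.out).1 h2
  exact ⟨j, hj⟩

/-- in the coset `xN` of a `p`-element `x` there are at least `|N|_p` `p`-elements -/
theorem fiber_ge {G : Type*} [Group G] [Finite G] (p : ℕ) [hp : Fact p.Prime] (N : Subgroup G) [N.Normal]
    (x : G) (hx : ∃ k : ℕ, orderOf x = p ^ k) :
    p ^ (Nat.card N).factorization p ≤ Nat.card {g : G // (∃ k : ℕ, orderOf g = p ^ k) ∧ (g : G ⧸ N) = x} := by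
  classical
  obtain ⟨k, hk⟩ := hx
  have hzp : IsPGroup p (Subgroup.zpowers x) := by
    rw [IsPGroup.iff_card]
    exact ⟨k, by rw [Nat.card_zpowers, hk]⟩
  obtain ⟨P, hP⟩ := hzp.exists_le_sylow
  have hxP : x ∈ (P : Subgroup G) := hP (Subgroup.mem_zpowers x)
  -- `P ⊓ N` is Sylow in `N`
  have hcard : p ^ (Nat.card N).factorization p ≤ Nat.card ((P : Subgroup G) ⊓ N : Subgroup G) := by
    -- |P N : ...| by the second isomorphism theorem
    have h1 : Nat.card ((P : Subgroup G) ⊔ N : Subgroup G) * Nat.card ((P : Subgroup G) ⊓ N : Subgroup G) =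
        Nat.card (P : Subgroup G) * Nat.card N := by
      have e2 : N.relIndex ((P : Subgroup G) ⊔ N) * Nat.card N = Nat.card ((P : Subgroup G) ⊔ N : Subgroup G) := by
        rw [mul_comm]
        exact card_mul_relIndex (le_sup_right)
      have e3 : N.relIndex (P : Subgroup G) * Nat.card ((P : Subgroup G) ⊓ N : Subgroup G) = Nat.card (P : Subgroup G) := by
        have e4 : (N ⊓ (P : Subgroup G)).relIndex (P : Subgroup G) = N.relIndex (P : Subgroup G) := Subgroup.inf_relIndex_right N (P : Subgroup G)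
        rw [← e4, mul_comm, inf_comm]
        exact card_mul_relIndex (inf_le_right)
      have e5 : N.relIndex ((P : Subgroup G) ⊔ N) = N.relIndex (P : Subgroup G) :=
        Subgroup.relIndex_sup_right (P : Subgroup G) N
      rw [← e2, ← e3, e5]
      ring
    have hPc : Nat.card (P : Subgroup G) = p ^ (Nat.card G).factorization p := P.card_eq_multiplicity
    have h2 : Nat.card ((P : Subgroup G) ⊔ N : Subgroup G) ∣ Nat.card G := Subgroup.card_subgroup_dvd_card _
    obtain ⟨j, hj⟩ : ∃ j : ℕ, Nat.card ((P : Subgroup G) ⊓ N : Subgroup G) = p ^ j := by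
      have : IsPGroup p ((P : Subgroup G) ⊓ N : Subgroup G) := P.isPGroup'.to_le inf_le_left
      exact IsPGroup.iff_card.1 this
    rw [hj]
    apply Nat.pow_le_pow_right hp.out.pos
    have h3 := congrArg (fun n => n.factorization p) h1
    beta_reduce at h3
    rw [Nat.factorization_mul (Nat.card_pos).ne' (Nat.card_pos).ne', Nat.factorization_mul (Nat.card_pos).ne' (Nat.card_pos).ne'] at h3
    rw [Finsupp.add_apply, Finsupp.add_apply, hj, hPc, hp.out.factorization_pow, hp.out.factorization_pow,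
      Finsupp.single_eq_same, Finsupp.single_eq_same] at h3
    have h4 : (Nat.card ((P : Subgroup G) ⊔ N : Subgroup G)).factorization p ≤ (Nat.card G).factorization p :=
      (Nat.factorization_le_iff_dvd (Nat.card_pos).ne' (Nat.card_pos).ne').2 h2 p
    omega
  refine hcard.trans ?_
  let F : ((P : Subgroup G) ⊓ N : Subgroup G) → {g : G // (∃ k : ℕ, orderOf g = p ^ k) ∧ (g : G ⧸ N) = x} :=
    fun n => ⟨x * n, pEl_of_mem p P.isPGroup' ((P : Subgroup G).mul_mem hxP n.2.1), by
      rw [QuotientGroup.mk_mul, (QuotientGroup.eq_one_iff (n : G)).2 n.2.2, mul_one]⟩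
  have hF : Function.Injective F := by
    intro a b hab
    have : x * (a : G) = x * (b : G) := congrArg (fun y => y.1) hab
    exact Subtype.ext (mul_left_cancel this)
  exact Nat.card_le_card_of_injective F hF

/-- central case -/
theorem fiber_le {G : Type*} [Group G] [Finite G] (p : ℕ) [hp : Fact p.Prime] (N : Subgroup G) [N.Normal]
    (hN : N ≤ Subgroup.center G) (x : G) (hx : ∃ k : ℕ, orderOf x = p ^ k) :
    Nat.card {g : G // (∃ k : ℕ, orderOf g = p ^ k) ∧ (g : G ⧸ N) = x} ≤ p ^ (Nat.card N).factorization p := by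
  classical
  obtain ⟨Q⟩ : Nonempty (Sylow p N) := inferInstance
  have hQc : Nat.card (Q : Subgroup N) = p ^ (Nat.card N).factorization p := Q.card_eq_multiplicity
  rw [← hQc]
  have hcomm : ∀ a b : N, a * b = b * a := by
    intro a b
    apply Subtype.ext
    exact ((Subgroup.mem_center_iff.1 (hN a.2)) b).symm
  have hQn : (Q : Subgroup N).Normal := by
    constructor
    intro n hn g
    rw [hcomm g n, mul_assoc, mul_inv_cancel, mul_one]
    exact hn
  have hmem : ∀ n : N, (∃ k : ℕ, orderOf n = p ^ k) → n ∈ (Q : Subgroup N) := by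
    rintro n ⟨k, hk⟩
    have hzp : IsPGroup p (Subgroup.zpowers n) := by
      rw [IsPGroup.iff_card]
      exact ⟨k, by rw [Nat.card_zpowers, hk]⟩
    obtain ⟨R, hR⟩ := hzp.exists_le_sylow
    have h1 : (Q : Subgroup N) ≤ R := Q.isPGroup'.le_sylow_of_normal R
    have h2 : (R : Subgroup N) = Q := Q.is_maximal' R.isPGroup' h1
    rw [← h2]
    exact hR (Subgroup.mem_zpowers n)
  let F : {g : G // (∃ k : ℕ, orderOf g = p ^ k) ∧ (g : G ⧸ N) = x} → (Q : Subgroup N) := fun g =>
    ⟨⟨x⁻¹ * g.1, by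
      rw [← QuotientGroup.eq_one_iff, QuotientGroup.mk_mul, QuotientGroup.mk_inv, g.2.2]
      group⟩, by
      apply hmem
      have hgN : x⁻¹ * g.1 ∈ N := by
        rw [← QuotientGroup.eq_one_iff, QuotientGroup.mk_mul, QuotientGroup.mk_inv, g.2.2]
        group
      have hc : x * (x⁻¹ * g.1) = (x⁻¹ * g.1) * x := (Subgroup.mem_center_iff.1 (hN hgN)) x
      have hc2 : Commute x⁻¹ g.1 := by
        have : Commute x g.1 := by
          show x * g.1 = g.1 * x
          have h1 : x * (x⁻¹ * g.1) = g.1 := by group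
          rw [h1] at hc
          calc x * g.1 = x * ((x⁻¹ * g.1) * x) := by rw [← hc]
            _ = g.1 * x := by group
        exact this.inv_left
      obtain ⟨a, ha⟩ := hx
      obtain ⟨b, hb⟩ := g.2.1
      have h1 : (x⁻¹ * g.1) ^ (p ^ (a + b)) = 1 := by
        rw [hc2.mul_pow, inv_pow]
        have e1 : x ^ p ^ (a + b) = 1 := by
          rw [pow_add, pow_mul, ← ha, pow_orderOf_eq_one, one_pow]
        have e2 : g.1 ^ p ^ (a + b) = 1 := by
          rw [add_comm, pow_add, pow_mul, ← hb, pow_orderOf_eq_one, one_pow]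
        rw [e1, e2]; simp
      have h2 : orderOf (x⁻¹ * g.1) ∣ p ^ (a + b) := orderOf_dvd_of_pow_eq_one h1
      obtain ⟨j, _, hj⟩ := (Nat.dvd_prime_pow hp.out).1 h2
      refine ⟨j, ?_⟩
      rw [← hj, ← Subgroup.orderOf_coe]⟩
  have hF : Function.Injective F := by
    intro a b hab
    have : x⁻¹ * a.1 = x⁻¹ * b.1 := congrArg (fun y : (Q : Subgroup N) => ((y : N) : G)) hab
    exact Subtype.ext (mul_left_cancel this)
  exact Nat.card_le_card_of_injective F hF

/-- Let G be a finite group, p a prime, N a normal subgroup, P a Sylow p-subgroup of G and P̄ a Sylow p-subgroup of G/N. Count the elements of p-power order, the identity included. Then (number of such elements of G/N)/#P̄ ≤ (number of such elements of G)/#P, stated as a cross-multiplied inequality, with equality when N is central. -/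
theorem result {G : Type*} [Group G] [Finite G] (p : ℕ) [Fact p.Prime] (N : Subgroup G) [N.Normal]
    (P : Sylow p G) (Pbar : Sylow p (G ⧸ N)) :
    Nat.card {g : (G ⧸ N) // ∃ k : ℕ, orderOf g = p ^ k} * Nat.card (P : Subgroup G) ≤ Nat.card {g : G // ∃ k : ℕ, orderOf g = p ^ k} * Nat.card (Pbar : Subgroup (G ⧸ N)) ∧
    (N ≤ Subgroup.center G → Nat.card {g : (G ⧸ N) // ∃ k : ℕ, orderOf g = p ^ k} * Nat.card (P : Subgroup G) = Nat.card {g : G // ∃ k : ℕ, orderOf g = p ^ k} * Nat.card (Pbar : Subgroup (G ⧸ N))) := by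
  classical
  have hP : Nat.card (P : Subgroup G) = p ^ (Nat.card N).factorization p * Nat.card (Pbar : Subgroup (G ⧸ N)) := by
    rw [P.card_eq_multiplicity, Pbar.card_eq_multiplicity, ← pow_add]
    congr 1
    rw [Subgroup.card_eq_card_quotient_mul_card_subgroup N, Nat.factorization_mul (Nat.card_pos).ne' (Nat.card_pos).ne']
    simp only [Finsupp.add_apply]
    ring
  -- the map on p-elements
  let f : {g : G // ∃ k : ℕ, orderOf g = p ^ k} → {g : (G ⧸ N) // ∃ k : ℕ, orderOf g = p ^ k} :=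
    fun g => ⟨(g.1 : G ⧸ N), by
      rw [pEl_iff]
      exact isPiEl_map {p} (QuotientGroup.mk' N) ((pEl_iff p g.1).1 g.2)⟩
  have hlift : ∀ y : {g : (G ⧸ N) // ∃ k : ℕ, orderOf g = p ^ k}, ∃ x : G, (∃ k : ℕ, orderOf x = p ^ k) ∧ (x : G ⧸ N) = y.1 := by
    intro y
    obtain ⟨e, he⟩ := exists_piExp (π := {p}) (n := Nat.card G) (Nat.card_pos).ne'
    have heG : IsPiExp {p} e G := he G dvd_rfl
    have heQ : IsPiExp {p} e (G ⧸ N) := he (G ⧸ N) (Subgroup.card_quotient_dvd_card N)
    obtain ⟨g, hg⟩ := QuotientGroup.mk_surjective y.1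
    refine ⟨g ^ e, (pEl_iff p _).2 (heG.1 g), ?_⟩
    rw [QuotientGroup.mk_pow, hg]
    exact heQ.2 _ ((pEl_iff p _).1 y.2)
  have hfib : ∀ y : {g : (G ⧸ N) // ∃ k : ℕ, orderOf g = p ^ k}, ∃ x : G, (∃ k : ℕ, orderOf x = p ^ k) ∧
      Nat.card {g : {g : G // ∃ k : ℕ, orderOf g = p ^ k} // f g = y} =
      Nat.card {g : G // (∃ k : ℕ, orderOf g = p ^ k) ∧ (g : G ⧸ N) = x} := by
    intro y
    obtain ⟨x, hx, hxy⟩ := hlift y
    refine ⟨x, hx, ?_⟩
    refine Nat.card_congr ⟨fun g => ⟨g.1.1, g.1.2, ?_⟩, fun g => ⟨⟨g.1, g.2.1⟩, Subtype.ext ?_⟩, fun _ => rfl, fun _ => rfl⟩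
    · have := congrArg (fun z => z.1) g.2
      rw [hxy]
      exact this
    · show (g.1 : G ⧸ N) = y.1
      rw [g.2.2, hxy]
  have hfin : Fintype {g : (G ⧸ N) // ∃ k : ℕ, orderOf g = p ^ k} := Fintype.ofFinite _
  have htot : Nat.card {g : G // ∃ k : ℕ, orderOf g = p ^ k} =
      ∑ y : {g : (G ⧸ N) // ∃ k : ℕ, orderOf g = p ^ k}, Nat.card {g : {g : G // ∃ k : ℕ, orderOf g = p ^ k} // f g = y} := by
    rw [← Nat.card_sigma]
    exact Nat.card_congr (Equiv.sigmaFiberEquiv f).symm
  have hge : Nat.card {g : (G ⧸ N) // ∃ k : ℕ, orderOf g = p ^ k} * p ^ (Nat.card N).factorization p ≤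
      Nat.card {g : G // ∃ k : ℕ, orderOf g = p ^ k} := by
    rw [htot]
    calc Nat.card {g : (G ⧸ N) // ∃ k : ℕ, orderOf g = p ^ k} * p ^ (Nat.card N).factorization p
        = ∑ y : {g : (G ⧸ N) // ∃ k : ℕ, orderOf g = p ^ k}, p ^ (Nat.card N).factorization p := by
          rw [Finset.sum_const, smul_eq_mul, Finset.card_univ, ← Nat.card_eq_fintype_card]
      _ ≤ _ := by
          apply Finset.sum_le_sum
          intro y _
          obtain ⟨x, hx, hxy⟩ := hfib y
          rw [hxy]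
          exact fiber_ge p N x hx
  constructor
  · rw [hP]
    calc Nat.card {g : (G ⧸ N) // ∃ k : ℕ, orderOf g = p ^ k} * (p ^ (Nat.card N).factorization p * Nat.card (Pbar : Subgroup (G ⧸ N)))
        = (Nat.card {g : (G ⧸ N) // ∃ k : ℕ, orderOf g = p ^ k} * p ^ (Nat.card N).factorization p) * Nat.card (Pbar : Subgroup (G ⧸ N)) := by ring
      _ ≤ _ := Nat.mul_le_mul_right _ hge
  · intro hN
    have hle : Nat.card {g : G // ∃ k : ℕ, orderOf g = p ^ k} ≤
        Nat.card {g : (G ⧸ N) // ∃ k : ℕ, orderOf g = p ^ k} * p ^ (Nat.card N).factorization p := by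
      rw [htot]
      calc _ ≤ ∑ y : {g : (G ⧸ N) // ∃ k : ℕ, orderOf g = p ^ k}, p ^ (Nat.card N).factorization p := by
            apply Finset.sum_le_sum
            intro y _
            obtain ⟨x, hx, hxy⟩ := hfib y
            rw [hxy]
            exact fiber_le p N hN x hx
        _ = _ := by
            rw [Finset.sum_const, smul_eq_mul, Finset.card_univ, ← Nat.card_eq_fintype_card]
    have heq := le_antisymm hge hle
    rw [hP, ← heq]
    ring

end Cfsg.Agent.S4153
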