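import Cfsg.Statements.S4155
import Cfsg.Agent.S0008
import Cfsg.Agent.OddOrderLocal.CNNil
import Cfsg.Agent.OddOrderLocal.CNBasic
import Cfsg.Agent.PermutationGroups.ZassReduction

set_option autoImplicit false
open Cfsg

namespace Cfsg.Agent.S4155

/-- In an equal order pair, an element of `q`-power order outside `N` commutes with no element of `N` of
prime order different from `q`. -/
theorem no_commute {G : Type*} [Group G] [Finite G] (N : Subgroup G)
    (heq : ∀ x : G, x ∉ N → ∀ n ∈ N, orderOf (x * n) = orderOf x)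
    {y v : G} (hy : y ∉ N) (hv : v ∈ N) {p q a : ℕ} (hp : p.Prime) (hq : q.Prime) (hpq : p ≠ q)
    (hyo : orderOf y = q ^ a) (hvo : orderOf v = p) : ¬ Commute y v := by
  intro hc
  have hcop : (orderOf y).Coprime (orderOf v) := by
    rw [hyo, hvo]
    exact Nat.Coprime.pow_left a ((Nat.coprime_primes hq hp).2 hpq.symm)
  have h1 := hc.orderOf_mul_eq_mul_orderOf_of_coprime hcop
  rw [heq y hy v hv, hvo] at h1
  have h2 : 0 < orderOf y := orderOf_pos y
  have h3 : 1 < p := hp.one_lt
  nlinarith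

/-- Replacing an element outside `N` whose image has `q`-power order by a power of `q`-power order. -/
theorem exists_pow {G : Type*} [Group G] [Finite G] (N : Subgroup G) [N.Normal] {x : G} (hx : x ∉ N)
    {q j : ℕ} (hq : q.Prime) (hxq : x ^ q ^ j ∈ N) :
    ∃ b a : ℕ, x ^ b ∉ N ∧ orderOf (x ^ b) = q ^ a := by
  obtain ⟨a, b, hb, hab⟩ := Nat.exists_eq_pow_mul_and_not_dvd (orderOf_pos x).ne' q hq.ne_one
  refine ⟨b, a, ?_, ?_⟩
  · intro hxb
    apply hx
    have hcop : Nat.Coprime b (q ^ j) := Nat.Coprime.pow_right j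
      (((Nat.Prime.coprime_iff_not_dvd hq).2 hb).symm)
    have h1 : ((x : G ⧸ N)) ^ b = 1 := by
      rw [← QuotientGroup.mk_pow]; exact (QuotientGroup.eq_one_iff _).2 hxb
    have h2 : ((x : G ⧸ N)) ^ (q ^ j) = 1 := by
      rw [← QuotientGroup.mk_pow]; exact (QuotientGroup.eq_one_iff _).2 hxq
    have h3 : ((x : G ⧸ N)) ^ (Nat.gcd b (q ^ j)) = 1 := by
      rw [pow_gcd_eq_one]; exact ⟨h1, h2⟩
    rw [hcop, pow_one] at h3
    exact (QuotientGroup.eq_one_iff _).1 h3
  · have hb0 : b ≠ 0 := by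
      rintro rfl
      exact hb (dvd_zero q)
    have hdvd : b ∣ orderOf x := ⟨q ^ a, by rw [hab, mul_comm]⟩
    rw [orderOf_pow_of_dvd hb0 hdvd, hab]
    exact Nat.mul_div_cancel _ (Nat.pos_of_ne_zero hb0)

/-- There is a prime divisor of `|N|` different from the given prime. -/
theorem exists_prime {n : ℕ} (hn : n ≠ 0) (hn1 : n ≠ 1) (h : ¬ IsPrimePow n) (q : ℕ) (hq : q.Prime) :
    ∃ p : ℕ, p.Prime ∧ p ≠ q ∧ p ∣ n := by
  by_contra hcon
  push Not at hcon
  apply h
  obtain ⟨a, b, hb, hab⟩ := Nat.exists_eq_pow_mul_and_not_dvd hn q hq.ne_one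
  have hb1 : b = 1 := by
    by_contra hb1
    obtain ⟨p, hp, hpb⟩ := Nat.exists_prime_and_dvd hb1
    refine hcon p hp ?_ (hab ▸ hpb.mul_left _)
    rintro rfl
    exact hb hpb
  have ha : a ≠ 0 := by
    rintro rfl
    apply hn1
    rw [hab, hb1]; simp
  rw [hab, hb1, mul_one]
  exact hq.isPrimePow.pow ha

/-- Let G be a finite group and N a proper non-trivial normal nilpotent subgroup whose order is not a prime power, such that for every x outside N all elements of the coset xN have the same order as x. Then N is the Fitting subgroup of G, and for every prime q every Sylow q-subgroup of G/N is cyclic or generalized quaternion. -/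
theorem result {G : Type*} [Group G] [Finite G] (N : Subgroup G) [N.Normal] (hN1 : N ≠ ⊥) (hN2 : N ≠ ⊤)
    (heq : ∀ x : G, x ∉ N → ∀ n ∈ N, orderOf (x * n) = orderOf x)
    (hnil : Group.IsNilpotent N) (hnpp : ¬ IsPrimePow (Nat.card N)) :
    N = Cfsg.fittingSubgroup G ∧
    ∀ (q : ℕ) [Fact q.Prime] (Q : Sylow q (G ⧸ N)), IsCyclic (Q : Subgroup (G ⧸ N)) ∨ ∃ n : ℕ, Nonempty ((Q : Subgroup (G ⧸ N)) ≃* QuaternionGroup (2 ^ n)) := by
  have hcard1 : Nat.card N ≠ 1 := fun h => hN1 (Subgroup.card_eq_one.1 h)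
  have hcard0 : Nat.card N ≠ 0 := Nat.card_pos.ne'
  have hNF : N ≤ Cfsg.fittingSubgroup G := le_sSup ⟨inferInstance, hnil⟩
  have hFnil : Group.IsNilpotent (Cfsg.fittingSubgroup G) := Cfsg.Agent.S0008.result
  refine ⟨le_antisymm hNF ?_, ?_⟩
  · -- `F(G) ≤ N`
    by_contra hcon
    -- choose an element of prime power order modulo `N`
    have hex : ∃ x ∈ Cfsg.fittingSubgroup G, x ∉ N := by
      by_contra h
      push Not at h
      exact hcon h
    obtain ⟨x, hxF, hxN⟩ := hex
    have hox : orderOf (x : G ⧸ N) ≠ 1 := by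
      intro h
      exact hxN ((QuotientGroup.eq_one_iff _).1 (orderOf_eq_one_iff.1 h))
    obtain ⟨q, hq, c, hqc⟩ := Nat.exists_prime_and_dvd hox
    have hc0 : c ≠ 0 := by
      rintro rfl
      exact (orderOf_pos (x : G ⧸ N)).ne' (by rw [hqc, mul_zero])
    have hx' : x ^ c ∉ N := by
      intro h
      have h1 : (x : G ⧸ N) ^ c = 1 := by
        rw [← QuotientGroup.mk_pow]; exact (QuotientGroup.eq_one_iff _).2 h
      have h2 := orderOf_dvd_of_pow_eq_one h1
      have h3 := Nat.le_of_dvd (Nat.pos_of_ne_zero hc0) h2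
      rw [hqc] at h3
      have h4 := hq.one_lt
      have h5 := Nat.pos_of_ne_zero hc0
      nlinarith
    have hx'' : (x ^ c) ^ q ^ 1 ∈ N := by
      rw [pow_one, ← pow_mul, mul_comm c q, ← hqc]
      refine (QuotientGroup.eq_one_iff _).1 ?_
      rw [QuotientGroup.mk_pow]
      exact pow_orderOf_eq_one _
    obtain ⟨b, a, hyN, hyo⟩ := exists_pow N hx' hq hx''
    obtain ⟨p, hp, hpq, hpN⟩ := exists_prime hcard0 hcard1 hnpp q hq
    obtain ⟨v, hvN, hvo, -⟩ :=
      Cfsg.Agent.OddOrderLocal.CNNil.exists_central_orderOf_subgroup hnil hp hpN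
    refine no_commute N heq hyN hvN hp hq hpq hyo hvo ?_
    refine Cfsg.Agent.OddOrderLocal.CNBasic.commute_of_mem_of_coprime hFnil
      (pow_mem (pow_mem hxF c) b) (hNF hvN) ?_
    rw [hyo, hvo]
    exact Nat.Coprime.pow_left a ((Nat.coprime_primes hq hp).2 hpq.symm)
  · intro q hqf Q
    have hq : q.Prime := hqf.out
    obtain ⟨p, hp, hpq, hpN⟩ := exists_prime hcard0 hcard1 hnpp q hq
    obtain ⟨v, hvN, hvo, hvc⟩ :=
      Cfsg.Agent.OddOrderLocal.CNNil.exists_central_orderOf_subgroup hnil hp hpN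
    -- the elements of order dividing `p` of the centre of `N`
    let W : Subgroup G :=
      { carrier := {z | z ∈ N ∧ (∀ n ∈ N, n * z = z * n) ∧ z ^ p = 1}
        mul_mem' := by
          rintro a b ⟨ha1, ha2, ha3⟩ ⟨hb1, hb2, hb3⟩
          refine ⟨mul_mem ha1 hb1, ?_, ?_⟩
          · intro n hn
            rw [← mul_assoc, ha2 n hn, mul_assoc, hb2 n hn, mul_assoc]
          · have : Commute a b := hb2 a ha1
            rw [this.mul_pow, ha3, hb3, one_mul]
        one_mem' := ⟨N.one_mem, fun n _ => by simp, one_pow _⟩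
        inv_mem' := by
          rintro a ⟨ha1, ha2, ha3⟩
          refine ⟨inv_mem ha1, ?_, ?_⟩
          · intro n hn
            have : Commute n a := ha2 n hn
            exact this.inv_right
          · rw [inv_pow, ha3, inv_one] }
    have hWmem : ∀ z : G, z ∈ W ↔ z ∈ N ∧ (∀ n ∈ N, n * z = z * n) ∧ z ^ p = 1 := fun z => Iff.rfl
    have hWn : W.Normal := by
      refine ⟨?_⟩
      rintro z hz g
      rw [hWmem] at hz ⊢
      obtain ⟨hz1, hz2, hz3⟩ := hz
      refine ⟨‹N.Normal›.conj_mem z hz1 g, ?_, ?_⟩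
      · intro n hn
        have h1 := hz2 (g⁻¹ * n * g) (by
          have := ‹N.Normal›.conj_mem n hn g⁻¹
          simpa using this)
        calc n * (g * z * g⁻¹) = g * ((g⁻¹ * n * g) * z) * g⁻¹ := by group
          _ = g * (z * (g⁻¹ * n * g)) * g⁻¹ := by rw [h1]
          _ = g * z * g⁻¹ * n := by group
      · rw [conj_pow, hz3]; simp
    letI : CommGroup W :=
      { (inferInstance : Group W) with
        mul_comm := fun a b => Subtype.ext (((hWmem b).1 b.2).2.1 a ((hWmem a).1 a.2).1) }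
    have hvp : v ^ p = 1 := by rw [← hvo]; exact pow_orderOf_eq_one v
    haveI : Nontrivial W := by
      refine ⟨⟨⟨v, (hWmem v).2 ⟨hvN, fun n hn => hvc n hn, hvp⟩⟩, 1, ?_⟩⟩
      intro h
      have h1 : v = 1 := congrArg Subtype.val h
      rw [h1, orderOf_one] at hvo
      exact hp.ne_one hvo.symm
    let φ₀ : G →* MulAut W := MulAut.conjNormal
    have hφ₀ : ∀ (g : G) (w : W), ((φ₀ g w : W) : G) = g * w * g⁻¹ := fun g w => rfl
    have hker : ∀ n ∈ N, φ₀ n = 1 := by
      intro n hn
      ext w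
      have h1 := ((hWmem w).1 w.2).2.1 n hn
      rw [hφ₀, h1]; simp
    let φ : G ⧸ N →* MulAut W := QuotientGroup.lift N φ₀ hker
    let ψ : (Q : Subgroup (G ⧸ N)) →* MulAut W := φ.comp (Q : Subgroup (G ⧸ N)).subtype
    have hfpf : ∀ g : (Q : Subgroup (G ⧸ N)), g ≠ 1 → ∀ w : W, ψ g w = w → w = 1 := by
      intro g hg w hw
      by_contra hw1
      obtain ⟨x, hx⟩ := QuotientGroup.mk_surjective (g : G ⧸ N)
      have hxN : x ∉ N := by
        intro h
        apply hg
        apply Subtype.ext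
        rw [← hx]
        exact (QuotientGroup.eq_one_iff _).2 h
      obtain ⟨j, hj⟩ := Q.2 g
      have hxj : x ^ q ^ j ∈ N := by
        refine (QuotientGroup.eq_one_iff _).1 ?_
        rw [QuotientGroup.mk_pow, hx]
        have := congrArg Subtype.val hj
        simpa using this
      obtain ⟨b, a, hyN, hyo⟩ := exists_pow N hxN hq hxj
      have hcomm : Commute x (w : G) := by
        have h1 : φ₀ x w = w := by
          have h2 : ψ g = φ₀ x := by
            change φ (g : G ⧸ N) = φ₀ x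
            rw [← hx]; rfl
          rw [← h2]; exact hw
        have h2 : x * (w : G) * x⁻¹ = w := by rw [← hφ₀, h1]
        exact mul_inv_eq_iff_eq_mul.1 h2
      have hwo : orderOf (w : G) = p := by
        haveI : Fact p.Prime := ⟨hp⟩
        refine orderOf_eq_prime ((hWmem w).1 w.2).2.2 ?_
        intro h
        exact hw1 (Subtype.ext h)
      exact no_commute N heq hyN ((hWmem w).1 w.2).1 hp hq hpq hyo hwo (hcomm.pow_left b)
    -- apply the theorem to the `q`-group `Q`
    have hQ : IsPGroup q (Q : Subgroup (G ⧸ N)) := Q.2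
    let S : Sylow q (Q : Subgroup (G ⧸ N)) := default
    have hStop : (S : Subgroup (Q : Subgroup (G ⧸ N))) = ⊤ := by
      have := S.3 (Q := ⊤) (hQ.to_subgroup ⊤) le_top
      exact this.symm
    have e : (S : Subgroup (Q : Subgroup (G ⧸ N))) ≃* (Q : Subgroup (G ⧸ N)) :=
      (MulEquiv.subgroupCongr hStop).trans Subgroup.topEquiv
    rcases Cfsg.Agent.PermutationGroups.ZassReduction.sylow_cyclic_or_quaternion ψ hfpf q S with
      h | ⟨-, n, -, ⟨f⟩⟩
    · left
      exact isCyclic_of_surjective e e.surjective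
    · right
      exact ⟨n, ⟨e.symm.trans f⟩⟩

end Cfsg.Agent.S4155
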