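import Cfsg.Statements.S4159
import Cfsg.Agent.H531.InvertOdd

set_option autoImplicit false
open Cfsg

namespace Cfsg.Agent.S4159

open Cfsg.Agent.H531.InvertOdd

/-- Two elements `e` (of odd order) and `t` (a 2-element inverting `e`) generating `H`: the class
sizes of `e` and `t` are coprime, and larger than 1 if `e ≠ 1`. -/
theorem aux {H : Type*} [Group H] [Finite H] (t e : H) (k : ℕ) (hk : t ^ 2 ^ k = 1)
    (hodd : Odd (orderOf e)) (hinv : t * e * t⁻¹ = e⁻¹)
    (hgen : Subgroup.closure ({e, t} : Set H) = ⊤) (he : e ≠ 1) :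
    1 < (Subgroup.centralizer ({e} : Set H)).index ∧
      1 < (Subgroup.centralizer ({t} : Set H)).index ∧
      ((Subgroup.centralizer ({e} : Set H)).index).Coprime
        (Subgroup.centralizer ({t} : Set H)).index := by
  -- `e` and `t` do not commute
  have hne : e⁻¹ ≠ e := by
    intro h
    have h2 : e ^ 2 = 1 := by
      rw [pow_two]; nth_rewrite 1 [← h]; simp
    have h3 : orderOf e ∣ 2 := orderOf_dvd_of_pow_eq_one h2
    rcases (Nat.dvd_prime Nat.prime_two).mp h3 with h4 | h4
    · exact he (orderOf_eq_one_iff.mp h4)
    · rw [h4] at hodd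
      exact absurd hodd (by decide)
  have hnc : t * e ≠ e * t := by
    intro h
    apply hne
    rw [← hinv, h]
    group
  have h1 : 1 < (Subgroup.centralizer ({e} : Set H)).index := by
    rw [Nat.one_lt_iff_ne_zero_and_ne_one]
    refine ⟨Subgroup.index_ne_zero_of_finite, ?_⟩
    rw [Ne, Subgroup.index_eq_one]
    intro h
    have : t ∈ Subgroup.centralizer ({e} : Set H) := by rw [h]; trivial
    rw [Subgroup.mem_centralizer_singleton_iff] at this
    exact hnc this
  have h2 : 1 < (Subgroup.centralizer ({t} : Set H)).index := by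
    rw [Nat.one_lt_iff_ne_zero_and_ne_one]
    refine ⟨Subgroup.index_ne_zero_of_finite, ?_⟩
    rw [Ne, Subgroup.index_eq_one]
    intro h
    have : e ∈ Subgroup.centralizer ({t} : Set H) := by rw [h]; trivial
    rw [Subgroup.mem_centralizer_singleton_iff] at this
    exact hnc this.symm
  refine ⟨h1, h2, ?_⟩
  -- `K = ⟨e⟩` is normal
  set K : Subgroup H := Subgroup.zpowers e with hK
  have hKn : K.Normal := by
    rw [← Subgroup.normalizer_eq_top_iff, eq_top_iff, ← hgen, Subgroup.closure_le]
    intro x hx
    rcases hx with rfl | hx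
    · exact Subgroup.le_normalizer (Subgroup.mem_zpowers x)
    · rw [Set.mem_singleton_iff] at hx
      subst hx
      have key : ∀ i : ℤ, x * e ^ i * x⁻¹ = e ^ (-i) := by
        intro i
        rw [← conj_zpow, hinv, inv_zpow, zpow_neg]
      rw [SetLike.mem_coe, Subgroup.mem_normalizer_iff]
      intro y
      constructor
      · rintro ⟨i, rfl⟩
        exact ⟨-i, (key i).symm⟩
      · rintro ⟨i, hi⟩
        refine ⟨-i, ?_⟩
        have h1 := key (-i)
        rw [neg_neg] at h1
        simp only at hi
        rw [hi] at h1
        simpa using h1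
  -- `H / K` is generated by the image of `t`
  have hq : ∀ x : H ⧸ K, x ∈ Subgroup.zpowers ((t : H) : H ⧸ K) := by
    intro x
    have : Subgroup.closure ({e, t} : Set H) ≤
        (Subgroup.zpowers ((t : H) : H ⧸ K)).comap (QuotientGroup.mk' K) := by
      rw [Subgroup.closure_le]
      intro y hy
      rcases hy with rfl | hy
      · rw [SetLike.mem_coe, Subgroup.mem_comap]
        have : (QuotientGroup.mk' K) y = 1 := by
          rw [QuotientGroup.mk'_apply, QuotientGroup.eq_one_iff]
          exact Subgroup.mem_zpowers y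
        rw [this]
        exact Subgroup.one_mem _
      · rw [Set.mem_singleton_iff] at hy
        subst hy
        rw [SetLike.mem_coe, Subgroup.mem_comap]
        exact Subgroup.mem_zpowers _
    rw [hgen] at this
    obtain ⟨y, rfl⟩ := QuotientGroup.mk'_surjective K x
    exact this (Subgroup.mem_top y)
  have hKi : K.index = orderOf ((t : H) : H ⧸ K) := by
    rw [Subgroup.index_eq_card, ← Nat.card_zpowers]
    have : Subgroup.zpowers ((t : H) : H ⧸ K) = ⊤ := by
      rw [eq_top_iff]; intro x _; exact hq x
    rw [this, Subgroup.card_top]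
  have hKi2 : K.index ∣ orderOf t := by
    rw [hKi]; exact orderOf_map_dvd (QuotientGroup.mk' K) t
  have ht2 : orderOf t ∣ 2 ^ k := orderOf_dvd_of_pow_eq_one hk
  have hCe : (Subgroup.centralizer ({e} : Set H)).index ∣ 2 ^ k := by
    refine (Subgroup.index_dvd_of_le ?_).trans (hKi2.trans ht2)
    rw [hK, Subgroup.zpowers_le, Subgroup.mem_centralizer_singleton_iff]
  have hT : (Subgroup.zpowers t).index ∣ Nat.card K := by
    have e1 : Nat.card (Subgroup.zpowers t) * (Subgroup.zpowers t).index = Nat.card H :=
      Subgroup.card_mul_index _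
    have e2 : Nat.card K * K.index = Nat.card H := Subgroup.card_mul_index _
    rw [Nat.card_zpowers] at e1
    obtain ⟨c, hc⟩ := hKi2
    refine ⟨c, ?_⟩
    have hpos : 0 < K.index := Nat.pos_of_ne_zero Subgroup.index_ne_zero_of_finite
    apply Nat.eq_of_mul_eq_mul_left hpos
    rw [mul_comm K.index, e2, ← e1, hc]
    ring
  have hCt : Odd (Subgroup.centralizer ({t} : Set H)).index := by
    have h3 : (Subgroup.centralizer ({t} : Set H)).index ∣ Nat.card K := by
      refine (Subgroup.index_dvd_of_le ?_).trans hT
      rw [Subgroup.zpowers_le, Subgroup.mem_centralizer_singleton_iff]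
    rw [hK, Nat.card_zpowers] at h3
    exact Odd.of_dvd_nat hodd h3
  exact Nat.Coprime.coprime_dvd_left hCe (Nat.Coprime.pow_left k (Nat.coprime_two_left.mpr hCt))

/-- Let G be a finite group such that in every subgroup H of G, any two conjugacy classes of H of size greater than 1 have non-coprime sizes. Then G is solvable. -/
theorem result {G : Type*} [Group G] [Finite G]
    (h : ∀ (H : Subgroup G) (x y : H), 1 < (Subgroup.centralizer ({x} : Set H)).index → 1 < (Subgroup.centralizer ({y} : Set H)).index →
      ¬ ((Subgroup.centralizer ({x} : Set H)).index).Coprime (Subgroup.centralizer ({y} : Set H)).index) : Group.IsSolvable G := by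
  apply NoInv.isSolvable
  rintro t e ⟨k, hk⟩ hodd hinv
  by_contra he
  have heH : e ∈ Subgroup.closure ({e, t} : Set G) := Subgroup.subset_closure (by simp)
  have htH : t ∈ Subgroup.closure ({e, t} : Set G) := Subgroup.subset_closure (by simp)
  obtain ⟨h1, h2, h3⟩ := aux (H := Subgroup.closure ({e, t} : Set G)) ⟨t, htH⟩ ⟨e, heH⟩ k
    (by ext; simpa using hk) (by rwa [Subgroup.orderOf_mk]) (by ext; simpa using hinv)
    (by
      apply Subgroup.map_injective (Subgroup.subtype_injective _)
      rw [MonoidHom.map_closure, ← MonoidHom.range_eq_map, Subgroup.range_subtype]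
      simp [Set.image_insert_eq])
    (by
      intro h
      exact he (by simpa using congrArg Subtype.val h))
  exact h _ _ _ h1 h2 h3

end Cfsg.Agent.S4159
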