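import Cfsg.Statements.S4162
import Cfsg.Agent.H535.AHLemmaR
import Cfsg.Agent.H668.DSend
import Cfsg.Agent.H515.AhFrat
import Cfsg.Agent.H174.RatSylow

set_option autoImplicit false
set_option linter.unusedSectionVars false
open Cfsg

namespace Cfsg.Agent.S4162

open Subgroup AH

section

variable {G : Type*} [Group G] [Finite G]

/-- Decomposition into the `p'`-part and the `p`-part. -/
theorem exists_decomp (p : ℕ) [hp : Fact p.Prime] (x : G) :
    ∃ g y : G, x = g * y ∧ (orderOf g).Coprime p ∧ (∃ k : ℕ, y ^ p ^ k = 1) ∧ g * y = y * g ∧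
      ∀ z : G, z * x = x * z → z * g = g * z ∧ z * y = y * z := by
  have hn : orderOf x ≠ 0 := (orderOf_pos x).ne'
  have hmul : ordProj[p] (orderOf x) * ordCompl[p] (orderOf x) = orderOf x :=
    Nat.ordProj_mul_ordCompl_eq_self _ p
  have hcop : (ordCompl[p] (orderOf x)).Coprime p :=
    (Nat.coprime_ordCompl hp.out hn).symm
  set m := ordCompl[p] (orderOf x) with hm
  set k := (orderOf x).factorization p with hk
  have hcop' : m.Coprime (p ^ k) := Nat.Coprime.pow_right k hcop
  obtain ⟨j, hj1, hj2⟩ := Nat.chineseRemainder hcop' 1 0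
  obtain ⟨l, hl1, hl2⟩ := Nat.chineseRemainder hcop' 0 1
  refine ⟨x ^ j, x ^ l, ?_, ?_, ⟨k, ?_⟩, ?_, ?_⟩
  · rw [← pow_add]
    conv_lhs => rw [← pow_one x]
    rw [pow_eq_pow_iff_modEq, ← hmul, mul_comm]
    apply (Nat.modEq_and_modEq_iff_modEq_mul hcop').mp
    constructor
    · simpa using (hj1.add hl1).symm
    · simpa using (hj2.add hl2).symm
  · apply Nat.Coprime.coprime_dvd_left _ hcop
    rw [orderOf_dvd_iff_pow_eq_one, ← pow_mul, ← orderOf_dvd_iff_pow_eq_one, ← hmul]
    exact mul_dvd_mul ((Nat.modEq_zero_iff_dvd).mp hj2) dvd_rfl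
  · rw [← pow_mul, ← orderOf_dvd_iff_pow_eq_one, ← hmul, mul_comm]
    exact mul_dvd_mul ((Nat.modEq_zero_iff_dvd).mp hl1) dvd_rfl
  · exact (Commute.refl x).pow_pow j l
  · intro z hz
    exact ⟨Commute.pow_right hz j, Commute.pow_right hz l⟩

theorem pElement_mem {p : ℕ} [hp : Fact p.Prime] (P : Sylow p G) [hPn : (P : Subgroup G).Normal]
    {y : G} {k : ℕ} (hy : y ^ p ^ k = 1) : y ∈ (P : Subgroup G) := by
  have h1 : IsPGroup p (zpowers y) := by
    obtain ⟨j, -, hj⟩ := (Nat.dvd_prime_pow hp.out).mp (orderOf_dvd_of_pow_eq_one hy)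
    exact IsPGroup.of_card (n := j) (by rw [Nat.card_zpowers, hj])
  obtain ⟨Q, hQ⟩ := h1.exists_le_sylow
  have : Subsingleton (Sylow p G) := by
    have := Sylow.unique_of_normal P hPn
    infer_instance
  rw [Subsingleton.elim P Q]
  exact hQ (mem_zpowers y)

theorem inv_pair (hG : IsRat G) {g h : G} (hgh : Commute g h)
    (hc : (orderOf g).Coprime (orderOf h)) :
    ∃ k : G, k * g * k⁻¹ = g ∧ k * h * k⁻¹ = h⁻¹ := by
  obtain ⟨e, he1, he2⟩ := Nat.chineseRemainder hc 1 (orderOf h - 1)
  obtain ⟨i, hi1, hi2⟩ := Nat.chineseRemainder hc 1 0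
  have hpos := orderOf_pos h
  have hhinv : h ^ (orderOf h - 1) = h⁻¹ := by
    rw [eq_inv_iff_mul_eq_one, ← pow_succ, Nat.sub_add_cancel hpos, pow_orderOf_eq_one]
  have hge : g ^ e = g := by
    conv_rhs => rw [← pow_one g]
    exact pow_eq_pow_iff_modEq.mpr he1
  have hhe : h ^ e = h⁻¹ := by
    rw [← hhinv]
    exact pow_eq_pow_iff_modEq.mpr he2
  have hgi : g ^ i = g := by
    conv_rhs => rw [← pow_one g]
    exact pow_eq_pow_iff_modEq.mpr hi1
  have hhi : h ^ i = 1 := by
    rw [← orderOf_dvd_iff_pow_eq_one]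
    exact (Nat.modEq_zero_iff_dvd).mp hi2
  have hcop : e.Coprime (orderOf (g * h)) := by
    rw [hgh.orderOf_mul_eq_mul_orderOf_of_coprime hc]
    apply Nat.Coprime.mul_right
    · unfold Nat.Coprime
      rw [he1.gcd_eq]; simp
    · unfold Nat.Coprime
      rw [he2.gcd_eq]
      have h1 : (orderOf h - 1) + 1 = orderOf h := by omega
      have h2 : Nat.gcd (orderOf h - 1) ((orderOf h - 1) + 1) = 1 := by simp
      rwa [h1] at h2
  obtain ⟨k, hk⟩ := isConj_iff.mp (hG (g * h) e hcop)
  rw [hgh.mul_pow, hge, hhe] at hk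
  have hkg : k * g * k⁻¹ = g := by
    have h1 : (k * (g * h) * k⁻¹) ^ i = k * (g * h) ^ i * k⁻¹ := conj_pow
    rw [hk, hgh.mul_pow, hgi, hhi, mul_one, (hgh.inv_right).mul_pow, hgi, inv_pow, hhi, inv_one,
      mul_one] at h1
    exact h1.symm
  refine ⟨k, hkg, ?_⟩
  have h2 : k * (g * h) * k⁻¹ = (k * g * k⁻¹) * (k * h * k⁻¹) := by group
  rw [h2, hkg] at hk
  exact mul_left_cancel hk

theorem normal_subgroupOf_of_le_normalizer {X N : Subgroup G} (hXN : X ≤ N)
    (h : N ≤ normalizer (X : Set G)) : (X.subgroupOf N).Normal := by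
  rw [normal_subgroupOf_iff hXN]
  intro x n hx hn
  exact (mem_normalizer_iff.mp (h hn) x).mp hx

end

section

variable {G : Type*} [Group G] [Finite G] (hs : Group.IsSolvable G) (hAH : IsAH G)

include hs hAH

theorem sylow_normal {p : ℕ} [hp : Fact p.Prime] (hp5 : 5 ≤ p) (P : Sylow p G) :
    (P : Subgroup G).Normal :=
  H174.RatSyl.sylow_normal_of_isRat hAH.isRat hp.out hp5 P

theorem prime_le_five (q : ℕ) (hq : q.Prime) (hqd : q ∣ Nat.card G) : q ≤ 5 := by
  by_contra hlt
  have hqf : Fact q.Prime := ⟨hq⟩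
  obtain ⟨P⟩ : Nonempty (Sylow q G) := inferInstance
  have hPn := sylow_normal hs hAH (by omega : 5 ≤ q) P
  have hP1 : (P : Subgroup G) ⊓ centralizer ({1} : Set G) ≠ ⊥ := by
    have h1 : centralizer ({1} : Set G) = ⊤ := by
      rw [eq_top_iff]
      intro x _
      rw [mem_centralizer_singleton_iff]; simp
    rw [h1, inf_top_eq]
    intro h0
    have h2 : q ∣ Nat.card (P : Subgroup G) := P.dvd_card_of_dvd_card hqd
    rw [h0, card_bot] at h2
    exact hq.one_lt.ne' (Nat.dvd_one.mp h2)
  obtain ⟨h5, -⟩ := lemmaR hAH (by omega) P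
    (fun r _ hr Q => sylow_normal hs hAH hr Q) 1 (by simp) hP1
  omega

/-- The case analysis of an element whose centralizer order is divisible by 5. -/
theorem five_data (x : G) (hx : 5 ∣ cent x) :
    25 ∣ cent x ∧ (¬ 125 ∣ cent x → 3 ∣ cent x) := by
  classical
  have h5f : Fact (Nat.Prime 5) := ⟨by norm_num⟩
  obtain ⟨P⟩ : Nonempty (Sylow 5 G) := inferInstance
  have hPn := sylow_normal hs hAH le_rfl P
  obtain ⟨g, y, hxe, hg, ⟨k, hyk⟩, hgy, hcom⟩ := exists_decomp 5 x
  have hyP : y ∈ (P : Subgroup G) := pElement_mem P hyk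
  -- centralizer of x
  have hCx : ∀ z, z ∈ centralizer ({x} : Set G) ↔ (z * g = g * z ∧ z * y = y * z) := by
    intro z
    rw [mem_centralizer_singleton_iff]
    refine ⟨hcom z, ?_⟩
    rintro ⟨h1, h2⟩
    rw [hxe]
    calc z * (g * y) = z * g * y := by group
      _ = g * (z * y) := by rw [h1]; group
      _ = g * y * z := by rw [h2]; group
  have hY : (P : Subgroup G) ⊓ centralizer ({g} : Set G) ≠ ⊥ := by
    obtain ⟨t, ht⟩ := exists_prime_orderOf_dvd_card' (G := centralizer ({x} : Set G)) 5 hx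
    intro h0
    have h1 : (t : G) ∈ (P : Subgroup G) ⊓ centralizer ({g} : Set G) := by
      refine ⟨pElement_mem (k := 1) P ?_, ?_⟩
      · have h2 : t ^ 5 = 1 := by rw [← ht]; exact pow_orderOf_eq_one t
        have h3 : (t : G) ^ 5 = 1 := by exact_mod_cast congrArg Subtype.val h2
        simpa using h3
      · exact mem_centralizer_singleton_iff.mpr ((hCx t).mp t.2).1
    rw [h0, mem_bot] at h1
    have h2 : t = 1 := Subtype.ext h1
    rw [h2, orderOf_one] at ht
    omega
  obtain ⟨-, U, X, N, hN, hU25, hUle, hUY, hUX, hXN, h24, hR⟩ :=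
    lemmaR hAH le_rfl P (fun r _ hr Q => sylow_normal hs hAH hr Q) g hg hY
  have hUC : U ≤ centralizer ({x} : Set G) := by
    intro u hu
    rw [hCx]
    exact ⟨mem_centralizer_singleton_iff.mp (hUle hu).2,
      hUY u hu y ⟨hyP, mem_centralizer_singleton_iff.mpr hgy.symm⟩⟩
  have h25 : 25 ∣ cent x := by
    rw [← hU25]; exact card_dvd_of_le hUC
  refine ⟨h25, fun h125 => ?_⟩
  -- `P ∩ C(x) = U`
  have hPC : (P : Subgroup G) ⊓ centralizer ({x} : Set G) = U := by
    have hle : U ≤ (P : Subgroup G) ⊓ centralizer ({x} : Set G) :=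
      le_inf (fun u hu => (hUle hu).1) hUC
    symm
    apply eq_of_le_of_card_ge hle
    have hpg : IsPGroup 5 ((P : Subgroup G) ⊓ centralizer ({x} : Set G) : Subgroup G) :=
      P.isPGroup'.to_le inf_le_left
    obtain ⟨n, hn⟩ := IsPGroup.iff_card.mp hpg
    rw [hn, hU25]
    have hn2 : n ≤ 2 := by
      by_contra hlt
      apply h125
      have h1 : 5 ^ n ∣ cent x := by
        rw [← hn]; exact card_dvd_of_le inf_le_right
      exact (show (125 : ℕ) ∣ 5 ^ n by
        have : (125 : ℕ) = 5 ^ 3 := by norm_num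
        rw [this]; exact pow_dvd_pow 5 (by omega)).trans h1
    calc 5 ^ n ≤ 5 ^ 2 := Nat.pow_le_pow_right (by norm_num) hn2
      _ = 25 := by norm_num
  have hyU : y ∈ U := by
    rw [← hPC]
    exact ⟨hyP, (hCx y).mpr ⟨hgy.symm, rfl⟩⟩
  have hYU : (P : Subgroup G) ⊓ centralizer ({g} : Set G) = U := by
    apply le_antisymm _ hUle
    intro t ht
    rw [← hPC]
    refine ⟨ht.1, (hCx t).mpr ⟨mem_centralizer_singleton_iff.mp ht.2, (hUY y hyU t ht).symm⟩⟩
  have hXle : X ≤ centralizer ({g} : Set G) := fun z hz => by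
    have := hXN hz
    rw [hN] at this
    exact this.1
  by_cases hy1 : y = 1
  · -- x = g
    have hxg : x = g := by rw [hxe, hy1, mul_one]
    have h1 : 24 ∣ Nat.card N := by
      rw [← h24]; exact relIndex_dvd_card X N
    have h2 : N ≤ centralizer ({x} : Set G) := by
      rw [hxg, hN]; exact inf_le_left
    exact ((by norm_num : 3 ∣ 24).trans h1).trans (card_dvd_of_le h2)
  · have hCX : centralizer ({x} : Set G) = X := by rw [hxe]; exact hUX y hyU hy1
    have hgX : g ∈ X := by
      rw [← hCX, hCx]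
      exact ⟨rfl, hgy⟩
    by_cases h3g : 3 ∣ orderOf g
    · have h1 : cent x = Nat.card X := by unfold cent; rw [hCX]
      rw [h1]
      exact h3g.trans (Subgroup.orderOf_dvd_natCard X hgX)
    exfalso
    have hNX : N ≤ normalizer (X : Set G) := by rw [hN]; exact inf_le_right
    have hNg : ∀ n ∈ N, n * g = g * n := by
      intro n hn
      rw [hN] at hn
      exact mem_centralizer_singleton_iff.mp hn.1
    have hnorm := normal_subgroupOf_of_le_normalizer hXN hNX
    have h3f : Fact (Nat.Prime 3) := ⟨Nat.prime_three⟩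
    have hM24 : Nat.card (N ⧸ X.subgroupOf N) = 24 := by
      rw [← index_eq_card]; exact h24
    -- an element of order 3 of N / X and a 3-element above it
    obtain ⟨r, hr⟩ := exists_prime_orderOf_dvd_card' (G := N ⧸ X.subgroupOf N) 3
      (by rw [hM24]; norm_num)
    obtain ⟨h₀, hh₀⟩ := QuotientGroup.mk_surjective r
    -- replace by a 3-element
    have hn0 : orderOf h₀ ≠ 0 := (orderOf_pos h₀).ne'
    have hmul : ordProj[3] (orderOf h₀) * ordCompl[3] (orderOf h₀) = orderOf h₀ :=
      Nat.ordProj_mul_ordCompl_eq_self _ 3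
    have hcop3 : (ordCompl[3] (orderOf h₀)).Coprime 3 :=
      (Nat.coprime_ordCompl Nat.prime_three hn0).symm
    obtain ⟨j, hj1, hj2⟩ := Nat.chineseRemainder hcop3 0 1
    set h : N := h₀ ^ j with hh
    have hhr : (h : N ⧸ X.subgroupOf N) = r := by
      rw [hh, QuotientGroup.mk_pow, hh₀]
      conv_rhs => rw [← pow_one r]
      rw [pow_eq_pow_iff_modEq, hr]
      exact hj2
    have hh3 : h ^ (3 ^ (orderOf h₀).factorization 3) = 1 := by
      rw [hh, ← pow_mul, ← orderOf_dvd_iff_pow_eq_one]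
      have hdv : ordProj[3] (orderOf h₀) * ordCompl[3] (orderOf h₀) ∣
          j * 3 ^ (orderOf h₀).factorization 3 := by
        rw [mul_comm]
        exact mul_dvd_mul ((Nat.modEq_zero_iff_dvd).mp hj1) dvd_rfl
      rwa [hmul] at hdv
    have hgh : Commute g (h : G) := (hNg h h.2).symm
    have hco : (orderOf g).Coprime (orderOf (h : G)) := by
      have h1 : orderOf (h : G) ∣ 3 ^ (orderOf h₀).factorization 3 := by
        rw [orderOf_dvd_iff_pow_eq_one]
        exact_mod_cast congrArg Subtype.val hh3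
      apply Nat.Coprime.coprime_dvd_right h1
      apply Nat.Coprime.pow_right
      rw [Nat.coprime_comm, Nat.Prime.coprime_iff_not_dvd Nat.prime_three]
      exact h3g
    obtain ⟨t, htg, hth⟩ := inv_pair hAH.isRat hgh hco
    have htg' : t * g = g * t := mul_inv_eq_iff_eq_mul.mp htg
    -- t normalizes X
    have htX : t ∈ normalizer (X : Set G) := by
      have htyU : t * y * t⁻¹ ∈ U := by
        rw [← hYU]
        refine ⟨hPn.conj_mem y hyP t, ?_⟩
        apply mem_centralizer_singleton_iff.mpr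
        have e1 : Commute t g := htg'
        have e2 : Commute y g := hgy.symm
        exact (e1.mul_left e2).mul_left e1.inv_left
      have hty1 : t * y * t⁻¹ ≠ 1 := by
        intro h0
        apply hy1
        have := mul_inv_eq_one.mp h0
        exact mul_eq_left.mp this
      have hX2 := hUX _ htyU hty1
      have hX1 := hUX y hyU hy1
      have hconj : g * (t * y * t⁻¹) = t * (g * y) * t⁻¹ := by
        calc g * (t * y * t⁻¹) = (g * t) * y * t⁻¹ := by group
          _ = t * (g * y) * t⁻¹ := by rw [← htg']; group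
      rw [mem_normalizer_iff]
      intro z
      have h1 : z ∈ X ↔ z * (g * y) = (g * y) * z := by
        rw [← hX1, mem_centralizer_singleton_iff]
      have h2 : t * z * t⁻¹ ∈ X ↔ t * z * t⁻¹ * (t * (g * y) * t⁻¹) =
          (t * (g * y) * t⁻¹) * (t * z * t⁻¹) := by
        rw [← hX2, hconj, mem_centralizer_singleton_iff]
      rw [h1, h2]
      constructor
      · intro h3
        calc t * z * t⁻¹ * (t * (g * y) * t⁻¹) = t * (z * (g * y)) * t⁻¹ := by group
          _ = t * ((g * y) * z) * t⁻¹ := by rw [h3]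
          _ = _ := by group
      · intro h3
        have h4 : t * (z * (g * y)) * t⁻¹ = t * ((g * y) * z) * t⁻¹ := by
          calc t * (z * (g * y)) * t⁻¹ = t * z * t⁻¹ * (t * (g * y) * t⁻¹) := by group
            _ = _ := h3
            _ = _ := by group
        exact mul_left_cancel (mul_right_cancel h4)
    have htN : t ∈ N := by
      rw [hN]; exact mem_inf.mpr ⟨mem_centralizer_singleton_iff.mpr htg', htX⟩
    -- in the quotient
    let t' : N := ⟨t, htN⟩
    have hq : (t' : N ⧸ X.subgroupOf N) * r * (t' : N ⧸ X.subgroupOf N)⁻¹ = r⁻¹ := by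
      rw [← hhr]
      have h1 : t' * h * t'⁻¹ = h⁻¹ := Subtype.ext hth
      rw [← QuotientGroup.mk_inv, ← QuotientGroup.mk_mul, ← QuotientGroup.mk_mul, h1,
        QuotientGroup.mk_inv]
    -- the Sylow 3-subgroup generated by r
    have hRc : Nat.card (zpowers r) = 3 ^ (Nat.card (N ⧸ X.subgroupOf N)).factorization 3 := by
      rw [Nat.card_zpowers, hr, hM24]
      have : (24 : ℕ) = 3 ^ 1 * 2 ^ 3 := by norm_num
      rw [this, Nat.factorization_mul (by norm_num) (by norm_num),
        Nat.Prime.factorization_pow Nat.prime_three, Nat.Prime.factorization_pow Nat.prime_two]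
      simp
    let R : Sylow 3 (N ⧸ X.subgroupOf N) := Sylow.ofCard (zpowers r) hRc
    have hRe : (R : Subgroup (N ⧸ X.subgroupOf N)) = zpowers r := rfl
    have htR : (t' : N ⧸ X.subgroupOf N) ∈ normalizer (R : Set (N ⧸ X.subgroupOf N)) := by
      have h1 : (t' : N ⧸ X.subgroupOf N) ∈
          normalizer ((zpowers r : Subgroup (N ⧸ X.subgroupOf N)) : Set (N ⧸ X.subgroupOf N)) := by
        rw [mem_normalizer_iff]
        intro z
        have e1 : ∀ i : ℤ, (t' : N ⧸ X.subgroupOf N) * r ^ i * (t' : N ⧸ X.subgroupOf N)⁻¹ =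
            r ^ (-i) := by
          intro i
          rw [← conj_zpow, hq, inv_zpow, zpow_neg]
        constructor
        · rintro ⟨i, rfl⟩
          exact ⟨-i, (e1 i).symm⟩
        · rintro ⟨i, hi⟩
          refine ⟨-i, ?_⟩
          have e2 := e1 (-i)
          rw [neg_neg] at e2
          change r ^ i = _ at hi
          rw [hi] at e2
          exact mul_left_cancel (mul_right_cancel e2)
      exact h1
    have htC := hR hnorm R htR
    have h1 : r * (t' : N ⧸ X.subgroupOf N) = (t' : N ⧸ X.subgroupOf N) * r :=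
      mem_centralizer_iff.mp htC r (mem_zpowers r)
    rw [← h1, mul_inv_cancel_right] at hq
    have h2 : r ^ 2 = 1 := by rw [pow_two]; nth_rewrite 1 [hq]; simp
    have h3 := orderOf_dvd_of_pow_eq_one h2
    rw [hr] at h3
    omega

/-- Order four centralizers do not occur when 5 divides the order. -/
theorem cent_ne_four (h5 : 5 ∣ Nat.card G) (x : G) : cent x ≠ 4 := by
  intro hx
  have h5f : Fact (Nat.Prime 5) := ⟨by norm_num⟩
  obtain ⟨P⟩ : Nonempty (Sylow 5 G) := inferInstance
  have hPn := sylow_normal hs hAH le_rfl P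
  have hP1 : (P : Subgroup G) ⊓ centralizer ({1} : Set G) ≠ ⊥ := by
    have h1 : centralizer ({1} : Set G) = ⊤ := by
      rw [eq_top_iff]
      intro x _
      rw [mem_centralizer_singleton_iff]; simp
    rw [h1, inf_top_eq]
    intro h0
    have h2 : 5 ∣ Nat.card (P : Subgroup G) := P.dvd_card_of_dvd_card h5
    rw [h0, card_bot] at h2
    omega
  obtain ⟨-, U, X, N, hN, -, -, -, -, hXN, h24, hR⟩ := lemmaR hAH le_rfl P
    (fun r _ hr Q => sylow_normal hs hAH hr Q) 1 (by simp) hP1
  have hNX : N ≤ normalizer (X : Set G) := by rw [hN]; exact inf_le_right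
  have hnorm := normal_subgroupOf_of_le_normalizer hXN hNX
  have hM24 : Nat.card (N ⧸ X.subgroupOf N) = 24 := by
    rw [← index_eq_card]; exact h24
  obtain ⟨S, hS⟩ := H515.Ah.frattini24 N X hM24 (hR hnorm) (H515.Ah.h16 hAH.isRat hx)
  rw [H515.Ah.normalizer_sylow_two hs hAH.isRat.inv S] at hS
  obtain ⟨n, hn⟩ := IsPGroup.iff_card.mp S.isPGroup'
  rw [hn] at hS
  have := (Nat.prime_dvd_prime_iff_eq Nat.prime_three Nat.prime_two).mp
    (Nat.prime_three.dvd_of_dvd_pow hS)
  omega

end

/-- Let G be a non-trivial finite solvable group in which distinct conjugacy classes have distinct sizes. Then G is isomorphic to the symmetric group of degree 3. -/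
theorem result {G : Type*} [Group G] [Finite G] [Nontrivial G] (hG : Group.IsSolvable G)
    (h : Function.Injective fun C : ConjClasses G => Nat.card C.carrier) : Nonempty (G ≃* Equiv.Perm (Fin 3)) := by
  have hAH : IsAH G := h
  exact H668.DSend.end_game hAH (fun q hq hqd => prime_le_five hG hAH q hq hqd)
    (fun x hx => (five_data hG hAH x hx).1)
    (fun x hx hx' => (five_data hG hAH x ((by norm_num : 5 ∣ 25).trans hx)).2 hx')
    (fun h5 x => cent_ne_four hG hAH h5 x)
    (fun x hx => H515.Ah.h16 hAH.isRat hx)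
    (H515.Ah.h3 hAH.isRat)

end Cfsg.Agent.S4162
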