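import Cfsg.Statements.S4164
import Cfsg.Agent.S0000
import Cfsg.Agent.H527.OneClassI
import Cfsg.Agent.H527.NRowAll
import Cfsg.Agent.H679.TheoremA

set_option autoImplicit false
open Cfsg

namespace Cfsg.Agent.S4164

/-- Let G be a finite group and p a prime such that exactly one conjugacy class of G has size divisible by p. Then one of the following holds: (i) G has a Frobenius complement H of order 2 whose Frobenius kernel has size divisible by p; (ii) G has a Frobenius complement H whose Frobenius kernel has exactly one more element than H (so G is a doubly transitive Frobenius group), and every Sylow p-subgroup of H is non-trivial and central in H; (iii) p is odd, the Fitting subgroup K of G has prime-power order (a q-group for some prime q), and for every Sylow p-subgroup P of G, with H = C_G(P), one has G = KH, K ∩ H = Z(K), and G/Z(K) is a doubly transitive Frobenius group. -/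
theorem result {G : Type*} [Group G] [Finite G] (p : ℕ) [Fact p.Prime]
    (h : ∃! C : ConjClasses G, p ∣ Nat.card C.carrier) :
    (∃ H : Subgroup G, Cfsg.IsFrobeniusComplement H ∧ Nat.card H = 2 ∧ p ∣ Nat.card (Cfsg.frobeniusKernel H)) ∨
    (∃ H : Subgroup G, Cfsg.IsFrobeniusComplement H ∧ Nat.card (Cfsg.frobeniusKernel H) = Nat.card H + 1 ∧
      ∀ Q : Sylow p H, (Q : Subgroup H) ≠ ⊥ ∧ (Q : Subgroup H) ≤ Subgroup.center H) ∨
    (p ≠ 2 ∧ (∃ q : ℕ, q.Prime ∧ IsPGroup q (Cfsg.fittingSubgroup G)) ∧
      ∀ P : Sylow p G,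
        Cfsg.fittingSubgroup G ⊔ Subgroup.centralizer ((P : Subgroup G) : Set G) = ⊤ ∧
        Cfsg.fittingSubgroup G ⊓ Subgroup.centralizer ((P : Subgroup G) : Set G) =
          (Subgroup.center (Cfsg.fittingSubgroup G)).map (Cfsg.fittingSubgroup G).subtype ∧
        ∀ _hZ : ((Subgroup.center (Cfsg.fittingSubgroup G)).map (Cfsg.fittingSubgroup G).subtype).Normal,
          ∃ Hb : Subgroup (G ⧸ (Subgroup.center (Cfsg.fittingSubgroup G)).map (Cfsg.fittingSubgroup G).subtype),
            Cfsg.IsFrobeniusComplement Hb ∧ Nat.card (Cfsg.frobeniusKernel Hb) = Nat.card Hb + 1) := by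
  refine Cfsg.Agent.H527.OC.main h (fun T _ _ _ hna => ?_) (fun L _ x hL => ?_)
  · refine Cfsg.Agent.H527.OC.nRow (Fact.out : p.Prime) T ?_ Cfsg.Agent.S0000.result
    intro hc
    exact hna fun a b => hc.is_comm.comm a b
  · exact Cfsg.Agent.H679.solvable_of_conj L x hL

end Cfsg.Agent.S4164
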