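import Cfsg.Statements.S4165
import Cfsg.Agent.S0205
import Cfsg.Agent.S4319
import Cfsg.Agent.H532.CopClass

set_option autoImplicit false
open Cfsg

namespace Cfsg.Agent.S4165

open Cfsg.Agent.H532.CopClass Cfsg.Agent.H532.CopAct

theorem cs_eq_card {G : Type*} [Group G] [Finite G] (x : G) :
    cs x = Nat.card (ConjClasses.mk x).carrier := by
  have h1 := Cfsg.Agent.SmallSimple.SelfCentPrime.card_carrier_mul_card_centralizer x
  have h2 := (Subgroup.centralizer ({x} : Set G)).card_mul_index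
  rw [← h2, mul_comm] at h1
  exact (Nat.eq_of_mul_eq_mul_left Nat.card_pos h1).symm

theorem solv_or {A G : Type*} [Group A] [Group G] [Finite A] [Finite G]
    (hcop : (Nat.card A).Coprime (Nat.card G)) : Group.IsSolvable A ∨ Group.IsSolvable G := by
  by_cases h : Odd (Nat.card A)
  · exact Or.inl (Cfsg.Agent.S0205.result h)
  · right
    apply Cfsg.Agent.S0205.result
    rw [Nat.not_odd_iff_even] at h
    by_contra h2
    rw [Nat.not_odd_iff_even] at h2
    exact Nat.not_coprime_of_dvd_of_dvd (by norm_num) h.two_dvd h2.two_dvd hcop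

theorem aux {G A : Type*} [Group G] [Finite G] [Group A] [Finite A]
    [MulDistribMulAction A G] {P Q : G → Prop} (D : Data A P Q) {x₀ y₀ : G} (hx₀ : P x₀)
    (hy₀ : Q y₀) (hmax : ∀ x, P x ∨ Q x → cs x ≤ cs y₀) : Group.IsSolvable G := by
  have hmax' : ∀ x, P x → cs x < cs y₀ := by
    intro x hx
    apply lt_of_le_of_ne (hmax x (Or.inl hx))
    intro h
    have h1 := D.cop x y₀ hx hy₀
    rw [h, Nat.coprime_self] at h1
    have h2 := one_lt_cs (D.ncQ y₀ hy₀)
    omega
  obtain ⟨N, hN, hNinv, hcomm, hnil⟩ := D.main hx₀ hy₀ hmax'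
  let act : MulDistribMulAction A (G ⧸ N) := quotAct N hNinv
  have h1 : Group.IsSolvable (G ⧸ N) :=
    Cfsg.Agent.S4319.result (A := A) (G := G ⧸ N)
      (D.hcop.symm.coprime_dvd_left (Subgroup.card_quotient_dvd_card N)) (Or.inl hnil)
  have h2 : Group.IsSolvable N := by
    have : IsMulCommutative N := ⟨⟨fun a b => Subtype.ext (hcomm a a.2 b b.2)⟩⟩
    exact Group.isSolvable_of_comm (fun a b => Subtype.ext (hcomm a a.2 b b.2))
  rw [Group.isSolvable_iff_subgroup_quotient N]
  exact ⟨h2, h1⟩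

/-- Let the finite group A act on the finite group G by automorphisms with the orders of A and G coprime. Suppose the A-invariant conjugacy classes of G of size greater than 1 can be split into two non-empty families such that the size of any class in the first family is coprime to the size of any class in the second. Then G is solvable. -/
theorem result {G A : Type*} [Group G] [Finite G] [Group A] [Finite A]
    [MulDistribMulAction A G] (hcop : (Nat.card A).Coprime (Nat.card G))
    (X Y : Set (ConjClasses G)) (hX : X.Nonempty) (hY : Y.Nonempty)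
    (hcover : ∀ C : ConjClasses G, (1 < Nat.card C.carrier ∧ ∀ a : A, ∀ g ∈ C.carrier, a • g ∈ C.carrier) ↔ (C ∈ X ∨ C ∈ Y))
    (hsplit : ∀ C ∈ X, ∀ D ∈ Y, (Nat.card C.carrier).Coprime (Nat.card D.carrier)) :
    Group.IsSolvable G := by
  classical
  have hsolv := solv_or hcop
  let P : G → Prop := fun x => (∀ a : A, a • x = x) ∧ ConjClasses.mk x ∈ X
  let Q : G → Prop := fun x => (∀ a : A, a • x = x) ∧ ConjClasses.mk x ∈ Y
  have hnc : ∀ x : G, (ConjClasses.mk x ∈ X ∨ ConjClasses.mk x ∈ Y) → x ∉ Subgroup.center G := by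
    intro x hx hc
    have h1 := ((hcover _).2 hx).1
    rw [← cs_eq_card, (cs_eq_one_iff x).2 hc] at h1
    omega
  have D : Data A P Q :=
    { hcop := hcop
      hsolv := hsolv
      fixP := fun x hx => hx.1
      fixQ := fun x hx => hx.1
      ncP := fun x hx => hnc x (Or.inl hx.2)
      ncQ := fun x hx => hnc x (Or.inr hx.2)
      cover := by
        intro x hx hxc
        have h1 : 1 < Nat.card (ConjClasses.mk x).carrier ∧
            ∀ a : A, ∀ g ∈ (ConjClasses.mk x).carrier, a • g ∈ (ConjClasses.mk x).carrier := by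
          refine ⟨by rw [← cs_eq_card]; exact one_lt_cs hxc, ?_⟩
          intro a g hg
          rw [ConjClasses.mem_carrier_iff_mk_eq, ConjClasses.mk_eq_mk_iff_isConj] at hg ⊢
          obtain ⟨c, hc⟩ := isConj_iff.1 hg
          refine isConj_iff.2 ⟨a • c, ?_⟩
          rw [← smul_inv', ← smul_mul', ← smul_mul', hc, hx]
        rcases (hcover _).1 h1 with h | h
        · exact Or.inl ⟨hx, h⟩
        · exact Or.inr ⟨hx, h⟩
      cop := by
        intro x y hx hy
        rw [cs_eq_card, cs_eq_card]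
        exact hsplit _ hx.2 _ hy.2 }
  have hex : ∀ C : ConjClasses G, (C ∈ X ∨ C ∈ Y) →
      ∃ x : G, (∀ a : A, a • x = x) ∧ ConjClasses.mk x = C := by
    intro C hC
    obtain ⟨x, hx, hfix⟩ := exists_fixed_of_class hcop hsolv C ((hcover C).2 hC).2
    exact ⟨x, hfix, ConjClasses.mem_carrier_iff_mk_eq.1 hx⟩
  obtain ⟨C₁, hC₁⟩ := hX
  obtain ⟨C₂, hC₂⟩ := hY
  obtain ⟨x₀, hx₀, hx₀C⟩ := hex C₁ (Or.inl hC₁)
  obtain ⟨y₀, hy₀, hy₀C⟩ := hex C₂ (Or.inr hC₂)
  have hPx : P x₀ := ⟨hx₀, by rw [hx₀C]; exact hC₁⟩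
  have hQy : Q y₀ := ⟨hy₀, by rw [hy₀C]; exact hC₂⟩
  obtain ⟨z, hz, hzmax⟩ := Set.exists_max_image {x : G | P x ∨ Q x} cs (Set.toFinite _)
    ⟨x₀, Or.inl hPx⟩
  rcases hz with hz | hz
  · exact aux D.symm hQy hz (fun x hx => hzmax x hx.symm)
  · exact aux D hPx hz (fun x hx => hzmax x hx)

end Cfsg.Agent.S4165
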