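import Cfsg.Statements.S4167
import Cfsg.Agent.H524.FourMain

set_option autoImplicit false
open Cfsg

namespace Cfsg.Agent.S4167

/-- Let G be a finite group in which no conjugacy class has size divisible by 4. Then G is solvable. -/
theorem result {G : Type*} [Group G] [Finite G]
    (h : ∀ x : G, ¬ 4 ∣ (Subgroup.centralizer ({x} : Set G)).index) : Group.IsSolvable G := by
  exact Cfsg.Agent.H524.FourMain.solvable_of_not_four_dvd h

end Cfsg.Agent.S4167
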