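import Cfsg.Statements.S4169
import Cfsg.Agent.S0015

set_option autoImplicit false
open Cfsg

namespace Cfsg.Agent.S4169

/-- A map on a group whose fibres are the left cosets of `H` has `H.index` values. -/
theorem ncard_range_eq_index {G X : Type*} [Group G] (H : Subgroup G) (f : G → X)
    (hf : ∀ a b, f a = f b ↔ a⁻¹ * b ∈ H) : (Set.range f).ncard = H.index := by
  classical
  symm
  rw [Subgroup.index, ← Nat.card_coe_set_eq]
  refine Nat.card_congr (Equiv.ofBijective
    (fun q : G ⧸ H => (⟨Quotient.lift f (fun a b hab => (hf a b).mpr (QuotientGroup.leftRel_apply.mp hab)) q, ?_⟩ : Set.range f)) ⟨?_, ?_⟩)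
  · obtain ⟨a, rfl⟩ := QuotientGroup.mk_surjective q
    exact ⟨a, rfl⟩
  · intro p q hpq
    obtain ⟨a, rfl⟩ := QuotientGroup.mk_surjective p
    obtain ⟨b, rfl⟩ := QuotientGroup.mk_surjective q
    have h1 : f a = f b := congrArg Subtype.val hpq
    exact QuotientGroup.eq.mpr ((hf a b).mp h1)
  · rintro ⟨_, ⟨a, rfl⟩⟩
    exact ⟨(a : G ⧸ H), rfl⟩

/-- If `K` is an abelian normal subgroup of a finite group and `y = [k, x]` with `k ∈ K`, `y ≠ 1`,
then the centralizer of `y` is larger than that of `x`. -/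
theorem card_centralizer_lt {P : Type*} [Group P] [Finite P] (K : Subgroup P) [K.Normal]
    [IsMulCommutative K] (x k : P) (hk : k ∈ K) (hy : k⁻¹ * (x⁻¹ * k * x) ≠ 1) :
    Nat.card (Subgroup.centralizer ({x} : Set P)) <
      Nat.card (Subgroup.centralizer ({k⁻¹ * (x⁻¹ * k * x)} : Set P)) := by
  classical
  have hcomm : ∀ a ∈ K, ∀ b ∈ K, a * b = b * a := fun a ha b hb =>
    congrArg Subtype.val (mul_comm' (⟨a, ha⟩ : K) ⟨b, hb⟩)
  set y : P := k⁻¹ * (x⁻¹ * k * x) with hydef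
  have hconj : ∀ a ∈ K, ∀ g : P, g⁻¹ * a * g ∈ K := fun a ha g => by
    simpa using (inferInstance : K.Normal).conj_mem a ha g⁻¹
  have hyK : y ∈ K := mul_mem (inv_mem hk) (hconj k hk x)
  set C : Subgroup P := Subgroup.centralizer ({x} : Set P) with hC
  set D : Subgroup P := C ⊓ Subgroup.centralizer ({y} : Set P) with hD
  -- K ⊓ C = K ⊓ D
  have hKcent : K ≤ Subgroup.centralizer ({y} : Set P) := by
    intro a ha
    rw [Subgroup.mem_centralizer_singleton_iff]
    exact hcomm a ha y hyK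
  have hKD : K ⊓ D = K ⊓ C := by
    apply le_antisymm
    · exact inf_le_inf_left _ inf_le_left
    · intro a ha
      exact ⟨ha.1, ha.2, hKcent ha.1⟩
  -- |C : D| < |K : K ∩ C|
  have h1 : (D.relIndex C) < C.relIndex K := by
    -- the map φ : K → K, a ↦ a⁻¹ a^x
    let φ : K → P := fun a => (a : P)⁻¹ * (x⁻¹ * a * x)
    let ψ : C → P := fun c => (c : P) * y * (c : P)⁻¹
    have hφeq : ∀ a b : K, φ a = φ b ↔ a⁻¹ * b ∈ C.subgroupOf K := by
      intro a b
      rw [Subgroup.mem_subgroupOf, hC, Subgroup.mem_centralizer_singleton_iff]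
      have hab : ((a⁻¹ * b : K) : P) = (b : P) * (a : P)⁻¹ := by
        simp only [Subgroup.coe_mul, Subgroup.coe_inv]
        exact hcomm _ (inv_mem a.2) _ b.2
      rw [hab]
      change (a : P)⁻¹ * (x⁻¹ * a * x) = (b : P)⁻¹ * (x⁻¹ * b * x) ↔ _
      constructor
      · intro h
        have h2 : (b : P) * (a : P)⁻¹ = x⁻¹ * ((b : P) * (a : P)⁻¹) * x := by
          calc (b : P) * (a : P)⁻¹ = b * ((a : P)⁻¹ * (x⁻¹ * a * x)) * (x⁻¹ * a * x)⁻¹ := by group
            _ = b * ((b : P)⁻¹ * (x⁻¹ * b * x)) * (x⁻¹ * a * x)⁻¹ := by rw [h]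
            _ = _ := by group
        calc (b : P) * (a : P)⁻¹ * x = x * (x⁻¹ * ((b : P) * (a : P)⁻¹) * x) := by group
          _ = x * ((b : P) * (a : P)⁻¹) := by rw [← h2]
      · intro h
        have h2 : (b : P) * (a : P)⁻¹ = x⁻¹ * ((b : P) * (a : P)⁻¹) * x := by
          calc (b : P) * (a : P)⁻¹ = x⁻¹ * (x * ((b : P) * (a : P)⁻¹)) := by group
            _ = x⁻¹ * ((b : P) * (a : P)⁻¹ * x) := by rw [h]
            _ = _ := by group
        calc (a : P)⁻¹ * (x⁻¹ * a * x) = (b : P)⁻¹ * ((b : P) * (a : P)⁻¹) * (x⁻¹ * a * x) := by group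
          _ = (b : P)⁻¹ * (x⁻¹ * ((b : P) * (a : P)⁻¹) * x) * (x⁻¹ * a * x) := by rw [← h2]
          _ = _ := by group
    have hψeq : ∀ a b : C, ψ a = ψ b ↔ a⁻¹ * b ∈ D.subgroupOf C := by
      intro a b
      have hmem : ((a⁻¹ * b : C) : P) ∈ C := (a⁻¹ * b).2
      rw [Subgroup.mem_subgroupOf, hD, Subgroup.mem_inf, and_iff_right hmem,
        Subgroup.mem_centralizer_singleton_iff]
      change (a : P) * y * (a : P)⁻¹ = (b : P) * y * (b : P)⁻¹ ↔ (a : P)⁻¹ * b * y = y * ((a : P)⁻¹ * b)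
      constructor
      · intro h
        calc (a : P)⁻¹ * b * y = (a : P)⁻¹ * ((b : P) * y * (b : P)⁻¹) * b := by group
          _ = (a : P)⁻¹ * ((a : P) * y * (a : P)⁻¹) * b := by rw [h]
          _ = _ := by group
      · intro h
        calc (a : P) * y * (a : P)⁻¹ = (a : P) * (y * ((a : P)⁻¹ * b)) * (b : P)⁻¹ := by group
          _ = (a : P) * ((a : P)⁻¹ * b * y) * (b : P)⁻¹ := by rw [h]
          _ = _ := by group
    have hcφ : (Set.range φ).ncard = C.relIndex K := ncard_range_eq_index _ φ hφeq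
    have hcψ : (Set.range ψ).ncard = D.relIndex C := ncard_range_eq_index _ ψ hψeq
    rw [← hcφ, ← hcψ]
    apply Set.ncard_lt_ncard _ (Set.toFinite _)
    refine ⟨?_, ?_⟩
    · rintro _ ⟨c, rfl⟩
      have hcx : (c : P) * x = x * c := Subgroup.mem_centralizer_singleton_iff.mp c.2
      have hcx' : (c : P)⁻¹ * x = x * (c : P)⁻¹ :=
        Subgroup.mem_centralizer_singleton_iff.mp (inv_mem c.2)
      have hcK : (c : P) * k * (c : P)⁻¹ ∈ K := (inferInstance : K.Normal).conj_mem k hk c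
      refine ⟨⟨_, hcK⟩, ?_⟩
      change ((c : P) * k * (c : P)⁻¹)⁻¹ * (x⁻¹ * ((c : P) * k * (c : P)⁻¹) * x) =
        (c : P) * (k⁻¹ * (x⁻¹ * k * x)) * (c : P)⁻¹
      have e1 : x⁻¹ * (c : P) = c * x⁻¹ := by
        calc x⁻¹ * (c : P) = x⁻¹ * (c * x) * x⁻¹ := by group
          _ = x⁻¹ * (x * c) * x⁻¹ := by rw [hcx]
          _ = _ := by group
      calc ((c : P) * k * (c : P)⁻¹)⁻¹ * (x⁻¹ * ((c : P) * k * (c : P)⁻¹) * x)
          = (c : P) * k⁻¹ * (c : P)⁻¹ * ((x⁻¹ * (c : P)) * k * ((c : P)⁻¹ * x)) := by group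
        _ = (c : P) * k⁻¹ * (c : P)⁻¹ * ((c * x⁻¹) * k * (x * (c : P)⁻¹)) := by rw [e1, hcx']
        _ = _ := by group
    · intro hsub
      have h1 : (1 : P) ∈ Set.range φ := ⟨1, by simp [φ]⟩
      obtain ⟨c, hc⟩ := hsub h1
      apply hy
      have hc' : (c : P) * y * (c : P)⁻¹ = 1 := hc
      calc y = (c : P)⁻¹ * ((c : P) * y * (c : P)⁻¹) * c := by group
        _ = 1 := by rw [hc']; group
  have hDK : Nat.card (↥(D ⊔ K)) = C.relIndex K * Nat.card D := by
    rw [← Subgroup.relIndex_bot_left (D ⊔ K), ← Subgroup.relIndex_mul_relIndex ⊥ K (D ⊔ K) bot_le le_sup_right,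
      Subgroup.relIndex_sup_right, ← Subgroup.relIndex_bot_left D,
      ← Subgroup.relIndex_mul_relIndex ⊥ (K ⊓ C) K bot_le inf_le_left,
      ← Subgroup.relIndex_mul_relIndex ⊥ (K ⊓ D) D bot_le inf_le_right, hKD,
      Subgroup.inf_relIndex_left, ← hKD, Subgroup.inf_relIndex_right]
    ring
  have hle : D ⊔ K ≤ Subgroup.centralizer ({y} : Set P) := sup_le inf_le_right hKcent
  have h2 : Nat.card (↥(D ⊔ K)) ≤ Nat.card (Subgroup.centralizer ({y} : Set P)) :=
    Subgroup.card_le_of_le hle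
  have h3 : Nat.card C = D.relIndex C * Nat.card D := by
    have hDC : D ≤ C := inf_le_left
    rw [← Subgroup.relIndex_bot_left C, ← Subgroup.relIndex_mul_relIndex ⊥ D C bot_le hDC,
      Subgroup.relIndex_bot_left, mul_comm]
  calc Nat.card C = D.relIndex C * Nat.card D := h3
    _ < C.relIndex K * Nat.card D := by
        apply Nat.mul_lt_mul_of_pos_right h1 Nat.card_pos
    _ = Nat.card (↥(D ⊔ K)) := hDK.symm
    _ ≤ _ := h2

/-- Let P be a finite p-group whose conjugacy classes have exactly two sizes (1 and one other value). Then P has nilpotency class at most 3. -/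
theorem result {P : Type*} [Group P] [Finite P] {p : ℕ} [Fact p.Prime] (hP : IsPGroup p P)
    (m : ℕ) (hm : 1 < m) (h : ∀ x : P, (Subgroup.centralizer ({x} : Set P)).index = 1 ∨ (Subgroup.centralizer ({x} : Set P)).index = m) :
    upperCentralSeries P 3 = ⊤ := by
  classical
  have hnil : Group.IsNilpotent P := hP.isNilpotent
  have hcen : ∀ x : P, (Subgroup.centralizer ({x} : Set P)).index = 1 → x ∈ Subgroup.center P := by
    intro x hx
    rw [Subgroup.index_eq_one] at hx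
    rw [Subgroup.mem_center_iff]
    intro g
    have : g ∈ Subgroup.centralizer ({x} : Set P) := hx ▸ Subgroup.mem_top g
    exact Subgroup.mem_centralizer_singleton_iff.mp this
  -- key: commutators of abelian normal subgroups are central
  have key : ∀ K : Subgroup P, K.Normal → IsMulCommutative K → ∀ k ∈ K, ∀ x : P,
      k⁻¹ * (x⁻¹ * k * x) ∈ Subgroup.center P := by
    intro K hKn hKc k hk x
    by_cases hy : k⁻¹ * (x⁻¹ * k * x) = 1
    · rw [hy]; exact one_mem _
    rcases h x with hx | hx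
    · exfalso
      apply hy
      have h1 := Subgroup.mem_center_iff.mp (hcen x hx) k
      calc k⁻¹ * (x⁻¹ * k * x) = k⁻¹ * (x⁻¹ * (k * x)) := by group
        _ = 1 := by rw [h1]; group
    · rcases h (k⁻¹ * (x⁻¹ * k * x)) with hz | hz
      · exact hcen _ hz
      · exfalso
        have h1 := card_centralizer_lt K x k hk hy
        have h2 := (Subgroup.centralizer ({x} : Set P)).index_mul_card
        have h3 := (Subgroup.centralizer ({k⁻¹ * (x⁻¹ * k * x)} : Set P)).index_mul_card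
        rw [hx] at h2
        rw [hz, ← h2] at h3
        have h4 := Nat.eq_of_mul_eq_mul_left (by omega) h3
        omega
  -- maximal abelian normal subgroup
  obtain ⟨A, ⟨hAn, hAc⟩, hAmax⟩ : ∃ A : Subgroup P, (A.Normal ∧ IsMulCommutative A) ∧
      ∀ M : Subgroup P, M.Normal → IsMulCommutative M → A ≤ M → M = A := by
    have hfin : Set.Finite {A : Subgroup P | A.Normal ∧ IsMulCommutative A} := Set.toFinite _
    have hne : {A : Subgroup P | A.Normal ∧ IsMulCommutative A}.Nonempty :=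
      ⟨⊥, inferInstance, inferInstance⟩
    obtain ⟨A, hA⟩ := hfin.exists_maximal hne
    refine ⟨A, hA.prop, fun M hM1 hM2 hle => ?_⟩
    exact le_antisymm (hA.le_of_ge ⟨hM1, hM2⟩ hle) hle
  have hself : Subgroup.centralizer (A : Set P) = A := S0015.result A hAmax
  -- [P,P] ≤ A
  have hcom : ∀ g x : P, g * x * g⁻¹ * x⁻¹ ∈ A := by
    intro g x
    rw [← hself, Subgroup.mem_centralizer_iff]
    intro k hk
    have hcz : ∀ x : P, ∀ z : P, (k⁻¹ * (x⁻¹ * k * x)) * z = z * (k⁻¹ * (x⁻¹ * k * x)) := by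
      intro x z
      exact ((Subgroup.mem_center_iff.mp (key A hAn hAc k hk x)) z).symm
    have hmul : ∀ x y : P, k⁻¹ * ((x * y)⁻¹ * k * (x * y)) =
        (k⁻¹ * (x⁻¹ * k * x)) * (k⁻¹ * (y⁻¹ * k * y)) := by
      intro x y
      calc k⁻¹ * ((x * y)⁻¹ * k * (x * y))
          = k⁻¹ * (y⁻¹ * k * ((k⁻¹ * (x⁻¹ * k * x)) * y)) := by group
        _ = k⁻¹ * (y⁻¹ * k * (y * (k⁻¹ * (x⁻¹ * k * x)))) := by rw [hcz x y]
        _ = (k⁻¹ * (y⁻¹ * k * y)) * (k⁻¹ * (x⁻¹ * k * x)) := by group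
        _ = _ := hcz y _
    have h1 := hmul (g * x * g⁻¹ * x⁻¹) (x * g)
    have h2 : (g * x * g⁻¹ * x⁻¹) * (x * g) = g * x := by group
    rw [h2, hmul g x, hmul x g, hcz g] at h1
    have h3 : k⁻¹ * ((g * x * g⁻¹ * x⁻¹)⁻¹ * k * (g * x * g⁻¹ * x⁻¹)) = 1 := by
      exact (mul_eq_right.mp h1.symm)
    calc k * (g * x * g⁻¹ * x⁻¹) = (g * x * g⁻¹ * x⁻¹) * k *
          (k⁻¹ * ((g * x * g⁻¹ * x⁻¹)⁻¹ * k * (g * x * g⁻¹ * x⁻¹))) := by group
      _ = _ := by rw [h3, mul_one]
  have hA2 : ∀ k ∈ A, k ∈ Subgroup.upperCentralSeries P 2 := by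
    intro k hk
    rw [Subgroup.mem_upperCentralSeries_succ_iff]
    intro y
    rw [Subgroup.upperCentralSeries_one]
    have := key A hAn hAc k⁻¹ (inv_mem hk) y⁻¹
    rw [commutatorElement_def]
    simpa [mul_assoc] using this
  change Subgroup.upperCentralSeries P 3 = ⊤
  rw [eq_top_iff]
  intro x _
  rw [Subgroup.mem_upperCentralSeries_succ_iff]
  intro y
  exact hA2 _ (hcom x y)

end Cfsg.Agent.S4169
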