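import Cfsg.Statements.S4176
import Cfsg.Agent.H535.SpanOrbit
import Cfsg.Agent.H535.PComplement

set_option autoImplicit false
open Cfsg

namespace Cfsg.Agent.S4176

open Cfsg.Agent.H535 in
/-- If `Q` is transitive on the orbit of `a`, which spans, and `|Q| ≠ 0` in `k`, the `Q`-fixed vectors are the
multiples of the sum of the `ρ q a`. -/
theorem fixed_eq_smul {k V H : Type*} [Field k] [AddCommGroup V] [Module k V] [Group H] [Finite H]
    (ρ : Representation k H V) (a : V)
    (hspan : Submodule.span k {u : V | ∃ h : H, ρ h a = u} = ⊤) (Q : Subgroup H) [Fintype Q]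
    (hne : (Fintype.card Q : k) ≠ 0)
    (hQ : ∀ h : H, ∃ q ∈ Q, ρ h a = ρ q a) (v : V) (hv : ∀ q ∈ Q, ρ q v = v) :
    ∃ c : k, v = c • ∑ q : Q, ρ q a := by
  classical
  have := Fintype.ofFinite H
  obtain ⟨c, hc⟩ := exists_coeffs ρ a hspan v
  refine ⟨(Fintype.card Q : k)⁻¹ * ∑ h, c h, ?_⟩
  have h1 : (Fintype.card Q : k) • v = ∑ g : Q, ρ g v := by
    have : ∀ g : Q, ρ g v = v := fun g => hv g g.2
    simp [this, Nat.cast_smul_eq_nsmul]
  have h2 : ∑ g : Q, ρ g v = (∑ h, c h) • ∑ q : Q, ρ q a := by
    conv_lhs => rw [hc]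
    simp only [map_sum, map_smul]
    rw [Finset.sum_comm, Finset.sum_smul]
    refine Finset.sum_congr rfl fun h _ => ?_
    rw [← Finset.smul_sum]
    congr 1
    obtain ⟨q₀, hq₀, hh⟩ := hQ h
    rw [hh]
    have : ∀ g : Q, ρ g (ρ q₀ a) = ρ (g * (⟨q₀, hq₀⟩ : Q) : Q) a := fun g => by
      rw [Subgroup.coe_mul, map_mul]; rfl
    simp only [this]
    exact Fintype.sum_equiv (Equiv.mulRight (⟨q₀, hq₀⟩ : Q)) _ _ (fun g => rfl)
  rw [mul_smul, ← h2, ← h1, smul_smul, inv_mul_cancel₀ hne, one_smul]

open Cfsg.Agent.H535 in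
/-- Let k be a field of prime characteristic p, H a finite p-soluble group and ρ a k-linear representation of H on V. Let a be a vector that is fixed by some Sylow p-subgroup of H and whose H-orbit spans V. Then the space of H-fixed vectors has dimension at most 1, and every vector b whose H-orbit has size coprime to the size of the orbit of a is fixed by H. -/
theorem result {k V H : Type*} [Field k] (p : ℕ) [Fact p.Prime] [CharP k p] [AddCommGroup V] [Module k V]
    [Group H] [Finite H] (hsol : Cfsg.IsPSolvable p H) (ρ : Representation k H V) (a : V)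
    (hfix : ∃ P : Sylow p H, ∀ x : H, x ∈ (P : Subgroup H) → ρ x a = a)
    (hspan : Submodule.span k {u : V | ∃ h : H, ρ h a = u} = ⊤) :
    Module.finrank k ρ.invariants ≤ 1 ∧
    ∀ b : V, (Nat.card {u : V | ∃ h : H, ρ h a = u}).Coprime (Nat.card {u : V | ∃ h : H, ρ h b = u}) → ∀ h : H, ρ h b = b := by
  classical
  obtain ⟨P, hP⟩ := hfix
  have hp : p.Prime := Fact.out
  -- the orbit of `a` has size prime to `p`
  have horb : (Nat.card {u : V | ∃ h : H, ρ h a = u}).Coprime p := by
    rw [← index_vstab, Nat.coprime_comm, hp.coprime_iff_not_dvd]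
    intro hdvd
    have hle : (P : Subgroup H) ≤ vstab ρ a := fun x hx => hP x hx
    exact P.not_dvd_index (hdvd.trans (Subgroup.index_dvd_of_le hle))
  have hcard : ∀ Q : Subgroup H, (Nat.card Q).Coprime p → ∀ [Fintype Q], (Fintype.card Q : k) ≠ 0 := by
    intro Q hQ _ h0
    rw [CharP.cast_eq_zero_iff k p, ← Nat.card_eq_fintype_card] at h0
    exact (hp.coprime_iff_not_dvd.1 hQ.symm) h0
  constructor
  · obtain ⟨Q, hQ, m, hm⟩ := exists_pComplement p hsol
    have := Fintype.ofFinite Q
    have htr : ∀ h : H, ∃ q ∈ Q, ρ h a = ρ q a := by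
      refine vtransitive_of_coprime ρ Q a ?_
      rw [hm]
      exact horb.pow_right m
    have hle : ρ.invariants ≤ Submodule.span k {∑ q : Q, ρ q a} := by
      intro v hv
      obtain ⟨c, hc⟩ := fixed_eq_smul ρ a hspan Q (hcard Q hQ) htr v (fun q _ => hv q)
      rw [hc]
      exact Submodule.smul_mem _ _ (Submodule.mem_span_singleton_self _)
    refine (Submodule.finrank_mono hle).trans ?_
    exact (finrank_span_le_card ({∑ q : Q, ρ q a} : Set V)).trans (by simp)
  · intro b hb h
    set B := vstab ρ b with hB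
    obtain ⟨Q₀, hQ₀, m, hm⟩ := exists_pComplement (G := B) p
      (Lib.PSolvable.IsPSolvable_of_injective p hsol B.subtype B.subtype_injective)
    set Q : Subgroup H := Q₀.map B.subtype with hQdef
    have hQB : Q ≤ B := Subgroup.map_subtype_le Q₀
    have hQ : (Nat.card Q).Coprime p := by
      have h1 : Nat.card Q = Nat.card Q₀ :=
        (Nat.card_congr (Q₀.equivMapOfInjective B.subtype B.subtype_injective).toEquiv).symm
      rw [h1]; exact hQ₀
    have hidx : Q.index = p ^ m * B.index := by
      rw [← Subgroup.relIndex_mul_index hQB, ← hm]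
      congr 1
      show ((Q₀.map B.subtype).subgroupOf B).index = Q₀.index
      congr 1
      exact Subgroup.comap_map_eq_self_of_injective B.subtype_injective Q₀
    have := Fintype.ofFinite Q
    have htr : ∀ h : H, ∃ q ∈ Q, ρ h a = ρ q a := by
      refine vtransitive_of_coprime ρ Q a ?_
      rw [hidx]
      refine Nat.Coprime.mul_right (horb.pow_right m) ?_
      rw [hB, index_vstab]
      exact hb
    obtain ⟨c, hc⟩ := fixed_eq_smul ρ a hspan Q (hcard Q hQ) htr b (fun q hq => hQB hq)
    rw [hc, map_smul, sum_subgroup_invariant ρ a Q htr h]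

end Cfsg.Agent.S4176
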