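import Cfsg.Statements.S4178

set_option autoImplicit false
open Cfsg

namespace Cfsg.Agent.S4178

/-- An index bounded by the number of values of a function separating cosets. -/
theorem index_le_of_fun {H X : Type*} [Group H] (R : Subgroup H) (f : H → X)
    (hf : ∀ h h' : H, f h = f h' → h⁻¹ * h' ∈ R) (S : Set X) (hS : S.Finite) (hfS : ∀ h, f h ∈ S) :
    R.index ≤ S.ncard := by
  have : Finite S := hS
  rw [← Nat.card_coe_set_eq, Subgroup.index]
  refine Nat.card_le_card_of_injective (fun x : H ⧸ R => (⟨f x.out, hfS _⟩ : S)) ?_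
  intro x y hxy
  have h1 : f x.out = f y.out := congrArg Subtype.val hxy
  rw [← QuotientGroup.out_eq' x, ← QuotientGroup.out_eq' y]
  exact QuotientGroup.eq.2 (hf _ _ h1)

/-- An element acting with eigenvalue one on `V / W` has a fixed vector. -/
theorem exists_fixed {F V : Type*} [Field F] [AddCommGroup V] [Module F V] [FiniteDimensional F V]
    (h : V ≃ₗ[F] V) (W : Submodule F V) (hW : ∀ w ∈ W, h w ∈ W) (v : V) (hv : v ∉ W) (hh : h v - v ∈ W) :
    ∃ u : V, u ≠ 0 ∧ h u = u := by
  by_contra hcon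
  push Not at hcon
  set T : V →ₗ[F] V := h.toLinearMap - LinearMap.id with hT
  have hTa : ∀ u, T u = h u - u := fun u => rfl
  have hinj : ∀ u, T u = 0 → u = 0 := by
    intro u hu
    by_contra hne
    exact hcon u hne (sub_eq_zero.1 hu)
  have hTW : ∀ w ∈ W, T w ∈ W := fun w hw => W.sub_mem (hW w hw) hw
  have h1 : Function.Injective (T.restrict hTW) := by
    rw [← LinearMap.ker_eq_bot, LinearMap.ker_eq_bot']
    intro w hw
    have h2 : T (w : V) = 0 := congrArg Subtype.val hw
    exact Subtype.ext (hinj _ h2)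
  have h3 : Function.Surjective (T.restrict hTW) := LinearMap.surjective_of_injective h1
  obtain ⟨w, hw⟩ := h3 ⟨h v - v, hh⟩
  have h4 : T (w : V) = h v - v := congrArg Subtype.val hw
  have h5 : T ((w : V) - v) = 0 := by rw [map_sub, h4, hTa v, sub_self]
  have h6 := hinj _ h5
  exact hv (by rw [← sub_eq_zero.1 h6]; exact w.2)

theorem card_nonzero {F V : Type*} [Field F] [Fintype F] [AddCommGroup V] [Module F V] [FiniteDimensional F V] :
    ({x : V | x ≠ 0} : Set V).Finite ∧ ({x : V | x ≠ 0} : Set V).ncard = Fintype.card F ^ Module.finrank F V - 1 := by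
  have : Finite V := Module.finite_of_finite F
  refine ⟨Set.toFinite _, ?_⟩
  have h1 : ({x : V | x ≠ 0} : Set V) = ({0} : Set V)ᶜ := rfl
  have h2 : Nat.card V = Fintype.card F ^ Module.finrank F V := by
    rw [Module.natCard_eq_pow_finrank (K := F), Nat.card_eq_fintype_card]
  rw [h1, Set.ncard_compl, Set.ncard_singleton, h2]

theorem real_bound (q m d n : ℕ) (hq : 1 ≤ q) (hmd : 2 * m ≤ d) (hn : n ≤ q ^ m - 1) :
    (n : ℝ) ≤ Real.sqrt ((q : ℝ) ^ d) - 1 := by
  have h1 : 1 ≤ q ^ m := Nat.one_le_pow _ _ hq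
  have h2 : n + 1 ≤ q ^ m := by omega
  have h3 : (n : ℝ) + 1 ≤ (q : ℝ) ^ m := by exact_mod_cast h2
  have h4 : (q : ℝ) ^ m ≤ Real.sqrt ((q : ℝ) ^ d) := by
    apply Real.le_sqrt_of_sq_le
    rw [← pow_mul, mul_comm m 2]
    exact pow_le_pow_right₀ (by exact_mod_cast hq) hmd
  linarith

/-- Let F be a finite field with q elements, V a non-zero finite-dimensional F-space of dimension d, H a group of invertible linear maps of V, and R the subgroup of H generated by the elements of H that fix some non-zero vector (have eigenvalue 1). Then the index of R in H is at most q^d − 1; and if H leaves invariant some proper non-zero subspace, the index is at most q^(d/2) − 1. -/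
theorem result {F V : Type*} [Field F] [Fintype F] [AddCommGroup V] [Module F V] [FiniteDimensional F V] [Nontrivial V]
    (H : Subgroup (V ≃ₗ[F] V)) :
    (Subgroup.closure {h : ↥H | ∃ v : V, v ≠ 0 ∧ (h : V ≃ₗ[F] V) v = v}).index ≤ Fintype.card F ^ Module.finrank F V - 1 ∧
    ((∃ W : Submodule F V, W ≠ ⊥ ∧ W ≠ ⊤ ∧ ∀ h ∈ H, ∀ w ∈ W, h w ∈ W) →
      ((Subgroup.closure {h : ↥H | ∃ v : V, v ≠ 0 ∧ (h : V ≃ₗ[F] V) v = v}).index : ℝ) ≤ Real.sqrt ((Fintype.card F : ℝ) ^ Module.finrank F V) - 1) := by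
  set R := Subgroup.closure {h : ↥H | ∃ v : V, v ≠ 0 ∧ (h : V ≃ₗ[F] V) v = v} with hR
  -- the function `h ↦ h v`
  have hsep : ∀ v : V, v ≠ 0 → ∀ h h' : H, (h : V ≃ₗ[F] V) v = (h' : V ≃ₗ[F] V) v → h⁻¹ * h' ∈ R := by
    intro v hv h h' he
    refine Subgroup.subset_closure ⟨v, hv, ?_⟩
    rw [Subgroup.coe_mul, Subgroup.coe_inv, LinearEquiv.mul_apply, ← he]
    exact (h : V ≃ₗ[F] V).symm_apply_apply v
  constructor
  · obtain ⟨v, hv⟩ := exists_ne (0 : V)
    rw [← (card_nonzero (F := F) (V := V)).2]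
    refine index_le_of_fun R (fun h => (h : V ≃ₗ[F] V) v) (hsep v hv) _ (card_nonzero (F := F)).1 ?_
    intro h
    exact (LinearEquiv.map_ne_zero_iff (h : V ≃ₗ[F] V)).2 hv
  · rintro ⟨W, hW0, hW1, hWH⟩
    have hqpos : 1 ≤ Fintype.card F := Fintype.card_pos
    by_cases hdim : 2 * Module.finrank F W ≤ Module.finrank F V
    · refine real_bound _ (Module.finrank F W) _ _ hqpos hdim ?_
      obtain ⟨w, hw, hw0⟩ := W.ne_bot_iff.1 hW0
      rw [← (card_nonzero (F := F) (V := W)).2]
      refine index_le_of_fun R (fun h => (⟨(h : V ≃ₗ[F] V) w, hWH h h.2 w hw⟩ : W)) ?_ _ (card_nonzero (F := F)).1 ?_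
      · intro h h' he
        exact hsep w hw0 h h' (congrArg Subtype.val he)
      · intro h h0
        have h1 : (h : V ≃ₗ[F] V) w = 0 := congrArg Subtype.val h0
        exact hw0 ((LinearEquiv.map_eq_zero_iff (h : V ≃ₗ[F] V)).1 h1)
    · have hquo : Module.finrank F (V ⧸ W) + Module.finrank F W = Module.finrank F V :=
        W.finrank_quotient_add_finrank
      refine real_bound _ (Module.finrank F (V ⧸ W)) _ _ hqpos (by omega) ?_
      obtain ⟨v, hv⟩ : ∃ v : V, v ∉ W := by
        by_contra hcon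
        push Not at hcon
        exact hW1 (by ext x; simp [hcon x])
      rw [← (card_nonzero (F := F) (V := V ⧸ W)).2]
      refine index_le_of_fun R (fun h => W.mkQ ((h : V ≃ₗ[F] V) v)) ?_ _ (card_nonzero (F := F)).1 ?_
      · intro h h' he
        have h1 : (h' : V ≃ₗ[F] V) v - (h : V ≃ₗ[F] V) v ∈ W := by
          rw [← W.ker_mkQ, LinearMap.mem_ker, map_sub, ← he]
          simp
        have h2 : ((h⁻¹ * h' : H) : V ≃ₗ[F] V) v - v ∈ W := by
          have h3 := hWH (h⁻¹ : H) (h⁻¹ : H).2 _ h1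
          rw [map_sub] at h3
          have h4 : ((h⁻¹ : H) : V ≃ₗ[F] V) ((h : V ≃ₗ[F] V) v) = v := by
            rw [Subgroup.coe_inv]
            exact (h : V ≃ₗ[F] V).symm_apply_apply v
          rw [h4] at h3
          exact h3
        exact Subgroup.subset_closure (exists_fixed _ W (hWH _ (h⁻¹ * h' : H).2) v hv h2)
      · intro h h0
        have h1 : (h : V ≃ₗ[F] V) v ∈ W := by
          rw [← W.ker_mkQ, LinearMap.mem_ker]
          exact h0
        have h3 := hWH (h⁻¹ : H) (h⁻¹ : H).2 _ h1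
        have h4 : ((h⁻¹ : H) : V ≃ₗ[F] V) ((h : V ≃ₗ[F] V) v) = v := by
          rw [Subgroup.coe_inv]
          exact (h : V ≃ₗ[F] V).symm_apply_apply v
        rw [h4] at h3
        exact hv h3

end Cfsg.Agent.S4178
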