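import Cfsg.Statements.S4182
-- import your own Cfsg.Agent.* helpers here

set_option autoImplicit false
open Cfsg

namespace Cfsg.Agent.S4182

open scoped Pointwise

section aux

variable {G : Type*} [Group G]

/-- the `p`-elements of `H` -/
def pels (p : ℕ) (H : Subgroup G) : Set G := {g | g ∈ H ∧ ∃ k : ℕ, orderOf g = p ^ k}

/-- the subgroup generated by the `p`-elements of `H` -/
def pcl (p : ℕ) (H : Subgroup G) : Subgroup G := Subgroup.closure (pels p H)

theorem pcl_le (p : ℕ) (H : Subgroup G) : pcl p H ≤ H := by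
  rw [pcl, Subgroup.closure_le]
  intro g hg
  exact hg.1

theorem pels_sub_pcl (p : ℕ) (H : Subgroup G) : pels p H ⊆ pcl p H := Subgroup.subset_closure

theorem pcl_pcl (p : ℕ) (H : Subgroup G) : pcl p (pcl p H) = pcl p H := by
  apply le_antisymm (pcl_le _ _)
  conv_lhs => rw [pcl]
  rw [Subgroup.closure_le]
  intro g hg
  exact Subgroup.subset_closure ⟨pels_sub_pcl p H hg, hg.2⟩

theorem pels_conj (p : ℕ) (H : Subgroup G) (h : G) :
    pels p (MulAut.conj h • H) = MulAut.conj h • pels p H := by
  ext g
  rw [Set.mem_smul_set_iff_inv_smul_mem]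
  simp only [pels, Set.mem_ofPred_eq]
  rw [Subgroup.mem_pointwise_smul_iff_inv_smul_mem]
  have : orderOf ((MulAut.conj h)⁻¹ • g) = orderOf g := by
    rw [← map_inv, MulAut.smul_def]
    exact MulEquiv.orderOf_eq _ g
  rw [this]

theorem pcl_conj (p : ℕ) (H : Subgroup G) (h : G) :
    pcl p (MulAut.conj h • H) = MulAut.conj h • pcl p H := by
  rw [pcl, pels_conj, pcl, Subgroup.smul_closure]

theorem pcl_of_isPGroup (p : ℕ) [Fact p.Prime] (H : Subgroup G) (hH : IsPGroup p H) :
    pcl p H = H := by
  apply le_antisymm (pcl_le _ _)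
  intro g hg
  apply Subgroup.subset_closure
  refine ⟨hg, ?_⟩
  obtain ⟨k, hk⟩ := (IsPGroup.iff_orderOf.mp hH) ⟨g, hg⟩
  exact ⟨k, by rw [← hk, Subgroup.orderOf_mk]⟩

end aux

theorem main {G : Type*} [Group G] [Finite G] (p : ℕ) [hp : Fact p.Prime]
    {ι : Type*} [Fintype ι] (K : ι → Subgroup G) :
    ∀ (n : ℕ) (H : Subgroup G), Nat.card H = n → pcl p H = H → (∀ i, ¬ H ≤ K i) →
      (∀ g ∈ pels p H, ∃ i, g ∈ K i) → p + 1 ≤ Fintype.card ι := by
  intro n
  induction n using Nat.strong_induction_on with
  | _ n ih =>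
  intro H hn hH hK hcov
  by_contra hlt
  push Not at hlt
  -- every proper subgroup generated by p-elements is in some K i
  have key : ∀ L : Subgroup G, L < H → pcl p L = L → ∃ i, L ≤ K i := by
    intro L hL hLL
    by_contra hno
    push Not at hno
    have h1 : Nat.card L < n := by
      rw [← hn]
      exact Set.Finite.card_lt_card (Set.toFinite _) hL
    have := ih (Nat.card L) h1 L rfl hLL hno (fun g hg => hcov g ⟨hL.le hg.1, hg.2⟩)
    omega
  by_cases hPG : IsPGroup p H
  · -- p-group case
    have hle : ∀ i, Nat.card (H ⊓ K i : Subgroup G) * p ≤ Nat.card H := by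
      intro i
      have hlt : H ⊓ K i < H := lt_of_le_of_ne inf_le_left (fun h => hK i (by rw [← h]; exact inf_le_right))
      obtain ⟨a, ha⟩ := IsPGroup.iff_card.mp hPG
      have hd : Nat.card (H ⊓ K i : Subgroup G) ∣ Nat.card H := Subgroup.card_dvd_of_le inf_le_left
      rw [ha] at hd
      obtain ⟨b, hb, hb'⟩ := (Nat.dvd_prime_pow hp.out).mp hd
      have hlt' : Nat.card (H ⊓ K i : Subgroup G) < Nat.card H :=
        Set.Finite.card_lt_card (Set.toFinite _) hlt
      rw [ha, hb'] at hlt'
      have hba : b < a := (Nat.pow_lt_pow_iff_right hp.out.one_lt).mp hlt'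
      rw [ha, hb', ← pow_succ]
      exact Nat.pow_le_pow_right hp.out.pos hba
    have hcard : Nat.card H - 1 ≤ ∑ i, (Nat.card (H ⊓ K i : Subgroup G) - 1) := by
      classical
      have e1 : ((H : Set G) \ {1}).ncard = Nat.card H - 1 := by
        rw [Set.ncard_sdiff_singleton_of_mem H.one_mem]
        rfl
      have e2 : ∀ i, (((H ⊓ K i : Subgroup G) : Set G) \ {1}).ncard = Nat.card (H ⊓ K i : Subgroup G) - 1 := by
        intro i
        rw [Set.ncard_sdiff_singleton_of_mem (Subgroup.one_mem _)]
        rfl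
      rw [← e1]
      calc ((H : Set G) \ {1}).ncard ≤ (⋃ i, (((H ⊓ K i : Subgroup G) : Set G) \ {1})).ncard := by
            apply Set.ncard_le_ncard _ (Set.toFinite _)
            intro g hg
            obtain ⟨k, hk⟩ := (IsPGroup.iff_orderOf.mp hPG) ⟨g, hg.1⟩
            rw [Subgroup.orderOf_mk] at hk
            obtain ⟨i, hi⟩ := hcov g ⟨hg.1, k, hk⟩
            exact Set.mem_iUnion.mpr ⟨i, ⟨hg.1, hi⟩, hg.2⟩
        _ ≤ ∑ i, (((H ⊓ K i : Subgroup G) : Set G) \ {1}).ncard := by
            simpa using Set.ncard_iUnion_le_of_fintype (fun i => (((H ⊓ K i : Subgroup G) : Set G) \ {1}))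
        _ = _ := by simp only [e2]
    have hpos : 1 ≤ Nat.card H := Nat.card_pos
    have hsum : (∑ i, (Nat.card (H ⊓ K i : Subgroup G) - 1)) * p ≤ Fintype.card ι * (Nat.card H - p) := by
      rw [Finset.sum_mul]
      calc ∑ i, (Nat.card (H ⊓ K i : Subgroup G) - 1) * p ≤ ∑ _i : ι, (Nat.card H - p) := by
            apply Finset.sum_le_sum
            intro i _
            rw [Nat.sub_mul, one_mul]
            exact Nat.sub_le_sub_right (hle i) p
        _ = _ := by simp
    have h3 : Fintype.card ι * (Nat.card H - p) ≤ p * (Nat.card H - p) :=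
      Nat.mul_le_mul_right _ (by omega)
    have h4 : (Nat.card H - 1) * p ≤ p * (Nat.card H - p) :=
      le_trans (Nat.mul_le_mul_right p hcard) (le_trans hsum h3)
    have h5 : Nat.card H - 1 ≤ Nat.card H - p := by
      rw [mul_comm] at h4
      exact Nat.le_of_mul_le_mul_left h4 hp.out.pos
    have h6 := hp.out.two_le
    -- H must be trivial
    have h7 : Nat.card H = 1 := by omega
    -- then 1 is covered
    obtain ⟨i, hi⟩ := hcov 1 ⟨H.one_mem, 0, by simp⟩
    apply hK i
    rw [Subgroup.card_eq_one.mp h7]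
    exact bot_le
  · -- general case
    -- the set of maximal proper subgroups generated by p-elements
    let LL : Set (Subgroup G) := {L | L < H ∧ pcl p L = L}
    let MM : Set (Subgroup G) := {L | Maximal (· ∈ LL) L}
    have hmax : ∀ L ∈ LL, ∃ M ∈ MM, L ≤ M := by
      intro L hL
      obtain ⟨M, hLM, hM⟩ := (Set.toFinite LL).exists_le_maximal hL
      exact ⟨M, hM, hLM⟩
    have hMMcard : MM.ncard ≤ Fintype.card ι := by
      have hsub : MM ⊆ Set.range (fun i => pcl p (H ⊓ K i)) := by
        intro M hM
        obtain ⟨i, hi⟩ := key M hM.prop.1 hM.prop.2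
        refine ⟨i, ?_⟩
        have h1 : pcl p (H ⊓ K i) ∈ LL := by
          refine ⟨lt_of_le_of_ne ((pcl_le _ _).trans inf_le_left) ?_, pcl_pcl _ _⟩
          intro h
          apply hK i
          rw [← h]
          exact (pcl_le _ _).trans inf_le_right
        have h2 : M ≤ pcl p (H ⊓ K i) := by
          conv_lhs => rw [← hM.prop.2, pcl]
          rw [Subgroup.closure_le]
          intro g hg
          exact Subgroup.subset_closure ⟨⟨hM.prop.1.le hg.1, hi hg.1⟩, hg.2⟩
        exact (hM.eq_of_le h1 h2).symm
      calc MM.ncard ≤ (Set.range (fun i => pcl p (H ⊓ K i))).ncard :=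
            Set.ncard_le_ncard hsub (Set.toFinite _)
        _ ≤ Fintype.card ι := by
            rw [← Set.image_univ]
            refine (Set.ncard_image_le (Set.toFinite _)).trans ?_
            rw [Set.ncard_univ, Nat.card_eq_fintype_card]
    have hconj : ∀ h ∈ H, ∀ M ∈ MM, MulAut.conj h • M ∈ MM := by
      have hLLc : ∀ h ∈ H, ∀ L ∈ LL, MulAut.conj h • L ∈ LL := by
        intro h hh L hL
        have hHh : MulAut.conj h • H = H := by
          ext x
          rw [Subgroup.mem_pointwise_smul_iff_inv_smul_mem, ← map_inv, MulAut.smul_def, MulAut.conj_apply]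
          constructor
          · intro hx
            have := H.mul_mem (H.mul_mem hh hx) (H.inv_mem hh)
            simpa [mul_assoc] using this
          · intro hx
            have := H.mul_mem (H.mul_mem (H.inv_mem hh) hx) hh
            simpa [mul_assoc] using this
        refine ⟨?_, ?_⟩
        · rw [← hHh]
          refine lt_of_le_of_ne ?_ ?_
          · exact Subgroup.pointwise_smul_le_pointwise_smul_iff.mpr hL.1.le
          · intro h
            exact hL.1.ne (smul_left_cancel _ h)
        · rw [pcl_conj, hL.2]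
      intro h hh M hM
      refine ⟨hLLc h hh M hM.prop, ?_⟩
      intro L hL hle
      have h1 := hLLc h⁻¹ (H.inv_mem hh) L hL
      have h2 : M ≤ MulAut.conj h⁻¹ • L := by
        rw [map_inv, ← Subgroup.pointwise_smul_subset_iff]
        exact hle
      have h3 := hM.le_of_ge h1 h2
      rw [map_inv] at h3
      have h4 := Subgroup.pointwise_smul_le_pointwise_smul_iff (a := MulAut.conj h) |>.mpr h3
      rwa [smul_inv_smul] at h4
    -- every Sylow subgroup of H lies in a member of MM
    have hsyl : ∀ P : Sylow p H, ∃ M ∈ MM, (P : Subgroup H).map H.subtype ≤ M := by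
      intro P
      have hPG' : IsPGroup p ((P : Subgroup H).map H.subtype) := P.isPGroup'.map _
      have hle : (P : Subgroup H).map H.subtype ≤ H := Subgroup.map_subtype_le _
      have hne : (P : Subgroup H).map H.subtype ≠ H := by
        intro h
        apply hPG
        rw [← h]
        exact hPG'
      exact hmax _ ⟨lt_of_le_of_ne hle hne, pcl_of_isPGroup p _ hPG'⟩
    -- every Sylow subgroup of H normalizes all members of MM
    have hnorm : ∀ (P : Sylow p H), ∀ g ∈ (P : Subgroup H).map H.subtype, ∀ M ∈ MM,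
        MulAut.conj g • M = M := by
      intro P
      obtain ⟨M₀, hM₀, hPM₀⟩ := hsyl P
      set P' := (P : Subgroup H).map H.subtype with hP'
      have hPG' : IsPGroup p P' := P.isPGroup'.map _
      have hle : P' ≤ H := Subgroup.map_subtype_le _
      intro g hg M hM
      by_contra hgM
      let act : MulAction P' (Subgroup G) :=
        MulAction.compHom (Subgroup G) ((MulAut.conj : G →* MulAut G).comp P'.subtype)
      have hact : ∀ (x : P') (L : Subgroup G), x • L = MulAut.conj (x : G) • L := fun _ _ => rfl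
      obtain ⟨k, hk⟩ := hPG'.card_orbit M
      have horb : MulAction.orbit P' M ⊆ MM := by
        rintro _ ⟨x, rfl⟩
        exact hconj x (hle x.2) M hM
      have hk0 : k ≠ 0 := by
        rintro rfl
        rw [pow_zero, Nat.card_eq_one_iff_unique] at hk
        obtain ⟨hs, _⟩ := hk
        have := hs.elim (⟨(⟨g, hg⟩ : P') • M, MulAction.mem_orbit _ _⟩ : MulAction.orbit P' M)
          ⟨M, MulAction.mem_orbit_self _⟩
        exact hgM (congrArg Subtype.val this)
      have hpk : p ≤ p ^ k := Nat.le_self_pow hk0 p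
      have hM₀n : M₀ ∉ MulAction.orbit P' M := by
        rintro ⟨x, hx⟩
        have h1 : MulAut.conj (x : G) • M = M₀ := hx
        have hx0 : (x : G) ∈ M₀ := hPM₀ x.2
        have h2 : M = M₀ := by
          rw [← inv_smul_smul (MulAut.conj (x : G)) M, h1, ← map_inv]
          ext y
          rw [Subgroup.mem_pointwise_smul_iff_inv_smul_mem, ← map_inv, MulAut.smul_def, MulAut.conj_apply,
            inv_inv]
          constructor
          · intro hy
            have := M₀.mul_mem (M₀.mul_mem (M₀.inv_mem hx0) hy) hx0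
            simpa [mul_assoc] using this
          · intro hy
            exact M₀.mul_mem (M₀.mul_mem hx0 hy) (M₀.inv_mem hx0)
        apply hgM
        subst h2
        have hg0 : g ∈ M := hPM₀ hg
        ext y
        rw [Subgroup.mem_pointwise_smul_iff_inv_smul_mem, ← map_inv, MulAut.smul_def, MulAut.conj_apply,
          inv_inv]
        constructor
        · intro hy
          have := M.mul_mem (M.mul_mem hg0 hy) (M.inv_mem hg0)
          simpa [mul_assoc] using this
        · intro hy
          exact M.mul_mem (M.mul_mem (M.inv_mem hg0) hy) hg0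
      have hins : (insert M₀ (MulAction.orbit P' M)).ncard ≤ MM.ncard := by
        apply Set.ncard_le_ncard _ (Set.toFinite _)
        exact Set.insert_subset hM₀ horb
      rw [Set.ncard_insert_of_notMem hM₀n (Set.toFinite _), ← Nat.card_coe_set_eq, hk] at hins
      omega
    -- pick a Sylow subgroup and a member of MM above it
    obtain ⟨P⟩ : Nonempty (Sylow p H) := inferInstance
    obtain ⟨M, hM, hPM⟩ := hsyl P
    have hHM : ∀ g ∈ H, MulAut.conj g • M = M := by
      have hstab : H ≤ (MulAction.stabilizer (MulAut G) M).comap MulAut.conj := by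
        conv_lhs => rw [← hH, pcl]
        rw [Subgroup.closure_le]
        rintro g ⟨hg, k, hk⟩
        have hpg : IsPGroup p (Subgroup.zpowers (⟨g, hg⟩ : H)) := by
          apply IsPGroup.of_card (n := k)
          rw [Nat.card_zpowers, ← hk, Subgroup.orderOf_mk]
        obtain ⟨Q, hQ⟩ := hpg.exists_le_sylow
        have hgQ : g ∈ (Q : Subgroup H).map H.subtype :=
          ⟨⟨g, hg⟩, hQ (Subgroup.mem_zpowers _), rfl⟩
        exact hnorm Q g hgQ M hM
      intro g hg
      exact hstab hg
    have hHleM : H ≤ M := by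
      conv_lhs => rw [← hH, pcl]
      rw [Subgroup.closure_le]
      rintro g ⟨hg, k, hk⟩
      have hpg : IsPGroup p (Subgroup.zpowers (⟨g, hg⟩ : H)) := by
        apply IsPGroup.of_card (n := k)
        rw [Nat.card_zpowers, ← hk, Subgroup.orderOf_mk]
      obtain ⟨Q, hQ⟩ := hpg.exists_le_sylow
      obtain ⟨x, hx⟩ := MulAction.exists_smul_eq H P Q
      have hgQ : (⟨g, hg⟩ : H) ∈ (x • P : Sylow p H) := by
        rw [hx]
        exact hQ (Subgroup.mem_zpowers _)
      rw [← SetLike.mem_coe, Sylow.coe_smul, Set.mem_smul_set] at hgQ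
      obtain ⟨y, hy, hyg⟩ := hgQ
      have hyM : (y : G) ∈ M := hPM ⟨y, hy, rfl⟩
      have hyg' : (x : G) * y * (x : G)⁻¹ = g := congrArg Subtype.val hyg
      rw [← hHM x x.2, SetLike.mem_coe, Subgroup.mem_pointwise_smul_iff_inv_smul_mem, ← map_inv,
        MulAut.smul_def, MulAut.conj_apply, inv_inv, ← hyg']
      simpa [mul_assoc] using hyM
    exact absurd (le_antisymm hM.prop.1.le hHleM) hM.prop.1.ne

theorem result {G : Type*} [Group G] [Finite G] (p : ℕ) [Fact p.Prime] (hgen : Subgroup.closure {g : G | ∃ k : ℕ, orderOf g = p ^ k} = ⊤)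
    {ι : Type*} [Fintype ι] (K : ι → Subgroup G) (hK : ∀ i, K i ≠ ⊤)
    (hcov : ∀ g : G, (∃ k : ℕ, orderOf g = p ^ k) → ∃ i, g ∈ K i) :
    p + 1 ≤ Fintype.card ι := by
  refine main p K (Nat.card (⊤ : Subgroup G)) ⊤ rfl ?_ ?_ ?_
  · rw [pcl, ← hgen]
    congr 1
    ext g
    simp [pels, hgen]
  · intro i h
    exact hK i (top_le_iff.mp h)
  · intro g hg
    exact hcov g hg.2

end Cfsg.Agent.S4182
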