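-- Proof of statement S4188
import Cfsg.Statements.S4188
import Cfsg.Agent.H537.FrattiniBound

set_option autoImplicit false
open Cfsg

namespace Cfsg.Agent.S4188

open Cfsg.Agent.H537.FrattiniBound in
/-- Let G be a finite group that is the semidirect product of a normal abelian subgroup N of odd order by a 2-subgroup P, and suppose N is the unique minimal normal subgroup of G. Then the index of the Frattini subgroup of P in P is at most #N − 1. -/
theorem result {G : Type*} [Group G] [Finite G] (N P : Subgroup G) (hN : N.Normal) (hNab : IsMulCommutative ↥N) (hNodd : Odd (Nat.card ↥N)) (hP : IsPGroup 2 ↥P) (hdisj : N ⊓ P = ⊥) (hprod : N ⊔ P = ⊤) (hmin : N ≠ ⊥ ∧ ∀ M : Subgroup G, M.Normal → M ≠ ⊥ → N ≤ M) : (frattini ↥P).index ≤ Nat.card ↥N - 1 := by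
  classical
  obtain ⟨hN1, hmin⟩ := hmin
  -- the kernel of the action of `P` on `N`
  set C : Subgroup G := P ⊓ Subgroup.centralizer (N : Set G) with hC
  have hCn : C.Normal := by
    rw [← Subgroup.normalizer_eq_top_iff, eq_top_iff, ← hprod, sup_le_iff]
    constructor
    · intro n hn
      rw [Subgroup.mem_normalizer_iff]
      have key : ∀ m ∈ N, ∀ x ∈ C, m * x * m⁻¹ = x := by
        intro m hm x hx
        have := Subgroup.mem_centralizer_iff.1 hx.2 m hm
        rw [this]; group
      intro h
      constructor
      · intro hh; rw [key n hn h hh]; exact hh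
      · intro hh
        have h1 := key n⁻¹ (N.inv_mem hn) _ hh
        have h2 : n⁻¹ * (n * h * n⁻¹) * n⁻¹⁻¹ = h := by group
        rw [h2] at h1
        rw [h1]; exact hh
    · have h1 : P ≤ Subgroup.normalizer (P : Set G) := Subgroup.le_normalizer
      have h2 : (Subgroup.centralizer (N : Set G)).Normal := inferInstance
      intro p hp
      rw [Subgroup.mem_normalizer_iff]
      intro h
      have h3 := Subgroup.mem_normalizer_iff.1 (h1 hp) h
      have h4 : h ∈ Subgroup.centralizer (N : Set G) ↔
          p * h * p⁻¹ ∈ Subgroup.centralizer (N : Set G) := by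
        constructor
        · intro hh; exact h2.conj_mem h hh p
        · intro hh
          have := h2.conj_mem _ hh p⁻¹
          have e : p⁻¹ * (p * h * p⁻¹) * p⁻¹⁻¹ = h := by group
          rwa [e] at this
      constructor
      · rintro ⟨a, b⟩
        exact ⟨h3.1 a, h4.1 b⟩
      · rintro ⟨a, b⟩
        exact ⟨h3.2 a, h4.2 b⟩
  have hC1 : C = ⊥ := by
    by_contra hne
    have h1 := hmin C hCn hne
    apply hN1
    rw [eq_bot_iff, ← hdisj]
    exact le_inf le_rfl (h1.trans inf_le_left)
  let _ : CommGroup N := { (inferInstance : Group N) with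
    mul_comm := fun a b => hNab.is_comm.comm a b }
  let φ : P →* MulAut N := (MulAut.conjNormal (H := N)).comp P.subtype
  have hφ : Function.Injective φ := by
    rw [injective_iff_map_eq_one]
    intro p hp
    have h1 : (p : G) ∈ C := by
      refine ⟨p.2, Subgroup.mem_centralizer_iff.2 ?_⟩
      intro n hn
      have h2 : ((φ p ⟨n, hn⟩ : N) : G) = n := by rw [hp]; rfl
      have h3 : (p : G) * n * (p : G)⁻¹ = n := h2
      rw [mul_inv_eq_iff_eq_mul] at h3
      exact h3.symm
    rw [hC1, Subgroup.mem_bot] at h1
    exact Subtype.ext h1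
  have hmain := main (Nat.card N) N P φ rfl hNodd hP hφ
  have hfr : (frattini ↥P).index ≤ (Sq P).index := by
    have h1 : Sq P ≤ frattini P := by
      apply Cfsg.Agent.H537.FrattiniBound.sq_le
      intro g
      exact Cfsg.Agent.Lib.FrattiniBasic.pow_mem_frattini hP g
    exact Nat.le_of_dvd (Nat.pos_of_ne_zero Subgroup.index_ne_zero_of_finite)
      (Subgroup.index_dvd_of_le h1)
  rcases hmain with ⟨h1, h2⟩ | ⟨h1, h2⟩ | ⟨h1, h2⟩
  · exact absurd (Subgroup.card_eq_one.1 h1) hN1
  · omega
  · omega

end Cfsg.Agent.S4188
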