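-- Proof of statement S4189
import Cfsg.Statements.S4189
import Cfsg.Agent.SmallSimple.OrderEight
import Cfsg.Agent.Transfer.TausskyTwoGroup

set_option autoImplicit false
open Cfsg

namespace Cfsg.Agent.S4189

/-- The automorphism group of a finite cyclic `2`-group has no element of odd order `≠ 1`. -/
theorem aut_cyclic_trivial {C : Type*} [Group C] [Finite C] (hC : IsPGroup 2 C) [IsCyclic C]
    (f : MulAut C) (q : ℕ) (hq : Odd q) (hf : f ^ q = 1) : f = 1 := by
  -- the group of automorphisms is a 2-group
  have h2 : IsPGroup 2 (MulAut C) := by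
    obtain ⟨n, hn⟩ := IsPGroup.iff_card.1 hC
    rcases Nat.eq_zero_or_pos n with h0 | hpos
    · subst h0
      have : Subsingleton C := (Nat.card_eq_one_iff_unique.1 (by simpa using hn)).1
      have : Subsingleton (MulAut C) := ⟨fun a b => by ext x; exact Subsingleton.elim _ _⟩
      exact IsPGroup.of_subsingleton _ _
    · have e := IsCyclic.mulAutMulEquiv C
      rw [hn] at e
      have : Nat.card (MulAut C) = 2 ^ (n - 1) := by
        rw [Nat.card_congr e.toEquiv, Nat.card_eq_fintype_card, ZMod.card_units_eq_totient,
          Nat.totient_prime_pow Nat.prime_two hpos]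
        simp
      exact IsPGroup.of_card this
  obtain ⟨k, hk⟩ := h2 f
  have h3 : orderOf f ∣ q := orderOf_dvd_of_pow_eq_one hf
  have h4 : orderOf f ∣ 2 ^ k := orderOf_dvd_of_pow_eq_one hk
  have hcop : Nat.Coprime q (2 ^ k) := Nat.Coprime.pow_right _ (Nat.coprime_two_right.2 hq)
  have := Nat.Coprime.eq_one_of_dvd (Nat.Coprime.coprime_dvd_left h3 hcop) h4
  exact orderOf_eq_one_iff.1 this

theorem dihedral_four_mem (g : DihedralGroup 4) (hg : orderOf g = 4) :
    g ∈ Subgroup.zpowers (DihedralGroup.r 1 : DihedralGroup 4) := by
  rcases g with i | i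
  · refine ⟨i.val, ?_⟩
    simp
  · rw [DihedralGroup.orderOf_sr] at hg
    omega

/-- A dihedral group of order 8 has just one cyclic subgroup of index 2. -/
theorem dihedral_unique {P : Type*} [Group P] [Finite P] (e : P ≃* DihedralGroup 4)
    (C : Subgroup P) [IsCyclic C] (hC : C.index = 2) :
    C = (Subgroup.zpowers (DihedralGroup.r 1 : DihedralGroup 4)).comap e.toMonoidHom := by
  have hcard : Nat.card P = 8 := by
    rw [Nat.card_congr e.toEquiv, DihedralGroup.nat_card]
  have hC4 : Nat.card C = 4 := by
    have := Subgroup.card_mul_index C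
    rw [hC, hcard] at this
    omega
  obtain ⟨g, hg⟩ := IsCyclic.exists_generator (α := C)
  have hg4 : orderOf g = 4 := by rw [← hC4]; exact orderOf_eq_card_of_forall_mem_zpowers hg
  have hle : C ≤ (Subgroup.zpowers (DihedralGroup.r 1 : DihedralGroup 4)).comap
      e.toMonoidHom := by
    intro x hx
    obtain ⟨k, hk⟩ := hg ⟨x, hx⟩
    have hk' : x = (g : P) ^ k := by
      have := congrArg Subtype.val hk
      simpa using this.symm
    rw [Subgroup.mem_comap]
    rw [hk']
    rw [map_zpow]
    apply Subgroup.zpow_mem
    apply dihedral_four_mem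
    change orderOf (e (g : P)) = 4
    rw [MulEquiv.orderOf_eq, Subgroup.orderOf_coe, hg4]
  apply Subgroup.eq_of_le_of_card_ge hle
  rw [hC4]
  have h1 : Nat.card (Subgroup.comap e.toMonoidHom
      (Subgroup.zpowers (DihedralGroup.r 1 : DihedralGroup 4))) =
      Nat.card (Subgroup.zpowers (DihedralGroup.r 1 : DihedralGroup 4)) := by
    rw [show e.toMonoidHom = (e : P →* DihedralGroup 4) from rfl,
      Subgroup.comap_equiv_eq_map_symm]
    exact Subgroup.card_map_of_injective e.symm.injective
  rw [h1, Nat.card_zpowers, DihedralGroup.orderOf_r_one]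

/-- Let P be a finite non-abelian 2-group whose commutator subgroup has index 4 and whose automorphism group is not a 2-group (some automorphism has order that is not a power of 2). Then P is isomorphic to the quaternion group of order 8. -/
theorem result {P : Type*} [Group P] [Finite P] (hP : IsPGroup 2 P) (hna : ¬ IsMulCommutative P) (h4 : (commutator P).index = 4) (haut : ¬ IsPGroup 2 (MulAut P)) : Nonempty (P ≃* QuaternionGroup 2) := by
  classical
  obtain ⟨n, hn⟩ := IsPGroup.iff_card.1 hP
  -- order at least 8
  have hP' : commutator P ≠ ⊥ := by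
    intro h
    apply hna
    refine ⟨⟨fun a b => ?_⟩⟩
    have : a * b * a⁻¹ * b⁻¹ ∈ commutator P :=
      Subgroup.commutator_mem_commutator (Subgroup.mem_top a) (Subgroup.mem_top b)
    rw [h, Subgroup.mem_bot] at this
    have h2 := congrArg (fun z => z * b * a) this
    simpa [mul_assoc] using h2
  have hn3 : 3 ≤ n := by
    have h1 := Subgroup.card_mul_index (commutator P)
    rw [h4, hn] at h1
    have h2 : Nat.card (commutator P) ≠ 1 := by
      intro h
      exact hP' (Subgroup.card_eq_one.1 h)
    by_contra hlt
    have h3 : 2 ^ n ≤ 2 ^ 2 := Nat.pow_le_pow_right (by norm_num) (by omega)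
    have h5 : 0 < Nat.card (commutator P) := Nat.card_pos
    omega
  obtain ⟨C, hCc, hC2⟩ := Cfsg.Agent.Transfer.TausskyTwoGroup.exists_isCyclic_index_two n hn h4
  have hZ : Nat.card (Subgroup.center P) = 2 :=
    Cfsg.Agent.Transfer.TausskyTwoGroup.card_center_of_index_commutator hn3 hn h4
  -- an automorphism of odd order
  obtain ⟨β, m, hm, hβm, hβ1⟩ : ∃ β : MulAut P, ∃ m : ℕ, Odd m ∧ β ^ m = 1 ∧ β ≠ 1 := by
    unfold IsPGroup at haut
    push Not at haut
    obtain ⟨f, hf⟩ := haut
    have hfin : 0 < orderOf f := orderOf_pos f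
    obtain ⟨a, m, hm, ham⟩ := Nat.exists_eq_two_pow_mul_odd hfin.ne'
    refine ⟨f ^ 2 ^ a, m, hm, ?_, hf a⟩
    rw [← pow_mul, ← ham, pow_orderOf_eq_one]
  have hCn : C.Normal := Subgroup.normal_of_index_eq_two hC2
  by_cases hinv : C.map β.toMonoidHom = C
  · exfalso
    apply hβ1
    -- restriction to C
    have hmem : ∀ x ∈ C, β x ∈ C := by
      intro x hx
      have : β x ∈ C.map β.toMonoidHom := ⟨x, hx, rfl⟩
      rwa [hinv] at this
    let γ : MulAut C := (β.subgroupMap C).trans (MulEquiv.subgroupCongr hinv)
    have hγ : ∀ x : C, ((γ x : C) : P) = β (x : P) := fun x => rfl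
    have hγk : ∀ k : ℕ, ∀ x : C, (((γ ^ k) x : C) : P) = (β ^ k) (x : P) := by
      intro k
      induction k with
      | zero => intro x; rfl
      | succ k ih =>
        intro x
        rw [pow_succ', pow_succ', MulAut.mul_apply, MulAut.mul_apply, hγ, ih]
    have hγm : γ ^ m = 1 := by
      ext x
      rw [hγk, hβm]
      rfl
    have hγ1 : γ = 1 := aut_cyclic_trivial (hP.to_subgroup C) γ m hm hγm
    have hfix : ∀ x ∈ C, β x = x := by
      intro x hx
      have := hγ ⟨x, hx⟩
      rw [hγ1] at this
      exact this.symm
    ext g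
    rw [MulAut.one_apply]
    -- β g = g * c with c ∈ C
    by_cases hg : g ∈ C
    · exact hfix g hg
    · have hβg : β g ∉ C := by
        intro h
        rw [← hinv] at h
        obtain ⟨y, hy, hyg⟩ := h
        have : y = g := β.injective hyg
        rw [this] at hy
        exact hg hy
      have hc : g⁻¹ * β g ∈ C := by
        rw [Subgroup.mul_mem_iff_of_index_two hC2]
        constructor
        · intro h; exact absurd (C.inv_mem_iff.1 h) hg
        · intro h; exact absurd h hβg
      set c := g⁻¹ * β g with hcdef
      have hgc : β g = g * c := by rw [hcdef]; group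
      have hk : ∀ k : ℕ, (β ^ k) g = g * c ^ k := by
        intro k
        induction k with
        | zero => simp
        | succ k ih =>
          rw [pow_succ', MulAut.mul_apply, ih, map_mul, hgc, map_pow, hfix c hc, pow_succ']
          group
      have h1 := hk m
      rw [hβm, MulAut.one_apply] at h1
      have h2 : c ^ m = 1 := by
        have := congrArg (fun z => g⁻¹ * z) h1
        simpa using this.symm
      obtain ⟨k, hk2⟩ := hP c
      have h3 : orderOf c ∣ m := orderOf_dvd_of_pow_eq_one h2
      have h4 : orderOf c ∣ 2 ^ k := orderOf_dvd_of_pow_eq_one hk2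
      have hcop : Nat.Coprime m (2 ^ k) := Nat.Coprime.pow_right _ (Nat.coprime_two_right.2 hm)
      have h5 := Nat.Coprime.eq_one_of_dvd (Nat.Coprime.coprime_dvd_left h3 hcop) h4
      have h6 : c = 1 := orderOf_eq_one_iff.1 h5
      rw [hgc, h6, mul_one]
  · -- two cyclic subgroups of index 2
    set D : Subgroup P := C.map β.toMonoidHom with hD
    have hD2 : D.index = 2 := by
      rw [hD, ← hC2]
      exact Subgroup.index_map_equiv C β
    have hDc : IsCyclic D := by
      have e : C ≃* D := β.subgroupMap C
      exact isCyclic_of_surjective e e.surjective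
    have hDn : D.Normal := Subgroup.normal_of_index_eq_two hD2
    -- the join is the whole group
    have hjoin : C ⊔ D = ⊤ := by
      have hlt : C < C ⊔ D := by
        refine lt_of_le_of_ne le_sup_left ?_
        intro h
        have hDC : D ≤ C := by rw [h]; exact le_sup_right
        exact hinv (Subgroup.eq_of_le_of_card_ge hDC (by
          have h1 := Subgroup.card_mul_index C
          have h2 := Subgroup.card_mul_index D
          rw [hC2] at h1
          rw [hD2] at h2
          omega))
      have h1 : (C ⊔ D).index < C.index := Subgroup.index_strictAnti hlt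
      have h2 : (C ⊔ D).index ≠ 0 := Subgroup.index_ne_zero_of_finite
      rw [← Subgroup.index_eq_one]
      omega
    have hcen : C ⊓ D ≤ Subgroup.center P := by
      intro x hx
      rw [Subgroup.mem_center_iff]
      have hcentr : (⊤ : Subgroup P) ≤ Subgroup.centralizer {x} := by
        rw [← hjoin, sup_le_iff]
        constructor
        · intro y hy
          rw [Subgroup.mem_centralizer_singleton_iff]
          let _ := IsCyclic.commGroup (α := C)
          exact congrArg Subtype.val (mul_comm (⟨y, hy⟩ : C) ⟨x, hx.1⟩)
        · intro y hy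
          rw [Subgroup.mem_centralizer_singleton_iff]
          let _ := IsCyclic.commGroup (α := D)
          exact congrArg Subtype.val (mul_comm (⟨y, hy⟩ : D) ⟨x, hx.2⟩)
      intro g
      have := hcentr (Subgroup.mem_top g)
      rw [Subgroup.mem_centralizer_singleton_iff] at this
      exact this
    have hidx : (Subgroup.center P).index ≤ 4 := by
      have h1 : (C ⊓ D).index ≤ C.index * D.index := Subgroup.index_inf_le
      have h2 : (Subgroup.center P).index ≤ (C ⊓ D).index :=
        Nat.le_of_dvd (Nat.pos_of_ne_zero Subgroup.index_ne_zero_of_finite)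
          (Subgroup.index_dvd_of_le hcen)
      rw [hC2, hD2] at h1
      omega
    have hcard : Nat.card P ≤ 8 := by
      have := Subgroup.card_mul_index (Subgroup.center P)
      rw [hZ] at this
      omega
    have hn3' : n = 3 := by
      by_contra hne
      have : 2 ^ 4 ≤ 2 ^ n := Nat.pow_le_pow_right (by norm_num) (by omega)
      omega
    have h8 : Nat.card P = 8 := by rw [hn, hn3']; norm_num
    rcases Cfsg.Agent.SmallSimple.OrderEight.dihedral_or_quaternion_of_card_eight h8 hna with
      ⟨⟨e⟩⟩ | h
    · exfalso
      apply hinv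
      rw [dihedral_unique e C hC2, dihedral_unique e D hD2]
    · exact h

end Cfsg.Agent.S4189
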