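import Cfsg.Statements.S4250
import Cfsg.Agent.Transfer.AlperinFusion

set_option autoImplicit false
open Cfsg
open scoped commutatorElement

namespace Cfsg.Agent.S4250

/-- Let P be a Sylow p-subgroup of a finite group G. Call an intersection H = P ∩ Q with a Sylow p-subgroup Q tame when N_P(H) and N_Q(H) are Sylow p-subgroups of N_G(H). Then P ∩ G′ is generated by [P, N_G(P)] together with the commutator subgroups [P ∩ Q, ⟨x⟩] for all tame intersections P ∩ Q and all p-elements x of N_G(P ∩ Q). -/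
theorem result {G : Type*} [Group G] [Finite G] (p : ℕ) [Fact p.Prime] (P : Sylow p G) :
    (P : Subgroup G) ⊓ commutator G =
      ⁅(P : Subgroup G), Subgroup.normalizer ((P : Subgroup G) : Set G)⁆ ⊔
        ⨆ (Q : Sylow p G) (_ : (¬ p ∣ ((P : Subgroup G) ⊓ Subgroup.normalizer (((P : Subgroup G) ⊓ (Q : Subgroup G) : Subgroup G) : Set G)).relIndex (Subgroup.normalizer (((P : Subgroup G) ⊓ (Q : Subgroup G) : Subgroup G) : Set G)) ∧ ¬ p ∣ ((Q : Subgroup G) ⊓ Subgroup.normalizer (((P : Subgroup G) ⊓ (Q : Subgroup G) : Subgroup G) : Set G)).relIndex (Subgroup.normalizer (((P : Subgroup G) ⊓ (Q : Subgroup G) : Subgroup G) : Set G))))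
          (x : G) (_ : x ∈ Subgroup.normalizer (((P : Subgroup G) ⊓ (Q : Subgroup G) : Subgroup G) : Set G) ∧ ∃ k : ℕ, orderOf x = p ^ k),
          ⁅(P : Subgroup G) ⊓ (Q : Subgroup G), Subgroup.zpowers x⁆ := by
  set F : Subgroup G := ⁅(P : Subgroup G), Subgroup.normalizer ((P : Subgroup G) : Set G)⁆ ⊔
        ⨆ (Q : Sylow p G) (_ : (¬ p ∣ ((P : Subgroup G) ⊓ Subgroup.normalizer (((P : Subgroup G) ⊓ (Q : Subgroup G) : Subgroup G) : Set G)).relIndex (Subgroup.normalizer (((P : Subgroup G) ⊓ (Q : Subgroup G) : Subgroup G) : Set G)) ∧ ¬ p ∣ ((Q : Subgroup G) ⊓ Subgroup.normalizer (((P : Subgroup G) ⊓ (Q : Subgroup G) : Subgroup G) : Set G)).relIndex (Subgroup.normalizer (((P : Subgroup G) ⊓ (Q : Subgroup G) : Subgroup G) : Set G))))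
          (x : G) (_ : x ∈ Subgroup.normalizer (((P : Subgroup G) ⊓ (Q : Subgroup G) : Subgroup G) : Set G) ∧ ∃ k : ℕ, orderOf x = p ^ k),
          ⁅(P : Subgroup G) ⊓ (Q : Subgroup G), Subgroup.zpowers x⁆ with hF
  apply le_antisymm
  · rw [inf_comm, Subgroup.commutator_inf_eq_focalSubgroup, Subgroup.focalSubgroup_def,
      Subgroup.closure_le]
    rintro _ ⟨hg, a, ha, u, rfl⟩
    have h1 : (u⁻¹)⁻¹ * a * u⁻¹ ∈ P := by
      have h2 : (u⁻¹)⁻¹ * a * u⁻¹ = ⁅a, u⁆⁻¹ * a := by
        simp [commutatorElement_def, mul_assoc]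
      rw [h2]
      exact mul_mem (inv_mem hg) ha
    have key := Cfsg.Agent.Transfer.AlperinFusion.rel_of_conj (P := P)
      (r := fun a b => a * b⁻¹ ∈ F) (fun a _ => by simp)
      (fun a b c hab hbc => by
        have h3 : a * c⁻¹ = (a * b⁻¹) * (b * c⁻¹) := by group
        rw [h3]
        exact mul_mem hab hbc) ?_ ha h1
    · have h4 : ⁅a, u⁆ = a * ((u⁻¹)⁻¹ * a * u⁻¹)⁻¹ := by
        simp [commutatorElement_def, mul_assoc]
      rw [h4]
      exact key
    · intro Q hQ x hx hxp a ha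
      have h5 : a * (x⁻¹ * a * x)⁻¹ = ⁅a, x⁻¹⁆ := by
        simp [commutatorElement_def, mul_assoc]
      rw [h5]
      rcases hxp with ⟨k, hk⟩ | hQP
      · have hord : ∃ k : ℕ, orderOf x = p ^ k := by
          obtain ⟨j, -, hj⟩ := (Nat.dvd_prime_pow Fact.out).1 (orderOf_dvd_of_pow_eq_one hk)
          exact ⟨j, hj⟩
        have h6 : ⁅a, x⁻¹⁆ ∈ ⁅(P : Subgroup G) ⊓ (Q : Subgroup G), Subgroup.zpowers x⁆ :=
          Subgroup.commutator_mem_commutator ha (inv_mem (Subgroup.mem_zpowers x))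
        have h7 : ⁅(P : Subgroup G) ⊓ (Q : Subgroup G), Subgroup.zpowers x⁆ ≤ F := by
          rw [hF]
          refine le_sup_of_le_right ?_
          refine le_iSup_of_le Q ?_
          refine le_iSup_of_le hQ ?_
          refine le_iSup_of_le x ?_
          refine le_iSup_of_le ⟨hx, hord⟩ ?_
          exact le_rfl
        exact h7 h6
      · subst hQP
        rw [inf_idem] at hx ha
        exact (le_sup_left : _ ≤ F) (Subgroup.commutator_mem_commutator ha (inv_mem hx))
  · rw [hF, sup_le_iff]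
    constructor
    · refine le_inf ?_ (Subgroup.commutator_mono le_top le_top)
      rw [Subgroup.commutator_comm, Subgroup.commutator_le]
      intro g hg h hh
      rw [commutatorElement_def]
      exact mul_mem ((Subgroup.mem_normalizer_iff.1 hg h).1 hh) (inv_mem hh)
    · refine iSup_le fun Q => iSup_le fun hQ => iSup_le fun x => iSup_le fun hx => ?_
      refine le_inf (le_trans ?_ (inf_le_left (b := (Q : Subgroup G)))) (Subgroup.commutator_mono le_top le_top)
      rw [Subgroup.commutator_comm, Subgroup.commutator_le]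
      intro g hg h hh
      rw [commutatorElement_def]
      have hg' : g ∈ Subgroup.normalizer (((P : Subgroup G) ⊓ (Q : Subgroup G) : Subgroup G) : Set G) :=
        (Subgroup.zpowers_le.2 hx.1) hg
      exact mul_mem ((Subgroup.mem_normalizer_iff.1 hg' h).1 hh) (inv_mem hh)

end Cfsg.Agent.S4250
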