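import Cfsg.Statements.S4216
import Cfsg.Agent.S4250

set_option autoImplicit false
open Cfsg

namespace Cfsg.Agent.S4216

/-- Grün's first Theorem: if `P` is a Sylow `p`-subgroup of the finite group `G`, then `P ∩ G'` is the subgroup generated by `P ∩ N_G(P)'` together with the subgroups `P ∩ z P' z⁻¹` for all `z ∈ G`, where `'` denotes the derived subgroup and `N_G(P)` the normalizer of `P`. -/
theorem result {G : Type*} [Group G] [Finite G] {p : ℕ} [Fact p.Prime] (P : Sylow p G) : (P : Subgroup G) ⊓ commutator G = ((P : Subgroup G) ⊓ ⁅Subgroup.normalizer ((P : Subgroup G) : Set G), Subgroup.normalizer ((P : Subgroup G) : Set G)⁆) ⊔ ⨆ z : G, (P : Subgroup G) ⊓ (⁅(P : Subgroup G), (P : Subgroup G)⁆).map (MulAut.conj z).toMonoidHom := by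
  set N := Subgroup.normalizer ((P : Subgroup G) : Set G) with hN
  have hPN : (P : Subgroup G) ≤ N := Subgroup.le_normalizer
  apply le_antisymm
  · rw [Cfsg.Agent.S4250.result p P]
    apply sup_le
    · refine le_trans (le_inf ?_ ?_) le_sup_left
      · exact Subgroup.le_normalizer_iff_commutator_le_left.1 le_rfl
      · exact Subgroup.commutator_mono hPN le_rfl
    · refine iSup_le fun Q => iSup_le fun _ => iSup_le fun x => iSup_le fun hx => ?_
      obtain ⟨hxN, k, hk⟩ := hx
      set D := (P : Subgroup G) ⊓ (Q : Subgroup G) with hD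
      have hDp : IsPGroup p D := P.isPGroup'.to_le inf_le_left
      have hxp : IsPGroup p (Subgroup.zpowers x) :=
        IsPGroup.of_card (by rw [Nat.card_zpowers, hk])
      have hle : Subgroup.zpowers x ≤ Subgroup.normalizer (D : Set G) := by
        rw [Subgroup.zpowers_le]; exact hxN
      have hsup : IsPGroup p (D ⊔ Subgroup.zpowers x : Subgroup G) :=
        IsPGroup.to_sup_of_normal_left' hDp hxp hle
      obtain ⟨R, hR⟩ := hsup.exists_le_sylow
      obtain ⟨z, hz⟩ := MulAction.exists_smul_eq G P R
      refine le_trans ?_ (le_sup_right)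
      refine le_trans ?_ (le_iSup _ z)
      apply le_inf
      · exact (Subgroup.le_normalizer_iff_commutator_le_left.1 hle).trans inf_le_left
      · rw [Subgroup.map_commutator]
        have hRz : (P : Subgroup G).map (MulAut.conj z).toMonoidHom = (R : Subgroup G) := by
          rw [← hz]; rfl
        rw [hRz]
        exact Subgroup.commutator_mono (le_sup_left.trans hR) (le_sup_right.trans hR)
  · apply sup_le
    · exact inf_le_inf_left _ (Subgroup.commutator_mono le_top le_top)
    · refine iSup_le fun z => inf_le_inf_left _ ?_
      have h1 : ⁅(P : Subgroup G), (P : Subgroup G)⁆ ≤ commutator G :=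
        Subgroup.commutator_mono le_top le_top
      refine (Subgroup.map_mono h1).trans ?_
      rw [commutator_def, Subgroup.map_commutator]
      exact Subgroup.commutator_mono le_top le_top

end Cfsg.Agent.S4216
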