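import Cfsg.Statements.S4233
import Cfsg.Agent.H546.MaxNorFinal

set_option autoImplicit false
open Cfsg

namespace Cfsg.Agent.S4233

open Subgroup Cfsg.Agent.H546.MaxNor
open scoped Pointwise

/-- Let G be a finite non-solvable group in which every subgroup H that is not subnormal and whose order has at most two prime divisors has a normalizer N_G(H) that is a maximal subgroup of G. Then G is the internal direct product of normal subgroups K and S with K isomorphic to PSL(2, 13) or to SL(2, 13), S abelian, and the orders of K and S coprime. -/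
theorem result {G : Type*} [Group G] [Finite G] (hG : ¬ Group.IsSolvable G)
    (h : ∀ H : Subgroup G, ¬ H.IsSubnormal →
      (∃ p q : ℕ, p.Prime ∧ q.Prime ∧ ∀ r : ℕ, r.Prime → r ∣ Nat.card H → r = p ∨ r = q) →
      IsCoatom (Subgroup.normalizer (H : Set G))) :
    ∃ K S : Subgroup G, K.Normal ∧ S.Normal ∧ K ⊓ S = ⊥ ∧ K ⊔ S = ⊤ ∧
      (Nonempty (K ≃* Matrix.ProjectiveSpecialLinearGroup (Fin 2) (ZMod 13)) ∨
        Nonempty (K ≃* Matrix.SpecialLinearGroup (Fin 2) (ZMod 13))) ∧
      IsMulCommutative S ∧ (Nat.card K).Coprime (Nat.card S) := by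
  obtain ⟨R, D⟩ := exists_rad hG h
  have hRn : R.Normal := D.normal
  obtain ⟨hs, ⟨U, g, r, v, z, t, u, s, L, O⟩, F, iF, iFF, hF, ⟨e⟩⟩ := D.psl
  have hidx : R.index = 1092 := by
    have h1 := Cfsg.Agent.ClassicalGeometry.PSL2Basic.card_PSL2_odd (F := F) (by rw [hF]; decide)
    rw [hF, ← Nat.card_congr e.toEquiv] at h1
    change R.index * 2 = _ at h1
    omega
  obtain ⟨N, hNn, hNp, hNs, hNM⟩ := exists_residual G
  have hcent := D.cent hs (by rw [hidx]; norm_num) (by rw [hidx]; norm_num) hNM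
  have hNR : ¬ N ≤ R := by
    intro hle
    have := D.solv
    exact hG (hNs (Group.isSolvable_of_isSolvable_injective (Subgroup.inclusion_injective hle)))
  have E : Res R N := ⟨hNn, hNp, hcent, Rad.sup hs hNn hNR⟩
  obtain ⟨hiso, hZ2, a, hNc⟩ := E.struct hs hF e
  -- the Sylow 2-subgroup of `R`
  have hf2 : Fact (Nat.Prime 2) := ⟨Nat.prime_two⟩
  let Q : Sylow 2 R := default
  have hQN : ∀ w ∈ (Q : Subgroup R), (w : G) ∈ N := by
    intro w hw
    obtain ⟨m, hm⟩ := IsPGroup.iff_orderOf.1 Q.isPGroup' ⟨w, hw⟩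
    refine E.two_mem D hZ2 D.pm L O w.2 (m := m) ?_
    rw [orderOf_submonoid, ← hm]
    exact orderOf_submonoid (⟨w, hw⟩ : (Q : Subgroup R))
  have hP : normalizer ((Q : Subgroup R) : Set R) ≤ centralizer (Q : Set R) := by
    intro n _
    rw [mem_centralizer_iff]
    intro x hx
    exact Subtype.ext (hcent x (hQN x hx) n n.2)
  have hcomp := MonoidHom.ker_transferSylow_isComplement' Q hP
  set S' : Subgroup R := (MonoidHom.transferSylow Q hP).ker with hS'
  have hS'c : Nat.card S' = (Q : Subgroup R).index := hcomp.index_eq_card.symm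
  have hS'i : S'.index = Nat.card Q := hcomp.symm.index_eq_card
  have hS'2 : ¬ 2 ∣ Nat.card S' := by rw [hS'c]; exact Q.not_dvd_index
  have hcop : (Nat.card S').Coprime S'.index := by
    obtain ⟨k, hk⟩ := IsPGroup.iff_card.1 Q.isPGroup'
    rw [hS'i, hk]
    exact (Nat.Coprime.pow_left k ((Nat.Prime.coprime_iff_not_dvd Nat.prime_two).2 hS'2)).symm
  have hSn : (S'.map R.subtype).Normal := Cfsg.Agent.Lib.NormalHall.normal_map_subtype_of_coprime R S' hcop
  set S : Subgroup G := S'.map R.subtype with hS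
  have hSR : S ≤ R := Subgroup.map_subtype_le S'
  have hSc : Nat.card S = Nat.card S' := Subgroup.card_map_of_injective R.subtype_injective
  have hS2 : ¬ 2 ∣ Nat.card S := by rw [hSc]; exact hS'2
  have hRc : Nat.card S ∣ Nat.card R := Subgroup.card_dvd_of_le hSR
  have hnd := fun p hp => E.not_dvd D hZ2 hNc (p := p) hp
  -- coprime orders
  have hKS : (Nat.card N).Coprime (Nat.card S) := by
    rw [Nat.coprime_iff_gcd_eq_one]
    by_contra hne
    obtain ⟨p, hp, hpd⟩ := Nat.exists_prime_and_dvd hne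
    have h1 : p ∣ Nat.card N := hpd.trans (Nat.gcd_dvd_left _ _)
    have h3 : p ∣ Nat.card S := hpd.trans (Nat.gcd_dvd_right _ _)
    have h4 : p ≠ 2 := by rintro rfl; exact hS2 h3
    rw [hNc] at h1
    rcases hp.dvd_mul.1 h1 with h5 | h5
    · exact h4 ((Nat.prime_dvd_prime_iff_eq hp Nat.prime_two).1 (hp.dvd_of_dvd_pow h5))
    · have h6 : (1092 : ℕ) = 2 ^ 2 * (3 * (7 * 13)) := by norm_num
      rw [h6] at h5
      have h7 : p = 3 ∨ p = 7 ∨ p = 13 := by
        rcases hp.dvd_mul.1 h5 with h5 | h5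
        · exact absurd ((Nat.prime_dvd_prime_iff_eq hp Nat.prime_two).1 (hp.dvd_of_dvd_pow h5)) h4
        rcases hp.dvd_mul.1 h5 with h5 | h5
        · exact Or.inl ((Nat.prime_dvd_prime_iff_eq hp (by norm_num)).1 h5)
        rcases hp.dvd_mul.1 h5 with h5 | h5
        · exact Or.inr (Or.inl ((Nat.prime_dvd_prime_iff_eq hp (by norm_num)).1 h5))
        · exact Or.inr (Or.inr ((Nat.prime_dvd_prime_iff_eq hp (by norm_num)).1 h5))
      exact hnd p h7 (h3.trans hRc)
  refine ⟨N, S, hNn, hSn, ?_, ?_, hiso, ?_, hKS⟩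
  · exact disjoint_iff.1 (Subgroup.disjoint_of_coprime_natCard hKS)
  · -- the join
    have h1 : R ≤ N ⊔ S := by
      have h3 := congrArg (fun W => Subgroup.map R.subtype W) hcomp.sup_eq_top
      simp only [Subgroup.map_sup] at h3
      rw [← MonoidHom.range_eq_map, Subgroup.range_subtype] at h3
      rw [← h3, sup_comm]
      apply sup_le_sup_right
      rintro _ ⟨w, hw, rfl⟩
      exact hQN w hw
    rw [eq_top_iff, ← E.sup]
    exact sup_le le_sup_left h1
  · -- `S` is abelian
    have hab : ∀ a b : S, a * b = b * a := by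
      apply odd_dedekind hS2
      intro x q k hq hx
      have hxo : orderOf (x : G) = q ^ k := by rw [orderOf_submonoid, hx]
      -- an element of order three of `N`
      have hf3 : Fact (Nat.Prime 3) := ⟨by norm_num⟩
      have h3N : 3 ∣ Nat.card N := by rw [hNc]; exact Dvd.dvd.mul_left (by norm_num) _
      obtain ⟨b₀, hb₀⟩ := exists_prime_orderOf_dvd_card' 3 h3N
      set b : G := (b₀ : G) with hb
      have hbN : b ∈ N := b₀.2
      have hbo : orderOf b = 3 ^ 1 := by rw [hb, orderOf_submonoid, hb₀, pow_one]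
      have hb3 : b ^ 3 ^ 1 = 1 := by rw [← hbo]; exact pow_orderOf_eq_one b
      have hbR : b ∉ R := by
        intro hbR
        obtain ⟨l, hl⟩ := hZ2 ⟨b, hbN, hbR⟩
        have h4 : b ^ 2 ^ l = 1 := congrArg Subtype.val hl
        have h5 := eq_one_of_pow (k := 1) Nat.prime_three Nat.prime_two (by norm_num) hb3 h4
        rw [h5, orderOf_one] at hbo
        norm_num at hbo
      have hxR : (x : G) ∈ R := hSR x.2
      have hcomm : ∀ c ∈ zpowers b, ∀ d ∈ zpowers (x : G), c * d = d * c :=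
        comm_zpowers (hcent b hbN x hxR)
      have hle := le_nor_of_comm hcomm
      have hT : TwoP (zpowers b ⊔ zpowers (x : G)) :=
        twoP_sup Nat.prime_three hq (isPGroup_zpowers hbo) (isPGroup_zpowers hxo) hle
      have hTR : ¬ zpowers b ⊔ zpowers (x : G) ≤ R := by
        intro h1
        exact hbR (h1 (le_sup_left (a := zpowers b) (mem_zpowers b)))
      have hRT := D.le_nor hT hTR
      refine ⟨fun w hw c => ?_⟩
      obtain ⟨i, rfl⟩ := mem_zpowers_iff.1 hw
      rw [← conj_zpow]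
      apply zpow_mem
      have h4 : (c : G) * x * (c : G)⁻¹ ∈ zpowers b ⊔ zpowers (x : G) :=
        conj_mem (hRT (hSR c.2)) (le_sup_right (a := zpowers b) (mem_zpowers (x : G)))
      obtain ⟨c', hc', d, hd, hcd⟩ := (mem_sup_nor hle).1 h4
      have h5 : c' ∈ R := by
        have h6 : c' = (c : G) * x * (c : G)⁻¹ * d⁻¹ := by rw [← hcd, mul_inv_cancel_right]
        rw [h6]
        exact mul_mem (mul_mem (mul_mem (hSR c.2) hxR) (inv_mem (hSR c.2)))
          (inv_mem ((zpowers_le.2 hxR) hd))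
      obtain ⟨j, rfl⟩ := mem_zpowers_iff.1 hc'
      have h6 : (3 : ℤ) ∣ j := by exact_mod_cast dvd_of_zpow_mem Nat.prime_three hbR hb3 h5
      have h7 : b ^ j = 1 := by
        rw [← orderOf_dvd_iff_zpow_eq_one, hbo]; exact_mod_cast h6
      rw [h7, one_mul] at hcd
      obtain ⟨l, hl⟩ := mem_zpowers_iff.1 hd
      refine mem_zpowers_iff.2 ⟨l, Subtype.ext ?_⟩
      change (x : G) ^ l = (c : G) * x * (c : G)⁻¹
      rw [hl, hcd]
    exact ⟨⟨hab⟩⟩

end Cfsg.Agent.S4233
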