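import Cfsg.Statements.S4234
import Cfsg.Agent.H547.Simple1092
import Cfsg.Agent.S0276
import Cfsg.Agent.S0268
import Cfsg.Agent.TwoFusion.SLTwoFacts

set_option autoImplicit false
open Cfsg

namespace Cfsg.Agent.S4234

/-- every non-normal subgroup has a maximal normaliser -/
def MaxN (G : Type*) [Group G] : Prop :=
  ∀ H : Subgroup G, ¬ H.Normal → IsCoatom (Subgroup.normalizer (H : Set G))

theorem fact13 : Fact (Nat.Prime 13) := ⟨by norm_num⟩

/-- the element `diag(2, 1/2)` of `SL(2,13)` -/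
def a : Matrix.SpecialLinearGroup (Fin 2) (ZMod 13) := ⟨!![2, 0; 0, 7], by decide⟩

theorem a_pow (n : ℕ) :
    ((a ^ n : Matrix.SpecialLinearGroup (Fin 2) (ZMod 13)) : Matrix (Fin 2) (Fin 2) (ZMod 13)) =
    !![2 ^ n, 0; 0, 7 ^ n] := by
  induction n with
  | zero =>
    ext i j
    fin_cases i <;> fin_cases j <;> simp
  | succ n ih =>
    rw [pow_succ, Matrix.SpecialLinearGroup.coe_mul, ih]
    ext i j
    fin_cases i <;> fin_cases j <;> simp [a, pow_succ]

theorem two_seven : (2 : ZMod 13) * 7 = 1 := by decide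

theorem mem_center_a (n : ℕ) : a ^ n ∈ Subgroup.center (Matrix.SpecialLinearGroup (Fin 2) (ZMod 13)) ↔
    (2 : ZMod 13) ^ n = 7 ^ n := by
  rw [Matrix.SpecialLinearGroup.mem_center_iff]
  constructor
  · rintro ⟨r, -, hr⟩
    rw [a_pow] at hr
    have h1 := congrFun (congrFun hr 0) 0
    have h2 := congrFun (congrFun hr 1) 1
    simp at h1 h2
    rw [← h1, ← h2]
  · intro h
    refine ⟨2 ^ n, ?_, ?_⟩
    · rw [Fintype.card_fin, pow_two]
      nth_rw 2 [h]
      rw [← mul_pow, two_seven, one_pow]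
    · rw [a_pow, ← h]
      ext i j
      fin_cases i <;> fin_cases j <;> simp

theorem exists_six : ∃ y : Matrix.ProjectiveSpecialLinearGroup (Fin 2) (ZMod 13), orderOf y = 6 := by
  refine ⟨QuotientGroup.mk' _ a, ?_⟩
  have key : ∀ n : ℕ, (QuotientGroup.mk' (Subgroup.center (Matrix.SpecialLinearGroup (Fin 2) (ZMod 13))) a) ^ n = 1 ↔
      (2 : ZMod 13) ^ n = 7 ^ n := by
    intro n
    rw [← map_pow, ← mem_center_a]
    exact QuotientGroup.eq_one_iff _
  have h : ∀ m : ℕ, m < 6 → 0 < m → (2 : ZMod 13) ^ m ≠ 7 ^ m := by decide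
  exact (orderOf_eq_iff (by norm_num)).mpr ⟨(key 6).mpr (by decide), fun m hm hm0 h1 => h m hm hm0 ((key m).mp h1)⟩

theorem card_sl : Nat.card (Matrix.SpecialLinearGroup (Fin 2) (ZMod 13)) = 2184 := by
  have := fact13
  rw [Cfsg.Agent.S0276.card_sl_two (q := 13) (ZMod.card 13)]
  norm_num

theorem card_center : Nat.card (Subgroup.center (Matrix.SpecialLinearGroup (Fin 2) (ZMod 13))) = 2 := by
  have := fact13
  refine Cfsg.Agent.S0276.card_center ?_
  rw [ZMod.ringChar_zmod_n]
  norm_num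

theorem card_psl : Nat.card (Matrix.ProjectiveSpecialLinearGroup (Fin 2) (ZMod 13)) = 1092 := by
  have h := Subgroup.card_eq_card_quotient_mul_card_subgroup
    (Subgroup.center (Matrix.SpecialLinearGroup (Fin 2) (ZMod 13)))
  rw [card_sl, card_center] at h
  change 2184 = Nat.card (Matrix.ProjectiveSpecialLinearGroup (Fin 2) (ZMod 13)) * 2 at h
  omega

theorem simple_psl : IsSimpleGroup (Matrix.ProjectiveSpecialLinearGroup (Fin 2) (ZMod 13)) := by
  have := fact13
  exact Cfsg.Agent.TwoFusion.SLTwoFacts.isSimpleGroup_psl (by rw [ZMod.card]; norm_num)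

theorem maxN_psl : MaxN (Matrix.ProjectiveSpecialLinearGroup (Fin 2) (ZMod 13)) := by
  intro H hH
  have := simple_psl
  refine Cfsg.Agent.H547.Simple1092.isCoatom_normalizer card_psl exists_six ?_ ?_
  · rintro rfl
    exact hH inferInstance
  · rintro rfl
    exact hH inferInstance

theorem maxN_equiv {G K : Type*} [Group G] [Group K] (e : G ≃* K) (h : MaxN K) : MaxN G := by
  intro H hH
  have h1 : H = (H.map e.toMonoidHom).comap e.toMonoidHom :=
    (Subgroup.comap_map_eq_self_of_injective e.injective H).symm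
  have h2 : ¬ (H.map e.toMonoidHom).Normal := by
    intro h3
    apply hH
    rw [h1]
    exact h3.comap _
  rw [h1, ← Subgroup.comap_normalizer_eq_of_surjective _ (f := e.toMonoidHom) e.surjective]
  exact Subgroup.isCoatom_comap_of_surjective e.surjective (h _ h2)

/-- lifting along a central extension by a group of order two containing all involutions -/
theorem maxN_lift {G : Type*} [Group G] [Finite G] (Z : Subgroup G) [hZ : Z.Normal] (hcard : Nat.card Z = 2)
    (hcen : Z ≤ Subgroup.center G) (hinv : ∀ g : G, g ≠ 1 → g * g = 1 → g ∈ Z) (h : MaxN (G ⧸ Z)) : MaxN G := by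
  -- subgroups containing `Z`
  have main : ∀ H : Subgroup G, Z ≤ H → ¬ H.Normal → IsCoatom (Subgroup.normalizer (H : Set G)) := by
    intro H hZH hH
    have h1 : H = (H.map (QuotientGroup.mk' Z)).comap (QuotientGroup.mk' Z) := by
      rw [Subgroup.comap_map_eq_self]
      rwa [QuotientGroup.ker_mk']
    have h2 : ¬ (H.map (QuotientGroup.mk' Z)).Normal := by
      intro h3
      apply hH
      rw [h1]
      exact h3.comap _
    rw [h1, ← Subgroup.comap_normalizer_eq_of_surjective _ (QuotientGroup.mk'_surjective Z)]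
    exact Subgroup.isCoatom_comap_of_surjective (QuotientGroup.mk'_surjective Z) (h _ h2)
  intro H hH
  by_cases hZH : Z ≤ H
  · exact main H hZH hH
  -- `H` has odd order
  have hodd : ¬ 2 ∣ Nat.card H := by
    intro h2
    have := Fact.mk Nat.prime_two
    obtain ⟨⟨s, hsH⟩, hs⟩ := exists_prime_orderOf_dvd_card' (G := H) 2 h2
    rw [Subgroup.orderOf_mk] at hs
    have hs1 : s ≠ 1 := by
      rintro rfl
      rw [orderOf_one] at hs
      norm_num at hs
    have hsZ := hinv s hs1 (by rw [← pow_two, ← hs, pow_orderOf_eq_one])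
    apply hZH
    have h3 : Subgroup.zpowers s = Z :=
      Subgroup.eq_of_le_of_card_ge (Subgroup.zpowers_le.mpr hsZ) (by rw [hcard, Nat.card_zpowers, hs])
    rw [← h3]
    exact Subgroup.zpowers_le.mpr hsH
  have hmem : ∀ x : G, x ∈ H ⊔ Z ↔ ∃ y ∈ H, ∃ z ∈ Z, y * z = x := fun x => Subgroup.mem_sup_of_normal_right
  have hzpow : ∀ z ∈ Z, z ^ Nat.card H = 1 → z = 1 := by
    intro z hz hz1
    have h1 : z ^ 2 = 1 := by
      rw [← hcard]
      exact congrArg Subtype.val (pow_card_eq_one' (x := (⟨z, hz⟩ : Z)))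
    have h2 : orderOf z ∣ 2 := orderOf_dvd_of_pow_eq_one h1
    have h3 : orderOf z ∣ Nat.card H := orderOf_dvd_of_pow_eq_one hz1
    rcases (Nat.dvd_prime Nat.prime_two).mp h2 with h4 | h4
    · exact orderOf_eq_one_iff.mp h4
    · rw [h4] at h3
      exact absurd h3 hodd
  have hmem2 : ∀ x ∈ H ⊔ Z, x ^ Nat.card H = 1 → x ∈ H := by
    intro x hx hx1
    obtain ⟨y, hy, z, hz, rfl⟩ := (hmem x).mp hx
    have hyz : Commute y z := ((Subgroup.mem_center_iff.mp (hcen hz)) y)
    have hy1 : y ^ Nat.card H = 1 := congrArg Subtype.val (pow_card_eq_one' (x := (⟨y, hy⟩ : H)))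
    rw [hyz.mul_pow, hy1, one_mul] at hx1
    rw [hzpow z hz hx1, mul_one]
    exact hy
  have hN : Subgroup.normalizer (H : Set G) = Subgroup.normalizer ((H ⊔ Z : Subgroup G) : Set G) := by
    apply le_antisymm
    · intro g hg
      rw [Subgroup.mem_normalizer_iff]
      intro x
      have key : ∀ g ∈ Subgroup.normalizer (H : Set G), ∀ x ∈ H ⊔ Z, g * x * g⁻¹ ∈ H ⊔ Z := by
        intro g hg x hx
        obtain ⟨y, hy, z, hz, rfl⟩ := (hmem x).mp hx
        have h1 : g * (y * z) * g⁻¹ = (g * y * g⁻¹) * (g * z * g⁻¹) := by group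
        rw [h1]
        exact Subgroup.mul_mem _ (Subgroup.mem_sup_left ((Subgroup.mem_normalizer_iff.mp hg y).mp hy))
          (Subgroup.mem_sup_right (hZ.conj_mem z hz g))
      refine ⟨key g hg x, fun hx => ?_⟩
      have h3 := key g⁻¹ (Subgroup.inv_mem _ hg) _ hx
      have h4 : g⁻¹ * (g * x * g⁻¹) * g⁻¹⁻¹ = x := by group
      rwa [h4] at h3
    · have key : ∀ g ∈ Subgroup.normalizer ((H ⊔ Z : Subgroup G) : Set G), ∀ x ∈ H, g * x * g⁻¹ ∈ H := by
        intro g hg x hx
        refine hmem2 _ ((Subgroup.mem_normalizer_iff.mp hg x).mp (Subgroup.mem_sup_left hx)) ?_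
        rw [conj_pow]
        have hy1 : x ^ Nat.card H = 1 := congrArg Subtype.val (pow_card_eq_one' (x := (⟨x, hx⟩ : H)))
        rw [hy1]; group
      intro g hg
      rw [Subgroup.mem_normalizer_iff]
      intro x
      refine ⟨key g hg x, fun hx => ?_⟩
      have h3 := key g⁻¹ (Subgroup.inv_mem _ hg) _ hx
      have h4 : g⁻¹ * (g * x * g⁻¹) * g⁻¹⁻¹ = x := by group
      rwa [h4] at h3
  rw [hN]
  refine main _ le_sup_right ?_
  intro h1
  apply hH
  rw [← Subgroup.normalizer_eq_top_iff, hN, Subgroup.normalizer_eq_top_iff]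
  exact h1

theorem maxN_sl : MaxN (Matrix.SpecialLinearGroup (Fin 2) (ZMod 13)) := by
  have := fact13
  refine maxN_lift (Subgroup.center _) card_center le_rfl ?_ maxN_psl
  intro g hg1 hgg
  have h1 := Cfsg.Agent.S0268.result (F := ZMod 13) (by rw [ZMod.card]; decide) g hg1 hgg
  rw [Matrix.SpecialLinearGroup.mem_center_iff]
  refine ⟨-1, by rw [Fintype.card_fin]; ring, ?_⟩
  rw [h1]
  ext i j
  fin_cases i <;> fin_cases j <;> simp

theorem maxN_prod {K S : Type*} [Group K] [CommGroup S] [Finite K] [Finite S]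
    (hKS : (Nat.card K).Coprime (Nat.card S)) (h : MaxN K) : MaxN (K × S) := by
  intro H hH
  -- the first component of an element of `H`
  have hfst : ∀ x : K × S, x ∈ H → (x.1, (1 : S)) ∈ H := by
    intro x hx
    obtain ⟨e, he1, he2⟩ := Nat.chineseRemainder hKS 1 0
    have h1 : x ^ e ∈ H := H.pow_mem hx e
    have h2 : x ^ e = (x.1, (1 : S)) := by
      refine Prod.ext ?_ ?_
      · change x.1 ^ e = x.1
        rw [← pow_mod_natCard, he1, pow_mod_natCard, pow_one]
      · change x.2 ^ e = 1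
        rw [← pow_mod_natCard, he2, pow_mod_natCard, pow_zero]
    rwa [h2] at h1
  set H₁ : Subgroup K := H.comap (MonoidHom.inl K S) with hH₁
  have hsnd : ∀ x : K × S, x ∈ H → ((1 : K), x.2) ∈ H := by
    intro x hx
    have h1 := H.mul_mem (H.inv_mem (hfst x hx)) hx
    have h2 : (x.1, (1 : S))⁻¹ * x = ((1 : K), x.2) := by
      refine Prod.ext ?_ ?_
      · change x.1⁻¹ * x.1 = 1
        group
      · change (1 : S)⁻¹ * x.2 = x.2
        group
    rwa [h2] at h1
  have hN : Subgroup.normalizer (H : Set (K × S)) =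
      (Subgroup.normalizer (H₁ : Set K)).comap (MonoidHom.fst K S) := by
    have hconj : ∀ g x : K × S, g * x * g⁻¹ = (g.1 * x.1 * g.1⁻¹, x.2) := by
      intro g x
      refine Prod.ext rfl ?_
      change g.2 * x.2 * g.2⁻¹ = x.2
      rw [mul_comm g.2, mul_inv_cancel_right]
    ext g
    rw [Subgroup.mem_comap, Subgroup.mem_normalizer_iff, Subgroup.mem_normalizer_iff]
    constructor
    · intro hg k
      have h1 := hg (k, 1)
      rw [hconj] at h1
      exact h1
    · intro hg x
      rw [hconj]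
      have h0 : ∀ k : K, (k, x.2) ∈ H ↔ ((k, (1 : S)) ∈ H ∧ ((1 : K), x.2) ∈ H) := by
        intro k
        constructor
        · intro hk
          exact ⟨hfst (k, x.2) hk, hsnd (k, x.2) hk⟩
        · rintro ⟨h1, h2⟩
          have h3 := H.mul_mem h1 h2
          rwa [Prod.mk_mul_mk, mul_one, one_mul] at h3
      have h1 : x ∈ H ↔ (x.1, x.2) ∈ H := Iff.rfl
      have h3 : (x.1, (1 : S)) ∈ H ↔ (g.1 * x.1 * g.1⁻¹, (1 : S)) ∈ H := hg x.1
      rw [h1, h0, h0 (g.1 * x.1 * g.1⁻¹), h3]
  rw [hN]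
  refine Subgroup.isCoatom_comap_of_surjective Prod.fst_surjective (h _ ?_)
  intro h1
  apply hH
  rw [← Subgroup.normalizer_eq_top_iff, hN, Subgroup.normalizer_eq_top_iff.mpr h1, Subgroup.comap_top]

/-- Let K be isomorphic to PSL(2, 13) or to SL(2, 13) and let S be a finite abelian group of order coprime to the order of K. Then in the direct product K × S every subgroup that is not normal has a normalizer that is a maximal subgroup. -/
theorem result {K S : Type*} [Group K] [CommGroup S] [Finite K] [Finite S]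
    (hK : Nonempty (K ≃* Matrix.ProjectiveSpecialLinearGroup (Fin 2) (ZMod 13)) ∨
      Nonempty (K ≃* Matrix.SpecialLinearGroup (Fin 2) (ZMod 13)))
    (hKS : (Nat.card K).Coprime (Nat.card S)) (H : Subgroup (K × S)) (hH : ¬ H.Normal) :
    IsCoatom (Subgroup.normalizer (H : Set (K × S))) := by
  refine maxN_prod hKS ?_ H hH
  rcases hK with ⟨⟨e⟩⟩ | ⟨⟨e⟩⟩
  · exact maxN_equiv e maxN_psl
  · exact maxN_equiv e maxN_sl

end Cfsg.Agent.S4234
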