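import Cfsg.Statements.S4235
import Cfsg.Agent.H547.FrobSysMain
import Cfsg.Agent.S0205

set_option autoImplicit false
open scoped Pointwise
open Cfsg

namespace Cfsg.Agent.S4235

/-- Let G be a finite group. Call a subgroup maximal solvable if it is solvable and not properly contained in a solvable subgroup. Suppose F assigns to each maximal solvable subgroup M a normal subgroup F(M) of M such that: every element of M outside F(M) centralizes no non-identity element of F(M); F(M) meets each conjugate g F(M) g⁻¹ with g outside M trivially; and F(M) is nontrivial unless M is abelian. Then G is solvable, or G is isomorphic to SL(2, K) for a finite field K of characteristic 2 with at least 4 elements, or G is isomorphic to a Suzuki group. -/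
theorem result {G : Type*} [Group G] [Finite G] (F : Subgroup G → Subgroup G)
    (h : ∀ M : Subgroup G, (Group.IsSolvable M ∧ ∀ M' : Subgroup G, M < M' → ¬ Group.IsSolvable M') →
      F M ≤ M ∧ M ≤ Subgroup.normalizer (F M : Set G) ∧
      (∀ a ∈ M, a ∉ F M → ∀ x ∈ F M, x * a = a * x → x = 1) ∧
      (∀ g : G, g ∉ M → F M ⊓ (MulAut.conj g • F M) = ⊥) ∧
      (F M ≠ ⊥ ∨ IsMulCommutative M)) :
    Group.IsSolvable G ∨
      (∃ (K : Type) (_ : Field K) (_ : Fintype K), (∃ n : ℕ, 2 ≤ n ∧ Fintype.card K = 2 ^ n) ∧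
        Nonempty (G ≃* Matrix.SpecialLinearGroup (Fin 2) K)) ∨
      Cfsg.Lie.IsoSuzuki G := by
  by_cases hs : Group.IsSolvable G
  · exact Or.inl hs
  right
  have hsys : Cfsg.Agent.H547.FrobSys.Sys F :=
    ⟨fun M hM => (h M hM).1, fun M hM => (h M hM).2.1, fun M hM => (h M hM).2.2.1,
      fun M hM => (h M hM).2.2.2.1, fun M hM => (h M hM).2.2.2.2⟩
  obtain ⟨P⟩ : Nonempty (Sylow 2 G) := inferInstance
  obtain ⟨M, hM, hPM, hc⟩ : ∃ M : Subgroup G, Cfsg.Agent.H547.FrobSys.MS M ∧ (P : Subgroup G) ≤ M ∧
      ¬ IsMulCommutative M := by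
    by_contra hcon
    push Not at hcon
    exact hs (Cfsg.Agent.H547.FrobSys.solvable_of_comm
      (fun K _ _ hK => Cfsg.Agent.S0205.result hK) P hcon)
  have hF : F M ≠ ⊥ := (hsys.ne M hM).resolve_right hc
  have c : Cfsg.Agent.H547.FrobSys.Ctx F M P :=
    ⟨fun K _ _ hK => Cfsg.Agent.S0205.result hK, hsys, hs, hM,
      hsys.sylow_le (fun K _ _ hK => Cfsg.Agent.S0205.result hK) hs P hM hPM hF⟩
  exact c.main

end Cfsg.Agent.S4235
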