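import Cfsg.Statements.S4236
import Cfsg.Agent.S0336
import Cfsg.Agent.S0044
import Cfsg.Agent.Lib.Cores

set_option autoImplicit false
open Cfsg

namespace Cfsg.Agent.S4236

universe u

/-- a group of order prime to `3` and not divisible by `64` is solvable -/
theorem solvable_of_not_dvd (n : ℕ) : ∀ (G : Type u) [Group G] [Finite G], Nat.card G = n →
    ¬ 3 ∣ n → ¬ 64 ∣ n → Group.IsSolvable G := by
  induction n using Nat.strong_induction_on with
  | _ n ih =>
    intro G _ _ hG h3 h64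
    by_cases hsub : Subsingleton G
    · exact Group.isSolvable_of_comm (fun a b => Subsingleton.elim _ _)
    have hnt : Nontrivial G := not_subsingleton_iff_nontrivial.mp hsub
    by_cases hs : IsSimpleGroup G
    · by_cases hc : ∃ a b : G, a * b ≠ b * a
      · exfalso
        obtain ⟨-, m, hm, hcard⟩ := Cfsg.Agent.S0336.result hc (by rwa [hG])
        apply h64
        rw [← hG, hcard]
        have h1 : (64 : ℕ) ∣ (2 ^ (2 * m + 1)) ^ 2 := by
          rw [← pow_mul]
          exact (show (64 : ℕ) = 2 ^ 6 by norm_num) ▸ pow_dvd_pow 2 (by omega)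
        exact Dvd.dvd.mul_right (Dvd.dvd.mul_right h1 _) _
      · push Not at hc
        exact Group.isSolvable_of_comm hc
    · obtain ⟨N, hN, hN1, hN2⟩ : ∃ N : Subgroup G, N.Normal ∧ N ≠ ⊥ ∧ N ≠ ⊤ := by
        by_contra hcon
        push Not at hcon
        apply hs
        exact ⟨fun N hN => or_iff_not_imp_left.mpr (hcon N hN)⟩
      have hmul : Nat.card (G ⧸ N) * Nat.card N = n := by
        rw [← hG]; exact (Subgroup.card_eq_card_quotient_mul_card_subgroup N).symm
      have hN1' : 1 < Nat.card N := (Subgroup.one_lt_card_iff_ne_bot N).mpr hN1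
      have hq : Nat.card (G ⧸ N) ≠ 1 := by
        intro h1
        exact hN2 (Subgroup.index_eq_one.mp h1)
      have hq0 : 0 < Nat.card (G ⧸ N) := Nat.card_pos
      have hq1 : 2 ≤ Nat.card (G ⧸ N) := by omega
      have hd1 : Nat.card N ∣ n := ⟨_, by rw [mul_comm]; exact hmul.symm⟩
      have hd2 : Nat.card (G ⧸ N) ∣ n := ⟨_, hmul.symm⟩
      have h1 : Group.IsSolvable N := ih (Nat.card N) (by nlinarith) N rfl
        (fun h => h3 (h.trans hd1)) (fun h => h64 (h.trans hd1))
      have h2 : Group.IsSolvable (G ⧸ N) := ih (Nat.card (G ⧸ N)) (by nlinarith) (G ⧸ N) rfl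
        (fun h => h3 (h.trans hd2)) (fun h => h64 (h.trans hd2))
      exact Group.isSolvable_of_ker_le_range N.subtype (QuotientGroup.mk' N) (by simp)

/-- a nontrivial finite solvable group has a nontrivial normal `r`-subgroup for some prime `r` -/
theorem exists_pCore {G : Type u} [Group G] [Finite G] [Nontrivial G] (hs : Group.IsSolvable G) :
    ∃ r : ℕ, r.Prime ∧ pCore r G ≠ ⊥ := by
  by_contra hcon
  push Not at hcon
  have h1 : fittingSubgroup G = ⊥ := by
    rw [Cfsg.Agent.Lib.Cores.fittingSubgroup_eq_iSup_pCore, eq_bot_iff]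
    exact iSup_le fun p => (hcon p p.2).le
  have h2 := Cfsg.Agent.S0044.result (G := G)
  rw [h1] at h2
  have h3 : (⊤ : Subgroup G) ≤ ⊥ := by
    intro x _
    refine h2 (Subgroup.mem_centralizer_iff.mpr ?_)
    intro y hy
    rw [SetLike.mem_coe, Subgroup.mem_bot] at hy
    rw [hy, one_mul, mul_one]
  exact bot_ne_top (le_antisymm bot_le h3)

section abs

open MulAction

variable {Γ Ω : Type u} [Group Γ] [Finite Γ] [Finite Ω] [MulAction Γ Ω] [FaithfulSMul Γ Ω]
  [IsPretransitive Γ Ω]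

/-- The abstract situation -/
structure Sit (S : Ω → Subgroup Γ) : Prop where
  card : Nat.card Ω = 35
  pg : ∀ x, IsPGroup 17 (S x)
  fix : ∀ x, ∀ s ∈ S x, s • x = x
  fix' : ∀ x y, (∀ s ∈ S x, s • y = y) → y = x
  conj : ∀ g x, ∀ s ∈ S x, g * s * g⁻¹ ∈ S (g • x)
  max : ∀ g : Γ, ∀ x : Ω, g • x = x → (∃ k : ℕ, g ^ 17 ^ k = 1) → g ∈ S x

variable {S : Ω → Subgroup Γ}

set_option linter.unusedSectionVars false

instance fact17 : Fact (Nat.Prime 17) := ⟨by norm_num⟩

theorem notMem_orbit (h : Sit S) {x y : Ω} (hxy : y ≠ x) : x ∉ orbit (S x) y := by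
  rintro ⟨⟨s, hs⟩, hsy⟩
  change s • y = x at hsy
  have h1 := h.fix x s hs
  apply hxy
  rw [← hsy] at h1
  have h2 : s • (s • y) = s • y := h1
  have h3 := smul_left_cancel s h2
  rw [h3] at hsy
  exact hsy

theorem card_orbit_eq (h : Sit S) {x y : Ω} (hxy : y ≠ x) : (orbit (S x) y).ncard = 17 := by
  obtain ⟨n, hn⟩ := (h.pg x).card_orbit y
  rw [Nat.card_coe_set_eq] at hn
  have h1 : n ≠ 0 := by
    rintro rfl
    rw [pow_zero, Set.ncard_eq_one] at hn
    obtain ⟨a, ha⟩ := hn
    have hya : y = a := by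
      have : y ∈ orbit (S x) y := mem_orbit_self y
      rw [ha] at this
      exact this
    subst hya
    refine hxy (h.fix' x y fun s hs => ?_)
    have h2 : s • y ∈ orbit (S x) y := ⟨⟨s, hs⟩, rfl⟩
    rw [ha] at h2
    exact h2
  have h2 : (orbit (S x) y).ncard ≤ 35 := h.card ▸ (Set.ncard_univ Ω ▸ Set.ncard_le_ncard (Set.subset_univ _))
  have h3 : n < 2 := by
    by_contra h4
    have h5 : 17 ^ 2 ≤ 17 ^ n := Nat.pow_le_pow_right (by norm_num) (by omega)
    omega
  have h4 : n = 1 := by omega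
  rw [hn, h4, pow_one]

/-- an element of `S x` fixing `y` fixes the orbit of `y` pointwise. -/
theorem fix_orbit (h : Sit S) {x y : Ω} (hxy : y ≠ x) {s : Γ} (hs : s ∈ S x) (hsy : s • y = y)
    {z : Ω} (hz : z ∈ orbit (S x) y) : s • z = z := by
  have h1 : (stabilizer (S x) y).index = 17 := by
    rw [index_stabilizer, card_orbit_eq h hxy]
  have hcard : ∃ k, Nat.card (S x) = 17 ^ k := IsPGroup.iff_card.mp (h.pg x)
  obtain ⟨k, hk⟩ := hcard
  have h2 : k ≠ 0 := by
    rintro rfl
    have := Subgroup.index_dvd_card (stabilizer (S x) y)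
    rw [h1, hk] at this
    norm_num at this
  have h3 : (stabilizer (S x) y).Normal := by
    apply Subgroup.normal_of_index_eq_minFac_card
    rw [h1, hk, Nat.pow_minFac h2, Nat.Prime.minFac_eq fact17.out]
  obtain ⟨t, rfl⟩ := hz
  have h4 : (t⁻¹ * ⟨s, hs⟩ * t : S x) ∈ stabilizer (S x) y := by
    have h5 := h3.conj_mem (⟨s, hs⟩ : S x) (by exact hsy) t⁻¹
    rwa [inv_inv] at h5
  rw [mem_stabilizer_iff] at h4
  have h5 : (⟨s, hs⟩ : S x) • (t • y) = t • ((t⁻¹ * ⟨s, hs⟩ * t : S x) • y) := by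
    rw [← mul_smul, ← mul_smul]
    congr 1
    group
  rw [h4] at h5
  exact h5

theorem orbit_disjoint (_h : Sit S) {x y z : Ω} (hz : z ∉ orbit (S x) y) :
    Disjoint (orbit (S x) y) (orbit (S x) z) := by
  rw [Set.disjoint_left]
  intro w hw1 hw2
  apply hz
  rw [orbit_eq_iff.mpr hw1 |>.symm, orbit_eq_iff.mpr hw2]
  exact mem_orbit_self z

/-- Two orbits and `x` are everything. -/
theorem exists_other (h : Sit S) {x y : Ω} (hxy : y ≠ x) : ∃ z : Ω, z ≠ x ∧ z ∉ orbit (S x) y ∧
    ∀ w : Ω, w = x ∨ w ∈ orbit (S x) y ∨ w ∈ orbit (S x) z := by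
  have h1 : (insert x (orbit (S x) y)).ncard = 18 := by
    rw [Set.ncard_insert_of_notMem (notMem_orbit h hxy), card_orbit_eq h hxy]
  obtain ⟨z, hz⟩ : ∃ z, z ∉ insert x (orbit (S x) y) := by
    by_contra hcon
    push Not at hcon
    have h2 : insert x (orbit (S x) y) = Set.univ := Set.eq_univ_of_forall hcon
    rw [h2, Set.ncard_univ, h.card] at h1
    norm_num at h1
  rw [Set.mem_insert_iff, not_or] at hz
  refine ⟨z, hz.1, hz.2, ?_⟩
  have hd : Disjoint (insert x (orbit (S x) y)) (orbit (S x) z) := by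
    rw [Set.disjoint_insert_left]
    exact ⟨notMem_orbit h hz.1, orbit_disjoint h hz.2⟩
  have h2 : (insert x (orbit (S x) y) ∪ orbit (S x) z).ncard = 35 := by
    rw [Set.ncard_union_eq hd, h1, card_orbit_eq h hz.1]
  have h3 : insert x (orbit (S x) y) ∪ orbit (S x) z = Set.univ := by
    apply Set.eq_of_subset_of_ncard_le (Set.subset_univ _)
    rw [Set.ncard_univ, h.card, h2]
  intro w
  have h4 : w ∈ insert x (orbit (S x) y) ∪ orbit (S x) z := h3 ▸ Set.mem_univ w
  rcases h4 with h4 | h4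
  · rcases h4 with h4 | h4
    · exact Or.inl h4
    · exact Or.inr (Or.inl h4)
  · exact Or.inr (Or.inr h4)

theorem card_conj (h : Sit S) (x x' : Ω) : Nat.card (S x) = Nat.card (S x') := by
  have key : ∀ x x' : Ω, Nat.card (S x) ≤ Nat.card (S x') := by
    intro x x'
    obtain ⟨g, hg⟩ := exists_smul_eq Γ x x'
    have hf : ∀ s : S x, g * (s : Γ) * g⁻¹ ∈ S x' := fun s => hg ▸ h.conj g x s s.2
    refine Nat.card_le_card_of_injective (fun s : S x => (⟨g * (s : Γ) * g⁻¹, hf s⟩ : S x')) ?_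
    intro s t hst
    have h1 : g * (s : Γ) * g⁻¹ = g * (t : Γ) * g⁻¹ := congrArg Subtype.val hst
    exact Subtype.ext (by simpa using h1)
  exact le_antisymm (key x x') (key x' x)

theorem card_stab (h : Sit S) {x y : Ω} (hxy : y ≠ x) :
    Nat.card (S x) = 17 * Nat.card (stabilizer (S x) y) := by
  have h1 : (stabilizer (S x) y).index = 17 := by
    rw [index_stabilizer, card_orbit_eq h hxy]
  rw [← h1, Subgroup.index_mul_card]

/-- if `s ∈ S x` fixes two points in different orbits then `s = 1`. -/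
theorem eq_one_of_fix (h : Sit S) {x y z : Ω} (hxy : y ≠ x) (hxz : z ≠ x) 
    (hw : ∀ w : Ω, w = x ∨ w ∈ orbit (S x) y ∨ w ∈ orbit (S x) z)
    {s : Γ} (hs : s ∈ S x) (h1 : s • y = y) (h2 : s • z = z) : s = 1 := by
  apply FaithfulSMul.eq_of_smul_eq_smul (α := Ω)
  intro w
  rw [one_smul]
  rcases hw w with rfl | hw | hw
  · exact h.fix _ s hs
  · exact fix_orbit h hxy hs h1 hw
  · exact fix_orbit h hxz hs h2 hw

/-- The orbits of `S x` and `S x'` through `y` agree if they share an element moving `y`. -/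
theorem orbit_eq_of_mem (h : Sit S) {x x' y : Ω} (hxy : y ≠ x) (hxy' : y ≠ x') {s : Γ}
    (hs : s ∈ S x) (hs' : s ∈ S x') (hsy : s • y ≠ y) : orbit (S x) y = orbit (S x') y := by
  have hle : Subgroup.zpowers s ≤ S x := Subgroup.zpowers_le.mpr hs
  have hle' : Subgroup.zpowers s ≤ S x' := Subgroup.zpowers_le.mpr hs'
  have hpg : IsPGroup 17 (Subgroup.zpowers s) := (h.pg x).to_le hle
  obtain ⟨n, hn⟩ := hpg.card_orbit y
  rw [Nat.card_coe_set_eq] at hn
  have hsub : ∀ A : Subgroup Γ, Subgroup.zpowers s ≤ A →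
      orbit (Subgroup.zpowers s) y ⊆ orbit A y := by
    rintro A hA _ ⟨⟨t, ht⟩, rfl⟩
    exact ⟨⟨t, hA ht⟩, rfl⟩
  have h1 : (orbit (Subgroup.zpowers s) y).ncard ≠ 1 := by
    intro h1
    rw [Set.ncard_eq_one] at h1
    obtain ⟨a, ha⟩ := h1
    have hya : y = a := by
      have : y ∈ orbit (Subgroup.zpowers s) y := mem_orbit_self y
      rw [ha] at this
      exact this
    subst hya
    apply hsy
    have h2 : s • y ∈ orbit (Subgroup.zpowers s) y := ⟨⟨s, Subgroup.mem_zpowers s⟩, rfl⟩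
    rw [ha] at h2
    exact h2
  have h2 : 17 ≤ (orbit (Subgroup.zpowers s) y).ncard := by
    rw [hn] at h1 ⊢
    have h3 : n ≠ 0 := by
      rintro rfl
      exact h1 (pow_zero _)
    calc 17 = 17 ^ 1 := (pow_one _).symm
      _ ≤ 17 ^ n := Nat.pow_le_pow_right (by norm_num) (by omega)
  have h3 := Set.eq_of_subset_of_ncard_le (hsub _ hle) (by rw [card_orbit_eq h hxy]; exact h2)
  have h4 := Set.eq_of_subset_of_ncard_le (hsub _ hle') (by rw [card_orbit_eq h hxy']; exact h2)
  rw [← h3, h4]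

/-- Case (A) is impossible: `S x` is regular on its nontrivial orbits. -/
theorem regular (h : Sit S) {x y : Ω} (hxy : y ≠ x) {s : Γ} (hs : s ∈ S x) (hsy : s • y = y) :
    s = 1 := by
  by_contra hs1
  -- every point stabiliser in every `S x'` is nontrivial
  have hA : ∀ x' y' : Ω, y' ≠ x' → ∃ t ∈ S x', t ≠ 1 ∧ t • y' = y' := by
    intro x' y' hxy'
    have h1 : Nat.card (stabilizer (S x') y') ≠ 1 := by
      have h2 := card_stab h hxy
      have h3 := card_stab h hxy'
      rw [card_conj h x' x, h2] at h3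
      have h4 : Nat.card (stabilizer (S x) y) ≠ 1 := by
        intro h5
        have h6 := Subgroup.eq_bot_of_card_eq _ h5
        have h7 : (⟨s, hs⟩ : S x) ∈ stabilizer (S x) y := hsy
        rw [h6, Subgroup.mem_bot] at h7
        exact hs1 (congrArg Subtype.val h7)
      omega
    obtain ⟨⟨t, ht⟩, ht1⟩ : ∃ t : stabilizer (S x') y', t ≠ 1 := by
      by_contra hcon
      push Not at hcon
      exact h1 (Nat.card_eq_one_iff_exists.mpr ⟨1, hcon⟩)
    refine ⟨t, t.2, ?_, ht⟩
    intro h5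
    apply ht1
    apply Subtype.ext
    exact Subtype.ext h5
  -- an element moving exactly one orbit
  have hB : ∀ x' y' : Ω, y' ≠ x' → ∃ t ∈ S x', t • y' ≠ y' ∧ ∀ w, w ∉ orbit (S x') y' → t • w = w := by
    intro x' y' hxy'
    obtain ⟨z, hz1, hz2, hz3⟩ := exists_other h hxy'
    obtain ⟨t, ht, ht1, htz⟩ := hA x' z hz1
    refine ⟨t, ht, ?_, ?_⟩
    · intro h1
      exact ht1 (eq_one_of_fix h hxy' hz1 hz3 ht h1 htz)
    · intro w hw
      rcases hz3 w with rfl | h1 | h1
      · exact h.fix _ t ht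
      · exact absurd h1 hw
      · exact fix_orbit h hz1 ht htz h1
  -- orbits of `S x'`, `x' ∉ orbit (S x) y`
  have hC : ∀ x x' y : Ω, y ≠ x → x' ∉ orbit (S x) y → orbit (S x) y = orbit (S x') y := by
    intro x x' y hxy hx'
    obtain ⟨t, ht, hty, htw⟩ := hB x y hxy
    have h1 : t ∈ S x' := by
      refine h.max t x' (htw x' hx') ?_
      obtain ⟨k, hk⟩ := h.pg x ⟨t, ht⟩
      exact ⟨k, congrArg Subtype.val hk⟩
    have h2 : y ≠ x' := by
      rintro rfl
      exact hx' (mem_orbit_self y)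
    exact orbit_eq_of_mem h hxy h2 ht h1 hty
  -- the contradiction
  obtain ⟨x₂, hx₂, hx₂y⟩ : ∃ x₂ ∈ orbit (S x) y, x₂ ≠ y := by
    by_contra hcon
    push Not at hcon
    have h1 : orbit (S x) y ⊆ {y} := fun w hw => hcon w hw
    have h2 := Set.ncard_le_ncard h1
    rw [card_orbit_eq h hxy, Set.ncard_singleton] at h2
    norm_num at h2
  obtain ⟨w, hw⟩ : ∃ w, w ∉ orbit (S x) y ∪ orbit (S x₂) y := by
    by_contra hcon
    push Not at hcon
    have h1 : orbit (S x) y ∪ orbit (S x₂) y = Set.univ := Set.eq_univ_of_forall hcon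
    have h2 := Set.ncard_union_le (orbit (S x) y) (orbit (S x₂) y)
    rw [h1, card_orbit_eq h hxy, card_orbit_eq h hx₂y.symm, Set.ncard_univ, h.card] at h2
    norm_num at h2
  rw [Set.mem_union, not_or] at hw
  have h1 := hC x w y hxy hw.1
  have h2 := hC x₂ w y hx₂y.symm hw.2
  rw [← h2] at h1
  rw [h1] at hx₂
  exact notMem_orbit h hx₂y.symm hx₂

theorem card_S (h : Sit S) (x : Ω) : Nat.card (S x) = 17 := by
  obtain ⟨y, hxy⟩ : ∃ y, y ≠ x := by
    have : Nontrivial Ω := Finite.one_lt_card_iff_nontrivial.mp (by rw [h.card]; norm_num)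
    exact exists_ne x
  rw [card_stab h hxy]
  have h1 : stabilizer (S x) y = ⊥ := by
    rw [Subgroup.eq_bot_iff_forall]
    rintro ⟨s, hs⟩ hsy
    exact Subtype.ext (regular h hxy hs hsy)
  rw [h1, Subgroup.card_bot]

/-- the centraliser of `S x` in the stabiliser of `x` is semiregular. -/
theorem semireg (h : Sit S) {x y : Ω} (hxy : y ≠ x) {c : Γ} (hcx : c • x = x) (hcy : c • y = y)
    (hc : ∀ s ∈ S x, c * s = s * c) : c = 1 := by
  obtain ⟨z, hz1, hz2, hz3⟩ := exists_other h hxy
  -- `c` fixes the orbit of `y`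
  have h1 : ∀ w ∈ orbit (S x) y, c • w = w := by
    rintro _ ⟨⟨s, hs⟩, rfl⟩
    change c • s • y = s • y
    rw [← mul_smul, hc s hs, mul_smul, hcy]
  have h2 : c • z ∈ orbit (S x) z := by
    rcases hz3 (c • z) with h2 | h2 | h2
    · exfalso
      apply hz1
      have h3 : c • z = c • x := by rw [h2, hcx]
      exact smul_left_cancel c h3
    · exfalso
      have h3 := h1 _ h2
      have h4 := smul_left_cancel c h3
      rw [h4] at h2
      exact hz2 h2
    · exact h2
  obtain ⟨⟨s, hs⟩, hsz⟩ := h2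
  change s • z = c • z at hsz
  have hS : ∀ s ∈ S x, ∀ t ∈ S x, s * t = t * s := by
    have hcyc : IsCyclic (S x) := isCyclic_of_prime_card (p := 17) (card_S h x)
    intro s hs t ht
    obtain ⟨g, hg⟩ := hcyc.exists_generator
    obtain ⟨i, hi⟩ := Subgroup.mem_zpowers_iff.mp (hg ⟨s, hs⟩)
    obtain ⟨j, hj⟩ := Subgroup.mem_zpowers_iff.mp (hg ⟨t, ht⟩)
    have h5 : (⟨s, hs⟩ : S x) * ⟨t, ht⟩ = ⟨t, ht⟩ * ⟨s, hs⟩ := by
      rw [← hi, ← hj, ← zpow_add, ← zpow_add, add_comm]
    exact congrArg Subtype.val h5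
  have h3 : ∀ w ∈ orbit (S x) z, c • w = s • w := by
    rintro _ ⟨⟨t, ht⟩, rfl⟩
    change c • t • z = s • t • z
    rw [← mul_smul, hc t ht, mul_smul, ← hsz, ← mul_smul, ← mul_smul, hS t ht s hs]
  have hs17 : s ^ 17 = 1 := by
    have h5 : (⟨s, hs⟩ : S x) ^ 17 = 1 := by
      rw [← card_S h x]
      exact pow_card_eq_one'
    exact congrArg Subtype.val h5
  have h4 : c ^ 17 = 1 := by
    apply FaithfulSMul.eq_of_smul_eq_smul (α := Ω)
    intro w
    rw [one_smul]
    have hfix : ∀ w : Ω, c • w = w → c ^ 17 • w = w := by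
      intro w hw
      exact Subgroup.pow_mem (stabilizer Γ w) (show c ∈ stabilizer Γ w from hw) 17
    rcases hz3 w with rfl | hw | hw
    · exact hfix _ hcx
    · exact hfix w (h1 w hw)
    · have h5 : ∀ n : ℕ, c ^ n • w = s ^ n • w := by
        intro n
        induction n with
        | zero => simp
        | succ n ih =>
          rw [pow_succ', mul_smul, ih, pow_succ', mul_smul]
          apply h3
          have h6 : s ^ n • w ∈ orbit (S x) w := ⟨⟨s ^ n, pow_mem hs n⟩, rfl⟩
          rw [orbit_eq_iff.mpr hw] at h6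
          exact h6
      rw [h5 17, hs17, one_smul]
  have h5 : c ∈ S x := h.max c x hcx ⟨1, by rw [pow_one]; exact h4⟩
  exact regular h hxy h5 hcy

/-- The order of the point stabiliser. -/
theorem card_stabilizer_dvd (h : Sit S) (x : Ω) : Nat.card (stabilizer Γ x) ∣ 34 * 16 := by
  obtain ⟨y, hxy⟩ : ∃ y, y ≠ x := by
    have : Nontrivial Ω := Finite.one_lt_card_iff_nontrivial.mp (by rw [h.card]; norm_num)
    exact exists_ne x
  have hSx : S x ≤ stabilizer Γ x := fun s hs => h.fix x s hs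
  set N := stabilizer Γ x with hN
  let T : Subgroup N := (S x).subgroupOf N
  have hTn : T.Normal := by
    refine ⟨fun s hs g => ?_⟩
    have h1 := h.conj g x s hs
    rwa [show (g : Γ) • x = x from g.2] at h1
  have hTcard : Nat.card T = 17 := by
    rw [Nat.card_congr (Subgroup.subgroupOfEquivOfLe hSx).toEquiv, card_S h x]
  have hTcyc : IsCyclic T := isCyclic_of_prime_card (p := 17) hTcard
  let ψ : N →* MulAut T := MulAut.conjNormal
  have h1 : Nat.card ψ.range ∣ 16 := by
    have h2 := Subgroup.card_subgroup_dvd_card ψ.range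
    rw [IsCyclic.card_mulAut, hTcard] at h2
    exact h2
  have h2 : Nat.card ψ.ker ∣ 34 := by
    -- semiregular at `y`
    have h3 : stabilizer ψ.ker y = ⊥ := by
      rw [Subgroup.eq_bot_iff_forall]
      rintro ⟨⟨c, hcN⟩, hc⟩ hcy
      have h4 : c = 1 := by
        refine semireg h hxy hcN hcy ?_
        intro s hs
        have h5 : ψ ⟨c, hcN⟩ = 1 := hc
        have h6 := congrArg (fun f : MulAut T => ((f ⟨⟨s, hSx hs⟩, hs⟩ : T) : N)) h5
        simp only [ψ, MulAut.conjNormal_apply, MulAut.one_apply] at h6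
        have h7 := congrArg Subtype.val h6
        change c * s * c⁻¹ = s at h7
        rwa [mul_inv_eq_iff_eq_mul] at h7
      exact Subtype.ext (Subtype.ext h4)
    have h4 : Nat.card ψ.ker = (orbit ψ.ker y).ncard := by
      rw [← index_stabilizer, h3, Subgroup.index_bot]
    have h5 : (orbit ψ.ker y).ncard ≤ 34 := by
      have h6 : orbit ψ.ker y ⊆ {x}ᶜ := by
        rintro _ ⟨⟨⟨c, hcN⟩, hc⟩, rfl⟩ h7
        change c • y = x at h7
        apply hxy
        have h8 : c • y = c • x := by rw [h7]; exact hcN.symm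
        exact smul_left_cancel c h8
      have h7 := Set.ncard_le_ncard h6
      rw [Set.ncard_compl, Set.ncard_singleton, h.card] at h7
      exact h7
    have h6 : 17 ∣ Nat.card ψ.ker := by
      rw [← hTcard]
      apply Subgroup.card_dvd_of_le
      intro t ht
      rw [MonoidHom.mem_ker]
      apply MulEquiv.ext
      intro u
      apply Subtype.ext
      rw [MulAut.conjNormal_apply, MulAut.one_apply]
      have h7 : (⟨t, ht⟩ : T) * u = u * ⟨t, ht⟩ := by
        obtain ⟨g, hg⟩ := hTcyc.exists_generator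
        obtain ⟨i, hi⟩ := Subgroup.mem_zpowers_iff.mp (hg ⟨t, ht⟩)
        obtain ⟨j, hj⟩ := Subgroup.mem_zpowers_iff.mp (hg u)
        rw [← hi, ← hj, ← zpow_add, ← zpow_add, add_comm]
      have h8 : t * u = u * t := congrArg Subtype.val h7
      rw [h8]
      group
    have h7 : 0 < Nat.card ψ.ker := Nat.card_pos
    rw [← h4] at h5
    obtain ⟨k, hk⟩ := h6
    have h8 : k = 1 ∨ k = 2 := by omega
    rcases h8 with rfl | rfl
    · rw [hk]; norm_num
    · rw [hk]
  have h3 := Subgroup.card_mul_index ψ.ker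
  rw [Subgroup.index_ker] at h3
  rw [← h3]
  exact mul_dvd_mul h2 h1

theorem card_dvd (h : Sit S) : Nat.card Γ ∣ 35 * (34 * 16) := by
  obtain ⟨x⟩ : Nonempty Ω := Finite.card_pos_iff.mp (by rw [h.card]; norm_num)
  have h1 := Subgroup.card_mul_index (stabilizer Γ x)
  rw [index_stabilizer_of_transitive, h.card] at h1
  rw [← h1, mul_comm]
  exact mul_dvd_mul_left _ (card_stabilizer_dvd h x)

theorem absurd_sit (h : Sit S) : False := by
  obtain ⟨x⟩ : Nonempty Ω := Finite.card_pos_iff.mp (by rw [h.card]; norm_num)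
  obtain ⟨y, hxy⟩ : ∃ y, y ≠ x := by
    have : Nontrivial Ω := Finite.one_lt_card_iff_nontrivial.mp (by rw [h.card]; norm_num)
    exact exists_ne x
  have hnt : Nontrivial Γ := by
    have h1 := card_S h x
    have h2 : 1 < Nat.card (S x) := by rw [h1]; norm_num
    have h3 : Nontrivial (S x) := Finite.one_lt_card_iff_nontrivial.mp h2
    exact Subtype.coe_injective.nontrivial (α := S x)
  have hs : Group.IsSolvable Γ := by
    refine solvable_of_not_dvd _ Γ rfl ?_ ?_
    · intro h3
      have := h3.trans (card_dvd h)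
      norm_num at this
    · intro h3
      have := h3.trans (card_dvd h)
      norm_num at this
  obtain ⟨r, hr, hne⟩ := exists_pCore hs
  have := Fact.mk hr
  have hMn : (pCore r Γ).Normal := Cfsg.Agent.Lib.Cores.pCore_normal r
  set M := pCore r Γ with hM
  have hMp : IsPGroup r M := Cfsg.Agent.Lib.Cores.pCore_isPGroup r
  -- the orbit of `x` under `M`
  have hB : IsBlock Γ (orbit M x) := IsBlock.orbit_of_normal x
  have hB1 : (orbit M x).ncard ∣ 35 := h.card ▸ hB.ncard_dvd_card ⟨x, mem_orbit_self x⟩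
  obtain ⟨n, hn⟩ := hMp.card_orbit x
  rw [Nat.card_coe_set_eq] at hn
  have hlt : (orbit M x).ncard < 17 := by
    by_contra h1
    have h2 : (orbit M x).ncard = 35 := by
      obtain ⟨k, hk⟩ := hB1
      have h3 : k ≠ 0 := by
        rintro rfl
        norm_num at hk
      have h4 : k < 3 := by
        by_contra h5
        nlinarith
      interval_cases k <;> omega
    rw [hn] at h2
    have h5 : 5 ∣ r ^ n := by rw [h2]; norm_num
    have h7 : 7 ∣ r ^ n := by rw [h2]; norm_num
    have h5' := (Nat.prime_dvd_prime_iff_eq (by norm_num) hr).mp ((by norm_num : Nat.Prime 5).dvd_of_dvd_pow h5)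
    have h7' := (Nat.prime_dvd_prime_iff_eq (by norm_num) hr).mp ((by norm_num : Nat.Prime 7).dvd_of_dvd_pow h7)
    omega
  -- `M` moves `x`
  have hmove : ∃ w ∈ orbit M x, w ≠ x := by
    by_contra hcon
    push Not at hcon
    apply hne
    rw [Subgroup.eq_bot_iff_forall]
    intro m hm
    apply FaithfulSMul.eq_of_smul_eq_smul (α := Ω)
    intro w
    obtain ⟨g, rfl⟩ := exists_smul_eq Γ x w
    rw [one_smul]
    have h1 : g⁻¹ * m * g ∈ M := by
      have := hMn.conj_mem m hm g⁻¹
      rwa [inv_inv] at this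
    have h2 : (g⁻¹ * m * g) • x = x := hcon _ ⟨⟨_, h1⟩, rfl⟩
    calc m • g • x = g • ((g⁻¹ * m * g) • x) := by
          rw [← mul_smul, ← mul_smul]; congr 1; group
      _ = g • x := by rw [h2]
  obtain ⟨w, hw, hwx⟩ := hmove
  have hsub : orbit (S x) w ⊆ orbit M x := by
    rintro _ ⟨⟨s, hs⟩, rfl⟩
    obtain ⟨⟨m, hm⟩, rfl⟩ := hw
    refine ⟨⟨s * m * s⁻¹, hMn.conj_mem m hm s⟩, ?_⟩
    change (s * m * s⁻¹) • x = s • m • x
    have h1 : s⁻¹ • x = x := by
      rw [inv_smul_eq_iff]
      exact (h.fix x s hs).symm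
    rw [mul_smul, h1, mul_smul]
  have h1 := Set.ncard_le_ncard hsub
  rw [card_orbit_eq h hwx] at h1
  omega

end abs

open scoped Pointwise in
theorem main35 {G : Type*} [Group G] [Finite G] : Nat.card (Sylow 17 G) ≠ 35 := by
  intro hcard
  let f := MulAction.toPermHom G (Sylow 17 G)
  let S : Sylow 17 G → Subgroup f.range := fun P => (P : Subgroup G).map f.rangeRestrict
  have hsmul : ∀ (g : G) (P : Sylow 17 G), f.rangeRestrict g • P = g • P := fun g P => rfl
  have hfaith : FaithfulSMul f.range (Sylow 17 G) := ⟨by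
    rintro ⟨a, ha⟩ ⟨b, hb⟩ hab
    apply Subtype.ext
    apply Equiv.ext
    intro P
    exact hab P⟩
  have htrans : MulAction.IsPretransitive f.range (Sylow 17 G) := ⟨by
    intro P Q
    obtain ⟨g, hg⟩ := MulAction.exists_smul_eq G P Q
    exact ⟨f.rangeRestrict g, hg⟩⟩
  have hsit : Sit (Γ := f.range) (Ω := Sylow 17 G) S := by
    refine ⟨hcard, fun P => P.2.map _, ?_, ?_, ?_, ?_⟩
    · rintro P _ ⟨s, hs, rfl⟩
      rw [hsmul]
      exact Sylow.smul_eq_iff_mem_normalizer.mpr (Subgroup.le_normalizer hs)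
    · intro P Q hQ
      have h1 : Q ∈ MulAction.fixedPoints (P : Subgroup G) (Sylow 17 G) := by
        rintro ⟨s, hs⟩
        exact hQ _ ⟨s, hs, rfl⟩
      have h2 := (IsPGroup.sylow_mem_fixedPoints_iff P.2).mp h1
      exact Sylow.ext (P.3 Q.2 h2)
    · rintro ⟨_, g, rfl⟩ P _ ⟨s, hs, rfl⟩
      refine ⟨g * s * g⁻¹, ?_, ?_⟩
      · have h1 : MulAut.conj g s ∈ MulAut.conj g • (P : Subgroup G) :=
          Subgroup.smul_mem_pointwise_smul _ _ _ hs
        exact h1
      · rw [map_mul, map_mul, map_inv]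
        rfl
    · rintro ⟨_, g, rfl⟩ P hgP ⟨k, hk⟩
      have hgN : g ∈ Subgroup.normalizer ((P : Subgroup G) : Set G) :=
        Sylow.smul_eq_iff_mem_normalizer.mp hgP
      have hk' : (f.rangeRestrict g) ^ 17 ^ k = 1 := hk
      set m := orderOf g / 17 ^ (orderOf g).factorization 17 with hm
      have hm17 : m * 17 ^ (orderOf g).factorization 17 = orderOf g :=
        Nat.div_mul_cancel (Nat.ordProj_dvd _ _)
      have hcop : Nat.Coprime 17 m := Nat.coprime_ordCompl (by norm_num) (orderOf_pos g).ne'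
      have h1 : (g ^ m) ^ 17 ^ (orderOf g).factorization 17 = 1 := by
        rw [← pow_mul, hm17, pow_orderOf_eq_one]
      have h2 : IsPGroup 17 (Subgroup.zpowers (g ^ m)) :=
        IsPGroup.of_card_dvd_pow (n := (orderOf g).factorization 17)
          (by rw [Nat.card_zpowers]; exact orderOf_dvd_of_pow_eq_one h1)
      have h3 : g ^ m ∈ (P : Subgroup G) := by
        have h4 : g ^ m ∈ Subgroup.zpowers (g ^ m) ⊓ Subgroup.normalizer (P : Set G) :=
          ⟨Subgroup.mem_zpowers _, pow_mem hgN m⟩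
        rw [h2.inf_normalizer_sylow P] at h4
        exact h4.2
      have h4 : (f.rangeRestrict g) ^ m ∈ S P := ⟨g ^ m, h3, map_pow _ _ _⟩
      change f.rangeRestrict g ∈ S P
      have h5 : Nat.Coprime (17 ^ k) m := Nat.Coprime.pow_left k hcop
      have h6 := Nat.gcd_eq_gcd_ab (17 ^ k) m
      rw [h5.gcd_eq_one] at h6
      have h7 : f.rangeRestrict g = ((f.rangeRestrict g) ^ 17 ^ k) ^ (Nat.gcdA (17 ^ k) m) *
          ((f.rangeRestrict g) ^ m) ^ (Nat.gcdB (17 ^ k) m) := by
        rw [← zpow_natCast, ← zpow_natCast, ← zpow_mul, ← zpow_mul, ← zpow_add, ← h6]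
        simp
      rw [h7, hk', one_zpow, one_mul]
      exact zpow_mem h4 _
  exact absurd_sit hsit

/-- No finite group has exactly 35 Sylow 17-subgroups. -/
theorem result {G : Type*} [Group G] [Finite G] : Nat.card (Sylow 17 G) ≠ 35 := by
  exact main35

end Cfsg.Agent.S4236
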