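import Cfsg.Statements.S4238
import Cfsg.Agent.Transfer.FrobeniusFusion
import Cfsg.Agent.Lib.Cores

set_option autoImplicit false
open Cfsg

namespace Cfsg.Agent.S4238

universe u

open Cfsg.Agent.Transfer.NormalPComplement Cfsg.Agent.Transfer.FrobeniusFusion
open scoped commutatorElement

/-- the property of sections, in terms of homomorphisms -/
def Star (p : ℕ) (G : Type u) [Group G] : Prop :=
  ∀ (X : Type u) [Group X] (H : Subgroup G) (f : H →* X), Function.Surjective f →
    Cfsg.pPrimeCore p X = ⊥ → ∃ k : X, orderOf k = Monoid.exponent X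

theorem star_of {p : ℕ} {G : Type u} [Group G]
    (h : ∀ (H : Subgroup G) (N : Subgroup H) [N.Normal], Cfsg.pPrimeCore p (H ⧸ N) = ⊥ →
        ∃ k : H ⧸ N, orderOf k = Monoid.exponent (H ⧸ N)) : Star p G := by
  intro X _ H f hf hX
  have e : H ⧸ f.ker ≃* X := QuotientGroup.quotientKerEquivOfSurjective f hf
  obtain ⟨k, hk⟩ := h H f.ker (by
    have h1 := Cfsg.Agent.Lib.Cores.map_equiv_pPrimeCore e p
    rw [hX] at h1
    exact (Subgroup.map_eq_bot_iff_of_injective _ e.injective).mp h1)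
  refine ⟨e k, ?_⟩
  rw [MulEquiv.orderOf_eq, hk, Monoid.exponent_eq_of_mulEquiv e]

theorem Star.sec {p : ℕ} {G X : Type u} [Group G] [Group X] (h : Star p G) (H : Subgroup G)
    (f : H →* X) (hf : Function.Surjective f) : Star p X := by
  intro Y _ K g hg hY
  let L := K.comap f
  let e : L ≃* L.map H.subtype := L.equivMapOfInjective H.subtype H.subtype_injective
  refine h Y (L.map H.subtype) (g.comp ((f.subgroupComap K).comp e.symm.toMonoidHom)) ?_ hY
  intro y
  obtain ⟨k, rfl⟩ := hg y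
  obtain ⟨x, hx⟩ := hf k
  have hxL : x ∈ L := by
    change f x ∈ K
    rw [hx]
    exact k.2
  refine ⟨e ⟨x, hxL⟩, ?_⟩
  simp only [MonoidHom.comp_apply, MulEquiv.toMonoidHom_eq_coe, MonoidHom.coe_coe,
    MulEquiv.symm_apply_apply]
  congr 1
  exact Subtype.ext hx

/-- The final configuration. -/
theorem final {p : ℕ} [hp : Fact p.Prime] {X : Type u} [Group X] [Finite X] (h : Star p X)
    (V : Subgroup X) (hVn : V.Normal) (hVp : IsPGroup p V) (hVc : ∀ v ∈ V, ∀ w ∈ V, v * w = w * v)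
    (hV1 : V ≠ ⊥) (a : X) (ha : (orderOf a).Coprime p) (htop : V ⊔ Subgroup.zpowers a = ⊤)
    (hfix : ∀ v ∈ V, a * v = v * a → v = 1) : False := by
  classical
  have hDn : (Cfsg.pPrimeCore p X).Normal := Cfsg.Agent.Lib.Cores.pPrimeCore_normal p
  set D := Cfsg.pPrimeCore p X with hD
  have hDc : (Nat.card D).Coprime p := Cfsg.Agent.Lib.Cores.pPrimeCore_coprime p
  have hDV : ∀ x, x ∈ V → x ∈ D → x = 1 := by
    intro x hxV hxD
    have h1 : orderOf x ∣ Nat.card D := Subgroup.orderOf_dvd_natCard D hxD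
    obtain ⟨n, hn⟩ := (IsPGroup.iff_orderOf.mp hVp) ⟨x, hxV⟩
    rw [Subgroup.orderOf_mk] at hn
    rw [hn] at h1
    have h2 : (p ^ n).Coprime p := Nat.Coprime.coprime_dvd_left h1 hDc
    rcases Nat.eq_zero_or_pos n with h0 | h0
    · subst h0
      simpa [orderOf_eq_one_iff] using hn
    · exfalso
      have h3 : p.Coprime p := (Nat.coprime_pow_left_iff h0 p p).mp h2
      rw [Nat.coprime_self] at h3
      exact hp.out.one_lt.ne' h3
  let π : X →* X ⧸ D := QuotientGroup.mk' D
  have hπ : Function.Surjective π := QuotientGroup.mk'_surjective D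
  have hs : Star p (X ⧸ D) := by
    refine h.sec ⊤ (π.comp (⊤ : Subgroup X).subtype) ?_
    intro y
    obtain ⟨x, rfl⟩ := hπ y
    exact ⟨⟨x, trivial⟩, rfl⟩
  obtain ⟨k, hk⟩ := hs (X ⧸ D) ⊤ (⊤ : Subgroup (X ⧸ D)).subtype
    (fun y => ⟨⟨y, trivial⟩, rfl⟩) (Cfsg.Agent.Lib.Cores.pPrimeCore_quotient_pPrimeCore p)
  set m := Monoid.exponent (X ⧸ D) with hm
  have hm0 : m ≠ 0 := Monoid.exponent_ne_zero_of_finite
  -- the image of `V`
  set W : Subgroup (X ⧸ D) := V.map π with hW
  have hWn : W.Normal := hVn.map π hπ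
  have hWp : IsPGroup p W := hVp.map π
  obtain ⟨v, hvV, hv1⟩ : ∃ v ∈ V, v ≠ 1 := by
    by_contra hcon
    push Not at hcon
    exact hV1 ((Subgroup.eq_bot_iff_forall V).mpr hcon)
  have hpm : p ∣ m := by
    have h1 : π v ≠ 1 := by
      intro h2
      exact hv1 (hDV v hvV ((QuotientGroup.eq_one_iff v).mp h2))
    obtain ⟨n, hn⟩ := (IsPGroup.iff_orderOf.mp hWp) ⟨π v, Subgroup.mem_map_of_mem π hvV⟩
    rw [Subgroup.orderOf_mk] at hn
    have hn0 : n ≠ 0 := by
      intro h0
      subst h0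
      rw [pow_zero, orderOf_eq_one_iff] at hn
      exact h1 hn
    exact (dvd_pow_self p hn0).trans (hn ▸ Monoid.order_dvd_exponent (π v))
  set b : X ⧸ D := π a with hb
  have hbc : (orderOf b).Coprime p := Nat.Coprime.coprime_dvd_left (orderOf_map_dvd π a) ha
  set r := orderOf b with hr
  have hrm : r ∣ m := Monoid.order_dvd_exponent b
  have hr0 : 0 < r := orderOf_pos b
  have hWcard : ∃ n, Nat.card W = p ^ n := IsPGroup.iff_card.mp hWp
  obtain ⟨n, hn⟩ := hWcard
  have hcop : ∀ y : X ⧸ D, orderOf y = r → (Nat.card W).Coprime (Nat.card (Subgroup.zpowers y)) := by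
    intro y hy
    rw [Nat.card_zpowers, hy, hn]
    exact Nat.Coprime.pow_left n hbc.symm
  have hcard : ∀ y : X ⧸ D, orderOf y = r →
      Nat.card (W ⊔ Subgroup.zpowers y : Subgroup (X ⧸ D)) = Nat.card W * r := by
    intro y hy
    have h1 : W ⊓ Subgroup.zpowers y = ⊥ :=
      disjoint_iff.mp (Subgroup.disjoint_of_coprime_natCard (hcop y hy))
    have h2 : W.relIndex (W ⊔ Subgroup.zpowers y) = r := by
      rw [Subgroup.relIndex_sup_left, ← Subgroup.inf_relIndex_right, h1,
        Subgroup.relIndex_bot_left, Nat.card_zpowers, hy]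
    have h3 := Subgroup.relIndex_mul_relIndex (⊥ : Subgroup (X ⧸ D)) W (W ⊔ Subgroup.zpowers y)
      bot_le le_sup_left
    rw [Subgroup.relIndex_bot_left, h2, Subgroup.relIndex_bot_left] at h3
    exact h3.symm
  have htop' : W ⊔ Subgroup.zpowers b = ⊤ := by
    have h1 := congrArg (Subgroup.map π) htop
    rw [Subgroup.map_sup, MonoidHom.map_zpowers, Subgroup.map_top_of_surjective π hπ] at h1
    exact h1
  have hcardX : Nat.card (X ⧸ D) = Nat.card W * r := by
    rw [← hcard b rfl, htop', Subgroup.card_top]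
  -- the elements `z` of order `p` and `y` of order `r`
  set z := k ^ (m / p) with hz
  set y := k ^ (m / r) with hy
  have hzo : orderOf z = p := by
    have h1 := orderOf_pow_orderOf_div (x := k) (n := p) (by rw [hk]; exact hm0) (by rw [hk]; exact hpm)
    rw [hk] at h1
    exact h1
  have hyo : orderOf y = r := by
    have h1 := orderOf_pow_orderOf_div (x := k) (n := r) (by rw [hk]; exact hm0) (by rw [hk]; exact hrm)
    rw [hk] at h1
    exact h1
  have hyz : Commute z y := by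
    rw [hz, hy]
    exact (Commute.refl k).pow_pow _ _
  have hyW : W ⊔ Subgroup.zpowers y = ⊤ := by
    rw [← Subgroup.card_eq_iff_eq_top, hcard y hyo, hcardX]
  have hindex : W.index = r := by
    have h1 := W.card_mul_index
    rw [hcardX] at h1
    exact Nat.eq_of_mul_eq_mul_left Nat.card_pos h1
  have hzW : z ∈ W := by
    rw [← QuotientGroup.eq_one_iff, ← orderOf_eq_one_iff]
    have h1 : orderOf (QuotientGroup.mk' W z) ∣ p := hzo ▸ orderOf_map_dvd _ z
    have h2 : orderOf (QuotientGroup.mk' W z) ∣ r := hindex ▸ (orderOf_dvd_natCard _)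
    exact Nat.eq_one_of_dvd_coprimes hbc h2 h1
  -- `z` is central
  have hzc : ∀ x : X ⧸ D, z * x = x * z := by
    have h1 : (⊤ : Subgroup (X ⧸ D)) ≤ Subgroup.centralizer {z} := by
      rw [← hyW, sup_le_iff, Subgroup.zpowers_le]
      refine ⟨?_, ?_⟩
      · intro w hw
        rw [Subgroup.mem_centralizer_singleton_iff]
        obtain ⟨w', hw', rfl⟩ := hw
        obtain ⟨z', hz', hzz⟩ := hzW
        rw [← hzz, ← map_mul, ← map_mul, hVc w' hw' z' hz']
      · rw [Subgroup.mem_centralizer_singleton_iff]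
        exact hyz.symm.eq
    intro x
    have := h1 (Subgroup.mem_top x)
    rw [Subgroup.mem_centralizer_singleton_iff] at this
    exact this.symm
  obtain ⟨z', hz', hzz⟩ := hzW
  have h1 : π (a * z' * a⁻¹ * z'⁻¹) = 1 := by
    rw [map_mul, map_mul, map_mul, map_inv, map_inv, hzz]
    change b * z * b⁻¹ * z⁻¹ = 1
    rw [← hzc b]
    group
  have h2 : a * z' * a⁻¹ * z'⁻¹ = 1 := by
    refine hDV _ ?_ ((QuotientGroup.eq_one_iff _).mp h1)
    exact mul_mem (hVn.conj_mem z' hz' a) (inv_mem hz')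
  have h3 : z' = 1 := by
    refine hfix z' hz' ?_
    rw [mul_inv_eq_one, mul_inv_eq_iff_eq_mul] at h2
    exact h2
  rw [h3, map_one] at hzz
  rw [← hzz, orderOf_one] at hzo
  exact hp.out.one_lt.ne hzo


/-- The main step: `Star` implies Frobenius' local condition. -/
theorem local_of_star {p : ℕ} [hp : Fact p.Prime] {G : Type u} [Group G] [Finite G]
    (hs : Star p G) : LocalCondition p G := by
  classical
  intro D₀ hD₀ g hgD₀ hgp
  by_contra hcon
  let S : Set (Subgroup G) := {Q | IsPGroup p Q ∧ g ∈ Subgroup.normalizer (Q : Set G) ∧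
    g ∉ Subgroup.centralizer (Q : Set G)}
  have hSne : S.Nonempty := ⟨D₀, hD₀, hgD₀, hcon⟩
  obtain ⟨Q, ⟨hQp, hgQ, hgQc⟩, hmin⟩ := (Set.toFinite S).exists_minimal hSne
  -- the set-up
  have hconj : ∀ x ∈ Q, g * x * g⁻¹ ∈ Q := fun x hx => (Subgroup.mem_normalizer_iff.mp hgQ x).mp hx
  set H : Subgroup G := Q ⊔ Subgroup.zpowers g with hH
  have hQH : Q ≤ H := le_sup_left
  have hgH : g ∈ H := (le_sup_right : Subgroup.zpowers g ≤ H) (Subgroup.mem_zpowers g)
  have hHQ : H ≤ Subgroup.normalizer (Q : Set G) := by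
    rw [hH, sup_le_iff, Subgroup.zpowers_le]
    exact ⟨Subgroup.le_normalizer, hgQ⟩
  let QH : Subgroup H := Q.subgroupOf H
  have hQHn : QH.Normal := Subgroup.normal_subgroupOf_iff_le_normalizer hQH |>.mpr hHQ
  have hQHp : IsPGroup p QH := hQp.of_injective (Subgroup.subgroupOfEquivOfLe hQH).toMonoidHom
    (Subgroup.subgroupOfEquivOfLe hQH).injective
  let N : Subgroup H := ⁅QH, QH⁆
  have hNn : N.Normal := inferInstance
  let π : H →* H ⧸ N := QuotientGroup.mk' N
  have hπ : Function.Surjective π := QuotientGroup.mk'_surjective N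
  let g' : H := ⟨g, hgH⟩
  let V : Subgroup (H ⧸ N) := QH.map π
  have hVn : V.Normal := hQHn.map π hπ
  have hVp : IsPGroup p V := hQHp.map π
  have hVc : ∀ v ∈ V, ∀ w ∈ V, v * w = w * v := by
    rintro _ ⟨v, hv, rfl⟩ _ ⟨w, hw, rfl⟩
    have h1 : π ⁅v, w⁆ = 1 := (QuotientGroup.eq_one_iff _).mpr (Subgroup.commutator_mem_commutator hv hw)
    rw [map_commutatorElement, commutatorElement_eq_one_iff_mul_comm] at h1
    exact h1
  have htopH : QH ⊔ Subgroup.zpowers g' = ⊤ := by
    apply (Subgroup.map_injective H.subtype_injective)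
    rw [Subgroup.map_sup, MonoidHom.map_zpowers, ← MonoidHom.range_eq_map, Subgroup.range_subtype,
      Subgroup.map_subgroupOf_eq_of_le hQH]
    rfl
  have htop : V ⊔ Subgroup.zpowers (π g') = ⊤ := by
    have h1 := congrArg (Subgroup.map π) htopH
    rw [Subgroup.map_sup, MonoidHom.map_zpowers, Subgroup.map_top_of_surjective π hπ] at h1
    exact h1
  have hg'o : (orderOf (π g')).Coprime p := by
    have h1 : orderOf g' = orderOf g := Subgroup.orderOf_mk g hgH
    exact Nat.Coprime.coprime_dvd_left (h1 ▸ orderOf_map_dvd π g') hgp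
  have hV1 : V ≠ ⊥ := by
    intro h1
    have h2 : QH ≤ N := by
      intro x hx
      have h3 : π x ∈ V := Subgroup.mem_map_of_mem π hx
      rw [h1, Subgroup.mem_bot] at h3
      exact (QuotientGroup.eq_one_iff _).mp h3
    have h4 : Group.IsNilpotent QH := hQHp.isNilpotent
    have h5 : QH = ⊥ := eq_bot_of_le_commutator QH QH le_rfl h2
    have h6 : Q = ⊥ := by
      have h7 := congrArg (Subgroup.map H.subtype) h5
      rw [Subgroup.map_subgroupOf_eq_of_le hQH, Subgroup.map_bot] at h7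
      exact h7
    apply hgQc
    rw [h6, Subgroup.mem_centralizer_iff]
    intro x hx
    rw [SetLike.mem_coe, Subgroup.mem_bot] at hx
    rw [hx, one_mul, mul_one]
  refine final (hs.sec H π hπ) V hVn hVp hVc hV1 (π g') hg'o htop ?_
  -- no fixed points
  let a := π g'
  have haV : ∀ v ∈ V, a * v * a⁻¹ ∈ V := fun v hv => hVn.conj_mem v hv a
  let φ : V →* V :=
    { toFun := fun v => ⟨(v : H ⧸ N)⁻¹ * (a * v * a⁻¹), mul_mem (inv_mem v.2) (haV v v.2)⟩
      map_one' := by
        apply Subtype.ext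
        simp
      map_mul' := by
        rintro ⟨v, hv⟩ ⟨w, hw⟩
        apply Subtype.ext
        change (v * w)⁻¹ * (a * (v * w) * a⁻¹) = (v⁻¹ * (a * v * a⁻¹)) * (w⁻¹ * (a * w * a⁻¹))
        have h1 : w⁻¹ * (v⁻¹ * (a * v * a⁻¹)) = (v⁻¹ * (a * v * a⁻¹)) * w⁻¹ :=
          hVc _ (inv_mem hw) _ (mul_mem (inv_mem hv) (haV v hv))
        calc (v * w)⁻¹ * (a * (v * w) * a⁻¹) = (w⁻¹ * (v⁻¹ * (a * v * a⁻¹))) * (a * w * a⁻¹) := by group
          _ = _ := by rw [h1]; group }
  have hφ : Function.Surjective φ := by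
    by_contra hns
    let R : Subgroup (H ⧸ N) := φ.range.map V.subtype
    let Q₁ : Subgroup G := ((R.comap π) ⊓ QH).map H.subtype
    have hmem : ∀ (x : G) (hx : x ∈ H), x ∈ Q₁ ↔ (π ⟨x, hx⟩ ∈ R ∧ x ∈ Q) := by
      intro x hx
      constructor
      · rintro ⟨y, ⟨hy1, hy2⟩, hyx⟩
        have hy : y = ⟨x, hx⟩ := Subtype.ext hyx
        subst hy
        exact ⟨hy1, hy2⟩
      · rintro ⟨h1, h2⟩
        exact ⟨⟨x, hx⟩, ⟨h1, h2⟩, rfl⟩
    have hQ₁Q : Q₁ ≤ Q := by
      rintro _ ⟨y, ⟨_, hy2⟩, rfl⟩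
      exact hy2
    have hφmem : ∀ v ∈ V, v⁻¹ * (a * v * a⁻¹) ∈ R := fun v hv => ⟨φ ⟨v, hv⟩, ⟨⟨v, hv⟩, rfl⟩, rfl⟩
    have hQ₁ne : ¬ Q ≤ Q₁ := by
      intro hle
      apply hns
      rintro ⟨v, hv⟩
      obtain ⟨x, hx, rfl⟩ := hv
      have h1 : (x : G) ∈ Q₁ := hle hx
      obtain ⟨h2, -⟩ := (hmem x x.2).mp h1
      obtain ⟨w, ⟨u, hu⟩, hw⟩ := h2
      exact ⟨u, by rw [hu]; exact Subtype.ext hw⟩
    have hQ₁g : g ∈ Subgroup.normalizer (Q₁ : Set G) := by
      apply Subgroup.mem_normalizer_fintype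
      intro x hx
      have hxQ := hQ₁Q hx
      have hxH := hQH hxQ
      obtain ⟨⟨w, ⟨⟨u, hu'⟩, hu⟩, hw⟩, -⟩ := (hmem x hxH).mp hx
      have hgx : g * x * g⁻¹ ∈ Q := hconj x hxQ
      refine (hmem _ (hQH hgx)).mpr ⟨?_, hgx⟩
      have h1 : π ⟨g * x * g⁻¹, hQH hgx⟩ = a * π ⟨x, hxH⟩ * a⁻¹ := by
        rw [← map_mul, ← map_inv, ← map_mul]
        rfl
      have h2 : π ⟨x, hxH⟩ = u⁻¹ * (a * u * a⁻¹) := by
        rw [← hw, ← hu]
        rfl
      rw [h1, h2]
      have h3 : a * (u⁻¹ * (a * u * a⁻¹)) * a⁻¹ = (a * u * a⁻¹)⁻¹ * (a * (a * u * a⁻¹) * a⁻¹) := by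
        group
      rw [h3]
      exact hφmem _ (haV u hu')
    have hQ₁c : g ∈ Subgroup.centralizer (Q₁ : Set G) := by
      by_contra h1
      have h2 : Q₁ ∈ S := ⟨hQp.to_le hQ₁Q, hQ₁g, h1⟩
      exact hQ₁ne (hmin h2 hQ₁Q)
    apply hgQc
    rw [Subgroup.mem_centralizer_iff]
    intro x hx
    -- `c = x⁻¹ (g x g⁻¹)`
    set c := x⁻¹ * (g * x * g⁻¹) with hc
    have hcQ : c ∈ Q := mul_mem (inv_mem hx) (hconj x hx)
    have hcQ₁ : c ∈ Q₁ := by
      refine (hmem c (hQH hcQ)).mpr ⟨?_, hcQ⟩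
      have h1 : π ⟨c, hQH hcQ⟩ = (π ⟨x, hQH hx⟩)⁻¹ * (a * π ⟨x, hQH hx⟩ * a⁻¹) := by
        rw [← map_mul, ← map_inv, ← map_inv, ← map_mul, ← map_mul]
        rfl
      rw [h1]
      exact hφmem _ ⟨⟨x, hQH hx⟩, hx, rfl⟩
    have hgc : c * g = g * c := Subgroup.mem_centralizer_iff.mp hQ₁c c hcQ₁
    have hpow : ∀ n : ℕ, g ^ n * x * (g ^ n)⁻¹ = x * c ^ n := by
      intro n
      induction n with
      | zero => simp
      | succ n ih =>
        have h1 : g * x * g⁻¹ = x * c := by rw [hc]; group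
        have h2 : g * c ^ n * g⁻¹ = c ^ n := by
          have h3 : Commute g (c ^ n) := (Commute.pow_right (show Commute g c from hgc.symm) n)
          rw [h3.eq]
          group
        calc g ^ (n + 1) * x * (g ^ (n + 1))⁻¹ = g * (g ^ n * x * (g ^ n)⁻¹) * g⁻¹ := by
              rw [pow_succ']; group
          _ = (g * x * g⁻¹) * (g * c ^ n * g⁻¹) := by rw [ih]; group
          _ = x * c ^ (n + 1) := by rw [h1, h2, pow_succ']; group
    have h1 := hpow (orderOf g)
    rw [pow_orderOf_eq_one, one_mul, inv_one, mul_one] at h1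
    have h2 : c ^ orderOf g = 1 := (mul_eq_left.mp h1.symm)
    have h3 : orderOf c ∣ orderOf g := orderOf_dvd_of_pow_eq_one h2
    obtain ⟨n, hn⟩ := (IsPGroup.iff_orderOf.mp hQp) ⟨c, hcQ⟩
    rw [Subgroup.orderOf_mk] at hn
    have h4 : c = 1 := by
      rw [← orderOf_eq_one_iff]
      rw [hn] at h3 ⊢
      have h5 : (p ^ n).Coprime (orderOf g) := Nat.Coprime.pow_left n hgp.symm
      exact Nat.eq_one_of_dvd_coprimes h5 dvd_rfl h3
    rw [hc, inv_mul_eq_one] at h4
    conv_lhs => rw [h4]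
    group
  have hφi : Function.Injective φ := Finite.injective_iff_surjective.mpr hφ
  intro v hv hav
  have h1 : φ ⟨v, hv⟩ = 1 := by
    apply Subtype.ext
    change v⁻¹ * (π g' * v * (π g')⁻¹) = 1
    rw [hav]
    group
  have h2 : (⟨v, hv⟩ : V) = 1 := hφi (by rw [h1, map_one])
  exact congrArg Subtype.val h2

/-- In a group all of whose elements have `p`-power order, some element has order the exponent. -/
theorem exists_exponent {p : ℕ} [hp : Fact p.Prime] {X : Type u} [Group X] [Finite X]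
    (hX : IsPGroup p X) : ∃ k : X, orderOf k = Monoid.exponent X := by
  obtain ⟨k, hk⟩ := hp.out.exists_orderOf_eq_pow_factorization_exponent X
  refine ⟨k, ?_⟩
  obtain ⟨n, hn⟩ : ∃ n, Monoid.exponent X = p ^ n := by
    obtain ⟨m, hm⟩ := IsPGroup.iff_card.mp hX
    obtain ⟨n, -, hn⟩ := (Nat.dvd_prime_pow hp.out).mp (hm ▸ Group.exponent_dvd_nat_card (G := X))
    exact ⟨n, hn⟩
  rw [hk, hn, hp.out.factorization_pow]
  simp

/-- Let G be a finite group and p a prime. Then G has a normal p-complement if and only if every section K = H/N of G (N a normal subgroup of a subgroup H) whose largest normal subgroup of order prime to p is trivial contains an element whose order equals the exponent of K. -/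
theorem result {G : Type*} [Group G] [Finite G] (p : ℕ) [Fact p.Prime] :
    Cfsg.HasNormalPComplement p G ↔
      ∀ (H : Subgroup G) (N : Subgroup H) [N.Normal], Cfsg.pPrimeCore p (H ⧸ N) = ⊥ →
        ∃ k : H ⧸ N, orderOf k = Monoid.exponent (H ⧸ N) := by
  constructor
  · intro h H N _ hcore
    have h1 : HasNormalPComplement p (H ⧸ N) :=
      Cfsg.Agent.Transfer.NormalPComplement.quotient
        (Cfsg.Agent.Transfer.NormalPComplement.subgroup h H) N
    obtain ⟨M, hM, h2, h3⟩ := hasNormalPComplement_iff.mp h1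
    have h4 : M = ⊥ := by
      rw [eq_bot_iff, ← hcore]
      exact Cfsg.Agent.Lib.Cores.le_pPrimeCore hM h2
    subst h4
    exact exists_exponent (h3.of_equiv QuotientGroup.quotientBot)
  · intro h
    rw [hasNormalPComplement_iff_localCondition]
    exact local_of_star (star_of h)

end Cfsg.Agent.S4238
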