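import Cfsg.Statements.S4241
import Cfsg.Agent.S0072
import Cfsg.Agent.S4319
import Cfsg.Agent.H548.SolvAct

set_option autoImplicit false
open Cfsg

namespace Cfsg.Agent.S4241

open Subgroup Cfsg.Agent.H548.NilMax Cfsg.Agent.H548.InvSub Cfsg.Agent.H548.NpcCase
  Cfsg.Agent.H548.SolvAct

universe u v

theorem inv_fixed {A : Type u} {G : Type v} [Group A] [Group G] [MulDistribMulAction A G] :
    Inv A (FixedPoints.subgroup A G) := by
  intro a x hx b
  have h1 : a • x = x := hx a
  rw [h1]
  exact hx b

/-- The case where `G` has no proper nontrivial invariant normal subgroup and `p = 2`. -/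
theorem solvable_of_simple_two {A : Type u} {G : Type v} [Group A] [Group G] [Finite A]
    [Finite G] [MulDistribMulAction A G] (hcop : (Nat.card A).Coprime (Nat.card G))
    (hsimp : ∀ N : Subgroup G, N.Normal → Inv A N → N = ⊥ ∨ N = ⊤)
    (hpG : 2 ∣ Nat.card G)
    (hnil : ∀ H : Subgroup G, H ≠ ⊤ → Inv A H → 2 ∣ Nat.card H → Group.IsNilpotent H) :
    Group.IsSolvable G := by
  have : Fact (Nat.Prime 2) := ⟨Nat.prime_two⟩
  by_cases hC : FixedPoints.subgroup A G = ⊤
  · -- the action is trivial
    have hinv : ∀ H : Subgroup G, Inv A H := by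
      intro H a x hx
      have h1 : x ∈ FixedPoints.subgroup A G := by rw [hC]; trivial
      have h2 : a • x = x := h1 a
      rwa [h2]
    by_cases hex : ∃ R : Subgroup G, R.Normal ∧ IsPGroup 2 R ∧ R ≠ ⊥
    · obtain ⟨R, hR, hRp, hR1⟩ := hex
      rcases hsimp R hR (hinv R) with h | h
      · exact absurd h hR1
      · rw [h] at hRp
        exact solvable_of_pgroup (hRp.of_equiv Subgroup.topEquiv)
    · push Not at hex
      apply solvable_of_simple_npc hsimp hpG
      rw [Cfsg.Agent.S0072.result]
      intro Q hQ hQ1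
      have hne : normalizer (Q : Set G) ≠ ⊤ := by
        intro htop
        exact hQ1 (hex Q (Subgroup.normalizer_eq_top_iff.mp htop) hQ)
      have hdvd : 2 ∣ Nat.card (normalizer (Q : Set G)) :=
        (dvd_card_of_pgroup hQ hQ1).trans (Subgroup.card_dvd_of_le Subgroup.le_normalizer)
      exact Cfsg.Agent.Solvable.FpfThompson.hasNormalPComplement_of_isNilpotent
        (hnil _ hne (hinv _) hdvd) 2
  · apply Cfsg.Agent.S4319.result (A := A) hcop.symm
    by_cases he : 2 ∣ Nat.card (FixedPoints.subgroup A G)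
    · exact Or.inl (hnil _ hC inv_fixed he)
    · right
      rw [← Nat.not_even_iff_odd, even_iff_two_dvd]
      exact he

theorem solvable_of_p {A : Type u} [Group A] [Finite A] (p : ℕ) (hp : p.Prime) :
    ∀ (n : ℕ) (G : Type v) [Group G] [Finite G] [MulDistribMulAction A G], Nat.card G = n →
      (Nat.card A).Coprime (Nat.card G) → p ∣ Nat.card G →
      (∀ H : Subgroup G, H ≠ ⊤ → Inv A H → p ∣ Nat.card H → Group.IsNilpotent H) →
      Group.IsSolvable G := by
  have hpF : Fact p.Prime := ⟨hp⟩
  intro n
  induction n using Nat.strong_induction_on with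
  | _ n ih =>
  intro G _ _ _ hn hcop hpG hnil
  by_cases hex : ∃ N : Subgroup G, N.Normal ∧ Inv A N ∧ N ≠ ⊤ ∧ p ∣ Nat.card N
  · -- a proper invariant normal subgroup of order divisible by `p`
    obtain ⟨N, hNn, hNi, hN2, hNp⟩ := hex
    have hN : Group.IsNilpotent N := hnil N hN2 hNi hNp
    letI := quotAct N hNi
    have hQ : Group.IsSolvable (G ⧸ N) :=
      solvable_of_all (A := A) _ (G ⧸ N) rfl (coprime_quotient N hcop) (by
        intro H hH hHi
        refine nilp_quotient N H (hnil _ (comap_ne_top N H hH) (inv_comap_mk N hNi H hHi) ?_)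
        refine hNp.trans (Subgroup.card_dvd_of_le ?_)
        intro x hx
        rw [Subgroup.mem_comap, QuotientGroup.mk'_apply, (QuotientGroup.eq_one_iff x).mpr hx]
        exact H.one_mem)
    rw [Group.isSolvable_iff_subgroup_quotient N]
    exact ⟨inferInstance, hQ⟩
  by_cases hex2 : ∃ N : Subgroup G, N.Normal ∧ Inv A N ∧ N ≠ ⊥ ∧ N ≠ ⊤
  · obtain ⟨N, hNn, hNi, hN1, hN2⟩ := hex2
    have hNp : ¬ p ∣ Nat.card N := fun h => hex ⟨N, hNn, hNi, hN2, h⟩
    have hQ : Group.IsSolvable (G ⧸ N) := by
      letI := quotAct N hNi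
      refine ih _ (hn ▸ card_quotient_lt N hN1) (G ⧸ N) rfl (coprime_quotient N hcop) ?_ (by
        intro H hH hHi hHp
        exact nilp_quotient N H (hnil _ (comap_ne_top N H hH) (inv_comap_mk N hNi H hHi)
          (hHp.trans (card_comap N H))))
      have h1 : p ∣ Nat.card N * Nat.card (G ⧸ N) := by
        have h2 : Nat.card N * Nat.card (G ⧸ N) = Nat.card G := N.card_mul_index
        rw [h2]; exact hpG
      exact (hp.dvd_mul.mp h1).resolve_left hNp
    have hsolv := solv_or hcop
    obtain ⟨P, hP⟩ := exists_inv_sylow (A := A) (G := G) hcop hsolv p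
    have hdP : p ∣ Nat.card (P : Subgroup G) := P.dvd_card_of_dvd_card hpG
    by_cases htop : (P : Subgroup G) ⊔ N = ⊤
    · -- `N` is a normal `p`-complement
      have hNcop : (Nat.card N).Coprime p :=
        ((Nat.Prime.coprime_iff_not_dvd hp).mpr hNp).symm
      have hGN : IsPGroup p (G ⧸ N) := by
        have e : N.index = N.relIndex P := by
          rw [← Subgroup.relIndex_sup_left, sup_comm, htop, Subgroup.relIndex_top_right]
        obtain ⟨n, hn⟩ := IsPGroup.iff_card.mp P.isPGroup'
        change Nat.card (P : Subgroup G) = _ at hn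
        have h1 : N.index ∣ p ^ n := by
          rw [e, ← hn]; exact Subgroup.relIndex_dvd_card _ _
        obtain ⟨a, -, ha⟩ := (Nat.dvd_prime_pow hp).mp h1
        exact IsPGroup.of_card (n := a) ha
      rcases npc_case (A := A) hpG hnil
        (fun q hq => exists_inv_sylow (A := A) (G := G) hcop hsolv q) N hNn hNcop hGN with
        ⟨P', hP', hP'n⟩ | ⟨q, hq, P', Q, hqp, hP'i, hQi, hQn, hPQ⟩
      · by_cases h3 : (P' : Subgroup G) = ⊤
        · have h4 := P'.isPGroup'
          rw [h3] at h4
          exact solvable_of_pgroup (h4.of_equiv Subgroup.topEquiv)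
        · exfalso
          exact hex ⟨P', hP'n, hP', h3, P'.dvd_card_of_dvd_card hpG⟩
      · -- `G = P Q`
        have e : (Q : Subgroup G).index = (Q : Subgroup G).relIndex P' := by
          rw [← Subgroup.relIndex_sup_left, sup_comm, hPQ, Subgroup.relIndex_top_right]
        obtain ⟨n, hn⟩ := IsPGroup.iff_card.mp P'.isPGroup'
        change Nat.card (P' : Subgroup G) = _ at hn
        have h1 : (Q : Subgroup G).index ∣ p ^ n := by
          rw [e, ← hn]; exact Subgroup.relIndex_dvd_card _ _
        obtain ⟨a, -, ha⟩ := (Nat.dvd_prime_pow hp).mp h1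
        have h2 : IsPGroup p (G ⧸ (Q : Subgroup G)) := IsPGroup.of_card (n := a) ha
        rw [Group.isSolvable_iff_subgroup_quotient (Q : Subgroup G)]
        exact ⟨solvable_of_pgroup Q.isPGroup', solvable_of_pgroup h2⟩
    · have hn := hnil _ htop (hP.sup hNi) (hdP.trans (Subgroup.card_dvd_of_le le_sup_left))
      have hNnil := nilp_of_le (le_sup_right (a := (P : Subgroup G))) hn
      rw [Group.isSolvable_iff_subgroup_quotient N]
      exact ⟨inferInstance, hQ⟩
  · have hsimp : ∀ N : Subgroup G, N.Normal → Inv A N → N = ⊥ ∨ N = ⊤ := by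
      intro N h1 h2
      by_contra h3
      push Not at h3
      exact hex2 ⟨N, h1, h2, h3.1, h3.2⟩
    by_cases hp2 : p = 2
    · subst hp2
      exact solvable_of_simple_two hcop hsimp hpG hnil
    · obtain ⟨P, hP⟩ := exists_inv_sylow (A := A) (G := G) hcop (solv_or hcop) p
      exact solvable_of_simple_odd hsimp hp2 hpG hnil P hP

/-- Let a finite group A act by automorphisms on a finite group G of order coprime to that of A, and let p be a prime dividing the order of G. If every maximal A-invariant proper subgroup of G whose order is divisible by p is nilpotent, then G is solvable. -/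
theorem result {A G : Type*} [Group A] [Group G] [Finite A] [Finite G] [MulDistribMulAction A G]
    (hcop : (Nat.card A).Coprime (Nat.card G)) (p : ℕ) (hp : p.Prime) (hpG : p ∣ Nat.card G)
    (hmax : ∀ H : Subgroup G, H ≠ ⊤ → (∀ a : A, ∀ x ∈ H, a • x ∈ H) →
      (∀ K : Subgroup G, H < K → (∀ a : A, ∀ x ∈ K, a • x ∈ K) → K = ⊤) → p ∣ Nat.card H → Group.IsNilpotent H) :
    Group.IsSolvable G := by
  apply solvable_of_p (A := A) p hp _ G rfl hcop hpG
  intro H hH hHi hHp
  obtain ⟨M, hHM, hM1, hM2, hM3⟩ := exists_max hHi hH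
  exact nilp_of_le hHM (hmax M hM1 hM2 hM3 (hHp.trans (Subgroup.card_dvd_of_le hHM)))

end Cfsg.Agent.S4241
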