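import Cfsg.Statements.S4253

set_option autoImplicit false
open Cfsg

open scoped Pointwise

namespace Cfsg.Agent.S4253

/-- Let H be a Frobenius complement in a finite group G (a nontrivial proper subgroup meeting each conjugate gHg⁻¹ with g outside H trivially). Then in the action of G on the left cosets of H by left multiplication, no non-identity element of G fixes two distinct cosets. -/
theorem result {G : Type*} [Group G] [Finite G] (H : Subgroup G) (hH : Cfsg.IsFrobeniusComplement H)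
    (g : G) (hg : g ≠ 1) (a b : G ⧸ H) (ha : g • a = a) (hb : g • b = b) : a = b := by
  obtain ⟨x, rfl⟩ := QuotientGroup.mk_surjective a
  obtain ⟨y, rfl⟩ := QuotientGroup.mk_surjective b
  have h1 : x⁻¹ * g * x ∈ H := by
    have h2 : ((g * x : G) : G ⧸ H) = (x : G ⧸ H) := ha
    have h3 := QuotientGroup.eq.1 h2.symm
    rwa [← mul_assoc] at h3
  have h2 : y⁻¹ * g * y ∈ H := by
    have h2 : ((g * y : G) : G ⧸ H) = (y : G ⧸ H) := hb
    have h3 := QuotientGroup.eq.1 h2.symm
    rwa [← mul_assoc] at h3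
  by_contra hne
  have h3 : x⁻¹ * y ∉ H := fun h => hne (QuotientGroup.eq.2 h)
  have h4 := hH.2.2 _ h3
  have h5 : x⁻¹ * g * x ∈ H ⊓ (MulAut.conj (x⁻¹ * y) • H) := by
    refine Subgroup.mem_inf.2 ⟨h1, ?_⟩
    rw [Subgroup.mem_pointwise_smul_iff_inv_smul_mem, ← map_inv, MulAut.smul_def, MulAut.conj_apply]
    have h6 : (x⁻¹ * y)⁻¹ * (x⁻¹ * g * x) * (x⁻¹ * y)⁻¹⁻¹ = y⁻¹ * g * y := by group
    rw [h6]
    exact h2
  rw [h4, Subgroup.mem_bot] at h5
  apply hg
  have h7 : g = x * (x⁻¹ * g * x) * x⁻¹ := by group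
  rw [h7, h5]
  group

end Cfsg.Agent.S4253
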