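import Cfsg.Statements.S4259
import Cfsg.Agent.H552.DLMain

set_option autoImplicit false
open Cfsg

namespace Cfsg.Agent.S4259

/-- Let G be a finite 2-soluble group whose Sylow 2-subgroups have derived length at most d. Then the 2-length of G is at most d. -/
theorem result {G : Type*} [Group G] [Finite G] (hG : Cfsg.IsPSolvable 2 G) (d : ℕ)
    (hd : ∀ P : Sylow 2 G, derivedSeries (P : Subgroup G) d = ⊥) : Cfsg.PLengthLE 2 d G := by
  have hF2 : Fact (Nat.Prime 2) := ⟨Nat.prime_two⟩
  have hS : ∀ S : Subgroup G, IsPGroup 2 S → H552.ds S d = ⊥ := by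
    intro S hS
    obtain ⟨P, hP⟩ := hS.exists_le_sylow
    rw [eq_bot_iff]
    refine (H552.ds_mono hP d).trans ?_
    rw [← H552.map_derivedSeries, hd P, Subgroup.map_bot]
  apply H979.TwoLenA.pLengthLE_of_odd
  rcases Nat.eq_zero_or_pos d with rfl | he
  · refine H979.TwoLenA.odd_card_of_odd_orderOf fun x => ?_
    rw [← Subgroup.orderOf_coe]
    obtain ⟨m, n, hm, hn, hx⟩ := H552.exists_odd_mul_two (x : G)
    have h1 : (x : G) ^ n = 1 := by
      have h2 := hS (Subgroup.zpowers ((x : G) ^ n)) (H552.isPGroup_zpowers hn)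
      rw [H552.ds_zero, Subgroup.zpowers_eq_bot] at h2
      exact h2
    rw [h1, mul_one] at hx
    rw [hx]
    exact hm
  · exact H552.odd_of_DAt d he G hG hS fun X _ _ hX _ => H552.DAt_all d X hX

end Cfsg.Agent.S4259
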