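import Cfsg.Statements.S4262
import Cfsg.Agent.H553.MaxNilp
-- import your own Cfsg.Agent.* helpers here

set_option autoImplicit false
open Cfsg

namespace Cfsg.Agent.S4262

open Subgroup

/-- A non-central element has a non-central power of prime power order. -/
theorem exists_primary {G : Type*} [Group G] [Finite G] {x : G} (hx : x ∉ center G) :
    ∃ p : ℕ, p.Prime ∧ p ∣ orderOf x ∧ ∃ y : G, y ∈ zpowers x ∧ y ∉ center G ∧
      ∃ k : ℕ, orderOf y = p ^ k := by
  have hx1 : (QuotientGroup.mk' (center G)) x ≠ 1 := by
    intro h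
    exact hx ((QuotientGroup.eq_one_iff x).mp h)
  set o := orderOf x with ho
  have ho0 : o ≠ 0 := (orderOf_pos x).ne'
  have h1 : orderOf ((QuotientGroup.mk' (center G)) x) ≠ 1 := by
    rw [Ne, orderOf_eq_one_iff]
    exact hx1
  obtain ⟨p, hp, hpd⟩ := Nat.exists_prime_and_dvd h1
  have hpo : p ∣ o := hpd.trans (orderOf_map_dvd _ x)
  refine ⟨p, hp, hpo, x ^ (o / p ^ o.factorization p), Subgroup.npow_mem_zpowers x _, ?_, ?_⟩
  · intro hc
    have h2 : (QuotientGroup.mk' (center G)) (x ^ (o / p ^ o.factorization p)) = 1 :=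
      (QuotientGroup.eq_one_iff _).mpr hc
    rw [map_pow] at h2
    have h3 := orderOf_dvd_of_pow_eq_one h2
    exact (Nat.not_dvd_ordCompl hp ho0) (hpd.trans h3)
  · refine ⟨o.factorization p, ?_⟩
    have h4 : o / p ^ o.factorization p ∣ o := Nat.ordCompl_dvd o p
    rw [orderOf_pow_of_dvd (Nat.ordCompl_pos p ho0).ne' h4]
    exact Nat.div_div_self (Nat.ordProj_dvd o p) ho0

theorem centralizer_le_of_mem_zpowers {G : Type*} [Group G] {x y : G} (h : y ∈ zpowers x) :
    centralizer ({x} : Set G) ≤ centralizer ({y} : Set G) := by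
  intro g hg
  rw [mem_centralizer_singleton_iff] at hg ⊢
  obtain ⟨n, rfl⟩ := h
  exact (Commute.zpow_right (show Commute g x from hg) n)

theorem ne_top_of_not_mem_center {G : Type*} [Group G] {x : G} (hx : x ∉ center G) :
    centralizer ({x} : Set G) ≠ ⊤ := by
  intro h
  apply hx
  rw [Subgroup.mem_center_iff]
  intro g
  have : g ∈ centralizer ({x} : Set G) := by rw [h]; trivial
  rw [mem_centralizer_singleton_iff] at this
  exact this

variable {G : Type*} [Group G] [Finite G]
    (h : ∀ g : G, g ∉ Subgroup.center G → IsCoatom (Subgroup.centralizer ({g} : Set G)))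

include h in
/-- Elements of coprime orders which commute and are both non-central have the same centralizer. -/
theorem centralizer_eq {x z : G} (hx : x ∉ center G) (hz : z ∉ center G) (hxz : Commute x z)
    (hcop : (orderOf x).Coprime (orderOf z)) :
    centralizer ({x} : Set G) = centralizer ({z} : Set G) := by
  have h1 : x ∈ zpowers (x * z) := by
    have h2 : zpowers x ≤ zpowers (x * z) := by
      rw [Subgroup.zpowers_le]
      obtain ⟨m, hm⟩ := Nat.chineseRemainder hcop 1 0
      refine ⟨m, ?_⟩
      simp only [zpow_natCast]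
      rw [hxz.mul_pow]
      rw [(pow_eq_pow_iff_modEq (x := x)).mpr hm.1, (pow_eq_pow_iff_modEq (x := z)).mpr hm.2]
      simp
    exact h2 (mem_zpowers x)
  have h3 : z ∈ zpowers (x * z) := by
    have h2 := (zpowers (x * z)).mul_mem ((zpowers (x * z)).inv_mem h1) (mem_zpowers _)
    rwa [inv_mul_cancel_left] at h2
  have h4 : x * z ∉ center G := by
    intro hc
    exact hx ((Subgroup.zpowers_le.mpr hc) h1)
  have h5 := h _ h4
  have key : ∀ w : G, w ∉ center G → w ∈ zpowers (x * z) →
      centralizer ({w} : Set G) = centralizer ({x * z} : Set G) := by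
    intro w hw hwz
    rcases eq_or_lt_of_le (centralizer_le_of_mem_zpowers hwz) with h6 | h6
    · exact h6.symm
    · exact absurd (h5.2 _ h6) (ne_top_of_not_mem_center hw)
  rw [key x hx h1, key z hz h3]

include h in
/-- The centralizer of a non-central `p`-element: elements of order prime to `p` are central. -/
theorem mem_center_centralizer {p k : ℕ} {x : G} (hx : x ∉ center G)
    (hxp : orderOf x = p ^ k) (z : centralizer ({x} : Set G)) (hz : (orderOf z).Coprime p) :
    z ∈ center (centralizer ({x} : Set G)) := by
  rw [Subgroup.mem_center_iff]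
  intro g
  apply Subtype.ext
  change (g : G) * z = z * g
  by_cases hzc : (z : G) ∈ center G
  · exact (Subgroup.mem_center_iff.mp hzc) g
  · have h1 := centralizer_eq h hx hzc
      (by
        have := z.2
        rw [mem_centralizer_singleton_iff] at this
        exact (show Commute (z : G) x from this).symm)
      (by
        rw [hxp, Subgroup.orderOf_coe]
        exact (Nat.Coprime.pow_left _ hz.symm))
    have h2 : (g : G) ∈ centralizer ({(z : G)} : Set G) := by
      rw [← h1]; exact g.2
    rw [mem_centralizer_singleton_iff] at h2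
    exact h2

/-- If the elements of `X` of order prime to `p` are central, then `X ⧸ Z(X)` is a `p`-group. -/
theorem isPGroup_quotient_center {X : Type*} [Group X] [Finite X] {p : ℕ} (hp : p.Prime)
    (hX : ∀ z : X, (orderOf z).Coprime p → z ∈ center X) : IsPGroup p (X ⧸ center X) := by
  intro a
  obtain ⟨g, rfl⟩ := QuotientGroup.mk_surjective a
  refine ⟨(orderOf g).factorization p, ?_⟩
  have h0 : orderOf g ≠ 0 := (orderOf_pos g).ne'
  rw [← QuotientGroup.mk_pow, QuotientGroup.eq_one_iff]
  apply hX
  rw [orderOf_pow_of_dvd (pow_pos hp.pos _).ne' (Nat.ordProj_dvd _ _)]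
  exact (Nat.coprime_ordCompl hp h0).symm

/-- Let G be a finite group in which the centralizer of every non-central element is a maximal subgroup of G. Then G is solvable. -/
theorem result {G : Type*} [Group G] [Finite G]
    (h : ∀ g : G, g ∉ Subgroup.center G → IsCoatom (Subgroup.centralizer ({g} : Set G))) :
    Group.IsSolvable G := by
  by_cases hodd : ∃ (p : ℕ) (x : G), p.Prime ∧ p ≠ 2 ∧ x ∉ center G ∧ ∃ k : ℕ, orderOf x = p ^ k
  · obtain ⟨p, x, hp, hp2, hx, k, hk⟩ := hodd
    have : Fact p.Prime := ⟨hp⟩
    have hc := mem_center_centralizer h hx hk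
    have h1 : IsPGroup p (centralizer ({x} : Set G) ⧸ center (centralizer ({x} : Set G))) :=
      isPGroup_quotient_center hp hc
    have h2 : Group.IsNilpotent (centralizer ({x} : Set G) ⧸ center (centralizer ({x} : Set G))) :=
      h1.isNilpotent
    have h3 : Group.IsNilpotent (centralizer ({x} : Set G)) :=
      Group.of_quotient_center_nilpotent h2
    refine H553.MaxNilp.isSolvable_of_coatom _ (h x hx) h3 ?_
    intro P
    refine ⟨⟨fun a b => ?_⟩⟩
    have h4 : (a : centralizer ({x} : Set G)) ∈ center (centralizer ({x} : Set G)) := by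
      apply hc
      have h5 := P.2.orderOf_coprime (n := p)
        ((Nat.coprime_primes Nat.prime_two hp).mpr (Ne.symm hp2)) a
      rwa [← Subgroup.orderOf_coe] at h5
    apply Subtype.ext
    exact ((Subgroup.mem_center_iff.mp h4) b).symm
  · push Not at hodd
    have h1 : IsPGroup 2 (G ⧸ center G) := by
      refine isPGroup_quotient_center Nat.prime_two ?_
      intro z hz
      by_contra hzc
      obtain ⟨p, hp, hpz, y, hy, hyc, k, hk⟩ := exists_primary hzc
      refine hodd p y hp ?_ hyc k hk
      rintro rfl
      exact absurd (Nat.eq_one_of_dvd_coprimes hz hpz dvd_rfl) (by norm_num)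
    have : Fact (Nat.Prime 2) := ⟨Nat.prime_two⟩
    have h2 : Group.IsNilpotent (G ⧸ center G) := h1.isNilpotent
    have h3 : Group.IsNilpotent G := Group.of_quotient_center_nilpotent h2
    infer_instance

end Cfsg.Agent.S4262
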