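import Cfsg.Statements.S4263
import Cfsg.Agent.H555.IndexPow

set_option autoImplicit false
open Cfsg

namespace Cfsg.Agent.S4263

/-- Let G be a finite group. An element x lies in the Fitting subgroup F(G) if and only if, for every subgroup H of G, the power x^[G : H] lies in H. -/
theorem result {G : Type*} [Group G] [Finite G] (x : G) :
    x ∈ Cfsg.fittingSubgroup G ↔ ∀ H : Subgroup G, x ^ H.index ∈ H := by
  exact Cfsg.Agent.H555.IndexPow.mem_fitting_iff x

end Cfsg.Agent.S4263
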