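import Cfsg.Statements.S4265
import Cfsg.Agent.H553.Quasi

set_option autoImplicit false
open Cfsg

namespace Cfsg.Agent.S4265

/-- Let G be a finite solvable subgroup of GL_r(ℂ), r ≥ 1, with Fitting subgroup F(G) normal in G. Then for every subgroup H of G the quotient H/(H ∩ F(G)) has at most 3^{r−1} conjugacy classes. -/
theorem result (r : ℕ) (hr : 1 ≤ r) (G : Subgroup (GL (Fin r) ℂ)) [Finite ↥G] (hsolv : Group.IsSolvable ↥G) [hF : (Cfsg.fittingSubgroup ↥G).Normal] (H : Subgroup ↥G) : Nat.card (ConjClasses (↥H ⧸ (Cfsg.fittingSubgroup ↥G).subgroupOf H)) ≤ 3 ^ (r - 1) := by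
  let ρ : Representation ℂ G (Fin r → ℂ) :=
    { toFun := fun g => Matrix.toLinAlgEquiv' (((g : GL (Fin r) ℂ) : Matrix (Fin r) (Fin r) ℂ))
      map_one' := by
        rw [Subgroup.coe_one, Units.val_one, map_one]
      map_mul' := fun g h => by
        rw [Subgroup.coe_mul, Units.val_mul, map_mul] }
  have hρ : Function.Injective ρ := by
    intro g h hgh
    apply Subtype.ext
    apply Units.ext
    exact Matrix.toLinAlgEquiv'.injective hgh
  have h1 : Cfsg.Agent.H553.SB.NB G (3 ^ (r - 1)) :=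
    Cfsg.Agent.H553.Quasi.bound_all r hr G (Fin r → ℂ) ρ hρ (by simp)
  have h2 := h1.fitting
  let f : ↥H ⧸ (Cfsg.fittingSubgroup ↥G).subgroupOf H →* ↥G ⧸ Cfsg.fittingSubgroup ↥G :=
    QuotientGroup.map _ _ H.subtype le_rfl
  have hf : Function.Injective f := by
    rw [injective_iff_map_eq_one]
    intro x hx
    obtain ⟨h, rfl⟩ := QuotientGroup.mk_surjective x
    rw [QuotientGroup.eq_one_iff]
    exact (QuotientGroup.eq_one_iff (h : ↥G)).mp hx
  have h3 := Cfsg.Agent.H553.SB.SubB.of_injective f hf h2 ⊤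
  rwa [Cfsg.Agent.H553.KClass.congr (Subgroup.topEquiv)] at h3

end Cfsg.Agent.S4265
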