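import Cfsg.Statements.S4266
import Cfsg.Agent.H558.CP.Final

set_option autoImplicit false
open Cfsg

namespace Cfsg.Agent.S4266

/-- Let p be a prime and G a finite solvable group whose order is divisible by p². Then G has at least 49p/60 conjugacy classes. -/
theorem result {G : Type*} [Group G] [Finite G] (hsolv : Group.IsSolvable G) (p : ℕ) [Fact p.Prime] (hp : p ^ 2 ∣ Nat.card G) : 49 * p ≤ 60 * Nat.card (ConjClasses G) :=
  Cfsg.Agent.H558.CP.main _ G p rfl hp

end Cfsg.Agent.S4266
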