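import Cfsg.Statements.S4281
import Cfsg.Agent.H557.InvE8

set_option autoImplicit false
open scoped BigOperators
open Cfsg

namespace Cfsg.Agent.S4281

/-- In the Chevalley group of type E₈ over a finite field of odd order q there are exactly two conjugacy classes of involutions; the centralizer of an involution in one class has order q⁵⁶(q⁸ − 1)·∏_{i=1}^{7}(q^{2i} − 1), and in the other class q⁶⁴(q² − 1)²(q⁶ − 1)(q⁸ − 1)(q¹⁰ − 1)(q¹² − 1)(q¹⁴ − 1)(q¹⁸ − 1). -/
theorem result {F : Type*} [Field F] [Fintype F] (hF : Odd (Fintype.card F)) : ∃ s t : ↥(Cfsg.Lie.chevE8.group F), orderOf s = 2 ∧ orderOf t = 2 ∧ ¬ IsConj s t ∧ (∀ u : ↥(Cfsg.Lie.chevE8.group F), orderOf u = 2 → IsConj u s ∨ IsConj u t) ∧ Nat.card (Subgroup.centralizer ({s} : Set ↥(Cfsg.Lie.chevE8.group F))) = Fintype.card F ^ 56 * (Fintype.card F ^ 8 - 1) * ∏ i ∈ Finset.Icc 1 7, (Fintype.card F ^ (2 * i) - 1) ∧ Nat.card (Subgroup.centralizer ({t} : Set ↥(Cfsg.Lie.chevE8.group F))) = Fintype.card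 F ^ 64 * (Fintype.card F ^ 2 - 1) ^ 2 * (Fintype.card F ^ 6 - 1) * (Fintype.card F ^ 8 - 1) * (Fintype.card F ^ 10 - 1) * (Fintype.card F ^ 12 - 1) * (Fintype.card F ^ 14 - 1) * (Fintype.card F ^ 18 - 1) := by
  obtain ⟨s, t, h1, h2, h3, h4, h5, h6⟩ := Cfsg.Agent.H557.InvE8.main hF
  refine ⟨s, t, h1, h2, h3, h4, h5.trans ?_, h6.trans ?_⟩
  · have hm : Cfsg.Agent.H557.TabD8.tab.m = 56 := rfl
    have hI : (Finset.Icc 1 7 : Finset ℕ) = {1, 2, 3, 4, 5, 6, 7} := by decide
    rw [hm, hI]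
    simp only [List.map_cons, List.map_nil, List.prod_cons, List.prod_nil]
    rw [Finset.prod_insert (by decide), Finset.prod_insert (by decide), Finset.prod_insert (by decide),
      Finset.prod_insert (by decide), Finset.prod_insert (by decide), Finset.prod_insert (by decide),
      Finset.prod_singleton]
    ring
  · have hm : Cfsg.Agent.H557.TabE7A1.tab.m = 64 := rfl
    rw [hm]
    simp only [List.map_cons, List.map_nil, List.prod_cons, List.prod_nil]
    ring

end Cfsg.Agent.S4281
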