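import Cfsg.Statements.S4283
import Cfsg.Agent.Solvable.FrobeniusKernel

set_option autoImplicit false
open Cfsg

namespace Cfsg.Agent.S4283

open Cfsg.Agent.Solvable.FrobeniusKernel

/-- An element commuting with a nontrivial element of the kernel lies in the kernel. -/
theorem mem_kernel_of_commute {Q : Type*} [Group Q] {H : Subgroup Q} (hH : Cfsg.IsFrobeniusComplement H)
    {x g : Q} (hx : x ∈ Cfsg.frobeniusKernel H) (hx1 : x ≠ 1) (h : g * x = x * g) :
    g ∈ Cfsg.frobeniusKernel H := by
  by_contra hg
  obtain ⟨hg1, c, hc⟩ := not_mem_kernel_iff.1 hg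
  have hc1 : c⁻¹ * g * c ≠ 1 := by
    intro h1
    apply hg1
    have : g = c * (c⁻¹ * g * c) * c⁻¹ := by group
    rw [this, h1]; simp
  have h2 : c⁻¹ * x * c ∈ Subgroup.centralizer {c⁻¹ * g * c} := by
    rw [Subgroup.mem_centralizer_singleton_iff]
    calc c⁻¹ * x * c * (c⁻¹ * g * c) = c⁻¹ * (x * g) * c := by group
      _ = c⁻¹ * (g * x) * c := by rw [h]
      _ = c⁻¹ * g * c * (c⁻¹ * x * c) := by group
  have h3 : c⁻¹ * x * c ∈ H := centralizer_le hH hc hc1 h2
  have h4 : c⁻¹ * x * (c⁻¹)⁻¹ ∈ Cfsg.frobeniusKernel H := conj_mem_kernel hx c⁻¹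
  rw [inv_inv] at h4
  have h5 := eq_one_of_mem_kernel_of_mem h4 h3
  apply hx1
  have : x = c * (c⁻¹ * x * c) * c⁻¹ := by group
  rw [this, h5]; simp

/-- the index of the centralizer is invariant under conjugation. -/
theorem index_centralizer_conj {G : Type*} [Group G] (x c : G) :
    (Subgroup.centralizer ({c * x * c⁻¹} : Set G)).index = (Subgroup.centralizer ({x} : Set G)).index := by
  have h : Subgroup.centralizer ({x} : Set G) =
      (Subgroup.centralizer ({c * x * c⁻¹} : Set G)).comap (MulAut.conj c).toMonoidHom := by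
    ext g
    rw [Subgroup.mem_comap, Subgroup.mem_centralizer_singleton_iff, Subgroup.mem_centralizer_singleton_iff]
    simp only [MulEquiv.coe_toMonoidHom, MulAut.conj_apply]
    constructor
    · intro h
      calc c * g * c⁻¹ * (c * x * c⁻¹) = c * (g * x) * c⁻¹ := by group
        _ = c * (x * g) * c⁻¹ := by rw [h]
        _ = c * x * c⁻¹ * (c * g * c⁻¹) := by group
    · intro h
      have h' : c * (g * x) * c⁻¹ = c * (x * g) * c⁻¹ := by
        calc c * (g * x) * c⁻¹ = c * g * c⁻¹ * (c * x * c⁻¹) := by group
          _ = c * x * c⁻¹ * (c * g * c⁻¹) := h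
          _ = c * (x * g) * c⁻¹ := by group
      exact mul_left_cancel (mul_right_cancel h')
  rw [h, Subgroup.index_comap_of_surjective _ (MulAut.conj c).surjective]

/-- Let G be a finite group with centre Z and let K, H be abelian subgroups of G containing Z such that G/Z is a Frobenius group with complement H/Z and kernel K/Z. Then the conjugacy class sizes of G are exactly 1, [G : K] and [G : H], and these two indices are coprime. (This is the converse half of the characterization of finite groups whose conjugacy class sizes are exactly 1, m and n with m and n coprime.) -/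
theorem result {G : Type*} [Group G] [Finite G] (K H : Subgroup G) (hZK : Subgroup.center G ≤ K) (hZH : Subgroup.center G ≤ H) (hK : IsMulCommutative K) (hH : IsMulCommutative H) (hFrob : Cfsg.IsFrobeniusComplement (H.map (QuotientGroup.mk' (Subgroup.center G)))) (hker : Cfsg.frobeniusKernel (H.map (QuotientGroup.mk' (Subgroup.center G))) = (K.map (QuotientGroup.mk' (Subgroup.center G)) : Set (G ⧸ Subgroup.center G))) : Set.range (fun x : G => (Subgroup.centralizer ({x} : Set G)).index) = ({1, K.index, H.index} : Set ℕ) ∧ K.index.Coprime H.index := by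
  set Z := Subgroup.center G with hZ
  set π := QuotientGroup.mk' Z with hπ
  have hπs : Function.Surjective π := QuotientGroup.mk'_surjective Z
  have hπk : π.ker = Z := QuotientGroup.ker_mk' Z
  have hcomapK : (K.map π).comap π = K := by
    rw [Subgroup.comap_map_eq, hπk, sup_eq_left.2 hZK]
  have hcomapH : (H.map π).comap π = H := by
    rw [Subgroup.comap_map_eq, hπk, sup_eq_left.2 hZH]
  have memK : ∀ g : G, π g ∈ Cfsg.frobeniusKernel (H.map π) ↔ g ∈ K := by
    intro g
    rw [hker, SetLike.mem_coe, ← Subgroup.mem_comap, hcomapK]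
  have memH : ∀ g : G, π g ∈ H.map π ↔ g ∈ H := by
    intro g
    rw [← Subgroup.mem_comap, hcomapH]
  have pi_eq_one : ∀ g : G, π g = 1 ↔ g ∈ Z := by
    intro g
    rw [← MonoidHom.mem_ker, hπk]
  have cK : ∀ a ∈ K, ∀ b ∈ K, a * b = b * a := by
    intro a ha b hb
    exact congrArg Subtype.val (hK.is_comm.comm ⟨a, ha⟩ ⟨b, hb⟩)
  have cH : ∀ a ∈ H, ∀ b ∈ H, a * b = b * a := by
    intro a ha b hb
    exact congrArg Subtype.val (hH.is_comm.comm ⟨a, ha⟩ ⟨b, hb⟩)
  -- centralizers
  have centK : ∀ x ∈ K, x ∉ Z → Subgroup.centralizer ({x} : Set G) = K := by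
    intro x hx hxZ
    ext g
    rw [Subgroup.mem_centralizer_singleton_iff]
    constructor
    · intro h
      rw [← memK]
      refine mem_kernel_of_commute hFrob ((memK x).2 hx) (fun h1 => hxZ ((pi_eq_one x).1 h1)) ?_
      rw [← map_mul, ← map_mul, h]
    · intro hg
      exact cK g hg x hx
  have centH : ∀ x ∈ H, x ∉ Z → Subgroup.centralizer ({x} : Set G) = H := by
    intro x hx hxZ
    ext g
    rw [Subgroup.mem_centralizer_singleton_iff]
    constructor
    · intro h
      rw [← memH]
      apply centralizer_le hFrob ((memH x).2 hx) (fun h1 => hxZ ((pi_eq_one x).1 h1))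
      rw [Subgroup.mem_centralizer_singleton_iff, ← map_mul, ← map_mul, h]
    · intro hg
      exact cH g hg x hx
  have centZ : ∀ x ∈ Z, (Subgroup.centralizer ({x} : Set G)).index = 1 := by
    intro x hx
    rw [Subgroup.index_eq_one, eq_top_iff]
    intro g _
    rw [Subgroup.mem_centralizer_singleton_iff]
    exact (Subgroup.mem_center_iff.1 hx g)
  have hidxK : K.index = (K.map π).index := by
    conv_lhs => rw [← hcomapK]
    exact Subgroup.index_comap_of_surjective _ hπs
  have hidxH : H.index = (H.map π).index := by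
    conv_lhs => rw [← hcomapH]
    exact Subgroup.index_comap_of_surjective _ hπs
  have hcardK : Nat.card (K.map π) = (H.map π).index := by
    rw [← card_kernel hFrob, hker]; rfl
  have hKidx : (K.map π).index = Nat.card (H.map π) := by
    have h1 := (K.map π).card_mul_index
    have h2 := (H.map π).card_mul_index
    rw [hcardK] at h1
    have h3 : 0 < (H.map π).index := Nat.pos_of_ne_zero Subgroup.index_ne_zero_of_finite
    apply Nat.eq_of_mul_eq_mul_left h3
    rw [h1, ← h2, mul_comm]
  refine ⟨?_, ?_⟩
  · ext n
    simp only [Set.mem_range, Set.mem_insert_iff, Set.mem_singleton_iff]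
    constructor
    · rintro ⟨x, rfl⟩
      by_cases hxZ : x ∈ Z
      · left; exact centZ x hxZ
      right
      by_cases hxK : x ∈ K
      · left; rw [centK x hxK hxZ]
      · right
        have h1 : π x ∉ Cfsg.frobeniusKernel (H.map π) := fun h => hxK ((memK x).1 h)
        obtain ⟨-, c, hc⟩ := not_mem_kernel_iff.1 h1
        obtain ⟨c, rfl⟩ := hπs c
        rw [← map_inv, ← map_mul, ← map_mul, memH] at hc
        have e : x = c * (c⁻¹ * x * c) * c⁻¹ := by group
        have hnZ : c⁻¹ * x * c ∉ Z := by
          intro h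
          apply hxZ
          rw [e]
          exact Subgroup.Normal.conj_mem inferInstance _ h c
        rw [e, index_centralizer_conj, centH _ hc hnZ]
    · rintro (rfl | rfl | rfl)
      · exact ⟨1, centZ 1 (Subgroup.one_mem _)⟩
      · -- a non-central element of K
        have hne : K.map π ≠ ⊥ := by
          intro h
          rw [h, Subgroup.card_bot] at hcardK
          exact hFrob.2.1 (Subgroup.index_eq_one.1 hcardK.symm)
        obtain ⟨y, hy, hy1⟩ := (K.map π).bot_or_exists_ne_one.resolve_left hne
        obtain ⟨x, hx, rfl⟩ := hy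
        exact ⟨x, by rw [centK x hx (fun h => hy1 ((pi_eq_one x).2 h))]⟩
      · obtain ⟨y, hy, hy1⟩ := (H.map π).bot_or_exists_ne_one.resolve_left hFrob.1
        obtain ⟨x, hx, rfl⟩ := hy
        exact ⟨x, by rw [centH x hx (fun h => hy1 ((pi_eq_one x).2 h))]⟩
  · rw [hidxK, hidxH, hKidx]
    exact (coprime_index_card hFrob).symm

end Cfsg.Agent.S4283
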