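import Cfsg.Statements.S4303
import Mathlib
import Cfsg.Agent.H561.HallSylow

set_option autoImplicit false
universe u
open Cfsg

namespace Cfsg.Agent.S4303

open Cfsg.Agent.H571.SylowNumber

/-- The conclusion of the theorem, for a number `n`. -/
def Nice (p : ℕ) (n : ℕ) : Prop :=
    ∃ l : List ℕ, l.prod = n ∧
      ∀ m ∈ l, (IsPrimePow m ∧ m % p = 1) ∨
        ∃ (S : Type u) (_ : Group S) (_ : Finite S), IsSimpleGroup S ∧ m = Nat.card (Sylow p S)

theorem Nice.mul {p m n : ℕ} (hm : Nice.{u} p m) (hn : Nice.{u} p n) : Nice.{u} p (m * n) := by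
  obtain ⟨l, hl, hl'⟩ := hm
  obtain ⟨k, hk, hk'⟩ := hn
  refine ⟨l ++ k, by rw [List.prod_append, hl, hk], ?_⟩
  intro x hx
  rcases List.mem_append.1 hx with h | h
  · exact hl' x h
  · exact hk' x h

theorem card_lt_of_ne_top {G : Type*} [Group G] [Finite G] {H : Subgroup G} (hH : H ≠ ⊤) :
    Nat.card H < Nat.card G := by
  have h1 := H.card_mul_index
  have h2 : H.index ≠ 1 := fun h => hH (Subgroup.index_eq_one.1 h)
  have h3 : H.index ≠ 0 := Subgroup.index_ne_zero_of_finite
  have h4 : 0 < Nat.card H := Nat.card_pos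
  rw [← h1]
  have h5 : 2 ≤ H.index := by omega
  nlinarith

theorem card_quotient_lt {G : Type*} [Group G] [Finite G] {N : Subgroup G} (hN : N ≠ ⊥) :
    Nat.card (G ⧸ N) < Nat.card G := by
  have h2 := N.card_eq_card_quotient_mul_card_subgroup
  have h3 : 1 < Nat.card N := by
    have : Nat.card N ≠ 1 := fun h => hN (Subgroup.card_eq_one.1 h)
    have := Nat.card_pos (α := N)
    omega
  have h4 : 0 < Nat.card (G ⧸ N) := Nat.card_pos
  rw [h2]
  nlinarith

theorem main (p : ℕ) [hp : Fact p.Prime] :
    ∀ (n : ℕ) (G : Type u) [Group G] [Finite G], Nat.card G = n →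
      Nice.{u} p (Nat.card (Sylow p G)) := by
  intro n
  induction n using Nat.strong_induction_on with
  | _ n ih =>
    intro G _ _ hn
    rcases subsingleton_or_nontrivial G with hG | hG
    · have h1 : Nat.card (Sylow p G) = 1 := by
        have : Subsingleton (Sylow p G) :=
          ⟨fun P Q => Sylow.ext (Subsingleton.elim _ _)⟩
        rw [Nat.card_eq_one_iff_unique]
        exact ⟨this, inferInstance⟩
      rw [h1]
      exact ⟨[], rfl, by simp⟩
    by_cases hs : IsSimpleGroup G
    · exact ⟨[Nat.card (Sylow p G)], by simp, by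
        intro m hm
        rw [List.mem_singleton] at hm
        exact Or.inr ⟨G, inferInstance, inferInstance, hs, hm⟩⟩
    obtain ⟨K, hKn, hKb, hKt⟩ : ∃ K : Subgroup G, K.Normal ∧ K ≠ ⊥ ∧ K ≠ ⊤ := by
      by_contra hcon
      push Not at hcon
      exact hs ⟨fun N hN => or_iff_not_imp_left.2 (fun hNb => hcon N hN hNb)⟩
    obtain ⟨P⟩ : Nonempty (Sylow p G) := inferInstance
    rw [card_sylow_eq_mul P K]
    refine Nice.mul (ih _ (hn ▸ card_quotient_lt hKb) (G ⧸ K) rfl) ?_
    by_cases hPK : (P : Subgroup G) ⊔ K = ⊤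
    · by_cases hQ : (P : Subgroup G) ⊓ K = ⊥
      · -- `K` is a `p'`-group
        have hK : ¬ p ∣ Nat.card K := by
          obtain ⟨T, hT⟩ := exists_sylow_inf P K
          intro hdvd
          have h1 := T.dvd_card_of_dvd_card hdvd
          have h2 : (T : Subgroup K) = ⊥ := by
            rw [hT, ← Subgroup.inf_subgroupOf_right, hQ, Subgroup.bot_subgroupOf]
          rw [h2, Subgroup.card_bot] at h1
          exact hp.out.one_lt.ne' (Nat.dvd_one.1 h1)
        obtain ⟨l, hl, hl'⟩ := Cfsg.Agent.H561.HallSylow.exists_list_of_good hp.out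
          (Nat.card_pos.ne') (Cfsg.Agent.H561.HallSylow.good_pprime P K hK)
        exact ⟨l, hl, fun m hm => Or.inl (hl' m hm)⟩
      · rw [card_sylow_sup P K _ rfl]
        refine Nice.mul (ih _ (hn ▸ card_lt_of_ne_top hKt) K rfl) ?_
        rw [hPK, top_inf_eq]
        by_cases hN : Subgroup.normalizer (((P : Subgroup G) ⊓ K : Subgroup G) : Set G) = ⊤
        · have hQn : ((P : Subgroup G) ⊓ K : Subgroup G).Normal := Subgroup.normalizer_eq_top_iff.1 hN
          have h1 : Nat.card (Sylow p ↥(Subgroup.normalizer (((P : Subgroup G) ⊓ K : Subgroup G) : Set G))) =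
              Nat.card (Sylow p G) := by
            rw [hN]
            exact card_sylow_congr Subgroup.topEquiv
          rw [h1, card_sylow_of_surjective (QuotientGroup.mk' ((P : Subgroup G) ⊓ K))
            (QuotientGroup.mk'_surjective _) (by
              rw [QuotientGroup.ker_mk']
              exact P.isPGroup'.to_le inf_le_left)]
          exact ih _ (hn ▸ card_quotient_lt hQ) _ rfl
        · exact ih _ (hn ▸ card_lt_of_ne_top hN) _ rfl
    · exact ih _ (hn ▸ card_lt_of_ne_top hPK) _ rfl

/-- For a finite group `G` and a prime `p`, the number of Sylow `p`-subgroups of `G` is a product of natural numbers each of which is either a prime power congruent to 1 modulo `p` or the number of Sylow `p`-subgroups of some finite simple group. -/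
theorem result {G : Type u} [Group G] [Finite G]
    (p : ℕ) [Fact p.Prime] :
    ∃ l : List ℕ, l.prod = Nat.card (Sylow p G) ∧
      ∀ m ∈ l, (IsPrimePow m ∧ m % p = 1) ∨
        ∃ (S : Type u) (_ : Group S) (_ : Finite S), IsSimpleGroup S ∧ m = Nat.card (Sylow p S) :=
  main p _ G rfl

end Cfsg.Agent.S4303
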