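import Cfsg.Statements.S4308
import Cfsg.Agent.H544.CS.Final
import Cfsg.Agent.H532.NABox
import Cfsg.Agent.H529.CsBox
import Cfsg.Agent.H529.FRowMain
import Cfsg.Agent.H531.FMAll

set_option autoImplicit false
open Cfsg

namespace Cfsg.Agent.S4308

/-- For every finite group `G`, the set of primes dividing some conjugacy class size of `G` can be split into two parts such that any two distinct primes in the same part have product dividing some conjugacy class size (the complement of the class-size prime graph is bipartite). The known proof uses the classification of finite simple groups. -/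
theorem result {G : Type*} [Group G] [Finite G] :
    ∃ S : Set ℕ, ∀ p q : ℕ, p.Prime → q.Prime → p ≠ q →
      (∃ x : G, p ∣ (Subgroup.centralizer ({x} : Set G)).index) → (∃ x : G, q ∣ (Subgroup.centralizer ({x} : Set G)).index) → (p ∈ S ↔ q ∈ S) →
      ∃ x : G, p * q ∣ (Subgroup.centralizer ({x} : Set G)).index :=
  H544.CS.main (H532.NA.boxNA fun K _ _ _ hna => H531.FMAll.fm K hna)
    (H529.CsGL.boxGL (H529.FRoMain.allF fun X _ _ _ => Cfsg.Agent.S0000.result (G := X)))
    (H529.CsGL.boxBL' (H529.FRoMain.allF fun X _ _ _ => Cfsg.Agent.S0000.result (G := X))) G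

end Cfsg.Agent.S4308
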