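import Cfsg.Statements.S4318
import Cfsg.Agent.S0000
import Cfsg.Agent.S2964
import Cfsg.Agent.H565.FocalC
import Cfsg.Agent.H565.Semi
-- import your own Cfsg.Agent.* helpers here

set_option autoImplicit false
open Cfsg

namespace Cfsg.Agent.S4318

open Cfsg.Agent.H565 Cfsg.Agent.H565.Semi Cfsg.Agent.H565.Focal

universe u

theorem cycHyp : CycHyp.{u} := by
  intro K _ _ _ _ r _ hr R
  refine Cfsg.Agent.S2964.result K ?_ r hr R
  intro H N _ hs _
  haveI := hs
  exact Cfsg.Agent.S0000.result

/-- Let `q` be a prime, `A` an elementary abelian group of order `q³` acting by automorphisms on a finite group `G` of order prime to `q`, and `P` an `A`-invariant Sylow `p`-subgroup of `G`. Then `P ∩ G'` is generated by the subgroups `P ∩ C_G(a)'` for the non-identity elements `a` of `A`, where `C_G(a)` is the fixed-point subgroup of `a` and a prime denotes the derived subgroup. The known proof uses the classification of finite simple groups. -/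
theorem result {A G : Type*} [Group A] [Finite A] [Group G] [Finite G]
    [MulDistribMulAction A G] (q : ℕ) (hq : q.Prime) (hA : Nat.card A = q ^ 3) (hAc : ∀ a b : A, a * b = b * a)
    (hAe : ∀ a : A, a ^ q = 1) (hcop : ¬ q ∣ Nat.card G) (p : ℕ) [Fact p.Prime] (P : Sylow p G)
    (hP : ∀ a : A, ∀ x : G, x ∈ (P : Subgroup G) → a • x ∈ (P : Subgroup G)) :
    (P : Subgroup G) ⊓ commutator G =
      ⨆ a : {a : A // a ≠ 1}, (P : Subgroup G) ⊓ (commutator ↥(FixedPoints.subgroup (Subgroup.zpowers (a : A)) G)).map (FixedPoints.subgroup (Subgroup.zpowers (a : A)) G).subtype := by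
  have hp : p.Prime := Fact.out
  have hcardA : Nat.card (iA A G).range = q ^ 3 := by
    rw [← hA]
    exact Nat.card_congr ((iA A G).ofInjective iA_injective).toEquiv.symm
  have hcardG : Nat.card (iG A G).range = Nat.card G :=
    Nat.card_congr ((iG A G).ofInjective iG_injective).toEquiv.symm
  have hS : Setup q p (iG A G).range (iA A G).range ((P : Subgroup G).map (iG A G)) := by
    refine ⟨?_, hcardA, ?_, ?_, by rw [hcardG]; exact hcop, ?_, P.isPGroup'.map _, ?_, ?_⟩
    · rw [SemidirectProduct.range_inl_eq_ker_rightHom]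
      infer_instance
    · rintro _ ⟨a, rfl⟩ _ ⟨b, rfl⟩
      rw [← map_mul, hAc, map_mul]
    · rintro _ ⟨a, rfl⟩
      rw [← map_pow, hAe, map_one]
    · rintro _ ⟨x, -, rfl⟩
      exact ⟨x, rfl⟩
    · have h1 := P.not_dvd_index
      rwa [MonoidHom.range_eq_map, Subgroup.relIndex_map_map_of_injective _ _ iG_injective,
        Subgroup.relIndex_top_right]
    · have key : ∀ a : A, ∀ x ∈ (P : Subgroup G).map (iG A G), iA A G a * x * (iA A G a)⁻¹ ∈
          (P : Subgroup G).map (iG A G) := by
        rintro a _ ⟨g, hg, rfl⟩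
        rw [conj_iG]
        exact ⟨a • g, hP a g hg, rfl⟩
      rintro _ ⟨a, rfl⟩
      rw [Subgroup.mem_normalizer_iff]
      intro x
      constructor
      · exact key a x
      · intro hx
        have h1 := key a⁻¹ _ hx
        have h2 : iA A G a⁻¹ * (iA A G a * x * (iA A G a)⁻¹) * (iA A G a⁻¹)⁻¹ = x := by
          rw [map_inv]; group
        rwa [h2] at h1
  have hmain := Focal.main cycHyp hq hp hS
  -- pull back along the embedding of `G`
  have hinj := iG_injective (A := A) (G := G)
  have hD : ∀ a : A, ((commutator ↥(FixedPoints.subgroup (Subgroup.zpowers a) G)).map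
      (FixedPoints.subgroup (Subgroup.zpowers a) G).subtype).map (iG A G) = Dc (iG A G).range (iA A G a) := by
    intro a
    rw [Subgroup.map_subtype_commutator, Subgroup.map_commutator, map_fixedPoints]
    rfl
  apply Subgroup.map_injective hinj
  rw [Subgroup.map_inf_eq _ _ _ hinj, commutator_def, Subgroup.map_commutator, ← MonoidHom.range_eq_map, hmain,
    Subgroup.map_iSup]
  apply le_antisymm
  · refine iSup_le ?_
    rintro ⟨_, ⟨a, rfl⟩, ha1⟩
    have ha : a ≠ 1 := fun h => ha1 (by rw [h, map_one])
    refine le_trans ?_ (le_iSup _ (⟨a, ha⟩ : {a : A // a ≠ 1}))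
    rw [Subgroup.map_inf_eq _ _ _ hinj, hD]
  · refine iSup_le ?_
    rintro ⟨a, ha⟩
    rw [Subgroup.map_inf_eq _ _ _ hinj, hD]
    exact le_iSup (fun b : {b : SD A G // b ∈ (iA A G).range ∧ b ≠ 1} =>
      (P : Subgroup G).map (iG A G) ⊓ Dc (iG A G).range b.1)
      ⟨iA A G a, ⟨a, rfl⟩, fun h => ha (iA_injective (by rw [h, map_one]))⟩

end Cfsg.Agent.S4318
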