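import Cfsg.Statements.S4331
import Cfsg.Agent.H568.Sn
import Cfsg.Agent.Blocks.RegularCount

set_option autoImplicit false
open Cfsg

namespace Cfsg.Agent.S4331

/-- The plane over `F_3`. -/
abbrev V : Type := Multiplicative (ZMod 3 × ZMod 3)

/-- Multiplication by `1 + i` on `F_9`. -/
def sFun : (ZMod 3 × ZMod 3) ≃+ (ZMod 3 × ZMod 3) where
  toFun x := (x.1 - x.2, x.1 + x.2)
  invFun x := (-(x.1 + x.2), x.1 - x.2)
  left_inv := by decide
  right_inv := by decide
  map_add' := by decide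

/-- The Frobenius automorphism of `F_9`. -/
def tFun : (ZMod 3 × ZMod 3) ≃+ (ZMod 3 × ZMod 3) where
  toFun x := (x.1, -x.2)
  invFun x := (x.1, -x.2)
  left_inv := by decide
  right_inv := by decide
  map_add' := by decide

/-- `s` as an automorphism. -/
def s : MulAut V := AddEquiv.toMultiplicative sFun

/-- `t` as an automorphism. -/
def t : MulAut V := AddEquiv.toMultiplicative tFun

theorem s_pow : s ^ 8 = 1 := by
  ext x <;> revert x <;> decide

theorem t_sq : t * t = 1 := by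
  ext x <;> revert x <;> decide

theorem t_s : t * s * t = s ^ 3 := by
  ext x <;> revert x <;> decide

theorem trans (v : V) (hv : v ≠ 1) : ∃ k : Fin 8, (s ^ (k : ℕ)) (Multiplicative.ofAdd (1, 0)) = v := by
  revert v; decide

/-- The semidihedral group of order 16. -/
def Q : Subgroup (MulAut V) := Subgroup.zpowers s ⊔ Subgroup.zpowers t

theorem s_mem : s ∈ Q := (le_sup_left : Subgroup.zpowers s ≤ Q) (Subgroup.mem_zpowers s)

theorem t_mem : t ∈ Q := (le_sup_right : Subgroup.zpowers t ≤ Q) (Subgroup.mem_zpowers t)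

theorem t_inv : t⁻¹ = t := inv_eq_of_mul_eq_one_left t_sq

theorem conj_mem {h : MulAut V} (hh : h ∈ Subgroup.zpowers s) : t * h * t⁻¹ ∈ Subgroup.zpowers s := by
  obtain ⟨k, rfl⟩ := hh
  have h1 : t * (fun x => s ^ x) k * t⁻¹ = (t * s * t⁻¹) ^ k := by
    simp
  rw [h1, t_inv, t_s]
  exact Subgroup.zpow_mem _ (Subgroup.pow_mem _ (Subgroup.mem_zpowers s) 3) k

theorem Q_pgroup : IsPGroup 2 Q := by
  refine IsPGroup.to_sup_of_normal_left' ?_ ?_ ?_
  · intro x
    obtain ⟨x, k, rfl⟩ := x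
    refine ⟨3, ?_⟩
    apply Subtype.ext
    simp only [SubmonoidClass.coe_pow, OneMemClass.coe_one]
    rw [← zpow_natCast, ← zpow_mul, mul_comm, zpow_mul, zpow_natCast]
    norm_num
    rw [s_pow, one_zpow]
  · intro x
    obtain ⟨x, k, rfl⟩ := x
    refine ⟨1, ?_⟩
    apply Subtype.ext
    simp only [SubmonoidClass.coe_pow, OneMemClass.coe_one]
    rw [← zpow_natCast, ← zpow_mul, mul_comm, zpow_mul, zpow_natCast, pow_one, pow_two, t_sq,
      one_zpow]
  · rw [Subgroup.zpowers_le]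
    rw [Subgroup.mem_normalizer_iff]
    intro h
    refine ⟨conj_mem, fun hh => ?_⟩
    have h1 := conj_mem hh
    rw [t_inv] at h1
    have h2 : t * (t * h * t) * t = h := by
      calc t * (t * h * t) * t = (t * t) * h * (t * t) := by group
        _ = h := by rw [t_sq]; group
    rwa [h2] at h1

/-- The group of order 144. -/
abbrev G : Type := V ⋊[Q.subtype] Q

/-- The involution. -/
def τ : G := SemidirectProduct.inr ⟨t, t_mem⟩

noncomputable instance instFiniteG : Finite G := by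
  have : Finite Q := inferInstance
  exact Finite.of_equiv (V × Q) SemidirectProduct.equivProd.symm

theorem solvable : Group.IsSolvable G := by
  have h2 : Group.IsSolvable Q := by
    have := Q_pgroup.isNilpotent
    infer_instance
  have h1 : Group.IsSolvable V := inferInstance
  exact Group.isSolvable_of_ker_le_range (SemidirectProduct.inl : V →* G) (SemidirectProduct.rightHom : G →* Q)
    (by rw [SemidirectProduct.range_inl_eq_ker_rightHom])

theorem τ_sq : τ * τ = 1 := by
  unfold τ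
  rw [← map_mul]
  have : (⟨t, t_mem⟩ : Q) * ⟨t, t_mem⟩ = 1 := Subtype.ext t_sq
  rw [this, map_one]

theorem t_ne : t ≠ 1 := by
  intro h
  have := DFunLike.congr_fun h (Multiplicative.ofAdd ((0, 1) : ZMod 3 × ZMod 3))
  revert this
  decide

theorem τ_ne : τ ≠ 1 := by
  intro h
  apply t_ne
  have h1 : (⟨t, t_mem⟩ : Q) = 1 := by
    apply SemidirectProduct.inr_injective (φ := Q.subtype) (N := V)
    rw [map_one]; exact h
  exact congrArg Subtype.val h1

theorem card_A : Nat.card (Subgroup.zpowers τ) = 2 := by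
  rw [Nat.card_zpowers]
  exact orderOf_eq_prime (by rw [pow_two, τ_sq]) τ_ne

theorem t_v : t (Multiplicative.ofAdd (0, 1)) ≠ Multiplicative.ofAdd (0, 1) := by decide

theorem V_pgroup : IsPGroup 3 (SemidirectProduct.inl : V →* G).range := by
  intro x
  obtain ⟨x, v, rfl⟩ := x
  refine ⟨1, Subtype.ext ?_⟩
  simp only [SubmonoidClass.coe_pow, OneMemClass.coe_one]
  rw [← map_pow, pow_one]
  have : v ^ 3 = 1 := by revert v; decide
  rw [this, map_one]

theorem not_le : ¬ Subgroup.zpowers τ ≤ Cfsg.pCore 2 G := by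
  intro h
  have hn := Cfsg.Agent.Lib.Cores.pCore_normal (G := G) 2
  have hp := Cfsg.Agent.Lib.Cores.pCore_isPGroup (G := G) 2
  have hVn : (SemidirectProduct.inl : V →* G).range.Normal := by
    rw [SemidirectProduct.range_inl_eq_ker_rightHom]; infer_instance
  have hd : Disjoint (Cfsg.pCore 2 G) (SemidirectProduct.inl : V →* G).range :=
    IsPGroup.disjoint_of_ne 2 3 (by norm_num) _ _ hp V_pgroup
  have hc := Subgroup.commute_of_normal_of_disjoint _ _ hn hVn hd τ
    (SemidirectProduct.inl (Multiplicative.ofAdd (0, 1))) (h (Subgroup.mem_zpowers τ))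
    ⟨_, rfl⟩
  apply t_v
  apply SemidirectProduct.inl_injective (φ := Q.subtype) (N := V)
  have h1 := SemidirectProduct.inl_aut (φ := Q.subtype) ⟨t, t_mem⟩ (Multiplicative.ofAdd (0, 1))
  have h2 : (Q.subtype ⟨t, t_mem⟩) (Multiplicative.ofAdd (0, 1)) = t (Multiplicative.ofAdd (0, 1)) := rfl
  rw [h2] at h1
  rw [h1, map_inv]
  have h3 : (SemidirectProduct.inr ⟨t, t_mem⟩ : G) = τ := rfl
  rw [h3, hc.eq, mul_assoc, mul_inv_cancel, mul_one]

/-- The complement. -/
def R : Subgroup G := (SemidirectProduct.inr : Q →* G).range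

theorem R_pgroup : IsPGroup 2 R :=
  Q_pgroup.of_surjective (SemidirectProduct.inr : Q →* G).rangeRestrict
    (MonoidHom.rangeRestrict_surjective _)

theorem R_index : R.index = 9 := by
  have h1 : Nat.card R = Nat.card Q :=
    (Nat.card_congr (MonoidHom.ofInjective
      (SemidirectProduct.inr_injective (φ := Q.subtype) (N := V))).toEquiv).symm
  have h2 := R.index_mul_card
  rw [SemidirectProduct.card, h1] at h2
  have h3 : Nat.card V = 9 := by
    rw [Nat.card_eq_fintype_card]; rfl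
  rw [h3] at h2
  exact Nat.eq_of_mul_eq_mul_right Nat.card_pos h2

theorem exists_conj (x : G) (hx : ∃ k : ℕ, orderOf x = 2 ^ k) : ∃ g : G, g * x * g⁻¹ ∈ R := by
  obtain ⟨k, hk⟩ := hx
  have h1 : IsPGroup 2 (Subgroup.zpowers x) := IsPGroup.of_card (n := k) (by rw [Nat.card_zpowers, hk])
  obtain ⟨P, hP⟩ := h1.exists_le_sylow
  let S : Sylow 2 G := R_pgroup.toSylow (by rw [R_index]; norm_num)
  obtain ⟨g, hg⟩ := MulAction.exists_smul_eq G P S
  refine ⟨g, ?_⟩
  have h2 : x ∈ (P : Subgroup G) := hP (Subgroup.mem_zpowers x)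
  have h3 : g * x * g⁻¹ ∈ ((g • P : Sylow 2 G) : Subgroup G) := by
    rw [Sylow.coe_subgroup_smul]
    exact Subgroup.smul_mem_pointwise_smul x (MulAut.conj g) _ h2
  rw [hg] at h3
  exact h3

theorem mem_ker (y : G) (hy : ¬ 2 ∣ orderOf y) : ∃ v : V, SemidirectProduct.inl v = y := by
  have h1 : (SemidirectProduct.rightHom : G →* Q) y = 1 := by
    obtain ⟨k, hk⟩ := IsPGroup.iff_orderOf.mp Q_pgroup (SemidirectProduct.rightHom y)
    have h2 := orderOf_map_dvd (SemidirectProduct.rightHom : G →* Q) y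
    rw [hk] at h2
    rcases k with _ | k
    · rwa [pow_zero, orderOf_eq_one_iff] at hk
    · exact absurd ((dvd_pow_self 2 (Nat.succ_ne_zero k)).trans h2) hy
  have h2 : y ∈ (SemidirectProduct.inl : V →* G).range := by
    rw [SemidirectProduct.range_inl_eq_ker_rightHom]; exact h1
  exact h2

theorem t_e : t (Multiplicative.ofAdd (1, 0)) = Multiplicative.ofAdd (1, 0) := by decide

theorem τ_comm : τ * SemidirectProduct.inl (Multiplicative.ofAdd (1, 0)) =
    SemidirectProduct.inl (Multiplicative.ofAdd (1, 0)) * τ := by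
  have h1 := SemidirectProduct.inl_aut (φ := Q.subtype) ⟨t, t_mem⟩ (Multiplicative.ofAdd (1, 0))
  have h2 : (Q.subtype ⟨t, t_mem⟩) (Multiplicative.ofAdd (1, 0)) = t (Multiplicative.ofAdd (1, 0)) := rfl
  rw [h2, t_e, map_inv] at h1
  have h3 : (SemidirectProduct.inr ⟨t, t_mem⟩ : G) = τ := rfl
  rw [h3, eq_mul_inv_iff_mul_eq] at h1
  exact h1.symm

theorem exists_comm (v : V) : ∃ r ∈ R, τ * (r * SemidirectProduct.inl v * r⁻¹) =
    (r * SemidirectProduct.inl v * r⁻¹) * τ := by
  by_cases hv : v = 1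
  · refine ⟨1, one_mem _, ?_⟩
    rw [hv, map_one]
    group
  · obtain ⟨k, hk⟩ := trans v hv
    have hs : (s ^ (k : ℕ)) ∈ Q := Subgroup.pow_mem _ s_mem _
    refine ⟨SemidirectProduct.inr ⟨_, hs⟩⁻¹, ⟨_, rfl⟩, ?_⟩
    have h1 := SemidirectProduct.inl_aut (φ := Q.subtype) ⟨_, hs⟩ (Multiplicative.ofAdd (1, 0))
    have h2 : (Q.subtype ⟨_, hs⟩) (Multiplicative.ofAdd (1, 0)) = v := hk
    rw [h2] at h1
    have h3 : (SemidirectProduct.inr (⟨_, hs⟩ : Q)⁻¹ * SemidirectProduct.inl v *
        (SemidirectProduct.inr (⟨_, hs⟩ : Q)⁻¹)⁻¹ : G) =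
        SemidirectProduct.inl (Multiplicative.ofAdd (1, 0)) := by
      rw [h1, map_inv]; group
    rw [h3, τ_comm]

theorem main (c : G) : ∃ g : G, IsConj c g ∧
    ((Subgroup.zpowers τ).subgroupOf (Subgroup.zpowers τ ⊔ Subgroup.zpowers g)).IsSubnormal := by
  obtain ⟨x, y, hxy, hcomm, -, -, hx, hy⟩ :=
    Cfsg.Agent.Blocks.RegularCount.exists_pPart (p := 2) c
  obtain ⟨g, hg⟩ := exists_conj x hx
  have hy' : ¬ 2 ∣ orderOf (g * y * g⁻¹) := by
    rwa [show g * y * g⁻¹ = (MulAut.conj g) y from rfl, MulEquiv.orderOf_eq]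
  obtain ⟨v, hv⟩ := mem_ker _ hy'
  obtain ⟨r, hr, hrc⟩ := exists_comm v
  rw [hv] at hrc
  refine ⟨(r * g) * c * (r * g)⁻¹, isConj_iff.mpr ⟨r * g, rfl⟩, ?_⟩
  set y₂ : G := r * (g * y * g⁻¹) * r⁻¹ with hy₂
  set x₂ : G := r * (g * x * g⁻¹) * r⁻¹ with hx₂
  have hc : (r * g) * c * (r * g)⁻¹ = x₂ * y₂ := by
    rw [← hxy, hx₂, hy₂]; group
  have hxR : x₂ ∈ R := R.mul_mem (R.mul_mem hr hg) (R.inv_mem hr)
  have hxy₂ : x₂ * y₂ = y₂ * x₂ := by
    have : x₂ * y₂ = r * g * (x * y) * (r * g)⁻¹ := by rw [hx₂, hy₂]; group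
    rw [this, hcomm.eq, hx₂, hy₂]; group
  refine Cfsg.Agent.H568.Sn.subnormal_of_normalized (p := 2)
    (R := R ⊓ Subgroup.centralizer {y₂}) ?_ ?_ ?_
  · exact R_pgroup.to_le inf_le_left
  · rw [Subgroup.zpowers_le]
    exact ⟨⟨_, rfl⟩, Subgroup.mem_centralizer_singleton_iff.mpr hrc⟩
  · rw [hc]
    refine sup_le ?_ ?_
    · refine le_trans ?_ Subgroup.le_normalizer
      rw [Subgroup.zpowers_le]
      exact ⟨⟨_, rfl⟩, Subgroup.mem_centralizer_singleton_iff.mpr hrc⟩
    · rw [Subgroup.zpowers_le]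
      refine Subgroup.mul_mem _ (Subgroup.le_normalizer ⟨hxR, ?_⟩) ?_
      · exact Subgroup.mem_centralizer_singleton_iff.mpr hxy₂
      · refine Subgroup.centralizer_le_normalizer _ ?_
        rw [Subgroup.mem_centralizer_iff]
        rintro h ⟨-, hh⟩
        exact Subgroup.mem_centralizer_singleton_iff.mp hh

/-- There is a finite solvable group G with a subgroup A of order 2 such that every conjugacy class of G contains an element g for which A is subnormal in the subgroup generated by A and g, and yet A is not contained in O_2(G). (So the corresponding criteria for odd primes fail at the prime 2, even for solvable groups.) -/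
theorem result :
    ∃ (G : Type) (_ : Group G) (_ : Finite G) (A : Subgroup G), Group.IsSolvable G ∧ Nat.card A = 2 ∧
      (∀ c : G, ∃ g : G, IsConj c g ∧ (A.subgroupOf (A ⊔ Subgroup.zpowers g)).IsSubnormal) ∧
      ¬ A ≤ Cfsg.pCore 2 G :=
  ⟨G, inferInstance, instFiniteG, Subgroup.zpowers τ, solvable, card_A, main, not_le⟩

end Cfsg.Agent.S4331
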