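import Cfsg.Statements.S4332
import Cfsg.Agent.H568.Sn

set_option autoImplicit false
open Pointwise
open Cfsg

namespace Cfsg.Agent.S4332

open Equiv Equiv.Perm

def s0 : Perm (Fin 8) := c[0,1,2]

def tab : List (Multiset ℕ × Perm (Fin 8)) := [
  (0, 1),
  ({2}, c[0,1]),
  ({3}, c[0,1,2]),
  ({4}, c[3,4,5,6]),
  ({5}, c[3,4,5,6,7]),
  ({6}, c[0,3,1,4,2,5]),
  ({7}, c[0,3,1,4,2,5,6]),
  ({8}, c[0,3,1,4,2,5,6,7]),
  ({2,2}, c[3,4] * c[5,6]),
  ({2,3}, c[0,1,2] * c[3,4]),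
  ({2,4}, c[0,1] * c[3,4,5,6]),
  ({2,5}, c[0,1] * c[3,4,5,6,7]),
  ({2,6}, c[0,3,1,4,2,5] * c[6,7]),
  ({3,3}, c[0,1,2] * c[3,4,5]),
  ({3,4}, c[0,1,2] * c[3,4,5,6]),
  ({3,5}, c[0,1,2] * c[3,4,5,6,7]),
  ({4,4}, c[0,3,1,4] * c[2,5,6,7]),
  ({2,2,2}, c[0,1] * c[3,4] * c[5,6]),
  ({2,2,3}, c[0,1,2] * c[3,4] * c[5,6]),
  ({2,2,4}, c[0,3] * c[1,4] * c[2,5,6,7]),
  ({2,3,3}, c[0,1,2] * c[3,4,5] * c[6,7]),
  ({2,2,2,2}, c[0,3] * c[1,4] * c[2,5] * c[6,7])]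

set_option maxRecDepth 100000 in
theorem tab_ok : ∀ x ∈ tab, x.2.cycleType = x.1 ∧
    s0 * (x.2 * s0 * x.2⁻¹) = (x.2 * s0 * x.2⁻¹) * s0 := by decide

set_option maxRecDepth 100000 in
theorem mem_tab (m : Multiset ℕ) (h2 : ∀ x ∈ m, 2 ≤ x) (hs : m.sum ≤ 8) : ∃ x ∈ tab, x.1 = m := by
  rcases m.empty_or_exists_mem with rfl | ⟨a, ha⟩
  · exact ⟨(0, 1), by simp [tab], rfl⟩
  obtain ⟨m, rfl⟩ := Multiset.exists_cons_of_mem ha
  have ha2 := h2 a ha
  rw [Multiset.sum_cons] at hs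
  rcases m.empty_or_exists_mem with rfl | ⟨b, hb⟩
  · rw [Multiset.sum_zero] at hs
    have : a ≤ 8 := by omega
    clear h2 ha hs
    interval_cases a <;> decide
  obtain ⟨m, rfl⟩ := Multiset.exists_cons_of_mem hb
  have hb2 := h2 b (Multiset.mem_cons_of_mem hb)
  rw [Multiset.sum_cons] at hs
  rcases m.empty_or_exists_mem with rfl | ⟨e, he⟩
  · rw [Multiset.sum_zero] at hs
    have h3 : a ≤ 6 := by omega
    have h4 : b ≤ 6 := by omega
    clear h2 ha hb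
    interval_cases a <;> interval_cases b <;> first | omega | decide
  obtain ⟨m, rfl⟩ := Multiset.exists_cons_of_mem he
  have he2 := h2 e (Multiset.mem_cons_of_mem (Multiset.mem_cons_of_mem he))
  rw [Multiset.sum_cons] at hs
  rcases m.empty_or_exists_mem with rfl | ⟨f, hf⟩
  · rw [Multiset.sum_zero] at hs
    have h3 : a ≤ 4 := by omega
    have h4 : b ≤ 4 := by omega
    have h5 : e ≤ 4 := by omega
    clear h2 ha hb he
    interval_cases a <;> interval_cases b <;> interval_cases e <;> first | omega | decide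
  obtain ⟨m, rfl⟩ := Multiset.exists_cons_of_mem hf
  have hf2 := h2 f (Multiset.mem_cons_of_mem (Multiset.mem_cons_of_mem (Multiset.mem_cons_of_mem hf)))
  rw [Multiset.sum_cons] at hs
  obtain rfl : a = 2 := by omega
  obtain rfl : b = 2 := by omega
  obtain rfl : e = 2 := by omega
  obtain rfl : f = 2 := by omega
  rcases m.empty_or_exists_mem with rfl | ⟨g, hg⟩
  · decide
  · obtain ⟨m, rfl⟩ := Multiset.exists_cons_of_mem hg
    have := h2 g (by simp)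
    rw [Multiset.sum_cons] at hs
    omega

theorem exists_good (σ : Perm (Fin 8)) (hσ : σ.IsThreeCycle) (c : Perm (Fin 8)) :
    ∃ g : Perm (Fin 8), IsConj c g ∧ Commute σ (g * σ * g⁻¹) := by
  have h0 : s0.cycleType = {3} := (tab_ok ({3}, c[0,1,2]) (by simp [tab])).1
  have h1 : IsConj s0 σ := by
    rw [isConj_iff_cycleType_eq, h0]; exact hσ.symm
  obtain ⟨h, hh⟩ := isConj_iff.mp h1
  obtain ⟨x, hx, hxc⟩ := mem_tab c.cycleType (fun _ hx => two_le_of_mem_cycleType hx)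
    (by rw [sum_cycleType]; exact (Finset.card_le_univ _).trans (by simp))
  obtain ⟨h2, h3⟩ := tab_ok x hx
  refine ⟨h * x.2 * h⁻¹, ?_, ?_⟩
  · rw [isConj_iff_cycleType_eq, cycleType_conj, h2, hxc]
  · have h4 : h * x.2 * h⁻¹ * σ * (h * x.2 * h⁻¹)⁻¹ = h * (x.2 * s0 * x.2⁻¹) * h⁻¹ := by
      rw [← hh]; group
    rw [h4, ← hh, commute_iff_eq]
    calc h * s0 * h⁻¹ * (h * (x.2 * s0 * x.2⁻¹) * h⁻¹) = h * (s0 * (x.2 * s0 * x.2⁻¹)) * h⁻¹ := by
          group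
      _ = h * (x.2 * s0 * x.2⁻¹) * h⁻¹ * (h * s0 * h⁻¹) := by rw [h3]; group

theorem zpowers_pgroup (σ : Perm (Fin 8)) (hσ : σ.IsThreeCycle) :
    IsPGroup 3 (Subgroup.zpowers σ) :=
  IsPGroup.of_card (n := 1) (by rw [Nat.card_zpowers, hσ.orderOf, pow_one])

theorem core_eq_bot : Cfsg.pCore 3 (Perm (Fin 8)) = ⊥ := by
  by_contra hne
  have hn := Cfsg.Agent.Lib.Cores.pCore_normal (G := Perm (Fin 8)) 3
  have hp := Cfsg.Agent.Lib.Cores.pCore_isPGroup (G := Perm (Fin 8)) 3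
  have h1 := Equiv.Perm.alternatingGroup_le_of_normal (α := Fin 8) (by simp)
    ((Subgroup.nontrivial_iff_ne_bot _).mpr hne)
  have h2 : (swap 0 1 * swap 2 3 : Perm (Fin 8)) ∈ alternatingGroup (Fin 8) := by
    rw [mem_alternatingGroup]; decide
  obtain ⟨k, hk⟩ := hp ⟨_, h1 h2⟩
  have hk' : (swap 0 1 * swap 2 3 : Perm (Fin 8)) ^ 3 ^ k = 1 := congrArg Subtype.val hk
  have h3 : (swap 0 1 * swap 2 3 : Perm (Fin 8)) ^ 2 = 1 := by decide
  have h4 := orderOf_dvd_of_pow_eq_one hk'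
  have h5 := orderOf_dvd_of_pow_eq_one h3
  have h6 : Nat.Coprime (3 ^ k) 2 := by
    apply Nat.Coprime.pow_left; norm_num
  have h7 := Nat.eq_one_of_dvd_coprimes h6 h4 h5
  rw [orderOf_eq_one_iff] at h7
  exact absurd h7 (by decide)

/-- In the symmetric group of degree 8, let A be the subgroup generated by a 3-cycle. Then every conjugacy class contains an element g for which A is subnormal in the subgroup generated by A and its conjugate by g, although O_3 of the symmetric group of degree 8 is trivial. -/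
theorem result
    (σ : Equiv.Perm (Fin 8)) (hσ : σ.IsThreeCycle) :
    (∀ c : Equiv.Perm (Fin 8), ∃ g : Equiv.Perm (Fin 8), IsConj c g ∧
      ((Subgroup.zpowers σ).subgroupOf (Subgroup.zpowers σ ⊔ MulAut.conj g • Subgroup.zpowers σ)).IsSubnormal) ∧
    Cfsg.pCore 3 (Equiv.Perm (Fin 8)) = ⊥ := by
  refine ⟨fun c => ?_, core_eq_bot⟩
  obtain ⟨g, hg, hc⟩ := exists_good σ hσ c
  refine ⟨g, hg, Cfsg.Agent.H568.Sn.subnormal_of_normalized (p := 3) (zpowers_pgroup σ hσ)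
    le_rfl (sup_le Subgroup.le_normalizer ?_)⟩
  intro y hy
  rw [Subgroup.mem_pointwise_smul_iff_inv_smul_mem] at hy
  obtain ⟨k, hk⟩ := hy
  have hk' : σ ^ k = g⁻¹ * y * g := by
    have h2 : (MulAut.conj g)⁻¹ • y = g⁻¹ * y * g := by
      rw [← map_inv]
      change g⁻¹ * y * g⁻¹⁻¹ = _
      rw [inv_inv]
    rw [← h2]; exact hk
  have hy : y = (g * σ * g⁻¹) ^ k := by
    rw [conj_zpow, hk']; group
  refine Subgroup.centralizer_le_normalizer _ ?_
  rw [Subgroup.mem_centralizer_iff]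
  rintro z ⟨l, rfl⟩
  rw [hy]
  exact (hc.zpow_zpow l k)

end Cfsg.Agent.S4332
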