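import Cfsg.Statements.S4337
import Cfsg.Agent.S0144

set_option autoImplicit false
open Cfsg

namespace Cfsg.Agent.S4337

open Equiv

/-- Symmetric groups of degree at most 4 are solvable. -/
theorem isSolvable_perm_le_four (α : Type*) [Finite α] (h : Nat.card α ≤ 4) :
    Group.IsSolvable (Equiv.Perm α) := by
  have h1 : Nat.card (Equiv.Perm α) = (Nat.card α).factorial := Nat.card_perm
  have h2 : Nat.card α = 0 ∨ Nat.card α = 1 ∨ Nat.card α = 2 ∨ Nat.card α = 3 ∨ Nat.card α = 4 := by omega
  have key : ∃ a b : ℕ, Nat.card (Equiv.Perm α) = 2 ^ a * 3 ^ b := by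
    rcases h2 with h | h | h | h | h
    · exact ⟨0, 0, by rw [h1, h]; rfl⟩
    · exact ⟨0, 0, by rw [h1, h]; rfl⟩
    · exact ⟨1, 0, by rw [h1, h]; rfl⟩
    · exact ⟨1, 1, by rw [h1, h]; rfl⟩
    · exact ⟨3, 1, by rw [h1, h]; rfl⟩
  obtain ⟨a, b, hab⟩ := key
  exact Cfsg.Agent.S0144.result 2 3 a b Nat.prime_two Nat.prime_three hab

/-- A subgroup all of whose elements move only points of a set with at most four elements is solvable. -/
theorem solvable_of_support {n : ℕ} (T : Finset (Fin n)) (hT : T.card ≤ 4) (H : Subgroup (Perm (Fin n)))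
    (hH : ∀ g ∈ H, ∀ x, x ∉ T → g x = x) : Group.IsSolvable H := by
  classical
  have hsol : Group.IsSolvable (Perm {x // x ∈ T}) := isSolvable_perm_le_four _ (by
    rw [Nat.card_eq_fintype_card, Fintype.card_coe]; exact hT)
  have hp : ∀ g ∈ H, ∀ x, g x ∈ T ↔ x ∈ T := by
    intro g hg x
    constructor
    · intro h
      by_contra hx
      rw [hH g hg x hx] at h
      exact hx h
    · intro h
      by_contra hx
      have h1 := hH g⁻¹ (inv_mem hg) (g x) hx
      rw [← Perm.mul_apply, inv_mul_cancel, Perm.one_apply] at h1
      rw [← h1] at hx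
      exact hx h
  let f : ↥H →* Perm {x // x ∈ T} :=
    { toFun := fun h => (h : Perm (Fin n)).subtypePerm (hp h h.2)
      map_one' := by ext y; rfl
      map_mul' := fun a b => by ext y; rfl }
  refine Group.isSolvable_of_isSolvable_injective (f := f) ?_
  intro a b hab
  apply Subtype.ext
  ext x
  by_cases hx : x ∈ T
  · have := congrArg (fun φ : Perm {x // x ∈ T} => ((φ ⟨x, hx⟩ : {x // x ∈ T}) : Fin n)) hab
    exact congrArg Fin.val this
  · rw [hH a a.2 x hx, hH b b.2 x hx]

theorem solvable_closure {n : ℕ} (T : Finset (Fin n)) (hT : T.card ≤ 4) (S : Set (Perm (Fin n)))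
    (hS : ∀ g ∈ S, ∀ x, x ∉ T → g x = x) : Group.IsSolvable (Subgroup.closure S) := by
  apply solvable_of_support T hT
  intro g hg
  induction hg using Subgroup.closure_induction with
  | mem x hx => exact hS x hx
  | one => intro x _; rfl
  | mul x y _ _ hx hy => intro z hz; rw [Perm.mul_apply, hy z hz, hx z hz]
  | inv x _ hx => intro z hz; rw [Perm.inv_eq_iff_eq]; exact (hx z hz).symm

/-- adding an element commuting with the generators -/
theorem solvable_insert {G : Type*} [Group G] (S : Set G) (c : G) (hS : Group.IsSolvable (Subgroup.closure S))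
    (hc : ∀ s ∈ S, Commute c s) : Group.IsSolvable (Subgroup.closure (insert c S)) := by
  set K := Subgroup.closure S with hK
  have hcK : ∀ k ∈ K, Commute c k := by
    intro k hk
    induction hk using Subgroup.closure_induction with
    | mem x hx => exact hc x hx
    | one => exact Commute.one_right c
    | mul x y _ _ hx hy => exact hx.mul_right hy
    | inv x _ hx => exact hx.inv_right
  have hcomm : ∀ (x : Subgroup.zpowers c) (y : K), Commute (x : G) (y : G) := by
    rintro ⟨x, hx⟩ ⟨y, hy⟩
    obtain ⟨k, rfl⟩ := Subgroup.mem_zpowers_iff.1 hx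
    exact (hcK y hy).zpow_left k
  let f : (Subgroup.zpowers c) × K →* G :=
    MonoidHom.noncommCoprod (Subgroup.zpowers c).subtype K.subtype hcomm
  have hrange : Subgroup.closure (insert c S) ≤ f.range := by
    rw [Subgroup.closure_le]
    intro x hx
    rcases hx with rfl | hx
    · exact ⟨(⟨x, Subgroup.mem_zpowers x⟩, 1), mul_one x⟩
    · exact ⟨(1, ⟨x, Subgroup.subset_closure hx⟩), one_mul x⟩
  have : Group.IsSolvable (Subgroup.zpowers c) := Group.isSolvable_of_comm (by
    rintro ⟨a, ha⟩ ⟨b, hb⟩
    obtain ⟨i, rfl⟩ := Subgroup.mem_zpowers_iff.1 ha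
    obtain ⟨j, rfl⟩ := Subgroup.mem_zpowers_iff.1 hb
    exact Subtype.ext (by
      show c ^ i * c ^ j = c ^ j * c ^ i
      rw [← zpow_add, ← zpow_add, add_comm]))
  have : Group.IsSolvable f.range := Group.isSolvable_of_surjective f.rangeRestrict_surjective
  exact Group.isSolvable_of_isSolvable_injective (Subgroup.inclusion_injective hrange)

theorem isSwap_support {n : ℕ} {a : Perm (Fin n)} (ha : a.IsSwap) : a.support.card = 2 :=
  Perm.card_support_eq_two.2 ha

theorem solvable_of_disjoint {n : ℕ} (a b c : Perm (Fin n)) (ha : a.IsSwap) (hb : b.IsSwap)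
    (hca : Disjoint c.support a.support) (hcb : Disjoint c.support b.support) :
    Group.IsSolvable (Subgroup.closure ({c, a, b} : Set (Perm (Fin n)))) := by
  classical
  refine solvable_insert {a, b} c (solvable_closure (a.support ∪ b.support) ?_ _ ?_) ?_
  · have h1 := Finset.card_union_le a.support b.support
    rw [isSwap_support ha, isSwap_support hb] at h1
    exact h1
  · intro g hg x hx
    rw [Finset.mem_union, not_or] at hx
    rcases hg with rfl | rfl
    · exact Perm.notMem_support.1 hx.1
    · exact Perm.notMem_support.1 hx.2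
  · intro s hs
    rcases hs with rfl | rfl
    · exact (Perm.disjoint_iff_disjoint_support.2 hca).commute
    · exact (Perm.disjoint_iff_disjoint_support.2 hcb).commute

/-- In a finite symmetric group, any three transpositions generate a solvable subgroup. -/
theorem result (n : ℕ) (a b c : Equiv.Perm (Fin n))
    (ha : a.IsSwap) (hb : b.IsSwap) (hc : c.IsSwap) :
    Group.IsSolvable (Subgroup.closure ({a, b, c} : Set (Equiv.Perm (Fin n)))) := by
  classical
  have h2a := isSwap_support ha
  have h2b := isSwap_support hb
  have h2c := isSwap_support hc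
  by_cases hT : (a.support ∪ b.support ∪ c.support).card ≤ 4
  · apply solvable_closure _ hT
    intro g hg x hx
    simp only [Finset.mem_union, not_or] at hx
    rcases hg with rfl | rfl | rfl
    · exact Perm.notMem_support.1 hx.1.1
    · exact Perm.notMem_support.1 hx.1.2
    · exact Perm.notMem_support.1 hx.2
  · push Not at hT
    have key : ∀ A B C : Finset (Fin n), A.card = 2 → B.card = 2 → C.card = 2 →
        4 < (A ∪ B ∪ C).card → ¬ Disjoint A B → Disjoint C A ∧ Disjoint C B := by
      intro A B C hA hB hC h4 hAB
      have h1 : (A ∩ B).card ≠ 0 := by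
        rw [Finset.card_ne_zero, ← Finset.not_disjoint_iff_nonempty_inter]
        exact hAB
      have h2 := Finset.card_union_add_card_inter A B
      have h3 := Finset.card_union_add_card_inter (A ∪ B) C
      have h5 : ((A ∪ B) ∩ C).card = 0 := by omega
      rw [Finset.card_eq_zero, ← Finset.disjoint_iff_inter_eq_empty, Finset.disjoint_union_left] at h5
      exact ⟨h5.1.symm, h5.2.symm⟩
    by_cases hab : Disjoint a.support b.support
    · by_cases hac : Disjoint a.support c.support
      · exact solvable_of_disjoint b c a hb hc hab hac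
      · have h := key a.support c.support b.support h2a h2c h2b (by
          rwa [Finset.union_right_comm]) hac
        have := solvable_of_disjoint a c b ha hc h.1 h.2
        have e : ({a, b, c} : Set (Perm (Fin n))) = {b, a, c} := Set.insert_comm _ _ _
        rwa [e]
    · have h := key a.support b.support c.support h2a h2b h2c hT hab
      have := solvable_of_disjoint a b c ha hb h.1 h.2
      have e : ({a, b, c} : Set (Perm (Fin n))) = {c, a, b} := by
        rw [Set.insert_comm c a, Set.pair_comm c b]
      rwa [e]

end Cfsg.Agent.S4337
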