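import Cfsg.Statements.S4340
import Cfsg.Agent.H570.List
import Cfsg.Agent.OrdDiv.Table
import Cfsg.Agent.S0000

set_option autoImplicit false
open Cfsg

namespace Cfsg.Agent.S4340

/-- Let S be a finite non-abelian simple group and p a prime dividing its order. Then S has fewer than p² Sylow p-subgroups if and only if one of the following holds: S is isomorphic to PSL(2, p); or p = 13 and S is isomorphic to PSL(3, 3); or p > 3, p - 1 is a power of 2 and S is isomorphic to PSL(2, p - 1); or p > 3, p + 1 is a power of 2 and S is isomorphic to PSL(2, p + 1). -/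
theorem result {S : Type*} [Group S] [Finite S] [IsSimpleGroup S]
    (hS : ¬ IsMulCommutative S) (p : ℕ) [Fact p.Prime] (hp : p ∣ Nat.card S) :
    Nat.card (Sylow p S) < p ^ 2 ↔
      ((∃ (F : Type) (_ : Field F) (_ : Fintype F), Fintype.card F = p ∧
          Nonempty (S ≃* Matrix.ProjectiveSpecialLinearGroup (Fin 2) F)) ∨
       (p = 13 ∧ ∃ (F : Type) (_ : Field F) (_ : Fintype F), Fintype.card F = 3 ∧
          Nonempty (S ≃* Matrix.ProjectiveSpecialLinearGroup (Fin 3) F)) ∨
       (3 < p ∧ (∃ k : ℕ, p = 2 ^ k + 1) ∧ ∃ (F : Type) (_ : Field F) (_ : Fintype F), Fintype.card F = p - 1 ∧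
          Nonempty (S ≃* Matrix.ProjectiveSpecialLinearGroup (Fin 2) F)) ∨
       (3 < p ∧ (∃ k : ℕ, p + 1 = 2 ^ k) ∧ ∃ (F : Type) (_ : Field F) (_ : Fintype F), Fintype.card F = p + 1 ∧
          Nonempty (S ≃* Matrix.ProjectiveSpecialLinearGroup (Fin 2) F))) :=
  H570.List.iff_list OrdDiv.table (fun _ _ _ _ => S0000.result) S hS hp

end Cfsg.Agent.S4340
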