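import Cfsg.Statements.S4345
import Cfsg.Agent.H571.SylowParts

set_option autoImplicit false
open Cfsg

namespace Cfsg.Agent.S4345

/-- Let G be a finite solvable group and p, ℓ primes. Then the largest power of ℓ dividing the number of Sylow p-subgroups of G is congruent to 1 modulo p. -/
theorem result {G : Type*} [Group G] [Finite G]
    (hG : Group.IsSolvable G) (p ℓ : ℕ) [Fact p.Prime] (hℓ : ℓ.Prime) :
    ℓ ^ (Nat.card (Sylow p G)).factorization ℓ ≡ 1 [MOD p] :=
  H571.SylowParts.good_of_isSolvable p (Nat.card G) G rfl ℓ hℓ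

end Cfsg.Agent.S4345
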