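import Cfsg.Statements.S4346
import Cfsg.Agent.H571.TwentyTwoB
import Cfsg.Agent.S0025
import Cfsg.Agent.SmallSimple.SylowSub

set_option autoImplicit false
open Cfsg

namespace Cfsg.Agent.S4346

open H571.SylowNumber H571.TwentyTwo

/-- If `K` is a normal 3'-subgroup and `G = PK`, then `n_3(G) ≠ 22`. -/
theorem ne_of_coprime {G : Type*} [Group G] [Finite G] (P : Sylow 3 G) (K : Subgroup G) [K.Normal]
    (hK : ¬ 3 ∣ Nat.card K) (hPK : (P : Subgroup G) ⊔ K = ⊤) : Nat.card (Sylow 3 G) ≠ 22 := by
  intro hn
  have hf2 : Fact (Nat.Prime 2) := ⟨by norm_num⟩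
  -- `n_3(G) = |K : N_K(P)|`
  have hPn : (P : Subgroup G) ≤ Subgroup.normalizer ((P : Subgroup G) : Set G) :=
    Subgroup.le_normalizer
  have hKn : K.Normal := inferInstance
  have hcopPK : (Nat.card (P : Subgroup G)).Coprime (Nat.card K) := by
    obtain ⟨n, hn⟩ := IsPGroup.iff_card.1 P.isPGroup'
    rw [hn]
    exact Nat.Coprime.pow_left _ ((Nat.Prime.coprime_iff_not_dvd (by norm_num)).2 hK)
  have hdisj : (P : Subgroup G) ⊓ K = ⊥ := (Subgroup.disjoint_of_coprime_natCard hcopPK).eq_bot
  -- `N_K(P) = C_K(P)`
  set C := K ⊓ Subgroup.normalizer ((P : Subgroup G) : Set G) with hC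
  have hCP : ∀ c ∈ C, ∀ x ∈ (P : Subgroup G), c * x = x * c := by
    rintro c ⟨hcK, hcN⟩ x hx
    have h1 : c * x * c⁻¹ * x⁻¹ ∈ (P : Subgroup G) :=
      (P : Subgroup G).mul_mem ((Subgroup.mem_normalizer_iff.1 hcN x).1 hx)
        ((P : Subgroup G).inv_mem hx)
    have h2 : c * x * c⁻¹ * x⁻¹ ∈ K := by
      have h3 : c * x * c⁻¹ * x⁻¹ = c * (x * c⁻¹ * x⁻¹) := by group
      rw [h3]
      exact K.mul_mem hcK (hKn.conj_mem _ (K.inv_mem hcK) x)
    have h3 : c * x * c⁻¹ * x⁻¹ ∈ (P : Subgroup G) ⊓ K := ⟨h1, h2⟩
    rw [hdisj, Subgroup.mem_bot] at h3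
    have h4 : c * x = (c * x * c⁻¹ * x⁻¹) * (x * c) := by group
    rw [h4, h3, one_mul]
  set NP := Subgroup.normalizer ((P : Subgroup G) : Set G) with hNP
  have hidx : NP.relIndex K = 22 := by
    have h1 : NP ⊔ K = ⊤ := by
      rw [eq_top_iff, ← hPK]
      exact sup_le_sup_right hPn K
    have h2 := relIndex_sup_of_normal NP K
    rw [h1, Subgroup.relIndex_top_right] at h2
    have h0 : Nat.card (Sylow 3 G) = NP.index := P.card_eq_index_normalizer
    rw [← h2, ← h0, hn]
  have hKcard : Nat.card K = 22 * Nat.card C := by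
    have h1 := SmallSimple.SylowSub.card_inf_mul_relIndex NP K
    rw [hidx, inf_comm] at h1
    rw [← h1, mul_comm]
  -- a Sylow 2-subgroup `R` of `C`, contained in a `P`-invariant Sylow 2-subgroup of `K`
  obtain ⟨R⟩ : Nonempty (Sylow 2 C) := inferInstance
  set R' := (R : Subgroup C).map C.subtype with hR'
  have hR'C : R' ≤ C := Subgroup.map_subtype_le _
  have hCK : C ≤ K := inf_le_left
  obtain ⟨Q, hRQ, hPQ⟩ := S0025.result (P : Subgroup G) K
    (by rw [Subgroup.normalizer_eq_top]; exact le_top) hcopPK
    (Or.inl (by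
      have : Group.IsNilpotent (P : Subgroup G) := P.isPGroup'.isNilpotent
      infer_instance)) 2 R' (hR'C.trans hCK) (R.isPGroup'.map _) (by
      intro x hx
      rw [Subgroup.mem_normalizer_iff]
      intro r
      constructor
      · intro hr
        rw [← hCP r (hR'C hr) x hx, mul_inv_cancel_right]
        exact hr
      · intro hr
        have h1 := hCP _ (hR'C hr) x hx
        have h2 : x * r * x⁻¹ = r := by
          have h3 : x * (x * r * x⁻¹) = x * r := by
            rw [← h1]
            group
          exact mul_left_cancel h3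
        rwa [h2] at hr)
  set Q' := (Q : Subgroup K).map K.subtype with hQ'
  have hQ'K : Q' ≤ K := Subgroup.map_subtype_le _
  have hcardR : Nat.card R' = 2 ^ (Nat.card C).factorization 2 := by
    rw [hR', Subgroup.card_map_of_injective C.subtype_injective]
    exact R.card_eq_multiplicity
  have hcardQ : Nat.card Q' = 2 ^ (Nat.card K).factorization 2 := by
    rw [hQ', Subgroup.card_map_of_injective K.subtype_injective]
    exact Q.card_eq_multiplicity
  have hfact : (Nat.card K).factorization 2 = (Nat.card C).factorization 2 + 1 := by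
    rw [hKcard, Nat.factorization_mul (by norm_num) Nat.card_pos.ne', Finsupp.add_apply, add_comm]
    congr 1
    rw [show 22 = 2 * 11 from rfl, Nat.factorization_mul (by norm_num) (by norm_num),
      Finsupp.add_apply, Nat.Prime.factorization_self (by norm_num),
      Nat.factorization_eq_zero_of_not_dvd (by norm_num)]
  -- `|C ∩ Q'| = |R'|`
  have hCQ : C ⊓ Q' = R' := by
    symm
    apply Subgroup.eq_of_le_of_card_ge (le_inf hR'C hRQ)
    have h1 : IsPGroup 2 ((C ⊓ Q').subgroupOf C) := by
      have h2 : IsPGroup 2 (C ⊓ Q' : Subgroup G) :=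
        (Q.isPGroup'.map K.subtype).to_le inf_le_right
      exact h2.comap_of_injective C.subtype C.subtype_injective
    obtain ⟨S, hS⟩ := h1.exists_le_sylow
    have h2 : Nat.card ((C ⊓ Q').subgroupOf C) ≤ Nat.card (S : Subgroup C) :=
      Subgroup.card_le_of_le hS
    have h3 : Nat.card ((C ⊓ Q').subgroupOf C) = Nat.card (C ⊓ Q' : Subgroup G) :=
      Nat.card_congr (Subgroup.subgroupOfEquivOfLe inf_le_left).toEquiv
    rw [h3] at h2
    rw [hcardR]
    exact h2.trans_eq S.card_eq_multiplicity
  have horb : Nat.card (MulAction.orbit Q' P) = 2 := by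
    have h0 : (MulAction.orbit Q' P).ncard = (MulAction.stabilizer Q' P).index :=
      (MulAction.index_stabilizer Q' P).symm
    have h1 : MulAction.stabilizer Q' P = NP.subgroupOf Q' := by
      ext x
      rw [MulAction.mem_stabilizer_iff, Subgroup.mem_subgroupOf]
      exact Sylow.smul_eq_iff_mem_normalizer (g := (x : G)) (P := P)
    rw [Nat.card_coe_set_eq, h0, h1]
    have h2 := SmallSimple.SylowSub.card_inf_mul_relIndex NP Q'
    have h3 : NP ⊓ Q' = R' := by
      rw [← hCQ]
      apply le_antisymm
      · exact le_inf (le_inf (inf_le_right.trans hQ'K) inf_le_left) inf_le_right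
      · exact le_inf (inf_le_left.trans inf_le_right) inf_le_right
    rw [h3, hcardR, hcardQ, hfact, pow_succ] at h2
    exact Nat.eq_of_mul_eq_mul_left (pow_pos (by norm_num) _) h2
  -- `P` acts on this orbit with just one fixed point
  let S : SubMulAction (P : Subgroup G) (Sylow 3 G) :=
    { carrier := MulAction.orbit Q' P
      smul_mem' := by
        rintro x _ ⟨q, rfl⟩
        have h1 : (x : G) * (q : G) * (x : G)⁻¹ ∈ Q' :=
          (Subgroup.mem_normalizer_iff.1 (hPQ x.2) q).1 q.2
        refine ⟨⟨_, h1⟩, ?_⟩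
        show ((x : G) * (q : G) * (x : G)⁻¹) • P = (x : G) • (q : G) • P
        have h2 : (x : G)⁻¹ • P = P :=
          Sylow.smul_eq_iff_mem_normalizer.2 (hPn ((P : Subgroup G).inv_mem x.2))
        rw [mul_smul, h2, mul_smul] }
  have h2 : Nat.card S ≡ Nat.card (MulAction.fixedPoints (P : Subgroup G) S) [MOD 3] :=
    P.isPGroup'.card_modEq_card_fixedPoints S
  have h3 : Nat.card (MulAction.fixedPoints (P : Subgroup G) S) = 1 := by
    rw [Nat.card_eq_one_iff_unique]
    refine ⟨⟨?_⟩, ⟨⟨P, MulAction.mem_orbit_self P⟩, ?_⟩⟩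
    · rintro ⟨⟨R, hR⟩, hR'⟩ ⟨⟨R', hR1⟩, hR1'⟩
      have e1 : P = R := fixed_unique P R (fun x hx => congrArg Subtype.val (hR' ⟨x, hx⟩))
      have e2 : P = R' := fixed_unique P R' (fun x hx => congrArg Subtype.val (hR1' ⟨x, hx⟩))
      subst e1
      subst e2
      rfl
    · intro x
      apply Subtype.ext
      exact Sylow.smul_eq_iff_mem_normalizer.2 (hPn x.2)
  have h4 : Nat.card S = 2 := horb
  rw [h3, h4] at h2
  exact absurd h2 (by decide)

universe u in
theorem main : ∀ (n : ℕ) (G : Type u) [Group G] [Finite G], Nat.card G = n →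
    Nat.card (Sylow 3 G) ≠ 22 := by
  intro n
  induction n using Nat.strong_induction_on with
  | _ n ih =>
    intro G _ _ hG hn
    have hnt : Nontrivial G := by
      by_contra h
      rw [not_nontrivial_iff_subsingleton] at h
      have h1 : Subsingleton (Sylow 3 G) := ⟨fun P Q => Sylow.ext (Subsingleton.elim _ _)⟩
      have h2 : Nat.card (Sylow 3 G) = 1 :=
        Nat.card_eq_one_iff_unique.2 ⟨h1, inferInstance⟩
      omega
    by_cases hs : IsSimpleGroup G
    · apply false_of_simple (G := G) _ hn
      intro hc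
      obtain ⟨P⟩ : Nonempty (Sylow 3 G) := inferInstance
      have h1 : (P : Subgroup G).Normal := by
        constructor
        intro x hx g
        have h2 : g * x = x * g := hc.is_comm.comm g x
        rw [h2, mul_inv_cancel_right]
        exact hx
      have h3 : Nat.card (Sylow 3 G) = 1 := by
        have : (Subgroup.normalizer ((P : Subgroup G) : Set G)).index = 1 := by
          rw [Subgroup.normalizer_eq_top, Subgroup.index_top]
        have h0 : Nat.card (Sylow 3 G) = (Subgroup.normalizer ((P : Subgroup G) : Set G)).index :=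
          P.card_eq_index_normalizer
        rw [h0, this]
      omega
    · -- a proper nontrivial normal subgroup
      obtain ⟨K, hKn, hK1, hK2⟩ : ∃ K : Subgroup G, K.Normal ∧ K ≠ ⊥ ∧ K ≠ ⊤ := by
        by_contra hcon
        push Not at hcon
        apply hs
        refine { exists_pair_ne := hnt.exists_pair_ne, eq_bot_or_eq_top_of_normal := ?_ }
        intro H hH
        by_cases h : H = ⊥
        · exact Or.inl h
        · exact Or.inr (hcon H hH h)
      obtain ⟨P⟩ : Nonempty (Sylow 3 G) := inferInstance
      -- subgroups and quotients are smaller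
      have hsub : ∀ H : Subgroup G, H ≠ ⊤ → Nat.card (Sylow 3 H) ≠ 22 := by
        intro H hH
        refine ih (Nat.card H) ?_ H rfl
        rw [← hG]
        have h1 := H.card_mul_index
        have h2 : H.index ≠ 1 := fun h => hH (Subgroup.index_eq_one.1 h)
        have h3 : H.index ≠ 0 := Subgroup.index_ne_zero_of_finite
        have h4 : 0 < Nat.card H := Nat.card_pos
        rw [← h1]
        have h5 : 2 ≤ H.index := by omega
        nlinarith
      have hquo : ∀ N : Subgroup G, N.Normal → N ≠ ⊥ → ∀ [N.Normal], Nat.card (Sylow 3 (G ⧸ N)) ≠ 22 := by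
        intro N _ hN _
        refine ih (Nat.card (G ⧸ N)) ?_ (G ⧸ N) rfl
        rw [← hG]
        have h2 := N.card_eq_card_quotient_mul_card_subgroup
        have h3 : 1 < Nat.card N := by
          have : Nat.card N ≠ 1 := fun h => hN (Subgroup.card_eq_one.1 h)
          have := Nat.card_pos (α := N)
          omega
        have h4 : 0 < Nat.card (G ⧸ N) := Nat.card_pos
        rw [h2]
        nlinarith
      have h22 : ∀ a b : ℕ, a * b = 22 → a ≡ 1 [MOD 3] → a ≠ 22 → b = 22 := by
        intro a b hab ha ha'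
        rcases eq_one_or_of_dvd (Dvd.intro _ hab) ha with h | h
        · rw [h, one_mul] at hab
          exact hab
        · exact absurd h ha'
      have h1 := card_sylow_eq_mul P K
      rw [hn] at h1
      have h2 : Nat.card (Sylow 3 ((P : Subgroup G) ⊔ K : Subgroup G)) = 22 :=
        h22 _ _ h1.symm (card_sylow_modEq_one 3 _) (hquo K hKn hK1)
      have h3 : (P : Subgroup G) ⊔ K = ⊤ := by
        by_contra h
        exact hsub _ h h2
      set N := ((P : Subgroup G) ⊔ K) ⊓
        Subgroup.normalizer (((P : Subgroup G) ⊓ K : Subgroup G) : Set G) with hN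
      have h4 := card_sylow_sup P K N hN
      rw [h2] at h4
      have h5 : Nat.card (Sylow 3 N) = 22 :=
        h22 _ _ h4.symm (card_sylow_modEq_one 3 _) (hsub K hK2)
      have h6 : N = ⊤ := by
        by_contra h
        exact hsub _ h h5
      have h7 : ((P : Subgroup G) ⊓ K).Normal := by
        rw [← Subgroup.normalizer_eq_top_iff, eq_top_iff, ← h6, hN]
        exact inf_le_right
      have h8 : (P : Subgroup G) ⊓ K = ⊥ := by
        by_contra h
        refine hquo _ h7 h ?_
        rw [← hn]
        symm
        apply card_sylow_of_surjective (QuotientGroup.mk' _) (QuotientGroup.mk'_surjective _)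
        rw [QuotientGroup.ker_mk']
        exact P.isPGroup'.to_le inf_le_left
      -- `K` is a 3'-group
      have h9 : ¬ 3 ∣ Nat.card K := by
        obtain ⟨T, hT⟩ := exists_sylow_inf P K
        intro h
        apply T.ne_bot_of_dvd_card h
        rw [hT, ← Subgroup.inf_subgroupOf_right, h8, Subgroup.bot_subgroupOf]
      exact ne_of_coprime P K h9 h3 hn

/-- No finite group has exactly 22 Sylow 3-subgroups. -/
theorem result {G : Type*} [Group G] [Finite G] : Nat.card (Sylow 3 G) ≠ 22 :=
  main (Nat.card G) G rfl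

end Cfsg.Agent.S4346
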