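import Cfsg.Statements.S4359
import Cfsg.Agent.H574.Sims

set_option autoImplicit false
open Pointwise
open Cfsg

namespace Cfsg.Agent.S4359

/-- Let P be a subgroup of a finite group G and g an element such that P ∩ g⁻¹Pg is a normal subgroup of prime index p in g⁻¹Pg. Let n ≥ 1 and let K be the subgroup generated by P and its conjugates g⁻ⁱPgⁱ for i ≤ n. Suppose that g normalizes no non-identity normal subgroup of P and that P meets the center of K trivially. Then the order of P is pᵗ for some t with 1 ≤ t ≤ 3n and t ≠ 3n - 1. -/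
theorem result {G : Type*} [Group G] [Finite G]
    (P : Subgroup G) (g : G) (p : ℕ) (hp : p.Prime)
    (hN : ((P ⊓ MulAut.conj g⁻¹ • P).subgroupOf (MulAut.conj g⁻¹ • P)).Normal)
    (hidx : (P ⊓ MulAut.conj g⁻¹ • P).relIndex (MulAut.conj g⁻¹ • P) = p)
    (n : ℕ) (hn : 1 ≤ n) (K : Subgroup G) (hK : K = ⨆ i ∈ Finset.range (n + 1), MulAut.conj (g ^ i)⁻¹ • P)
    (h1 : ∀ Q : Subgroup G, Q ≤ P → (Q.subgroupOf P).Normal → MulAut.conj g • Q = Q → Q = ⊥)
    (h2 : P ⊓ (Subgroup.center K).map K.subtype = ⊥) :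
    ∃ t : ℕ, Nat.card P = p ^ t ∧ 1 ≤ t ∧ t ≤ 3 * n ∧ t ≠ 3 * n - 1 := by
  have : Fact p.Prime := ⟨hp⟩
  have hα : ∀ i : ℕ, (MulAut.conj g⁻¹) ^ (i : ℤ) = MulAut.conj (g ^ i)⁻¹ := by
    intro i
    rw [zpow_natCast, ← map_pow, inv_pow]
  have hinv : ∀ Q : Subgroup G, MulAut.conj g⁻¹ • Q = Q → MulAut.conj g • Q = Q := by
    intro Q hQ
    have h3 : MulAut.conj g • (MulAut.conj g⁻¹ • Q) = Q := by
      rw [← mul_smul, ← map_mul, mul_inv_cancel, map_one, one_smul]
    rwa [hQ] at h3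
  have hmin : ∀ Q : Subgroup G, Q ≤ P → P ≤ Subgroup.normalizer (Q : Set G) →
      MulAut.conj g⁻¹ • Q = Q → Q = ⊥ := by
    intro Q hQ hn hQg
    exact h1 Q hQ ((Subgroup.normal_subgroupOf_iff_le_normalizer hQ).2 hn) (hinv Q hQg)
  have hP := H574.Sims.isPGroup_of (α := MulAut.conj g⁻¹) hp hN hidx hmin
  have h0 : (H574.Sims.D (MulAut.conj g⁻¹) P 1).relIndex (H574.Sims.D (MulAut.conj g⁻¹) P 0) = p := by
    change (P ⊓ MulAut.conj g⁻¹ • P).relIndex P = p
    have e1 := H574.Sims.card_relIndex (inf_le_left : P ⊓ MulAut.conj g⁻¹ • P ≤ P)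
    have e2 := H574.Sims.card_relIndex (inf_le_right : P ⊓ MulAut.conj g⁻¹ • P ≤ MulAut.conj g⁻¹ • P)
    rw [hidx, H574.Sims.card_smul, ← e1] at e2
    exact (Nat.eq_of_mul_eq_mul_left Nat.card_pos e2).symm
  refine H574.Sims.main_aux hP h0 hmin n hn ?_
  intro z hz hcomm
  have hKle : ∀ i : ℕ, i ≤ n → MulAut.conj (g ^ i)⁻¹ • P ≤ K := by
    intro i hi
    rw [hK]
    exact le_iSup₂_of_le i (Finset.mem_range.2 (by omega)) le_rfl
  have hzK : z ∈ K := by
    have h3 := hKle 0 (Nat.zero_le n)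
    rw [pow_zero, inv_one, map_one, one_smul] at h3
    exact h3 hz
  have hcen : K ≤ Subgroup.centralizer {z} := by
    rw [hK]
    refine iSup₂_le fun i hi y hy => ?_
    rw [Finset.mem_range] at hi
    rw [Subgroup.mem_centralizer_singleton_iff]
    rw [← hα i] at hy
    exact (hcomm i (by omega) y hy).eq.symm
  have h3 : z ∈ P ⊓ (Subgroup.center K).map K.subtype := by
    refine ⟨hz, ⟨⟨z, hzK⟩, ?_, rfl⟩⟩
    rw [SetLike.mem_coe, Subgroup.mem_center_iff]
    rintro ⟨y, hy⟩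
    have h4 := hcen hy
    rw [Subgroup.mem_centralizer_singleton_iff] at h4
    exact Subtype.ext h4
  rw [h2, Subgroup.mem_bot] at h3
  exact h3

end Cfsg.Agent.S4359
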