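import Cfsg.Statements.S4367
import Cfsg.Agent.H576.Sizes

set_option autoImplicit false
open Cfsg

namespace Cfsg.Agent.S4367

/-- Let N be a non-solvable normal subgroup of a finite group G and m a natural number dividing the size of the conjugacy class in G of every element of N of prime-power order lying outside the center of N. Then m divides the order of the center of N. -/
theorem result {G : Type*} [Group G] [Finite G]
    (N : Subgroup G) [N.Normal] (hN : ¬ Group.IsSolvable N) (m : ℕ)
    (h : ∀ x : G, x ∈ N → (∃ y ∈ N, x * y ≠ y * x) → IsPrimePow (orderOf x) → m ∣ (Subgroup.centralizer ({x} : Set G)).index) :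
    m ∣ Nat.card (Subgroup.center N) := by
  have hnc : ∀ x ∈ N, x ∉ Subgroup.centralizer (N : Set G) → ∃ y ∈ N, x * y ≠ y * x := by
    intro x _ hxc
    by_contra hcon
    push Not at hcon
    exact hxc (Subgroup.mem_centralizer_iff.2 fun g hg => (hcon g hg).symm)
  rw [Nat.dvd_iff_prime_pow_dvd_dvd]
  intro p k hp hk
  by_cases hk0 : k = 0
  · rw [hk0, pow_zero]; exact one_dvd _
  have : Fact p.Prime := ⟨hp⟩
  obtain ⟨P⟩ : Nonempty (Sylow p G) := inferInstance
  by_cases hP : (P : Subgroup G) ⊓ N ≤ Subgroup.centralizer (N : Set G)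
  · exfalso
    apply hN
    apply Cfsg.Agent.H576.Sizes.isSolvable_of_central_sylow N p P hP
    intro x hx hxo hxP
    by_contra hxc
    have h1 := h x hx (hnc x hx hxc) hxo
    exact P.not_dvd_index (((dvd_pow_self p hk0).trans (hk.trans h1)).trans
      (Subgroup.index_dvd_of_le hxP))
  · obtain ⟨y, hyP, hyc, hyZ⟩ := Cfsg.Agent.H576.Sizes.exists_small N p P hP
    have hyo : IsPrimePow (orderOf y) := by
      obtain ⟨j, hj⟩ := (IsPGroup.iff_orderOf.1 P.isPGroup') ⟨y, hyP.1⟩
      rw [← Subgroup.orderOf_coe] at hj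
      simp only at hj
      rw [hj]
      refine hp.isPrimePow.pow ?_
      rintro rfl
      rw [pow_zero, orderOf_eq_one_iff] at hj
      exact hyc (by rw [hj]; exact Subgroup.one_mem _)
    have h1 : p ^ k ∣ (Subgroup.centralizer ({y} : Set G)).index :=
      hk.trans (h y hyP.2 (hnc y hyP.2 hyc) hyo)
    have h2 := Cfsg.Agent.H576.Sizes.pow_dvd_relIndex p P y k h1
    have h3 := Cfsg.Agent.H576.Sizes.relIndex_le (P : Subgroup G)
      ((P : Subgroup G) ⊓ N ⊓ Subgroup.centralizer (N : Set G)) y hyZ
    set Z : Subgroup G := (P : Subgroup G) ⊓ N ⊓ Subgroup.centralizer (N : Set G) with hZ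
    have hZP : Z ≤ (P : Subgroup G) := inf_le_left.trans inf_le_left
    have hZN : Z ≤ N := inf_le_left.trans inf_le_right
    obtain ⟨c, hc⟩ := (IsPGroup.iff_card).1 (P.isPGroup'.to_le hZP)
    have h4 : k ≤ c := by
      by_contra hlt
      have h5 : p ^ k ≤ (Subgroup.centralizer ({y} : Set G)).relIndex (P : Subgroup G) :=
        Nat.le_of_dvd (Nat.pos_of_ne_zero (by
          intro h0
          have := Subgroup.relIndex_dvd_card (Subgroup.centralizer ({y} : Set G)) (P : Subgroup G)
          rw [h0] at this
          exact Nat.card_pos.ne' (Nat.eq_zero_of_zero_dvd this))) h2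
      rw [hc] at h3
      have h6 : p ^ c < p ^ k := Nat.pow_lt_pow_right hp.one_lt (by omega)
      omega
    have h5 : Nat.card Z ∣ Nat.card (Subgroup.center N) := by
      rw [← Nat.card_congr (Subgroup.subgroupOfEquivOfLe hZN).toEquiv]
      apply Subgroup.card_dvd_of_le
      intro z hz
      rw [Subgroup.mem_center_iff]
      intro n
      apply Subtype.ext
      have hz' : (z : G) ∈ Subgroup.centralizer (N : Set G) := (Subgroup.mem_subgroupOf.1 hz).2
      exact Subgroup.mem_centralizer_iff.1 hz' n n.2
    rw [hc] at h5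
    exact (pow_dvd_pow p h4).trans h5

end Cfsg.Agent.S4367
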