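import Cfsg.Statements.S4371
-- import your own Cfsg.Agent.* helpers here
import Cfsg.Agent.H577.FewSimple
import Cfsg.Agent.H577.FewTwo

set_option autoImplicit false
open Cfsg

namespace Cfsg.Agent.S4371

open Subgroup Cfsg.Agent.H577 Cfsg.Agent.H577.Psl2

/-- The extension is trivial. -/
theorem eq_top {X : Type*} [Group X] [Finite X] (hX : Few X) (T : Subgroup X) [T.Normal]
    (hc : centralizer (T : Set X) = ⊥) (hK : Known T) : T = ⊤ := by
  rcases hK with ⟨F, iF, iF', hev, h4, ⟨e⟩⟩ | ⟨F, iF, iF', h8, h5, ⟨e⟩⟩ | ⟨F, iF, iF', h79, ⟨e⟩⟩ |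
    ⟨F, iF, iF', h4, ⟨e⟩⟩ | hSz
  · exact eq_top_of_aut T hc e hX (aut_even hev h4)
  · exact eq_top_of_aut T hc e hX (aut_odd h8 h5)
  · rcases h79 with h | h
    · exact eq_top_of_aut T hc e hX (aut_seven h)
    · exact eq_top_of_aut T hc e hX (aut_nine h)
  · have : CharP F 2 := by
      obtain ⟨p, hchar, n, hp, hn⟩ := FiniteField.card' (K := F)
      have h2 : p ∣ 2 ^ 2 := by
        have : p ∣ Fintype.card F := by rw [hn]; exact dvd_pow_self p n.pos.ne'
        rwa [h4] at this
      have h3 : p = 2 := (Nat.prime_dvd_prime_iff_eq hp Nat.prime_two).1 (hp.dvd_of_dvd_pow h2)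
      subst h3
      exact hchar
    exact eq_top_of_aut T hc e hX (P3.aut_four h4)
  · exact Suz.eq_top T hc hX hSz

/-- The analysis of `G` once a surjection on a known simple group with solvable kernel is given. -/
theorem main {G : Type*} [Group G] [Finite G] (hG : Few G) {T : Type*} [Group T] [Finite T] (hs : IsSimpleGroup T)
    (hn : ∃ a b : T, a * b ≠ b * a) (hK : Known T) (f : G →* T) (hf : Function.Surjective f)
    (hsolv : Group.IsSolvable f.ker) :
    (∃ (F : Type) (_ : Field F) (_ : Fintype F), CharP F 2 ∧ 4 ≤ Fintype.card F ∧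
        (Fintype.card F + 1).primeFactorsList.length ≤ 2 ∧ (Fintype.card F - 1).primeFactorsList.length ≤ 2 ∧
        Nonempty (G ⧸ Cfsg.pCore 2 G ≃* Matrix.ProjectiveSpecialLinearGroup (Fin 2) F)) ∨
    (∃ (F : Type) (_ : Field F) (_ : Fintype F), 5 < Fintype.card F ∧ (Fintype.card F % 8 = 3 ∨ Fintype.card F % 8 = 5) ∧
        ((Fintype.card F + 1) / 2).primeFactorsList.length ≤ 2 ∧ ((Fintype.card F - 1) / 2).primeFactorsList.length ≤ 2 ∧
        Nonempty (G ≃* Matrix.ProjectiveSpecialLinearGroup (Fin 2) F)) ∨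
    (∃ (F : Type) (_ : Field F) (_ : Fintype F), (Fintype.card F = 7 ∨ Fintype.card F = 9) ∧
        Nonempty (G ≃* Matrix.ProjectiveSpecialLinearGroup (Fin 2) F)) ∨
    (∃ (F : Type) (_ : Field F) (_ : Fintype F), Fintype.card F = 4 ∧ Nonempty (G ≃* Matrix.ProjectiveSpecialLinearGroup (Fin 3) F)) ∨
    (∃ n : ℕ, 1 ≤ n ∧ IsSimpleGroup G ∧ Nat.card G = (2 ^ (2 * n + 1)) ^ 2 * ((2 ^ (2 * n + 1)) ^ 2 + 1) * (2 ^ (2 * n + 1) - 1) ∧
        (2 ^ (2 * n + 1) - 1).primeFactorsList.length ≤ 2 ∧ (2 ^ (2 * n + 1) - 2 ^ (n + 1) + 1).primeFactorsList.length ≤ 2 ∧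
        (2 ^ (2 * n + 1) + 2 ^ (n + 1) + 1).primeFactorsList.length ≤ 2) := by
  have hT : Few T := hG.of_surjective f hf
  -- an isomorphism, if the kernel is trivial
  have hiso : f.ker = ⊥ → Nonempty (G ≃* T) := by
    intro h
    exact ⟨MulEquiv.ofBijective f ⟨(MonoidHom.ker_eq_bot_iff f).1 h, hf⟩⟩
  rcases hK with ⟨F, iF, iF', hev, h4, ⟨e⟩⟩ | ⟨F, iF, iF', h8, h5, ⟨e⟩⟩ | ⟨F, iF, iF', h79, ⟨e⟩⟩ |
    ⟨F, iF, iF', h4, ⟨e⟩⟩ | hSz
  · left
    have hF : Few (P2 F) := hT.of_injective e.symm.toMonoidHom e.symm.injective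
    have htop : TopFactor T := TopFactor.mk' hs hn (by
      rw [Nat.card_congr e.toEquiv]; exact two_dvd_card h4) (Or.inr ((altV_even hev h4).congr e.symm))
    have hker := ker_eq_pCore htop hG f hf hsolv
    have hg : Nat.gcd 2 (Fintype.card F - 1) = 1 := by
      obtain ⟨m, hm⟩ := hev
      rw [Nat.Coprime.gcd_eq_one]
      rw [Nat.coprime_two_left]
      exact ⟨m - 1, by omega⟩
    have h1 := hF.length_le_two ord_plus
    have h2 := hF.length_le_two ord_minus
    rw [hg, Nat.div_one] at h1 h2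
    refine ⟨F, iF, iF', ?_, h4, h1, h2, ?_⟩
    · obtain ⟨p, hchar, n, hp, hn⟩ := FiniteField.card' (K := F)
      have hp2 : p = 2 := by
        rw [hn] at hev
        exact (Nat.Prime.even_iff hp).1 ((Nat.even_pow.1 hev).1)
      subst hp2
      exact hchar
    · exact ⟨((QuotientGroup.quotientMulEquivOfEq hker.symm).trans
        (QuotientGroup.quotientKerEquivOfSurjective f hf)).trans e⟩
  · right; left
    have hF : Few (P2 F) := hT.of_injective e.symm.toMonoidHom e.symm.injective
    have htop : TopFactor T := TopFactor.mk' hs hn (by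
      rw [Nat.card_congr e.toEquiv]; exact two_dvd_card (by omega)) (Or.inr ((altV_odd h8).congr e.symm))
    obtain ⟨e'⟩ := hiso (ker_eq_bot_of_notEven htop ((notEven_odd h8 h5).congr e.symm) hG f hf hsolv)
    have hg : Nat.gcd 2 (Fintype.card F - 1) = 2 := by
      apply Nat.gcd_eq_left
      omega
    have h1 := hF.length_le_two ord_plus
    have h2 := hF.length_le_two ord_minus
    rw [hg] at h1 h2
    exact ⟨F, iF, iF', h5, h8, h1, h2, ⟨e'.trans e⟩⟩
  · right; right; left
    have h4 : Ord T 4 := by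
      refine Ord.of_equiv ?_ e.symm
      rcases h79 with h | h
      · have := ord_plus (F := F)
        rw [h] at this
        exact this
      · have := ord_minus (F := F)
        rw [h] at this
        exact this
    have htop : TopFactor T := TopFactor.mk' hs hn (by
      rw [Nat.card_congr e.toEquiv]; exact two_dvd_card (by omega)) (Or.inl h4)
    have hne : NotEven (P2 F) := by
      rcases h79 with h | h
      · exact notEven_seven_nine (l := 3) (Or.inl rfl) h
      · exact notEven_seven_nine (l := 4) (Or.inr rfl) h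
    obtain ⟨e'⟩ := hiso (ker_eq_bot_of_notEven htop (hne.congr e.symm) hG f hf hsolv)
    exact ⟨F, iF, iF', h79, ⟨e'.trans e⟩⟩
  · right; right; right; left
    have : CharP F 2 := by
      obtain ⟨p, hchar, n, hp, hn⟩ := FiniteField.card' (K := F)
      have h2 : p ∣ 2 ^ 2 := by
        have : p ∣ Fintype.card F := by rw [hn]; exact dvd_pow_self p n.pos.ne'
        rwa [h4] at this
      have h3 : p = 2 := (Nat.prime_dvd_prime_iff_eq hp Nat.prime_two).1 (hp.dvd_of_dvd_pow h2)
      subst h3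
      exact hchar
    have ho4 : Ord T 4 := (P3.ord_four F).of_equiv e.symm
    have htop : TopFactor T := TopFactor.mk' hs hn ((by norm_num : 2 ∣ 4).trans ho4.dvd_card) (Or.inl ho4)
    obtain ⟨e'⟩ := hiso (ker_eq_bot_of_notEven htop ((P3.notEven F).congr e.symm) hG f hf hsolv)
    exact ⟨F, iF, iF', h4, ⟨e'.trans e⟩⟩
  · right; right; right; right
    obtain ⟨m, hm, ho4, o1, o2, o3, hne, hcard⟩ := Suz.facts hSz
    have htop : TopFactor T := TopFactor.mk' hs hn ((by norm_num : 2 ∣ 4).trans ho4.dvd_card) (Or.inl ho4)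
    obtain ⟨e'⟩ := hiso (ker_eq_bot_of_notEven htop hne hG f hf hsolv)
    exact ⟨m, hm, e'.isSimpleGroup, by rw [Nat.card_congr e'.toEquiv]; exact hcard, hT.length_le_two o1,
      hT.length_le_two o3, hT.length_le_two o2⟩

/-- Let G be a finite non-solvable group in which no prime divides three pairwise distinct element orders. Then one of the following holds, where 'a product of at most two primes' always counts primes with multiplicity: the quotient of G by its largest normal 2-subgroup is isomorphic to PSL(2, q) with q = 2ᶠ ≥ 4 and each of q + 1, q - 1 a product of at most two primes; G is isomorphic to PSL(2, q) with q > 5, q ≡ 3 or 5 (mod 8) and each of (q + 1)/2, (q - 1)/2 a product of at most two primes; G is isomorphic to PSL(2, 7), PSL(2, 9) or PSL(3, 4); or G is simple of order q²(q² + 1)(q - 1), the order of the Suzuki group Sz(q), where q = 2²ⁿ⁺¹ ≥ 8, and each of q - 1, q - r + 1, q + r + 1 (r = 2ⁿ⁺¹) is a product of at most two primes. -/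
theorem result {G : Type*} [Group G] [Finite G]
    (hG : ¬ Group.IsSolvable G) (h3 : (∀ p : ℕ, p.Prime → ∀ a b c : G, orderOf a ≠ orderOf b → orderOf b ≠ orderOf c → orderOf a ≠ orderOf c → ¬ (p ∣ orderOf a ∧ p ∣ orderOf b ∧ p ∣ orderOf c))) :
    (∃ (F : Type) (_ : Field F) (_ : Fintype F), CharP F 2 ∧ 4 ≤ Fintype.card F ∧
        (Fintype.card F + 1).primeFactorsList.length ≤ 2 ∧ (Fintype.card F - 1).primeFactorsList.length ≤ 2 ∧
        Nonempty (G ⧸ Cfsg.pCore 2 G ≃* Matrix.ProjectiveSpecialLinearGroup (Fin 2) F)) ∨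
    (∃ (F : Type) (_ : Field F) (_ : Fintype F), 5 < Fintype.card F ∧ (Fintype.card F % 8 = 3 ∨ Fintype.card F % 8 = 5) ∧
        ((Fintype.card F + 1) / 2).primeFactorsList.length ≤ 2 ∧ ((Fintype.card F - 1) / 2).primeFactorsList.length ≤ 2 ∧
        Nonempty (G ≃* Matrix.ProjectiveSpecialLinearGroup (Fin 2) F)) ∨
    (∃ (F : Type) (_ : Field F) (_ : Fintype F), (Fintype.card F = 7 ∨ Fintype.card F = 9) ∧
        Nonempty (G ≃* Matrix.ProjectiveSpecialLinearGroup (Fin 2) F)) ∨
    (∃ (F : Type) (_ : Field F) (_ : Fintype F), Fintype.card F = 4 ∧ Nonempty (G ≃* Matrix.ProjectiveSpecialLinearGroup (Fin 3) F)) ∨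
    (∃ n : ℕ, 1 ≤ n ∧ IsSimpleGroup G ∧ Nat.card G = (2 ^ (2 * n + 1)) ^ 2 * ((2 ^ (2 * n + 1)) ^ 2 + 1) * (2 ^ (2 * n + 1) - 1) ∧
        (2 ^ (2 * n + 1) - 1).primeFactorsList.length ≤ 2 ∧ (2 ^ (2 * n + 1) - 2 ^ (n + 1) + 1).primeFactorsList.length ≤ 2 ∧
        (2 ^ (2 * n + 1) + 2 ^ (n + 1) + 1).primeFactorsList.length ≤ 2) := by
  have hF : Few G := h3
  obtain ⟨R, hRn, T, hRs, hTn, hTs, hnc, hc⟩ := exists_top hF hG
  have hK : Known T := known_of_few hnc ((hF.quotient R).subgroup T)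
  have htop := eq_top (hF.quotient R) T hc hK
  let e : G ⧸ R ≃* T := (Subgroup.topEquiv.symm.trans (MulEquiv.subgroupCongr htop.symm))
  let f : G →* T := e.toMonoidHom.comp (QuotientGroup.mk' R)
  have hf : Function.Surjective f := e.surjective.comp (QuotientGroup.mk'_surjective R)
  have hker : f.ker = R := by
    ext x
    rw [MonoidHom.mem_ker]
    show e (QuotientGroup.mk' R x) = 1 ↔ _
    rw [map_eq_one_iff e e.injective]
    exact QuotientGroup.eq_one_iff x
  exact main hF hTs hnc hK f hf (by rw [hker]; exact hRs)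

end Cfsg.Agent.S4371
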