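import Cfsg.Statements.S4376
import Cfsg.Agent.H579.OTFinal
import Cfsg.Agent.S4377

set_option autoImplicit false
open Cfsg

namespace Cfsg.Agent.S4376

open Cfsg.Agent.H579.OTFrame Cfsg.Agent.H579.OTFinal

/-- The nonsolvable group. -/
abbrev HL : Type :=
  (alternatingGroup (Fin 5) × alternatingGroup (Fin 5)) × (GD.prod listL).carrier

/-- The solvable group. -/
abbrev GR : Type := (GD.prod listR).carrier

theorem cnt_HL : ∀ n ∈ exps, cnt HL n = cnt GR n := by
  intro n hn
  rw [cnt_prod, cnt_prod, cnt_A5 n hn, (GD.prod listL).hc, (GD.prod listR).hc, GD.c_prod,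
    GD.c_prod, ← numeric n hn, pow_two]

theorem pow_eq_one_of_cnt {G : Type*} [Group G] [Finite G] (h : cnt G 0 = cnt G 30) (x : G) :
    x ^ 30 = 1 := by
  unfold cnt at h
  have h1 : Nat.card {g : G // g ^ 0 = 1} = Nat.card G :=
    Nat.card_congr (Equiv.subtypeUnivEquiv fun x => pow_zero x)
  by_contra hx
  have h2 : Nat.card {g : G // g ^ 30 = 1} < Nat.card G :=
    Finite.card_subtype_lt (x := x) hx
  omega

theorem cnt_gcd {G : Type*} [Group G] [Finite G] (h : cnt G 0 = cnt G 30) (n : ℕ) :
    cnt G n = cnt G (Nat.gcd n 30) := by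
  unfold cnt
  refine Nat.card_congr (Equiv.subtypeEquivRight fun x => ?_)
  constructor
  · intro h1
    exact pow_gcd_eq_one.2 ⟨h1, pow_eq_one_of_cnt h x⟩
  · intro h1
    obtain ⟨k, hk⟩ := Nat.gcd_dvd_left n 30
    rw [hk, pow_mul, h1, one_pow]

theorem cnt_eq (n : ℕ) : cnt GR n = cnt HL n := by
  have h0 : cnt GR 0 = cnt GR 30 := by
    rw [(GD.prod listR).hc, (GD.prod listR).hc, GD.c_prod, GD.c_prod, numeric30]
  have h1 : cnt HL 0 = cnt HL 30 := by
    rw [cnt_HL 0 (by decide), cnt_HL 30 (by decide), h0]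
  rw [cnt_gcd h0, cnt_gcd h1]
  have hd : Nat.gcd n 30 ∈ Nat.divisors 30 := by
    rw [Nat.mem_divisors]
    exact ⟨Nat.gcd_dvd_right n 30, by norm_num⟩
  have hd' : Nat.gcd n 30 ∈ exps := by
    generalize Nat.gcd n 30 = d at hd
    have : ∀ d ∈ Nat.divisors 30, d ∈ exps := by decide +kernel
    exact this d hd
  exact (cnt_HL _ hd').symm

theorem not_solvable : ¬ Group.IsSolvable HL := by
  intro h
  have h1 : Group.IsSolvable (alternatingGroup (Fin 5)) := by
    refine Group.isSolvable_of_surjective (f := (MonoidHom.fst _ _).comp (MonoidHom.fst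
      (alternatingGroup (Fin 5) × alternatingGroup (Fin 5)) (GD.prod listL).carrier)) ?_
    intro x
    exact ⟨((x, 1), 1), rfl⟩
  have h2 : Group.IsSolvable (Equiv.Perm (Fin 5)) := by
    have h3 : Group.IsSolvable ℤˣ := inferInstance
    refine Group.isSolvable_of_ker_le_range (alternatingGroup (Fin 5)).subtype
      (Equiv.Perm.sign (α := Fin 5)) ?_
    rw [Subgroup.range_subtype]
    exact le_rfl
  exact Equiv.Perm.not_isSolvable_fin_5 h2

/-- There are finite groups G and H having the same number of elements of each order (the same order type) with G solvable and H not solvable. -/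
theorem result :
    ∃ (G : Type) (_ : Group G) (_ : Finite G) (H : Type) (_ : Group H) (_ : Finite H),
      Group.IsSolvable G ∧ ¬ Group.IsSolvable H ∧ ∀ n : ℕ, Nat.card {g : G // orderOf g = n} = Nat.card {h : H // orderOf h = n} := by
  refine ⟨GR, inferInstance, inferInstance, HL, inferInstance, inferInstance,
    (GD.prod listR).hs, not_solvable, ?_⟩
  exact Cfsg.Agent.S4377.result.2 cnt_eq

end Cfsg.Agent.S4376
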