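import Cfsg.Statements.S4381
import Mathlib
import Cfsg.Agent.H580.MaxInv

set_option autoImplicit false
open Pointwise
open Cfsg

namespace Cfsg.Agent.S4381

/-- Let the finite group A act by automorphisms on the finite group G with the orders of A and G coprime, and assume that A or G is solvable. Call a proper A-invariant subgroup of G maximal A-invariant when no A-invariant subgroup lies strictly between it and G. Then all maximal A-invariant subgroups of G are conjugate under elements of the fixed-point subgroup C_G(A) if and only if G is a p-group for some prime p and A leaves invariant no subgroup strictly between the Frattini subgroup of G and G. In that case, if G is nontrivial, the Frattini subgroup is the only maximal A-invariant subgroup (a trivial G has none). -/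
theorem result {A G : Type*} [Group A] [Finite A]
    [Group G] [Finite G] [MulDistribMulAction A G] (hcop : (Nat.card A).Coprime (Nat.card G)) (hsol : Group.IsSolvable A ∨ Group.IsSolvable G) :
    ((∀ M N : Subgroup G, (M ≠ ⊤ ∧ (∀ a : A, ∀ x ∈ M, a • x ∈ M) ∧ ∀ L : Subgroup G, M < L → (∀ a : A, ∀ x ∈ L, a • x ∈ L) → L = ⊤) → (N ≠ ⊤ ∧ (∀ a : A, ∀ x ∈ N, a • x ∈ N) ∧ ∀ L : Subgroup G, N < L → (∀ a : A, ∀ x ∈ L, a • x ∈ L) → L = ⊤) →
        ∃ c : G, (∀ a : A, a • c = c) ∧ N = MulAut.conj c • M) ↔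
      ((∃ p : ℕ, p.Prime ∧ IsPGroup p G) ∧ ∀ L : Subgroup G, frattini G < L → (∀ a : A, ∀ x ∈ L, a • x ∈ L) → L = ⊤)) ∧
    (((∃ p : ℕ, p.Prime ∧ IsPGroup p G) ∧ ∀ L : Subgroup G, frattini G < L → (∀ a : A, ∀ x ∈ L, a • x ∈ L) → L = ⊤) →
      ∀ M : Subgroup G, (M ≠ ⊤ ∧ (∀ a : A, ∀ x ∈ M, a • x ∈ M) ∧ ∀ L : Subgroup G, M < L → (∀ a : A, ∀ x ∈ L, a • x ∈ L) → L = ⊤) ↔ (M = frattini G ∧ M ≠ ⊤)) := by
  classical
  refine ⟨⟨fun h => ?_, ?_⟩, ?_⟩
  · -- all maximal invariant subgroups are conjugate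
    obtain ⟨p, hp, hG⟩ := H580.MaxInv.isPGroup_of_card_eq (A := A) (G := G) hcop hsol (by
      intro M N hM hN
      obtain ⟨c, -, hc⟩ := h M N hM hN
      rw [hc]
      exact Nat.card_congr (Subgroup.equivSMul (MulAut.conj c) M).toEquiv)
    refine ⟨⟨p, hp, hG⟩, ?_⟩
    have := Fact.mk hp
    have hcomm : commutator G ≤ frattini G := (Cfsg.Agent.S0012.result p hG).1
    intro L hL hLinv
    by_contra hLtop
    obtain ⟨M, hLM, hM⟩ := H580.MaxInv.exists_maxInv (A := A) hLtop hLinv
    have hFM := H580.MaxInv.frattini_le hM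
    obtain ⟨N, hN1, hN2, hN3, hN4⟩ := H580.MaxInv.exists_compl hcop hp hG hM.2.1 hFM
    have hNtop : N ≠ ⊤ := by
      rintro rfl
      rw [inf_top_eq] at hN3
      rw [hN3] at hLM
      exact absurd hLM (not_le_of_gt hL)
    obtain ⟨N', hNN', hN'⟩ := H580.MaxInv.exists_maxInv (A := A) hNtop hN1
    have hMN : M.Normal := by
      refine ⟨fun m hm g => ?_⟩
      have h1 : g * m * g⁻¹ = (g * m * g⁻¹ * m⁻¹) * m := by group
      rw [h1]
      exact M.mul_mem (hFM (hcomm (Subgroup.commutator_mem_commutator (Subgroup.mem_top g) (Subgroup.mem_top m)))) hm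
    obtain ⟨c, -, hc⟩ := h M N' hM hN'
    have h2 : MulAut.conj c • M = M := Subgroup.Normal.conj_smul_eq_self c M
    rw [h2] at hc
    apply hM.1
    rw [eq_top_iff, ← hN4]
    exact sup_le le_rfl (hNN'.trans hc.le)
  · rintro ⟨⟨p, hp, hG⟩, hirr⟩ M N hM hN
    refine ⟨1, fun a => smul_one a, ?_⟩
    rw [H580.MaxInv.eq_frattini hirr hM, H580.MaxInv.eq_frattini hirr hN, map_one, one_smul]
  · rintro ⟨⟨p, hp, hG⟩, hirr⟩ M
    constructor
    · intro hM
      exact ⟨H580.MaxInv.eq_frattini hirr hM, hM.1⟩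
    · rintro ⟨rfl, h2⟩
      exact ⟨h2, H580.MaxInv.inv_of_characteristic _, fun L hL1 hL2 => hirr L hL1 hL2⟩

end Cfsg.Agent.S4381

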