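import Cfsg.Statements.S4387
import Cfsg.Agent.H395.Jordan

set_option autoImplicit false
open Pointwise
open Cfsg

namespace Cfsg.Agent.S4387

/-- A subgroup of prime index is maximal. -/
theorem isCoatom_of_index_prime {G : Type*} [Group G] [Finite G] {M : Subgroup G}
    (h : M.index.Prime) : IsCoatom M := by
  refine ⟨fun hM => ?_, fun K hK => ?_⟩
  · rw [hM, Subgroup.index_top] at h
    exact Nat.not_prime_one h
  · have h1 : M.relIndex K * K.index = M.index := Subgroup.relIndex_mul_index hK.le
    have h2 : K.index ∣ M.index := ⟨M.relIndex K, by rw [mul_comm]; exact h1.symm⟩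
    rcases (Nat.dvd_prime h).1 h2 with h3 | h3
    · exact Subgroup.index_eq_one.1 h3
    · exfalso
      rw [h3] at h1
      have h4 : M.relIndex K = 1 := by
        have h5 : 0 < M.index := h.pos
        nlinarith
      exact (not_le_of_gt hK) (Subgroup.relIndex_eq_one.1 h4)

/-- Let G be a non-trivial finite group in which any two maximal subgroups are conjugate. Then G is cyclic of prime-power order. -/
theorem result {G : Type*} [Group G] [Finite G] [Nontrivial G]
    (h : ∀ M N : Subgroup G, IsCoatom M → IsCoatom N → ∃ g : G, N = MulAut.conj g • M) :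
    IsCyclic G ∧ IsPrimePow (Nat.card G) := by
  obtain ⟨M, hM⟩ : ∃ M : Subgroup G, IsCoatom M := by
    rcases eq_top_or_exists_le_coatom (⊥ : Subgroup G) with h1 | ⟨M, hM, -⟩
    · exact absurd h1 bot_ne_top
    · exact ⟨M, hM⟩
  obtain ⟨x, hx⟩ := Cfsg.Agent.H395.Jordan.exists_not_conj_mem hM.1
  have hgen : Subgroup.zpowers x = ⊤ := by
    rcases eq_top_or_exists_le_coatom (Subgroup.zpowers x) with h1 | ⟨N, hN, hxN⟩
    · exact h1
    · exfalso
      obtain ⟨g, rfl⟩ := h M N hM hN
      have h2 : x ∈ MulAut.conj g • M := hxN (Subgroup.mem_zpowers x)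
      rw [Subgroup.mem_pointwise_smul_iff_inv_smul_mem] at h2
      apply hx g
      rw [← map_inv, MulAut.smul_def, MulAut.conj_apply, inv_inv] at h2
      exact h2
  have hcyc : IsCyclic G := ⟨x, fun y => by
    have : y ∈ Subgroup.zpowers x := by rw [hgen]; trivial
    exact this⟩
  refine ⟨hcyc, ?_⟩
  have hord : orderOf x = Nat.card G := by
    rw [← Nat.card_zpowers, hgen, Subgroup.card_top]
  have hidx : ∀ p : ℕ, p.Prime → p ∣ Nat.card G → (Subgroup.zpowers (x ^ p)).index = p := by
    intro p hp hpd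
    have h1 : Nat.card (Subgroup.zpowers (x ^ p)) * (Subgroup.zpowers (x ^ p)).index = Nat.card G :=
      Subgroup.card_mul_index _
    rw [Nat.card_zpowers, orderOf_pow_of_dvd hp.ne_zero (hord ▸ hpd), hord] at h1
    obtain ⟨k, hk⟩ := hpd
    have hk0 : 0 < k := by
      rcases Nat.eq_zero_or_pos k with h0 | h0
      · rw [h0, mul_zero] at hk
        exact absurd hk Nat.card_pos.ne'
      · exact h0
    rw [hk, Nat.mul_div_cancel_left _ hp.pos] at h1
    nlinarith
  rw [isPrimePow_iff_unique_prime_dvd]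
  obtain ⟨p, hp, hpd⟩ := Nat.exists_prime_and_dvd (n := Nat.card G) (Finite.one_lt_card).ne'
  refine ⟨p, ⟨hp, hpd⟩, ?_⟩
  rintro q ⟨hq, hqd⟩
  obtain ⟨g, hg⟩ := h _ _ (isCoatom_of_index_prime (M := Subgroup.zpowers (x ^ p)) (by rw [hidx p hp hpd]; exact hp))
    (isCoatom_of_index_prime (M := Subgroup.zpowers (x ^ q)) (by rw [hidx q hq hqd]; exact hq))
  have h3 : (Subgroup.zpowers (x ^ q)).index = (Subgroup.zpowers (x ^ p)).index := by
    rw [hg]
    have hcard : Nat.card (MulAut.conj g • Subgroup.zpowers (x ^ p) : Subgroup G) = Nat.card (Subgroup.zpowers (x ^ p)) :=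
      (Nat.card_congr (Subgroup.equivSMul (MulAut.conj g) (Subgroup.zpowers (x ^ p))).toEquiv).symm
    have e1 := Subgroup.card_mul_index (MulAut.conj g • Subgroup.zpowers (x ^ p) : Subgroup G)
    have e2 := Subgroup.card_mul_index (Subgroup.zpowers (x ^ p))
    rw [hcard] at e1
    have hpos : 0 < Nat.card (Subgroup.zpowers (x ^ p)) := Nat.card_pos
    exact Nat.eq_of_mul_eq_mul_left hpos (e1.trans e2.symm)
  rw [hidx p hp hpd, hidx q hq hqd] at h3
  exact h3

end Cfsg.Agent.S4387
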