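-- S4393: from S0490 (Thompson's coprime triple criterion) and a counting argument.
import Cfsg.Statements.S4393
import Mathlib
import Cfsg.Agent.S0490

set_option autoImplicit false
open Cfsg

namespace Cfsg.Agent.S4393

/-- An element whose order has all its prime factors in the list `L` of distinct primes is the ordered
product of elements of prime power order, one for each prime in `L`. -/
theorem exists_parts {G : Type*} [Group G] [Finite G] (L : List ℕ) (hLp : ∀ p ∈ L, p.Prime) (hL : L.Nodup) :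
    ∀ a : G, (∀ q : ℕ, q.Prime → q ∣ orderOf a → q ∈ L) →
      ∃ xs : List G, List.Forall₂ (fun p x => ∃ k : ℕ, x ^ p ^ k = 1) L xs ∧ xs.prod = a := by
  induction L with
  | nil =>
    intro a ha
    refine ⟨[], List.Forall₂.nil, ?_⟩
    by_contra hne
    have h1 : orderOf a ≠ 1 := fun h => hne (by simpa using (orderOf_eq_one_iff.mp h).symm)
    obtain ⟨q, hq, hqd⟩ := Nat.exists_prime_and_dvd h1
    simpa using ha q hq hqd
  | cons p L ih =>
    intro a ha
    have hp : p.Prime := hLp p (by simp)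
    have ih' := ih (fun q hq => hLp q (by simp [hq])) (List.nodup_cons.mp hL).2
    obtain ⟨k, m, hm, hkm⟩ := Nat.exists_eq_pow_mul_and_not_dvd (orderOf_pos a).ne' p hp.ne_one
    have hcop : IsCoprime ((p ^ k : ℕ) : ℤ) (m : ℤ) := by
      rw [Nat.isCoprime_iff_coprime]
      exact Nat.Coprime.pow_left k ((Nat.Prime.coprime_iff_not_dvd hp).mpr hm)
    obtain ⟨u, v, huv⟩ := hcop
    obtain ⟨xs, hxs, hprod⟩ := ih' (a ^ (u * ((p ^ k : ℕ) : ℤ))) (by
      intro q hq hqd
      have h1 : (a ^ (u * ((p ^ k : ℕ) : ℤ))) ^ m = 1 := by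
        rw [← zpow_natCast, ← zpow_mul]
        have : u * ((p ^ k : ℕ) : ℤ) * (m : ℤ) = (orderOf a : ℤ) * u := by
          rw [hkm]; push_cast; ring
        rw [this, zpow_mul, zpow_natCast, pow_orderOf_eq_one, one_zpow]
      have h2 : q ∣ m := hqd.trans (orderOf_dvd_of_pow_eq_one h1)
      have h3 : q ∈ p :: L := ha q hq (h2.trans (by rw [hkm]; exact dvd_mul_left _ _))
      rcases List.mem_cons.mp h3 with h4 | h4
      · subst h4; exact absurd h2 hm
      · exact h4)
    refine ⟨a ^ (v * (m : ℤ)) :: xs, List.Forall₂.cons ⟨k, ?_⟩ hxs, ?_⟩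
    · rw [← zpow_natCast, ← zpow_mul]
      have : v * (m : ℤ) * ((p ^ k : ℕ) : ℤ) = (orderOf a : ℤ) * v := by
        rw [hkm]; push_cast; ring
      rw [this, zpow_mul, zpow_natCast, pow_orderOf_eq_one, one_zpow]
    · rw [List.prod_cons, hprod, ← zpow_add]
      have : v * (m : ℤ) + u * ((p ^ k : ℕ) : ℤ) = 1 := by rw [← huv]; ring
      rw [this, zpow_one]

/-- Let G be a finite group such that, for every family of distinct primes including every prime divisor of the order of G and every choice S of a Sylow subgroup for each of them, every element of G is a product s_0 s_1 ⋯ s_(t-1) with s_i in S i, taken in the given order. Then G is solvable. -/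
theorem result {G : Type*} [Group G] [Finite G]
    (h : ∀ (t : ℕ) (p : Fin t → ℕ), (∀ i, (p i).Prime) → Function.Injective p → (∀ q : ℕ, q.Prime → q ∣ Nat.card G → ∃ i, p i = q) →
      ∀ (S : (i : Fin t) → Sylow (p i) G) (g : G), ∃ s : (i : Fin t) → G, (∀ i, s i ∈ (S i : Subgroup G)) ∧ g = (List.ofFn s).prod) :
    Group.IsSolvable G := by
  by_contra hns
  obtain ⟨a, b, c, ha, hb, hc, hab, hbc, hac, habc⟩ := (Cfsg.Agent.S0490.result (G := G)).mp hns
  classical
  -- the list of primes
  set n := Nat.card G with hn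
  have hn0 : n ≠ 0 := Nat.card_pos.ne'
  let La := (orderOf a).primeFactors.toList
  let Lb := (orderOf b).primeFactors.toList
  let Lc := (orderOf c).primeFactors.toList
  let Lr := (n.primeFactors \ ((orderOf a).primeFactors ∪ (orderOf b).primeFactors ∪ (orderOf c).primeFactors)).toList
  have hLa : ∀ q, q ∈ La ↔ q.Prime ∧ q ∣ orderOf a := fun q => by
    simp [La, (orderOf_pos a).ne']
  have hLb : ∀ q, q ∈ Lb ↔ q.Prime ∧ q ∣ orderOf b := fun q => by
    simp [Lb, (orderOf_pos b).ne']
  have hLc : ∀ q, q ∈ Lc ↔ q.Prime ∧ q ∣ orderOf c := fun q => by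
    simp [Lc, (orderOf_pos c).ne']
  have hLr : ∀ q, q ∈ Lr ↔ (q.Prime ∧ q ∣ n) ∧ ¬ (q ∈ La ∨ q ∈ Lb ∨ q ∈ Lc) := fun q => by
    rw [hLa, hLb, hLc]
    simp only [Lr, Finset.mem_toList, Finset.mem_sdiff, Finset.mem_union, Nat.mem_primeFactors]
    have := (orderOf_pos a).ne'
    have := (orderOf_pos b).ne'
    have := (orderOf_pos c).ne'
    tauto
  obtain ⟨xa, hxa, hxap⟩ := exists_parts La (fun p hp => ((hLa p).mp hp).1) (Finset.nodup_toList _) a
    (fun q hq hqd => (hLa q).mpr ⟨hq, hqd⟩)
  obtain ⟨xb, hxb, hxbp⟩ := exists_parts Lb (fun p hp => ((hLb p).mp hp).1) (Finset.nodup_toList _) b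
    (fun q hq hqd => (hLb q).mpr ⟨hq, hqd⟩)
  obtain ⟨xc, hxc, hxcp⟩ := exists_parts Lc (fun p hp => ((hLc p).mp hp).1) (Finset.nodup_toList _) c
    (fun q hq hqd => (hLc q).mpr ⟨hq, hqd⟩)
  obtain ⟨xr, hxr, hxrp⟩ := exists_parts Lr (fun p hp => ((hLr p).mp hp).1.1) (Finset.nodup_toList _) (1 : G)
    (fun q hq hqd => by rw [orderOf_one] at hqd; exact absurd (Nat.dvd_one.mp hqd) hq.ne_one)
  let L := La ++ (Lb ++ (Lc ++ Lr))
  let xs := xa ++ (xb ++ (xc ++ xr))
  have hfor : List.Forall₂ (fun p x => ∃ k : ℕ, x ^ p ^ k = 1) L xs :=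
    List.rel_append hxa (List.rel_append hxb (List.rel_append hxc hxr))
  have hprod : xs.prod = 1 := by
    simp only [xs, List.prod_append, hxap, hxbp, hxcp, hxrp, mul_one, ← mul_assoc]
    exact habc
  have hlen : L.length = xs.length := hfor.length_eq
  have hnodup : L.Nodup := by
    have hcop1 : ∀ q, q ∈ La → q ∈ Lb → False := fun q h1 h2 =>
      ((hLa q).mp h1).1.ne_one (Nat.eq_one_of_dvd_coprimes hab ((hLa q).mp h1).2 ((hLb q).mp h2).2)
    have hcop2 : ∀ q, q ∈ La → q ∈ Lc → False := fun q h1 h2 =>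
      ((hLa q).mp h1).1.ne_one (Nat.eq_one_of_dvd_coprimes hac ((hLa q).mp h1).2 ((hLc q).mp h2).2)
    have hcop3 : ∀ q, q ∈ Lb → q ∈ Lc → False := fun q h1 h2 =>
      ((hLb q).mp h1).1.ne_one (Nat.eq_one_of_dvd_coprimes hbc ((hLb q).mp h1).2 ((hLc q).mp h2).2)
    simp only [L]
    rw [List.nodup_append, List.nodup_append, List.nodup_append]
    refine ⟨Finset.nodup_toList _, ⟨Finset.nodup_toList _, ⟨Finset.nodup_toList _, Finset.nodup_toList _, ?_⟩, ?_⟩, ?_⟩
    · rintro q hq r hr rfl
      have := ((hLr q).mp hr).2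
      tauto
    · rintro q hq r hr rfl
      rcases List.mem_append.mp hr with hr | hr
      · exact hcop3 q hq hr
      · have := ((hLr q).mp hr).2
        tauto
    · rintro q hq r hr rfl
      rcases List.mem_append.mp hr with hr | hr
      · exact hcop1 q hq hr
      · rcases List.mem_append.mp hr with hr | hr
        · exact hcop2 q hq hr
        · have := ((hLr q).mp hr).2
          tauto
  have hcov : ∀ q : ℕ, q.Prime → q ∣ n → q ∈ L := by
    intro q hq hqn
    by_cases hmem : q ∈ La ∨ q ∈ Lb ∨ q ∈ Lc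
    · simp only [L, List.mem_append]; tauto
    · simp only [L, List.mem_append, hLr]; tauto
  have hdvdn : ∀ x : G, orderOf x ∣ n := fun x => orderOf_dvd_natCard x
  have hLmem : ∀ q ∈ L, q.Prime ∧ q ∣ n := by
    intro q hq
    simp only [L, List.mem_append] at hq
    rcases hq with hq | hq | hq | hq
    · exact ⟨((hLa q).mp hq).1, ((hLa q).mp hq).2.trans (hdvdn a)⟩
    · exact ⟨((hLb q).mp hq).1, ((hLb q).mp hq).2.trans (hdvdn b)⟩
    · exact ⟨((hLc q).mp hq).1, ((hLc q).mp hq).2.trans (hdvdn c)⟩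
    · exact ((hLr q).mp hq).1
  let p : Fin L.length → ℕ := fun i => L.get i
  have hpp : ∀ i, (p i).Prime := fun i => (hLmem _ (List.get_mem L i)).1
  have hpinj : Function.Injective p := List.nodup_iff_injective_get.mp hnodup
  let x : Fin L.length → G := fun i => xs.get (Fin.cast hlen i)
  have hx : ∀ i, ∃ k : ℕ, x i ^ p i ^ k = 1 := fun i =>
    (List.forall₂_iff_get.mp hfor).2 i i.2 (by rw [← hlen]; exact i.2)
  have hSy : ∀ i, ∃ S : Sylow (p i) G, x i ∈ (S : Subgroup G) := by
    intro i
    obtain ⟨k, hk⟩ := hx i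
    haveI : Fact (p i).Prime := ⟨hpp i⟩
    have hpg : IsPGroup (p i) (Subgroup.zpowers (x i)) := by
      intro y
      refine ⟨k, ?_⟩
      obtain ⟨y, hy⟩ := y
      obtain ⟨j, rfl⟩ := Subgroup.mem_zpowers_iff.mp hy
      ext
      simp only [SubmonoidClass.mk_pow, OneMemClass.coe_one]
      rw [← zpow_natCast, ← zpow_mul, mul_comm, zpow_mul, zpow_natCast, hk, one_zpow]
    obtain ⟨S, hS⟩ := hpg.exists_le_sylow
    exact ⟨S, hS (Subgroup.mem_zpowers _)⟩
  choose S hS using hSy
  -- the product map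
  let f : ((i : Fin L.length) → ↥(S i : Subgroup G)) → G := fun s => (List.ofFn (fun i => (s i : G))).prod
  have hfsurj : Function.Surjective f := by
    intro g
    obtain ⟨s, hs, hg⟩ := h L.length p hpp hpinj (fun q hq hqn => by
      obtain ⟨i, hi⟩ := List.get_of_mem (hcov q hq hqn)
      exact ⟨i, hi⟩) S g
    exact ⟨fun i => ⟨s i, hs i⟩, hg.symm⟩
  have hcard : Nat.card ((i : Fin L.length) → ↥(S i : Subgroup G)) = Nat.card G := by
    rw [Nat.card_pi]
    have h1 : ∀ i, Nat.card ↥(S i : Subgroup G) = p i ^ (n.factorization (p i)) := by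
      intro i
      haveI : Fact (p i).Prime := ⟨hpp i⟩
      exact (S i).card_eq_multiplicity
    rw [Finset.prod_congr rfl (fun i _ => h1 i)]
    have h2 : ∏ i : Fin L.length, p i ^ (n.factorization (p i)) = ∏ q ∈ n.primeFactors, q ^ n.factorization q := by
      rw [← Finset.prod_image (s := (Finset.univ : Finset (Fin L.length))) (g := p)
        (f := fun q => q ^ n.factorization q) (fun i _ j _ hij => hpinj hij)]
      congr 1
      ext q
      simp only [Finset.mem_image, Finset.mem_univ, true_and, Nat.mem_primeFactors]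
      constructor
      · rintro ⟨i, rfl⟩
        exact ⟨hpp i, (hLmem _ (List.get_mem L i)).2, hn0⟩
      · rintro ⟨hq, hqn, -⟩
        obtain ⟨i, hi⟩ := List.get_of_mem (hcov q hq hqn)
        exact ⟨i, hi⟩
    rw [h2]
    exact Nat.prod_factorization_pow_eq_self hn0
  have hfbij : Function.Bijective f := by
    rw [Nat.bijective_iff_surjective_and_card]
    exact ⟨hfsurj, hcard⟩
  have hx1 : f (fun i => ⟨x i, hS i⟩) = 1 := by
    simp only [f]
    have : List.ofFn (fun i : Fin L.length => x i) = xs := by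
      apply List.ext_get
      · simp [hlen]
      · intro m h1 h2
        simp [x]
    rw [this, hprod]
  have h11 : f (fun i => 1) = 1 := by
    simp only [f, OneMemClass.coe_one]
    rw [List.ofFn_const, List.prod_replicate, one_pow]
  have heq := hfbij.1 (hx1.trans h11.symm)
  have hxi : ∀ i, x i = 1 := fun i => by
    have := congrFun heq i
    simpa using congrArg Subtype.val this
  have hall : ∀ y ∈ xs, y = 1 := by
    intro y hy
    obtain ⟨i, hi⟩ := List.get_of_mem hy
    have := hxi (Fin.cast hlen.symm i)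
    simp only [x] at this
    rw [← hi]
    simpa using this
  apply ha
  rw [← hxap]
  exact List.prod_eq_one (fun y hy => hall y (by simp only [xs, List.mem_append]; left; exact hy))

end Cfsg.Agent.S4393
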