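-- S4396: a module for a Frobenius group without kernel fixed points is free over the complement.
import Cfsg.Statements.S4396
import Mathlib
import Cfsg.Agent.H583.FreeNil
import Cfsg.Agent.H583.PFixed
import Cfsg.Agent.OddOrderLocal.NilpotentCores

set_option autoImplicit false
open Cfsg

namespace Cfsg.Agent.S4396

open Cfsg.Agent.H583.FreeOp Cfsg.Agent.H583.FreeNil
open scoped Pointwise

/-- From the operator to the decomposition. -/
theorem exists_isInternal {k V H : Type*} [Field k] [AddCommGroup V] [Module k V] [Group H] [Fintype H]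
    [DecidableEq H] (ρ : H →* Module.End k V) (h : HFree ρ 1) :
    ∃ W : Submodule k V, DirectSum.IsInternal (fun h : H => W.map (ρ h)) := by
  obtain ⟨π, -, -, hπ, hs⟩ := h
  refine ⟨LinearMap.range π, ?_⟩
  rw [DirectSum.isInternal_submodule_iff_iSupIndep_and_iSup_eq_top]
  -- the projections
  let e : H → Module.End k V := fun h => ρ h * π * ρ h⁻¹
  have hρ : ∀ (h : H) (v : V), ρ h⁻¹ (ρ h v) = v := by
    intro h v
    have : (ρ h⁻¹ * ρ h) v = v := by rw [← map_mul, inv_mul_cancel, map_one]; rfl
    exact this
  have hee : ∀ g h : H, e g * e h = if g = h then e h else 0 := by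
    intro g h
    have h1 : e g * e h = ρ g * (π * ρ (g⁻¹ * h) * π) * ρ h⁻¹ := by
      simp only [e, map_mul, mul_assoc]
    rw [h1, hπ]
    by_cases hgh : g = h
    · subst hgh
      rw [if_pos (by group), if_pos rfl]
    · rw [if_neg (by rw [inv_mul_eq_one]; exact hgh), if_neg hgh, mul_zero, zero_mul]
  have hfix : ∀ (h : H) (v : V), v ∈ (LinearMap.range π).map (ρ h) → e h v = v := by
    rintro h _ ⟨_, ⟨w, rfl⟩, rfl⟩
    change ρ h (π (ρ h⁻¹ (ρ h (π w)))) = ρ h (π w)
    rw [hρ]
    have h1 := congrArg (fun f => f w) (hπ 1)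
    simp only [map_one, mul_one, if_pos] at h1
    exact congrArg (ρ h) h1
  constructor
  · intro h
    rw [Submodule.disjoint_def]
    intro v hv hv'
    have h1 : e h v = 0 := by
      have h2 : (⨆ j, ⨆ (_ : j ≠ h), (LinearMap.range π).map (ρ j)) ≤ LinearMap.ker (e h) := by
        refine iSup_le fun j => iSup_le fun hj => ?_
        intro w hw
        rw [LinearMap.mem_ker, ← hfix j w hw]
        have h3 := congrArg (fun f => f w) (hee h j)
        simp only [if_neg hj.symm] at h3
        exact h3
      exact h2 hv'
    rw [← hfix h v hv, h1]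
  · rw [eq_top_iff]
    intro v _
    have h1 : v = ∑ h, e h v := by
      have h2 := congrArg (fun f => f v) hs
      simp only [LinearMap.sum_apply, Module.End.one_apply] at h2
      exact h2.symm
    rw [h1]
    refine Submodule.sum_mem _ fun h _ => ?_
    exact Submodule.mem_iSup_of_mem h ⟨π (ρ h⁻¹ v), ⟨_, rfl⟩, rfl⟩

/-- Let the finite group A act faithfully and linearly on a finite-dimensional vector space V over a field k, and suppose A is a Frobenius group with nilpotent kernel F (every Frobenius kernel is nilpotent) and complement H such that F fixes no nonzero vector. Then V is free as a module for H: there is a subspace W with V the direct sum of the translates hW, h ∈ H. (No assumption on the characteristic of k.) -/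
theorem result {k V A : Type*} [Field k] [AddCommGroup V] [Module k V] [FiniteDimensional k V] [Group A] [Finite A] [DecidableEq A]
    (ρ : Representation k A V) (hρ : Function.Injective ρ)
    (Fk Hc : Subgroup A) [Fk.Normal] (hHc : Cfsg.IsFrobeniusComplement Hc) (hker : Cfsg.frobeniusKernel Hc = (Fk : Set A)) (hnil : Group.IsNilpotent ↥Fk)
    (hCF : ∀ v : V, (∀ f ∈ Fk, ρ f v = v) → v = 0) :
    ∃ W : Submodule k V, DirectSum.IsInternal (fun h : ↥Hc => W.map (ρ (h : A))) := by
  have := Fintype.ofFinite Hc
  -- the complement acts without fixed points on the kernel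
  have hfpf : ∀ h ∈ Hc, h ≠ 1 → ∀ f ∈ Fk, h * f * h⁻¹ = f → f = 1 := by
    intro h hh hh1 f hf hcomm
    by_contra hf1
    have h1 : f ∈ Cfsg.frobeniusKernel Hc := by rw [hker]; exact hf
    have hfH : f ∉ Hc := by
      rcases h1 with h1 | h1
      · exact absurd h1 hf1
      · have h2 := h1 1
        intro h3
        apply h2
        rw [map_one, one_smul]
        exact h3
    have h2 := hHc.2.2 f hfH
    apply hh1
    have h3 : h ∈ Hc ⊓ (MulAut.conj f • Hc) := by
      refine Subgroup.mem_inf.2 ⟨hh, ?_⟩
      rw [Subgroup.mem_pointwise_smul_iff_inv_smul_mem]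
      have h4 : (MulAut.conj f)⁻¹ • h = h := by
        rw [← map_inv]
        change f⁻¹ * h * f⁻¹⁻¹ = h
        have h5 : h * f = f * h := by
          calc h * f = h * f * h⁻¹ * h := by group
            _ = f * h := by rw [hcomm]
        rw [inv_inv, mul_assoc, h5]; group
      rw [h4]; exact hh
    rw [h2, Subgroup.mem_bot] at h3
    exact h3
  -- the part of the kernel of order prime to the characteristic
  obtain ⟨K, hKc, hKk, hKfix⟩ : ∃ K : Subgroup Fk, K.Characteristic ∧ (Nat.card K : k) ≠ 0 ∧
      ∀ v : V, (∀ x ∈ K, ρ (x : A) v = v) → v = 0 := by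
    rcases CharP.exists k with ⟨p, hp⟩
    rcases CharP.char_is_prime_or_zero k p with hpp | hp0
    · have : Fact p.Prime := ⟨hpp⟩
      refine ⟨pPrimeCore p Fk, Lib.Cores.pPrimeCore_characteristic p, ?_, ?_⟩
      · intro h0
        rw [CharP.cast_eq_zero_iff k p] at h0
        have h1 : (Nat.card (pPrimeCore p Fk)).Coprime p := Lib.Cores.pPrimeCore_coprime p
        rw [Nat.coprime_comm, Nat.Prime.coprime_iff_not_dvd hpp] at h1
        exact h1 h0
      · intro v hv
        by_contra hv0
        let U : Submodule k V :=
          { carrier := {w | ∀ x ∈ pPrimeCore p Fk, ρ (x : A) w = w}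
            add_mem' := fun {a b} ha hb x hx => by rw [map_add, ha x hx, hb x hx]
            zero_mem' := fun x _ => map_zero _
            smul_mem' := fun c w hw x hx => by rw [map_smul, hw x hx] }
        have hU0 : U ≠ ⊥ := by
          intro h
          have : v ∈ U := hv
          rw [h, Submodule.mem_bot] at this
          exact hv0 this
        have hnorm : (pPrimeCore p Fk).Normal := inferInstance
        let σ : ↥(pCore p Fk) →* Module.End k V :=
          (ρ.comp Fk.subtype).comp (pCore p Fk).subtype
        obtain ⟨w, hwU, hw0, hw⟩ := H583.PFixed.exists_fixed (Lib.Cores.pCore_isPGroup (G := Fk) p) σ U (by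
          intro a w hw x hx
          have h1 : ρ (x : A) (ρ ((a : Fk) : A) w) = ρ ((a : Fk) : A) (ρ (((a : Fk)⁻¹ * x * (a : Fk) : Fk) : A) w) := by
            have h2 : ∀ (s t : A) (u : V), ρ s (ρ t u) = ρ (s * t) u := fun s t u => by rw [map_mul]; rfl
            rw [h2, h2]
            congr 2
            simp only [Subgroup.coe_mul, Subgroup.coe_inv]
            group
          change ρ (x : A) (ρ ((a : Fk) : A) w) = ρ ((a : Fk) : A) w
          rw [h1, hw _ (by
            have := hnorm.conj_mem x hx (a : Fk)⁻¹
            rwa [inv_inv] at this)]) hU0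
        apply hw0
        apply hCF
        intro f hf
        have htop := OddOrderLocal.NilpotentCores.pCore_sup_pPrimeCore hnil p
        have h1 : (⟨f, hf⟩ : Fk) ∈ pCore p Fk ⊔ pPrimeCore p Fk := by rw [htop]; trivial
        obtain ⟨a, ha, b, hb, hab⟩ := Subgroup.mem_sup_of_normal_right.1 h1
        have h2 : f = (a : A) * b := (congrArg Subtype.val hab).symm
        rw [h2, map_mul]
        change ρ (a : A) (ρ (b : A) w) = w
        rw [hwU b hb]
        exact hw ⟨a, ha⟩
    · subst hp0
      have : CharZero k := CharP.charP_to_charZero k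
      refine ⟨⊤, inferInstance, ?_, ?_⟩
      · rw [Nat.cast_ne_zero]
        exact Nat.card_pos.ne'
      · intro v hv
        exact hCF v fun f hf => hv ⟨f, hf⟩ trivial
  have hKn : Group.IsNilpotent K := inferInstance
  let α : Hc →* MulAut K := (resAut K).comp (MulAut.conjNormal.comp Hc.subtype)
  have hα : ∀ (h : Hc) (x : K), (((α h x : K) : Fk) : A) = h * ((x : Fk) : A) * (h : A)⁻¹ := by
    intro h x
    change ((MulAut.conjNormal (h : A) (x : Fk) : Fk) : A) = _
    exact MulAut.conjNormal_apply _ _
  let τ : K → Module.End k V := fun x => ρ ((x : Fk) : A)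
  have hfree : HFree (ρ.comp Hc.subtype) (τ 1) := by
    refine hfree_nilpotent_aux (k := k) (ρ.comp Hc.subtype) K inferInstance α ?_ hKk τ ?_ ?_ ?_
    · intro h hh x hx
      have h1 : (((α h x : K) : Fk) : A) = ((x : Fk) : A) := congrArg (fun y : K => ((y : Fk) : A)) hx
      rw [hα] at h1
      have h2 := hfpf h h.2 (fun h3 => hh (Subtype.ext h3)) _ (x : Fk).2 h1
      exact Subtype.ext (Subtype.ext h2)
    · intro a b
      exact map_mul ρ _ _
    · intro h x
      change ρ (h : A) * ρ ((x : Fk) : A) = ρ (((α h x : K) : Fk) : A) * ρ (h : A)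
      rw [hα, ← map_mul, ← map_mul]
      congr 1
      group
    · have := Fintype.ofFinite K
      rw [finsum_eq_sum_of_fintype]
      ext v
      apply hKfix
      intro x hx
      rw [LinearMap.sum_apply, map_sum]
      refine Fintype.sum_equiv (Equiv.mulLeft (⟨x, hx⟩ : K)) _ _ (fun y => ?_)
      change ρ (x : A) (ρ ((y : Fk) : A) v) = ρ (((x * (y : Fk) : Fk)) : A) v
      rw [Subgroup.coe_mul, map_mul]
      rfl
  have hτ1 : τ 1 = 1 := map_one ρ
  rw [hτ1] at hfree
  exact exists_isInternal (ρ.comp Hc.subtype) hfree

end Cfsg.Agent.S4396
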