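-- S4397: a finite 2-group of sectional 2-rank at most 2 is metacyclic (Blackburn).
import Cfsg.Statements.S4397
import Mathlib
import Cfsg.Agent.H583.MetaTwo

set_option autoImplicit false
open Cfsg

namespace Cfsg.Agent.S4397

/-- A finite 2-group of sectional 2-rank at most 2 (every section has no elementary abelian subgroup of order 8) is metacyclic: it has a cyclic normal subgroup with cyclic quotient. -/
theorem result {S : Type*} [Group S] [Finite S] (h2 : IsPGroup 2 S) (hr : Cfsg.SectionalPRankLE 2 2 S) : Cfsg.IsMetacyclic S :=
  Cfsg.Agent.H583.MetaTwo.isMetacyclic h2 hr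

end Cfsg.Agent.S4397
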