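import Cfsg.Statements.S4400
import Cfsg.Agent.H584.Pair

set_option autoImplicit false
open Cfsg

namespace Cfsg.Agent.S4400

/-- Let S be a finite 2-group of sectional 2-rank at most 4, and let P and Q be normal non-abelian subgroups of S whose centres have order 2 and are different. Then P and Q commute elementwise and intersect trivially, and PQ contains its own centralizer in S. -/
theorem result {S : Type*} [Group S] [Finite S] (h2 : IsPGroup 2 S) (hr : Cfsg.SectionalPRankLE 2 4 S)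
    (P Q : Subgroup S) [P.Normal] [Q.Normal] (hP : ¬ IsMulCommutative ↥P) (hQ : ¬ IsMulCommutative ↥Q)
    (hZP : Nat.card ↥(Subgroup.center ↥P) = 2) (hZQ : Nat.card ↥(Subgroup.center ↥Q) = 2)
    (hne : (Subgroup.center ↥P).map P.subtype ≠ (Subgroup.center ↥Q).map Q.subtype) :
    ⁅P, Q⁆ = ⊥ ∧ P ⊓ Q = ⊥ ∧ Subgroup.centralizer ((P ⊔ Q : Subgroup S) : Set S) ≤ P ⊔ Q := by
  obtain ⟨z, hz, hzm⟩ := Cfsg.Agent.H584.Pair.exists_gen hZP
  obtain ⟨w, hw, hwm⟩ := Cfsg.Agent.H584.Pair.exists_gen hZQ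
  have hzw : z ≠ w := by
    rintro rfl
    exact hne (hzm.trans hwm.symm)
  have hPn : ∀ t ∈ (⊤ : Subgroup S), ∀ x ∈ P, t * x * t⁻¹ ∈ P := fun t _ x hx =>
    Subgroup.Normal.conj_mem inferInstance x hx t
  have hQn : ∀ t ∈ (⊤ : Subgroup S), ∀ x ∈ Q, t * x * t⁻¹ ∈ Q := fun t _ x hx =>
    Subgroup.Normal.conj_mem inferInstance x hx t
  have hna : ∀ R : Subgroup S, ¬ IsMulCommutative ↥R → ∃ a ∈ R, ∃ b ∈ R, a * b ≠ b * a := by
    intro R hR
    by_contra hcon
    push Not at hcon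
    exact hR ⟨⟨fun a b => Subtype.ext (hcon a a.2 b b.2)⟩⟩
  have hinf := Cfsg.Agent.H584.Pair.inf_eq_bot h2 hz hw hzw le_top le_top hPn hQn
  refine ⟨?_, hinf, ?_⟩
  · rw [eq_bot_iff, ← hinf]
    exact Subgroup.commutator_le_inf P Q
  · intro x hx
    rw [Subgroup.mem_centralizer_iff] at hx
    refine Cfsg.Agent.H584.Pair.centralizer_pair h2 hr hz hw hzw le_top le_top hPn hQn (hna P hP)
      (hna Q hQ) ?_ ?_
    · intro p hp
      exact (hx p (Subgroup.mem_sup_left hp)).symm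
    · intro q hq
      exact (hx q (Subgroup.mem_sup_right hq)).symm

end Cfsg.Agent.S4400
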