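import Cfsg.Statements.S4401
import Cfsg.Agent.H584.Index

set_option autoImplicit false
open Cfsg

namespace Cfsg.Agent.S4401

/-- Let S be a finite 2-group of sectional 2-rank at most 4 and P a proper non-abelian subgroup whose centre has order 2. Let S₀ be the centralizer in S of Z(P) and suppose P is normal in S₀. Then either S₀ = S, or P has sectional 2-rank at most 2 and S₀ has index 2 in S. -/
theorem result {S : Type*} [Group S] [Finite S] (h2 : IsPGroup 2 S) (hr : Cfsg.SectionalPRankLE 2 4 S)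
    (P : Subgroup S) (hPlt : P ≠ ⊤) (hP : ¬ IsMulCommutative ↥P) (hZP : Nat.card ↥(Subgroup.center ↥P) = 2)
    (S₀ : Subgroup S) (hS₀ : S₀ = Subgroup.centralizer (((Subgroup.center ↥P).map P.subtype : Subgroup S) : Set S))
    (hPn : ∀ s ∈ S₀, ∀ x ∈ P, s * x * s⁻¹ ∈ P) :
    S₀ = ⊤ ∨ (Cfsg.SectionalPRankLE 2 2 ↥P ∧ S₀.index = 2) := by
  obtain ⟨z, hz, hzm⟩ := Cfsg.Agent.H584.Pair.exists_gen hZP
  have hna : ∃ a ∈ P, ∃ b ∈ P, a * b ≠ b * a := by
    by_contra hcon
    push Not at hcon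
    exact hP ⟨⟨fun a b => Subtype.ext (hcon a a.2 b b.2)⟩⟩
  refine Cfsg.Agent.H584.Index.main h2 hr hz hna ?_ hPn
  intro x
  rw [hS₀, hzm, Subgroup.mem_centralizer_iff]
  constructor
  · intro h
    exact (h z (Subgroup.mem_zpowers z)).symm
  · rintro h _ ⟨k, rfl⟩
    exact ((show Commute x z from h).zpow_right k).eq.symm

end Cfsg.Agent.S4401
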