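import Cfsg.Statements.S4402
import Cfsg.Agent.H584.WrFinal

set_option autoImplicit false
open Cfsg

namespace Cfsg.Agent.S4402

/-- Let S be a finite 2-group of sectional 2-rank at most 4 and P a proper subgroup isomorphic to the wreath product of the dihedral group of order 8 by a group of order 2 (equivalently, to a Sylow 2-subgroup of the symmetric group of degree 8; order 128). Then Z(S) = Z(P) has order 2, P has index 2 in its normalizer N_S(P), N_S(P)/Z(S) is again isomorphic to that wreath product, and every elementary abelian subgroup V of order 16 that is normal in P satisfies N_S(V) = P. -/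
theorem result {S : Type*} [Group S] [Finite S] (h2 : IsPGroup 2 S) (hr : Cfsg.SectionalPRankLE 2 4 S)
    (P : Subgroup S) (hPlt : P ≠ ⊤) (hP : ∃ T : Sylow 2 (Equiv.Perm (Fin 8)), Nonempty (↥P ≃* ↥(T : Subgroup (Equiv.Perm (Fin 8))))) :
    Subgroup.center S = (Subgroup.center ↥P).map P.subtype ∧ Nat.card ↥(Subgroup.center S) = 2 ∧
    P.relIndex (Subgroup.normalizer (P : Set S)) = 2 ∧
    (∃ (_ : ((Subgroup.center S).subgroupOf (Subgroup.normalizer (P : Set S))).Normal) (T : Sylow 2 (Equiv.Perm (Fin 8))),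
      Nonempty (↥(Subgroup.normalizer (P : Set S)) ⧸ (Subgroup.center S).subgroupOf (Subgroup.normalizer (P : Set S)) ≃*
        ↥(T : Subgroup (Equiv.Perm (Fin 8))))) ∧
    ∀ V : Subgroup S, V ≤ P → (∀ g ∈ P, ∀ v ∈ V, g * v * g⁻¹ ∈ V) → Cfsg.IsElementaryAbelian 2 V → Nat.card ↥V = 16 →
      Subgroup.normalizer (V : Set S) = P := by
  obtain ⟨T, ⟨e⟩⟩ := hP
  obtain ⟨f⟩ := Cfsg.Agent.H584.WrModel.equiv_sylow T
  -- the embedding of the model
  let ι : Cfsg.Agent.H584.WrModel.W →* S := P.subtype.comp ((f.trans e.symm).toMonoidHom)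
  have hι : Function.Injective ι := P.subtype_injective.comp (f.trans e.symm).injective
  have hrange : ι.range = P := by
    apply le_antisymm
    · rintro _ ⟨w, rfl⟩
      exact (((f.trans e.symm) w : P)).2
    · intro p hp
      refine ⟨(f.trans e.symm).symm ⟨p, hp⟩, ?_⟩
      change P.subtype ((f.trans e.symm) ((f.trans e.symm).symm ⟨p, hp⟩)) = p
      rw [MulEquiv.apply_symm_apply]
      rfl
  have hcS := Cfsg.Agent.H584.WrRank.center_eq h2 hr ι hι
  have hcard := Cfsg.Agent.H584.WrRank.card_zpowers_wz ι hι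
  have hne : ι.range ≠ ⊤ := by rw [hrange]; exact hPlt
  have hcP : (Subgroup.center ↥P).map P.subtype = Subgroup.zpowers (ι Cfsg.Agent.H584.WrModel.W.wz) := by
    apply le_antisymm
    · rintro _ ⟨z, hz, rfl⟩
      have hzP : (z : S) ∈ ι.range := by rw [hrange]; exact z.2
      obtain ⟨v, hv⟩ := hzP
      rcases Cfsg.Agent.H584.WrModel.W.center_le v (by
        intro y
        apply hι
        rw [map_mul, map_mul, hv]
        have hyP : ι y ∈ P := by rw [← hrange]; exact ⟨y, rfl⟩
        exact (congrArg Subtype.val (Subgroup.mem_center_iff.1 hz ⟨ι y, hyP⟩)).symm) with h | h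
      · rw [Subgroup.coe_subtype, ← hv, h, map_one]
        exact one_mem _
      · rw [Subgroup.coe_subtype, ← hv, h]
        exact Subgroup.mem_zpowers _
    · rw [Subgroup.zpowers_le]
      have hzc : ι Cfsg.Agent.H584.WrModel.W.wz ∈ Subgroup.center S := by
        rw [hcS]; exact Subgroup.mem_zpowers _
      have hzP : ι Cfsg.Agent.H584.WrModel.W.wz ∈ P := by rw [← hrange]; exact ⟨_, rfl⟩
      refine ⟨⟨_, hzP⟩, ?_, rfl⟩
      rw [SetLike.mem_coe, Subgroup.mem_center_iff]
      intro g
      exact Subtype.ext (Subgroup.mem_center_iff.1 hzc g)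
  have hnorm : ((Subgroup.center S).subgroupOf (Subgroup.normalizer (P : Set S))).Normal := by
    constructor
    intro n hn g
    rw [Subgroup.mem_subgroupOf] at hn ⊢
    exact Subgroup.Normal.conj_mem inferInstance _ hn g
  refine ⟨hcS.trans hcP.symm, by rw [hcS]; exact hcard, ?_, ⟨hnorm, T, ?_⟩, ?_⟩
  · have h := Cfsg.Agent.H584.WrRank.relIndex_eq_two h2 hr ι hι hne
    rwa [hrange] at h
  · have h := Cfsg.Agent.H584.WrRank.quotient_equiv h2 hr ι hι hne
    rw [hrange] at h
    obtain ⟨g⟩ := h hnorm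
    exact ⟨g.trans f⟩
  · intro V hVP hVn hVe hVcard
    -- `V` is the image of `A0` or `B0`
    have hV : (V.comap ι).map ι = V := by
      rw [Subgroup.map_comap_eq, hrange]
      exact inf_eq_right.2 hVP
    have hVc : V.comap ι = Cfsg.Agent.H584.WrModel.A0 ∨ V.comap ι = Cfsg.Agent.H584.WrModel.B0 := by
      apply Cfsg.Agent.H584.WrModel.eq_A0_or_B0
      · intro g v hv
        rw [Subgroup.mem_comap] at hv ⊢
        rw [map_mul, map_mul, map_inv]
        exact hVn _ (by rw [← hrange]; exact ⟨g, rfl⟩) _ hv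
      · intro v hv w hw
        apply hι
        rw [map_mul, map_mul]
        exact congrArg Subtype.val (hVe.1.is_comm.comm (⟨ι v, hv⟩ : V) ⟨ι w, hw⟩)
      · intro v hv
        apply hι
        rw [map_mul, map_one, ← pow_two]
        exact hVe.2 _ hv
      · rw [← hVcard]
        conv_rhs => rw [← hV]
        rw [Subgroup.card_map_of_injective hι]
    rcases hVc with h | h
    · rw [← hV, h, ← hrange]
      exact le_antisymm (Cfsg.Agent.H584.WrRank.norm_A h2 hr ι hι)
        (Cfsg.Agent.H584.WrRank.range_le_norm_A ι)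
    · rw [← hV, h, ← hrange]
      exact le_antisymm (Cfsg.Agent.H584.WrRank.norm_B h2 hr ι hι)
        (Cfsg.Agent.H584.WrRank.range_le_norm_B ι)

end Cfsg.Agent.S4402
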