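import Cfsg.Statements.S4404
-- import your own Cfsg.Agent.* helpers here
import Cfsg.Agent.H585.Seven
import Cfsg.Agent.S0004
import Cfsg.Agent.S0005

set_option autoImplicit false
open Cfsg

namespace Cfsg.Agent.S4404

open Subgroup Cfsg.Agent.H585.ModTwo Cfsg.Agent.H585.RankB Cfsg.Agent.H585.MoveFour Cfsg.Agent.H585.Seven
open scoped commutatorElement Pointwise

theorem hall_pair {S : Type*} [Group S] [Finite S] [Group.IsSolvable S] {m n : ℕ} (hS : Nat.card S = m * n)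
    (hmn : m.Coprime n) (Q E : Subgroup S) (hQ : (Nat.card ↥Q).Coprime n) (hE : (Nat.card ↥E).Coprime n) :
    ∃ (H : Subgroup S) (g : S), Nat.card ↥H = m ∧ Q ≤ H ∧ E.map (MulAut.conj g).toMonoidHom ≤ H := by
  obtain ⟨H, hH, hQH⟩ := Cfsg.Agent.S0005.result m n hS hmn Q hQ
  obtain ⟨H', hH', hEH⟩ := Cfsg.Agent.S0005.result m n hS hmn E hE
  obtain ⟨g, hg⟩ := Cfsg.Agent.S0004.result m n hS hmn H' H hH' hH
  refine ⟨H, g, hH, hQH, ?_⟩
  rw [← hg]
  exact Subgroup.map_mono hEH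

theorem elem_conj {S : Type*} [Group S] [Finite S] {p : ℕ} {E : Subgroup S} (hE : Cfsg.IsElementaryAbelian p E)
    (hE3 : Nat.card ↥E = p ^ 3) (g : S) : Cfsg.IsElementaryAbelian p (E.map (MulAut.conj g).toMonoidHom) ∧
      Nat.card ↥(E.map (MulAut.conj g).toMonoidHom) = p ^ 3 := by
  refine ⟨elem_map hE _, ?_⟩
  rw [Subgroup.card_map_of_injective (MulEquiv.injective (MulAut.conj g)), hE3]

theorem closure_comm {S : Type*} [Group S] {M : Subgroup S} (hM : Hyp M) (x : S) :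
    ⁅zpowers x, M⁆ = cm hM x := by
  apply le_antisymm
  · rw [Subgroup.commutator_le]
    intro q hq m hm
    obtain ⟨k, rfl⟩ := mem_zpowers_iff.mp hq
    exact cm_zpow_le hM x k ⟨m, hm, by rw [commutatorElement_def]⟩
  · rintro _ ⟨m, hm, rfl⟩
    have := Subgroup.commutator_mem_commutator (mem_zpowers x) hm
    rwa [commutatorElement_def] at this

/-- Let S be a finite solvable group and M a normal elementary abelian 2-subgroup of S. Suppose S contains an elementary abelian subgroup of order p³ for some odd prime p, and a cyclic 3-subgroup Q such that the cubes of the elements of Q centralize M and the commutator subgroup [Q, M] has order 4 (a four-group inside M). Then S contains an elementary abelian subgroup F of order r³, for some odd prime r, whose centralizer of [Q, M] in F — the subgroup C_F([Q, M]) — is not cyclic. -/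
theorem result {S : Type*} [Group S] [Finite S]
    [Group.IsSolvable S] (M : Subgroup S) [M.Normal] (hM : Cfsg.IsElementaryAbelian 2 M)
    (p : ℕ) (hp : p.Prime) (hp2 : p ≠ 2) (E : Subgroup S) (hE : Cfsg.IsElementaryAbelian p E) (hE3 : Nat.card ↥E = p ^ 3)
    (Q : Subgroup S) (hQc : IsCyclic ↥Q) (hQ3 : IsPGroup 3 ↥Q)
    (hQ1 : ∀ x ∈ Q, x ^ 3 ∈ Subgroup.centralizer (M : Set S)) (hQM : Nat.card ↥⁅Q, M⁆ = 4) :
    ∃ (r : ℕ) (F : Subgroup S), r.Prime ∧ r ≠ 2 ∧ Cfsg.IsElementaryAbelian r F ∧ Nat.card ↥F = r ^ 3 ∧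
      ¬ IsCyclic ↥(F ⊓ Subgroup.centralizer ((⁅Q, M⁆ : Subgroup S) : Set S)) := by
  obtain ⟨x, hxQ⟩ : ∃ x, Q = zpowers x := by
    obtain ⟨g, hg⟩ := hQc.exists_generator
    refine ⟨g, le_antisymm ?_ ?_⟩
    · intro q hq
      obtain ⟨k, hk⟩ := mem_zpowers_iff.mp (hg ⟨q, hq⟩)
      exact mem_zpowers_iff.mpr ⟨k, by simpa using congrArg Subtype.val hk⟩
    · rw [zpowers_le]; exact g.2
  subst hxQ
  have hMn : M.Normal := inferInstance
  have H0 : Hyp M := ⟨inferInstance, Cfsg.Agent.Omega.Sec.Basic.comm_of hM.1, fun a ha => by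
    have := hM.2 a ha
    rwa [pow_two] at this⟩
  rw [closure_comm H0] at hQM ⊢
  have hCn : (centralizer (M : Set S)).Normal := inferInstance
  have hx3 : x ^ 3 ∈ centralizer (M : Set S) := hQ1 x (mem_zpowers x)
  have hf3 : Fact (Nat.Prime 3) := ⟨Nat.prime_three⟩
  have hfp : Fact p.Prime := ⟨hp⟩
  have hSpos : Nat.card S ≠ 0 := Nat.card_pos.ne'
  obtain ⟨c, hc⟩ := (IsPGroup.iff_card).1 hQ3
  obtain ⟨a, N1, hN1, hSN⟩ := Nat.exists_eq_pow_mul_and_not_dvd hSpos 3 (by norm_num)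
  have hcp3 : Nat.Coprime 3 N1 := Nat.prime_three.coprime_iff_not_dvd.mpr hN1
  rcases eq_or_ne p 3 with rfl | hp3
  · obtain ⟨P, g, hP, hxP, hEP⟩ := hall_pair hSN (Nat.Coprime.pow_left a hcp3) (zpowers x) E
      (by rw [hc]; exact Nat.Coprime.pow_left c hcp3) (by rw [hE3]; exact Nat.Coprime.pow_left 3 hcp3)
    obtain ⟨hE', hE3'⟩ := elem_conj hE hE3 g
    obtain ⟨F, hF1, hF2, hF3⟩ := case3 H0 (IsPGroup.of_card hP) (hxP (mem_zpowers x)) hx3 hQM hEP hE' hE3'
    exact ⟨3, F, hp, hp2, hF1, hF2, hF3⟩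
  have hp5 : 5 ≤ p := by
    have h2 := hp.two_le
    by_contra h
    have : p = 4 := by omega
    rw [this] at hp
    revert hp; decide
  have hN1pos : N1 ≠ 0 := by
    rintro rfl
    exact hN1 (dvd_zero 3)
  obtain ⟨b, n, hn, hNn⟩ := Nat.exists_eq_pow_mul_and_not_dvd hN1pos p hp.one_lt.ne'
  have hcpn : Nat.Coprime p n := hp.coprime_iff_not_dvd.mpr hn
  have hc3n : Nat.Coprime 3 n := Nat.Coprime.coprime_dvd_right ⟨p ^ b, by rw [mul_comm]; exact hNn⟩ hcp3
  have hSm : Nat.card S = (3 ^ a * p ^ b) * n := by rw [hSN, hNn]; ring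
  obtain ⟨H, g, hH, hxH, hEH⟩ := hall_pair hSm
    (Nat.Coprime.mul_left (Nat.Coprime.pow_left a hc3n) (Nat.Coprime.pow_left b hcpn)) (zpowers x) E
      (by rw [hc]; exact Nat.Coprime.pow_left c hc3n) (by rw [hE3]; exact Nat.Coprime.pow_left 3 hcpn)
  rw [zpowers_le] at hxH
  obtain ⟨hE', hE3'⟩ := elem_conj hE hE3 g
  have hrd3 : RD 3 2 := Or.inl ⟨rfl, rfl⟩
  by_cases hcomm : ∀ h ∈ H, ⁅x, h * x * h⁻¹⁆ ∈ centralizer (M : Set S)
  · by_cases hEN : E.map (MulAut.conj g).toMonoidHom ≤ normalizer ((cm H0 x : Subgroup S) : Set S)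
    · refine ⟨p, _, hp, hp2, hE', hE3', ?_⟩
      have h1 := relIndex_centralizer_dvd hEN
      rw [card_mulAut (fun a ha b hb => H0.comm a (cm_le H0 x ha) b (cm_le H0 x hb))
        (fun a ha => H0.sq a (cm_le H0 x ha)) (n := 2) hQM, gl_two] at h1
      have h2 : (centralizer ((cm H0 x : Subgroup S) : Set S)).relIndex (E.map (MulAut.conj g).toMonoidHom) ∣ p ^ 3 := by
        rw [← hE3']; exact Subgroup.relIndex_dvd_card _ _
      have h3 : Nat.Coprime (p ^ 3) 6 := by
        apply Nat.Coprime.pow_left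
        have : (6 : ℕ) = 2 * 3 := by norm_num
        rw [this]
        apply Nat.Coprime.mul_right
        · rw [Nat.coprime_primes hp Nat.prime_two]; exact hp2
        · rw [Nat.coprime_primes hp Nat.prime_three]; exact hp3
      have h4 := Nat.eq_one_of_dvd_coprimes h3 h2 h1
      rw [Subgroup.relIndex_eq_one] at h4
      rw [inf_eq_left.mpr h4]
      apply not_isCyclic_of (r := p) (fun w hw => hE'.2 w hw)
      rw [hE3']
      exact Nat.pow_le_pow_right hp.pos (by norm_num)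
    · obtain ⟨e, heE, heN⟩ := SetLike.not_le_iff_exists.mp hEN
      obtain ⟨F, _, hF1, hF2, hF3⟩ := four_of_large H0 hrd3 H hQ3 hx3 hQM hxH hcomm hp hp5 (hEH heE)
        (hE'.2 e heE) heN
      exact ⟨3, F, Nat.prime_three, by norm_num, hF1, hF2, hF3⟩
  · push Not at hcomm
    obtain ⟨h, hhH, hh⟩ := hcomm
    have hD : Nat.card ↥(closure ({x, h * x * h⁻¹} : Set S)) ∣ 3 ^ a * p ^ b := by
      rw [← hH]
      apply Subgroup.card_dvd_of_le
      rw [closure_le]
      rintro w hw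
      simp only [Set.mem_insert_iff, Set.mem_singleton_iff] at hw
      rcases hw with rfl | rfl
      · exact hxH
      · exact mul_mem (mul_mem hhH hxH) (inv_mem hhH)
    obtain ⟨rfl, t, htp, ht7, hct, hxt⟩ := exists_seven H0 hp hp5 hD hx3
      (by rw [conj_pow]; exact hCn.conj_mem _ hx3 _) hQM (by rw [card_cm_conj]; exact hQM) hh
    have hrd7 : RD 7 3 := Or.inr ⟨rfl, rfl⟩
    obtain ⟨c', hc'⟩ := (IsPGroup.iff_card).1 htp
    obtain ⟨b', n', hn', hSn'⟩ := Nat.exists_eq_pow_mul_and_not_dvd hSpos 7 (by norm_num)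
    have hcp7 : Nat.Coprime 7 n' := hp.coprime_iff_not_dvd.mpr hn'
    obtain ⟨P, g', hP, htP, hEP⟩ := hall_pair hSn' (Nat.Coprime.pow_left b' hcp7) (zpowers t) E
      (by rw [hc']; exact Nat.Coprime.pow_left c' hcp7) (by rw [hE3]; exact Nat.Coprime.pow_left 3 hcp7)
    rw [zpowers_le] at htP
    have hPp : IsPGroup 7 ↥P := IsPGroup.of_card hP
    obtain ⟨hE'', hE3''⟩ := elem_conj hE hE3 g'
    have hfinal : ∃ F : Subgroup S, Cfsg.IsElementaryAbelian 7 F ∧ Nat.card ↥F = 7 ^ 3 ∧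
        ¬ IsCyclic ↥(F ⊓ centralizer ((cm H0 t : Subgroup S) : Set S)) := by
      by_cases hEN : E.map (MulAut.conj g').toMonoidHom ≤ normalizer ((cm H0 t : Subgroup S) : Set S)
      · exact ⟨_, hE'', hE3'', noncyclic_of H0 hrd7 hE'' hE3'' (cm_le H0 t) hct hEN⟩
      · obtain ⟨e, heE, heN⟩ := SetLike.not_le_iff_exists.mp hEN
        obtain ⟨F, _, hF⟩ := four_of_large H0 hrd7 P htp ht7 hct htP (comm_conj_of_pgroup H0 hrd7 hPp htP hct) hp
          (by norm_num) (hEP heE) (hE''.2 e heE) heN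
        exact ⟨F, hF⟩
    obtain ⟨F, hF1, hF2, hF3⟩ := hfinal
    refine ⟨7, F, hp, hp2, hF1, hF2, ?_⟩
    intro hcyc
    apply hF3
    have hle : F ⊓ centralizer ((cm H0 t : Subgroup S) : Set S) ≤ F ⊓ centralizer ((cm H0 x : Subgroup S) : Set S) := by
      apply inf_le_inf_left
      exact Subgroup.centralizer_le hxt
    exact isCyclic_of_injective (inclusion hle) (inclusion_injective hle)

end Cfsg.Agent.S4404
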