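import Cfsg.Statements.S4405
import Cfsg.Agent.Lib.FrattiniPGroup

set_option autoImplicit false
open Cfsg

namespace Cfsg.Agent.S4405

open scoped commutatorElement

theorem card_mul_relIndex' {G : Type*} [Group G] {H K : Subgroup G} (h : H ≤ K) :
    Nat.card ↥H * H.relIndex K = Nat.card ↥K := by
  have := Subgroup.relIndex_mul_relIndex ⊥ H K bot_le h
  rwa [Subgroup.relIndex_bot_left, Subgroup.relIndex_bot_left] at this

/-- An element of order dividing 5 acting by conjugation on a normal subgroup of order 32 with at least 4 fixed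
points centralizes it. -/
theorem centralizes_of_four {G : Type*} [Group G] [Finite G] (H : Subgroup G) [H.Normal]
    (h32 : Nat.card ↥H = 32) (s : G) (hs : s ^ 5 = 1) (K : Subgroup G) (hKH : K ≤ H)
    (hK : 4 ≤ Nat.card ↥K) (hKs : ∀ k ∈ K, Commute k s) : ∀ h ∈ H, Commute h s := by
  have : Fact (Nat.Prime 5) := ⟨by decide⟩
  let act : MulAction ↥(Subgroup.zpowers s) ↥H :=
    MulAction.compHom ↥H ((MulAut.conjNormal (H := H)).comp (Subgroup.zpowers s).subtype)
  have hsmul : ∀ (g : ↥(Subgroup.zpowers s)) (x : ↥H), ((g • x : ↥H) : G) = (g : G) * x * (g : G)⁻¹ := by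
    intro g x
    rfl
  have hp : IsPGroup 5 ↥(Subgroup.zpowers s) := by
    intro g
    obtain ⟨g, hg⟩ := g
    obtain ⟨k, rfl⟩ := Subgroup.mem_zpowers_iff.mp hg
    refine ⟨1, Subtype.ext ?_⟩
    show (s ^ k) ^ (5 ^ 1) = 1
    rw [pow_one, ← zpow_natCast, ← zpow_mul, mul_comm, zpow_mul, zpow_natCast, hs, one_zpow]
  have hmod := hp.card_modEq_card_fixedPoints ↥H
  rw [h32] at hmod
  -- the fixed points form a subgroup
  let C : Subgroup G := H ⊓ Subgroup.centralizer {s}
  have hC : Nat.card ↥(MulAction.fixedPoints ↥(Subgroup.zpowers s) ↥H) = Nat.card ↥C := by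
    apply Nat.card_congr
    refine ⟨fun x => ⟨x.1.1, ⟨x.1.2, ?_⟩⟩, fun x => ⟨⟨x.1, x.2.1⟩, ?_⟩, ?_, ?_⟩
    · have h1 := x.2 ⟨s, Subgroup.mem_zpowers s⟩
      have h2 := congrArg Subtype.val h1
      rw [hsmul] at h2
      show (x.1.1 : G) ∈ Subgroup.centralizer {s}
      rw [Subgroup.mem_centralizer_singleton_iff]
      exact (mul_inv_eq_iff_eq_mul.mp h2).symm
    · intro g
      obtain ⟨g, hg⟩ := g
      apply Subtype.ext
      rw [hsmul]
      have h3 : (x.1 : G) * s = s * x.1 := Subgroup.mem_centralizer_singleton_iff.mp x.2.2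
      obtain ⟨k, rfl⟩ := Subgroup.mem_zpowers_iff.mp hg
      have h4 : Commute (x.1 : G) (s ^ k) := (Commute.zpow_right h3 k)
      show s ^ k * (x.1 : G) * (s ^ k)⁻¹ = x.1
      rw [← h4.eq]; simp
    · intro x; rfl
    · intro x; rfl
  rw [hC] at hmod
  have hCH : Nat.card ↥C ∣ 32 := by
    rw [← h32]; exact Subgroup.card_dvd_of_le inf_le_left
  have hKC : K ≤ C := by
    intro k hk
    refine ⟨hKH hk, ?_⟩
    show k ∈ Subgroup.centralizer {s}
    rw [Subgroup.mem_centralizer_singleton_iff]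
    exact (hKs k hk).eq
  have hC4 : 4 ≤ Nat.card ↥C := hK.trans (Nat.card_le_card_of_injective _ (Subgroup.inclusion_injective hKC))
  have hC32 : Nat.card ↥C = 32 := by
    have h5 : Nat.card ↥C ≤ 32 := Nat.le_of_dvd (by norm_num) hCH
    generalize Nat.card ↥C = n at *
    interval_cases n <;> first | rfl | (exfalso; revert hCH; decide) | (exfalso; revert hmod; decide)
  have hCeq : C = H := Subgroup.eq_of_le_of_card_ge inf_le_left (by rw [hC32, h32])
  intro h hh
  rw [← hCeq] at hh
  exact Subgroup.mem_centralizer_singleton_iff.mp hh.2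

/-- A normal 5-element of a group with Fitting subgroup of order 32 is trivial: version used below. -/
theorem no_five {G : Type*} [Group G] [Finite G] (H : Subgroup G) [hHn : H.Normal]
    (h32 : Nat.card ↥H = 32) (hF : H = Cfsg.fittingSubgroup G) (s : G) (hs : s ^ 5 = 1) (hsH : s ∉ H)
    (hc : ∀ h ∈ H, Commute h s) (hn : (H ⊔ Subgroup.zpowers s).Normal) : False := by
  apply hsH
  rw [hF]
  have hN : (Subgroup.zpowers s).Normal := by
    constructor
    intro n hn' g
    obtain ⟨k, rfl⟩ := Subgroup.mem_zpowers_iff.mp hn'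
    have h1 : g * s * g⁻¹ ∈ H ⊔ Subgroup.zpowers s :=
      hn.conj_mem _ (Subgroup.mem_sup_right (Subgroup.mem_zpowers s)) g
    obtain ⟨h, hh, t, ht, hht⟩ := Subgroup.mem_sup_of_normal_left.mp h1
    obtain ⟨m, rfl⟩ := Subgroup.mem_zpowers_iff.mp ht
    have hcm : Commute h (s ^ m) := (hc h hh).zpow_right m
    have h5 : (h * s ^ m) ^ 5 = 1 := by
      rw [hht, conj_pow, hs]; simp
    rw [hcm.mul_pow, ← zpow_natCast (s ^ m), ← zpow_mul, mul_comm m, zpow_mul, zpow_natCast, hs, one_zpow,
      mul_one] at h5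
    have h6 : h ^ 32 = 1 := by
      have := pow_card_eq_one' (x := (⟨h, hh⟩ : ↥H))
      rw [h32] at this
      simpa using congrArg Subtype.val this
    have h7 : h = 1 := by
      have e : h ^ 1 = (h ^ 5) ^ 13 * ((h ^ 32) ^ 2)⁻¹ := by
        rw [← pow_mul, ← pow_mul, show 5 * 13 = 1 + 32 * 2 by norm_num, pow_add h 1 (32 * 2), mul_assoc,
          mul_inv_cancel, mul_one]
      rw [h5, h6] at e
      simpa using e
    rw [h7, one_mul] at hht
    rw [← MulAut.conj_apply, map_zpow, MulAut.conj_apply, ← hht]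
    exact Subgroup.zpow_mem _ (Subgroup.zpow_mem _ (Subgroup.mem_zpowers s) m) k
  have h8 : Subgroup.zpowers s ≤ Cfsg.fittingSubgroup G := by
    refine le_sSup ⟨hN, ?_⟩
    have : Fact (Nat.Prime 5) := ⟨by decide⟩
    have hp : IsPGroup 5 ↥(Subgroup.zpowers s) := by
      intro g
      obtain ⟨g, hg⟩ := g
      obtain ⟨k, rfl⟩ := Subgroup.mem_zpowers_iff.mp hg
      refine ⟨1, Subtype.ext ?_⟩
      show (s ^ k) ^ (5 ^ 1) = 1
      rw [pow_one, ← zpow_natCast, ← zpow_mul, mul_comm, zpow_mul, zpow_natCast, hs, one_zpow]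
    exact hp.isNilpotent
  exact h8 (Subgroup.mem_zpowers s)

/-- The main computation, for a normal subgroup `H` with a central subgroup `Z = {1, z}`. -/
theorem main_aux {G : Type*} [Group G] [Finite G] (H Z : Subgroup G) [hHn : H.Normal] [hZn : Z.Normal]
    (hG : Nat.card G = 320) (hH2 : ∀ N : Subgroup G, N.Normal → IsPGroup 2 N → N ≤ H)
    (hF : H = Cfsg.fittingSubgroup G) (h32 : Nat.card ↥H = 32) (hZH : Z ≤ H) (hZ2 : Nat.card ↥Z = 2)
    (hZc : ∀ z ∈ Z, ∀ g : G, Commute z g) (hsq : ∀ h ∈ H, h ^ 2 ∈ Z)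
    (hcomm : ∀ h ∈ H, ∀ k ∈ H, ⁅h, k⁆ ∈ Z) (T : G) (hT : T ^ 2 = 1) (hTH : T ∉ H) (c : G) (hc : c ∈ H)
    (hcT : Commute c T) : c ^ 2 = 1 := by
  classical
  set π := QuotientGroup.mk' Z with hπ
  have hπker : ∀ x y : G, π x = π y ↔ x⁻¹ * y ∈ Z := by
    intro x y
    exact QuotientGroup.eq
  have hπ1 : ∀ x : G, π x = 1 ↔ x ∈ Z := fun x => QuotientGroup.eq_one_iff x
  have hπsurj : Function.Surjective π := QuotientGroup.mk'_surjective Z
  have hHab : ∀ h ∈ H, ∀ k ∈ H, Commute (π h) (π k) := by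
    intro h hh k hk
    have := hcomm h hh k hk
    rw [← hπ1, map_commutatorElement, commutatorElement_eq_one_iff_commute] at this
    exact this
  have hHsq : ∀ h ∈ H, (π h) ^ 2 = 1 := by
    intro h hh
    rw [← map_pow, hπ1]; exact hsq h hh
  have hconjH : ∀ g : G, ∀ h ∈ H, g * h * g⁻¹ ∈ H := fun g h hh => hHn.conj_mem h hh g
  let D : G → Subgroup G := fun g => H ⊓ (Subgroup.centralizer {π g}).comap π
  have hDmem : ∀ g h : G, h ∈ D g ↔ h ∈ H ∧ Commute (π h) (π g) := by
    intro g h
    show h ∈ H ⊓ (Subgroup.centralizer {π g}).comap π ↔ _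
    rw [Subgroup.mem_inf, Subgroup.mem_comap, Subgroup.mem_centralizer_singleton_iff]
    rfl
  have hDH : ∀ g, D g ≤ H := fun g => inf_le_left
  have hZD : ∀ g, Z ≤ D g := by
    intro g z hz
    rw [hDmem]
    refine ⟨hZH hz, ?_⟩
    rw [(hπ1 z).mpr hz]; exact Commute.one_left _
  have hDdvd : Nat.card ↥(D T) ∣ 32 := by
    rw [← h32]; exact Subgroup.card_dvd_of_le (hDH T)
  -- Step 1: the order of `D T` is at most 8
  have hD8 : Nat.card ↥(D T) ≤ 8 := by
    by_contra hcon
    push Not at hcon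
    have h16 : (D T).relIndex H ≤ 2 := by
      have h1 := card_mul_relIndex' (H := D T) (K := H) (hDH T)
      rw [h32] at h1
      by_contra h3
      push Not at h3
      have h9 : 16 ≤ Nat.card ↥(D T) := by
        have h10 : Nat.card ↥(D T) ≤ 32 := Nat.le_of_dvd (by norm_num) hDdvd
        clear h1
        generalize Nat.card ↥(D T) = n at *
        interval_cases n <;> omega
      nlinarith
    -- a conjugate of `T` not congruent to `T`
    obtain ⟨y, hy⟩ : ∃ y : G, ⁅T, y⁆ ∉ H := by
      by_contra hall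
      push Not at hall
      apply hTH
      have hn : (H ⊔ Subgroup.zpowers T).Normal := by
        constructor
        intro n hn g
        have hcl : ∀ t ∈ Subgroup.zpowers T, g * t * g⁻¹ ∈ H ⊔ Subgroup.zpowers T := by
          intro t ht
          obtain ⟨k, rfl⟩ := Subgroup.mem_zpowers_iff.mp ht
          have h2 : g * T * g⁻¹ ∈ H ⊔ Subgroup.zpowers T := by
            have h4 := hall g
            have h5 : g * T * g⁻¹ = ⁅T, g⁆⁻¹ * T := by
              rw [commutatorElement_def]; simp [mul_assoc]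
            rw [h5]
            exact Subgroup.mul_mem _ (Subgroup.mem_sup_left (H.inv_mem h4))
              (Subgroup.mem_sup_right (Subgroup.mem_zpowers T))
          rw [← MulAut.conj_apply, map_zpow, MulAut.conj_apply]
          exact Subgroup.zpow_mem _ h2 k
        obtain ⟨h, hh, t, ht, rfl⟩ := Subgroup.mem_sup_of_normal_left.mp hn
        have : g * (h * t) * g⁻¹ = (g * h * g⁻¹) * (g * t * g⁻¹) := by simp [mul_assoc]
        rw [this]
        exact Subgroup.mul_mem _ (Subgroup.mem_sup_left (hconjH g h hh)) (hcl t ht)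
      have hp : IsPGroup 2 ↥(H ⊔ Subgroup.zpowers T) := by
        have hp1 : IsPGroup 2 ↥H := IsPGroup.of_card (n := 5) (by rw [h32]; norm_num)
        have hp2 : IsPGroup 2 ↥(Subgroup.zpowers T) := by
          intro g
          obtain ⟨g, hg⟩ := g
          obtain ⟨k, rfl⟩ := Subgroup.mem_zpowers_iff.mp hg
          refine ⟨1, Subtype.ext ?_⟩
          show (T ^ k) ^ (2 ^ 1) = 1
          rw [pow_one, ← zpow_natCast, ← zpow_mul, mul_comm, zpow_mul, zpow_natCast, hT, one_zpow]
        exact IsPGroup.to_sup_of_normal_left hp1 hp2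
      exact hH2 _ hn hp (Subgroup.mem_sup_right (Subgroup.mem_zpowers T))
    have hTi : T⁻¹ = T := by
      rw [inv_eq_iff_mul_eq_one, ← sq, hT]
    set T' := y * T * y⁻¹ with hT'
    set w := T * T' with hw
    have hwc : w = ⁅T, y⁆ := by
      rw [hw, hT', commutatorElement_def, hTi]; simp [mul_assoc]
    have hwH : w ∉ H := by rw [hwc]; exact hy
    -- w ^ 5 ∈ H
    have hw5 : w ^ 5 ∈ H := by
      have hq : Nat.card (G ⧸ H) = 10 := by
        have h1 := Subgroup.card_eq_card_quotient_mul_card_subgroup H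
        rw [hG, h32] at h1; omega
      have : Fact (Nat.Prime 5) := ⟨by decide⟩
      obtain ⟨P⟩ : Nonempty (Sylow 5 (G ⧸ H)) := inferInstance
      have hPc : Nat.card ↥(P : Subgroup (G ⧸ H)) = 5 := by
        rw [P.card_eq_multiplicity, hq]
        have : (10 : ℕ).factorization 5 = 1 := by
          rw [show (10 : ℕ) = 5 * 2 by norm_num, Nat.factorization_mul (by norm_num) (by norm_num)]
          simp [Nat.Prime.factorization, Nat.prime_five, Nat.prime_two]
        rw [this]; norm_num
      have hPi : (P : Subgroup (G ⧸ H)).index = 2 := by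
        have h1 := Subgroup.card_mul_index (P : Subgroup (G ⧸ H))
        rw [hPc, hq] at h1; omega
      have hPn : (P : Subgroup (G ⧸ H)).Normal := Subgroup.normal_of_index_eq_two hPi
      have hmem : (QuotientGroup.mk' H) w ∈ (P : Subgroup (G ⧸ H)) := by
        rw [hwc, map_commutatorElement]
        have hq2 : Nat.card ((G ⧸ H) ⧸ (P : Subgroup (G ⧸ H))) = 2 := hPi
        have : Fact (Nat.Prime 2) := ⟨by decide⟩
        have hcyc : IsCyclic ((G ⧸ H) ⧸ (P : Subgroup (G ⧸ H))) := isCyclic_of_prime_card hq2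
        have hcom : ∀ a b : (G ⧸ H) ⧸ (P : Subgroup (G ⧸ H)), a * b = b * a := by
          intro a b
          let _ := IsCyclic.commGroup (α := (G ⧸ H) ⧸ (P : Subgroup (G ⧸ H)))
          exact mul_comm a b
        rw [← QuotientGroup.eq_one_iff]
        have : ∀ a b : G ⧸ H, ((⁅a, b⁆ : G ⧸ H) : (G ⧸ H) ⧸ (P : Subgroup (G ⧸ H))) = 1 := by
          intro a b
          show (QuotientGroup.mk' (P : Subgroup (G ⧸ H))) ⁅a, b⁆ = 1
          rw [map_commutatorElement, commutatorElement_eq_one_iff_mul_comm]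
          exact hcom _ _
        exact this _ _
      have h5 : ((QuotientGroup.mk' H) w) ^ 5 = 1 := by
        have := pow_card_eq_one' (x := (⟨(QuotientGroup.mk' H) w, hmem⟩ : ↥(P : Subgroup (G ⧸ H))))
        rw [hPc] at this
        simpa using congrArg Subtype.val this
      rw [← map_pow] at h5
      exact (QuotientGroup.eq_one_iff _).mp h5
    have hHexp : ∀ h ∈ H, h ^ 4 = 1 := by
      intro h hh
      have h1 := hsq h hh
      have h2 := pow_card_eq_one' (x := (⟨h ^ 2, h1⟩ : ↥Z))
      rw [hZ2] at h2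
      have h3 := congrArg Subtype.val h2
      have h4 : (h ^ 2) ^ 2 = 1 := by simpa using h3
      rw [← pow_mul] at h4; exact h4
    set s := w ^ 4 with hs
    have hs5 : s ^ 5 = 1 := by
      rw [hs, ← pow_mul, mul_comm, pow_mul]
      exact hHexp _ hw5
    have hsH : s ∉ H := by
      intro h
      apply hwH
      have : w = w ^ 5 * (w ^ 4)⁻¹ := by
        rw [show (5 : ℕ) = 1 + 4 by norm_num, pow_add, pow_one, mul_assoc, mul_inv_cancel, mul_one]
      rw [this]
      exact H.mul_mem hw5 (H.inv_mem h)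
    have h8 : 8 ≤ Nat.card ↥(D T ⊓ D T') := by
      have h16' : (D T').relIndex H ≤ 2 := by
        have e : D T' = (D T).map (MulAut.conj y).toMonoidHom := by
          ext x
          rw [Subgroup.mem_map, hDmem]
          constructor
          · rintro ⟨hx1, hx2⟩
            refine ⟨y⁻¹ * x * y, ?_, ?_⟩
            · rw [hDmem]
              refine ⟨by simpa using hconjH y⁻¹ x hx1, ?_⟩
              have : Commute (π (y⁻¹ * x * y)) (π (y⁻¹ * T' * y)) := by
                have e1 : ∀ a, π (y⁻¹ * a * y) = MulAut.conj (π y)⁻¹ (π a) := by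
                  intro a; simp
                rw [e1, e1]
                exact hx2.map _
              have e2 : y⁻¹ * T' * y = T := by rw [hT']; simp [mul_assoc]
              rwa [e2] at this
            · simp [mul_assoc]
          · rintro ⟨x', hx', rfl⟩
            rw [hDmem] at hx'
            refine ⟨by simpa using hconjH y x' hx'.1, ?_⟩
            have e1 : ∀ a, π (y * a * y⁻¹) = MulAut.conj (π y) (π a) := by
              intro a; simp
            show Commute (π (y * x' * y⁻¹)) (π (y * T * y⁻¹))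
            rw [e1, e1]
            exact hx'.2.map _
        have e3 : Nat.card ↥(D T') = Nat.card ↥(D T) := by
          rw [e]
          exact Subgroup.card_map_of_injective (MulAut.conj y).injective
        have h1 := card_mul_relIndex' (H := D T') (K := H) (hDH T')
        have h2 := card_mul_relIndex' (H := D T) (K := H) (hDH T)
        rw [e3, ← h2] at h1
        have h3 : (D T').relIndex H = (D T).relIndex H := Nat.eq_of_mul_eq_mul_left (Nat.card_pos) h1
        rw [h3]; exact h16
      have h4 : (D T ⊓ D T').relIndex H ≤ 4 := by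
        refine (Subgroup.relIndex_inf_le (H := D T) (K := D T') (L := H)).trans ?_
        calc (D T).relIndex H * (D T').relIndex H ≤ 2 * 2 := Nat.mul_le_mul h16 h16'
          _ = 4 := by norm_num
      have h5 := card_mul_relIndex' (H := D T ⊓ D T') (K := H) (inf_le_left.trans (hDH T))
      rw [h32] at h5
      by_contra h6
      push Not at h6
      nlinarith
    have hDs : ∀ k ∈ D T ⊓ D T', Commute k s := by
      intro k hk
      have h1 := (hDmem _ _).mp hk.1
      have h2 := (hDmem _ _).mp hk.2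
      have h3 : Commute (π k) (π w) := by
        rw [hw, map_mul]; exact h1.2.mul_right h2.2
      have h4 : Commute (π k) (π s) := by
        rw [hs, map_pow]; exact h3.pow_right 4
      -- k⁻¹ s k s⁻¹ ∈ Z
      have h5 : ⁅s, k⁆ ∈ Z := by
        rw [← hπ1, map_commutatorElement, commutatorElement_eq_one_iff_commute]
        exact h4.symm
      obtain ⟨ζ, hζ⟩ : ∃ ζ : G, ζ = ⁅s, k⁆ := ⟨_, rfl⟩
      rw [← hζ] at h5
      have h6 : ζ ^ 2 = 1 := by
        have h2 := pow_card_eq_one' (x := (⟨ζ, h5⟩ : ↥Z))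
        rw [hZ2] at h2
        simpa using congrArg Subtype.val h2
      have h7 : s * k * s⁻¹ = ζ * k := by
        rw [hζ, commutatorElement_def]; simp [mul_assoc]
      have h8 : ∀ n : ℕ, s ^ n * k * (s ^ n)⁻¹ = ζ ^ n * k := by
        intro n
        induction n with
        | zero => simp
        | succ n ih =>
          have e : s ^ (n + 1) * k * (s ^ (n + 1))⁻¹ = s * (s ^ n * k * (s ^ n)⁻¹) * s⁻¹ := by
            rw [pow_succ']; simp [mul_assoc]
          rw [e, ih]
          have e2 : Commute s (ζ ^ n) := ((hZc ζ h5 s).pow_left n).symm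
          calc s * (ζ ^ n * k) * s⁻¹ = (s * ζ ^ n) * k * s⁻¹ := by simp [mul_assoc]
            _ = (ζ ^ n * s) * k * s⁻¹ := by rw [e2.eq]
            _ = ζ ^ n * (s * k * s⁻¹) := by simp [mul_assoc]
            _ = ζ ^ n * (ζ * k) := by rw [h7]
            _ = ζ ^ (n + 1) * k := by rw [pow_succ]; simp [mul_assoc]
      have h9 := h8 5
      rw [hs5] at h9
      have h10 : ζ ^ 5 = ζ := by
        rw [show (5 : ℕ) = 2 * 2 + 1 by norm_num, pow_add, pow_mul, h6]; simp
      rw [h10] at h9
      have h11 : ζ = 1 := by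
        simp only [one_mul, inv_one, mul_one] at h9
        exact (mul_eq_right.mp h9.symm)
      rw [h11, one_mul] at h7
      exact (mul_inv_eq_iff_eq_mul.mp h7).symm
    have hcent := centralizes_of_four H h32 s hs5 (D T ⊓ D T') (inf_le_left.trans (hDH T)) (by omega) hDs
    -- `H ⟨s⟩` is normal: index 2
    have hns : (H ⊔ Subgroup.zpowers s).Normal := by
      apply Subgroup.normal_of_index_eq_two
      have h1 : Nat.card ↥(H ⊔ Subgroup.zpowers s) ∣ 320 := by
        rw [← hG]; exact Subgroup.card_subgroup_dvd_card _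
      have h2 : 32 ∣ Nat.card ↥(H ⊔ Subgroup.zpowers s) := by
        rw [← h32]; exact Subgroup.card_dvd_of_le le_sup_left
      have h3 : 5 ∣ Nat.card ↥(H ⊔ Subgroup.zpowers s) := by
        have : orderOf s = 5 := by
          have : Fact (Nat.Prime 5) := ⟨by decide⟩
          exact orderOf_eq_prime hs5 (fun h => hsH (by rw [h]; exact H.one_mem))
        rw [← this, ← Nat.card_zpowers]
        exact Subgroup.card_dvd_of_le le_sup_right
      have h4 : Nat.card ↥(H ⊔ Subgroup.zpowers s) ∣ 160 := by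
        have hsn : ∀ x ∈ Subgroup.zpowers s, True := fun _ _ => trivial
        have hc1 : Nat.card ↥(Subgroup.zpowers s) ∣ 5 := by
          rw [Nat.card_zpowers]; exact orderOf_dvd_of_pow_eq_one hs5
        have h5 := card_mul_relIndex' (H := H) (K := H ⊔ Subgroup.zpowers s) le_sup_left
        rw [← h5, h32]
        have h6 : H.relIndex (H ⊔ Subgroup.zpowers s) ∣ 5 := by
          rw [Subgroup.relIndex_sup_left]
          exact (Subgroup.relIndex_dvd_card _ _).trans hc1
        exact Nat.mul_dvd_mul_left 32 h6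
      have h5 : 160 ∣ Nat.card ↥(H ⊔ Subgroup.zpowers s) :=
        Nat.Coprime.mul_dvd_of_dvd_of_dvd (by decide : Nat.Coprime 32 5) h2 h3
      have h6 : Nat.card ↥(H ⊔ Subgroup.zpowers s) = 160 := Nat.dvd_antisymm h4 h5
      have h7 := Subgroup.card_mul_index (H ⊔ Subgroup.zpowers s)
      rw [h6, hG] at h7
      omega
    exact no_five H h32 hF s hs5 hsH hcent hns
  -- Step 2: the commutator map
  have hTi : T⁻¹ = T := by
    rw [inv_eq_iff_mul_eq_one, ← sq, hT]
  let f : ↥H →* G ⧸ Z :=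
    { toFun := fun h => (π h)⁻¹ * (π T * π h * (π T)⁻¹)
      map_one' := by simp
      map_mul' := by
        intro h k
        have h1 : π T * π h * (π T)⁻¹ = π (T * h * T⁻¹) := by simp
        have h2 : Commute ((π (k : G))⁻¹) ((π (h : G))⁻¹ * (π T * π h * (π T)⁻¹)) := by
          rw [h1]
          exact ((hHab _ k.2 _ h.2).inv_inv).mul_right (hHab _ k.2 _ (hconjH T _ h.2)).inv_left
        have h3 : π ((h * k : ↥H) : G) = π h * π k := by simp
        rw [h3]
        calc (π (h : G) * π (k : G))⁻¹ * (π T * (π (h : G) * π (k : G)) * (π T)⁻¹)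
            = (π (k : G))⁻¹ * ((π (h : G))⁻¹ * (π T * π h * (π T)⁻¹)) * (π T * π k * (π T)⁻¹) := by
              simp [mul_assoc]
          _ = _ := by rw [h2.eq]; simp [mul_assoc] }
  have hf : ∀ h : ↥H, f h = (π h)⁻¹ * (π T * π h * (π T)⁻¹) := fun h => rfl
  have hker : f.ker = (D T).subgroupOf H := by
    ext h
    rw [MonoidHom.mem_ker, Subgroup.mem_subgroupOf, hDmem, hf, inv_mul_eq_one, eq_mul_inv_iff_mul_eq]
    exact ⟨fun e => ⟨h.2, e⟩, fun e => e.2⟩
  have hrange : f.range ≤ (D T).map π := by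
    rintro _ ⟨h, rfl⟩
    refine ⟨(h : G)⁻¹ * (T * h * T⁻¹), ?_, ?_⟩
    · show _ ∈ D T
      rw [hDmem]
      have hm : (h : G)⁻¹ * (T * h * T⁻¹) ∈ H := H.mul_mem (H.inv_mem h.2) (hconjH T _ h.2)
      refine ⟨hm, ?_⟩
      have hinv : (π ((h : G)⁻¹ * (T * h * T⁻¹)))⁻¹ = π ((h : G)⁻¹ * (T * h * T⁻¹)) := by
        rw [inv_eq_iff_mul_eq_one, ← sq]; exact hHsq _ hm
      have h1 : T * ((h : G)⁻¹ * (T * h * T⁻¹)) * T⁻¹ = ((h : G)⁻¹ * (T * h * T⁻¹))⁻¹ := by
        have hTT : T * T = 1 := by rw [← sq, hT]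
        rw [hTi]
        have : T * ((h : G)⁻¹ * (T * h * T)) * T = T * (h : G)⁻¹ * T * h * (T * T) := by simp [mul_assoc]
        rw [this, hTT]
        simp [mul_assoc, hTi]
      have h2 : π T * π ((h : G)⁻¹ * (T * h * T⁻¹)) * (π T)⁻¹ = π ((h : G)⁻¹ * (T * h * T⁻¹)) := by
        rw [← map_inv, ← map_mul, ← map_mul, h1, map_inv, hinv]
      exact ((mul_inv_eq_iff_eq_mul.mp h2)).symm
    · rw [hf]; simp
  have hcard1 : Nat.card ↥f.range * Nat.card ↥(D T) = 32 := by
    have h1 := Subgroup.card_mul_index f.ker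
    rw [Subgroup.index_ker, hker, h32] at h1
    have h2 : Nat.card ↥((D T).subgroupOf H) = Nat.card ↥(D T) :=
      Nat.card_congr (Subgroup.subgroupOfEquivOfLe (hDH T)).toEquiv
    rw [h2] at h1
    rw [mul_comm]; exact h1
  have hcard2 : Nat.card ↥((D T).map π) * 2 = Nat.card ↥(D T) := by
    have h1 : ((D T).map π) = (π.comp (D T).subtype).range := by
      rw [MonoidHom.range_comp, Subgroup.range_subtype]
    have h2 := Subgroup.card_mul_index (π.comp (D T).subtype).ker
    rw [Subgroup.index_ker, ← h1] at h2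
    have h3 : Nat.card ↥(π.comp (D T).subtype).ker = 2 := by
      have : (π.comp (D T).subtype).ker = Z.subgroupOf (D T) := by
        ext x
        rw [MonoidHom.mem_ker, Subgroup.mem_subgroupOf]
        exact hπ1 _
      rw [this, ← hZ2]
      exact Nat.card_congr (Subgroup.subgroupOfEquivOfLe (hZD T)).toEquiv
    rw [h3] at h2
    rw [mul_comm]; exact h2
  have hle : Nat.card ↥((D T).map π) ≤ Nat.card ↥f.range := by
    have h4 : 4 ≤ Nat.card ↥f.range := by
      by_contra h5
      push Not at h5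
      nlinarith
    omega
  have heq : f.range = (D T).map π := Subgroup.eq_of_le_of_card_ge hrange hle
  -- Step 3
  have hcD : c ∈ D T := by
    rw [hDmem]; exact ⟨hc, hcT.map π⟩
  have hcr : π c ∈ f.range := by rw [heq]; exact Subgroup.mem_map_of_mem π hcD
  obtain ⟨h, hh⟩ := hcr
  rw [hf] at hh
  have h1 : π ((h : G)⁻¹ * (T * h * T⁻¹)) = π c := by rw [← hh]; simp
  rw [hπker] at h1
  obtain ⟨ζ, hζ⟩ : ∃ ζ : G, ζ = ((h : G)⁻¹ * (T * h * T⁻¹))⁻¹ * c := ⟨_, rfl⟩
  rw [← hζ] at h1
  have h2 : c = ((h : G)⁻¹ * (T * h * T⁻¹)) * ζ := by rw [hζ, mul_inv_cancel_left]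
  have hζ2 : ζ ^ 2 = 1 := by
    have h2 := pow_card_eq_one' (x := (⟨ζ, h1⟩ : ↥Z))
    rw [hZ2] at h2
    simpa using congrArg Subtype.val h2
  have hζc := hZc ζ h1
  have hTT : T * T = 1 := by rw [← sq, hT]
  have h3 : T * c * T⁻¹ = c⁻¹ := by
    have e1 : T * ((h : G)⁻¹ * (T * h * T⁻¹)) * T⁻¹ = ((h : G)⁻¹ * (T * h * T⁻¹))⁻¹ := by
      rw [hTi]
      have : T * ((h : G)⁻¹ * (T * h * T)) * T = T * (h : G)⁻¹ * T * h * (T * T) := by simp [mul_assoc]
      rw [this, hTT]
      simp [mul_assoc, hTi]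
    have e2 : T * c * T⁻¹ = (T * ((h : G)⁻¹ * (T * h * T⁻¹)) * T⁻¹) * (T * ζ * T⁻¹) := by
      rw [h2]; simp [mul_assoc]
    have e3 : T * ζ * T⁻¹ = ζ := by rw [← (hζc T).eq]; simp
    have e4 : ζ⁻¹ = ζ := by rw [inv_eq_iff_mul_eq_one, ← sq]; exact hζ2
    rw [e2, e1, e3, h2, mul_inv_rev (((h : G)⁻¹ * (T * h * T⁻¹))) ζ, e4, (hζc _).eq]
  have h4 : T * c * T⁻¹ = c := by rw [← hcT.eq]; simp
  rw [h4] at h3
  rw [sq]
  nth_rewrite 1 [h3]
  simp

/-- Let G be a finite group of order 320 = 64·5 whose largest normal 2-subgroup H = O₂(G) equals the Fitting subgroup F(G) and is extraspecial of order 32 containing no elementary abelian subgroup of order 8 (so H is the central product of a quaternion group and a dihedral group of order 8). If T is an involution of G outside H whose centralizer in H contains an elementary abelian subgroup of order 4, then C_H(T) itself is elementary abelian of order 4. -/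
theorem result {G : Type*} [Group G] [Finite G]
    (hG : Nat.card G = 320) (hHF : Cfsg.pCore 2 G = Cfsg.fittingSubgroup G)
    (hex : Cfsg.IsExtraspecial 2 ↥(Cfsg.pCore 2 G)) (h32 : Nat.card ↥(Cfsg.pCore 2 G) = 32)
    (hminus : ∀ A : Subgroup G, A ≤ Cfsg.pCore 2 G → Cfsg.IsElementaryAbelian 2 A → Nat.card ↥A ≤ 4)
    (T : G) (hT : orderOf T = 2) (hTH : T ∉ Cfsg.pCore 2 G)
    (V : Subgroup G) (hV : V ≤ Cfsg.pCore 2 G ⊓ Subgroup.centralizer ({T} : Set G)) (hV4 : Nat.card ↥V = 4) (hVe : Cfsg.IsElementaryAbelian 2 V) :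
    Nat.card ↥(Cfsg.pCore 2 G ⊓ Subgroup.centralizer ({T} : Set G)) = 4 ∧
      Cfsg.IsElementaryAbelian 2 (Cfsg.pCore 2 G ⊓ Subgroup.centralizer ({T} : Set G)) := by
  have : Fact (Nat.Prime 2) := ⟨by decide⟩
  have hHn : (Cfsg.pCore 2 G).Normal := Subgroup.sSup_normal _ (fun _ h => h.1)
  set H := Cfsg.pCore 2 G with hH
  have hH2 : ∀ N : Subgroup G, N.Normal → IsPGroup 2 N → N ≤ H := fun N h1 h2 => le_sSup ⟨h1, h2⟩
  obtain ⟨⟨hp, hfr, hco⟩, hcen⟩ := hex
  let Z : Subgroup G := (Subgroup.center ↥H).map H.subtype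
  have hZH : Z ≤ H := Subgroup.map_subtype_le _
  have hZ2 : Nat.card ↥Z = 2 := by
    rw [← hcen]
    exact Subgroup.card_map_of_injective H.subtype_injective
  have hZn : Z.Normal := inferInstance
  have hZmem : ∀ x (hx : x ∈ H), (⟨x, hx⟩ : ↥H) ∈ Subgroup.center ↥H → x ∈ Z :=
    fun x hx h => ⟨⟨x, hx⟩, h, rfl⟩
  have hZc : ∀ z ∈ Z, ∀ g : G, Commute z g := by
    intro z hz g
    by_cases hz1 : z = 1
    · rw [hz1]; exact Commute.one_left g
    have h1 : g * z * g⁻¹ ∈ Z := hZn.conj_mem z hz g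
    have h2 : g * z * g⁻¹ ≠ 1 := by
      intro h
      apply hz1
      have := congrArg (fun x => g⁻¹ * x * g) h
      simpa [mul_assoc] using this
    have h3 : ∀ x ∈ Z, x ≠ 1 → x = z := by
      intro x hx hx1
      by_contra hne
      have h4 : 3 ≤ Nat.card ↥Z := by
        have h5 : ({1, z, x} : Set G) ⊆ (Z : Set G) := by
          intro y hy
          simp only [Set.mem_insert_iff, Set.mem_singleton_iff] at hy
          rcases hy with h | h | h
          · rw [h]; exact Z.one_mem
          · rw [h]; exact hz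
          · rw [h]; exact hx
        have h6 : Set.ncard ({1, z, x} : Set G) = 3 := by
          rw [Set.ncard_insert_of_notMem, Set.ncard_pair]
          · exact fun h => hne h.symm
          · simp only [Set.mem_insert_iff, Set.mem_singleton_iff, not_or]
            exact ⟨fun h => hz1 h.symm, fun h => hx1 h.symm⟩
        have h7 := Set.ncard_le_ncard h5 (Set.toFinite _)
        rw [h6] at h7
        exact h7
      omega
    have h4 := h3 _ h1 h2
    exact (mul_inv_eq_iff_eq_mul.mp h4).symm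
  have hsq : ∀ h ∈ H, h ^ 2 ∈ Z := by
    intro h hh
    refine hZmem _ (H.pow_mem hh 2) ?_
    have h1 : (⟨h, hh⟩ : ↥H) ^ 2 ∈ frattini ↥H := by
      exact Cfsg.Agent.Lib.FrattiniPGroup.pow_mem_frattini hp _
    rw [hfr] at h1
    exact h1
  have hcomm : ∀ h ∈ H, ∀ k ∈ H, ⁅h, k⁆ ∈ Z := by
    intro h hh k hk
    have h1 : ⁅(⟨h, hh⟩ : ↥H), (⟨k, hk⟩ : ↥H)⁆ ∈ commutator ↥H :=
      Subgroup.commutator_mem_commutator (Subgroup.mem_top _) (Subgroup.mem_top _)
    rw [hco] at h1
    exact ⟨_, h1, rfl⟩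
  have hT2 : T ^ 2 = 1 := by rw [← hT]; exact pow_orderOf_eq_one T
  have hexp : ∀ c ∈ H ⊓ Subgroup.centralizer ({T} : Set G), c ^ 2 = 1 := by
    intro c hc
    exact main_aux H Z hG hH2 hHF h32 hZH hZ2 hZc hsq hcomm T hT2 hTH c hc.1
      (Subgroup.mem_centralizer_singleton_iff.mp hc.2)
  have hel : Cfsg.IsElementaryAbelian 2 (H ⊓ Subgroup.centralizer ({T} : Set G)) := by
    refine ⟨?_, hexp⟩
    constructor
    constructor
    intro a b
    apply Subtype.ext
    have ha := hexp a a.2
    have hb := hexp b b.2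
    have hab := hexp (a * b : G) (Subgroup.mul_mem _ a.2 b.2)
    show (a : G) * b = b * a
    rw [sq] at ha hb hab
    have h1 : ((a : G) * b)⁻¹ = a * b := inv_eq_of_mul_eq_one_left hab
    have h2 : (a : G)⁻¹ = a := inv_eq_of_mul_eq_one_left ha
    have h3 : (b : G)⁻¹ = b := inv_eq_of_mul_eq_one_left hb
    rw [mul_inv_rev, h2, h3] at h1
    exact h1.symm
  refine ⟨le_antisymm (hminus _ inf_le_left hel) ?_, hel⟩
  rw [← hV4]
  exact Nat.card_le_card_of_injective _ (Subgroup.inclusion_injective hV)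

end Cfsg.Agent.S4405
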