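import Cfsg.Statements.S4406

set_option autoImplicit false
open Cfsg

namespace Cfsg.Agent.S4406

theorem a4aux : ∀ a : ↥(alternatingGroup (Fin 4)), a ^ 3 = 1 → a ≠ 1 →
    ∀ x : ↥(alternatingGroup (Fin 4)), x ^ 2 = 1 → x ≠ 1 →
    ∀ y : ↥(alternatingGroup (Fin 4)), y ^ 2 = 1 → y ≠ 1 → x ≠ y →
    (a * x * a⁻¹ = y ∧ a * y * a⁻¹ = x * y) ∨ (a⁻¹ * x * a = y ∧ a⁻¹ * y * a = x * y) := by
  decide

theorem a4aux2 : ∀ a : ↥(alternatingGroup (Fin 4)), a ^ 2 = 1 ∨ a ^ 3 = 1 := by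
  decide

theorem sq_of_two {x : ↥(alternatingGroup (Fin 4))} {k : ℕ} (h : x ^ (2 ^ k) = 1) : x ^ 2 = 1 := by
  rcases a4aux2 x with h1 | h1
  · exact h1
  · have h2 : orderOf x ∣ 3 := orderOf_dvd_of_pow_eq_one h1
    have h3 : orderOf x ∣ 2 ^ k := orderOf_dvd_of_pow_eq_one h
    have h4 : orderOf x = 1 := by
      have : orderOf x ∣ Nat.gcd 3 (2 ^ k) := Nat.dvd_gcd h2 h3
      rw [show Nat.gcd 3 (2 ^ k) = 1 from (Nat.Coprime.pow_right k (by decide))] at this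
      exact Nat.dvd_one.mp this
    rw [orderOf_eq_one_iff.mp h4]; simp

theorem cube_of_three {x : ↥(alternatingGroup (Fin 4))} {k : ℕ} (h : x ^ (3 ^ k) = 1) : x ^ 3 = 1 := by
  rcases a4aux2 x with h1 | h1
  · have h2 : orderOf x ∣ 2 := orderOf_dvd_of_pow_eq_one h1
    have h3 : orderOf x ∣ 3 ^ k := orderOf_dvd_of_pow_eq_one h
    have h4 : orderOf x = 1 := by
      have : orderOf x ∣ Nat.gcd 2 (3 ^ k) := Nat.dvd_gcd h2 h3
      rw [show Nat.gcd 2 (3 ^ k) = 1 from (Nat.Coprime.pow_right k (by decide))] at this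
      exact Nat.dvd_one.mp this
    rw [orderOf_eq_one_iff.mp h4]; simp
  · exact h1

theorem exists_three (P : Sylow 3 ↥(alternatingGroup (Fin 4))) :
    ∃ a ∈ (P : Subgroup ↥(alternatingGroup (Fin 4))), a ^ 3 = 1 ∧ a ≠ 1 := by
  have : Fact (Nat.Prime 3) := ⟨by decide⟩
  have hc : Nat.card ↥(alternatingGroup (Fin 4)) = 12 := by
    rw [Nat.card_eq_fintype_card]; decide
  have hne : (P : Subgroup ↥(alternatingGroup (Fin 4))) ≠ ⊥ :=
    P.ne_bot_of_dvd_card (by rw [hc]; decide)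
  obtain ⟨⟨a, ha⟩, ha1⟩ := (Subgroup.ne_bot_iff_exists_ne_one).mp hne
  refine ⟨a, ha, ?_, fun h => ha1 (Subtype.ext h)⟩
  obtain ⟨k, hk⟩ := P.isPGroup' ⟨a, ha⟩
  exact cube_of_three (k := k) (by simpa using congrArg Subtype.val hk)

/-- In the direct product P = A₄ × A₄, let X be the Sylow 2-subgroup, X₁ and X₂ its intersections with the two direct factors, Q a Sylow 3-subgroup and Q₁, Q₂ its intersections with the two factors. Then every subgroup B of X of order 4 either meets X₁ or X₂ nontrivially, or is normalized by one of the two subgroups of Q of order 3 other than Q₁ and Q₂. -/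
theorem result
    (X : Sylow 2 (↥(alternatingGroup (Fin 4)) × ↥(alternatingGroup (Fin 4))))
    (Q : Sylow 3 (↥(alternatingGroup (Fin 4)) × ↥(alternatingGroup (Fin 4))))
    (B : Subgroup (↥(alternatingGroup (Fin 4)) × ↥(alternatingGroup (Fin 4)))) (hBX : B ≤ (X : Subgroup _)) (hB4 : Nat.card ↥B = 4) :
    B ⊓ ((X : Subgroup _) ⊓ Subgroup.prod ⊤ ⊥) ≠ ⊥ ∨ B ⊓ ((X : Subgroup _) ⊓ Subgroup.prod ⊥ ⊤) ≠ ⊥ ∨
      ∃ R : Subgroup (↥(alternatingGroup (Fin 4)) × ↥(alternatingGroup (Fin 4))), R ≤ (Q : Subgroup _) ∧ Nat.card ↥R = 3 ∧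
        R ≠ (Q : Subgroup _) ⊓ Subgroup.prod ⊤ ⊥ ∧ R ≠ (Q : Subgroup _) ⊓ Subgroup.prod ⊥ ⊤ ∧ R ≤ Subgroup.normalizer (B : Set _) := by
  have : Fact (Nat.Prime 3) := ⟨by decide⟩
  have : Fact (Nat.Prime 2) := ⟨by decide⟩
  by_cases h1 : B ⊓ ((X : Subgroup _) ⊓ Subgroup.prod ⊤ ⊥) = ⊥
  swap
  · exact Or.inl h1
  by_cases h2 : B ⊓ ((X : Subgroup _) ⊓ Subgroup.prod ⊥ ⊤) = ⊥
  swap
  · exact Or.inr (Or.inl h2)
  refine Or.inr (Or.inr ?_)
  -- elements of B
  have hs : ∀ w ∈ B, w.2 = 1 → w = 1 := by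
    intro w hw h
    have : w ∈ B ⊓ ((X : Subgroup _) ⊓ Subgroup.prod ⊤ ⊥) :=
      ⟨hw, hBX hw, Subgroup.mem_prod.mpr ⟨Subgroup.mem_top _, by rw [h]; exact Subgroup.one_mem _⟩⟩
    rw [h1] at this
    exact Subgroup.mem_bot.mp this
  have hf : ∀ w ∈ B, w.1 = 1 → w = 1 := by
    intro w hw h
    have : w ∈ B ⊓ ((X : Subgroup _) ⊓ Subgroup.prod ⊥ ⊤) :=
      ⟨hw, hBX hw, Subgroup.mem_prod.mpr ⟨by rw [h]; exact Subgroup.one_mem _, Subgroup.mem_top _⟩⟩
    rw [h2] at this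
    exact Subgroup.mem_bot.mp this
  have hsq1 : ∀ w ∈ B, w.1 ^ 2 = 1 := by
    intro w hw
    obtain ⟨k, hk⟩ := X.isPGroup' ⟨w, hBX hw⟩
    have hk' : w ^ (2 ^ k) = 1 := by simpa using congrArg Subtype.val hk
    exact sq_of_two (k := k) (by simpa using congrArg Prod.fst hk')
  have hsq2 : ∀ w ∈ B, w.2 ^ 2 = 1 := by
    intro w hw
    obtain ⟨k, hk⟩ := X.isPGroup' ⟨w, hBX hw⟩
    have hk' : w ^ (2 ^ k) = 1 := by simpa using congrArg Subtype.val hk
    exact sq_of_two (k := k) (by simpa using congrArg Prod.snd hk')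
  -- pick u v
  obtain ⟨u, hu, v, hv, hu1, hv1, huv⟩ : ∃ u ∈ B, ∃ v ∈ B, u ≠ 1 ∧ v ≠ 1 ∧ u ≠ v := by
    by_contra hcon
    push Not at hcon
    have : ∃ u ∈ B, u ≠ 1 := by
      by_contra hh
      push Not at hh
      have : B = ⊥ := by
        rw [eq_bot_iff]; intro x hx; exact Subgroup.mem_bot.mpr (hh x hx)
      rw [this] at hB4
      simp at hB4
    obtain ⟨u, hu, hu1⟩ := this
    have hle : (B : Set _) ⊆ {1, u} := by
      intro x hx
      by_cases hx1 : x = 1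
      · simp [hx1]
      · have := hcon u hu x hx hu1 hx1
        simp [this]
    have h5 : Set.ncard (B : Set (↥(alternatingGroup (Fin 4)) × ↥(alternatingGroup (Fin 4)))) ≤ 2 := by
      refine (Set.ncard_le_ncard hle (Set.toFinite _)).trans ?_
      rw [Set.ncard_pair hu1.symm]
    have h6 : Set.ncard (B : Set (↥(alternatingGroup (Fin 4)) × ↥(alternatingGroup (Fin 4)))) = 4 := hB4
    omega
  have huv1 : u * v ≠ 1 := by
    intro h
    apply huv
    have huu : u * u = 1 := by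
      have e1 := hsq1 u hu
      have e2 := hsq2 u hu
      rw [sq] at e1 e2
      exact Prod.ext e1 e2
    have : u * v = u * u := by rw [h, huu]
    exact (mul_left_cancel this).symm
  have hBset : ∀ w ∈ B, w = 1 ∨ w = u ∨ w = v ∨ w = u * v := by
    have hsub : ({1, u, v, u * v} : Set (↥(alternatingGroup (Fin 4)) × ↥(alternatingGroup (Fin 4)))) ⊆ (B : Set _) := by
      intro x hx
      simp only [Set.mem_insert_iff, Set.mem_singleton_iff] at hx
      rcases hx with h | h | h | h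
      · rw [h]; exact B.one_mem
      · rw [h]; exact hu
      · rw [h]; exact hv
      · rw [h]; exact B.mul_mem hu hv
    have hcard : Set.ncard ({1, u, v, u * v} : Set (↥(alternatingGroup (Fin 4)) × ↥(alternatingGroup (Fin 4)))) = 4 := by
      rw [Set.ncard_insert_of_notMem, Set.ncard_insert_of_notMem, Set.ncard_pair]
      · intro h
        exact hu1 (by simpa using h)
      · simp only [Set.mem_insert_iff, Set.mem_singleton_iff, not_or]
        refine ⟨huv, ?_⟩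
        intro h
        exact hv1 (by simpa using h)
      · simp only [Set.mem_insert_iff, Set.mem_singleton_iff, not_or]
        exact ⟨hu1.symm, hv1.symm, huv1.symm⟩
    have h6 : Set.ncard (B : Set (↥(alternatingGroup (Fin 4)) × ↥(alternatingGroup (Fin 4)))) = 4 := hB4
    have heq := Set.eq_of_subset_of_ncard_le hsub (by rw [hcard, h6]) (Set.toFinite _)
    intro w hw
    have : w ∈ (B : Set _) := hw
    rw [← heq] at this
    simpa using this
  -- Q is a product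
  obtain ⟨P1, hP1⟩ := (Q.isPGroup'.map (MonoidHom.fst ↥(alternatingGroup (Fin 4)) ↥(alternatingGroup (Fin 4)))).exists_le_sylow
  obtain ⟨P2, hP2⟩ := (Q.isPGroup'.map (MonoidHom.snd ↥(alternatingGroup (Fin 4)) ↥(alternatingGroup (Fin 4)))).exists_le_sylow
  have hQle : (Q : Subgroup _) ≤ Subgroup.prod (P1 : Subgroup ↥(alternatingGroup (Fin 4))) (P2 : Subgroup ↥(alternatingGroup (Fin 4))) := by
    intro x hx
    rw [Subgroup.mem_prod]
    exact ⟨hP1 (Subgroup.mem_map_of_mem _ hx), hP2 (Subgroup.mem_map_of_mem _ hx)⟩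
  have hPp : IsPGroup 3 ↥(Subgroup.prod (P1 : Subgroup ↥(alternatingGroup (Fin 4))) (P2 : Subgroup ↥(alternatingGroup (Fin 4)))) := by
    intro x
    obtain ⟨⟨x1, x2⟩, hx⟩ := x
    rw [Subgroup.mem_prod] at hx
    obtain ⟨k1, hk1⟩ := P1.isPGroup' ⟨x1, hx.1⟩
    obtain ⟨k2, hk2⟩ := P2.isPGroup' ⟨x2, hx.2⟩
    have hk1' : x1 ^ (3 ^ k1) = 1 := by simpa using congrArg Subtype.val hk1
    have hk2' : x2 ^ (3 ^ k2) = 1 := by simpa using congrArg Subtype.val hk2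
    refine ⟨k1 + k2, ?_⟩
    apply Subtype.ext
    apply Prod.ext
    · show x1 ^ (3 ^ (k1 + k2)) = 1
      rw [pow_add, pow_mul, hk1', one_pow]
    · show x2 ^ (3 ^ (k1 + k2)) = 1
      rw [pow_add, mul_comm, pow_mul, hk2', one_pow]
  have hQeq : Subgroup.prod (P1 : Subgroup ↥(alternatingGroup (Fin 4))) (P2 : Subgroup ↥(alternatingGroup (Fin 4))) = (Q : Subgroup _) := Q.is_maximal' hPp hQle
  obtain ⟨a, ha, ha3, ha1⟩ := exists_three P1
  obtain ⟨b, hb, hb3, hb1⟩ := exists_three P2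
  -- choose a' b'
  have hu11 : u.1 ≠ 1 := fun h => hu1 (hf u hu h)
  have hu21 : u.2 ≠ 1 := fun h => hu1 (hs u hu h)
  have hv11 : v.1 ≠ 1 := fun h => hv1 (hf v hv h)
  have hv21 : v.2 ≠ 1 := fun h => hv1 (hs v hv h)
  have huv1' : u.1 ≠ v.1 := by
    intro h
    apply huv
    have := hf (u * v⁻¹) (B.mul_mem hu (B.inv_mem hv)) (by simp [h])
    exact mul_inv_eq_one.mp this
  have huv2' : u.2 ≠ v.2 := by
    intro h
    apply huv
    have := hs (u * v⁻¹) (B.mul_mem hu (B.inv_mem hv)) (by simp [h])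
    exact mul_inv_eq_one.mp this
  obtain ⟨a', ha', ha3', ha1', hau, hav⟩ : ∃ a' ∈ (P1 : Subgroup ↥(alternatingGroup (Fin 4))), a' ^ 3 = 1 ∧ a' ≠ 1 ∧ a' * u.1 * a'⁻¹ = v.1 ∧ a' * v.1 * a'⁻¹ = u.1 * v.1 := by
    rcases a4aux a ha3 ha1 u.1 (hsq1 u hu) hu11 v.1 (hsq1 v hv) hv11 huv1' with h | h
    · exact ⟨a, ha, ha3, ha1, h.1, h.2⟩
    · refine ⟨a⁻¹, Subgroup.inv_mem _ ha, by rw [inv_pow, ha3, inv_one], inv_ne_one.mpr ha1, ?_, ?_⟩
      · rw [inv_inv]; exact h.1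
      · rw [inv_inv]; exact h.2
  obtain ⟨b', hb', hb3', hb1', hbu, hbv⟩ : ∃ b' ∈ (P2 : Subgroup ↥(alternatingGroup (Fin 4))), b' ^ 3 = 1 ∧ b' ≠ 1 ∧ b' * u.2 * b'⁻¹ = v.2 ∧ b' * v.2 * b'⁻¹ = u.2 * v.2 := by
    rcases a4aux b hb3 hb1 u.2 (hsq2 u hu) hu21 v.2 (hsq2 v hv) hv21 huv2' with h | h
    · exact ⟨b, hb, hb3, hb1, h.1, h.2⟩
    · refine ⟨b⁻¹, Subgroup.inv_mem _ hb, by rw [inv_pow, hb3, inv_one], inv_ne_one.mpr hb1, ?_, ?_⟩
      · rw [inv_inv]; exact h.1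
      · rw [inv_inv]; exact h.2
  set g : ↥(alternatingGroup (Fin 4)) × ↥(alternatingGroup (Fin 4)) := (a', b') with hg
  have hg3 : g ^ 3 = 1 := Prod.ext ha3' hb3'
  have hg1 : g ≠ 1 := fun h => ha1' (congrArg Prod.fst h)
  have hgo : orderOf g = 3 := orderOf_eq_prime hg3 hg1
  have hgu : g * u * g⁻¹ = v := Prod.ext hau hbu
  have hgv : g * v * g⁻¹ = u * v := Prod.ext hav hbv
  have hgQ : g ∈ (Q : Subgroup _) := by
    rw [← hQeq, Subgroup.mem_prod]; exact ⟨ha', hb'⟩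
  refine ⟨Subgroup.zpowers g, ?_, ?_, ?_, ?_, ?_⟩
  · rw [Subgroup.zpowers_le]; exact hgQ
  · rw [Nat.card_zpowers, hgo]
  · intro h
    have : g ∈ (Q : Subgroup _) ⊓ Subgroup.prod ⊤ ⊥ := by rw [← h]; exact Subgroup.mem_zpowers g
    have h7 := (Subgroup.mem_prod.mp this.2).2
    exact hb1' (Subgroup.mem_bot.mp h7)
  · intro h
    have : g ∈ (Q : Subgroup _) ⊓ Subgroup.prod ⊥ ⊤ := by rw [← h]; exact Subgroup.mem_zpowers g
    have h7 := (Subgroup.mem_prod.mp this.2).1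
    exact ha1' (Subgroup.mem_bot.mp h7)
  · rw [Subgroup.zpowers_le]
    have hmaps : ∀ w ∈ B, g * w * g⁻¹ ∈ B := by
      intro w hw
      rcases hBset w hw with h | h | h | h
      · rw [h]; simp [B.one_mem]
      · rw [h, hgu]; exact hv
      · rw [h, hgv]; exact B.mul_mem hu hv
      · rw [h]
        have : g * (u * v) * g⁻¹ = (g * u * g⁻¹) * (g * v * g⁻¹) := by group
        rw [this, hgu, hgv]
        exact B.mul_mem hv (B.mul_mem hu hv)
    have hginv : g⁻¹ = g * g := by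
      have : g * g * g = 1 := by rw [← hg3, pow_succ, pow_two]
      exact (eq_inv_of_mul_eq_one_left this).symm
    rw [Subgroup.mem_normalizer_iff]
    intro w
    constructor
    · exact hmaps w
    · intro h
      have h8 := hmaps _ (hmaps _ h)
      have : g * (g * (g * w * g⁻¹) * g⁻¹) * g⁻¹ = w := by
        have e : g * (g * (g * w * g⁻¹) * g⁻¹) * g⁻¹ = (g ^ 3) * w * (g ^ 3)⁻¹ := by
          rw [pow_succ, pow_two]; simp only [mul_assoc, mul_inv_rev]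
        rw [e, hg3]; simp
      rwa [this] at h8

end Cfsg.Agent.S4406
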