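import Cfsg.Statements.S4407

set_option autoImplicit false
open Cfsg

namespace Cfsg.Agent.S4407

section core

variable {S : Type*} [Group S] [Finite S] {M : Type*} [AddCommGroup M] [Module (ZMod 2) M]
  (ρ : Representation (ZMod 2) S M)

theorem add_self' (m : M) : m + m = 0 := by
  have : (2 : ZMod 2) • m = m + m := two_smul _ m
  rw [← this]
  have h : (2 : ZMod 2) = 0 := by decide
  rw [h, zero_smul]

theorem eq_of_add_eq_zero' {x y : M} (h : x + y = 0) : x = y := by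
  have h1 := add_self' y
  calc x = x + (y + y) := by rw [h1, add_zero]
    _ = (x + y) + y := by rw [add_assoc]
    _ = y := by rw [h, zero_add]

theorem inv_of_gen {a r s : S} (hgen : Subgroup.closure {a, r, s} = ⊤) (N : Submodule (ZMod 2) M)
    (ha : ∀ m ∈ N, ρ a m ∈ N) (hr : ∀ m ∈ N, ρ r m ∈ N) (hs : ∀ m ∈ N, ρ s m ∈ N) :
    ∀ g : S, ∀ m ∈ N, ρ g m ∈ N := by
  have hpow : ∀ g : S, (∀ m ∈ N, ρ g m ∈ N) → ∀ n : ℕ, ∀ m ∈ N, ρ (g ^ n) m ∈ N := by
    intro g hg n
    induction n with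
    | zero => intro m hm; simpa using hm
    | succ n ih =>
      intro m hm
      rw [pow_succ, map_mul]
      exact ih _ (hg m hm)
  intro g
  have hg : g ∈ Subgroup.closure {a, r, s} := by rw [hgen]; trivial
  induction hg using Subgroup.closure_induction with
  | mem x hx =>
    simp only [Set.mem_insert_iff, Set.mem_singleton_iff] at hx
    rcases hx with h | h | h
    · rw [h]; exact ha
    · rw [h]; exact hr
    · rw [h]; exact hs
  | one => intro m hm; simpa using hm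
  | mul x y _ _ hx hy =>
    intro m hm
    rw [map_mul]
    exact hx _ (hy m hm)
  | inv x _ hx =>
    have h1 : x⁻¹ = x ^ (Nat.card S - 1) := by
      have h2 : x ^ Nat.card S = 1 := pow_card_eq_one'
      have h3 : Nat.card S = (Nat.card S - 1) + 1 := by
        have := Nat.card_pos (α := S); omega
      rw [h3, pow_succ] at h2
      exact (eq_inv_of_mul_eq_one_left h2).symm
    rw [h1]
    exact hpow x hx _

theorem core (hfaith : Function.Injective ρ)
    (hirr : ∀ N : Submodule (ZMod 2) M, (∀ s : S, ∀ m ∈ N, ρ s m ∈ N) → N = ⊥ ∨ N = ⊤)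
    (a r s : S) (ha3 : a ^ 3 = 1) (ha1 : a ≠ 1) (hr4 : r ^ 4 = 1) (hs2 : s ^ 2 = 1) (hsr : s * r = r⁻¹ * s)
    (hza : r ^ 2 * a = a⁻¹ * r ^ 2) (hsa : s * a = a * s) (hcomm : Commute a (r * a * r⁻¹))
    (hgen : Subgroup.closure {a, r, s} = ⊤) (v : M) (hv : v ≠ 0) (hav : ρ a v = v) :
    Nat.card M = 16 ∧ Nat.card {m : M // ρ s m = m ∧ ρ (r ^ 2) m = m} = 4 ∧
      Nat.card {m : M // ρ (s * r) m = m ∧ ρ (r ^ 2) m = m} = 2 := by
  classical
  obtain ⟨b, hb⟩ : ∃ b : S, b = r * a * r⁻¹ := ⟨_, rfl⟩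
  rw [← hb] at hcomm
  have hb3 : b ^ 3 = 1 := by rw [hb, conj_pow, ha3]; simp
  have hbinv : b⁻¹ = b ^ 2 := by
    rw [inv_eq_iff_mul_eq_one, ← pow_succ', hb3]
  have hainv : a⁻¹ = a ^ 2 := by
    rw [inv_eq_iff_mul_eq_one, ← pow_succ', ha3]
  have hrinv : r⁻¹ = r * r ^ 2 := by
    rw [inv_eq_iff_mul_eq_one, ← pow_succ', ← pow_succ', hr4]
  have hrb : b * r = r * a := by rw [hb]; simp
  have hra : r * b = a⁻¹ * r := by
    have : r * b = (r ^ 2 * a) * r⁻¹ := by rw [hb, pow_two]; simp [mul_assoc]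
    rw [this, hza, pow_two]; simp [mul_assoc]
  have har : a * r = r * b⁻¹ := by
    have := hra
    rw [eq_mul_inv_iff_mul_eq, mul_assoc, hra]; simp
  have hzr : r ^ 2 * r = r * r ^ 2 := by rw [← pow_succ, ← pow_succ']
  have hzb : r ^ 2 * b = b⁻¹ * r ^ 2 := by
    rw [hb]
    calc r ^ 2 * (r * a * r⁻¹) = r * (r ^ 2 * a) * r⁻¹ := by simp [mul_assoc, pow_two]
      _ = r * (a⁻¹ * r ^ 2) * r⁻¹ := by rw [hza]
      _ = (r * a * r⁻¹)⁻¹ * r ^ 2 := by simp [mul_assoc, pow_two]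
  have hsb : s * b = b⁻¹ * s := by
    have h1 : s * r⁻¹ = r * s := by
      have : s * r⁻¹ = r * (r⁻¹ * s) * r⁻¹ := by simp
      rw [this, ← hsr]; simp [mul_assoc]
    rw [hb]
    calc s * (r * a * r⁻¹) = (s * r) * a * r⁻¹ := by simp [mul_assoc]
      _ = r⁻¹ * (s * a) * r⁻¹ := by rw [hsr]; simp [mul_assoc]
      _ = r⁻¹ * a * (s * r⁻¹) := by rw [hsa]; simp [mul_assoc]
      _ = r⁻¹ * a * r * s := by rw [h1]; simp [mul_assoc]
      _ = r * (r ^ 2 * a * (r ^ 2)⁻¹) * r⁻¹ * s := by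
          rw [hrinv]
          have : (r * r ^ 2) * a * r = r * (r ^ 2 * a * (r ^ 2)⁻¹) * (r ^ 2 * r) := by simp [mul_assoc]
          rw [this, hzr, ← hrinv]
      _ = r * a⁻¹ * r⁻¹ * s := by rw [hza]; simp [mul_assoc]
      _ = (r * a * r⁻¹)⁻¹ * s := by simp [mul_assoc]
  have hzs : r ^ 2 * s = s * r ^ 2 := by
    have h1 : s * r ^ 2 = r⁻¹ * r⁻¹ * s := by
      rw [pow_two, ← mul_assoc, hsr, mul_assoc, hsr, mul_assoc]
    rw [h1]
    have h2 : r ^ 2 = r⁻¹ * r⁻¹ := by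
      rw [← mul_inv_rev, ← pow_two, eq_inv_iff_mul_eq_one, ← pow_add, hr4]
    rw [h2]
  -- apply to vectors
  have mulv : ∀ (g h : S) (m : M), ρ (g * h) m = ρ g (ρ h m) := by
    intro g h m; rw [map_mul]; rfl
  have invv : ∀ (g : S) (m : M), ρ g m = m → ρ g⁻¹ m = m := by
    intro g m h
    nth_rewrite 1 [← h]
    rw [← mulv]; simp
  -- common fixed vectors of `a` and `b` vanish
  have hC : ∀ m : M, ρ a m = m → ρ b m = m → m = 0 := by
    let C : Submodule (ZMod 2) M :=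
      { carrier := {m | ρ a m = m ∧ ρ b m = m}
        add_mem' := by
          rintro x y ⟨h1, h2⟩ ⟨h3, h4⟩
          exact ⟨by rw [map_add, h1, h3], by rw [map_add, h2, h4]⟩
        zero_mem' := ⟨map_zero _, map_zero _⟩
        smul_mem' := by
          rintro c x ⟨h1, h2⟩
          exact ⟨by rw [map_smul, h1], by rw [map_smul, h2]⟩ }
    have hCinv : ∀ g : S, ∀ m ∈ C, ρ g m ∈ C := by
      apply inv_of_gen ρ hgen C
      · rintro m ⟨h1, h2⟩
        refine ⟨?_, ?_⟩
        · rw [h1, h1]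
        · rw [h1, h2]
      · rintro m ⟨h1, h2⟩
        refine ⟨?_, ?_⟩
        · rw [← mulv, har, mulv, invv b m h2]
        · rw [← mulv, hrb, mulv, h1]
      · rintro m ⟨h1, h2⟩
        refine ⟨?_, ?_⟩
        · rw [← mulv, ← hsa, mulv, h1]
        · have : b * s = s * b⁻¹ := by
            rw [eq_mul_inv_iff_mul_eq, mul_assoc, hsb]; simp
          rw [← mulv, this, mulv, invv b m h2]
    rcases hirr C hCinv with h | h
    · intro m h1 h2
      have : m ∈ C := ⟨h1, h2⟩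
      rw [h] at this
      exact (Submodule.mem_bot _).mp this
    · exfalso
      apply ha1
      apply hfaith
      rw [map_one]
      ext m
      have : m ∈ C := by rw [h]; trivial
      exact this.1
  -- find u
  have hw : ∃ w : M, w ≠ 0 ∧ ρ a w = w ∧ ρ (s * r ^ 2) w = w := by
    by_cases h : v + ρ (s * r ^ 2) v = 0
    · refine ⟨v, hv, hav, ?_⟩
      have : ρ (s * r ^ 2) v = (v + ρ (s * r ^ 2) v) + v := by
        have h1 := add_self' v
        calc ρ (s * r ^ 2) v = ρ (s * r ^ 2) v + (v + v) := by rw [h1, add_zero]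
          _ = _ := by abel
      rw [this, h, zero_add]
    · refine ⟨v + ρ (s * r ^ 2) v, h, ?_, ?_⟩
      · rw [map_add, hav, ← mulv]
        have : a * (s * r ^ 2) = s * r ^ 2 * a⁻¹ := by
          rw [← mul_assoc, ← hsa, mul_assoc, mul_assoc]
          have : a * r ^ 2 = r ^ 2 * a⁻¹ := by
            rw [eq_mul_inv_iff_mul_eq, mul_assoc, hza]; simp
          rw [this]
        rw [this, mulv, invv a v hav]
      · rw [map_add, ← mulv]
        have : s * r ^ 2 * (s * r ^ 2) = 1 := by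
          rw [mul_assoc, ← mul_assoc (r ^ 2), hzs, mul_assoc s, ← mul_assoc, ← pow_two, ← pow_add, hs2, hr4]
          simp
        rw [this, map_one, add_comm]; rfl
  obtain ⟨w, hw0, haw, hszw⟩ := hw
  have hu : ∃ u : M, u ≠ 0 ∧ ρ a u = u ∧ ρ (s * r ^ 2) u = u ∧ ρ s u = u := by
    by_cases h : w + ρ s w = 0
    · refine ⟨w, hw0, haw, hszw, ?_⟩
      have : ρ s w = (w + ρ s w) + w := by
        have h1 := add_self' w
        calc ρ s w = ρ s w + (w + w) := by rw [h1, add_zero]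
          _ = _ := by abel
      rw [this, h, zero_add]
    · refine ⟨w + ρ s w, h, ?_, ?_, ?_⟩
      · rw [map_add, haw, ← mulv, ← hsa, mulv, haw]
      · rw [map_add, hszw, ← mulv, mul_assoc, hzs, mulv, hszw]
      · rw [map_add, ← mulv, ← pow_two, hs2, map_one, add_comm]; rfl
  obtain ⟨u, hu0, hau, hszu, hsu⟩ := hu
  have hzu : ρ (r ^ 2) u = u := by
    have h1 : ρ s (ρ (r ^ 2) u) = u := by rw [← mulv]; exact hszu
    have h2 := congrArg (ρ s) h1
    rw [← mulv, ← pow_two, hs2, map_one, hsu] at h2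
    exact h2
  have hbbu : ρ (b ^ 2) u = u + ρ b u := by
    have h1 : u + ρ b u + ρ (b ^ 2) u = 0 := by
      apply hC
      · rw [map_add, map_add, hau, ← mulv, ← mulv, hcomm.eq, (hcomm.pow_right 2).eq, mulv, mulv, hau]
      · rw [map_add, map_add, ← mulv, ← mulv, ← pow_two, ← pow_succ', hb3, map_one]
        show ρ b u + ρ (b ^ 2) u + u = _
        abel
    exact (eq_of_add_eq_zero' h1).symm
  -- action on the four vectors
  have e1 : ρ r (ρ r u) = u := by rw [← mulv, ← pow_two, hzu]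
  have e2 : ρ r (ρ r (ρ b u)) = u + ρ b u := by
    rw [← mulv, ← mulv, ← pow_two, hzb, mulv, hzu, hbinv, hbbu]
  have e3 : ρ a (ρ b u) = ρ b u := by rw [← mulv, hcomm.eq, mulv, hau]
  have e4 : ρ a (ρ r u) = ρ r u + ρ r (ρ b u) := by
    rw [← mulv, har, mulv, hbinv, hbbu, map_add]
  have e5 : ρ a (ρ r (ρ b u)) = ρ r u := by
    rw [← mulv, ← mulv, har, inv_mul_cancel_right]
  have e6 : ρ s (ρ b u) = u + ρ b u := by
    rw [← mulv, hsb, mulv, hsu, hbinv, hbbu]
  have e7 : ρ s (ρ r u) = ρ r u := by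
    rw [← mulv, hsr, mulv, hsu, hrinv, mulv, hzu]
  have e8 : ρ s (ρ r (ρ b u)) = ρ r (ρ b u) := by
    rw [← mulv, ← mulv, hsr, mul_assoc, hsb, mulv, mulv, hsu, hrinv, ← mulv]
    rw [mul_assoc, mulv r, hbinv]
    have : r ^ 2 * b ^ 2 = b * r ^ 2 := by
      have h1 : b ^ 2 = b⁻¹ := hbinv.symm
      rw [h1, mul_inv_eq_iff_eq_mul, mul_assoc, hzb]; simp
    rw [this, mulv b, hzu]
  have e9 : ρ b (ρ r u) = ρ r u := by rw [← mulv, hrb, mulv, hau]
  have e10 : ρ b (ρ r (ρ b u)) = ρ r (ρ b u) := by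
    rw [← mulv, hrb, mulv, e3]
  let φ : (ZMod 2 × ZMod 2 × ZMod 2 × ZMod 2) →ₗ[ZMod 2] M :=
    { toFun := fun c => c.1 • u + c.2.1 • ρ b u + c.2.2.1 • ρ r u + c.2.2.2 • ρ r (ρ b u)
      map_add' := by
        intro x y
        simp only [Prod.fst_add, Prod.snd_add, add_smul]; abel
      map_smul' := by
        intro c x
        simp only [Prod.smul_fst, Prod.smul_snd, smul_eq_mul, mul_smul, smul_add, RingHom.id_apply] }
  have hφ : ∀ c, φ c = c.1 • u + c.2.1 • ρ b u + c.2.2.1 • ρ r u + c.2.2.2 • ρ r (ρ b u) := fun c => rfl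
  have fa : ∀ c, ρ a (φ c) = φ (c.1, c.2.1, c.2.2.1 + c.2.2.2, c.2.2.1) := by
    intro c
    rw [hφ, hφ]
    simp only [map_add, map_smul, hau, e3, e4, e5, smul_add, add_smul]
    abel
  have fr : ∀ c, ρ r (φ c) = φ (c.2.2.1 + c.2.2.2, c.2.2.2, c.1, c.2.1) := by
    intro c
    rw [hφ, hφ]
    simp only [map_add, map_smul, e1, e2, smul_add, add_smul]
    abel
  have fs : ∀ c, ρ s (φ c) = φ (c.1 + c.2.1, c.2.1, c.2.2.1, c.2.2.2) := by
    intro c
    rw [hφ, hφ]
    simp only [map_add, map_smul, hsu, e6, e7, e8, smul_add, add_smul]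
    abel
  have hinj : Function.Injective φ := by
    rw [injective_iff_map_eq_zero]
    intro c hc
    rw [hφ] at hc
    have h1 : c.1 • u + c.2.1 • ρ b u = c.2.2.1 • ρ r u + c.2.2.2 • ρ r (ρ b u) := by
      apply eq_of_add_eq_zero'
      rw [← hc]; abel
    have h2 : c.1 • u + c.2.1 • ρ b u = 0 := by
      apply hC
      · simp only [map_add, map_smul, hau, e3]
      · rw [h1]
        simp only [map_add, map_smul, e9, e10]
    have h3 : c.2.2.1 • u + c.2.2.2 • ρ b u = 0 := by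
      rw [h2] at h1
      have h4 : ρ r (c.2.2.1 • u + c.2.2.2 • ρ b u) = 0 := by
        rw [map_add, map_smul, map_smul]; exact h1.symm
      have h5 := congrArg (ρ r⁻¹) h4
      rw [← mulv, inv_mul_cancel, map_one, map_zero] at h5
      exact h5
    have hbu : ρ b u ≠ 0 := by
      intro h
      apply hu0
      have h5 := congrArg (ρ b⁻¹) h
      rw [← mulv, inv_mul_cancel, map_one, map_zero] at h5
      exact h5
    have hbu2 : u + ρ b u ≠ 0 := by
      intro h
      apply hu0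
      exact hC u hau (eq_of_add_eq_zero' h).symm
    have key : ∀ x y : ZMod 2, x • u + y • ρ b u = 0 → x = 0 ∧ y = 0 := by
      intro x y hxy
      have hx : x = 0 ∨ x = 1 := (by decide : ∀ x : ZMod 2, x = 0 ∨ x = 1) x
      have hy : y = 0 ∨ y = 1 := (by decide : ∀ x : ZMod 2, x = 0 ∨ x = 1) y
      rcases hx with rfl | rfl <;> rcases hy with rfl | rfl
      · exact ⟨rfl, rfl⟩
      · simp at hxy; exact absurd hxy hbu
      · simp at hxy; exact absurd hxy hu0
      · simp at hxy; exact absurd hxy hbu2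
    have h6 := key _ _ h2
    have h7 := key _ _ h3
    exact Prod.ext h6.1 (Prod.ext h6.2 (Prod.ext h7.1 h7.2))
  have hsurj : Function.Surjective φ := by
    have hinv : ∀ g : S, ∀ m ∈ LinearMap.range φ, ρ g m ∈ LinearMap.range φ := by
      apply inv_of_gen ρ hgen
      · rintro _ ⟨c, rfl⟩; exact ⟨_, (fa c).symm⟩
      · rintro _ ⟨c, rfl⟩; exact ⟨_, (fr c).symm⟩
      · rintro _ ⟨c, rfl⟩; exact ⟨_, (fs c).symm⟩
    rcases hirr _ hinv with h | h
    · exfalso
      apply hu0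
      have h1 : φ (1, 0, 0, 0) ∈ LinearMap.range φ := ⟨_, rfl⟩
      rw [h, Submodule.mem_bot] at h1
      rw [hφ] at h1
      simpa using h1
    · exact LinearMap.range_eq_top.mp h
  let Φ := Equiv.ofBijective φ ⟨hinj, hsurj⟩
  have hΦ : ∀ c, Φ c = φ c := fun c => rfl
  have fz : ∀ c, ρ (r ^ 2) (φ c) = φ (c.1 + c.2.1, c.2.1, c.2.2.1 + c.2.2.2, c.2.2.2) := by
    intro c
    rw [pow_two, mulv, fr, fr]
  have fsr : ∀ c, ρ (s * r) (φ c) = φ (c.2.2.1 + c.2.2.2 + c.2.2.2, c.2.2.2, c.1, c.2.1) := by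
    intro c
    rw [mulv, fr, fs]
  refine ⟨?_, ?_, ?_⟩
  · rw [← Nat.card_congr Φ, Nat.card_eq_fintype_card]
    rfl
  · have h1 : Nat.card {c : ZMod 2 × ZMod 2 × ZMod 2 × ZMod 2 //
        (c.1 + c.2.1, c.2.1, c.2.2.1, c.2.2.2) = c ∧
        (c.1 + c.2.1, c.2.1, c.2.2.1 + c.2.2.2, c.2.2.2) = c} = 4 := by
      rw [Nat.card_eq_fintype_card]; decide
    refine Eq.trans (Eq.symm ?_) h1
    apply Nat.card_congr
    refine Equiv.subtypeEquiv Φ ?_
    intro c
    rw [hΦ, fs, fz, hinj.eq_iff, hinj.eq_iff]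
  · have h1 : Nat.card {c : ZMod 2 × ZMod 2 × ZMod 2 × ZMod 2 //
        (c.2.2.1 + c.2.2.2 + c.2.2.2, c.2.2.2, c.1, c.2.1) = c ∧
        (c.1 + c.2.1, c.2.1, c.2.2.1 + c.2.2.2, c.2.2.2) = c} = 2 := by
      rw [Nat.card_eq_fintype_card]; decide
    refine Eq.trans (Eq.symm ?_) h1
    apply Nat.card_congr
    refine Equiv.subtypeEquiv Φ ?_
    intro c
    rw [hΦ, fsr, fz, hinj.eq_iff, hinj.eq_iff]

end core

section dihedral

open DihedralGroup

/-- First four-subgroup of `D₈`. -/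
def B1 : Subgroup (DihedralGroup 4) where
  carrier := {x | x = r 0 ∨ x = r 2 ∨ x = sr 0 ∨ x = sr 2}
  mul_mem' := by
    have h : ∀ a b : DihedralGroup 4, (a = r 0 ∨ a = r 2 ∨ a = sr 0 ∨ a = sr 2) →
      (b = r 0 ∨ b = r 2 ∨ b = sr 0 ∨ b = sr 2) →
      (a * b = r 0 ∨ a * b = r 2 ∨ a * b = sr 0 ∨ a * b = sr 2) := by decide
    exact fun {a b} ha hb => h a b ha hb
  one_mem' := Or.inl rfl
  inv_mem' := by
    have h : ∀ a : DihedralGroup 4, (a = r 0 ∨ a = r 2 ∨ a = sr 0 ∨ a = sr 2) →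
      (a⁻¹ = r 0 ∨ a⁻¹ = r 2 ∨ a⁻¹ = sr 0 ∨ a⁻¹ = sr 2) := by decide
    exact fun {a} ha => h a ha

/-- Second four-subgroup of `D₈`. -/
def B2 : Subgroup (DihedralGroup 4) where
  carrier := {x | x = r 0 ∨ x = r 2 ∨ x = sr 1 ∨ x = sr 3}
  mul_mem' := by
    have h : ∀ a b : DihedralGroup 4, (a = r 0 ∨ a = r 2 ∨ a = sr 1 ∨ a = sr 3) →
      (b = r 0 ∨ b = r 2 ∨ b = sr 1 ∨ b = sr 3) →
      (a * b = r 0 ∨ a * b = r 2 ∨ a * b = sr 1 ∨ a * b = sr 3) := by decide
    exact fun {a b} ha hb => h a b ha hb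
  one_mem' := Or.inl rfl
  inv_mem' := by
    have h : ∀ a : DihedralGroup 4, (a = r 0 ∨ a = r 2 ∨ a = sr 1 ∨ a = sr 3) →
      (a⁻¹ = r 0 ∨ a⁻¹ = r 2 ∨ a⁻¹ = sr 1 ∨ a⁻¹ = sr 3) := by decide
    exact fun {a} ha => h a ha

theorem mem_B1 {x : DihedralGroup 4} : x ∈ B1 ↔ (x = r 0 ∨ x = r 2 ∨ x = sr 0 ∨ x = sr 2) := Iff.rfl
theorem mem_B2 {x : DihedralGroup 4} : x ∈ B2 ↔ (x = r 0 ∨ x = r 2 ∨ x = sr 1 ∨ x = sr 3) := Iff.rfl

instance decB1 : DecidablePred (· ∈ B1) := fun x =>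
  inferInstanceAs (Decidable (x = r 0 ∨ x = r 2 ∨ x = sr 0 ∨ x = sr 2))
instance decB2 : DecidablePred (· ∈ B2) := fun x =>
  inferInstanceAs (Decidable (x = r 0 ∨ x = r 2 ∨ x = sr 1 ∨ x = sr 3))

theorem card_B1 : Nat.card ↥B1 = 4 := by
  rw [Nat.card_eq_fintype_card]; decide
theorem card_B2 : Nat.card ↥B2 = 4 := by
  rw [Nat.card_eq_fintype_card]; decide

theorem four_subgroups (B : Subgroup (DihedralGroup 4)) (hB4 : Nat.card ↥B = 4) (hB2 : ∀ b ∈ B, b ^ 2 = 1) :
    B = B1 ∨ B = B2 := by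
  have h1 : ∀ x : DihedralGroup 4, x ^ 2 = 1 → x ∈ B1 ∨ x ∈ B2 := by decide
  have h2 : ∀ x y : DihedralGroup 4, x ∉ B1 → y ∉ B2 → x ^ 2 = 1 → y ^ 2 = 1 → (x * y) ^ 2 ≠ 1 := by decide
  by_cases h : ∃ x ∈ B, x ∉ B1
  · obtain ⟨x, hx, hx1⟩ := h
    right
    apply Subgroup.eq_of_le_of_card_ge
    · intro y hy
      by_contra hy2
      exact h2 x y hx1 hy2 (hB2 x hx) (hB2 y hy) (hB2 _ (B.mul_mem hx hy))
    · rw [hB4, card_B2]
  · push Not at h
    left
    apply Subgroup.eq_of_le_of_card_ge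
    · exact h
    · rw [hB4, card_B1]

end dihedral

/-- Let S be a finite group with a normal elementary abelian subgroup A of order 9 that is self-centralizing (C_S(A) = A), and a dihedral subgroup X of order 8 with S = AX. Let M be a finite-dimensional module for S over the field with two elements that is faithful and irreducible. Then M has 16 elements, and X contains exactly one subgroup B of order 4 and exponent 2 whose fixed points on M form a subspace with exactly 2 elements (equivalently, M is free of rank one over the group algebra of B). -/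
theorem result {S : Type*} [Group S] [Finite S]
    (A : Subgroup S) [A.Normal] (hA : Cfsg.IsElementaryAbelian 3 A) (hA9 : Nat.card ↥A = 9)
    (hAC : Subgroup.centralizer (A : Set S) = A) (X : Subgroup S) (hX : Nonempty (↥X ≃* DihedralGroup 4)) (hAX : A ⊔ X = ⊤)
    {M : Type*} [AddCommGroup M] [Module (ZMod 2) M] [Finite M] (ρ : Representation (ZMod 2) S M)
    (hfaith : Function.Injective ρ)
    (hirr : ∀ N : Submodule (ZMod 2) M, (∀ s : S, ∀ m ∈ N, ρ s m ∈ N) → N = ⊥ ∨ N = ⊤) (hM : Nontrivial M) :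
    Nat.card M = 16 ∧
      ∃! B : Subgroup S, B ≤ X ∧ Nat.card ↥B = 4 ∧ (∀ b ∈ B, b ^ 2 = 1) ∧
        Nat.card {m : M // ∀ b ∈ B, ρ b m = m} = 2 := by
  classical
  obtain ⟨e⟩ := hX
  have hAn : A.Normal := inferInstance
  have hAcomm : ∀ a ∈ A, ∀ b ∈ A, a * b = b * a := by
    intro a ha b hb
    have := hA.1.is_comm.comm ⟨a, ha⟩ ⟨b, hb⟩
    simpa using congrArg Subtype.val this
  have hA3 : ∀ a ∈ A, a ^ 3 = 1 := hA.2
  -- elements of X
  let ι : DihedralGroup 4 →* S := X.subtype.comp e.symm.toMonoidHom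
  have hι : Function.Injective ι := X.subtype_injective.comp e.symm.injective
  have hιX : ∀ x, ι x ∈ X := fun x => (e.symm x).2
  have hιsurj : ∀ x ∈ X, ∃ y, ι y = x := fun x hx => ⟨e ⟨x, hx⟩, by simp [ι]⟩
  have hcX : Nat.card ↥X = 8 := by
    rw [Nat.card_congr e.toEquiv, Nat.card_eq_fintype_card]; rfl
  have hAXbot : ∀ x, x ∈ A → x ∈ X → x = 1 := by
    intro x hxA hxX
    have h1 : x ^ 3 = 1 := hA3 x hxA
    have h2 : x ^ 8 = 1 := by
      have := pow_card_eq_one' (x := (⟨x, hxX⟩ : ↥X))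
      rw [hcX] at this
      simpa using congrArg Subtype.val this
    have h3 : x = (x ^ 3) ^ 3 * (x ^ 8)⁻¹ := by
      rw [← pow_mul, show 3 * 3 = 1 + 8 by norm_num, pow_add x 1 8, mul_assoc, mul_inv_cancel, mul_one, pow_one]
    rw [h3, h1, h2]; simp
  have hfix : ∀ x ∈ X, x ≠ 1 → ∃ a ∈ A, x * a ≠ a * x := by
    intro x hx hx1
    by_contra hcon
    push Not at hcon
    apply hx1
    apply hAXbot x _ hx
    rw [← hAC, Subgroup.mem_centralizer_iff]
    intro a ha
    exact (hcon a ha).symm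
  set r := ι (DihedralGroup.r 1) with hr
  set s := ι (DihedralGroup.sr 0) with hs
  have hr4 : r ^ 4 = 1 := by
    rw [hr, ← map_pow, show (DihedralGroup.r 1 : DihedralGroup 4) ^ 4 = 1 by decide, map_one]
  have hs2 : s ^ 2 = 1 := by
    rw [hs, ← map_pow, show (DihedralGroup.sr 0 : DihedralGroup 4) ^ 2 = 1 by decide, map_one]
  have hsr : s * r = r⁻¹ * s := by
    rw [hr, hs, ← map_mul, ← map_inv, ← map_mul]; rfl
  have hz1 : r ^ 2 ≠ 1 := by
    rw [hr, ← map_pow]
    intro h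
    have := hι (h.trans ι.map_one.symm)
    revert this; decide
  have hsz1 : s * r ^ 2 ≠ 1 := by
    rw [hr, hs, ← map_pow, ← map_mul]
    intro h
    have := hι (h.trans ι.map_one.symm)
    revert this; decide
  have hzX : r ^ 2 ∈ X := X.pow_mem (hιX _) 2
  have hzr : r ^ 2 * r = r * r ^ 2 := by rw [← pow_succ, ← pow_succ']
  have hzs : r ^ 2 * s = s * r ^ 2 := by
    rw [hr, hs, ← map_pow, ← map_mul, ← map_mul]; congr 1
  have hXgen : Subgroup.closure {r, s} = X := by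
    apply le_antisymm
    · rw [Subgroup.closure_le]
      intro x hx
      simp only [Set.mem_insert_iff, Set.mem_singleton_iff] at hx
      rcases hx with h | h
      · rw [h]; exact hιX _
      · rw [h]; exact hιX _
    · intro x hx
      obtain ⟨y, rfl⟩ := hιsurj x hx
      have hr' : r ∈ Subgroup.closure {r, s} := Subgroup.subset_closure (by simp)
      have hs' : s ∈ Subgroup.closure {r, s} := Subgroup.subset_closure (by simp)
      have hy : ∀ y : DihedralGroup 4, ∃ i : Fin 4, ∃ j : Fin 2, y =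
          (DihedralGroup.r 1) ^ (i : ℕ) * (DihedralGroup.sr 0) ^ (j : ℕ) := by decide
      obtain ⟨i, j, rfl⟩ := hy y
      rw [map_mul, map_pow, map_pow]
      exact Subgroup.mul_mem _ (Subgroup.pow_mem _ hr' _) (Subgroup.pow_mem _ hs' _)
  have hz2 : r ^ 2 * r ^ 2 = 1 := by rw [← pow_add, hr4]
  have hzi : (r ^ 2)⁻¹ = r ^ 2 := inv_eq_of_mul_eq_one_left hz2
  have hcj : ∀ g a, a ∈ A → g * a * g⁻¹ ∈ A := fun g a ha => hAn.conj_mem a ha g
  have hself : ∀ a ∈ A, a = a⁻¹ → a = 1 := by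
    intro a ha h
    have h2 : a ^ 2 = 1 := by
      rw [pow_two]; nth_rewrite 1 [h]; simp
    have h3 := hA3 a ha
    rw [pow_succ, h2, one_mul] at h3
    exact h3
  -- `z` inverts `A`
  have hinvA' : ∀ a ∈ A, r ^ 2 * a * (r ^ 2)⁻¹ = a⁻¹ := by
    by_contra hcon
    push Not at hcon
    obtain ⟨a0, ha0, ha0'⟩ := hcon
    set c0 := a0 * (r ^ 2 * a0 * (r ^ 2)⁻¹) with hc0
    have hc0A : c0 ∈ A := A.mul_mem ha0 (hcj _ _ ha0)
    have hc01 : c0 ≠ 1 := by
      intro h
      apply ha0'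
      exact (eq_inv_of_mul_eq_one_right h)
    have hc0z : r ^ 2 * c0 * (r ^ 2)⁻¹ = c0 := by
      rw [hc0]
      have : r ^ 2 * (a0 * (r ^ 2 * a0 * (r ^ 2)⁻¹)) * (r ^ 2)⁻¹
          = (r ^ 2 * a0 * (r ^ 2)⁻¹) * ((r ^ 2 * r ^ 2) * a0 * (r ^ 2 * r ^ 2)⁻¹) := by
        simp [mul_assoc]
      rw [this, hz2, one_mul, inv_one, mul_one]
      exact hAcomm _ (hcj _ _ ha0) _ ha0
    obtain ⟨a, ha, haz⟩ := hfix (r ^ 2) hzX hz1
    set d := a⁻¹ * (r ^ 2 * a * (r ^ 2)⁻¹) with hd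
    have hdA : d ∈ A := A.mul_mem (A.inv_mem ha) (hcj _ _ ha)
    have hd1 : d ≠ 1 := by
      intro h
      apply haz
      have : r ^ 2 * a * (r ^ 2)⁻¹ = a := by
        rw [hd, inv_mul_eq_one] at h; exact h.symm
      exact mul_inv_eq_iff_eq_mul.mp this
    have hdz : r ^ 2 * d * (r ^ 2)⁻¹ = d⁻¹ := by
      rw [hd]
      have : r ^ 2 * (a⁻¹ * (r ^ 2 * a * (r ^ 2)⁻¹)) * (r ^ 2)⁻¹
          = (r ^ 2 * a⁻¹ * (r ^ 2)) * a * ((r ^ 2)⁻¹ * (r ^ 2)⁻¹) := by simp [mul_assoc]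
      rw [this, ← mul_inv_rev, hz2, inv_one, mul_one]
      rw [mul_inv_rev, inv_inv, mul_inv_rev, mul_inv_rev, inv_inv, hzi]
      simp [mul_assoc]
    let D : Subgroup S :=
      { carrier := {x | x ∈ A ∧ r ^ 2 * x * (r ^ 2)⁻¹ = x⁻¹}
        mul_mem' := by
          rintro x y ⟨hx, hx'⟩ ⟨hy, hy'⟩
          refine ⟨A.mul_mem hx hy, ?_⟩
          have : r ^ 2 * (x * y) * (r ^ 2)⁻¹ = (r ^ 2 * x * (r ^ 2)⁻¹) * (r ^ 2 * y * (r ^ 2)⁻¹) := by
            simp [mul_assoc]
          rw [this, hx', hy', ← mul_inv_rev, hAcomm y hy x hx]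
        one_mem' := ⟨A.one_mem, by simp⟩
        inv_mem' := by
          rintro x ⟨hx, hx'⟩
          refine ⟨A.inv_mem hx, ?_⟩
          have : r ^ 2 * x⁻¹ * (r ^ 2)⁻¹ = (r ^ 2 * x * (r ^ 2)⁻¹)⁻¹ := by simp [mul_assoc]
          rw [this, hx'] }
    have hDA : D ≤ A := fun x hx => hx.1
    have hdD : d ∈ D := ⟨hdA, hdz⟩
    have hc0D : c0 ∉ D := by
      rintro ⟨_, h⟩
      rw [hc0z] at h
      exact hc01 (hself c0 hc0A h)
    have hod : orderOf d = 3 := by
      have : Fact (Nat.Prime 3) := ⟨by decide⟩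
      exact orderOf_eq_prime (hA3 d hdA) hd1
    have hDc : Nat.card ↥D = 3 := by
      have h1 : Nat.card ↥D ∣ 9 := by rw [← hA9]; exact Subgroup.card_dvd_of_le hDA
      have h2 : 3 ∣ Nat.card ↥D := by
        rw [← hod, ← Nat.card_zpowers]
        exact Subgroup.card_dvd_of_le ((Subgroup.zpowers_le).mpr hdD)
      have h3 : Nat.card ↥D ≠ 9 := by
        intro h
        have : D = A := Subgroup.eq_of_le_of_card_ge hDA (by rw [h, hA9])
        rw [this] at hc0D
        exact hc0D hc0A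
      have h4 : Nat.card ↥D ≤ 9 := Nat.le_of_dvd (by norm_num) h1
      generalize Nat.card ↥D = n at *
      interval_cases n <;> omega
    have hDz : Subgroup.zpowers d = D :=
      Subgroup.eq_of_le_of_card_ge ((Subgroup.zpowers_le).mpr hdD) (by rw [Nat.card_zpowers, hod, hDc])
    have hrd : r * d * r⁻¹ ∈ D := by
      refine ⟨hcj _ _ hdA, ?_⟩
      have : r ^ 2 * (r * d * r⁻¹) * (r ^ 2)⁻¹ = r * (r ^ 2 * d * (r ^ 2)⁻¹) * r⁻¹ := by
        calc r ^ 2 * (r * d * r⁻¹) * (r ^ 2)⁻¹ = (r ^ 2 * r) * d * (r ^ 2 * r)⁻¹ := by simp [mul_assoc]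
          _ = (r * r ^ 2) * d * (r * r ^ 2)⁻¹ := by rw [hzr]
          _ = _ := by simp [mul_assoc]
      rw [this, hdz]; simp [mul_assoc]
    rw [← hDz] at hrd
    obtain ⟨k, hk⟩ := Subgroup.mem_zpowers_iff.mp hrd
    have hk2 : r ^ 2 * d * (r ^ 2)⁻¹ = d ^ (k * k) := by
      calc r ^ 2 * d * (r ^ 2)⁻¹ = r * (r * d * r⁻¹) * r⁻¹ := by rw [pow_two]; simp [mul_assoc]
        _ = (r * d * r⁻¹) ^ k := by
          rw [← hk, ← MulAut.conj_apply, map_zpow, MulAut.conj_apply, ← hk]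
        _ = d ^ (k * k) := by rw [← hk, zpow_mul]
    rw [hdz] at hk2
    have hk3 : d ^ (k * k + 1) = 1 := by
      rw [zpow_add, ← hk2, zpow_one, inv_mul_cancel]
    have hk4 : (3 : ℤ) ∣ k * k + 1 := by
      have := orderOf_dvd_iff_zpow_eq_one.mpr hk3
      rwa [hod] at this
    have hk5 : k % 3 = 0 ∨ k % 3 = 1 ∨ k % 3 = 2 := by omega
    have hk6 : (k * k + 1) % 3 = 0 := Int.emod_eq_zero_of_dvd hk4
    rw [Int.add_emod, Int.mul_emod] at hk6
    rcases hk5 with h | h | h <;> rw [h] at hk6 <;> revert hk6 <;> decide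
  have hinvA : ∀ a ∈ A, r ^ 2 * a = a⁻¹ * r ^ 2 := fun a ha => mul_inv_eq_iff_eq_mul.mp (hinvA' a ha)
  -- a fixed point of `s`
  obtain ⟨a, haA, ha1, hsa⟩ : ∃ a ∈ A, a ≠ 1 ∧ s * a = a * s := by
    by_contra hcon
    push Not at hcon
    have hsinv : ∀ a ∈ A, s * a * s⁻¹ = a⁻¹ := by
      intro a ha
      by_contra hne
      have hc0A : a * (s * a * s⁻¹) ∈ A := A.mul_mem ha (hcj _ _ ha)
      refine hcon _ hc0A ?_ ?_
      · intro h
        exact hne (eq_inv_of_mul_eq_one_right h)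
      · have hss : s * s = 1 := by rw [← pow_two, hs2]
        have hsi : s⁻¹ = s := inv_eq_of_mul_eq_one_left hss
        rw [hAcomm _ ha _ (hcj _ _ ha)]
        rw [hsi]
        have : s * (s * a * s * a) = (s * s) * a * s * a := by simp [mul_assoc]
        rw [this, hss, one_mul]
        have h2 : s * a * s * a * s = s * a * s⁻¹ * a * s := by rw [hsi]
        rw [h2, hAcomm _ (hcj _ _ ha) _ ha, hsi]
        simp only [mul_assoc]
        rw [hss, mul_one]
    obtain ⟨a, ha, hne⟩ := hfix (s * r ^ 2) (X.mul_mem (hιX _) hzX) hsz1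
    apply hne
    have h1 : s * a⁻¹ * s⁻¹ = a := by rw [hsinv _ (A.inv_mem ha), inv_inv]
    have h2 : s * a⁻¹ = a * s := mul_inv_eq_iff_eq_mul.mp h1
    rw [mul_assoc, hinvA a ha, ← mul_assoc, h2, mul_assoc]
  obtain ⟨b, hb⟩ : ∃ b : S, b = r * a * r⁻¹ := ⟨_, rfl⟩
  have hbA : b ∈ A := by rw [hb]; exact hcj _ _ haA
  have hb1 : b ≠ 1 := by
    intro h
    apply ha1
    rw [hb] at h
    have := congrArg (fun x => r⁻¹ * x * r) h
    simpa [mul_assoc] using this
  have hsi : s⁻¹ = s := inv_eq_of_mul_eq_one_left (by rw [← pow_two, hs2])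
  have hsrinv : s * r⁻¹ = r * s := by
    have : s * r⁻¹ = r * (r⁻¹ * s) * r⁻¹ := by simp
    rw [this, ← hsr]; simp [mul_assoc]
  have hrinv : r⁻¹ = r * r ^ 2 := by
    rw [inv_eq_iff_mul_eq_one, ← pow_succ', ← pow_succ', hr4]
  have hsb : s * b = b⁻¹ * s := by
    rw [hb]
    calc s * (r * a * r⁻¹) = (s * r) * a * r⁻¹ := by simp [mul_assoc]
      _ = r⁻¹ * (s * a) * r⁻¹ := by rw [hsr]; simp [mul_assoc]
      _ = r⁻¹ * a * (s * r⁻¹) := by rw [hsa]; simp [mul_assoc]
      _ = r⁻¹ * a * r * s := by rw [hsrinv]; simp [mul_assoc]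
      _ = r * (r ^ 2 * a * (r ^ 2)⁻¹) * r⁻¹ * s := by
          rw [hrinv]
          have : (r * r ^ 2) * a * r = r * (r ^ 2 * a * (r ^ 2)⁻¹) * (r ^ 2 * r) := by simp [mul_assoc]
          rw [this, hzr, ← hrinv]
      _ = r * a⁻¹ * r⁻¹ * s := by rw [hinvA' a haA]
      _ = (r * a * r⁻¹)⁻¹ * s := by simp [mul_assoc]
  have hrbr : r * b * r⁻¹ = a⁻¹ := by
    rw [hb, ← hinvA' a haA, pow_two]; simp [mul_assoc]
  have hab : a * b = b * a := hAcomm a haA b hbA
  have hbn : b ∉ Subgroup.zpowers a := by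
    intro h
    obtain ⟨k, hk⟩ := Subgroup.mem_zpowers_iff.mp h
    have h1 : s * b = b * s := by
      rw [← hk]
      exact ((show Commute s a from hsa).zpow_right k).eq
    rw [h1] at hsb
    exact hb1 (hself b hbA (mul_right_cancel hsb))
  have hclA : Subgroup.closure {a, b} = A := by
    have hle : Subgroup.closure {a, b} ≤ A := by
      rw [Subgroup.closure_le]
      intro x hx
      simp only [Set.mem_insert_iff, Set.mem_singleton_iff] at hx
      rcases hx with h | h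
      · rw [h]; exact haA
      · rw [h]; exact hbA
    have ho : orderOf a = 3 := by
      have : Fact (Nat.Prime 3) := ⟨by decide⟩
      exact orderOf_eq_prime (hA3 a haA) ha1
    apply Subgroup.eq_of_le_of_card_ge hle
    have h1 : Nat.card ↥(Subgroup.closure {a, b}) ∣ 9 := by
      rw [← hA9]; exact Subgroup.card_dvd_of_le hle
    have h2 : Subgroup.zpowers a ≤ Subgroup.closure {a, b} := by
      rw [Subgroup.zpowers_le]; exact Subgroup.subset_closure (by simp)
    have h3 : 3 ∣ Nat.card ↥(Subgroup.closure {a, b}) := by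
      rw [← ho, ← Nat.card_zpowers]; exact Subgroup.card_dvd_of_le h2
    have h4 : Nat.card ↥(Subgroup.closure {a, b}) ≠ 3 := by
      intro h
      apply hbn
      have h5 : Subgroup.zpowers a = Subgroup.closure {a, b} :=
        Subgroup.eq_of_le_of_card_ge h2 (by rw [h, Nat.card_zpowers, ho])
      rw [h5]; exact Subgroup.subset_closure (by simp)
    have h5 : Nat.card ↥(Subgroup.closure {a, b}) ≤ 9 := Nat.le_of_dvd (by norm_num) h1
    rw [hA9]
    generalize Nat.card ↥(Subgroup.closure {a, b}) = n at *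
    have h6 : 0 < n := Nat.pos_of_dvd_of_pos h1 (by norm_num)
    interval_cases n <;> omega
  have hgen1 : Subgroup.closure {a, r, s} = ⊤ := by
    rw [eq_top_iff, ← hAX, sup_le_iff]
    have har : a ∈ Subgroup.closure {a, r, s} := Subgroup.subset_closure (by simp)
    have hrr : r ∈ Subgroup.closure {a, r, s} := Subgroup.subset_closure (by simp)
    have hss : s ∈ Subgroup.closure {a, r, s} := Subgroup.subset_closure (by simp)
    constructor
    · rw [← hclA, Subgroup.closure_le]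
      intro x hx
      simp only [Set.mem_insert_iff, Set.mem_singleton_iff] at hx
      rcases hx with h | h
      · rw [h]; exact har
      · rw [h, hb]; exact Subgroup.mul_mem _ (Subgroup.mul_mem _ hrr har) (Subgroup.inv_mem _ hrr)
    · rw [← hXgen, Subgroup.closure_le]
      intro x hx
      simp only [Set.mem_insert_iff, Set.mem_singleton_iff] at hx
      rcases hx with h | h
      · rw [h]; exact hrr
      · rw [h]; exact hss
  -- the second family
  obtain ⟨c, hc⟩ : ∃ c : S, c = a * b⁻¹ := ⟨_, rfl⟩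
  have hcA : c ∈ A := by rw [hc]; exact A.mul_mem haA (A.inv_mem hbA)
  have hrc : r * c * r⁻¹ = b * a := by
    rw [hc]
    have : r * (a * b⁻¹) * r⁻¹ = (r * a * r⁻¹) * (r * b * r⁻¹)⁻¹ := by simp [mul_assoc]
    rw [this, ← hb, hrbr, inv_inv]
  have hc1 : c ≠ 1 := by
    intro h
    rw [hc, mul_inv_eq_one] at h
    apply hbn
    rw [← h]; exact Subgroup.mem_zpowers a
  have hsrc : (s * r) * c = c * (s * r) := by
    have h1 : r * c = b * a * r := mul_inv_eq_iff_eq_mul.mp hrc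
    have h2 : b⁻¹ * a = a * b⁻¹ := hAcomm _ (A.inv_mem hbA) _ haA
    rw [mul_assoc, h1, ← mul_assoc, ← mul_assoc, hsb, mul_assoc b⁻¹, hsa, ← mul_assoc, h2, ← hc, mul_assoc]
  have hgen2 : Subgroup.closure {c, r, s * r} = ⊤ := by
    rw [eq_top_iff, ← hgen1, Subgroup.closure_le]
    have hcc : c ∈ Subgroup.closure {c, r, s * r} := Subgroup.subset_closure (by simp)
    have hrr : r ∈ Subgroup.closure {c, r, s * r} := Subgroup.subset_closure (by simp)
    have hss : s * r ∈ Subgroup.closure {c, r, s * r} := Subgroup.subset_closure (by simp)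
    have hs' : s ∈ Subgroup.closure {c, r, s * r} := by
      have := Subgroup.mul_mem _ hss (Subgroup.inv_mem _ hrr)
      simpa using this
    have ha' : a ∈ Subgroup.closure {c, r, s * r} := by
      have h1 : r * c * r⁻¹ ∈ Subgroup.closure {c, r, s * r} :=
        Subgroup.mul_mem _ (Subgroup.mul_mem _ hrr hcc) (Subgroup.inv_mem _ hrr)
      have h2 : (c * (r * c * r⁻¹)) ^ 2 = a := by
        rw [hrc, hc]
        have : a * b⁻¹ * (b * a) = a * a := by simp [mul_assoc]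
        rw [this, ← pow_two, ← pow_mul, show 2 * 2 = 3 + 1 by norm_num, pow_succ, hA3 a haA, one_mul]
      rw [← h2]
      exact Subgroup.pow_mem _ (Subgroup.mul_mem _ hcc h1) 2
    intro x hx
    simp only [Set.mem_insert_iff, Set.mem_singleton_iff] at hx
    rcases hx with h | h | h
    · rw [h]; exact ha'
    · rw [h]; exact hrr
    · rw [h]; exact hs'
  -- a fixed vector for one of the two families
  have mulv : ∀ (g h : S) (m : M), ρ (g * h) m = ρ g (ρ h m) := by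
    intro g h m; rw [map_mul]; rfl
  have hex : (∃ v : M, v ≠ 0 ∧ ρ a v = v) ∨ (∃ v : M, v ≠ 0 ∧ ρ c v = v) := by
    by_contra hcon
    push Not at hcon
    obtain ⟨hcon1, hcon2⟩ := hcon
    have hfa : ∀ v : M, ρ a v = v → v = 0 := fun v hv => by
      by_contra h; exact hcon1 v h hv
    have hfc : ∀ v : M, ρ c v = v → v = 0 := fun v hv => by
      by_contra h; exact hcon2 v h hv
    have hfconj : ∀ g : S, (∀ v : M, ρ g v = v → v = 0) → ∀ v : M, ρ (r * g * r⁻¹) v = v → v = 0 := by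
      intro g hg v hv
      have h1 : ρ g (ρ r⁻¹ v) = ρ r⁻¹ v := by
        have h2 := congrArg (ρ r⁻¹) hv
        rw [← mulv] at h2
        have h3 : r⁻¹ * (r * g * r⁻¹) = g * r⁻¹ := by simp [mul_assoc]
        rw [h3, mulv] at h2
        exact h2
      have h4 := hg _ h1
      have h5 := congrArg (ρ r) h4
      rw [← mulv, mul_inv_cancel, map_one, map_zero] at h5
      exact h5
    have hfb : ∀ v : M, ρ b v = v → v = 0 := by rw [hb]; exact hfconj a hfa
    have hfd : ∀ v : M, ρ (b * a) v = v → v = 0 := by rw [← hrc]; exact hfconj c hfc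
    have hN : ∀ g : S, g ^ 3 = 1 → (∀ v : M, ρ g v = v → v = 0) → ∀ m : M, m + ρ g m + ρ (g * g) m = 0 := by
      intro g hg3 hg m
      apply hg
      rw [map_add, map_add, ← mulv, ← mulv]
      have : g * (g * g) = 1 := by rw [← hg3, pow_succ, pow_two, mul_assoc]
      rw [this, map_one]
      show ρ g m + ρ (g * g) m + m = _
      abel
    obtain ⟨m, hm⟩ := exists_ne (0 : M)
    apply hm
    have hb3 := hA3 b hbA
    have hbi : b⁻¹ = b * b := by
      rw [inv_eq_iff_mul_eq_one, ← mul_assoc, ← hb3, pow_succ, pow_two]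
    have ha3 := hA3 a haA
    have hbbbb : b * b * (b * b) = b := by
      have : b * b * (b * b) = b ^ 3 * b := by rw [pow_succ, pow_two]; simp [mul_assoc]
      rw [this, hb3, one_mul]
    have h1 := hN a ha3 hfa m
    have h2 := hN b hb3 hfb m
    have h3 := hN (b * a) (hA3 _ (A.mul_mem hbA haA)) hfd m
    have h4 := hN c (hA3 _ hcA) hfc m
    have h5 := congrArg (ρ a) h2
    have h6 := congrArg (ρ (a * a)) h2
    rw [map_add, map_add, map_zero, ← mulv, ← mulv] at h5 h6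
    have e1 : b * a * (b * a) = a * a * (b * b) := by
      rw [← hab]; rw [mul_assoc a b, ← mul_assoc b a, ← hab]; simp [mul_assoc]
    have e2 : c = a * (b * b) := by rw [hc, hbi]
    have e3 : c * c = a * a * b := by
      rw [e2]
      have : (b * b) * a = a * (b * b) := (((show Commute b a from hab.symm).mul_left (show Commute b a from hab.symm))).eq
      calc a * (b * b) * (a * (b * b)) = a * ((b * b) * a) * (b * b) := by simp [mul_assoc]
        _ = a * a * ((b * b) * (b * b)) := by rw [this]; simp [mul_assoc]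
        _ = a * a * b := by rw [hbbbb]
    rw [e1, ← hab] at h3
    rw [e3, e2] at h4
    have h7 : (m + ρ a m + ρ (a * a) m) + (m + ρ b m + ρ (b * b) m) +
        (m + ρ (a * b) m + ρ (a * a * (b * b)) m) + (m + ρ (a * (b * b)) m + ρ (a * a * b) m) -
        ((m + ρ b m + ρ (b * b) m) + (ρ a m + ρ (a * b) m + ρ (a * (b * b)) m) +
          (ρ (a * a) m + ρ (a * a * b) m + ρ (a * a * (b * b)) m)) = m + (m + m) := by abel
    rw [h1, h2, h3, h4, h5, h6, add_self' m] at h7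
    simpa using h7.symm
  -- four-subgroups of `X`
  have hfour : ∀ B : Subgroup S, B ≤ X → Nat.card ↥B = 4 → (∀ b ∈ B, b ^ 2 = 1) → B = B1.map ι ∨ B = B2.map ι := by
    intro B hBX hB4 hB2
    have hmc : (B.comap ι).map ι = B := by
      rw [Subgroup.map_comap_eq]
      apply inf_eq_right.mpr
      intro x hx
      obtain ⟨y, rfl⟩ := hιsurj x (hBX hx)
      exact ⟨y, rfl⟩
    have h4 : Nat.card ↥(B.comap ι) = 4 := by
      have := Subgroup.card_map_of_injective (K := B.comap ι) hι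
      rw [hmc, hB4] at this
      exact this.symm
    have h2 : ∀ b ∈ B.comap ι, b ^ 2 = 1 := by
      intro y hy
      apply hι
      rw [map_pow, map_one]
      exact hB2 _ hy
    rcases four_subgroups _ h4 h2 with h | h
    · left; rw [← hmc, h]
    · right; rw [← hmc, h]
  have i0 : ι (DihedralGroup.r 0) = 1 := ι.map_one
  have i2 : ι (DihedralGroup.r 2) = r ^ 2 := by rw [hr, ← map_pow]; rfl
  have is2 : ι (DihedralGroup.sr 2) = s * r ^ 2 := by rw [hr, hs, ← map_pow, ← map_mul]; rfl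
  have is1 : ι (DihedralGroup.sr 1) = s * r := by rw [hr, hs, ← map_mul]; rfl
  have is3 : ι (DihedralGroup.sr 3) = s * r * r ^ 2 := by rw [hr, hs, ← map_pow, ← map_mul, ← map_mul]; rfl
  have hB1f : ∀ m : M, (∀ b ∈ B1.map ι, ρ b m = m) ↔ (ρ s m = m ∧ ρ (r ^ 2) m = m) := by
    intro m
    constructor
    · intro h
      refine ⟨h s ⟨DihedralGroup.sr 0, ?_, rfl⟩, h (r ^ 2) ⟨DihedralGroup.r 2, ?_, i2⟩⟩
      · exact mem_B1.mpr (by simp)
      · exact mem_B1.mpr (by simp)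
    · rintro ⟨h1, h2⟩ _ ⟨x, hx, rfl⟩
      rcases mem_B1.mp hx with h | h | h | h
      · rw [h, i0, map_one]; rfl
      · rw [h, i2, h2]
      · rw [h]; exact h1
      · rw [h, is2, mulv, h2, h1]
  have hB2f : ∀ m : M, (∀ b ∈ B2.map ι, ρ b m = m) ↔ (ρ (s * r) m = m ∧ ρ (r ^ 2) m = m) := by
    intro m
    constructor
    · intro h
      refine ⟨h (s * r) ⟨DihedralGroup.sr 1, ?_, is1⟩, h (r ^ 2) ⟨DihedralGroup.r 2, ?_, i2⟩⟩
      · exact mem_B2.mpr (by simp)
      · exact mem_B2.mpr (by simp)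
    · rintro ⟨h1, h2⟩ _ ⟨x, hx, rfl⟩
      rcases mem_B2.mp hx with h | h | h | h
      · rw [h, i0, map_one]; rfl
      · rw [h, i2, h2]
      · rw [h, is1, h1]
      · rw [h, is3, mulv, h2, h1]
  have hB1p : B1.map ι ≤ X ∧ Nat.card ↥(B1.map ι) = 4 ∧ ∀ b ∈ B1.map ι, b ^ 2 = 1 := by
    refine ⟨?_, ?_, ?_⟩
    · rintro _ ⟨x, _, rfl⟩; exact hιX x
    · rw [Subgroup.card_map_of_injective hι, card_B1]
    · rintro _ ⟨x, hx, rfl⟩
      rw [← map_pow]
      have : ∀ x : DihedralGroup 4, x ∈ B1 → x ^ 2 = 1 := by decide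
      rw [this x hx, map_one]
  have hB2p : B2.map ι ≤ X ∧ Nat.card ↥(B2.map ι) = 4 ∧ ∀ b ∈ B2.map ι, b ^ 2 = 1 := by
    refine ⟨?_, ?_, ?_⟩
    · rintro _ ⟨x, _, rfl⟩; exact hιX x
    · rw [Subgroup.card_map_of_injective hι, card_B2]
    · rintro _ ⟨x, hx, rfl⟩
      rw [← map_pow]
      have : ∀ x : DihedralGroup 4, x ∈ B2 → x ^ 2 = 1 := by decide
      rw [this x hx, map_one]
  rcases hex with ⟨v, hv, hav⟩ | ⟨v, hv, hcv⟩
  · obtain ⟨k1, k2, k3⟩ := core ρ hfaith hirr a r s (hA3 a haA) ha1 hr4 hs2 hsr (hinvA a haA) hsa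
      (by rw [← hb]; exact hab) hgen1 v hv hav
    refine ⟨k1, B2.map ι, ⟨hB2p.1, hB2p.2.1, hB2p.2.2, ?_⟩, ?_⟩
    · simp only [hB2f]; exact k3
    · rintro B ⟨q1, q2, q3, q4⟩
      rcases hfour B q1 q2 q3 with h | h
      · exfalso
        rw [h] at q4
        simp only [hB1f] at q4
        rw [q4] at k2
        omega
      · exact h
  · have hsr2 : (s * r) ^ 2 = 1 := by
      have : (s * r) * (s * r) = s * r * (r⁻¹ * s) := by rw [← hsr]
      rw [pow_two, this]; simp [← pow_two, hs2]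
    have hsrr : s * r * r = r⁻¹ * (s * r) := by rw [← mul_assoc, ← hsr]
    have hccomm : Commute c (r * c * r⁻¹) := by
      rw [hrc]; exact hAcomm _ hcA _ (A.mul_mem hbA haA)
    obtain ⟨k1, k2, k3⟩ := core ρ hfaith hirr c r (s * r) (hA3 c hcA) hc1 hr4 hsr2 hsrr (hinvA c hcA) hsrc
      hccomm hgen2 v hv hcv
    refine ⟨k1, B1.map ι, ⟨hB1p.1, hB1p.2.1, hB1p.2.2, ?_⟩, ?_⟩
    · simp only [hB1f]
      refine Eq.trans ?_ k3
      apply Nat.card_congr
      apply Equiv.subtypeEquivRight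
      intro m
      have hss : s * r * r = s * r ^ 2 := by rw [pow_two, mul_assoc]
      constructor
      · rintro ⟨h1, h2⟩
        exact ⟨by rw [hss, mulv, h2, h1], h2⟩
      · rintro ⟨h1, h2⟩
        refine ⟨?_, h2⟩
        rw [hss, mulv, h2] at h1
        exact h1
    · rintro B ⟨q1, q2, q3, q4⟩
      rcases hfour B q1 q2 q3 with h | h
      · exact h
      · exfalso
        rw [h] at q4
        simp only [hB2f] at q4
        rw [q4] at k2
        omega

end Cfsg.Agent.S4407
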