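import Cfsg.Statements.S4409
import Cfsg.Agent.H586.ClassifyNA8
import Cfsg.Agent.S0003
import Cfsg.Agent.S0044
import Cfsg.Agent.S0095
import Cfsg.Agent.J2.ExtQuot
import Cfsg.Agent.GH.C2GrowG
import Cfsg.Agent.Lib.DihedralRecog
import Cfsg.Agent.SignalizersComponents.CompOrbit

set_option autoImplicit false
open Cfsg

namespace Cfsg.Agent.S4409

open Subgroup Cfsg.Agent.H586.OddAct Cfsg.Agent.H586.NoAbelianEight
open scoped Pointwise

variable {G : Type*} [Group G]

/-- Change of coordinates in a quaternion group. -/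
theorem q8_change {Y : Subgroup G} {z i j : G} (q : Q8 Y z i j) {a b : G} (ha : a ∈ Y)
    (hb : b ∈ Y) (hab : a * b ≠ b * a) : Q8 Y z a b := by
  have hz := q.hz
  have hzc := q.zc
  have hzz := q.zz
  have hz1 := q.z1
  have hsq := q.sq
  have hcent : ∀ y ∈ Y, y ≠ 1 → y ≠ z → ∀ x ∈ Y, x * y = y * x →
      x = 1 ∨ x = z ∨ x = y ∨ x = y * z := by
    intro y hy hy1 hyz x hx hxy
    have hyy : y * y = z := by
      rcases hsq y hy with h | h | h
      · exact absurd h hy1
      · exact absurd h hyz
      · exact h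
    have hyinv : y⁻¹ = y * z := by
      rw [inv_eq_iff_mul_eq_one, ← mul_assoc, hyy, hzz]
    rcases hsq x hx with h | h | h
    · exact Or.inl h
    · exact Or.inr (Or.inl h)
    · have h1 : (x * y) * (x * y) = 1 := by
        calc x * y * (x * y) = x * (y * x) * y := by group
          _ = x * (x * y) * y := by rw [hxy]
          _ = (x * x) * (y * y) := by group
          _ = 1 := by rw [h, hyy, hzz]
      rcases hsq _ (Y.mul_mem hx hy) with h2 | h2 | h2
      · right; right; right
        rw [← hyinv]
        exact mul_eq_one_iff_eq_inv.mp h2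
      · right; right; left
        have : x = z * y⁻¹ := by rw [← h2]; group
        rw [this, hyinv, hzc _ (Y.mul_mem hy hz), mul_assoc, hzz, mul_one]
      · rw [h1] at h2
        exact absurd h2.symm hz1
  have ha1 : a ≠ 1 := by rintro rfl; apply hab; simp
  have haz : a ≠ z := by rintro rfl; exact hab (hzc b hb)
  have hb1 : b ≠ 1 := by rintro rfl; apply hab; simp
  have hbz : b ≠ z := by rintro rfl; exact hab (hzc a ha).symm
  have haa : a * a = z := by
    rcases hsq a ha with h | h | h
    · exact absurd h ha1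
    · exact absurd h haz
    · exact h
  have hbb : b * b = z := by
    rcases hsq b hb with h | h | h
    · exact absurd h hb1
    · exact absurd h hbz
    · exact h
  have hinv : ∀ y ∈ Y, y * y = z → y⁻¹ = y * z := by
    intro y hy hyy
    rw [inv_eq_iff_mul_eq_one, ← mul_assoc, hyy, hzz]
  -- commutators
  have hco : ∀ x ∈ Y, ∀ y ∈ Y, x * y = y * x ∨ x * y = y * x * z := by
    intro x hx y hy
    rcases hsq x hx with h | h | h
    · left; rw [h]; simp
    · left; rw [h]; exact hzc y hy
    · rcases hsq y hy with h' | h' | h'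
      · left; rw [h']; simp
      · left; rw [h']; exact (hzc x hx).symm
      · -- `x y (y x)⁻¹ = x y x⁻¹ y⁻¹ = (x y)^2`
        have e : x * y * (y * x)⁻¹ = (x * y) * (x * y) := by
          rw [mul_inv_rev, hinv x hx h, hinv y hy h']
          calc x * y * (x * z * (y * z)) = x * y * x * (z * y) * z := by group
            _ = x * y * x * (y * z) * z := by rw [hzc y hy]
            _ = x * y * (x * y) * (z * z) := by group
            _ = x * y * (x * y) := by rw [hzz, mul_one]
        rcases hsq _ (Y.mul_mem hx hy) with h2 | h2 | h2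
        · left
          have : y = x⁻¹ := (inv_eq_of_mul_eq_one_right h2).symm
          rw [this]; group
        · left
          rw [h2, hzz] at e
          calc x * y = (x * y * (y * x)⁻¹) * (y * x) := by group
            _ = y * x := by rw [h2, e, one_mul]
        · right
          rw [h2] at e
          calc x * y = (x * y * (y * x)⁻¹) * (y * x) := by group
            _ = z * (y * x) := by rw [e]
            _ = y * x * z := hzc _ (Y.mul_mem hy hx)
  have hba : b * a = a * b * z := by
    rcases hco b hb a ha with h | h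
    · exact absurd h.symm hab
    · exact h
  refine ⟨ha, hb, haa, hbb, hzz, hz1, hba, ?_⟩
  intro x hx
  rcases hco x hx a ha with h | h
  · rcases hcent a ha ha1 haz x hx h with h | h | h | h
    · exact Or.inl h
    · exact Or.inr (Or.inl h)
    · exact Or.inr (Or.inr (Or.inl h))
    · exact Or.inr (Or.inr (Or.inr (Or.inl h)))
  · have h1 : x * b * a = a * (x * b) := by
      calc x * b * a = x * (b * a) := by group
        _ = (x * a) * (b * z) := by rw [hba]; group
        _ = a * x * (z * b) * z := by rw [h]; group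
        _ = a * (x * b) * (z * z) := by rw [hzc b hb]; group
        _ = a * (x * b) := by rw [hzz, mul_one]
    have hx' : ∀ w, x * b = w → x = w * (b * z) := by
      intro w hw
      rw [← hw, ← hinv b hb hbb]; group
    rcases hcent a ha ha1 haz (x * b) (Y.mul_mem hx hb) h1 with h2 | h2 | h2 | h2
    · have := hx' _ h2
      right; right; right; right; right; left
      rw [this, one_mul]
    · have := hx' _ h2
      right; right; right; right; left
      rw [this, ← mul_assoc, hzc b hb, mul_assoc, hzz, mul_one]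
    · have := hx' _ h2
      right; right; right; right; right; right; right
      rw [this]; group
    · have := hx' _ h2
      right; right; right; right; right; right; left
      rw [this]
      calc a * z * (b * z) = a * (z * b) * z := by group
        _ = a * b * (z * z) := by rw [hzc b hb]; group
        _ = a * b := by rw [hzz, mul_one]

/-- The isomorphism with the quaternion group. -/
theorem q8_iso [Finite G] {Y : Subgroup G} {z i j : G} (q : Q8 Y z i j) :
    Nonempty (↥Y ≃* QuaternionGroup 2) := by
  have hi4 : orderOf i = 2 * 2 := by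
    have h4 : i ^ (2 ^ 2) = 1 := by
      have : i ^ (2 ^ 2) = (i * i) * (i * i) := by
        rw [show (2 ^ 2 : ℕ) = 4 from rfl]
        simp only [pow_succ, pow_zero, one_mul, mul_assoc]
      rw [this, q.ii, q.zz]
    have hn : ¬ i ^ (2 ^ 1) = 1 := by
      rw [pow_one, pow_two, q.ii]; exact q.z1
    have := orderOf_eq_prime_pow hn h4
    simpa using this
  apply Cfsg.Agent.Lib.DihedralRecog.subgroup_quaternion_of_generators (by norm_num) Y i j q.hi q.hj
    hi4
  · rw [q.jj, pow_two, q.ii]
  · have hinv : i⁻¹ = i * z := by rw [inv_eq_iff_mul_eq_one, ← mul_assoc, q.ii, q.zz]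
    rw [q.ji, hinv, mul_assoc i j z, ← q.zj]; group
  · rintro ⟨k, hk⟩
    simp only at hk
    have h1 : Commute i j := by rw [← hk]; exact (Commute.refl i).zpow_right k
    have h2 := q.ij
    have h3 : i * j = j * i := h1
    rw [h3] at h2
    exact q.z1 (by simpa using h2)
  · rw [q.card]

/-- Special groups: squares, commutators and centre, inside `G`. -/
theorem special_facts [Finite G] {Y : Subgroup G} (hs : Cfsg.IsSpecial 2 ↥Y) :
    ∃ Z : Subgroup G, Z ≤ Y ∧ (∀ x, x ∈ Z ↔ x ∈ Y ∧ ∀ y ∈ Y, x * y = y * x) ∧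
      Z = (center ↥Y).map Y.subtype ∧ (∀ x ∈ Y, x * x ∈ Z) ∧ ∀ x ∈ Z, x * x = 1 := by
  have hf2 : Fact (Nat.Prime 2) := ⟨Nat.prime_two⟩
  obtain ⟨h2, hfr, hcm⟩ := hs
  obtain ⟨Z, hZ⟩ : ∃ Z : Subgroup G, ∀ x, x ∈ Z ↔ x ∈ Y ∧ ∀ y ∈ Y, x * y = y * x := by
    refine ⟨Y ⊓ centralizer (Y : Set G), fun x => ?_⟩
    rw [mem_inf, mem_centralizer_iff]
    exact and_congr_right fun _ => ⟨fun h y hy => (h y hy).symm, fun h y hy => (h y hy).symm⟩
  have hZc : ∀ x : ↥Y, x ∈ center ↥Y ↔ (x : G) ∈ Z := by
    intro x
    rw [hZ, mem_center_iff]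
    constructor
    · intro h
      exact ⟨x.2, fun y hy => (congrArg Subtype.val (h ⟨y, hy⟩)).symm⟩
    · rintro ⟨_, h⟩ ⟨y, hy⟩
      exact Subtype.ext (h y hy).symm
  have hZY : Z ≤ Y := fun x hx => ((hZ x).mp hx).1
  have hZcomm : ∀ x ∈ Z, ∀ y ∈ Y, x * y = y * x := fun x hx => ((hZ x).mp hx).2
  have hsqZ : ∀ x ∈ Y, x * x ∈ Z := by
    intro x hx
    have h1 := Cfsg.Agent.Lib.FrattiniBasic.pow_mem_frattini h2 ⟨x, hx⟩
    rw [hfr, hZc] at h1
    simpa [pow_two] using h1
  have hcmZ : ∀ x ∈ Y, ∀ y ∈ Y, x * y * x⁻¹ * y⁻¹ ∈ Z := by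
    intro x hx y hy
    have h1 : (⟨x, hx⟩ : ↥Y) * ⟨y, hy⟩ * (⟨x, hx⟩ : ↥Y)⁻¹ * (⟨y, hy⟩ : ↥Y)⁻¹ ∈ commutator ↥Y :=
      Subgroup.commutator_mem_commutator (mem_top _) (mem_top _)
    rw [hcm, hZc] at h1
    exact h1
  have hcsq : ∀ x ∈ Y, ∀ y ∈ Y, (x * y * x⁻¹ * y⁻¹) * (x * y * x⁻¹ * y⁻¹) = 1 := by
    intro x hx y hy
    have hc := hZcomm _ (hcmZ x hx y hy)
    obtain ⟨c, hcd⟩ : ∃ c, c = x * y * x⁻¹ * y⁻¹ := ⟨_, rfl⟩
    rw [← hcd] at hc ⊢
    have e1 : x * y = c * y * x := by rw [hcd]; group
    have e2 : (x * x) * y = (c * c) * (y * (x * x)) := by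
      calc x * x * y = x * (x * y) := by group
        _ = x * (c * y * x) := by rw [e1]
        _ = (x * c) * y * x := by group
        _ = (c * x) * y * x := by rw [hc x hx]
        _ = c * (x * y) * x := by group
        _ = c * (c * y * x) * x := by rw [e1]
        _ = (c * c) * (y * (x * x)) := by group
    rw [hZcomm _ (hsqZ x hx) y hy] at e2
    have e3 : 1 * (y * (x * x)) = (c * c) * (y * (x * x)) := by rw [one_mul]; exact e2
    exact (mul_right_cancel e3).symm
  have hZ2 : ∀ x ∈ Z, x * x = 1 := by
    let D : Subgroup ↥Y :=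
      { carrier := {x | (x : G) ∈ Z ∧ (x : G) * x = 1}
        one_mem' := ⟨Z.one_mem, by simp⟩
        mul_mem' := by
          rintro x y ⟨hx, hx2⟩ ⟨hy, hy2⟩
          refine ⟨Z.mul_mem hx hy, ?_⟩
          have h1 := hZcomm _ hx _ y.2
          change ((x : G) * y) * (x * y) = 1
          calc (x : G) * y * (x * y) = (x * y) * (x * y) := rfl
            _ = (y * x) * (x * y) := by rw [h1]
            _ = y * (x * x) * y := by group
            _ = y * y := by rw [hx2]; group
            _ = 1 := hy2
        inv_mem' := by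
          rintro x ⟨hx, hx2⟩
          refine ⟨Z.inv_mem hx, ?_⟩
          change (x : G)⁻¹ * (x : G)⁻¹ = 1
          rw [← mul_inv_rev, hx2, inv_one] }
    have hle : commutator ↥Y ≤ D := by
      rw [_root_.commutator_def, Subgroup.commutator_le]
      intro x _ y _
      exact ⟨hcmZ _ x.2 _ y.2, hcsq _ x.2 _ y.2⟩
    intro x hx
    have h1 : (⟨x, hZY hx⟩ : ↥Y) ∈ commutator ↥Y := by rw [hcm, hZc]; exact hx
    exact (hle h1).2
  refine ⟨Z, hZY, hZ, ?_, hsqZ, hZ2⟩
  ext x
  constructor
  · intro hx
    exact ⟨⟨x, hZY hx⟩, (hZc ⟨x, hZY hx⟩).mpr hx, rfl⟩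
  · rintro ⟨y, hy, rfl⟩
    exact (hZc y).mp hy

/-- `H` acts irreducibly on a group of order `4` on which it acts nontrivially. -/
theorem irr [Finite G] {H Y C : Subgroup G} (hH : Odd (Nat.card ↥H)) (hY : IsPGroup 2 ↥Y)
    (hHY : H ≤ normalizer (Y : Set G)) (hHC : H ≤ normalizer (C : Set G))
    (hY4 : Nat.card ↥Y = 4) (hnt : ¬ Cen H Y) (hCY : C ≤ Y) (hC : C ≠ ⊥) : C = Y := by
  have hd : Nat.card ↥C ∣ 4 := by rw [← hY4]; exact card_dvd_of_le hCY
  have h1 : Nat.card ↥C ≠ 1 := fun h => hC (Subgroup.card_eq_one.mp h)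
  have h2 : Nat.card ↥C ≠ 2 := by
    intro h
    exact hnt (cen_of_index_two hH hY hHY hHC hCY (relIndex_eq hCY h (by rw [hY4]))
      (cen_of_card_two hHC h))
  have h4 : Nat.card ↥C = 4 := by
    have h3 := Nat.le_of_dvd (by norm_num) hd
    interval_cases h5 : Nat.card ↥C <;> omega
  exact eq_of_le_of_card_ge hCY (by rw [h4, hY4])

/-- `O_2(S)` has a noncyclic abelian subgroup of order `8` if `S` does. -/
theorem na8_core [Finite G] {H Q : Subgroup G} (hH : Odd (Nat.card ↥H)) (hQ : IsPGroup 2 ↥Q)
    (hQn : Q.Normal) (hC : centralizer (Q : Set G) ≤ Q) (hnt : ¬ Cen H Q)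
    (hA : NA8 (⊤ : Subgroup G)) : NA8 Q := by
  by_contra hna
  have hHQ : H ≤ normalizer (Q : Set G) := by
    rw [le_normalizer_iff]; intro h _ x hx; exact hQn.conj_mem x hx h
  obtain ⟨A, _, hAc, hAcyc, hA8⟩ := hA
  have hAcomm : ∀ x ∈ A, ∀ y ∈ A, x * y = y * x := by
    intro x hx y hy
    exact congrArg Subtype.val (hAc.is_comm.comm (⟨x, hx⟩ : ↥A) ⟨y, hy⟩)
  have hA2 : IsPGroup 2 ↥A := IsPGroup.of_card (n := 3) (by rw [hA8]; norm_num)
  have hN2 : IsPGroup 2 ↥(A ⊔ Q : Subgroup G) := hA2.to_sup_of_normal_right hQ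
  have hNQ : A ⊔ Q ≤ normalizer (Q : Set G) := by
    rw [le_normalizer_iff]; intro h _ x hx; exact hQn.conj_mem x hx h
  rcases classify hH hQ hHQ hnt hna with ⟨hQ4, hQsq⟩ | ⟨z, i, j, q⟩
  · -- four-group
    have hAQ : ¬ A ≤ centralizer (Q : Set G) := by
      intro h
      have h1 := card_le_of_le (h.trans hC)
      rw [hA8, hQ4] at h1
      omega
    obtain ⟨y, hy, hy1, hyn⟩ := exists_fixed_mod (A ⊔ Q) Q ⊥ hN2 le_sup_right hNQ (by
      intro h
      rw [le_bot_iff] at h
      rw [h, card_bot] at hQ4
      omega)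
    rw [mem_bot] at hy1
    have hyA : ∀ a ∈ A, a * y * a⁻¹ = y := by
      intro a ha
      have h1 := mem_bot.mp (hyn a ((le_sup_left : A ≤ A ⊔ Q) ha))
      calc a * y * a⁻¹ = (a * y * a⁻¹ * y⁻¹) * y := by group
        _ = y := by rw [h1, one_mul]
    obtain ⟨w, hw, hwy⟩ : ∃ w ∈ Q, w ∉ zpowers y := by
      by_contra h
      push Not at h
      have h1 := card_le_of_le (show Q ≤ zpowers y from h)
      have h2 : orderOf y = 2 := by
        apply orderOf_eq_prime _ hy1
        rw [pow_two]; exact hQsq y hy
      rw [hQ4, Nat.card_zpowers, h2] at h1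
      omega
    have hw1 : w ≠ 1 := by rintro rfl; exact hwy (Subgroup.one_mem _)
    have hwy' : w ≠ y := by rintro rfl; exact hwy (mem_zpowers _)
    have hcQ : ∀ a ∈ Q, ∀ b ∈ Q, a * b = b * a := by
      intro a ha b hb
      have e1 := inv_eq_of_mul_eq_one_right (hQsq a ha)
      have e2 := inv_eq_of_mul_eq_one_right (hQsq b hb)
      have e3 := inv_eq_of_mul_eq_one_right (hQsq _ (Q.mul_mem ha hb))
      rw [← e3, mul_inv_rev, e1, e2]
    obtain ⟨E, hE4, hE⟩ := exists_four y w (hQsq y hy) (hcQ y hy w hw) (Or.inl (hQsq w hw)) hy1 hw1 hwy'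
    have hEQ : E = Q := by
      apply eq_of_le_of_card_ge
      · intro x hx
        rcases (hE x).mp hx with rfl | rfl | rfl | rfl
        · exact Q.one_mem
        · exact hy
        · exact hw
        · exact Q.mul_mem hw hy
      · rw [hE4, hQ4]
    rw [hEQ] at hE
    -- action on w
    have hact : ∀ a ∈ A, a * w * a⁻¹ = w ∨ a * w * a⁻¹ = w * y := by
      intro a ha
      have h1 : a * w * a⁻¹ ∈ Q := hQn.conj_mem w hw a
      rcases (hE _).mp h1 with h | h | h | h
      · exfalso
        apply hw1
        calc w = a⁻¹ * (a * w * a⁻¹) * a := by group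
          _ = 1 := by rw [h]; group
      · exfalso
        apply hwy'
        calc w = a⁻¹ * (a * w * a⁻¹) * a := by group
          _ = a⁻¹ * (a * y * a⁻¹) * a := by rw [h, hyA a ha]
          _ = y := by group
      · exact Or.inl h
      · exact Or.inr h
    have hcen : ∀ a ∈ A, a * w * a⁻¹ = w → a ∈ centralizer (Q : Set G) := by
      intro a ha h
      have c1 : Commute a w := by
        change a * w = w * a
        nth_rewrite 2 [← h]; group
      have c2 : Commute a y := by
        change a * y = y * a
        nth_rewrite 2 [← hyA a ha]; group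
      rw [mem_centralizer_iff]
      intro x hx
      rcases (hE x).mp hx with rfl | rfl | rfl | rfl
      · simp
      · exact c2.symm
      · exact c1.symm
      · exact (c1.mul_right c2).symm
    obtain ⟨a, ha, haQ⟩ := SetLike.not_le_iff_exists.mp hAQ
    have haw : a * w * a⁻¹ = w * y := by
      rcases hact a ha with h | h
      · exact absurd (hcen a ha h) haQ
      · exact h
    have hyy := hQsq y hy
    have hrel : (A ⊓ centralizer (Q : Set G)).relIndex A = 2 := by
      rw [relIndex_eq_two_iff]
      refine ⟨a, ha, fun b hb => ?_⟩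
      by_cases hbQ : b ∈ centralizer (Q : Set G)
      · right
        refine ⟨mem_inf.mpr ⟨hb, hbQ⟩, fun h => haQ ?_⟩
        have := (centralizer (Q : Set G)).mul_mem
          ((centralizer (Q : Set G)).inv_mem hbQ) (mem_inf.mp h).2
        simpa using this
      · left
        refine ⟨mem_inf.mpr ⟨A.mul_mem hb ha, hcen _ (A.mul_mem hb ha) ?_⟩, fun h => hbQ (mem_inf.mp h).2⟩
        have hbw : b * w * b⁻¹ = w * y := by
          rcases hact b hb with h | h
          · exact absurd (hcen b hb h) hbQ
          · exact h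
        calc b * a * w * (b * a)⁻¹ = b * (a * w * a⁻¹) * b⁻¹ := by group
          _ = (b * w * b⁻¹) * (b * y * b⁻¹) := by rw [haw]; group
          _ = w * (y * y) := by rw [hbw, hyA b hb]; group
          _ = w := by rw [hyy, mul_one]
    have hc4 : Nat.card ↥(A ⊓ centralizer (Q : Set G) : Subgroup G) = 4 := by
      have h5 := Subgroup.card_mul_index ((A ⊓ centralizer (Q : Set G)).subgroupOf A)
      rw [Nat.card_congr (Subgroup.subgroupOfEquivOfLe inf_le_left).toEquiv] at h5
      change Nat.card ↥(A ⊓ centralizer (Q : Set G) : Subgroup G) *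
        (A ⊓ centralizer (Q : Set G)).relIndex A = Nat.card ↥A at h5
      rw [hrel, hA8] at h5
      omega
    have heq : A ⊓ centralizer (Q : Set G) = Q :=
      eq_of_le_of_card_ge (inf_le_right.trans hC) (by rw [hc4, hQ4])
    apply hAQ
    intro b hb
    rw [mem_centralizer_iff]
    intro x hx
    rw [← heq] at hx
    exact hAcomm x (mem_inf.mp hx).1 b hb
  · -- quaternion group
    have hcentz : ∀ x ∈ centralizer (Q : Set G), x = 1 ∨ x = z := by
      intro x hx
      have h1 := mem_centralizer_iff.mp hx
      exact q.center (hC hx) (h1 i q.hi).symm (h1 j q.hj).symm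
    have hzS : ∀ n : G, n * z * n⁻¹ = z := by
      intro n
      apply q.norm_z
      have : (⊤ : Subgroup G) ≤ normalizer (Q : Set G) := by
        rw [le_normalizer_iff]; intro h _ x hx; exact hQn.conj_mem x hx h
      exact this (mem_top n)
    have hzord : orderOf z = 2 := by
      apply orderOf_eq_prime _ q.z1
      rw [pow_two]; exact q.zz
    have hZmem : ∀ x, x ∈ zpowers z ↔ x = 1 ∨ x = z := by
      intro x
      constructor
      · rintro ⟨k, rfl⟩
        simp only
        rcases Int.even_or_odd' k with ⟨m, rfl | rfl⟩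
        · left
          have : z ^ (2 : ℤ) = 1 := by
            rw [zpow_two, q.zz]
          rw [zpow_mul, this, one_zpow]
        · right
          have : z ^ (2 : ℤ) = 1 := by
            rw [zpow_two, q.zz]
          rw [zpow_add, zpow_mul, this, one_zpow, one_mul, zpow_one]
      · rintro (rfl | rfl)
        · exact Subgroup.one_mem _
        · exact mem_zpowers _
    obtain ⟨y, hy, hyZ, hyn⟩ := exists_fixed_mod (A ⊔ Q) Q (zpowers z) hN2 le_sup_right hNQ (by
      intro hle
      have h1 := card_le_of_le hle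
      rw [q.card, Nat.card_zpowers, hzord] at h1
      omega)
    have hy1 : y ≠ 1 := fun h => hyZ ((hZmem y).mpr (Or.inl h))
    have hyz : y ≠ z := fun h => hyZ ((hZmem y).mpr (Or.inr h))
    obtain ⟨w, hw, hyw⟩ : ∃ w ∈ Q, y * w ≠ w * y := by
      by_contra h
      push Not at h
      rcases q.center hy (h i q.hi) (h j q.hj) with h | h
      · exact hy1 h
      · exact hyz h
    have q' : Q8 Q z y w := q8_change q hy hw hyw
    have hzc := q'.zc
    have hzz := q'.zz
    have hz1 := q'.z1
    have hyA : ∀ a ∈ A, a * y * a⁻¹ = y ∨ a * y * a⁻¹ = y * z := by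
      intro a ha
      have e : a * y * a⁻¹ = (a * y * a⁻¹ * y⁻¹) * y := by group
      rcases (hZmem _).mp (hyn a ((le_sup_left : A ≤ A ⊔ Q) ha)) with h | h
      · left; rw [e, h, one_mul]
      · right; rw [e, h]; exact hzc y hy
    -- action on w
    have hwA : ∀ a ∈ A, (a * w * a⁻¹ = w ∨ a * w * a⁻¹ = w * z) ∨
        (a * w * a⁻¹ = y * w ∨ a * w * a⁻¹ = y * w * z) := by
      intro a ha
      have h1 : a * w * a⁻¹ ∈ Q := hQn.conj_mem w hw a
      have hnc : ¬ (a * w * a⁻¹) * y = y * (a * w * a⁻¹) := by
        intro h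
        have h2 : (a * w * a⁻¹) * (a * y * a⁻¹) = (a * y * a⁻¹) * (a * w * a⁻¹) := by
          rcases hyA a ha with h3 | h3 <;> rw [h3]
          · exact h
          · have h4 := hzc _ h1
            calc a * w * a⁻¹ * (y * z) = (a * w * a⁻¹ * y) * z := by group
              _ = y * (a * w * a⁻¹ * z) := by rw [h]; group
              _ = y * (z * (a * w * a⁻¹)) := by rw [h4]
              _ = y * z * (a * w * a⁻¹) := by group
        apply hyw
        calc y * w = a⁻¹ * ((a * y * a⁻¹) * (a * w * a⁻¹)) * a := by group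
          _ = a⁻¹ * ((a * w * a⁻¹) * (a * y * a⁻¹)) * a := by rw [h2]
          _ = w * y := by group
      rcases q'.comm_i _ h1 with ⟨h2, _⟩ | ⟨_, h2 | h2 | h2 | h2⟩
      · exact absurd h2 hnc
      · exact Or.inl (Or.inl h2)
      · exact Or.inl (Or.inr h2)
      · exact Or.inr (Or.inl h2)
      · exact Or.inr (Or.inr h2)
    have hinQ : ∀ a ∈ A, (a * w * a⁻¹ = w ∨ a * w * a⁻¹ = w * z) → a ∈ Q := by
      intro a ha h
      obtain ⟨b, hb, hba⟩ := q'.fix (hyA a ha) h
      have h1 : b * a ∈ centralizer (Q : Set G) := by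
        rw [mem_centralizer_iff]
        intro x hx
        exact (hba x hx).symm
      have := Q.mul_mem (Q.inv_mem hb) (hC h1)
      simpa using this
    obtain ⟨a, ha, haQ⟩ : ∃ a ∈ A, a ∉ Q := by
      by_contra h
      push Not at h
      have h1 : A = Q := eq_of_le_of_card_ge h (by rw [hA8, q.card])
      apply hyw
      rw [← h1] at hy hw
      exact hAcomm y hy w hw
    have haw : ∀ b ∈ A, b ∉ Q → (b * w * b⁻¹ = y * w ∨ b * w * b⁻¹ = y * w * z) := by
      intro b hb hbQ
      rcases hwA b hb with h | h
      · exact absurd (hinQ b hb h) hbQ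
      · exact h
    have hyy := q'.ii
    -- products of two outside elements
    have hprod : ∀ b ∈ A, b ∉ Q → b * a ∈ Q := by
      intro b hb hbQ
      apply hinQ _ (A.mul_mem hb ha)
      have e : b * a * w * (b * a)⁻¹ = b * (a * w * a⁻¹) * b⁻¹ := by group
      rw [e]
      have ez : b * z * b⁻¹ = z := hzS b
      have e2 : ∀ v ∈ Q, b * (y * w) * b⁻¹ = v → (b * (a * w * a⁻¹) * b⁻¹ = v ∨
          b * (a * w * a⁻¹) * b⁻¹ = v * z) := by
        intro v _ hv
        rcases haw a ha haQ with h | h <;> rw [h]
        · exact Or.inl hv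
        · right
          calc b * (y * w * z) * b⁻¹ = (b * (y * w) * b⁻¹) * (b * z * b⁻¹) := by group
            _ = v * z := by rw [hv, ez]
      have e3 : b * (y * w) * b⁻¹ = w ∨ b * (y * w) * b⁻¹ = w * z := by
        have e4 : b * (y * w) * b⁻¹ = (b * y * b⁻¹) * (b * w * b⁻¹) := by group
        have c1 := hzc w hw
        rw [e4]
        rcases hyA b hb with h | h <;> rcases haw b hb hbQ with h' | h' <;> rw [h, h']
        · right
          rw [← mul_assoc, hyy]; exact c1
        · left
          calc y * (y * w * z) = (y * y) * w * z := by group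
            _ = (z * w) * z := by rw [hyy]
            _ = w * (z * z) := by rw [c1]; group
            _ = w := by rw [hzz, mul_one]
        · left
          calc y * z * (y * w) = y * (z * y) * w := by group
            _ = (y * y) * z * w := by rw [hzc y hy]; group
            _ = w := by rw [hyy, hzz, one_mul]
        · right
          calc y * z * (y * w * z) = y * (z * y) * w * z := by group
            _ = (y * y) * z * w * z := by rw [hzc y hy]; group
            _ = w * z := by rw [hyy, hzz, one_mul]
      rcases e3 with h | h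
      · exact e2 w hw h
      · rcases e2 (w * z) (Q.mul_mem hw q'.hz) h with h' | h'
        · exact Or.inr h'
        · left; rw [h', mul_assoc, hzz, mul_one]
    have hrel : (A ⊓ Q).relIndex A = 2 := by
      rw [relIndex_eq_two_iff]
      refine ⟨a, ha, fun b hb => ?_⟩
      by_cases hbQ : b ∈ Q
      · right
        refine ⟨mem_inf.mpr ⟨hb, hbQ⟩, fun h => haQ ?_⟩
        have := Q.mul_mem (Q.inv_mem hbQ) (mem_inf.mp h).2
        simpa using this
      · left
        exact ⟨mem_inf.mpr ⟨A.mul_mem hb ha, hprod b hb hbQ⟩, fun h => hbQ (mem_inf.mp h).2⟩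
    have hc4 : Nat.card ↥(A ⊓ Q : Subgroup G) = 4 := by
      have h5 := Subgroup.card_mul_index ((A ⊓ Q).subgroupOf A)
      rw [Nat.card_congr (Subgroup.subgroupOfEquivOfLe inf_le_left).toEquiv] at h5
      change Nat.card ↥(A ⊓ Q : Subgroup G) * (A ⊓ Q).relIndex A = Nat.card ↥A at h5
      rw [hrel, hA8] at h5
      omega
    -- elements of `A ∩ Q`
    have hAQ : ∀ x ∈ A, x ∈ Q → x = 1 ∨ x = z ∨ x = y ∨ x = y * z := by
      intro x hx hxQ
      have hax : a * x * a⁻¹ = x := by rw [hAcomm a ha x hx]; group
      rcases q'.comm_i x hxQ with ⟨_, h⟩ | ⟨_, h⟩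
      · exact h
      · exfalso
        have hyw1 : ∀ s t : G, s * w = t * w → s = t := fun s t h => mul_right_cancel h
        have ez : a * z * a⁻¹ = z := hzS a
        -- `a w a⁻¹ = w` or `w z`-type contradictions
        have hcon : ¬ (a * w * a⁻¹ = w ∨ a * w * a⁻¹ = w * z) := fun h => haQ (hinQ a ha h)
        apply hcon
        rcases h with h | h | h | h
        · left; rw [← h]; exact hax
        · left
          rw [h] at hax
          have e1 : (a * w * a⁻¹) * z = w * z := by
            calc (a * w * a⁻¹) * z = (a * w * a⁻¹) * (a * z * a⁻¹) := by rw [ez]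
              _ = a * (w * z) * a⁻¹ := by group
              _ = w * z := hax
          exact mul_right_cancel e1
        · -- x = y w: a (y w) a⁻¹ = y w
          rw [h] at hax
          have e1 : (a * y * a⁻¹) * (a * w * a⁻¹) = y * w := by
            calc (a * y * a⁻¹) * (a * w * a⁻¹) = a * (y * w) * a⁻¹ := by group
              _ = y * w := hax
          rcases hyA a ha with h2 | h2
          · left; rw [h2] at e1; exact mul_left_cancel e1
          · right
            rw [h2, mul_assoc] at e1
            have e2 := mul_left_cancel e1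
            have e3 : a * w * a⁻¹ = z * w := by
              calc a * w * a⁻¹ = (z * z) * (a * w * a⁻¹) := by rw [hzz, one_mul]
                _ = z * (z * (a * w * a⁻¹)) := by group
                _ = z * w := by rw [e2]
            rw [e3]; exact hzc w hw
        · rw [h] at hax
          have e0 : a * (y * w) * a⁻¹ = y * w := by
            have e1 : (a * (y * w) * a⁻¹) * z = (y * w) * z := by
              calc (a * (y * w) * a⁻¹) * z = (a * (y * w) * a⁻¹) * (a * z * a⁻¹) := by rw [ez]
                _ = a * (y * w * z) * a⁻¹ := by group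
                _ = y * w * z := hax
            exact mul_right_cancel e1
          have e1 : (a * y * a⁻¹) * (a * w * a⁻¹) = y * w := by
            calc (a * y * a⁻¹) * (a * w * a⁻¹) = a * (y * w) * a⁻¹ := by group
              _ = y * w := e0
          rcases hyA a ha with h2 | h2
          · left; rw [h2] at e1; exact mul_left_cancel e1
          · right
            rw [h2, mul_assoc] at e1
            have e2 := mul_left_cancel e1
            have e3 : a * w * a⁻¹ = z * w := by
              calc a * w * a⁻¹ = (z * z) * (a * w * a⁻¹) := by rw [hzz, one_mul]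
                _ = z * (z * (a * w * a⁻¹)) := by group
                _ = z * w := by rw [e2]
            rw [e3]; exact hzc w hw
    -- so `y ∈ A`
    obtain ⟨E, hE4, hEQ, hE⟩ := q'.exists_E
    have hAE : A ⊓ Q = E := by
      apply eq_of_le_of_card_ge
      · intro x hx
        exact (hE x).mpr (hAQ x (mem_inf.mp hx).1 (mem_inf.mp hx).2)
      · rw [hE4, hc4]
    have hyA' : y ∈ A := by
      have : y ∈ E := (hE y).mpr (Or.inr (Or.inr (Or.inl rfl)))
      rw [← hAE] at this
      exact (mem_inf.mp this).1
    have hay : a * y * a⁻¹ = y := by rw [hAcomm a ha y hyA']; group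
    -- `a²`
    have haa : a * a ∈ E := by rw [← hAE]; exact mem_inf.mpr ⟨A.mul_mem ha ha, hprod a ha haQ⟩
    have haaw : (a * a) * w * (a * a)⁻¹ = w * z := by
      have ez : a * z * a⁻¹ = z := hzS a
      have e : (a * a) * w * (a * a)⁻¹ = a * (a * w * a⁻¹) * a⁻¹ := by group
      rw [e]
      have c1 := hzc w hw
      rcases haw a ha haQ with h | h <;> rw [h]
      · calc a * (y * w) * a⁻¹ = (a * y * a⁻¹) * (a * w * a⁻¹) := by group
          _ = (y * y) * w := by rw [hay, h]; group
          _ = w * z := by rw [hyy, c1]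
      · calc a * (y * w * z) * a⁻¹ = (a * y * a⁻¹) * (a * w * a⁻¹) * (a * z * a⁻¹) := by group
          _ = (y * y) * w * (z * z) := by rw [hay, h, ez]; group
          _ = w * z := by rw [hyy, hzz, mul_one, c1]
    have hA4 : (a * a) * (a * a) = z := by
      have h1 : a * a ≠ 1 := by
        intro h
        rw [h] at haaw
        apply hz1
        have : w * z = w * 1 := by rw [← haaw]; group
        exact mul_left_cancel this
      have h2 : a * a ≠ z := by
        intro h
        rw [h] at haaw
        apply hz1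
        have : w * z = w * 1 := by rw [← haaw, hzc w hw]; group
        exact mul_left_cancel this
      rcases q'.sq _ (hEQ haa) with h | h | h
      · exact absurd h h1
      · exact absurd h h2
      · exact h
    have hord : orderOf a = 8 := by
      have h8 : a ^ (2 ^ 3) = 1 := by
        have : a ^ (2 ^ 3) = ((a * a) * (a * a)) * ((a * a) * (a * a)) := by
          rw [show (2 ^ 3 : ℕ) = 8 from rfl]
          simp only [pow_succ, pow_zero, one_mul, mul_assoc]
        rw [this, hA4, hzz]
      have hn : ¬ a ^ (2 ^ 2) = 1 := by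
        have : a ^ (2 ^ 2) = (a * a) * (a * a) := by
          rw [show (2 ^ 2 : ℕ) = 4 from rfl]
          simp only [pow_succ, pow_zero, one_mul, mul_assoc]
        rw [this, hA4]; exact hz1
      have := orderOf_eq_prime_pow hn h8
      simpa using this
    apply hAcyc
    apply isCyclic_of_orderOf_eq_card (⟨a, ha⟩ : ↥A)
    rw [hA8, ← hord]
    exact Subgroup.orderOf_mk a ha

/-- A characteristic subgroup is invariant. -/
theorem inv_of_char {H Y : Subgroup G} (hHY : H ≤ normalizer (Y : Set G)) (K : Subgroup ↥Y)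
    [hK : K.Characteristic] : H ≤ normalizer ((K.map Y.subtype : Subgroup G) : Set G) := by
  rw [le_normalizer_iff]
  rintro g hg _ ⟨x, hx, rfl⟩
  have h1 := (Subgroup.characteristic_iff_map_le.mp hK)
    (Y.normalizerMonoidHom ⟨g, hHY hg⟩)
  refine ⟨Y.normalizerMonoidHom ⟨g, hHY hg⟩ x, h1 (mem_map_of_mem _ hx), ?_⟩
  simp

theorem card_map_subtype {Y : Subgroup G} (K : Subgroup ↥Y) :
    Nat.card ↥(K.map Y.subtype) = Nat.card ↥K :=
  (Nat.card_congr (K.equivMapOfInjective Y.subtype Y.subtype_injective).toEquiv).symm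

/-- The structure theorem. -/
theorem structure_thm [Finite G] {H X : Subgroup G} (hH : Odd (Nat.card ↥H)) (hX : IsPGroup 2 ↥X)
    (hHX : H ≤ normalizer (X : Set G)) (hnt : ¬ Cen H X)
    (hmin : ∀ Y ≤ X, H ≤ normalizer (Y : Set G) → NA8 Y → Y = X)
    (hNA : NA8 X) (hnab : ¬ ∀ x ∈ X, ∀ y ∈ X, x * y = y * x) :
    (Cfsg.IsExtraspecial 2 ↥X ∧ 32 ≤ Nat.card ↥X) ∨
    (∃ (X₀ : Subgroup G) (k : ℕ), X₀ ≤ X ∧ X₀.relIndex X = 2 ∧
      Nonempty (↥X₀ ≃* QuaternionGroup (2 ^ (k + 1))) ∧
      X₀ ⊔ (X ⊓ Subgroup.centralizer (X₀ : Set G)) = X) ∨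
    (Cfsg.IsSpecial 2 ↥X ∧ Nat.card ↥(Subgroup.center ↥X) = 4) := by
  have hf2 : Fact (Nat.Prime 2) := ⟨Nat.prime_two⟩
  have hnabX : ∃ x ∈ X, ∃ y ∈ X, x * y ≠ y * x := by
    by_contra h
    push Not at h
    exact hnab h
  -- the centre
  obtain ⟨Z, hZdef⟩ : ∃ Z : Subgroup G, Z = X ⊓ centralizer (X : Set G) := ⟨_, rfl⟩
  have hZ : ∀ x, x ∈ Z ↔ x ∈ X ∧ ∀ y ∈ X, x * y = y * x := by
    intro x
    rw [hZdef, mem_inf, mem_centralizer_iff]
    exact and_congr_right fun _ => ⟨fun h y hy => (h y hy).symm, fun h y hy => (h y hy).symm⟩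
  have hZX : Z ≤ X := fun x hx => ((hZ x).mp hx).1
  have hHZ : H ≤ normalizer (Z : Set G) := by rw [hZdef]; exact inv_inf hHX (inv_centralizer hHX)
  have hZneX : Z ≠ X := by
    intro h
    apply hnab
    intro x hx y hy
    rw [← h] at hx
    exact ((hZ x).mp hx).2 y hy
  have hZna : ¬ NA8 Z := fun h => hZneX (hmin Z hZX hHZ h)
  have hZmap : Z = (center ↥X).map X.subtype := by
    ext x
    constructor
    · intro hx
      refine ⟨⟨x, hZX hx⟩, ?_, rfl⟩
      rw [SetLike.mem_coe, mem_center_iff]
      rintro ⟨y, hy⟩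
      exact Subtype.ext (((hZ x).mp hx).2 y hy).symm
    · rintro ⟨y, hy, rfl⟩
      rw [SetLike.mem_coe, mem_center_iff] at hy
      rw [hZ]
      exact ⟨y.2, fun w hw => (congrArg Subtype.val (hy ⟨w, hw⟩)).symm⟩
  have hZcard : Nat.card ↥Z = Nat.card ↥(center ↥X) := by rw [hZmap, card_map_subtype]
  by_cases hprop : ∃ Y, Y ≤ X ∧ Y ≠ X ∧ H ≤ normalizer (Y : Set G) ∧ ¬ Cen H Y
  · obtain ⟨Y, hYX, hYne, hHY, hYnt⟩ := hprop
    have hYna : ¬ NA8 Y := fun h => hYne (hmin Y hYX hHY h)
    have hY2 : IsPGroup 2 ↥Y := hX.to_le hYX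
    rcases classify hH hY2 hHY hYnt hYna with ⟨hY4, hYsq⟩ | ⟨z, i, j, q⟩
    · -- four-group
      right; right
      have hYab : ∀ a ∈ Y, ∀ b ∈ Y, a * b = b * a := by
        intro a ha b hb
        have e1 := inv_eq_of_mul_eq_one_right (hYsq a ha)
        have e2 := inv_eq_of_mul_eq_one_right (hYsq b hb)
        have e3 := inv_eq_of_mul_eq_one_right (hYsq _ (Y.mul_mem ha hb))
        rw [← e3, mul_inv_rev, e1, e2]
      have hcY := four_cent hH (N := X ⊓ normalizer (Y : Set G)) (hX.to_le inf_le_left)
        (le_inf hYX le_normalizer) inf_le_right hHY (inv_inf hHX (inv_normalizer hHY)) hY4 hYnt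
      obtain ⟨x, hxX, hxY, hxx, hxN⟩ := exists_next Y X hX hYX hYne
      have hxc := hcY x (mem_inf.mpr ⟨hxX, hxN⟩)
      have hCna : NA8 (X ⊓ centralizer (Y : Set G)) := by
        refine na8_of_ext Y _ x hY4 hYab (le_inf hYX ?_) ?_ hxY (fun e he => (hxc e he).symm) hxx ?_
        · intro a ha
          rw [mem_centralizer_iff]
          intro b hb
          exact hYab b hb a ha
        · refine mem_inf.mpr ⟨hxX, mem_centralizer_iff.mpr fun y hy => (hxc y hy).symm⟩
        · have : x ^ 4 = (x * x) * (x * x) := by simp only [pow_succ, pow_zero, one_mul, mul_assoc]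
          rw [this, hYsq _ hxx]
      have hCX := hmin _ inf_le_left (inv_inf hHX (inv_centralizer hHY)) hCna
      have hYZ : Y ≤ Z := by
        intro y hy
        rw [hZ]
        refine ⟨hYX hy, fun w hw => ?_⟩
        rw [← hCX] at hw
        exact mem_centralizer_iff.mp (mem_inf.mp hw).2 y hy
      have hZnt : ¬ Cen H Z := fun h => hYnt (h.mono hYZ)
      have hZ4 : Nat.card ↥Z = 4 := by
        rcases classify hH (hX.to_le hZX) hHZ hZnt hZna with ⟨h, _⟩ | ⟨z, i, j, q⟩
        · exact h
        · exfalso
          have h1 := ((hZ i).mp q.hi).2 j (hZX q.hj)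
          have h2 := q.ij
          rw [h1] at h2
          exact q.z1 (by simpa using h2)
      have hYZ' : Y = Z := eq_of_le_of_card_ge hYZ (by rw [hY4, hZ4])
      -- the Frattini subgroup
      obtain ⟨D, hD⟩ : ∃ D : Subgroup G, D = (frattini ↥X).map X.subtype := ⟨_, rfl⟩
      obtain ⟨C, hC⟩ : ∃ C : Subgroup G, C = (_root_.commutator ↥X).map X.subtype := ⟨_, rfl⟩
      have hDX : D ≤ X := by rw [hD]; exact map_subtype_le _
      have hCX' : C ≤ X := by rw [hC]; exact map_subtype_le _
      have hHD : H ≤ normalizer (D : Set G) := by rw [hD]; exact inv_of_char hHX _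
      have hHC : H ≤ normalizer (C : Set G) := by rw [hC]; exact inv_of_char hHX _
      have hCD : C ≤ D := by
        rw [hC, hD]
        exact Subgroup.map_mono (Cfsg.Agent.S0012.result 2 hX).1
      have hCb : C ≠ ⊥ := by
        intro h
        obtain ⟨x, hx, y, hy, hxy⟩ := hnabX
        apply hxy
        have h1 : (⟨x, hx⟩ : ↥X) * ⟨y, hy⟩ * (⟨x, hx⟩ : ↥X)⁻¹ * (⟨y, hy⟩ : ↥X)⁻¹ ∈
            _root_.commutator ↥X :=
          Subgroup.commutator_mem_commutator (mem_top _) (mem_top _)
        have h2 : x * y * x⁻¹ * y⁻¹ ∈ C := by rw [hC]; exact mem_map_of_mem X.subtype h1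
        rw [h, mem_bot] at h2
        calc x * y = (x * y * x⁻¹ * y⁻¹) * (y * x) := by group
          _ = y * x := by rw [h2, one_mul]
      -- normal nontrivial subgroups meet the centre
      have hmeet : ∀ K : Subgroup G, K ≤ X → X ≤ normalizer (K : Set G) → K ≠ ⊥ → K ⊓ Y ≠ ⊥ := by
        intro K hKX hXK hKb h
        obtain ⟨k, hk, hk1, hkn⟩ := exists_fixed_mod X K ⊥ hX hKX hXK (by rwa [le_bot_iff])
        rw [mem_bot] at hk1
        apply hk1
        have hkY : k ∈ Y := by
          rw [hYZ', hZ]
          refine ⟨hKX hk, fun w hw => ?_⟩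
          have h1 := mem_bot.mp (hkn w hw)
          calc k * w = (w * k * w⁻¹ * k⁻¹)⁻¹ * (w * k) := by group
            _ = w * k := by rw [h1]; group
        have : k ∈ K ⊓ Y := mem_inf.mpr ⟨hk, hkY⟩
        rw [h, mem_bot] at this
        exact this
      have hirr : ∀ K : Subgroup G, K ≤ X → X ≤ normalizer (K : Set G) →
          H ≤ normalizer (K : Set G) → K ≠ ⊥ → Y ≤ K := by
        intro K hKX hXK hHK hKb
        have h1 := irr hH hY2 hHY (inv_inf hHK hHY) hY4 hYnt inf_le_right (hmeet K hKX hXK hKb)
        rw [← h1]; exact inf_le_left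
      have hXX : X ≤ normalizer (X : Set G) := le_normalizer
      have hYD : Y ≤ D := hirr D hDX (by rw [hD]; exact inv_of_char hXX _) hHD
        (fun h => hCb (le_bot_iff.mp (h ▸ hCD)))
      have hYC : Y ≤ C := hirr C hCX' (by rw [hC]; exact inv_of_char hXX _) hHC hCb
      have hDneX : D ≠ X := by
        intro h
        have h1 : frattini ↥X = ⊤ := by
          apply Subgroup.map_injective X.subtype_injective
          rw [← hD, h, ← MonoidHom.range_eq_map, Subgroup.range_subtype]
        have hX1 : X ≠ ⊥ := by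
          intro h2
          apply hCb
          rw [← le_bot_iff, ← h2]; exact hCX'
        have hnt' : Nontrivial ↥X := (Subgroup.nontrivial_iff_ne_bot X).mpr hX1
        obtain ⟨M, hM, _⟩ := (eq_top_or_exists_le_coatom (⊥ : Subgroup ↥X)).resolve_left bot_ne_top
        have h3 : frattini ↥X ≤ M := frattini_le_coatom hM
        rw [h1, top_le_iff] at h3
        exact hM.1 h3
      have hDna : ¬ NA8 D := fun h => hDneX (hmin D hDX hHD h)
      have hDnt : ¬ Cen H D := fun h => hYnt (h.mono hYD)
      have hD4 : Nat.card ↥D = 4 := by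
        rcases classify hH (hX.to_le hDX) hHD hDnt hDna with ⟨h, _⟩ | ⟨z, i, j, q⟩
        · exact h
        · exfalso
          have h1 : ∀ y ∈ Y, y = 1 ∨ y = z := by
            intro y hy
            rcases q.sq y (hYD hy) with h | h | h
            · exact Or.inl h
            · exact Or.inr h
            · rw [hYsq y hy] at h
              exact absurd h.symm q.z1
          have h2 : (Y : Set G) ⊆ {1, z} := by
            intro y hy
            rcases h1 y hy with h | h <;> simp [h]
          have h3 := Set.ncard_le_ncard h2 (Set.toFinite _)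
          have h4 : Set.ncard (Y : Set G) = 4 := hY4
          have h5 : Set.ncard ({1, z} : Set G) ≤ 2 := Set.ncard_insert_le _ _ |>.trans (by
            rw [Set.ncard_singleton])
          omega
      have hDY : D = Y := (eq_of_le_of_card_ge hYD (by rw [hD4, hY4])).symm
      have hCY : C = Y := le_antisymm (hDY ▸ hCD) hYC
      have hinj : Function.Injective (Subgroup.map X.subtype) :=
        Subgroup.map_injective X.subtype_injective
      refine ⟨⟨hX, hinj ?_, hinj ?_⟩, ?_⟩
      · rw [← hD, ← hZmap, hDY, hYZ']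
      · rw [← hC, ← hZmap, hCY, hYZ']
      · rw [← hZcard, hZ4]
    · -- quaternion group
      obtain ⟨x, hxX, hxY, hxc, hxx⟩ := q8_ext q hH hX hYX hYne hHY hHX hYnt
      obtain ⟨C, hC⟩ : ∃ C : Subgroup G, C = X ⊓ centralizer (Y : Set G) := ⟨_, rfl⟩
      have hCm : ∀ c, c ∈ C ↔ c ∈ X ∧ ∀ y ∈ Y, c * y = y * c := by
        intro c
        rw [hC, mem_inf, mem_centralizer_iff]
        exact and_congr_right fun _ => ⟨fun h y hy => (h y hy).symm, fun h y hy => (h y hy).symm⟩
      have hCX : C ≤ X := fun c hc => ((hCm c).mp hc).1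
      have hHC : H ≤ normalizer (C : Set G) := by
        rw [hC]; exact inv_inf hHX (inv_centralizer hHY)
      have hzC : z ∈ C := by
        rw [hCm]; exact ⟨hYX q.hz, q.zc⟩
      have hzord : orderOf z = 2 := by
        apply orderOf_eq_prime _ q.z1
        rw [pow_two]; exact q.zz
      have hZmem : ∀ x, x ∈ zpowers z ↔ x = 1 ∨ x = z := by
        intro x
        constructor
        · rintro ⟨k, rfl⟩
          simp only
          rcases Int.even_or_odd' k with ⟨m, rfl | rfl⟩
          · left
            have : z ^ (2 : ℤ) = 1 := by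
              rw [zpow_two, q.zz]
            rw [zpow_mul, this, one_zpow]
          · right
            have : z ^ (2 : ℤ) = 1 := by
              rw [zpow_two, q.zz]
            rw [zpow_add, zpow_mul, this, one_zpow, one_mul, zpow_one]
        · rintro (rfl | rfl)
          · exact Subgroup.one_mem _
          · exact mem_zpowers _
      have hYC : ∀ c ∈ C, c ∈ Y → c = 1 ∨ c = z := by
        intro c hc hcY
        have h1 := ((hCm c).mp hc).2
        exact q.center hcY (h1 i q.hi) (h1 j q.hj)
      have hYCinf : Y ⊓ C = zpowers z := by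
        ext c
        rw [mem_inf, hZmem]
        constructor
        · rintro ⟨h1, h2⟩; exact hYC c h2 h1
        · rintro (rfl | rfl)
          · exact ⟨Y.one_mem, C.one_mem⟩
          · exact ⟨q.hz, hzC⟩
      -- key claim
      have hkey : ∀ C₁ : Subgroup G, C₁ ≤ C → z ∈ C₁ → ¬ C₁ ≤ zpowers z →
          H ≤ normalizer (C₁ : Set G) → C₁ = C := by
        intro C₁ hC₁ hz₁ hne₁ hH₁
        have hC₁2 : IsPGroup 2 ↥C₁ := hX.to_le (hC₁.trans hCX)
        obtain ⟨x₁, hx₁, hx₁Z, hx₁x, _⟩ := exists_next (zpowers z) C₁ hC₁2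
          (by rwa [zpowers_le]) (fun h => hne₁ h.ge)
        have hx₁c := ((hCm x₁).mp (hC₁ hx₁)).2
        have h1 : NA8 (Y ⊔ C₁) := by
          refine q8_na8 q le_sup_left (le_sup_right (a := Y) hx₁) ?_ hx₁c ((hZmem _).mp hx₁x)
          intro h
          exact hx₁Z ((hZmem _).mpr (hYC x₁ (hC₁ hx₁) h))
        have h2 : Y ⊔ C₁ = X := hmin _ (sup_le hYX (hC₁.trans hCX)) (inv_sup hHY hH₁) h1
        apply le_antisymm hC₁
        intro c hc
        have hcX : c ∈ Y ⊔ C₁ := by rw [h2]; exact hCX hc
        have hnor : C₁ ≤ normalizer (Y : Set G) := by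
          rw [le_normalizer_iff]
          intro a ha y hy
          rw [((hCm a).mp (hC₁ ha)).2 y hy]; simpa using hy
        obtain ⟨y, hy, c₁, hc₁, hyc⟩ : ∃ y ∈ Y, ∃ c₁ ∈ C₁, y * c₁ = c := by
          have h3 : ((Y ⊔ C₁ : Subgroup G) : Set G) = (Y : Set G) * (C₁ : Set G) :=
            Subgroup.coe_mul_of_right_le_normalizer_left Y C₁ hnor
          have h4 : c ∈ ((Y ⊔ C₁ : Subgroup G) : Set G) := hcX
          rw [h3] at h4
          exact Set.mem_mul.mp h4
        have hyC : y ∈ C := by
          have : y = c * c₁⁻¹ := by rw [← hyc]; group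
          rw [this]
          exact C.mul_mem hc (C.inv_mem (hC₁ hc₁))
        rw [← hyc]
        rcases hYC y hyC hy with h | h
        · rw [h, one_mul]; exact hc₁
        · rw [h]; exact C₁.mul_mem hz₁ hc₁
      have hxC : x ∈ C := (hCm x).mpr ⟨hxX, hxc⟩
      have hxnZ : x ∉ zpowers z := by
        intro h
        rcases (hZmem x).mp h with h | h
        · exact hxY (h ▸ Y.one_mem)
        · exact hxY (h ▸ q.hz)
      have hXYC : Y ⊔ C = X := by
        apply hmin _ (sup_le hYX hCX) (inv_sup hHY hHC)
        exact q8_na8 q le_sup_left (le_sup_right (a := Y) hxC) hxY hxc hxx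
      have hnorC : C ≤ normalizer (Y : Set G) := by
        rw [le_normalizer_iff]
        intro a ha y hy
        rw [((hCm a).mp ha).2 y hy]; simpa using hy
      have hcardX : Nat.card ↥X * 2 = Nat.card ↥C * 8 := by
        have h1 := Cfsg.Agent.GH.C2GrowG.card_sup (K := Y) (H := C) hnorC
        rw [sup_comm, hXYC, inf_comm, hYCinf, Nat.card_zpowers, hzord, q.card] at h1
        exact h1
      have hthird : Nat.card ↥C = 4 → (∃ (X₀ : Subgroup G) (k : ℕ), X₀ ≤ X ∧ X₀.relIndex X = 2 ∧
          Nonempty (↥X₀ ≃* QuaternionGroup (2 ^ (k + 1))) ∧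
          X₀ ⊔ (X ⊓ Subgroup.centralizer (X₀ : Set G)) = X) := by
        intro hC4
        refine ⟨Y, 0, hYX, ?_, ?_, ?_⟩
        · apply relIndex_eq hYX q.card
          rw [hC4] at hcardX
          omega
        · simpa using q8_iso q
        · rw [← hC]; exact hXYC
      by_cases hCcen : Cen H C
      · -- trivial action on `C`
        right; left
        apply hthird
        have hxz : z * x = x * z := (hxc z q.hz).symm
        obtain ⟨E, hE4, hE⟩ := exists_four z x q.zz hxz hxx q.z1
          (fun h => hxnZ ((hZmem x).mpr (Or.inl h))) (fun h => hxnZ ((hZmem x).mpr (Or.inr h)))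
        have hEC : E ≤ C := by
          intro e he
          rcases (hE e).mp he with rfl | rfl | rfl | rfl
          · exact C.one_mem
          · exact hzC
          · exact hxC
          · exact C.mul_mem hxC hzC
        have hEeq : E = C := by
          apply hkey E hEC ((hE z).mpr (Or.inr (Or.inl rfl)))
          · intro h
            exact hxnZ (h ((hE x).mpr (Or.inr (Or.inr (Or.inl rfl)))))
          · rw [le_normalizer_iff]
            intro h hh e he
            rw [hCcen h hh e (hEC he)]; exact he
        rw [← hEeq, hE4]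
      · have hCne : C ≠ X := by
          intro h
          have h1 : i ∈ C := by rw [h]; exact hYX q.hi
          have h2 := ((hCm i).mp h1).2 j q.hj
          have h3 := q.ij
          rw [h2] at h3
          exact q.z1 (by simpa using h3)
        have hCna : ¬ NA8 C := fun h => hCne (hmin C hCX hHC h)
        rcases classify hH (hX.to_le hCX) hHC hCcen hCna with ⟨hC4, _⟩ | ⟨z', i', j', q'⟩
        · right; left; exact hthird hC4
        · left
          -- `z' = z`
          have hzz' : z = z' := by
            have h1 : ∀ c ∈ C, z * c = c * z := fun c hc => (((hCm c).mp hc).2 z q.hz).symm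
            rcases q'.center hzC (h1 _ q'.hi) (h1 _ q'.hj) with h | h
            · exact absurd h q.z1
            · exact h
          have hX32 : Nat.card ↥X = 32 := by
            rw [q'.card] at hcardX
            omega
          have hform : ∀ g ∈ X, ∃ y ∈ Y, ∃ c ∈ C, g = y * c := by
            intro g hg
            have h3 : ((Y ⊔ C : Subgroup G) : Set G) = (Y : Set G) * (C : Set G) :=
              Subgroup.coe_mul_of_right_le_normalizer_left Y C hnorC
            have h4 : g ∈ ((Y ⊔ C : Subgroup G) : Set G) := by rw [hXYC]; exact hg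
            rw [h3] at h4
            obtain ⟨y, hy, c, hc, h⟩ := Set.mem_mul.mp h4
            exact ⟨y, hy, c, hc, h.symm⟩
          have hYsq : ∀ y ∈ Y, y * y = 1 ∨ y * y = z := by
            intro y hy
            rcases q.sq y hy with h | h | h
            · left; rw [h]; simp
            · left; rw [h]; exact q.zz
            · exact Or.inr h
          have hCsq : ∀ c ∈ C, c * c = 1 ∨ c * c = z := by
            intro c hc
            rcases q'.sq c hc with h | h | h
            · left; rw [h]; simp
            · left; rw [h]; exact q'.zz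
            · right; rw [h, hzz']
          have hzX : ∀ g ∈ X, z * g = g * z := by
            intro g hg
            obtain ⟨y, hy, c, hc, rfl⟩ := hform g hg
            have c1 : Commute z y := q.zc y hy
            have c2 : Commute z c := (((hCm c).mp hc).2 z q.hz).symm
            exact c1.mul_right c2
          have hcen : ∀ g ∈ X, (∀ h ∈ X, g * h = h * g) → g = 1 ∨ g = z := by
            intro g hg hgc
            obtain ⟨y, hy, c, hc, hgyc⟩ := hform g hg
            have h1 : ∀ w ∈ Y, y * w = w * y := by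
              intro w hw
              have h2 := hgc w (hYX hw)
              have h3 := ((hCm c).mp hc).2 w hw
              rw [hgyc] at h2
              have h4 : (y * w) * c = (w * y) * c := by
                calc y * w * c = y * (w * c) := by group
                  _ = y * (c * w) := by rw [h3]
                  _ = y * c * w := by group
                  _ = w * (y * c) := h2
                  _ = (w * y) * c := by group
              exact mul_right_cancel h4
            have h5 : ∀ d ∈ C, c * d = d * c := by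
              intro d hd
              have h2 := hgc d (hCX hd)
              have h3 := ((hCm d).mp hd).2 y hy
              rw [hgyc] at h2
              have h4 : y * (c * d) = y * (d * c) := by
                calc y * (c * d) = y * c * d := by group
                  _ = d * (y * c) := h2
                  _ = d * y * c := by group
                  _ = y * d * c := by rw [h3]
                  _ = y * (d * c) := by group
              exact mul_left_cancel h4
            have hy' := q.center hy (h1 i q.hi) (h1 j q.hj)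
            have hc' := q'.center hc (h5 i' q'.hi) (h5 j' q'.hj)
            rw [hgyc]
            rcases hy' with h | h <;> rcases hc' with h' | h' <;> rw [h, h']
            · simp
            · right; rw [one_mul, hzz']
            · right; rw [mul_one]
            · left; rw [← hzz', q.zz]
          have hZeq : Z = zpowers z := by
            ext g
            rw [hZ, hZmem]
            constructor
            · rintro ⟨h1, h2⟩; exact hcen g h1 h2
            · rintro (rfl | rfl)
              · exact ⟨X.one_mem, fun y _ => by simp⟩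
              · exact ⟨hYX q.hz, hzX⟩
          have hcen2 : Nat.card ↥(center ↥X) = 2 := by
            rw [← hZcard, hZeq, Nat.card_zpowers, hzord]
          refine ⟨Cfsg.Agent.J2.ExtQuot.isExtraspecial_two hX hcen2 ?_ ?_, by rw [hX32]⟩
          · rintro ⟨g, hg⟩
            rw [mem_center_iff]
            rintro ⟨h, hh⟩
            apply Subtype.ext
            change h * (g ^ 2) = (g ^ 2) * h
            obtain ⟨y, hy, c, hc, hgyc⟩ := hform g hg
            have e : g ^ 2 = (y * y) * (c * c) := by
              have h3 := ((hCm c).mp hc).2 y hy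
              rw [pow_two, hgyc]
              calc y * c * (y * c) = y * (c * y) * c := by group
                _ = y * (y * c) * c := by rw [h3]
                _ = (y * y) * (c * c) := by group
            have h1 : g ^ 2 = 1 ∨ g ^ 2 = z := by
              rw [e]
              rcases hYsq y hy with h1 | h1 <;> rcases hCsq c hc with h2 | h2 <;> rw [h1, h2]
              · simp
              · simp
              · simp
              · left; exact q.zz
            rcases h1 with h1 | h1 <;> rw [h1]
            · simp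
            · exact (hzX h hh).symm
          · refine ⟨⟨i, hYX q.hi⟩, ⟨j, hYX q.hj⟩, ?_⟩
            intro h
            have h1 : i * j = j * i := congrArg Subtype.val h
            have h2 := q.ij
            rw [h1] at h2
            exact q.z1 (by simpa using h2)
  · -- trivial action on all proper invariant subgroups
    have m : Min H X := by
      refine ⟨hX, hHX, hnt, fun D hD hHD hDnt => ?_⟩
      by_contra hne
      exact hprop ⟨D, hD, hne, hHD, hDnt⟩
    have hs := m.special hH hnab
    obtain ⟨Z', hZ'X, hZ', hZ'map, hsqZ, hZ2⟩ := special_facts hs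
    have hZZ' : Z = Z' := by rw [hZmap, hZ'map]
    rw [← hZZ'] at hsqZ hZ2
    obtain ⟨n, hn⟩ := IsPGroup.iff_card.mp (hX.to_le hZX)
    have hlt : ¬ 8 ≤ Nat.card ↥Z := fun h => hZna (na8_of_elem Z h hZ2)
    rcases n with _ | _ | _ | n
    · exfalso
      rw [pow_zero] at hn
      have h1 := Subgroup.card_eq_one.mp hn
      obtain ⟨k, hk, hk1, hkn⟩ := exists_fixed_mod X X ⊥ hX le_rfl le_normalizer (by
        intro h
        apply hnab
        intro x hx y _
        rw [mem_bot.mp (h hx)]; simp)
      rw [mem_bot] at hk1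
      apply hk1
      rw [← mem_bot, ← h1, hZ]
      refine ⟨hk, fun w hw => ?_⟩
      have h1 := mem_bot.mp (hkn w hw)
      calc k * w = (w * k * w⁻¹ * k⁻¹)⁻¹ * (w * k) := by group
        _ = w * k := by rw [h1]; group
    · left
      have hZ2c : Nat.card ↥(center ↥X) = 2 := by rw [← hZcard]; simpa using hn
      have hex : Cfsg.IsExtraspecial 2 ↥X := ⟨hs, hZ2c⟩
      refine ⟨hex, ?_⟩
      obtain ⟨r, hr1, hr⟩ := Cfsg.Agent.S0095.result hex
      by_contra hlt32
      have hr1' : r = 1 := by
        by_contra hne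
        apply hlt32
        rw [hr]
        have : 2 ^ 5 ≤ 2 ^ (2 * r + 1) := Nat.pow_le_pow_right (by norm_num) (by omega)
        simpa using this
      rw [hr1'] at hr
      obtain ⟨A, hAX, hAc, _, hA8⟩ := hNA
      have hAeq : A = X := eq_of_le_of_card_ge hAX (by rw [hA8, hr]; norm_num)
      apply hnab
      intro x hx y hy
      rw [← hAeq] at hx hy
      exact congrArg Subtype.val (hAc.is_comm.comm (⟨x, hx⟩ : ↥A) ⟨y, hy⟩)
    · right; right
      exact ⟨hs, by rw [← hZcard]; simpa using hn⟩
    · exfalso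
      apply hlt
      rw [hn]
      have : 2 ^ 3 ≤ 2 ^ (n + 1 + 1 + 1) := Nat.pow_le_pow_right (by norm_num) (by omega)
      simpa using this

/-- Let S be a finite solvable group with O_{2'}(S) = 1 that contains a non-cyclic abelian subgroup of order 8, while no proper subgroup of S of 2-power index contains one. Then a Sylow 2-subgroup X of S is normal in S, and one of the following holds: X is abelian; X is extraspecial of order at least 32; X has a generalized quaternion subgroup X₀ of index 2 with X = X₀·C_X(X₀); or X is special with centre of order 4. -/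
theorem result {S : Type*} [Group S] [Finite S]
    [Group.IsSolvable S] (hO : Cfsg.pPrimeCore 2 S = ⊥)
    (h8 : ∃ A : Subgroup S, IsMulCommutative ↥A ∧ ¬ IsCyclic ↥A ∧ Nat.card ↥A = 8)
    (hmin : ∀ R : Subgroup S, R ≠ ⊤ → (∃ k : ℕ, R.index = 2 ^ k) →
      ¬ ∃ A : Subgroup S, A ≤ R ∧ IsMulCommutative ↥A ∧ ¬ IsCyclic ↥A ∧ Nat.card ↥A = 8)
    (X : Sylow 2 S) :
    (X : Subgroup S).Normal ∧
      (IsMulCommutative ↥X ∨
        (Cfsg.IsExtraspecial 2 ↥X ∧ 32 ≤ Nat.card ↥X) ∨
        (∃ (X₀ : Subgroup S) (k : ℕ), X₀ ≤ (X : Subgroup S) ∧ X₀.relIndex (X : Subgroup S) = 2 ∧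
          Nonempty (↥X₀ ≃* QuaternionGroup (2 ^ (k + 1))) ∧ X₀ ⊔ ((X : Subgroup S) ⊓ Subgroup.centralizer (X₀ : Set S)) = (X : Subgroup S)) ∨
        (Cfsg.IsSpecial 2 ↥X ∧ Nat.card ↥(Subgroup.center ↥X) = 4)) := by
  have hf2 : Fact (Nat.Prime 2) := ⟨Nat.prime_two⟩
  obtain ⟨Q, hQdef⟩ : ∃ Q : Subgroup S, Q = Cfsg.pCore 2 S := ⟨_, rfl⟩
  have hQn : Q.Normal := by rw [hQdef]; exact Cfsg.Agent.Lib.Cores.pCore_normal 2
  have hQ2 : IsPGroup 2 ↥Q := by rw [hQdef]; exact Cfsg.Agent.Lib.Cores.pCore_isPGroup 2
  have hQX : Q ≤ X := by rw [hQdef]; exact Cfsg.Agent.Lib.Cores.pCore_le_sylow X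
  have hFQ : Cfsg.fittingSubgroup S = Q := by
    apply le_antisymm
    · rw [hQdef]; exact Cfsg.Agent.SignalizersComponents.CompOrbit.fittingSubgroup_le_pCore hO
    · rw [hQdef]; exact Cfsg.Agent.Lib.Cores.pCore_le_fittingSubgroup 2
  have hC : centralizer (Q : Set S) ≤ Q := by
    have := Cfsg.Agent.S0044.result (G := S)
    rwa [hFQ] at this
  -- Hall 2'-subgroup
  obtain ⟨a, m, hm2, ham⟩ := Nat.exists_eq_pow_mul_and_not_dvd (n := Nat.card S) Nat.card_pos.ne' 2
    (by norm_num)
  have hmodd : Odd m := by
    rw [← Nat.not_even_iff_odd, even_iff_two_dvd]; exact hm2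
  have hcop : m.Coprime (2 ^ a) := (Nat.coprime_two_right.mpr hmodd).pow_right a
  obtain ⟨H, hHm⟩ := Cfsg.Agent.S0003.result (G := S) m (2 ^ a) (by rw [ham, mul_comm]) hcop
  have hHodd : Odd (Nat.card ↥H) := by rw [hHm]; exact hmodd
  have hHidx : H.index = 2 ^ a := by
    have h1 := Subgroup.card_mul_index H
    rw [hHm, ham, mul_comm] at h1
    exact Nat.eq_of_mul_eq_mul_right (Nat.pos_of_ne_zero (by rintro rfl; simp at hm2)) h1
  have hK : ∀ Y : Subgroup S, NA8 Y → Y ⊔ H = ⊤ := by
    intro Y hY
    by_contra hne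
    have hd : (Y ⊔ H).index ∣ 2 ^ a := by
      rw [← hHidx]; exact Subgroup.index_dvd_of_le le_sup_right
    obtain ⟨k, _, hk⟩ := (Nat.dvd_prime_pow Nat.prime_two).mp hd
    exact hmin (Y ⊔ H) hne ⟨k, hk⟩ (hY.mono le_sup_left)
  have hNAtop : NA8 (⊤ : Subgroup S) := by
    obtain ⟨A, h1, h2, h3⟩ := h8
    exact ⟨A, le_top, h1, h2, h3⟩
  have hHQ : H ≤ normalizer (Q : Set S) := by
    rw [le_normalizer_iff]; intro h _ x hx; exact hQn.conj_mem x hx h
  have hcardS : Nat.card S = Nat.card ↥H * 2 ^ a := by rw [hHm, ham, mul_comm]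
  -- if `H` centralises `Q` then `H = 1`
  have hHtriv : Cen H Q → H = ⊥ := by
    intro h
    have h1 : H ≤ Q := (cen_iff.mp h).trans hC
    obtain ⟨n, hn⟩ := IsPGroup.iff_card.mp (hQ2.to_le h1)
    rcases n with _ | n
    · rw [pow_zero] at hn; exact Subgroup.card_eq_one.mp hn
    · exfalso
      rw [hn, pow_succ] at hHodd
      rw [Nat.odd_iff] at hHodd
      omega
  have hbotinv : ∀ Y : Subgroup S, (⊥ : Subgroup S) ≤ normalizer (Y : Set S) := fun _ => bot_le
  by_cases hcenQ : Cen H Q
  · -- `S` is a 2-group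
    have hHb := hHtriv hcenQ
    have hmone : m = 1 := by rw [← hHm, hHb, card_bot]
    have hS2 : IsPGroup 2 S := IsPGroup.of_card (n := a) (by rw [ham, hmone, mul_one])
    obtain ⟨A, hAc, hAcyc, hA8⟩ := h8
    have hAtop : A = ⊤ := by
      have h1 := hK A ⟨A, le_rfl, hAc, hAcyc, hA8⟩
      rwa [hHb, sup_bot_eq] at h1
    have hXtop : (X : Subgroup S) = ⊤ := by
      rw [← top_le_iff, ← (Cfsg.Agent.Lib.Cores.pCore_eq_top_iff 2).mpr hS2, ← hQdef]
      exact hQX
    refine ⟨by rw [hXtop]; infer_instance, Or.inl ?_⟩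
    refine ⟨⟨?_⟩⟩
    rintro ⟨x, hx⟩ ⟨y, hy⟩
    apply Subtype.ext
    change x * y = y * x
    have hx' : x ∈ A := by rw [hAtop]; trivial
    have hy' : y ∈ A := by rw [hAtop]; trivial
    exact congrArg Subtype.val (hAc.is_comm.comm (⟨x, hx'⟩ : ↥A) ⟨y, hy'⟩)
  · have hNAQ : NA8 Q := na8_core hHodd hQ2 hQn hC hcenQ hNAtop
    -- invariant subgroups with `NA8` are everything
    have hcopQ : Nat.Coprime (Nat.card ↥(X : Subgroup S)) (Nat.card ↥H) := by
      obtain ⟨n, hn⟩ := IsPGroup.iff_card.mp X.isPGroup'
      rw [hn]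
      exact (Nat.coprime_two_left.mpr hHodd).pow_left n
    have hmain : ∀ Y : Subgroup S, Y ≤ X → H ≤ normalizer (Y : Set S) → NA8 Y → Y = X := by
      intro Y hYX hHY hY
      have h1 := Cfsg.Agent.GH.C2GrowG.card_sup (K := Y) (H := H) hHY
      rw [sup_comm, hK Y hY, Subgroup.card_top] at h1
      have h2 : Nat.card ↥(X : Subgroup S) ∣ Nat.card ↥H * Nat.card ↥Y := by
        rw [← h1]
        exact (Subgroup.card_subgroup_dvd_card (X : Subgroup S)).mul_right _
      have h3 := hcopQ.dvd_of_dvd_mul_left h2
      exact eq_of_le_of_card_ge hYX (Nat.le_of_dvd Nat.card_pos h3)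
    have hQX' : Q = X := hmain Q hQX hHQ hNAQ
    rw [hQX'] at hHQ hcenQ hNAQ hQn
    refine ⟨hQn, ?_⟩
    by_cases hab : ∀ x ∈ (X : Subgroup S), ∀ y ∈ (X : Subgroup S), x * y = y * x
    · left
      exact ⟨⟨fun x y => Subtype.ext (hab x x.2 y y.2)⟩⟩
    · right
      exact structure_thm hHodd X.isPGroup' hHQ hcenQ hmain hNAQ hab

end Cfsg.Agent.S4409
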