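import Cfsg.Statements.S4411
import Cfsg.Agent.H586.AutMain
import Cfsg.Agent.OddOrderLocal.FittingHall

set_option autoImplicit false
open Cfsg

namespace Cfsg.Agent.S4411

open Subgroup Cfsg.Agent.H586.AutStar

/-- some `q`-element acts nontrivially on `K` -/
def Bad (q : ℕ) {G : Type*} [Group G] (K : Subgroup G) : Prop :=
  ∃ x : G, (∃ k : ℕ, x ^ (q ^ k) = 1) ∧ x ∈ normalizer (K : Set G) ∧ x ∉ centralizer (K : Set G)

theorem bad_iff {q : ℕ} [hq : Fact q.Prime] {G : Type*} [Group G] [Finite G] (K : Subgroup G) :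
    q ∣ ((centralizer (K : Set G)).subgroupOf (normalizer (K : Set G))).index ↔ Bad q K := by
  constructor
  · intro h
    by_contra hb
    obtain ⟨Q⟩ : Nonempty (Sylow q ↥(normalizer (K : Set G))) := inferInstance
    have h1 : (Q : Subgroup ↥(normalizer (K : Set G))) ≤
        (centralizer (K : Set G)).subgroupOf (normalizer (K : Set G)) := by
      intro x hx
      rw [mem_subgroupOf]
      by_contra hxc
      apply hb
      obtain ⟨k, hk⟩ := Q.2 ⟨x, hx⟩
      refine ⟨x, ⟨k, ?_⟩, x.2, hxc⟩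
      have := congrArg (fun y : ↥(Q : Subgroup ↥(normalizer (K : Set G))) =>
        ((y : ↥(normalizer (K : Set G))) : G)) hk
      simpa using this
    exact Q.not_dvd_index (h.trans (Subgroup.index_dvd_of_le h1))
  · rintro ⟨x, ⟨k, hk⟩, hn, hc⟩
    let y : ↥(normalizer (K : Set G)) ⧸
        (centralizer (K : Set G)).subgroupOf (normalizer (K : Set G)) :=
      QuotientGroup.mk ⟨x, hn⟩
    have hy1 : y ^ (q ^ k) = 1 := by
      have h1 : (⟨x, hn⟩ : ↥(normalizer (K : Set G))) ^ (q ^ k) = 1 := Subtype.ext hk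
      have h2 : y ^ (q ^ k) = QuotientGroup.mk ((⟨x, hn⟩ : ↥(normalizer (K : Set G))) ^ (q ^ k)) := rfl
      rw [h2, h1]; rfl
    have hy2 : y ≠ 1 := by
      intro h
      apply hc
      exact (QuotientGroup.eq_one_iff (N := (centralizer (K : Set G)).subgroupOf
        (normalizer (K : Set G))) _).1 h
    obtain ⟨m, -, hm⟩ := (Nat.dvd_prime_pow hq.out).1 (orderOf_dvd_of_pow_eq_one hy1)
    have hm0 : m ≠ 0 := by
      rintro rfl
      rw [pow_zero, orderOf_eq_one_iff] at hm
      exact hy2 hm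
    have h3 : q ∣ orderOf y := by rw [hm]; exact dvd_pow_self q hm0
    exact h3.trans (orderOf_dvd_natCard y)

theorem mem_normalizer_map_conj {G : Type*} [Group G] {K : Subgroup G} (g : G) {x : G}
    (hx : x ∈ normalizer (K : Set G)) :
    g * x * g⁻¹ ∈ normalizer ((K.map (MulAut.conj g).toMonoidHom : Subgroup G) : Set G) := by
  have h := Subgroup.le_normalizer_map (H := K) (MulAut.conj g).toMonoidHom
  exact h ⟨x, hx, rfl⟩

theorem Bad.conj {q : ℕ} {G : Type*} [Group G] {K : Subgroup G} (h : Bad q K) (g : G) :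
    Bad q (K.map (MulAut.conj g).toMonoidHom) := by
  obtain ⟨x, ⟨k, hk⟩, hn, hc⟩ := h
  refine ⟨g * x * g⁻¹, ⟨k, ?_⟩, mem_normalizer_map_conj g hn, ?_⟩
  · rw [conj_pow, hk]; group
  · intro hc'
    apply hc
    rw [mem_centralizer_iff] at hc' ⊢
    intro y hy
    have h1 : g * y * g⁻¹ * (g * x * g⁻¹) = g * x * g⁻¹ * (g * y * g⁻¹) := hc' _ ⟨y, hy, rfl⟩
    have h2 : g * (y * x) * g⁻¹ = g * (x * y) * g⁻¹ := by
      calc g * (y * x) * g⁻¹ = g * y * g⁻¹ * (g * x * g⁻¹) := by group
        _ = g * x * g⁻¹ * (g * y * g⁻¹) := h1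
        _ = g * (x * y) * g⁻¹ := by group
    exact mul_left_cancel (mul_right_cancel h2)

/-- `p`-part of the order of the normaliser -/
noncomputable def v (p : ℕ) {G : Type*} [Group G] (K : Subgroup G) : ℕ :=
  (Nat.card ↥(normalizer (K : Set G))).factorization p

theorem card_le_v {p : ℕ} [hp : Fact p.Prime] {G : Type*} [Group G] [Finite G] {K T : Subgroup G}
    (hT : IsPGroup p T) (h : T ≤ normalizer (K : Set G)) : Nat.card T ≤ p ^ v p K := by
  obtain ⟨a, ha⟩ := hT.exists_card_eq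
  have h1 : p ^ a ∣ Nat.card ↥(normalizer (K : Set G)) := by
    rw [← ha]; exact Subgroup.card_dvd_of_le h
  have h2 : a ≤ v p K := by
    rw [v, ← hp.out.pow_dvd_iff_le_factorization Nat.card_pos.ne']
    exact h1
  rw [ha]
  exact Nat.pow_le_pow_right hp.out.pos h2

/-- Let p and q be distinct primes with {p, q} ≠ {2, 3}, and let G be a finite group such that for every p-subgroup H of G the automizer N_G(H)/C_G(H) is p-solvable. If q divides the order of N_G(H)/C_G(H) for some p-subgroup H, then a Sylow p-subgroup of G has a normal subgroup K (normal in the Sylow subgroup) such that q divides the order of N_G(K)/C_G(K). -/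
theorem result {G : Type*} [Group G] [Finite G]
    (p q : ℕ) [Fact p.Prime] [Fact q.Prime] (hpq : p ≠ q) (h23 : ¬ ((p = 2 ∧ q = 3) ∨ (p = 3 ∧ q = 2)))
    (hsol : ∀ H : Subgroup G, IsPGroup p ↥H →
      Cfsg.IsPSolvable p (↥(Subgroup.normalizer (H : Set G)) ⧸ (Subgroup.centralizer (H : Set G)).subgroupOf (Subgroup.normalizer (H : Set G))))
    (H : Subgroup G) (hH : IsPGroup p ↥H)
    (hq : q ∣ ((Subgroup.centralizer (H : Set G)).subgroupOf (Subgroup.normalizer (H : Set G))).index)
    (Gp : Sylow p G) :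
    ∃ K : Subgroup G, K ≤ (Gp : Subgroup G) ∧ (Gp : Subgroup G) ≤ Subgroup.normalizer (K : Set G) ∧
      q ∣ ((Subgroup.centralizer (K : Set G)).subgroupOf (Subgroup.normalizer (K : Set G))).index := by
  by_contra hcon
  -- no bad subgroup is normal in a Sylow subgroup
  have hS : ∀ (S : Sylow p G) (K : Subgroup G), K ≤ (S : Subgroup G) →
      (S : Subgroup G) ≤ normalizer (K : Set G) → ¬ Bad q K := by
    intro S K hKS hSK hb
    obtain ⟨g, hg⟩ := MulAction.exists_smul_eq G S Gp
    have hg' : (Gp : Subgroup G) = (S : Subgroup G).map (MulAut.conj g).toMonoidHom := by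
      rw [← hg]; rfl
    apply hcon
    refine ⟨K.map (MulAut.conj g).toMonoidHom, ?_, ?_, (bad_iff _).2 (hb.conj g)⟩
    · rw [hg']; exact map_mono hKS
    · rw [hg']
      rintro _ ⟨x, hx, rfl⟩
      exact mem_normalizer_map_conj g (hSK hx)
  -- the maximal choice
  obtain ⟨H, ⟨hHp, hHb⟩, hmax⟩ : ∃ H : Subgroup G, (IsPGroup p H ∧ Bad q H) ∧
      ∀ H' : Subgroup G, (IsPGroup p H' ∧ Bad q H') →
        v p H' * (Nat.card G + 1) + Nat.card H' ≤ v p H * (Nat.card G + 1) + Nat.card H := by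
    have hfin : {H : Subgroup G | IsPGroup p H ∧ Bad q H}.Finite := Set.toFinite _
    have hne : {H : Subgroup G | IsPGroup p H ∧ Bad q H}.Nonempty := ⟨H, hH, (bad_iff H).1 hq⟩
    obtain ⟨H, hH, hmax⟩ := Set.exists_max_image _
      (fun H : Subgroup G => v p H * (Nat.card G + 1) + Nat.card H) hfin hne
    exact ⟨H, hH, hmax⟩
  have hv : ∀ H' : Subgroup G, IsPGroup p H' → Bad q H' → v p H' ≤ v p H := by
    intro H' h1 h2
    by_contra hlt
    have h3 := hmax H' ⟨h1, h2⟩
    have h4 : v p H + 1 ≤ v p H' := by omega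
    have h5 : (v p H + 1) * (Nat.card G + 1) ≤ v p H' * (Nat.card G + 1) :=
      Nat.mul_le_mul_right _ h4
    have h6 : Nat.card H ≤ Nat.card G := Subgroup.card_le_card_group H
    have h7 : (v p H + 1) * (Nat.card G + 1) = v p H * (Nat.card G + 1) + (Nat.card G + 1) := by ring
    omega
  have hc : ∀ H' : Subgroup G, IsPGroup p H' → Bad q H' → v p H ≤ v p H' →
      Nat.card H' ≤ Nat.card H := by
    intro H' h1 h2 h3
    have h4 := hmax H' ⟨h1, h2⟩
    have h5 : v p H' = v p H := le_antisymm (hv H' h1 h2) h3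
    rw [h5] at h4
    omega
  -- the Sylow subgroup of the normaliser
  obtain ⟨N, hN⟩ : ∃ N : Subgroup G, N = normalizer (H : Set G) := ⟨_, rfl⟩
  obtain ⟨P⟩ : Nonempty (Sylow p ↥N) := inferInstance
  obtain ⟨P₁, hP₁⟩ : ∃ P₁ : Subgroup G, P₁ = (P : Subgroup ↥N).map N.subtype := ⟨_, rfl⟩
  have hP₁N : P₁ ≤ N := by rw [hP₁]; exact map_subtype_le _
  have hP₁p : IsPGroup p P₁ := by rw [hP₁]; exact P.2.map _
  have hP₁c : Nat.card P₁ = p ^ v p H := by
    rw [hP₁, card_map_of_injective N.subtype_injective, P.card_eq_multiplicity, v, hN]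
  have hHN : H ≤ N := by rw [hN]; exact le_normalizer
  have hHn : (H.subgroupOf N).Normal := by rw [hN]; exact normal_in_normalizer
  have hHp' : IsPGroup p (H.subgroupOf N) := hHp.comap_of_injective N.subtype N.subtype_injective
  have hHP' : H.subgroupOf N ≤ (P : Subgroup ↥N) := hHp'.le_sylow_of_normal P
  have hHP : H ≤ P₁ := by
    intro x hx
    rw [hP₁]
    exact ⟨⟨x, hHN hx⟩, hHP' (show (⟨x, hHN hx⟩ : ↥N) ∈ H.subgroupOf N from hx), rfl⟩
  -- `Star`
  have hstar : Star q P₁ := by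
    intro K hK x hxq hxn
    by_contra hxc
    have hKbad : Bad q (K.map P₁.subtype) := ⟨x, hxq, hxn, hxc⟩
    have hKp : IsPGroup p (K.map P₁.subtype) := hP₁p.to_le (map_subtype_le _)
    have hKv := hv _ hKp hKbad
    obtain ⟨S, hSP⟩ := hP₁p.exists_le_sylow
    have hne : P₁ < (S : Subgroup G) := by
      refine lt_of_le_of_ne hSP ?_
      intro heq
      refine hS S H (hHP.trans hSP) ?_ hHb
      rw [← heq, ← hN]; exact hP₁N
    -- the normaliser in `S` is larger
    have hnil : Group.IsNilpotent ↥(S : Subgroup G) := S.2.isNilpotent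
    have h1 : P₁.subgroupOf (S : Subgroup G) < ⊤ := by
      rw [lt_top_iff_ne_top, Ne, subgroupOf_eq_top]
      exact fun h => hne.not_ge h
    have h2 := Group.normalizerCondition_of_isNilpotent (G := ↥(S : Subgroup G)) _ h1
    obtain ⟨t, ht1, ht2⟩ := SetLike.exists_of_lt h2
    have hT : P₁ < (S : Subgroup G) ⊓ normalizer (P₁ : Set G) := by
      refine lt_of_le_of_ne (le_inf hSP le_normalizer) ?_
      intro heq
      apply ht2
      rw [mem_subgroupOf, heq]
      refine ⟨t.2, ?_⟩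
      show (t : G) ∈ normalizer (P₁ : Set G)
      rw [mem_normalizer_iff] at ht1 ⊢
      intro y
      by_cases hy : y ∈ (S : Subgroup G)
      · have := ht1 ⟨y, hy⟩
        simpa [mem_subgroupOf] using this
      · constructor
        · intro h; exact absurd (hSP h) hy
        · intro h
          exfalso
          apply hy
          have h3 := hSP h
          have h4 := (S : Subgroup G).mul_mem ((S : Subgroup G).mul_mem ((S : Subgroup G).inv_mem t.2) h3) t.2
          have h5 : (t : G)⁻¹ * (t * y * (t : G)⁻¹) * t = y := by group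
          rwa [h5] at h4
    have hKn : normalizer (P₁ : Set G) ≤ normalizer ((K.map P₁.subtype : Subgroup G) : Set G) :=
      Cfsg.Agent.OddOrderLocal.FittingHall.normalizer_le_normalizer_map P₁ K hK
    have h3 : Nat.card ↥((S : Subgroup G) ⊓ normalizer (P₁ : Set G) : Subgroup G) ≤
        p ^ v p (K.map P₁.subtype) :=
      card_le_v (S.2.to_le inf_le_left) (inf_le_right.trans hKn)
    have h4 : p ^ v p (K.map P₁.subtype) ≤ p ^ v p H :=
      Nat.pow_le_pow_right (Fact.out : p.Prime).pos hKv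
    rw [← hP₁c] at h4
    have h5 : Nat.card P₁ < Nat.card ↥((S : Subgroup G) ⊓ normalizer (P₁ : Set G) : Subgroup G) :=
      lt_of_le_of_ne (Subgroup.card_le_of_le hT.le)
        (fun h => hT.ne (Subgroup.eq_of_le_of_card_ge hT.le h.ge))
    omega
  -- the centraliser
  obtain ⟨C, hC⟩ : ∃ C : Subgroup ↥N, C = centralizer ((H.subgroupOf N : Subgroup ↥N) : Set ↥N) :=
    ⟨_, rfl⟩
  have hCmem : ∀ y : ↥N, y ∈ C ↔ (y : G) ∈ centralizer (H : Set G) := by
    intro y
    rw [hC, mem_centralizer_iff, mem_centralizer_iff]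
    constructor
    · intro h x hx
      exact congrArg Subtype.val (h ⟨x, hHN hx⟩ hx)
    · intro h x hx
      exact Subtype.ext (h x hx)
  have hCn : C.Normal := by
    rw [hC]
    have := hHn
    infer_instance
  have hCeq : C = (centralizer (H : Set G)).subgroupOf N := by
    ext y
    rw [hCmem, mem_subgroupOf]
  have hPC : (P : Subgroup ↥N) ⊓ C ≤ H.subgroupOf N := by
    obtain ⟨Q, hQ⟩ : ∃ Q : Subgroup ↥N, Q = (P : Subgroup ↥N) ⊓ C := ⟨_, rfl⟩
    obtain ⟨H₁, hH₁⟩ : ∃ H₁ : Subgroup ↥N, H₁ = H.subgroupOf N ⊔ Q := ⟨_, rfl⟩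
    have hfr : normalizer (Q : Set ↥N) ⊔ C = ⊤ := by
      rw [hQ]
      exact Cfsg.Agent.Lib.SylowNormalInf.normalizer_inf_sup_eq_top P C
    -- a `q`-element of `N(Q)` outside `C`
    obtain ⟨x, hxq, hxN, hxC⟩ := hHb
    rw [← hN] at hxN
    have hx1 : (⟨x, hxN⟩ : ↥N) ∉ C := fun h => hxC ((hCmem _).1 h)
    have hx2 : (⟨x, hxN⟩ : ↥N) ∈ normalizer (Q : Set ↥N) ⊔ C := by rw [hfr]; trivial
    rw [mem_sup_of_normal_right] at hx2
    obtain ⟨y, hy, c, hc', hyc⟩ := hx2
    have hmk : QuotientGroup.mk' C y = QuotientGroup.mk' C ⟨x, hxN⟩ := by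
      rw [← hyc, map_mul]
      have : QuotientGroup.mk' C c = 1 := (QuotientGroup.eq_one_iff c).2 hc'
      rw [this, mul_one]
    obtain ⟨m, hm1, hm2⟩ := exists_q_lift (q := q) (QuotientGroup.mk' C) y (by
      rw [hmk]
      obtain ⟨k, hk⟩ := hxq
      refine ⟨k, ?_⟩
      rw [← map_pow]
      have : (⟨x, hxN⟩ : ↥N) ^ (q ^ k) = 1 := Subtype.ext hk
      rw [this, map_one])
    have hyn : y ^ m ∈ normalizer (Q : Set ↥N) := pow_mem hy m
    have hyC : y ^ m ∉ C := by
      intro h
      apply hx1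
      have h1 : QuotientGroup.mk' C (y ^ m) = 1 := (QuotientGroup.eq_one_iff _).2 h
      rw [hm1, hmk] at h1
      exact (QuotientGroup.eq_one_iff _).1 h1
    -- `H₁` is bad
    have hle1 : normalizer (Q : Set ↥N) ≤ normalizer (H₁ : Set ↥N) := by
      intro z hz
      rw [hH₁]
      have h1 : z ∈ normalizer ((H.subgroupOf N : Subgroup ↥N) : Set ↥N) := by
        have := hHn
        rw [normalizer_eq_top]; trivial
      exact Subgroup.normalizer_inf_normalizer_le_normalizer_sup _ _ ⟨h1, hz⟩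
    have hH₂ : ∀ z : ↥N, z ∈ normalizer (H₁ : Set ↥N) →
        (z : G) ∈ normalizer ((H₁.map N.subtype : Subgroup G) : Set G) := by
      intro z hz
      exact Subgroup.le_normalizer_map (H := H₁) N.subtype ⟨z, hz, rfl⟩
    have hHH₂ : H ≤ H₁.map N.subtype := by
      intro z hz
      refine ⟨⟨z, hHN hz⟩, ?_, rfl⟩
      rw [hH₁]
      exact mem_sup_left (show (⟨z, hHN hz⟩ : ↥N) ∈ H.subgroupOf N from hz)
    have hbad : Bad q (H₁.map N.subtype) := by
      refine ⟨((y ^ m : ↥N) : G), ?_, hH₂ _ (hle1 hyn), ?_⟩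
      · obtain ⟨k, hk⟩ := hm2
        exact ⟨k, by rw [← SubmonoidClass.coe_pow, hk]; rfl⟩
      · intro h
        apply hyC
        rw [hCmem]
        exact centralizer_le (show (H : Set G) ⊆ _ from hHH₂) h
    have hH₁P : H₁ ≤ (P : Subgroup ↥N) := by
      rw [hH₁]
      refine sup_le hHP' ?_
      rw [hQ]; exact inf_le_left
    have hH₂p : IsPGroup p (H₁.map N.subtype) := (P.2.to_le hH₁P).map _
    have hPn : P₁ ≤ normalizer ((H₁.map N.subtype : Subgroup G) : Set G) := by
      intro z hz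
      rw [hP₁] at hz
      obtain ⟨w, hw, rfl⟩ := hz
      apply hH₂
      apply hle1
      rw [hQ, mem_normalizer_iff]
      intro z
      constructor
      · rintro ⟨h1, h2⟩
        exact ⟨(P : Subgroup ↥N).mul_mem ((P : Subgroup ↥N).mul_mem hw h1)
          ((P : Subgroup ↥N).inv_mem hw), hCn.conj_mem z h2 w⟩
      · rintro ⟨h1, h2⟩
        have h3 : w⁻¹ * (w * z * w⁻¹) * w = z := by group
        refine ⟨?_, ?_⟩
        · have := (P : Subgroup ↥N).mul_mem ((P : Subgroup ↥N).mul_mem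
            ((P : Subgroup ↥N).inv_mem hw) h1) hw
          rwa [h3] at this
        · have := hCn.conj_mem _ h2 w⁻¹
          rwa [inv_inv, h3] at this
    have hvle : v p H ≤ v p (H₁.map N.subtype) := by
      have h1 := card_le_v hP₁p hPn
      rw [hP₁c] at h1
      exact (Nat.pow_le_pow_iff_right (Fact.out : p.Prime).one_lt).1 h1
    have hcle := hc _ hH₂p hbad hvle
    have heq : H = H₁.map N.subtype := Subgroup.eq_of_le_of_card_ge hHH₂ hcle
    intro z hz
    rw [← hQ] at hz
    rw [mem_subgroupOf, heq]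
    exact ⟨z, by rw [hH₁]; exact mem_sup_right hz, rfl⟩
  have hsolN : IsPSolvable p (↥N ⧸ C) := by
    subst hN
    subst hCeq
    exact hsol H hHp
  subst hC
  have h1 := Cfsg.Agent.H586.AutMain.no_bad_N hpq h23 (H.subgroupOf N) hHp' P
    (Star.of_injective N.subtype N.subtype_injective _ (by rw [← hP₁]; exact hstar)) hPC hsolN
  apply h1
  rw [hCeq, hN]
  exact (bad_iff H).2 hHb

end Cfsg.Agent.S4411
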