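import Cfsg.Statements.S4413
import Cfsg.Agent.H587.MinusThirtyTwo

set_option autoImplicit false
open Cfsg

namespace Cfsg.Agent.S4413

/-- Let P be an extraspecial 2-group of order 32 with no elementary abelian subgroup of order 8 (the central product of a dihedral and a quaternion group of order 8). Then the inner automorphism group of P has order 16 and the outer automorphism group Aut(P)/Inn(P) is isomorphic to the symmetric group of degree 5; in particular Aut(P) has order 1920. -/
theorem result {P : Type*} [Group P] [Finite P]
    (hex : Cfsg.IsExtraspecial 2 P) (h32 : Nat.card P = 32)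
    (hminus : ∀ A : Subgroup P, Cfsg.IsElementaryAbelian 2 A → Nat.card ↥A ≤ 4)
    [(MulAut.conj : P →* MulAut P).range.Normal] :
    Nat.card ↥(MulAut.conj : P →* MulAut P).range = 16 ∧ Nat.card (MulAut P) = 1920 ∧
      Nonempty ((MulAut P ⧸ (MulAut.conj : P →* MulAut P).range) ≃* Equiv.Perm (Fin 5)) := by
  obtain ⟨e⟩ := Cfsg.Agent.H587.MinusThirtyTwo.exists_iso hex h32 hminus
  exact Cfsg.Agent.H587.MinusThirtyTwo.main e

end Cfsg.Agent.S4413
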