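import Cfsg.Statements.S4414
import Cfsg.Agent.H587.OrbitBC

set_option autoImplicit false
open Cfsg

namespace Cfsg.Agent.S4414

/-- Let S be a finite solvable group whose order is divisible only by the primes 2, p, q (p, q distinct odd primes), with a Sylow system S₂, S_p, S_q (pairwise permutable Sylow subgroups) such that: S_p is a minimal normal subgroup of S of order p or p²; S_q has order q and [S_p, S_q] = S_p; and O₂(S) = 1. Let E be an irreducible module for S over the field with two elements on which S_p acts faithfully, and E₀ the subspace of fixed points of S₂. Then either E₀ has at least 8 elements, or E₀ has exactly 4 elements and S_q does not leave E₀ invariant. -/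
theorem result {S : Type*} [Group S] [Finite S]
    [Group.IsSolvable S] (p q : ℕ) (hp : p.Prime) (hq : q.Prime) (hp2 : p ≠ 2) (hq2 : q ≠ 2) (hpq : p ≠ q)
    (hπ : ∀ r : ℕ, r.Prime → r ∣ Nat.card S → r = 2 ∨ r = p ∨ r = q)
    (S₂ : Sylow 2 S) (Sp : Sylow p S) (Sq : Sylow q S)
    (h2q : Nat.card ↥((S₂ : Subgroup S) ⊔ (Sq : Subgroup S)) = Nat.card ↥S₂ * Nat.card ↥Sq)
    (h2p : Nat.card ↥((S₂ : Subgroup S) ⊔ (Sp : Subgroup S)) = Nat.card ↥S₂ * Nat.card ↥Sp)
    (hpq' : Nat.card ↥((Sp : Subgroup S) ⊔ (Sq : Subgroup S)) = Nat.card ↥Sp * Nat.card ↥Sq)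
    (hSpN : (Sp : Subgroup S).Normal) (hSpmin : ∀ N : Subgroup S, N.Normal → N ≤ (Sp : Subgroup S) → N = ⊥ ∨ N = (Sp : Subgroup S))
    (hSpcard : Nat.card ↥Sp = p ∨ Nat.card ↥Sp = p ^ 2)
    (hSq : Nat.card ↥Sq = q) (hcomm : ⁅(Sp : Subgroup S), (Sq : Subgroup S)⁆ = (Sp : Subgroup S))
    (hO2 : Cfsg.pCore 2 S = ⊥)
    {E : Type*} [AddCommGroup E] [Module (ZMod 2) E] [Finite E] (ρ : Representation (ZMod 2) S E) (hE : Nontrivial E)
    (hirr : ∀ N : Submodule (ZMod 2) E, (∀ s : S, ∀ m ∈ N, ρ s m ∈ N) → N = ⊥ ∨ N = ⊤)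
    (hfaith : ∀ x ∈ (Sp : Subgroup S), ρ x = 1 → x = 1) :
    8 ≤ Nat.card {v : E // ∀ s ∈ (S₂ : Subgroup S), ρ s v = v} ∨
      (Nat.card {v : E // ∀ s ∈ (S₂ : Subgroup S), ρ s v = v} = 4 ∧
        ∃ x ∈ (Sq : Subgroup S), ∃ v : E, (∀ s ∈ (S₂ : Subgroup S), ρ s v = v) ∧ ¬ ∀ s ∈ (S₂ : Subgroup S), ρ s (ρ x v) = ρ x v) := by
  have _ := hπ
  have _ := h2q
  have _ := h2p
  have _ := hpq'
  have _ := hSpmin
  have _ := hO2
  have _ := hpq
  have hpf : Fact p.Prime := ⟨hp⟩
  have hqf : Fact q.Prime := ⟨hq⟩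
  have h2f : Fact (2 : ℕ).Prime := ⟨Nat.prime_two⟩
  have hN : (Sp : Subgroup S).Normal := hSpN
  -- `Sp` is commutative
  have hcomm' : ∀ a ∈ (Sp : Subgroup S), ∀ b ∈ (Sp : Subgroup S), a * b = b * a := by
    have h1 : ∀ a b : (Sp : Subgroup S), a * b = b * a := by
      rcases hSpcard with h | h
      · have hcyc : IsCyclic (Sp : Subgroup S) := isCyclic_of_prime_card h
        let _ := hcyc.commGroup
        exact fun a b => mul_comm a b
      · exact IsPGroup.isMulCommutative_of_card_eq_prime_sq h |>.is_comm.comm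
    intro a ha b hb
    exact congrArg Subtype.val (h1 ⟨a, ha⟩ ⟨b, hb⟩)
  have hcard2 : (Nat.card (Sp : Subgroup S) : ZMod 2) ≠ 0 := by
    have h1 : ∃ n, Nat.card (Sp : Subgroup S) = p ^ n := by
      rcases hSpcard with h | h
      · exact ⟨1, by rw [pow_one]; exact h⟩
      · exact ⟨2, h⟩
    obtain ⟨n, hn⟩ := h1
    rw [hn]
    intro h0
    rw [ZMod.natCast_eq_zero_iff] at h0
    exact hp2 ((Nat.prime_dvd_prime_iff_eq Nat.prime_two hp).mp (Nat.prime_two.dvd_of_dvd_pow h0)).symm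
  -- no fixed points
  have hfix : Cfsg.Agent.H587.OrbitWeights.fix ρ (Sp : Subgroup S) = ⊥ := by
    rcases hirr (Cfsg.Agent.H587.OrbitWeights.fix ρ (Sp : Subgroup S)) (by
      intro s m hm t ht
      have h1 : s⁻¹ * t * s ∈ (Sp : Subgroup S) := by
        have := hN.conj_mem t ht s⁻¹
        rwa [inv_inv] at this
      have h2 := hm _ h1
      have h3 : ρ t (ρ s m) = ρ s (ρ (s⁻¹ * t * s) m) := by
        rw [← Module.End.mul_apply, ← Module.End.mul_apply, ← map_mul, ← map_mul]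
        congr 2
        group
      rw [h3, h2]) with h | h
    · exact h
    · exfalso
      have h1 : (Sp : Subgroup S) = ⊥ := by
        rw [Subgroup.eq_bot_iff_forall]
        intro x hx
        apply hfaith x hx
        ext v
        have hv : v ∈ Cfsg.Agent.H587.OrbitWeights.fix ρ (Sp : Subgroup S) := by rw [h]; trivial
        exact hv x hx
      have h2 : Nat.card (Sp : Subgroup S) = 1 := by rw [h1]; exact Subgroup.card_bot
      rcases hSpcard with h3 | h3
      · have h4 : Nat.card (Sp : Subgroup S) = p := h3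
        rw [h2] at h4
        exact hp.one_lt.ne h4
      · have h4 : Nat.card (Sp : Subgroup S) = p ^ 2 := h3
        rw [h2] at h4
        have := Nat.one_lt_pow (two_ne_zero) hp.one_lt
        omega
  obtain ⟨h1, h2⟩ := Cfsg.Agent.H587.OrbitBC.main (ℓ := 2) ρ (Sp : Subgroup S) hcard2 hcomm'
    (S₂ : Subgroup S) S₂.isPGroup' (Sq : Subgroup S) hq2 hSq hcomm hfix
  have hc : Nat.card {v : E // ∀ s ∈ (S₂ : Subgroup S), ρ s v = v} =
      2 ^ Module.finrank (ZMod 2) (Cfsg.Agent.H587.OrbitWeights.fix ρ (S₂ : Subgroup S)) := by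
    have h3 : Nat.card {v : E // ∀ s ∈ (S₂ : Subgroup S), ρ s v = v} =
        Nat.card (Cfsg.Agent.H587.OrbitWeights.fix ρ (S₂ : Subgroup S)) := rfl
    rw [h3]
    have := Fintype.ofFinite (Cfsg.Agent.H587.OrbitWeights.fix ρ (S₂ : Subgroup S))
    rw [Nat.card_eq_fintype_card, Module.card_eq_pow_finrank (K := ZMod 2), ZMod.card]
  rw [hc]
  by_cases h3 : 3 ≤ Module.finrank (ZMod 2) (Cfsg.Agent.H587.OrbitWeights.fix ρ (S₂ : Subgroup S))
  · left
    calc 8 = 2 ^ 3 := by norm_num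
      _ ≤ _ := Nat.pow_le_pow_right (by norm_num) h3
  · right
    have h4 : Module.finrank (ZMod 2) (Cfsg.Agent.H587.OrbitWeights.fix ρ (S₂ : Subgroup S)) = 2 := by
      omega
    refine ⟨by rw [h4]; norm_num, ?_⟩
    by_contra hcon
    have h5 := h2 (by
      intro x hx v hv
      by_contra hn
      exact hcon ⟨x, hx, v, hv, hn⟩)
    rw [h4] at h5
    have := hq.two_le
    omega

end Cfsg.Agent.S4414
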