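import Cfsg.Statements.S4415
import Cfsg.Agent.H587.CubicN

set_option autoImplicit false
open Cfsg
open scoped commutatorElement

namespace Cfsg.Agent.S4415

/-- Let S be a finite solvable group acting faithfully on a finite-dimensional space E over the field with three elements, with O₃(S) = 1. Let B ≤ S have order 3 and suppose: E = E₀ ⊕ E₁ with B fixing E₁ pointwise, E₀ B-invariant of order 27 and indecomposable under B (a generator of B has a single Jordan block on E₀); B normalizes but does not centralize some subgroup Q of S that is elementary abelian of order 4; and B is the centre of a Sylow 3-subgroup of S. Put R = [O_{3'}(S), B]. Then R is elementary abelian of order 4 or extraspecial of order 32 containing an elementary abelian subgroup of order 8 (a central product of two quaternion groups), and E is the direct sum of a subspace fixed pointwise by R and an RB-invariant subspace on which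 the subgroup RB acts faithfully and irreducibly. -/
theorem result {S : Type*} [Group S] [Finite S]
    [Group.IsSolvable S] {E : Type*} [AddCommGroup E] [Module (ZMod 3) E] [Finite E] (ρ : Representation (ZMod 3) S E)
    (hfaith : Function.Injective ρ) (hO3 : Cfsg.pCore 3 S = ⊥)
    (B : Subgroup S) (hB : Nat.card ↥B = 3) (b : S) (hb : Subgroup.zpowers b = B)
    (E₀ E₁ : Submodule (ZMod 3) E) (hE01 : E₀ ⊓ E₁ = ⊥) (hE01' : E₀ ⊔ E₁ = ⊤)
    (hE1 : ∀ v ∈ E₁, ρ b v = v) (hE0inv : ∀ v ∈ E₀, ρ b v ∈ E₀) (hE0 : Nat.card ↥E₀ = 27)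
    (hind : ∃ v ∈ E₀, ρ b (ρ b v - v) - (ρ b v - v) ≠ 0)
    (Q : Subgroup S) (hQ : Cfsg.IsElementaryAbelian 2 Q) (hQ4 : Nat.card ↥Q = 4)
    (hBQ : B ≤ Subgroup.normalizer (Q : Set S)) (hBQ' : ¬ B ≤ Subgroup.centralizer (Q : Set S))
    (P : Sylow 3 S) (hBZ : (Subgroup.center ↥(P : Subgroup S)).map (P : Subgroup S).subtype = B) :
    ((Cfsg.IsElementaryAbelian 2 ⁅Cfsg.pPrimeCore 3 S, B⁆ ∧ Nat.card ↥⁅Cfsg.pPrimeCore 3 S, B⁆ = 4) ∨
      (Cfsg.IsExtraspecial 2 ↥⁅Cfsg.pPrimeCore 3 S, B⁆ ∧ Nat.card ↥⁅Cfsg.pPrimeCore 3 S, B⁆ = 32 ∧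
        ∃ A : Subgroup S, A ≤ ⁅Cfsg.pPrimeCore 3 S, B⁆ ∧ Cfsg.IsElementaryAbelian 2 A ∧ Nat.card ↥A = 8)) ∧
    ∃ F₀ F₁ : Submodule (ZMod 3) E, F₀ ⊓ F₁ = ⊥ ∧ F₀ ⊔ F₁ = ⊤ ∧
      (∀ r ∈ ⁅Cfsg.pPrimeCore 3 S, B⁆, ∀ v ∈ F₁, ρ r v = v) ∧ (∀ r ∈ ⁅Cfsg.pPrimeCore 3 S, B⁆ ⊔ B, ∀ v ∈ F₀, ρ r v ∈ F₀) ∧
      (∀ r ∈ ⁅Cfsg.pPrimeCore 3 S, B⁆ ⊔ B, (∀ v ∈ F₀, ρ r v = v) → r = 1) ∧
      (∀ N : Submodule (ZMod 3) E, N ≤ F₀ → (∀ r ∈ ⁅Cfsg.pPrimeCore 3 S, B⁆ ⊔ B, ∀ v ∈ N, ρ r v ∈ N) → N = ⊥ ∨ N = F₀) := by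
  have f3 : Fact (Nat.Prime 3) := ⟨Nat.prime_three⟩
  have hbB : b ∈ B := by rw [← hb]; exact Subgroup.mem_zpowers b
  have hb3 : b * b * b = 1 := by
    have h1 : orderOf b = 3 := by rw [← Nat.card_zpowers, hb, hB]
    have h2 := pow_orderOf_eq_one b
    rw [h1, pow_succ, pow_two] at h2
    exact h2
  obtain ⟨t, htR, hq⟩ := Cfsg.Agent.H587.Cubic.exists_fg B hB b hb Q hQ hBQ hBQ' P hBZ
  have hKn : (Cfsg.pPrimeCore 3 S).Normal := Cfsg.Agent.Lib.HallHigman.pPrimeCore_normal 3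
  have hKc : (Nat.card (Cfsg.pPrimeCore 3 S)).Coprime 3 := Cfsg.Agent.Lib.HallHigman.pPrimeCore_coprime 3
  have hRK : ⁅Cfsg.pPrimeCore 3 S, B⁆ ≤ Cfsg.pPrimeCore 3 S := Subgroup.commutator_le_left _ _
  have hRR : ⁅⁅Cfsg.pPrimeCore 3 S, B⁆, B⁆ = ⁅Cfsg.pPrimeCore 3 S, B⁆ := by
    apply Cfsg.Agent.Lib.CoprimeCommutator.commutator_commutator_eq
    · rw [Subgroup.normalizer_eq_top_iff.mpr hKn]; exact le_top
    · rw [hB]; exact hKc.symm
  have hBn : B ≤ Subgroup.normalizer ((⁅Cfsg.pPrimeCore 3 S, B⁆ : Subgroup S) : Set S) := by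
    intro x hx
    apply Subgroup.mem_normalizer_fintype
    intro y hy
    have h1 : ⁅Cfsg.pPrimeCore 3 S, B⁆ ≤
        (⁅Cfsg.pPrimeCore 3 S, B⁆).comap (MulAut.conj x).toMonoidHom := by
      rw [Subgroup.commutator_le]
      intro k hk c hc
      show x * ⁅k, c⁆ * x⁻¹ ∈ ⁅Cfsg.pPrimeCore 3 S, B⁆
      have e : x * ⁅k, c⁆ * x⁻¹ = ⁅x * k * x⁻¹, x * c * x⁻¹⁆ := by
        rw [commutatorElement_def, commutatorElement_def]; group
      rw [e]
      exact Subgroup.commutator_mem_commutator (hKn.conj_mem k hk x)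
        (B.mul_mem (B.mul_mem hx hc) (B.inv_mem hx))
    exact h1 hy
  generalize ⁅Cfsg.pPrimeCore 3 S, B⁆ = R at *
  -- the group `R B`
  have hRG : R ≤ R ⊔ B := le_sup_left
  have hBG : B ≤ R ⊔ B := le_sup_right
  let G := (R ⊔ B : Subgroup S)
  let ι : G →* S := (R ⊔ B).subtype
  have hι : Function.Injective ι := Subgroup.subtype_injective _
  let ρ' : Representation (ZMod 3) G E := ρ.comp ι
  let R' : Subgroup G := R.subgroupOf (R ⊔ B)
  let b' : G := ⟨b, hBG hbB⟩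
  have hmapR : R'.map ι = R := Subgroup.map_subgroupOf_eq_of_le hRG
  have hmapb : (Subgroup.zpowers b').map ι = B := by
    rw [MonoidHom.map_zpowers]; exact hb
  have hcardR : Nat.card R' = Nat.card R := Nat.card_congr (Subgroup.subgroupOfEquivOfLe hRG).toEquiv
  have hdd : Cfsg.Agent.H587.Cubic.dd ρ' b' = Cfsg.Agent.H587.Cubic.dd ρ b := rfl
  have hCS : Cfsg.Agent.H587.Cubic.CS ρ' R' b' := by
    refine ⟨?_, ?_, ?_, ?_, ?_, ?_, inferInstance, ?_⟩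
    · intro g hg
      apply hι
      apply hfaith
      rw [map_one, map_one]
      ext v
      exact hg v
    · apply Subgroup.normal_subgroupOf_of_le_normalizer
      exact sup_le Subgroup.le_normalizer hBn
    · exact hι hb3
    · apply Subgroup.map_injective hι
      rw [Subgroup.map_sup, hmapR, hmapb, ← MonoidHom.range_eq_map, Subgroup.range_subtype]
    · apply Subgroup.map_injective hι
      rw [Subgroup.map_commutator, hmapR, hmapb, hRR]
    · rw [hcardR]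
      intro h3
      have h4 : 3 ∣ Nat.card (Cfsg.pPrimeCore 3 S) := h3.trans (Subgroup.card_dvd_of_le hRK)
      have := Nat.Coprime.eq_one_of_dvd hKc.symm h4
      omega
    · rw [hdd]
      exact Cfsg.Agent.H587.Cubic.dim_two ρ b hb3 E₀ E₁ hE01' hE1 hE0inv hE0 hind
  have hq' : Cfsg.Agent.H587.Cubic.FG b' (⟨t, hRG htR⟩ : G) := by
    refine ⟨?_, ?_, ?_⟩
    · intro h1; exact hq.ne (congrArg Subtype.val h1)
    · exact hι hq.sq
    · exact hι hq.prod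
  obtain ⟨hstr, F₀, F₁, h1, h2, h3, h4, h5, h6⟩ := hCS.main hq' (show (⟨t, hRG htR⟩ : G) ∈ R' from htR)
  refine ⟨?_, F₀, F₁, h1, h2, ?_, ?_, ?_, ?_⟩
  · rcases hstr with ⟨h7, h8⟩ | ⟨h7, h8, A, hA1, hA2, hA3⟩
    · left
      refine ⟨⟨⟨⟨?_⟩⟩, ?_⟩, by rw [← hcardR]; exact h8⟩
      · rintro ⟨x, hx⟩ ⟨y, hy⟩
        apply Subtype.ext
        have h9 := h7.1.is_comm.comm (⟨⟨x, hRG hx⟩, hx⟩ : R') ⟨⟨y, hRG hy⟩, hy⟩
        exact congrArg (fun g : R' => ((g : G) : S)) h9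
      · intro x hx
        exact congrArg ι (h7.2 ⟨x, hRG hx⟩ hx)
    · right
      refine ⟨Cfsg.Agent.J2.ExtQuot.isExtraspecial_of_equiv (Subgroup.subgroupOfEquivOfLe hRG) h7,
        by rw [← hcardR]; exact h8, A.map ι, ?_, ⟨⟨⟨?_⟩⟩, ?_⟩, ?_⟩
      · rw [← hmapR]; exact Subgroup.map_mono hA1
      · rintro ⟨_, x, hx, rfl⟩ ⟨_, y, hy, rfl⟩
        apply Subtype.ext
        have h9 := hA2.1.is_comm.comm (⟨x, hx⟩ : A) ⟨y, hy⟩
        exact congrArg (fun g : A => ι (g : G)) h9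
      · rintro _ ⟨x, hx, rfl⟩
        rw [← map_pow, hA2.2 x hx, map_one]
      · rw [← hA3]
        exact (Nat.card_congr (Subgroup.equivMapOfInjective A ι hι).toEquiv).symm
  · intro r hr v hv
    exact h3 ⟨r, hRG hr⟩ v hv
  · intro r hr v hv
    exact h4 ⟨r, hr⟩ v hv
  · intro r hr hv
    exact congrArg ι (h5 ⟨r, hr⟩ hv)
  · intro N hN hinv
    exact h6 N hN (fun g v hv => hinv g g.2 v hv)

end Cfsg.Agent.S4415
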