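import Cfsg.Statements.S4488
import Cfsg.Agent.Lib.SchurBound

set_option autoImplicit false
open Cfsg

namespace Cfsg.Agent.S4488

open Cfsg.Agent.Characters.GaloisBasic

theorem apply_one_eq {G : Type*} [Group G] [Finite G] {χ : G → ℂ} (hχ : Cfsg.IsCharacter G χ) {n : ℕ}
    (hn : Cfsg.charDegree χ = n) : χ 1 = n := by
  obtain ⟨d, μ, hd, -, -⟩ := isCharacter_exists_fin_pow hχ 1 one_ne_zero (by simp)
  have h : Cfsg.charDegree χ = d := by
    unfold Cfsg.charDegree
    rw [hd]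
    simp
  rw [hd, ← hn, h]

/-- A ring automorphism fixing an `r`-th root of unity fixes the field it generates. -/
theorem fix_adjoin {z : ℂ} (σ : ℂ ≃+* ℂ) (hz : σ z = z) {x : ℂ}
    (hx : x ∈ IntermediateField.adjoin ℚ ({z} : Set ℂ)) : σ x = x := by
  let f : ℂ →ₐ[ℚ] ℂ :=
    { (σ : ℂ →+* ℂ) with
      commutes' := fun q => by
        show σ (algebraMap ℚ ℂ q) = algebraMap ℚ ℂ q
        simp }
  have h1 : IntermediateField.adjoin ℚ ({z} : Set ℂ) ≤
      (AlgHom.equalizer f (AlgHom.id ℚ ℂ)).toIntermediateField (by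
        intro x hx
        rw [AlgHom.mem_equalizer] at hx ⊢
        rw [map_inv₀, map_inv₀, hx]) := by
    rw [IntermediateField.adjoin_le_iff]
    intro y hy
    rw [Set.mem_singleton_iff] at hy
    subst hy
    exact hz
  exact h1 hx

theorem rat_of_pElement {G : Type*} [Group G] [Finite G] {p : ℕ} (hp : p.Prime) {χ : G → ℂ}
    (hχ : Cfsg.IsCharacter G χ) {r : ℕ} (hr : 0 < r) (hpr : ¬ p ∣ r)
    (hrat : ∀ g : G, χ g ∈ IntermediateField.adjoin ℚ
      ({Complex.exp (2 * Real.pi * Complex.I / r)} : Set ℂ))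
    {g : G} {k : ℕ} (hg : g ^ p ^ k = 1) : ∃ a : ℚ, χ g = a := by
  apply exists_rat_of_forall_ringEquiv
  · exact (isIntegral_apply hχ g).tower_top
  · intro σ
    have hpk : p ^ k ≠ 0 := pow_ne_zero _ hp.ne_zero
    obtain ⟨m, hm, hσ⟩ := exists_coprime_pow (σ : ℂ →+* ℂ) hpk
    have h1 : (σ : ℂ →+* ℂ) (χ g) = χ (g ^ m) := map_apply (σ : ℂ →+* ℂ) hσ hχ hpk hg
    have hcop : (p ^ k).Coprime r := Nat.Coprime.pow_left _ ((Nat.Prime.coprime_iff_not_dvd hp).2 hpr)
    obtain ⟨m', hm'1, hm'2⟩ := Nat.chineseRemainder hcop m 1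
    have hm'c : m'.Coprime (p ^ k * r) := by
      apply Nat.Coprime.mul_right
      · have := hm'1.gcd_eq
        rw [Nat.Coprime, this]
        exact hm
      · have := hm'2.gcd_eq
        rw [Nat.Coprime, this, Nat.gcd_one_left]
    have hne : p ^ k * r ≠ 0 := mul_ne_zero hpk hr.ne'
    obtain ⟨τ, hτ⟩ := exists_ringEquiv_pow hne hm'c
    have hg' : g ^ (p ^ k * r) = 1 := by rw [pow_mul, hg, one_pow]
    have h2 : (τ : ℂ →+* ℂ) (χ g) = χ (g ^ m') := map_apply (τ : ℂ →+* ℂ) hτ hχ hne hg'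
    have h3 : g ^ m' = g ^ m := by
      have hd : orderOf g ∣ p ^ k := orderOf_dvd_of_pow_eq_one hg
      exact pow_eq_pow_iff_modEq.2 (hm'1.of_dvd hd)
    have hprim := Complex.isPrimitiveRoot_exp r hr.ne'
    have h4 : τ (Complex.exp (2 * Real.pi * Complex.I / r)) =
        Complex.exp (2 * Real.pi * Complex.I / r) := by
      rw [hτ _ (by rw [mul_comm (p ^ k) r, pow_mul, hprim.pow_eq_one, one_pow])]
      have h5 : (Complex.exp (2 * Real.pi * Complex.I / r)) ^ m' =
          (Complex.exp (2 * Real.pi * Complex.I / r)) ^ 1 := by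
        rw [pow_eq_pow_mod m' hprim.pow_eq_one, pow_eq_pow_mod 1 hprim.pow_eq_one]
        exact congrArg _ hm'2
      rw [h5, pow_one]
    have h5 := fix_adjoin τ h4 (hrat g)
    have h6 : χ g = χ (g ^ m') := by
      rw [← h2]
      exact h5.symm
    show σ (χ g) = χ g
    have h7 : σ (χ g) = χ (g ^ m) := h1
    rw [h7, ← h3, ← h6]

/-- Let the finite group G have a faithful p-rational character χ of degree n (all values of χ lie in the field generated over ℚ by a root of unity of order prime to p), and let p^a be the order of a Sylow p-subgroup of G. Then a ≤ Σ_{i ≥ 0} ⌊n / ((p − 1)·p^i)⌋ (a finite sum; the terms vanish once (p − 1)p^i > n). -/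
theorem result {G : Type*} [Group G] [Finite G] (p : ℕ) (hp : p.Prime) (χ : G → ℂ) (hχ : Cfsg.IsCharacter G χ) (hfaith : ∀ g : G, χ g = χ 1 → g = 1) (hrat : (∃ r : ℕ, 0 < r ∧ ¬ p ∣ r ∧ ∀ g : G, χ g ∈ IntermediateField.adjoin ℚ ({Complex.exp (2 * Real.pi * Complex.I / r)} : Set ℂ))) (n : ℕ) (hn : Cfsg.charDegree χ = n) : (Nat.card G).factorization p ≤ ∑ i ∈ Finset.range (n + 1), n / ((p - 1) * p ^ i) := by
  obtain ⟨r, hr, hpr, hrat⟩ := hrat
  have : Fact p.Prime := ⟨hp⟩
  have hχ1 : χ 1 = n := apply_one_eq hχ hn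
  have h := Cfsg.Agent.Lib.SchurBound.pow_factorization_dvd hp hχ
    (fun g hg => by
      obtain ⟨k, hk⟩ := hg
      exact rat_of_pElement hp hχ hr hpr hrat hk)
    (fun g _ hg => hfaith g hg) hχ1
  set b := n / (p - 1) with hb
  have hb0 : p ^ b * b.factorial ≠ 0 := mul_ne_zero (pow_ne_zero _ hp.ne_zero) b.factorial_ne_zero
  have h1 : (Nat.card G).factorization p ≤ padicValNat p (p ^ b * b.factorial) :=
    (padicValNat_dvd_iff_le hb0).1 h
  rw [padicValNat.mul (pow_ne_zero _ hp.ne_zero) b.factorial_ne_zero, padicValNat.prime_pow] at h1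
  have hbn : b ≤ n := Nat.div_le_self _ _
  have hlog : Nat.log p b < n + 1 := lt_of_le_of_lt ((Nat.log_le_self p b).trans hbn) (Nat.lt_succ_self n)
  rw [padicValNat_factorial hlog] at h1
  have h2 : ∑ i ∈ Finset.range (n + 1), n / ((p - 1) * p ^ i) = b + ∑ i ∈ Finset.Ico 1 (n + 1), b / p ^ i := by
    rw [Finset.range_eq_Ico, Finset.sum_eq_sum_Ico_succ_bot (Nat.succ_pos n)]
    congr 1
    · rw [pow_zero, mul_one]
    · refine Finset.sum_congr rfl fun i _ => ?_
      rw [hb, Nat.div_div_eq_div_mul]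
  rw [h2]
  exact h1

end Cfsg.Agent.S4488
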