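import Cfsg.Statements.S4514
import Cfsg.Agent.H609.HzCore
import Cfsg.Agent.H609.HzPSL

set_option autoImplicit false
open Cfsg

namespace Cfsg.Agent.S4514

open Cfsg.Agent.Blocks Cfsg.Agent.Blocks.Basic Cfsg.Agent.Blocks.Local Cfsg.Agent.H609.Hz

/-- Reduction modulo `O(G)`. -/
theorem hyp_iff {G : Type*} [Group G] [Finite G] {M : Ideal Cfsg.AlgInt} (hM : Cfsg.IsPModular 2 M) (u : G)
    (k : ℂ) : HypK M u k ↔ HypK M (QuotientGroup.mk u : G ⧸ Cfsg.oddCore G) k := by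
  have hMp := isPrime_of_isPModular hM
  have hN2 : ¬ 2 ∣ Nat.card (Cfsg.oddCore G) := by
    have h1 := Lib.Cores.pPrimeCore_coprime (G := G) 2
    exact (Nat.Prime.coprime_iff_not_dvd Nat.prime_two).1 h1.symm
  have hsurj : Function.Surjective (QuotientGroup.mk' (Cfsg.oddCore G)) := QuotientGroup.mk'_surjective _
  constructor
  · intro h θ hθ hθ1
    let χ : IrrCharacter G := ⟨(θ : G ⧸ Cfsg.oddCore G → ℂ) ∘ QuotientGroup.mk' (Cfsg.oddCore G),
      Characters.Core.isIrr_comp _ hsurj θ.2⟩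
    have h1 : χ ∈ principalBlock M G := S0941.sameBlock_inflate (Cfsg.oddCore G) hθ
    have h2 : χ ≠ triv G := by
      intro h3
      apply hθ1
      apply Subtype.ext
      funext x
      obtain ⟨g, rfl⟩ := hsurj x
      exact congrFun (congrArg Subtype.val h3) g
    have h3 := h χ h1 h2
    change (θ : G ⧸ Cfsg.oddCore G → ℂ) (QuotientGroup.mk' (Cfsg.oddCore G) 1) - _ = k at h3
    rw [map_one] at h3
    exact h3
  · intro h χ hχ hχ1
    obtain ⟨θ, hθ, hχθ⟩ := PrincipalInflate.exists_comp hM hsurj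
      (by rw [QuotientGroup.ker_mk']; exact hN2) hχ
    have h2 : θ ≠ triv _ := by
      intro h3
      apply hχ1
      apply Subtype.ext
      rw [hχθ, h3]
      rfl
    have h3 := h θ hθ h2
    rw [hχθ]
    change (θ : G ⧸ Cfsg.oddCore G → ℂ) (QuotientGroup.mk' (Cfsg.oddCore G) 1) - _ = k
    rw [map_one]
    exact h3

/-- Let G be a finite group, u an element of G, and fix a maximal ideal M of the algebraic integers containing 2 (defining the 2-blocks). There is a complex number k with χ(1) − χ(u) = k for every non-principal irreducible character χ in the principal 2-block if and only if one of the following holds: u lies in O(G); or G/O(G) has order 2 and u ∉ O(G); or G/O(G) ≅ PSL(2, 2ⁿ) for some n ≥ 2, u ∉ O(G) and u² ∈ O(G). -/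
theorem result {G : Type*} [Group G] [Finite G] (M : Ideal Cfsg.AlgInt) (hM : Cfsg.IsPModular 2 M) (u : G) :
    (∃ k : ℂ, ∀ χ : Cfsg.IrrCharacter G, χ ∈ Cfsg.principalBlock M G → (χ : G → ℂ) ≠ (fun _ => 1) →
        (χ : G → ℂ) 1 - (χ : G → ℂ) u = k) ↔
      (u ∈ Cfsg.oddCore G ∨ (Nat.card (G ⧸ Cfsg.oddCore G) = 2 ∧ u ∉ Cfsg.oddCore G) ∨
        (∃ (F : Type) (_ : Field F) (_ : Fintype F) (n : ℕ), 2 ≤ n ∧ Fintype.card F = 2 ^ n ∧
          Nonempty (G ⧸ Cfsg.oddCore G ≃* Matrix.ProjectiveSpecialLinearGroup (Fin 2) F) ∧ u ∉ Cfsg.oddCore G ∧ u ^ 2 ∈ Cfsg.oddCore G)) := by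
  have hMp := isPrime_of_isPModular hM
  have hN2 : ¬ 2 ∣ Nat.card (Cfsg.oddCore G) := by
    have h1 := Lib.Cores.pPrimeCore_coprime (G := G) 2
    exact (Nat.Prime.coprime_iff_not_dvd Nat.prime_two).1 h1.symm
  have hiff : (∃ k : ℂ, ∀ χ : Cfsg.IrrCharacter G, χ ∈ Cfsg.principalBlock M G →
      (χ : G → ℂ) ≠ (fun _ => 1) → (χ : G → ℂ) 1 - (χ : G → ℂ) u = k) ↔
      ∃ k : ℂ, HypK M (QuotientGroup.mk u : G ⧸ Cfsg.oddCore G) k := by
    refine exists_congr fun k => ?_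
    rw [← hyp_iff hM u k]
    exact forall_congr' fun χ => forall_congr' fun _ => by rw [← ne_triv_iff]
  have hmk1 : (QuotientGroup.mk u : G ⧸ Cfsg.oddCore G) = 1 ↔ u ∈ Cfsg.oddCore G :=
    QuotientGroup.eq_one_iff u
  have hmk2 : (QuotientGroup.mk u : G ⧸ Cfsg.oddCore G) ^ 2 = 1 ↔ u ^ 2 ∈ Cfsg.oddCore G := by
    rw [← QuotientGroup.mk_pow]
    exact QuotientGroup.eq_one_iff _
  rw [hiff]
  constructor
  · rintro ⟨k, hk⟩
    by_cases hu : u ∈ Cfsg.oddCore G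
    · exact Or.inl hu
    · right
      have h1 : (QuotientGroup.mk u : G ⧸ Cfsg.oddCore G) ≠ 1 := fun h => hu (hmk1.1 h)
      rcases core hM hk (Lib.Cores.pPrimeCore_quotient_pPrimeCore 2) h1 with h | ⟨h, h2⟩
      · exact Or.inl ⟨h, hu⟩
      · obtain ⟨F, i1, i2, n, hn, hF, he⟩ := h
        exact Or.inr ⟨F, i1, i2, n, hn, hF, he, hu, hmk2.1 h2⟩
  · rintro (hu | ⟨h2, hu⟩ | ⟨F, i1, i2, n, hn, hF, ⟨e⟩, hu, hu2⟩)
    · refine ⟨0, fun χ _ _ => ?_⟩
      rw [hmk1.2 hu, sub_self]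
    · refine ⟨2, fun χ _ hχ1 => two_apply h2 (fun h => hu (hmk1.1 h)) χ hχ1⟩
    · refine ⟨((2 ^ n : ℕ) : ℂ), fun χ _ hχ1 => ?_⟩
      refine psl_apply hn hF e (fun h => hu (hmk1.1 h)) ?_ χ hχ1
      rw [← pow_two]
      exact hmk2.2 hu2

end Cfsg.Agent.S4514
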