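import Cfsg.Statements.S4523
import Cfsg.Agent.Walter.StepAll
import Cfsg.Agent.H611.AbelEven

set_option autoImplicit false
open Cfsg

namespace Cfsg.Agent.S4523

open Cfsg.Agent.H611.EvenFixed

/-- Let S be a non-abelian finite simple group with commutative Sylow 2-subgroups and M a maximal ideal of the algebraic integers containing 2. Let k be a natural number with g ^ k = g for every 2-element g and g ^ k = g⁻¹ for every element g of odd order. Then S has an irreducible character χ₁ of even degree with χ₁ (g ^ k) = χ₁ g for all g, and its principal 2-block contains a character χ₂ other than the principal character with χ₂ (g ^ k) = χ₂ g for all g. -/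
theorem result {S : Type*} [Group S] [Finite S] [IsSimpleGroup S] (hna : ¬ IsMulCommutative S) (P : Sylow 2 S) (hP : IsMulCommutative P) (M : Ideal Cfsg.AlgInt) (hM : Cfsg.IsPModular 2 M) (k : ℕ) (hk₁ : ∀ g : S, (∃ j : ℕ, orderOf g = 2 ^ j) → g ^ k = g) (hk₂ : ∀ g : S, Odd (orderOf g) → g ^ k = g⁻¹) : (∃ χ₁ : Cfsg.IrrCharacter S, Even (Cfsg.charDegree (χ₁ : S → ℂ)) ∧ ∀ g : S, (χ₁ : S → ℂ) (g ^ k) = (χ₁ : S → ℂ) g) ∧ ∃ χ₂ ∈ Cfsg.principalBlock M S, (χ₂ : S → ℂ) ≠ (fun _ => 1) ∧ ∀ g : S, (χ₂ : S → ℂ) (g ^ k) = (χ₂ : S → ℂ) g := by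
  have h : Twist S k := ⟨hk₁, hk₂⟩
  obtain ⟨χ, hχ, hχk⟩ := Cfsg.Agent.H611.AbelEven.exists_even Cfsg.Agent.Walter.StepAll.step
    Cfsg.Agent.Walter.Final.centThm hna P hP h
  refine ⟨⟨χ, hχ, hχk⟩, ?_⟩
  obtain ⟨ψ, h1, h2, h3⟩ := exists_odd_fixed h (Cfsg.Agent.H611.AbelEven.two_dvd_card hχ)
  exact ⟨ψ, mem_principalBlock_of_fixed hM h ψ h3 h2, h1, h3⟩

end Cfsg.Agent.S4523
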