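import Cfsg.Statements.S4532
import Cfsg.Agent.H644.KGV.Final
import Cfsg.Agent.H475.KGV.Apps

set_option autoImplicit false
open Cfsg

namespace Cfsg.Agent.S4532

/-- Let G be a finite p-solvable group and B a p-block of G (relative to a maximal ideal M of the algebraic integers containing p) with a nontrivial defect group D all of whose sections have p-rank at most r. Then the p-regular rank of B (the number of irreducible Brauer characters in B) is less than p ^ r. -/
theorem result {G : Type*} [Group G] [Finite G] (p : ℕ) [Fact p.Prime] (hsolv : Cfsg.IsPSolvable p G) (M : Ideal Cfsg.AlgInt) (hM : Cfsg.IsPModular p M) (B : Set (Cfsg.IrrCharacter G)) (hB : Cfsg.IsPBlock M B) (D : Subgroup G) (hD : Cfsg.IsDefectGroup p M B D) (hD1 : D ≠ ⊥) (r : ℕ) (hr : Cfsg.SectionalPRankLE p r D) : Cfsg.blockRank p B < p ^ r := by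
  exact Cfsg.Agent.H475.KGV.s4532 Cfsg.Agent.H644.KGV.mainKGV p hsolv M hM B hB D hD hD1 r hr

end Cfsg.Agent.S4532
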