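import Cfsg.Statements.S4533
import Cfsg.Agent.H644.KGV.Final
import Cfsg.Agent.H475.KGV.Apps

set_option autoImplicit false
open Cfsg

namespace Cfsg.Agent.S4533

/-- Let X be a nontrivial finite p-solvable group whose largest normal subgroup of order prime to p is trivial, and suppose every section of its largest normal p-subgroup has p-rank at most r. Then every subgroup of X of order prime to p and index a power of p (a Hall p'-subgroup) has fewer than p ^ r conjugacy classes, and X has fewer than p ^ r conjugacy classes of elements of order prime to p. -/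
theorem result {X : Type*} [Group X] [Finite X] [Nontrivial X] (p : ℕ) [Fact p.Prime] (hsolv : Cfsg.IsPSolvable p X) (hcore : Cfsg.pPrimeCore p X = ⊥) (r : ℕ) (hr : Cfsg.SectionalPRankLE p r ↥(Cfsg.pCore p X)) : (∀ T : Subgroup X, (Nat.card T).Coprime p → (∃ m : ℕ, T.index = p ^ m) → Nat.card (ConjClasses T) < p ^ r) ∧ Nat.card {C : ConjClasses X // ∃ g : X, ConjClasses.mk g = C ∧ ¬ p ∣ orderOf g} < p ^ r := by
  exact Cfsg.Agent.H475.KGV.s4533 Cfsg.Agent.H644.KGV.mainKGV p hsolv hcore r hr

end Cfsg.Agent.S4533
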