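import Cfsg.Statements.S4539
import Cfsg.Agent.H616.MajorTwoMain
import Cfsg.Agent.H658.Major

set_option autoImplicit false
open Cfsg

namespace Cfsg.Agent.S4539

/-- Let B be a p-block of the finite group G (relative to a maximal ideal M of the algebraic integers containing p) of defect d with defect group D. Let z be an element of D commuting with every element of D, and let b be a block of the centralizer C of z with defect group D that induces B (a major subsection (z, b)). If b has p-regular rank at most two, then B contains at most p ^ d irreducible characters. -/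
theorem result {G : Type*} [Group G] [Finite G] (p : ℕ) [Fact p.Prime] (M : Ideal Cfsg.AlgInt) (hM : Cfsg.IsPModular p M) (B : Set (Cfsg.IrrCharacter G)) (hB : Cfsg.IsPBlock M B) (D : Subgroup G) (hD : Cfsg.IsDefectGroup p M B D) (z : G) (hzD : z ∈ D) (hzc : ∀ d ∈ D, d * z = z * d) (b : Set (Cfsg.IrrCharacter ↥(Subgroup.centralizer ({z} : Set G)))) (hb : Cfsg.IsInducedBlock M (Subgroup.centralizer ({z} : Set G)) b B) (hbD : Cfsg.IsDefectGroup p M b (D.subgroupOf (Subgroup.centralizer ({z} : Set G)))) (hl : Cfsg.blockRank p b ≤ 2) : Nat.card B ≤ p ^ Cfsg.blockDefect p B := by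
  have := Fintype.ofFinite G
  have hDp : IsPGroup p D := Cfsg.Agent.Blocks.Basic.isPGroup_of_isDefectGroup hD
  have hu : ∃ k : ℕ, orderOf z = p ^ k := by
    obtain ⟨k, hk⟩ := IsPGroup.iff_orderOf.1 hDp ⟨z, hzD⟩
    exact ⟨k, by rw [← hk, Subgroup.orderOf_mk]⟩
  have hle : D ≤ Subgroup.centralizer ({z} : Set G) := by
    intro w hw
    rw [Subgroup.mem_centralizer_singleton_iff]
    exact hzc w hw
  have h1 := Cfsg.Agent.S0908.result p M hM B hB D hD
  have h2 := Cfsg.Agent.S0908.result p M hM b hb.1 _ hbD
  have h3 : Nat.card (D.subgroupOf (Subgroup.centralizer ({z} : Set G))) = Nat.card D :=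
    Nat.card_congr (Subgroup.subgroupOfEquivOfLe hle).toEquiv
  rw [h3, h1] at h2
  have hd : Cfsg.blockDefect p b = Cfsg.blockDefect p B :=
    (Nat.pow_right_injective (Fact.out : p.Prime).two_le h2).symm
  exact Cfsg.Agent.H616.card_le_of_rank_le_two hM hu rfl hb hd hl

end Cfsg.Agent.S4539
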