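import Cfsg.Statements.S4545
import Cfsg.Agent.H617.OlssonMain
import Cfsg.Agent.H809.OddAct

set_option autoImplicit false
open Cfsg

namespace Cfsg.Agent.S4545

/-- Let B be a 2-block of the finite group G (relative to a maximal ideal M of the algebraic integers containing 2) whose defect group D has order at most 32. Then the number of members of B of height zero is at most the index of the commutator subgroup of D in D (Olsson's bound holds for B). -/
theorem result {G : Type*} [Group G] [Finite G] (M : Ideal Cfsg.AlgInt) (hM : Cfsg.IsPModular 2 M) (B : Set (Cfsg.IrrCharacter G)) (hB : Cfsg.IsPBlock M B) (D : Subgroup G) (hD : Cfsg.IsDefectGroup 2 M B D) (hcard : Nat.card D ≤ 32) : Nat.card {χ : Cfsg.IrrCharacter G // χ ∈ B ∧ Cfsg.blockHeight 2 B (χ : G → ℂ) = 0} ≤ (commutator ↥D).index := by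
  refine Cfsg.Agent.H617.OlssonMain.main ?_ hM hB hD hcard
  intro V _ _ hV hc A hA
  exact Cfsg.Agent.H809.OddAct.exists_good hV hc A hA

end Cfsg.Agent.S4545
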