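import Cfsg.Statements.S4561
import Cfsg.Agent.H621.CentralType

set_option autoImplicit false
universe u
open Cfsg

namespace Cfsg.Agent.S4561

/-- For every finite solvable group G there is a finite group H with a faithful irreducible character χ whose degree squared equals the index of the centre Z(H) (so χ is fully ramified over the centre), such that G is isomorphic to a subgroup of H/Z(H), the primes dividing the orders of H, of Z(H) and of G are the same, and the order of Z(H) is squarefree. -/
theorem result {G : Type u} [Group G] [Finite G] (hsolv : Group.IsSolvable G) : ∃ (H : Type u) (_ : Group H) (_ : Finite H) (χ : Cfsg.IrrCharacter H), (∀ h : H, (χ : H → ℂ) h = (χ : H → ℂ) 1 → h = 1) ∧ (Cfsg.charDegree (χ : H → ℂ)) ^ 2 = (Subgroup.center H).index ∧ (∃ f : G →* H ⧸ Subgroup.center H, Function.Injective f) ∧ (∀ p : ℕ, p.Prime → ((p ∣ Nat.card H ↔ p ∣ Nat.card G) ∧ (p ∣ Nat.card (Subgroup.center H) ↔ p ∣ Nat.card G))) ∧ Squarefree (Nat.card (Subgroup.center H)) :=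
  Cfsg.Agent.H621.main hsolv

end Cfsg.Agent.S4561
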