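import Cfsg.Statements.S4563
import Cfsg.Agent.H622.Ind

set_option autoImplicit false
open Cfsg

namespace Cfsg.Agent.S4563

/-- Let χ be an irreducible character of the finite group H that is fully ramified over the normal subgroup Z: the restriction of χ to Z is e times an irreducible character of Z with e ^ 2 equal to the index of Z. If K is a proper normal subgroup of H containing Z and χ is induced from a character of K, then H/K is solvable; in particular, if K is solvable then so is H. -/
theorem result {H : Type*} [Group H] [Fintype H] (Z : Subgroup H) [Z.Normal] (χ : Cfsg.IrrCharacter H) (hfr : ∃ (θ : Cfsg.IrrCharacter ↥Z) (e : ℕ), e ^ 2 = Z.index ∧ ∀ z : ↥Z, (χ : H → ℂ) z = (e : ℂ) * (θ : ↥Z → ℂ) z) (K : Subgroup H) [K.Normal] [Fintype K] (hZK : Z ≤ K) (hK : K ≠ ⊤) (φ : ↥K → ℂ) (hφ : Cfsg.IsCharacter ↥K φ) (hind : Cfsg.indFun K φ = (χ : H → ℂ)) : Group.IsSolvable (H ⧸ K) ∧ (Group.IsSolvable ↥K → Group.IsSolvable H) := by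
  obtain ⟨θ, e, he, h⟩ := hfr
  have h1 : Group.IsSolvable (H ⧸ K) :=
    H622.Ind.isSolvable_quotient Z θ.2 (H622.Cyc.fullRam_of Z χ.2 he h) K hZK φ hφ hind
  refine ⟨h1, fun h2 => ?_⟩
  exact solvable_of_ker_le_range K.subtype (QuotientGroup.mk' K) (by simp)

end Cfsg.Agent.S4563
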