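import Cfsg.Statements.S4565
import Cfsg.Agent.H622.SelfCent

set_option autoImplicit false
open Cfsg

namespace Cfsg.Agent.S4565

/-- Let χ be an irreducible character of the finite group H that is fully ramified over the normal subgroup Z: the restriction of χ to Z is e times an irreducible character of Z with e ^ 2 equal to the index of Z. If Z ≠ H, then H/Z has no cyclic subgroup that is its own centralizer. -/
theorem result {H : Type*} [Group H] [Finite H] (Z : Subgroup H) [Z.Normal] (χ : Cfsg.IrrCharacter H) (hfr : ∃ (θ : Cfsg.IrrCharacter ↥Z) (e : ℕ), e ^ 2 = Z.index ∧ ∀ z : ↥Z, (χ : H → ℂ) z = (e : ℂ) * (θ : ↥Z → ℂ) z) (hZ : Z ≠ ⊤) (C : Subgroup (H ⧸ Z)) (hC : IsCyclic C) : Subgroup.centralizer (C : Set (H ⧸ Z)) ≠ C := by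
  obtain ⟨θ, e, he, h⟩ := hfr
  exact H622.SelfCent.centralizer_ne Z θ.2 (H622.Cyc.fullRam_of Z χ.2 he h) hZ C hC

end Cfsg.Agent.S4565
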