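import Cfsg.Statements.S4567
import Cfsg.Agent.H622.Over

set_option autoImplicit false
open Cfsg

namespace Cfsg.Agent.S4567

/-- Let N be a central subgroup of the finite group G and ψ a faithful irreducible (hence degree-one) character of N. Call a coset g N special when every x ∈ G whose commutator x⁻¹ g⁻¹ x g lies in N actually commutes with g (this depends only on the coset). Then the number of irreducible characters of G whose restriction to N contains ψ equals the number of conjugacy classes of G/N consisting of special cosets. -/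
theorem result {G : Type*} [Group G] [Fintype G] (N : Subgroup G) [N.Normal] [Fintype N] (hN : N ≤ Subgroup.center G) (ψ : Cfsg.IrrCharacter ↥N) (hfaith : ∀ n : ↥N, (ψ : ↥N → ℂ) n = (ψ : ↥N → ℂ) 1 → n = 1) : Nat.card {χ : Cfsg.IrrCharacter G // Cfsg.classInner (fun n : ↥N => (χ : G → ℂ) n) (ψ : ↥N → ℂ) ≠ 0} = Nat.card {C : ConjClasses (G ⧸ N) // ∃ g : G, ConjClasses.mk (g : G ⧸ N) = C ∧ ∀ x : G, x⁻¹ * g⁻¹ * x * g ∈ N → x * g = g * x} := by
  obtain ⟨c, hc⟩ := H622.Over.exists_hom_of_central hN ψ.2
  rw [hc] at hfaith ⊢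
  have h1 : Nat.card {χ : Cfsg.IrrCharacter G // Cfsg.classInner (fun n : ↥N => (χ : G → ℂ) n)
      (fun n : N => (c n : ℂ)) ≠ 0} =
      Nat.card {χ : Cfsg.IrrCharacter G // H622.Over.Lies N c (χ : G → ℂ)} :=
    Nat.card_congr (Equiv.subtypeEquivRight fun χ =>
      (H622.Over.lies_iff_classInner hN c χ.2).symm)
  rw [h1, H622.Over.card_over hN c, H622.Over.card_good hN c]
  have key : ∀ g : G, H622.Over.Good N c g ↔ ∀ x : G, x⁻¹ * g⁻¹ * x * g ∈ N → x * g = g * x := by
    intro g
    constructor
    · intro h x hx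
      have h2 := h x hx
      have h3 := hfaith ⟨_, hx⟩ (by beta_reduce; rw [h2, map_one])
      have h4 : x⁻¹ * g⁻¹ * x * g = 1 := congrArg Subtype.val h3
      calc x * g = g * x * (x⁻¹ * g⁻¹ * x * g) := by group
        _ = g * x := by rw [h4, mul_one]
    · intro h x hx
      have h2 : x⁻¹ * g⁻¹ * x * g = 1 := by
        rw [mul_assoc, h x hx]
        group
      have h3 : (⟨_, hx⟩ : N) = 1 := Subtype.ext h2
      rw [h3, map_one]
  simp only [key]

end Cfsg.Agent.S4567
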