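import Cfsg.Statements.S4569
-- import your own Cfsg.Agent.* helpers here
import Cfsg.Agent.H590.Sixteen
import Cfsg.Agent.Walter.StepAll

set_option autoImplicit false
open Cfsg

namespace Cfsg.Agent.S4569

/-- Let G be a finite group whose Sylow 2-subgroup P is elementary abelian of order 16, suppose the centralizer of P has index 9 in its normalizer, and let M be a maximal ideal of the algebraic integers containing 2. Then the principal 2-block contains exactly 16 irreducible characters and has 2-regular rank 9. -/
theorem result {G : Type*} [Group G] [Finite G] (M : Ideal Cfsg.AlgInt) (hM : Cfsg.IsPModular 2 M) (P : Sylow 2 G) (hcard : Nat.card P = 16) (hel : ∀ x : P, x ^ 2 = 1) (he : (Subgroup.centralizer ((P : Subgroup G) : Set G)).relIndex (Subgroup.normalizer ((P : Subgroup G) : Set G)) = 9) : Nat.card (Cfsg.principalBlock M G) = 16 ∧ Cfsg.blockRank 2 (Cfsg.principalBlock M G) = 9 := by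
  have hP : ∀ x ∈ (P : Subgroup G), x * x = 1 := by
    intro x hx
    have h1 := hel ⟨x, hx⟩
    rw [pow_two] at h1
    exact congrArg Subtype.val h1
  exact Cfsg.Agent.H590.Sixteen.main hM Cfsg.Agent.Walter.StepAll.step P hcard hP
    (by rw [Cfsg.Agent.H590.StLink.card_aut]; exact he)

end Cfsg.Agent.S4569
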