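import Cfsg.Statements.S4580
-- import your own Cfsg.Agent.* helpers here
import Cfsg.Agent.H625.Real
import Cfsg.Agent.Characters.Linear
import Cfsg.Agent.CharactersDeep.CosetAverage
import Cfsg.Agent.CharactersDeep.ExtUnique

set_option autoImplicit false
open Cfsg

namespace Cfsg.Agent.S4580

open Cfsg.Agent.Blocks.Local Cfsg.Agent.Blocks.Basic Cfsg.Agent.H625.Real
open scoped ComplexConjugate

/-- Roots of unity of `p`-power order are congruent to `1`. -/
theorem memLocalIdeal_one_sub {p : ℕ} {M : Ideal Cfsg.AlgInt} [M.IsPrime]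
    (hM : Cfsg.IsPModular p M) {z : ℂ} {k : ℕ} (hz : z ^ p ^ k = 1) :
    Cfsg.MemLocalIdeal M (1 - z) := by
  have hp : Fact p.Prime := ⟨hM.1⟩
  have hchar : CharP (ResField M) p := charP_resField hM
  have hzR : Cfsg.MemLocalRing M z := by
    refine memLocalRing_of_isIntegral (IsIntegral.of_pow (n := p ^ k) (pow_pos hp.out.pos k) ?_)
    rw [hz]; exact isIntegral_one
  have h1 : redC M z ^ p ^ k = 1 := by rw [← redC_pow hzR, hz, redC_one]
  have h2 : (redC M z - 1) ^ p ^ k = 0 := by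
    rw [sub_pow_char_pow, h1, one_pow, sub_self]
  have h3 : redC M z - 1 = 0 := by
    have : IsDomain (ResField M) := inferInstance
    exact pow_eq_zero_iff (pow_pos hp.out.pos k).ne' |>.1 h2
  rw [← redC_eq_zero_iff (memLocalRing_sub memLocalRing_one hzR),
    redC_sub memLocalRing_one hzR, redC_one, ← neg_sub, h3, neg_zero]

/-- Let N be a normal subgroup of the finite group G, M a maximal ideal of the algebraic integers containing 2, and θ a real-valued irreducible character of N of odd degree that extends to G (some irreducible character of G restricts to θ). Then θ has an extension to G lying in the principal 2-block of G. -/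
theorem result {G : Type*} [Group G] [Finite G] (N : Subgroup G) [N.Normal] (M : Ideal Cfsg.AlgInt) (hM : Cfsg.IsPModular 2 M) (θ : Cfsg.IrrCharacter N) (hreal : ∀ n : N, ((θ : N → ℂ) n).im = 0) (hodd : Odd (Cfsg.charDegree (θ : N → ℂ))) (hext : ∃ η : Cfsg.IrrCharacter G, ∀ n : N, (η : G → ℂ) n = (θ : N → ℂ) n) :
    ∃ η : Cfsg.IrrCharacter G, (∀ n : N, (η : G → ℂ) n = (θ : N → ℂ) n) ∧ η ∈ Cfsg.principalBlock M G := by
  classical
  have hMp : M.IsPrime := isPrime_of_isPModular hM
  have := Fintype.ofFinite G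
  have := Fintype.ofFinite N
  obtain ⟨η, hη⟩ := hext
  -- the conjugate of `η` also extends `θ`
  have hψN : (fun n : N => (conjI η : G → ℂ) n) = (θ : N → ℂ) := by
    funext n
    rw [conjI_apply, hη n]
    exact Complex.conj_eq_iff_im.2 (hreal n)
  have hηN : (fun n : N => (η : G → ℂ) n) = (θ : N → ℂ) := funext hη
  obtain ⟨β, hβ, hβN, hβ'⟩ := Cfsg.Agent.CharactersDeep.CosetAverage.exists_irr_mul N
    (η : G → ℂ) η.2 (by rw [hηN]; exact θ.2) (conjI η : G → ℂ) (conjI η).2 (by
      rw [hψN, hηN, Cfsg.Agent.Characters.Core.classInner_irr_self θ.2]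
      exact one_ne_zero)
  have hη1 : (η : G → ℂ) 1 ≠ 0 := irr_one_ne_zero η.2
  have hβ1 : β 1 = 1 := by
    have h := congrFun hβ' 1
    rw [conjI_apply_one, Pi.mul_apply] at h
    exact mul_left_cancel₀ hη1 (by rw [← h, mul_one])
  obtain ⟨f, hf⟩ := Cfsg.Agent.Characters.Linear.exists_hom_of_isIrrCharacter hβ hβ1
  have hfN : ∀ n : N, (f (n : G) : ℂ) = 1 := by
    intro n
    have h := hβN n 1
    rw [mul_one, hβ1, hf] at h
    exact h
  have hconj : ∀ g, conj ((η : G → ℂ) g) = (η : G → ℂ) g * (f g : ℂ) := by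
    intro g
    have h := congrFun hβ' g
    rw [conjI_apply, Pi.mul_apply, hf] at h
    exact h
  -- split the order of `f`
  have hcard : Nat.card G ≠ 0 := Nat.card_pos.ne'
  set k := (Nat.card G).factorization 2 with hk
  set r := Nat.card G / 2 ^ k with hr
  have hmr : 2 ^ k * r = Nat.card G := Nat.ordProj_mul_ordCompl_eq_self _ 2
  have hrodd : Odd r := by
    rw [← Nat.not_even_iff_odd, even_iff_two_dvd]
    exact Nat.not_dvd_ordCompl Nat.prime_two hcard
  obtain ⟨c, hc⟩ := hrodd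
  have hnorm : ∀ g, conj ((f g : ℂˣ) : ℂ) = ((f g : ℂˣ) : ℂ)⁻¹ := by
    intro g
    have h1 : (((f g : ℂˣ) : ℂ)) ^ Nat.card G = 1 := by
      rw [← Units.val_pow_eq_pow_val, ← map_pow, pow_card_eq_one', map_one, Units.val_one]
    have h2 : ‖((f g : ℂˣ) : ℂ)‖ = 1 := Complex.norm_eq_one_of_pow_eq_one h1 hcard
    rw [Complex.inv_def, Complex.normSq_eq_norm_sq, h2]
    simp
  -- the twisted extension
  let μ : G →* ℂˣ := f ^ (c + 1)
  have hμ : ∀ g, ((μ g : ℂˣ) : ℂ) = ((f g : ℂˣ) : ℂ) ^ (c + 1) := fun g => by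
    simp only [μ, MonoidHom.pow_apply, Units.val_pow_eq_pow_val]
  let η' : Cfsg.IrrCharacter G := ⟨fun g => (η : G → ℂ) g * ((μ g : ℂˣ) : ℂ),
    Cfsg.Agent.CharactersDeep.ExtUnique.isIrr_mul_hom η.2 μ⟩
  have hη' : ∀ g, (η' : G → ℂ) g = (η : G → ℂ) g * ((f g : ℂˣ) : ℂ) ^ (c + 1) := fun g => by
    rw [← hμ]
  have hη'1 : (η' : G → ℂ) 1 = (η : G → ℂ) 1 := by
    rw [hη', map_one, Units.val_one, one_pow, mul_one]
  have hηdeg : (η : G → ℂ) 1 = (θ : N → ℂ) 1 := hη 1
  refine ⟨η', fun n => ?_, ?_⟩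
  · rw [hη', hfN, one_pow, mul_one]
    exact hη n
  · refine mem_principalBlock_of_sameBlock_conj hM η' ?_ ?_
    · have : Cfsg.charDegree (η' : G → ℂ) = Cfsg.charDegree (θ : N → ℂ) := by
        rw [charDegree_def, charDegree_def, hη'1, hηdeg]
      rw [this]
      exact hodd
    · intro g
      have hfg : ((f g : ℂˣ) : ℂ) ≠ 0 := (f g).ne_zero
      set w := ((f g : ℂˣ) : ℂ) with hw
      have h1 : conj ((η' : G → ℂ) g) = (η' : G → ℂ) g * (w ^ r)⁻¹ := by
        rw [hη', map_mul, map_pow, hconj, hnorm, ← hw, hc, inv_pow]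
        have e : w * (w ^ (c + 1))⁻¹ = w ^ (c + 1) * (w ^ (2 * c + 1))⁻¹ := by
          rw [← div_eq_mul_inv, ← div_eq_mul_inv, div_eq_div_iff (pow_ne_zero _ hfg)
            (pow_ne_zero _ hfg)]
          ring
        rw [mul_assoc, e, ← mul_assoc]
      have hwpow : ((w ^ r)⁻¹) ^ 2 ^ k = 1 := by
        rw [inv_pow, ← pow_mul, mul_comm r, hmr, hw, ← Units.val_pow_eq_pow_val, ← map_pow,
          pow_card_eq_one', map_one, Units.val_one, inv_one]
      rw [centralChar_def, centralChar_def, conjI_apply_one, conjI_apply, h1]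
      have h2 : ((Subgroup.centralizer ({g} : Set G)).index : ℂ) * (η' : G → ℂ) g /
            (η' : G → ℂ) 1 -
          ((Subgroup.centralizer ({g} : Set G)).index : ℂ) * ((η' : G → ℂ) g * (w ^ r)⁻¹) /
            (η' : G → ℂ) 1 =
          Cfsg.centralChar (η' : G → ℂ) g * (1 - (w ^ r)⁻¹) := by
        rw [centralChar_def]
        ring
      rw [h2]
      exact memLocalIdeal_mul_left
        (memLocalRing_of_isIntegral (Cfsg.Agent.Blocks.Central.isIntegral_centralChar η'.2 g))
        (memLocalIdeal_one_sub hM hwpow)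

end Cfsg.Agent.S4580
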