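import Cfsg.Statements.S4581
import Cfsg.Agent.H626.RealOddE

set_option autoImplicit false
open Cfsg

namespace Cfsg.Agent.S4581

/-- Let G be a finite solvable group, P a Sylow 2-subgroup and N its normalizer. Then G and N have the same number of real-valued irreducible characters of odd degree; and every odd-degree irreducible character of G is real-valued exactly when the derived subgroup of P equals the Frattini subgroup of P and P is its own normalizer in G. -/
theorem result {G : Type*} [Group G] [Finite G] [Group.IsSolvable G] (P : Sylow 2 G) :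
    Nat.card {χ : Cfsg.IrrCharacter G // (∀ g : G, ((χ : G → ℂ) g).im = 0) ∧ Odd (Cfsg.charDegree (χ : G → ℂ))} =
      Nat.card {ψ : Cfsg.IrrCharacter (Subgroup.normalizer ((P : Subgroup G) : Set G)) // (∀ g, ((ψ : Subgroup.normalizer ((P : Subgroup G) : Set G) → ℂ) g).im = 0) ∧ Odd (Cfsg.charDegree (ψ : Subgroup.normalizer ((P : Subgroup G) : Set G) → ℂ))} ∧
    ((∀ χ : Cfsg.IrrCharacter G, Odd (Cfsg.charDegree (χ : G → ℂ)) → ∀ g : G, ((χ : G → ℂ) g).im = 0) ↔
      (commutator (P : Subgroup G) = frattini (P : Subgroup G) ∧ Subgroup.normalizer ((P : Subgroup G) : Set G) = (P : Subgroup G))) := by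
  have : Fact (Nat.Prime 2) := ⟨Nat.prime_two⟩
  have hP : IsPGroup 2 (P : Subgroup G) := P.2
  have hodd : Odd (P : Subgroup G).index := by
    rw [← Nat.not_even_iff_odd, even_iff_two_dvd]
    exact P.not_dvd_index
  constructor
  · rw [H626.card_eq_card_RO, H626.card_eq_card_RO]
    exact H626.card_RO_normalizer (P : Subgroup G) hP hodd
  · rw [← H626.allReal_iff (P : Subgroup G) hP hodd]
    constructor
    · intro h χ hχ hχo g
      obtain ⟨n, hn, hn'⟩ := hχo
      exact Complex.conj_eq_iff_im.2 (h ⟨χ, hχ⟩ (by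
        change Odd (charDegree χ)
        rwa [H626.charDegree_eq hn']) g)
    · intro h χ hχo g
      obtain ⟨n, -, hn⟩ := Cfsg.Agent.Characters.Core.isIrr_apply_one χ.2
      rw [H626.charDegree_eq hn] at hχo
      exact Complex.conj_eq_iff_im.1 (h (χ : G → ℂ) χ.2 ⟨n, hχo, hn⟩ g)

end Cfsg.Agent.S4581
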