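-- Proof of statement S4587 (row 4587; chr3_abelianization_p_sq_iff_p_element_with_centralizer_p_part_p_sq).
import Cfsg.Statements.S4587
import Cfsg.Agent.H627.TateMinimal

set_option autoImplicit false
open Cfsg

namespace Cfsg.Agent.S4587

open Cfsg.Agent.H627 Cfsg.Agent.Lib.MinNormal

/-- Let G be a finite group, p a prime and P a Sylow p-subgroup of order at least p². Assume that G has no nontrivial normal subgroup of order prime to p, that the derived subgroup P' of P contains no nontrivial normal subgroup of G, and that G is not almost simple (there is no non-abelian simple normal subgroup of G with trivial centralizer). Then [P : P'] = p² if and only if some p-element x of G has centralizer whose order has p-part exactly p². -/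
theorem result {G : Type*} [Group G] [Finite G] (p : ℕ) [Fact p.Prime] (P : Sylow p G) (hbig : p ^ 2 ∣ Nat.card G) (hcore : Cfsg.pPrimeCore p G = ⊥)
    (hcore' : (⁅(P : Subgroup G), (P : Subgroup G)⁆).normalCore = ⊥) (hnas : ¬ ∃ S : Subgroup G, S.Normal ∧ IsSimpleGroup S ∧ ¬ IsMulCommutative S ∧ Subgroup.centralizer (S : Set G) = ⊥) :
    (⁅(P : Subgroup G), (P : Subgroup G)⁆).relIndex (P : Subgroup G) = p ^ 2 ↔
      ∃ x : G, (∃ k : ℕ, orderOf x = p ^ k) ∧ (Nat.card (Subgroup.centralizer ({x} : Set G))).factorization p = 2 := by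
  have hp : p.Prime := Fact.out
  have hrel : (⁅(P : Subgroup G), (P : Subgroup G)⁆).relIndex (P : Subgroup G) =
      (commutator (P : Subgroup G)).index := by
    rw [← TateIndex.commutator_map_subtype]
    show ((commutator (P : Subgroup G)).map (P : Subgroup G).subtype).relIndex (P : Subgroup G) = _
    rw [Subgroup.relIndex, Subgroup.subgroupOf,
      Subgroup.comap_map_eq_self_of_injective (P : Subgroup G).subtype_injective]
  rw [hrel]
  constructor
  · intro hidx
    have hPc : Nat.card (P : Subgroup G) = p ^ (Nat.card G).factorization p :=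
      P.card_eq_multiplicity
    have h2 : 2 ≤ (Nat.card G).factorization p :=
      (hp.pow_dvd_iff_le_factorization Nat.card_pos.ne').1 hbig
    rcases h2.eq_or_lt with h3 | h3
    · refine ⟨1, ⟨0, by simp⟩, ?_⟩
      have h4 : Subgroup.centralizer ({(1 : G)} : Set G) = ⊤ := by
        rw [eq_top_iff]
        intro x _
        rw [Subgroup.mem_centralizer_singleton_iff]
        simp
      rw [h4, Subgroup.card_top]
      exact h3.symm
    · have hbig' : p ^ 2 < Nat.card (P : Subgroup G) := by
        rw [hPc]
        exact Nat.pow_lt_pow_right hp.one_lt h3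
      have hG : (⊤ : Subgroup G) ≠ ⊥ := by
        intro h
        have h4 : Nat.card G = 1 := by
          rw [← Subgroup.card_top, h, Subgroup.card_bot]
        rw [h4, Nat.dvd_one] at hbig
        have := hp.one_lt
        nlinarith
      obtain ⟨N, hN, hN0, hmin⟩ : ∃ N : Subgroup G, N.Normal ∧ N ≠ ⊥ ∧
          ∀ M : Subgroup G, M.Normal → M ≤ N → M = ⊥ ∨ M = N := by
        obtain ⟨N, -, hN0, hNn, hmin⟩ :
            ∃ T ≤ (⊤ : Subgroup G), T ≠ ⊥ ∧ ⊤ ≤ Subgroup.normalizer (T : Set G) ∧
            ∀ S ≤ T, (⊤ : Subgroup G) ≤ Subgroup.normalizer (S : Set G) → S = ⊥ ∨ S = T :=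
          exists_minimal_normal_le ⊤ hG
        refine ⟨N, ?_, hN0, fun M hM hMN => hmin M hMN ?_⟩
        · exact Subgroup.normalizer_eq_top_iff.1 (top_le_iff.1 hNn)
        · rw [Subgroup.normalizer_eq_top]
      have key : (∀ a ∈ N ⊓ (P : Subgroup G), ∀ b ∈ N ⊓ (P : Subgroup G), a * b = b * a) ∧
          (N.subgroupOf (P : Subgroup G)).index = p := by
        by_cases hab : ∀ x ∈ N, ∀ y ∈ N, Commute x y
        · exact TateMinimal.abelian_case P hcore hcore' hidx hbig' N hN0 hab
        · exact TateMinimal.nonabelian_case P hcore hcore' hnas hidx hbig' N hN0 hmin hab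
      exact TateIndex.exists_elt P N key.1 key.2 hidx
  · rintro ⟨x, hx, hc⟩
    exact TateIndex.index_eq_of_exists P hbig x hx hc

end Cfsg.Agent.S4587
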