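import Cfsg.Statements.S4589
import Cfsg.Agent.H625.OrdSq
import Cfsg.Agent.H437.Cases
import Cfsg.Agent.S3722
import Cfsg.Agent.S3723

set_option autoImplicit false
open Cfsg

namespace Cfsg.Agent.S4589

open Cfsg.Agent.H625.OrdSq
open Cfsg.Agent.H437 hiding sporList spor_mem

/-- the order of the Tits group or of a sporadic group is in the list -/
theorem spor_mem {T : Type*} [Group T] (h : Lie.IsoTits T ∨ IsSporadicGroup T) : Nat.card T ∈ sporList := by
  rcases h with h | h
  · rw [NotCT.Orders.tits h]; simp [sporList]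
  · rcases h with h | h | h | h | h | h | h | h | h | h | h | h | h | h | h | h | h | h | h | h | h | h | h | h | h | h
    · rw [NotCT.Orders.m11 h]; simp [sporList]
    · rw [NotCT.Orders.m12 h]; simp [sporList]
    · rw [NotCT.Orders.m22 h]; simp [sporList]
    · rw [NotCT.Orders.m23 h]; simp [sporList]
    · rw [NotCT.Orders.m24 h]; simp [sporList]
    · rw [NotCT.Orders.j1 h]; simp [sporList]
    · rw [NotCT.Orders.j2 h]; simp [sporList]
    · rw [NotCT.Orders.j3 h]; simp [sporList]
    · rw [NotCT.Orders.j4 h]; simp [sporList]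
    · rw [NotCT.Orders.co1 h]; simp [sporList]
    · rw [NotCT.Orders.co2 h]; simp [sporList]
    · rw [NotCT.Orders.co3 h]; simp [sporList]
    · rw [NotCT.Orders.mcl h]; simp [sporList]
    · rw [NotCT.Orders.hs h]; simp [sporList]
    · rw [NotCT.Orders.suz h]; simp [sporList]
    · rw [NotCT.Orders.he h]; simp [sporList]
    · rw [NotCT.Orders.ru h]; simp [sporList]
    · rw [NotCT.Orders.on h]; simp [sporList]
    · rw [NotCT.Orders.ly h]; simp [sporList]
    · rw [NotCT.Orders.fi22 h]; simp [sporList]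
    · rw [NotCT.Orders.fi23 h]; simp [sporList]
    · rw [NotCT.Orders.fi24 h]; simp [sporList]
    · rw [NotCT.Orders.hn h]; simp [sporList]
    · rw [NotCT.Orders.th h]; simp [sporList]
    · rw [NotCT.Orders.b h]; simp [sporList]
    · rw [NotCT.Orders.m h]; simp [sporList]

/-- no finite simple group has order `p²(p² - 1)y`, `p² + 1 = 2y²`. -/
theorem no_simple {T : Type*} [Group T] [Finite T] [IsSimpleGroup T] {p y : ℕ} (hn : Nsw p y (Nat.card T)) : False := by
  rcases cases T with h | ⟨n, hn5, ⟨e⟩⟩ | ⟨T', r, f, h⟩ | h | h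
  · have h1 : p * p ∣ Nat.card T := by
      rw [hn.card, pow_two]
      exact dvd_mul_right _ _
    have h2 : p ∣ Nat.card T := dvd_trans (dvd_mul_right _ _) h1
    rcases (Nat.dvd_prime h).1 h2 with h3 | h3
    · exact hn.prime.one_lt.ne' h3
    · rw [← h3] at h1
      have := Nat.le_of_dvd hn.prime.pos h1
      have := hn.p_ge
      nlinarith
  · exact alt_false hn (two_mul_card_alt (by omega) e)
  · exact lie_false hn h.isOrd
  · exact spor_false hn (spor_mem (.inl h))
  · exact spor_false hn (spor_mem (.inr h))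

theorem nsw_of_sq {S : Type*} [Group S] [Finite S] [IsSimpleGroup S] {N : ℕ} (h : Nat.card S = N ^ 2) :
    ∃ p y, Nsw p y N := by
  obtain ⟨F, _, _, p, y, hp, hy, hF, ⟨e⟩⟩ := S3723.result.1 ⟨N, h⟩
  refine ⟨p, y, hp, hy, ?_⟩
  have h1 := card_psp hF (m := 2) (by norm_num)
  rw [← Nat.card_congr e.toEquiv, h] at h1
  simp only [LT.dd, LT.expo, LT.cof] at h1
  have hodd : Odd p := by
    rcases hp.eq_two_or_odd' with rfl | h2
    · omega
    · exact h2
  rw [gcd_two_odd hodd, Finset.prod_range_succ, Finset.prod_range_one] at h1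
  norm_num at h1
  have h10 : p ^ 4 - 1 = (p ^ 2 - 1) * (p ^ 2 + 1) := by
    obtain ⟨k, hk⟩ : ∃ k, p ^ 2 = k + 1 := Nat.exists_eq_add_of_le' (Nat.one_le_pow _ _ hp.pos)
    have h4 : p ^ 4 = (p ^ 2) ^ 2 := by ring
    rw [h4, hk]
    have : (k + 1) ^ 2 = k * (k + 1 + 1) + 1 := by ring
    rw [this]
    simp
  rw [h10, hy] at h1
  have h2 : (p ^ 2 * ((p ^ 2 - 1) * y)) ^ 2 = N ^ 2 := by
    have h3 : 2 * (p ^ 2 * ((p ^ 2 - 1) * y)) ^ 2 = 2 * N ^ 2 := by
      rw [h1]; ring
    omega
  exact (Nat.pow_left_injective (n := 2) (by norm_num) h2).symm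

/-- Let S and T be finite simple groups and s, t positive integers with #S ^ s = #T ^ t. Then s = t (and hence S and T have the same order). -/
theorem result {S T : Type*} [Group S] [Finite S] [IsSimpleGroup S] [Group T] [Finite T] [IsSimpleGroup T] (s t : ℕ) (hs : 0 < s) (ht : 0 < t) (h : Nat.card S ^ s = Nat.card T ^ t) : s = t := by
  obtain ⟨N, h1, h2⟩ := Nat.exists_eq_pow_of_pow_eq_pow (Or.inl hs.ne') h
  have hs' : s / Nat.gcd s t < 3 := by
    by_contra hlt
    exact S3722.result N _ (not_lt.1 hlt) h2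
  have ht' : t / Nat.gcd s t < 3 := by
    by_contra hlt
    exact S3722.result N _ (not_lt.1 hlt) h1
  have hg : 0 < Nat.gcd s t := Nat.gcd_pos_of_pos_left _ hs
  have hsp : 0 < s / Nat.gcd s t := Nat.div_pos (Nat.gcd_le_left _ hs) hg
  have htp : 0 < t / Nat.gcd s t := Nat.div_pos (Nat.gcd_le_right _ ht) hg
  have hs1 : s / Nat.gcd s t * Nat.gcd s t = s := Nat.div_mul_cancel (Nat.gcd_dvd_left _ _)
  have ht1 : t / Nat.gcd s t * Nat.gcd s t = t := Nat.div_mul_cancel (Nat.gcd_dvd_right _ _)
  have hcop : Nat.Coprime (s / Nat.gcd s t) (t / Nat.gcd s t) := Nat.coprime_div_gcd_div_gcd hg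
  generalize s / Nat.gcd s t = a at *
  generalize t / Nat.gcd s t = b at *
  interval_cases a <;> interval_cases b
  · exact hs1.symm.trans ht1
  · exfalso
    rw [pow_one] at h2
    obtain ⟨p, y, hn⟩ := nsw_of_sq h1
    rw [← h2] at hn
    exact no_simple hn
  · exfalso
    rw [pow_one] at h1
    obtain ⟨p, y, hn⟩ := nsw_of_sq h2
    rw [← h1] at hn
    exact no_simple hn
  · exact absurd hcop (by norm_num)

end Cfsg.Agent.S4589
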