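import Cfsg.Statements.S4590
import Cfsg.Agent.H436.Simple
import Cfsg.Agent.H794.SocleCount
import Cfsg.Agent.H794.AEight
import Cfsg.Agent.H794.LThreeFourIdx
import Cfsg.Agent.H794.Ord20160
import Cfsg.Agent.CTwoTab.Exc

set_option autoImplicit false
open Cfsg

namespace Cfsg.Agent.S4590

open Subgroup Cfsg.Agent.H794.SocleCount

/-- A minimal normal subgroup of order divisible by 2 and 3 is not commutative. -/
theorem nonab {G : Type*} [Group G] [Finite G] (N : Subgroup G) [hN : N.Normal]
    (hmin : ∀ K : Subgroup G, K.Normal → K ≤ N → K = ⊥ ∨ K = N) (h2 : 2 ∣ Nat.card N) (h3 : 3 ∣ Nat.card N) :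
    ¬ ∀ x ∈ N, ∀ y ∈ N, Commute x y := by
  intro hc
  let K : Subgroup G :=
    { carrier := {x | x ∈ N ∧ x ^ 2 = 1}
      mul_mem' := by
        rintro x y ⟨hx, hx2⟩ ⟨hy, hy2⟩
        exact ⟨mul_mem hx hy, by rw [(hc x hx y hy).mul_pow, hx2, hy2, one_mul]⟩
      one_mem' := ⟨one_mem _, one_pow 2⟩
      inv_mem' := by
        rintro x ⟨hx, hx2⟩
        exact ⟨inv_mem hx, by rw [inv_pow, hx2, inv_one]⟩ }
  have hK : K.Normal := by
    constructor
    rintro x ⟨hx, hx2⟩ g
    refine ⟨hN.conj_mem x hx g, ?_⟩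
    rw [conj_pow, hx2, mul_one, mul_inv_cancel]
  obtain ⟨x, hx⟩ := exists_prime_orderOf_dvd_card' 2 h2
  obtain ⟨y, hy⟩ := exists_prime_orderOf_dvd_card' 3 h3
  rcases hmin K hK (fun z hz => hz.1) with h | h
  · have h1 : (x : G) ∈ K := ⟨x.2, by
      have := pow_orderOf_eq_one x
      rw [hx] at this
      exact congrArg Subtype.val this⟩
    rw [h, mem_bot] at h1
    have h4 : x = 1 := Subtype.ext h1
    rw [h4, orderOf_one] at hx
    omega
  · have h1 : (y : G) ∈ K := by rw [h]; exact y.2
    have h4 : y ^ 2 = 1 := Subtype.ext h1.2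
    have h5 := orderOf_dvd_of_pow_eq_one h4
    rw [hy] at h5
    omega

/-- The order and the number of the factors. -/
theorem card_factor {m k t : ℕ} (hm : 0 < m) (h : t ^ m = 20160 ^ k) (ht : 1 < t) :
    ∃ c : ℕ, c ≠ 0 ∧ t = 20160 ^ c ∧ k = m * c := by
  have h1 := congrArg (fun n => n.factorization 5) h
  simp only [Nat.factorization_pow, Finsupp.smul_apply, smul_eq_mul] at h1
  have h2 : (20160 : ℕ).factorization 5 = 1 := by
    have h3 : (20160 : ℕ) = 5 ^ 1 * 4032 := by norm_num
    rw [h3, Nat.factorization_mul (by norm_num) (by norm_num), Finsupp.add_apply,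
      Nat.Prime.factorization_pow Nat.prime_five, Finsupp.single_eq_same,
      Nat.factorization_eq_zero_of_not_dvd (by norm_num)]
  rw [h2, mul_one] at h1
  refine ⟨t.factorization 5, ?_, ?_, h1.symm⟩
  · intro h0
    rw [h0, mul_zero] at h1
    rw [← h1, pow_zero] at h
    have := Nat.one_lt_pow hm.ne' ht
    omega
  · rw [← h1, mul_comm m, pow_mul] at h
    exact Nat.pow_left_injective hm.ne' h

/-- Let N be a minimal normal subgroup of the finite group G with #N = 20160^k for some k ≥ 1 (20160 is the order of the alternating group on 8 letters and of another simple group). Then N is isomorphic to the direct product of k copies of the alternating group on 8 letters if and only if N contains a 2-element whose conjugacy class in G has exactly 105·k elements. -/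
theorem result {G : Type*} [Group G] [Finite G] (N : Subgroup G) [N.Normal] (hmin : N ≠ ⊥ ∧ ∀ K : Subgroup G, K.Normal → K ≤ N → K = ⊥ ∨ K = N) (k : ℕ) (hk : 1 ≤ k) (hcard : Nat.card N = 20160 ^ k) :
    Nonempty (N ≃* (Fin k → alternatingGroup (Fin 8))) ↔
      ∃ x : G, x ∈ N ∧ (∃ j : ℕ, orderOf x = 2 ^ j) ∧ (Subgroup.centralizer ({x} : Set G)).index = 105 * k := by
  have hna := nonab N hmin.2 (by rw [hcard]; exact dvd_pow (by norm_num) (by omega))
    (by rw [hcard]; exact dvd_pow (by norm_num) (by omega))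
  obtain ⟨m, T, e, H⟩ := exists_coord N hmin.2 hna
  have hm := H.pos
  set i₀ : Fin m := ⟨0, hm⟩ with hi₀
  have hconj : ∀ i, Nonempty (T i₀ ≃* T i) := by
    intro i
    obtain ⟨g, hg⟩ := H.trans i₀ i
    rw [hg]
    exact ⟨(T i₀).equivMapOfInjective _ (MulAut.conj g).injective⟩
  have hTc : ∀ i, Nat.card (T i) = Nat.card (T i₀) := fun i =>
    (Nat.card_congr (hconj i).some.toEquiv).symm
  have hN : Nat.card (T i₀) ^ m = 20160 ^ k := by
    rw [← hcard, Nat.card_congr e.toEquiv, Nat.card_pi]
    simp [hTc]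
  have hs := H.simple i₀
  have h1t : 1 < Nat.card (T i₀) := Finite.one_lt_card_iff_nontrivial.2 hs.toNontrivial
  obtain ⟨c, hc0, hc, hkm⟩ := card_factor hm hN h1t
  have hnc : ¬ IsMulCommutative (T i₀) := by
    rintro ⟨⟨h⟩⟩
    obtain ⟨a, b, hab⟩ := H.nc i₀
    exact hab (h a b)
  obtain ⟨g, hg⟩ := Cfsg.Agent.H436.name hnc
  have hcase := Cfsg.Agent.H794.Ord20160.core hg hc0 hc
  have hcA : Nat.card (alternatingGroup (Fin 8)) = 20160 := by
    have := nat_card_alternatingGroup (α := Fin 8)
    rw [this, Nat.card_eq_fintype_card, Fintype.card_fin]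
    decide
  have h20160 : Nat.card (T i₀) = 20160 := by
    rcases hcase with ⟨⟨f⟩⟩ | ⟨F, _, _, hF, ⟨f⟩⟩
    · rw [Nat.card_congr f.toEquiv, hcA]
    · rw [Nat.card_congr f.toEquiv, Cfsg.Agent.CTwoTab.card_PSL_three F hF]
  have hc1 : c = 1 := by
    rw [h20160] at hc
    have h5 : (20160 : ℕ) ^ 1 = 20160 ^ c := by rw [pow_one]; exact hc
    exact (Nat.pow_right_injective (by norm_num : 2 ≤ 20160) h5).symm
  rw [hc1, mul_one] at hkm
  subst hkm
  constructor
  · rintro ⟨f⟩
    -- `T i₀` is isomorphic to the alternating group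
    obtain ⟨a⟩ : Nonempty (T i₀ ≃* alternatingGroup (Fin 8)) := by
      obtain ⟨x, hx⟩ := exists_ne (1 : T i₀)
      let φ : T i₀ →* (Fin k → alternatingGroup (Fin 8)) := f.toMonoidHom.comp (Subgroup.inclusion (H.le i₀))
      have hφ : φ x ≠ 1 := by
        intro h
        apply hx
        have h2 : f (Subgroup.inclusion (H.le i₀) x) = 1 := h
        have h3 : Subgroup.inclusion (H.le i₀) x = 1 := f.injective (by rw [h2, map_one])
        exact Subgroup.inclusion_injective (H.le i₀) (by rw [h3, map_one])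
      obtain ⟨j, hj⟩ : ∃ j, φ x j ≠ 1 := by
        by_contra hno
        push Not at hno
        exact hφ (funext hno)
      let ψ : T i₀ →* alternatingGroup (Fin 8) := (Pi.evalMonoidHom _ j).comp φ
      have hψ : Function.Injective ψ := by
        rw [← MonoidHom.ker_eq_bot_iff]
        rcases hs.eq_bot_or_eq_top_of_normal ψ.ker inferInstance with h | h
        · exact h
        · exfalso
          have : x ∈ ψ.ker := by rw [h]; exact mem_top x
          exact hj (MonoidHom.mem_ker.1 this)
      have hbij : Function.Bijective ψ :=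
        (Nat.bijective_iff_injective_and_card ψ).2 ⟨hψ, by rw [h20160, hcA]⟩
      exact ⟨MulEquiv.ofBijective ψ hbij⟩
    have hbig : ∀ i, Cfsg.Agent.H794.AEight.Big (T i) := fun i =>
      Cfsg.Agent.H794.AEight.big_alt.congr (a.symm.trans (hconj i).some)
    obtain ⟨x, hx2, hxi⟩ := (hbig i₀).1
    refine ⟨x, H.le i₀ x.2, ⟨1, ?_⟩, ?_⟩
    · rw [Subgroup.orderOf_coe, hx2, pow_one]
    · refine card_class_single H
        (fun i t => orderOf t = 2 ∧ (centralizer ({t} : Set (T i))).index = 105) 105 ?_ ?_ ?_ ?_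
        (i₀ := i₀) (x := x) ⟨hx2, hxi⟩
      · intro i
        obtain ⟨y, hy2, hyi⟩ := (hbig i).1
        refine Eq.trans ?_ ((Cfsg.Agent.Lib.ModFour.card_isConj y).trans hyi)
        refine Nat.card_congr (Equiv.subtypeEquivRight fun t => ⟨fun ht => ?_, fun ht => ?_⟩)
        · exact (hbig i).2 y t hy2 hyi ht.1 ht.2
        · obtain ⟨u, rfl⟩ := isConj_iff.1 ht
          have h5 := Cfsg.Agent.H794.AEight.index_centralizer_congr (MulAut.conj u) y
          rw [MulAut.conj_apply] at h5
          refine ⟨?_, h5.trans hyi⟩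
          have h6 := MulEquiv.orderOf_eq (MulAut.conj u) y
          rw [MulAut.conj_apply] at h6
          rw [h6, hy2]
      · rintro i t ⟨ht, -⟩ h
        have : t = 1 := Subtype.ext h
        rw [this, orderOf_one] at ht
        omega
      · intro g i j t s hst
        by_cases ht1 : (t : G) = 1
        · have hs1 : (s : G) = 1 := by rw [hst, ht1]; group
          have ht' : t = 1 := Subtype.ext ht1
          have hs' : s = 1 := Subtype.ext hs1
          subst ht'
          subst hs'
          simp only [orderOf_one]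
          constructor <;> rintro ⟨h, -⟩ <;> omega
        · obtain ⟨j', hj'⟩ := H.conj g i
          have hmem : (s : G) ∈ T j' := by
            rw [hj', hst]
            exact ⟨t, t.2, rfl⟩
          have hs1 : (s : G) ≠ 1 := by
            intro h
            apply ht1
            rw [hst] at h
            have : g⁻¹ * (g * (t : G) * g⁻¹) * g = g⁻¹ * 1 * g := by rw [h]
            simpa [mul_assoc] using this
          have hjj : j = j' := H.disj s.2 hmem hs1
          subst hjj
          let q : T i ≃* T j := ((T i).equivMapOfInjective _ (MulAut.conj g).injective).trans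
            (MulEquiv.subgroupCongr hj'.symm)
          have hq : q t = s := Subtype.ext (by rw [hst]; rfl)
          rw [← hq, Cfsg.Agent.H794.AEight.index_centralizer_congr q t, MulEquiv.orderOf_eq]
      · rintro i s t ⟨hs2, hsi⟩ ⟨ht2, hti⟩
        exact (hbig i).2 s t hs2 hsi ht2 hti
  · rintro ⟨x, hxN, ⟨j, hj⟩, hidx⟩
    rcases hcase with ⟨⟨f⟩⟩ | ⟨F, _, _, hF, ⟨f⟩⟩
    · exact ⟨e.trans (MulEquiv.piCongrRight fun i => (hconj i).some.symm.trans f)⟩
    · exfalso
      have hx1 : x ≠ 1 := by
        rintro rfl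
        have h1 : centralizer ({(1 : G)} : Set G) = ⊤ := by
          rw [eq_top_iff]
          intro y _
          rw [mem_centralizer_singleton_iff, mul_one, one_mul]
        rw [h1, index_top] at hidx
        omega
      have hQ1 : ∀ g y : G, (∃ j : ℕ, orderOf y = 2 ^ j) → ∃ j : ℕ, orderOf (g * y * g⁻¹) = 2 ^ j := by
        rintro g y ⟨j, hj⟩
        refine ⟨j, ?_⟩
        have h6 := MulEquiv.orderOf_eq (MulAut.conj g) y
        rw [MulAut.conj_apply] at h6
        rw [h6, hj]
      have hQ2 : ∀ (n : N) i, (∃ j : ℕ, orderOf (n : G) = 2 ^ j) → e n i ≠ 1 →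
          315 ≤ (centralizer ({e n i} : Set (T i))).index := by
        rintro n i ⟨j, hj⟩ hne
        let q : T i ≃* Matrix.ProjectiveSpecialLinearGroup (Fin 3) F := (hconj i).some.symm.trans f
        rw [← Cfsg.Agent.H794.AEight.index_centralizer_congr q]
        refine Cfsg.Agent.H794.LThreeFour.index_ge hF (Cfsg.Agent.CTwoTab.card_PSL_three F hF) ?_ ?_
        · intro h
          exact hne (q.injective (by rw [h, map_one]))
        · rw [MulEquiv.orderOf_eq]
          rw [Subgroup.orderOf_coe] at hj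
          have h7 : orderOf (e n i) ∣ 2 ^ j := by
            rw [← hj]
            apply orderOf_dvd_of_pow_eq_one
            rw [← Pi.pow_apply, ← map_pow, pow_orderOf_eq_one, map_one, Pi.one_apply]
          obtain ⟨j', -, hj'⟩ := (Nat.dvd_prime_pow Nat.prime_two).1 h7
          exact ⟨j', hj'⟩
      obtain ⟨r, hr, hle⟩ := le_card_class H 315 (fun y => ∃ j : ℕ, orderOf y = 2 ^ j) hQ1 hQ2 hxN hx1 ⟨j, hj⟩
      rw [hidx] at hle
      have h1 : 315 ^ r ≤ r * 105 := by
        have h2 : k * 315 ^ r ≤ k * (r * 105) := by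
          calc k * 315 ^ r ≤ r * (105 * k) := hle
            _ = k * (r * 105) := by ring
        exact Nat.le_of_mul_le_mul_left h2 hm
      have h2 : r < 3 ^ r := Nat.lt_pow_self (by norm_num)
      have h3 : 105 ^ r * 3 ^ r = 315 ^ r := by rw [← mul_pow]; norm_num
      have h4 : 105 ≤ 105 ^ r := Nat.le_self_pow hr.ne' 105
      have h5 : 105 * 3 ^ r ≤ 105 ^ r * 3 ^ r := Nat.mul_le_mul_right _ h4
      omega

end Cfsg.Agent.S4590
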