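import Cfsg.Statements.S4619

set_option autoImplicit false
open scoped Pointwise
open Cfsg

namespace Cfsg.Agent.S4619

theorem conj_mem {G : Type*} [Group G] (P Q : Subgroup G)
    (hTI : (∀ g : G, g ∉ Subgroup.normalizer (P : Set G) → P ⊓ (MulAut.conj g • P) = ⊥))
    (hQ : Q ≤ P) (hQ1 : Q ≠ ⊥) (g : G) (hg : MulAut.conj g • Q ≤ P) :
    g ∈ Subgroup.normalizer (P : Set G) := by
  by_contra hn
  have h := hTI g hn
  apply hQ1
  have h1 : MulAut.conj g • Q ≤ P ⊓ (MulAut.conj g • P) :=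
    le_inf hg (Subgroup.pointwise_smul_le_pointwise_smul_iff.2 hQ)
  rw [h] at h1
  have h2 := le_bot_iff.1 h1
  have h3 : MulAut.conj g • Q = MulAut.conj g • (⊥ : Subgroup G) := by
    rw [h2, Subgroup.smul_bot]
  exact smul_left_cancel _ h3

/-- Let P be a Sylow p-subgroup of the finite group G that is a trivial-intersection set: P meets each conjugate g P g⁻¹ with g outside N_G(P) trivially. Then for every nontrivial subgroup Q of P the normalizer of Q lies in the normalizer of P, and any g ∈ G conjugating Q into P lies in N_G(P). -/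
theorem result {G : Type*} [Group G] [Finite G] (p : ℕ) [Fact p.Prime] (P : Sylow p G) (hTI : (∀ g : G, g ∉ Subgroup.normalizer ((P : Subgroup G) : Set G) → (P : Subgroup G) ⊓ (MulAut.conj g • (P : Subgroup G)) = ⊥)) (Q : Subgroup G) (hQ : Q ≤ (P : Subgroup G)) (hQ1 : Q ≠ ⊥) :
    Subgroup.normalizer (Q : Set G) ≤ Subgroup.normalizer ((P : Subgroup G) : Set G) ∧
      ∀ g : G, MulAut.conj g • Q ≤ (P : Subgroup G) → g ∈ Subgroup.normalizer ((P : Subgroup G) : Set G) := by
  refine ⟨fun g hg => ?_, fun g hg => conj_mem _ Q hTI hQ hQ1 g hg⟩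
  refine conj_mem _ Q hTI hQ hQ1 g ?_
  rintro _ ⟨q, hq, rfl⟩
  exact hQ ((Subgroup.mem_normalizer_iff.1 hg q).1 hq)

end Cfsg.Agent.S4619
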