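import Cfsg.Statements.S4625
import Cfsg.Agent.H636.LieTwoPsl
import Cfsg.Agent.H636.LieTwoChev
import Cfsg.Agent.H636.LieTwoWitt
import Cfsg.Agent.H636.LieTwoTw
import Cfsg.Agent.H636.LieTwoSz

set_option autoImplicit false
open Cfsg

namespace Cfsg.Agent.S4625

open Cfsg.Agent.H636.RgdAb Cfsg.Agent.H636.LieTwoPsl Cfsg.Agent.H636.LieTwoChev Cfsg.Agent.H636.LieTwoWitt
  Cfsg.Agent.H636.LieTwoTw Cfsg.Agent.H636.LieTwoSz

/-- The Sylow 2-subgroups of the groups of Lie type in characteristic 2. -/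
theorem sylEl {Y : Type*} [Group Y] [Finite Y] (hY : Cfsg.IsLieTypeChar 2 Y) : SylEl Y := by
  rcases hY with h | h | h | h | h | h | h | h | h | h | h
  · obtain ⟨F, _, _, _, n, hn, -, ⟨e⟩⟩ := h
    have : Finite (Matrix.ProjectiveSpecialLinearGroup (Fin n) F) := Finite.of_equiv Y e.toEquiv
    exact (sylEl_psl (F := F) (n := n) (by omega)).of_equiv e
  · obtain ⟨F, _, _, _, m, hm, -, ⟨e⟩⟩ := h
    have : Finite (PSp m F) := Finite.of_equiv Y e.toEquiv
    exact (sylEl_PSp (F := F) (m := m) (by omega)).of_equiv e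
  · obtain ⟨F, _, _, _, n, q, hF, hn, -, ⟨e⟩⟩ := h
    have : Finite (PSU n F q) := Finite.of_equiv Y e.toEquiv
    exact (sylEl_PSU hF hn).of_equiv e
  · exfalso
    obtain ⟨F, _, _, _, m, -, hodd, -⟩ := h
    have : Fact (Nat.Prime 2) := ⟨Nat.prime_two⟩
    obtain ⟨k, -, hk⟩ := FiniteField.card F 2
    rw [hk] at hodd
    exact absurd hodd (by rw [Nat.not_odd_iff_even]; exact (even_two).pow_of_ne_zero k.ne_zero)
  · obtain ⟨F, _, _, _, m, hm, ⟨e⟩⟩ := h
    have : Finite (POmega F (quadFormPlus m F)) := Finite.of_equiv Y e.toEquiv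
    exact (sylEl_POmegaPlus (F := F) (show 3 ≤ m by omega)).of_equiv e
  · obtain ⟨F, _, _, _, m, a, b, hm, hab, ⟨e⟩⟩ := h
    have : Finite (POmega F (quadFormMinus (m - 1) F a b)) := Finite.of_equiv Y e.toEquiv
    exact (sylEl_POmegaMinus a b hab (by omega)).of_equiv e
  · obtain ⟨F, _, _, _, h⟩ := h
    rcases h with ⟨-, ⟨e⟩⟩ | ⟨⟨e⟩⟩ | ⟨⟨e⟩⟩ | ⟨⟨e⟩⟩ | ⟨⟨e⟩⟩
    · have : Finite (Lie.chevG2.group F) := Finite.of_equiv Y e.toEquiv
      exact (sylEl_G2 F).of_equiv e
    · have : Finite (Lie.chevF4.group F) := Finite.of_equiv Y e.toEquiv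
      exact (sylEl_F4 F).of_equiv e
    · have : Finite (Lie.chevE6.group F) := Finite.of_equiv Y e.toEquiv
      exact (sylEl_E6 F).of_equiv e
    · have : Finite (Lie.chevE7.group F) := Finite.of_equiv Y e.toEquiv
      exact (sylEl_E7 F).of_equiv e
    · have : Finite (Lie.chevE8.group F) := Finite.of_equiv Y e.toEquiv
      exact (sylEl_E8 F).of_equiv e
  · obtain ⟨K, _, _, _, q, hq, h⟩ := h
    rcases h with ⟨hK, ⟨e⟩⟩ | ⟨hK, ⟨e⟩⟩
    · have : Finite (Lie.twistedE6 K q) := Finite.of_equiv Y e.toEquiv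
      exact (sylEl_twE6 hq hK).of_equiv e
    · have : Finite (Lie.twistedD4 K q) := Finite.of_equiv Y e.toEquiv
      exact (sylEl_twD4 hq hK).of_equiv e
  · exact sylEl_sz h.2
  · exact sylEl_twoFFour h.2
  · exact absurd h.1 (by norm_num)

/-- Let G be a finite simple group of Lie type in characteristic 2, not counting the Tits group ²F₄(2)′. Then a Sylow 2-subgroup P of G has P/P' elementary abelian: the square of every element of P lies in the derived subgroup of P. -/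
theorem result {G : Type*} [Group G] [Finite G] [IsSimpleGroup G] (hG : Cfsg.IsLieTypeChar 2 G) (P : Sylow 2 G) :
    ∀ x : (P : Subgroup G), x ^ 2 ∈ commutator (P : Subgroup G) :=
  sylEl hG P

end Cfsg.Agent.S4625
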