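import Cfsg.Statements.S4632
-- import your own Cfsg.Agent.* helpers here
import Cfsg.Agent.ClassificationK.GTwoSylow
import Cfsg.Agent.H638.G2Iso
import Cfsg.Agent.H638.SqComm

set_option autoImplicit false
open Cfsg

namespace Cfsg.Agent.S4632

open Cfsg.Agent.ClassificationK.GTwoModel Cfsg.Agent.H638.SqComm
open scoped commutatorElement

/-- commutators with the inverting element -/
theorem mem_two {m : ℕ} (i j : ZMod m) : (⟨2 * i, 2 * j, false, false⟩ : T m) ∈ commutator (T m) := by
  have h : (⟨2 * i, 2 * j, false, false⟩ : T m) = ⁅(⟨i, j, false, false⟩ : T m), ⟨0, 0, true, false⟩⁆ := by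
    rw [commutatorElement_def]
    simp [T.inv_mk, T.mul_mk]
    constructor <;> ring
  rw [h]
  exact Subgroup.commutator_mem_commutator (Subgroup.mem_top _) (Subgroup.mem_top _)

/-- commutators with the swapping element -/
theorem mem_diff {m : ℕ} (i j : ZMod m) : (⟨i - j, j - i, false, false⟩ : T m) ∈ commutator (T m) := by
  have h : (⟨i - j, j - i, false, false⟩ : T m) = ⁅(⟨i, j, false, false⟩ : T m), ⟨0, 0, false, true⟩⁆ := by
    rw [commutatorElement_def]
    simp [T.inv_mk, T.mul_mk]
    constructor <;> ring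
  rw [h]
  exact Subgroup.commutator_mem_commutator (Subgroup.mem_top _) (Subgroup.mem_top _)

theorem sqComm_T (m : ℕ) : SqComm (T m) := by
  rintro ⟨i, j, e, d⟩
  rw [pow_two, T.mul_mk]
  cases e <;> cases d <;>
    simp only [sg_true, sg_false, cond_true, cond_false, Bool.xor_false, Bool.xor_true, Bool.not_true, Bool.not_false]
  · have := mem_two i j
    convert this using 2 <;> ring
  · have := mul_mem (mem_two j i) (mem_diff i j)
    rw [T.mul_mk] at this
    simp only [sg_false, cond_false, Bool.xor_false] at this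
    convert this using 2 <;> ring
  · convert one_mem (commutator (T m)) using 1
    rw [T.one_def]
    congr 1 <;> ring
  · have := mem_diff i j
    convert this using 2 <;> ring

/-- Let F be a finite field of odd order and G₂(F) the automorphism group of the split octonion algebra over F (realized on F⁸ with the Zorn vector-matrix multiplication). A Sylow 2-subgroup P of G₂(F) has P/P' elementary abelian: the square of every element of P lies in the derived subgroup of P. -/
theorem result {F : Type*} [Field F] [Fintype F] (hF : Odd (Fintype.card F)) (P : Sylow 2 (Cfsg.Lie.G2 F)) : ∀ x : (P : Subgroup (Cfsg.Lie.G2 F)), x ^ 2 ∈ commutator (P : Subgroup (Cfsg.Lie.G2 F)) := by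
  obtain ⟨e⟩ := Cfsg.Agent.H638.G2Iso.equiv (F := F)
  have hcard : Nat.card ↥(Cfsg.Lie.chevG2.group F) =
      Fintype.card F ^ 6 * (Fintype.card F ^ 2 - 1) * (Fintype.card F ^ 6 - 1) :=
    Cfsg.Agent.S1059.result (F := F) rfl
  have : Fact (Nat.Prime 2) := ⟨Nat.prime_two⟩
  obtain ⟨Q⟩ : Nonempty (Sylow 2 ↥(Cfsg.Lie.chevG2.group F)) := inferInstance
  obtain ⟨k, -, ⟨f⟩⟩ := Cfsg.Agent.ClassificationK.GTwoSylow.exists_equiv hF hcard Q
  have hQ : SqComm (Q : Subgroup ↥(Cfsg.Lie.chevG2.group F)) := of_equiv f (sqComm_T _)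
  let P' : Sylow 2 ↥(Cfsg.Lie.chevG2.group F) := P.mapSurjective (f := e.toMonoidHom) e.surjective
  have hP' : (P' : Subgroup ↥(Cfsg.Lie.chevG2.group F)) = (P : Subgroup (Cfsg.Lie.G2 F)).map e.toMonoidHom := rfl
  have hS : SqComm ((P : Subgroup (Cfsg.Lie.G2 F)).map e.toMonoidHom) := by
    rw [← hP']
    exact sylow_of_sylow Q hQ P'
  exact of_equiv ((P : Subgroup (Cfsg.Lie.G2 F)).equivMapOfInjective e.toMonoidHom e.injective).symm hS

end Cfsg.Agent.S4632
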