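import Cfsg.Statements.S4713
import Cfsg.Agent.S0169
import Cfsg.Agent.H670.PSolv

set_option autoImplicit false
open Cfsg

namespace Cfsg.Agent.S4713

/-- Let p be a prime and G a finite p-solvable group. Then G has a normal abelian Sylow p-subgroup if and only if the degree of every irreducible character of G is prime to p. -/
theorem result {G : Type*} [Group G] [Finite G] (p : ℕ) [Fact p.Prime] (hsolv : Cfsg.IsPSolvable p G) (P : Sylow p G) : ((P : Subgroup G).Normal ∧ IsMulCommutative P) ↔ ∀ χ : Cfsg.IrrCharacter G, ¬ p ∣ Cfsg.charDegree (χ : G → ℂ) := by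
  constructor
  · rintro ⟨hPn, hcomm⟩ χ h
    obtain ⟨d, ρ, hρ, hχ⟩ := χ.2
    have hdvd := Cfsg.Agent.S0169.result ρ (P : Subgroup G) (fun a ha b hb =>
      congrArg Subtype.val (hcomm.is_comm.comm (⟨a, ha⟩ : (P : Subgroup G)) ⟨b, hb⟩))
    have h2 : charDegree (χ : G → ℂ) = d := by
      apply Cfsg.Agent.Blocks.Basic.charDegree_of_eq
      rw [← hχ, Representation.char_one]
      simp
    rw [Module.finrank_fin_fun, ← h2] at hdvd
    have : (P : Subgroup G).FiniteIndex := inferInstance
    exact P.not_dvd_index (h.trans hdvd)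
  · intro hdeg
    have h := Cfsg.Agent.H670.PSing.IM_of_pSolvable hsolv (fun β hβ => hdeg ⟨β, hβ⟩) P
    exact ⟨h.1, ⟨⟨fun a b => Subtype.ext (h.2 a a.2 b b.2)⟩⟩⟩

end Cfsg.Agent.S4713
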