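import Mathlib
import Cfsg.Statements.S4736
import Cfsg.Agent.S4713
import Cfsg.Agent.S0915
import Cfsg.Agent.Lib.PSolvable
import Cfsg.Agent.S4735

/-!
# `p`-solvable groups: abelian Sylow subgroups and the heights in the principal block
-/

set_option autoImplicit false

open Cfsg

namespace Cfsg.Agent.S4736

open Cfsg.Agent.Blocks Cfsg.Agent.Blocks.Basic Cfsg.Agent.Blocks.Local

/-- The height in the principal block is the exponent of `p` in the degree. -/
theorem blockHeight_principal {G : Type*} [Group G] [Finite G] (p : ℕ) (M : Ideal AlgInt) [M.IsPrime]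
    (χ : IrrCharacter G) :
    blockHeight p (principalBlock M G) (χ : G → ℂ) = (charDegree (χ : G → ℂ)).factorization p := by
  unfold blockHeight
  have h0 : (0 : ℕ) ∈ ((fun ψ : IrrCharacter G => (charDegree (ψ : G → ℂ)).factorization p) ''
      (principalBlock M G)) := by
    refine ⟨⟨fun _ => 1, isIrrCharacter_one⟩, sameBlock_refl _, ?_⟩
    show (charDegree (fun _ : G => (1 : ℂ))).factorization p = 0
    rw [charDegree_of_eq (n := 1) (by simp)]
    simp
  rw [Nat.sInf_eq_zero.2 (Or.inl h0), Nat.sub_zero]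

/-- Let p be a prime, M a maximal ideal of the algebraic integers containing p, and G a finite p-solvable group with Sylow p-subgroup P. Then P is abelian if and only if every irreducible character in the principal p-block of G has height zero. -/
theorem result {G : Type*} [Group G] [Finite G] (p : ℕ) [Fact p.Prime] (M : Ideal Cfsg.AlgInt) (hM : Cfsg.IsPModular p M) (hsolv : Cfsg.IsPSolvable p G) (P : Sylow p G) : IsMulCommutative P ↔ ∀ χ ∈ Cfsg.principalBlock M G, Cfsg.blockHeight p (Cfsg.principalBlock M G) (χ : G → ℂ) = 0 := by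
  classical
  have hp : p.Prime := Fact.out
  have hMp := isPrime_of_isPModular hM
  have hKn : (pPrimeCore p G).Normal := Lib.Cores.pPrimeCore_normal p
  have hN : ¬ p ∣ Nat.card (pPrimeCore p G) := by
    have h1 := Cfsg.Agent.Lib.Cores.pPrimeCore_coprime (G := G) p
    exact (Nat.Prime.coprime_iff_not_dvd hp).1 h1.symm
  have hbij := Cfsg.Agent.S4735.bijOn_infl hM (pPrimeCore p G) hN
  set Q := G ⧸ pPrimeCore p G with hQ
  let π : G →* Q := QuotientGroup.mk' (pPrimeCore p G)
  have hπ : Function.Surjective π := QuotientGroup.mk'_surjective _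
  have hQs : IsPSolvable p Q :=
    Lib.PSolvable.IsPSolvable_of_surjective p hsolv π hπ
  have hQc : pPrimeCore p Q = ⊥ := Lib.Cores.pPrimeCore_quotient_pPrimeCore p
  have hQB : ∀ χ : IrrCharacter Q, χ ∈ principalBlock M Q := fun χ =>
    S0915.result p M hM hQs hQc ⟨fun _ => 1, isIrrCharacter_one⟩ χ
  -- reformulation of the heights
  have hheight : (∀ χ ∈ principalBlock M G, blockHeight p (principalBlock M G) (χ : G → ℂ) = 0) ↔
      ∀ χ : IrrCharacter Q, ¬ p ∣ charDegree (χ : Q → ℂ) := by
    have hdeg : ∀ χ : IrrCharacter Q, charDegree ((S4735.infl (pPrimeCore p G) χ : IrrCharacter G) : G → ℂ)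
        = charDegree (χ : Q → ℂ) := by
      intro χ
      unfold charDegree
      rfl
    have hiff : ∀ n : ℕ, n ≠ 0 → (n.factorization p = 0 ↔ ¬ p ∣ n) := by
      intro n hn
      rw [Nat.factorization_eq_zero_iff]
      constructor
      · rintro (h | h | h)
        · exact absurd hp h
        · exact h
        · exact absurd h hn
      · intro h
        exact Or.inr (Or.inl h)
    constructor
    · intro h χ
      have h1 := h _ (hbij.1 (hQB χ))
      rw [blockHeight_principal, hdeg] at h1
      refine (hiff _ ?_).1 h1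
      exact (charDegree_pos χ.2).ne'
    · intro h χ hχ
      obtain ⟨ψ, -, rfl⟩ := hbij.2.2 hχ
      rw [blockHeight_principal, hdeg]
      exact (hiff _ (charDegree_pos ψ.2).ne').2 (h ψ)
  rw [hheight]
  -- the Sylow subgroup of the quotient
  let PQ : Sylow p Q := P.mapSurjective hπ
  have hPQ : (PQ : Subgroup Q) = (P : Subgroup G).map π := rfl
  rw [← Cfsg.Agent.S4713.result p hQs PQ]
  have hPK : Disjoint (P : Subgroup G) (pPrimeCore p G) := by
    rw [disjoint_iff, ← Subgroup.card_eq_one]
    have h1 : Nat.card ((P : Subgroup G) ⊓ pPrimeCore p G : Subgroup G) ∣ Nat.card (P : Subgroup G) :=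
      Subgroup.card_dvd_of_le inf_le_left
    have h2 : Nat.card ((P : Subgroup G) ⊓ pPrimeCore p G : Subgroup G) ∣ Nat.card (pPrimeCore p G) :=
      Subgroup.card_dvd_of_le inf_le_right
    obtain ⟨n, hn⟩ := IsPGroup.iff_card.1 P.2
    rw [hn] at h1
    have h3 : (p ^ n).Coprime (Nat.card (pPrimeCore p G)) :=
      Nat.Coprime.pow_left n ((Nat.Prime.coprime_iff_not_dvd hp).2 hN)
    exact Nat.eq_one_of_dvd_coprimes h3 h1 h2
  have habel : IsMulCommutative P ↔ IsMulCommutative PQ := by
    have hmem : ∀ {x : G}, x ∈ (P : Subgroup G) → π x ∈ (PQ : Subgroup Q) := fun {x} hx =>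
      Subgroup.mem_map_of_mem π hx
    constructor
    · intro h
      refine ⟨⟨fun a b => ?_⟩⟩
      obtain ⟨x, hx, hxa⟩ := a.2
      obtain ⟨y, hy, hyb⟩ := b.2
      apply Subtype.ext
      have h1 := congrArg Subtype.val (h.is_comm.comm (⟨x, hx⟩ : P) ⟨y, hy⟩)
      have h2 : x * y = y * x := h1
      show (a : Q) * (b : Q) = b * a
      rw [← hxa, ← hyb, ← map_mul, ← map_mul, h2]
    · intro h
      refine ⟨⟨fun a b => ?_⟩⟩
      apply Subtype.ext
      show (a : G) * (b : G) = b * a
      have h1 : π a * π b = π b * π a :=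
        congrArg Subtype.val (h.is_comm.comm (⟨π a, hmem a.2⟩ : PQ) ⟨π b, hmem b.2⟩)
      rw [← map_mul, ← map_mul] at h1
      have h2 : ((a : G) * b)⁻¹ * (b * a) ∈ pPrimeCore p G := (QuotientGroup.eq).1 h1
      have h3 : ((a : G) * b)⁻¹ * (b * a) ∈ (P : Subgroup G) :=
        mul_mem (inv_mem (mul_mem a.2 b.2)) (mul_mem b.2 a.2)
      have h4 := (Subgroup.disjoint_def.1 hPK) h3 h2
      exact (inv_mul_eq_one.1 h4)
  rw [habel]
  constructor
  · intro h
    refine ⟨?_, h⟩
    have hle : (PQ : Subgroup Q) ≤ pCore p Q := by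
      refine le_trans ?_ (Lib.PSolvable.centralizer_pCore_le_of_pSolvable p hQs hQc)
      intro x hx
      rw [Subgroup.mem_centralizer_iff]
      intro y hy
      have hy' : y ∈ (PQ : Subgroup Q) := by
        have : pCore p Q ≤ (PQ : Subgroup Q) := Lib.Cores.pCore_le_sylow PQ
        exact this hy
      exact congrArg Subtype.val (h.is_comm.comm (⟨y, hy'⟩ : PQ) ⟨x, hx⟩)
    have hge : pCore p Q ≤ (PQ : Subgroup Q) := Lib.Cores.pCore_le_sylow PQ
    rw [le_antisymm hle hge]
    infer_instance
  · exact fun h => h.2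

end Cfsg.Agent.S4736
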