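import Cfsg.Statements.S4741
import Cfsg.Agent.H664.RobinsonMain

set_option autoImplicit false
open Cfsg

namespace Cfsg.Agent.S4741

open Cfsg.Agent.Blocks.Basic Cfsg.Agent.Blocks.Local

/-- Let p be a prime, M a maximal ideal of the algebraic integers containing p, and D a subgroup of the finite group G. Let x₁, …, x_r be pairwise non-conjugate elements of G such that D is a Sylow p-subgroup of the centralizer of each xᵢ, and such that for any conjugates g of some xᵢ and h of some xⱼ the element g h⁻¹ is never a non-identity p-element. Then there are r distinct p-blocks B₁, …, B_r of G, each having D as a defect group, such that for every choice of characters χᵢ ∈ Bᵢ of height zero the determinant of the r × r matrix (χᵢ(xⱼ)) does not lie in the local ideal at M. -/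
theorem result {G : Type*} [Group G] [Finite G] (p : ℕ) [Fact p.Prime] (M : Ideal Cfsg.AlgInt) (hM : Cfsg.IsPModular p M) (D : Subgroup G) {r : ℕ} (x : Fin r → G) (hx : ∀ i j : Fin r, IsConj (x i) (x j) → i = j) (hD : ∀ i : Fin r, ∃ S : Sylow p ↥(Subgroup.centralizer ({x i} : Set G)), (S : Subgroup ↥(Subgroup.centralizer ({x i} : Set G))).map (Subgroup.centralizer ({x i} : Set G)).subtype = D) (hsep : ∀ i j : Fin r, ∀ g h : G, IsConj (x i) g → IsConj (x j) h → ∀ k : ℕ, 0 < k → orderOf (g * h⁻¹) ≠ p ^ k) : ∃ B : Fin r → Set (Cfsg.IrrCharacter G), Function.Injective B ∧ (∀ i : Fin r, Cfsg.IsPBlock M (B i) ∧ Cfsg.IsDefectGroup p M (B i) D) ∧ ∀ χ : Fin r → Cfsg.IrrCharacter G, (∀ i : Fin r, χ i ∈ B i ∧ Cfsg.blockHeight p (B i) (χ i : G → ℂ) = 0) → ¬ Cfsg.MemLocalIdeal M (Matrix.det (Matrix.of fun i j : Fin r => (χ i : G → ℂ) (x j))) := by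
  classical
  have hP : M.IsPrime := isPrime_of_isPModular hM
  have := Fintype.ofFinite G
  have hD' : ∀ i : Fin r, IsSylowCentralizer p (x i) D := by
    intro i
    obtain ⟨S, hS⟩ := hD i
    exact ⟨S, hS.symm⟩
  obtain ⟨c, hc1, hc2⟩ := H664.RobinsonMain.exists_blocks hM D x hx hD' hsep
  refine ⟨fun i => blockOf M (c i : G → ℂ), ?_, fun i => ⟨isPBlock_blockOf (c i), hc1 i⟩, ?_⟩
  · intro i i' hii
    by_contra hne
    apply hc2
    have hcc : ∀ (χ : IrrCharacter G) (g : G), MemLocalRing M (centralChar (χ : G → ℂ) g) :=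
      fun χ g => memLocalRing_of_isIntegral
        (Cfsg.Agent.Blocks.ConvCentral.isIntegral_centralChar χ.2 g)
    have h1 := H664.RobinsonMain.redC_det (M := M)
      (fun i j => centralChar (c i : G → ℂ) (x j)) fun i j => hcc _ _
    rw [← redC_eq_zero_iff h1.1, h1.2]
    refine Matrix.det_zero_of_row_eq hne ?_
    funext j
    simp only [Matrix.of_apply]
    rw [redC_eq_iff (hcc _ _) (hcc _ _)]
    have h2 : SameBlock M (c i : G → ℂ) (c i' : G → ℂ) := blockOf_eq_iff.1 hii
    exact h2 (x j)
  · intro χ hχ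
    exact H664.RobinsonMain.det_values hM D x hD' _ (fun i => isPBlock_blockOf (c i)) hc1 c
      (fun i => mem_blockOf_self (c i)) hc2 χ hχ

end Cfsg.Agent.S4741
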