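import Cfsg.Statements.S4742
import Cfsg.Agent.H665.NoPQ

set_option autoImplicit false
open Cfsg

namespace Cfsg.Agent.S4742

/-- Let p ≠ q be primes dividing the order of the finite group G, and suppose the centralizer of every non-identity p-element of G has order prime to q. Then either G has an irreducible character of p-defect zero, or for every non-identity q-element z of G there are conjugates g, h of z such that g h⁻¹ is a non-identity p-element. -/
theorem result {G : Type*} [Group G] [Finite G] (p q : ℕ) [Fact p.Prime] [Fact q.Prime] (hppq : p ≠ q) (hpG : p ∣ Nat.card G) (hqG : q ∣ Nat.card G) (hC : ∀ g : G, g ≠ 1 → (∃ k : ℕ, orderOf g = p ^ k) → ¬ q ∣ Nat.card ↥(Subgroup.centralizer ({g} : Set G))) : (∃ χ : Cfsg.IrrCharacter G, (Cfsg.charDegree (χ : G → ℂ)).factorization p = (Nat.card G).factorization p) ∨ ∀ z : G, z ≠ 1 → (∃ k : ℕ, orderOf z = q ^ k) → ∃ g h : G, IsConj z g ∧ IsConj z h ∧ g * h⁻¹ ≠ 1 ∧ ∃ k : ℕ, orderOf (g * h⁻¹) = p ^ k := by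
  by_cases h : ∃ χ : Cfsg.IrrCharacter G, (Cfsg.charDegree (χ : G → ℂ)).factorization p =
      (Nat.card G).factorization p
  · exact Or.inl h
  right
  intro z hz hzq
  have h1 : ¬ p ∣ Nat.card (Subgroup.centralizer ({z} : Set G)) :=
    Cfsg.Agent.H665.NoPQ.not_dvd_centralizer hppq.symm
      (fun y => by rw [mul_comm]; exact Cfsg.Agent.H665.NoPQ.not_dvd_orderOf hC y) hz hzq
  rcases Cfsg.Agent.H665.DefZero.defectZero_or p z h1 with h2 | ⟨g, g', hg, hg', hne, hk⟩
  · exact absurd h2 h
  · exact ⟨g, g', hg, hg', hne, hk⟩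

end Cfsg.Agent.S4742
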