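import Cfsg.Statements.S4744
import Cfsg.Agent.H665.OddCent

set_option autoImplicit false
open Cfsg

namespace Cfsg.Agent.S4744

/-- Let p be an odd prime and G a finite group of even order divisible by p in which the centralizer of every non-identity p-element has odd order. Then either G has an irreducible character of p-defect zero, or the normalizer of every Sylow p-subgroup P of G has even order and P is abelian. -/
theorem result {G : Type*} [Group G] [Finite G] (p : ℕ) [Fact p.Prime] (hp2 : p ≠ 2) (hpG : p ∣ Nat.card G) (h2G : 2 ∣ Nat.card G) (hC : ∀ g : G, g ≠ 1 → (∃ k : ℕ, orderOf g = p ^ k) → Odd (Nat.card ↥(Subgroup.centralizer ({g} : Set G)))) : (∃ χ : Cfsg.IrrCharacter G, (Cfsg.charDegree (χ : G → ℂ)).factorization p = (Nat.card G).factorization p) ∨ ∀ P : Sylow p G, Even (Nat.card ↥(Subgroup.normalizer ((P : Subgroup G) : Set G))) ∧ IsMulCommutative ↥(P : Subgroup G) := by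
  by_cases h : ∃ χ : Cfsg.IrrCharacter G, (Cfsg.charDegree (χ : G → ℂ)).factorization p =
      (Nat.card G).factorization p
  · exact Or.inl h
  right
  intro P
  obtain ⟨t, ht, ht1, hP⟩ := Cfsg.Agent.H665.OddCent.exists_invol_inverts_sylow hC h2G h P
  refine ⟨?_, ⟨⟨fun x y => Subtype.ext
    (Cfsg.Agent.H665.OddCent.comm_of_inverts hP x.2 y.2)⟩⟩⟩
  have h1 : t ∈ Subgroup.normalizer ((P : Subgroup G) : Set G) := by
    rw [Subgroup.mem_normalizer_iff]
    intro x
    constructor
    · intro hx
      rw [hP x hx]
      exact (P : Subgroup G).inv_mem hx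
    · intro hx
      have h2 := hP _ hx
      have h3 : t * (t * x * t⁻¹) * t⁻¹ = x := by
        have h4 : t⁻¹ = t := inv_eq_of_mul_eq_one_left ht
        rw [h4]
        calc t * (t * x * t) * t = (t * t) * x * (t * t) := by group
          _ = x := by rw [ht]; group
      rw [h3] at h2
      rw [h2]
      exact (P : Subgroup G).inv_mem hx
  rw [even_iff_two_dvd]
  have h2 : orderOf (⟨t, h1⟩ : Subgroup.normalizer ((P : Subgroup G) : Set G)) = 2 := by
    rw [Subgroup.orderOf_mk]
    exact orderOf_eq_prime (by rw [pow_two, ht]) ht1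
  rw [← h2]
  exact orderOf_dvd_natCard _

end Cfsg.Agent.S4744
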