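import Cfsg.Statements.S4746
import Cfsg.Agent.H665.OddCent
import Cfsg.Agent.H665.EvenDegree

set_option autoImplicit false
open Cfsg

namespace Cfsg.Agent.S4746

/-- Let p be an odd prime and G a finite group of even order divisible by p in which the centralizer of every non-identity p-element has odd order. Then G has an irreducible character of p-defect zero or an irreducible character of even degree. -/
theorem result {G : Type*} [Group G] [Finite G] (p : ℕ) [Fact p.Prime] (hp2 : p ≠ 2) (hpG : p ∣ Nat.card G) (h2G : 2 ∣ Nat.card G) (hC : ∀ g : G, g ≠ 1 → (∃ k : ℕ, orderOf g = p ^ k) → Odd (Nat.card ↥(Subgroup.centralizer ({g} : Set G)))) : (∃ χ : Cfsg.IrrCharacter G, (Cfsg.charDegree (χ : G → ℂ)).factorization p = (Nat.card G).factorization p) ∨ ∃ χ : Cfsg.IrrCharacter G, Even (Cfsg.charDegree (χ : G → ℂ)) := by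
  by_cases h : ∃ χ : Cfsg.IrrCharacter G, (Cfsg.charDegree (χ : G → ℂ)).factorization p =
      (Nat.card G).factorization p
  · exact Or.inl h
  right
  have : Fact (Nat.Prime 2) := ⟨Nat.prime_two⟩
  obtain ⟨t, ht⟩ := exists_prime_orderOf_dvd_card' 2 h2G
  have htt : t * t = 1 := by rw [← pow_two, ← ht, pow_orderOf_eq_one]
  have ht1 : t ≠ 1 := by
    rintro rfl
    rw [orderOf_one] at ht
    exact absurd ht (by norm_num)
  obtain ⟨u, hu, hup, htu⟩ :=
    Cfsg.Agent.H665.OddCent.exists_inverted_of_no_defectZero hC h htt ht1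
  exact Cfsg.Agent.H665.EvenDegree.exists_even_degree hu (isConj_iff.2 ⟨t, htu⟩) (hC u hu hup)

end Cfsg.Agent.S4746
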