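import Cfsg.Statements.S4754
import Cfsg.Agent.Characters.ClassMul
import Cfsg.Agent.Characters.GaloisIrr

set_option autoImplicit false
open Cfsg

namespace Cfsg.Agent.S4754

open Cfsg.Agent.Characters

/-- `χ(1) χ(xy) = χ(x) χ(y)` as soon as `χ` is constant on `x^G y^G`. -/
theorem mul_of_const {G : Type*} [Group G] [Finite G] {χ : G → ℂ} (hχ : IsIrrCharacter G χ)
    (x y : G) (c : ℂ) (h : ∀ a : G, χ (a * x * a⁻¹ * y) = c) : χ 1 * c = χ x * χ y := by
  have := Fintype.ofFinite G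
  have h1 := Central.sum_char_conj_mul hχ x y
  rw [Finset.sum_congr rfl (fun a _ => h a), Finset.sum_const, Finset.card_univ,
    ← Nat.card_eq_fintype_card, nsmul_eq_mul] at h1
  have h2 : χ 1 ≠ 0 := Core.isIrr_apply_one_ne_zero hχ
  have h3 : (Nat.card G : ℂ) ≠ 0 := by exact_mod_cast Nat.card_pos.ne'
  field_simp at h1
  have h4 : (Nat.card G : ℂ) * (χ 1 * c - χ x * χ y) = 0 := by linear_combination (Nat.card G : ℂ) * h1
  rcases mul_eq_zero.1 h4 with h5 | h5
  · exact absurd h5 h3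
  · linear_combination h5

theorem conj_mul_conj {G : Type*} [Group G] {x y z : G} (h : IsConj (x * y) z) :
    ∃ a b : G, z = a * x * a⁻¹ * (b * y * b⁻¹) := by
  obtain ⟨c, hc⟩ := isConj_iff.1 h
  exact ⟨c, c, by rw [← hc]; group⟩

/-- For elements x, y of a finite group G, the conjugacy class of x y equals the set of all products of a conjugate of x with a conjugate of y if and only if χ(1) χ(a x a⁻¹ b y b⁻¹) = χ(x) χ(y) for all a, b ∈ G and every irreducible character χ. -/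
theorem result {G : Type*} [Group G] [Finite G] (x y : G) : (∀ z : G, IsConj (x * y) z ↔ ∃ a b : G, z = a * x * a⁻¹ * (b * y * b⁻¹)) ↔ ∀ (a b : G) (χ : Cfsg.IrrCharacter G), (χ : G → ℂ) 1 * (χ : G → ℂ) (a * x * a⁻¹ * (b * y * b⁻¹)) = (χ : G → ℂ) x * (χ : G → ℂ) y := by
  constructor
  · intro H a b χ
    have key : ∀ a b : G, (χ : G → ℂ) (a * x * a⁻¹ * (b * y * b⁻¹)) = (χ : G → ℂ) (x * y) :=
      fun a b => ((GaloisIrr.isConj_iff_forall_irr.1 ((H _).2 ⟨a, b, rfl⟩)) χ χ.2).symm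
    rw [key a b]
    refine mul_of_const χ.2 x y _ fun a => ?_
    have := key a 1
    simpa using this
  · intro H z
    refine ⟨conj_mul_conj, ?_⟩
    rintro ⟨a, b, rfl⟩
    refine GaloisIrr.isConj_of_forall_irr fun χ hχ => ?_
    have h1 := H a b ⟨χ, hχ⟩
    have h2 := H 1 1 ⟨χ, hχ⟩
    simp only [one_mul, inv_one, mul_one] at h2
    have h3 : χ 1 ≠ 0 := Core.isIrr_apply_one_ne_zero hχ
    exact mul_left_cancel₀ h3 (h2.trans h1.symm)

end Cfsg.Agent.S4754
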