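import Cfsg.Statements.S4755
import Cfsg.Agent.S4754
import Cfsg.Agent.Characters.Linear

set_option autoImplicit false
open Cfsg

namespace Cfsg.Agent.S4755

open Cfsg.Agent.Characters
open scoped ComplexConjugate commutatorElement

/-- An irreducible character of degree greater than 1 vanishes at `x y`. -/
theorem vanish {G : Type*} [Group G] [Finite G] {χ : G → ℂ} (hχ : IsIrrCharacter G χ)
    (x y : G) (h : ∀ a : G, χ (a * x * a⁻¹ * y) = χ x * χ y) (h1 : χ 1 ≠ 1) :
    χ x * χ y = 0 := by
  have h2 := S4754.mul_of_const hχ x y _ h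
  have h3 : (χ 1 - 1) * (χ x * χ y) = 0 := by linear_combination h2
  exact (mul_eq_zero.1 h3).resolve_left (sub_ne_zero.2 h1)

/-- Let x, y be non-identity elements of the finite group G such that χ(x' y') = χ(x') χ(y') for all conjugates x' of x, y' of y and every irreducible character χ. Then the conjugacy class of x y is the set of all products of a conjugate of x with a conjugate of y; every irreducible character of degree greater than 1 vanishes at x y; and the conjugacy class of x y is the coset of the commutator subgroup containing x y. -/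
theorem result {G : Type*} [Group G] [Finite G] (x y : G) (hx : x ≠ 1) (hy : y ≠ 1) (h : ∀ (a b : G) (χ : Cfsg.IrrCharacter G), (χ : G → ℂ) (a * x * a⁻¹ * (b * y * b⁻¹)) = (χ : G → ℂ) (a * x * a⁻¹) * (χ : G → ℂ) (b * y * b⁻¹)) : (∀ z : G, IsConj (x * y) z ↔ ∃ a b : G, z = a * x * a⁻¹ * (b * y * b⁻¹)) ∧ (∀ χ : Cfsg.IrrCharacter G, (χ : G → ℂ) 1 ≠ 1 → (χ : G → ℂ) (x * y) = 0) ∧ (∀ z : G, IsConj (x * y) z ↔ (x * y)⁻¹ * z ∈ commutator G) := by
  have hc : ∀ (χ : Cfsg.IrrCharacter G) (a u : G), (χ : G → ℂ) (a * u * a⁻¹) = (χ : G → ℂ) u :=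
    fun χ a u => Core.isIrr_isClassFunction χ.2 u a
  have h' : ∀ (a b : G) (χ : Cfsg.IrrCharacter G),
      (χ : G → ℂ) (a * x * a⁻¹ * (b * y * b⁻¹)) = (χ : G → ℂ) x * (χ : G → ℂ) y := by
    intro a b χ
    rw [h, hc, hc]
  have h'' : ∀ (χ : Cfsg.IrrCharacter G), (χ : G → ℂ) (x * y) = (χ : G → ℂ) x * (χ : G → ℂ) y := by
    intro χ
    have := h' 1 1 χ
    simpa using this
  have hv : ∀ χ : Cfsg.IrrCharacter G, (χ : G → ℂ) 1 ≠ 1 → (χ : G → ℂ) x * (χ : G → ℂ) y = 0 := by
    intro χ h1
    refine vanish χ.2 x y (fun a => ?_) h1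
    have := h' a 1 χ
    simpa using this
  refine ⟨?_, fun χ h1 => by rw [h'', hv χ h1], fun z => ⟨fun hz => ?_, fun hz => ?_⟩⟩
  · refine (S4754.result x y).2 fun a b χ => ?_
    rw [h']
    by_cases h1 : (χ : G → ℂ) 1 = 1
    · rw [h1, one_mul]
    · rw [hv χ h1, mul_zero]
  · obtain ⟨c, rfl⟩ := isConj_iff.1 hz
    have : (x * y)⁻¹ * (c * (x * y) * c⁻¹) = ⁅(x * y)⁻¹, c⁆ := by
      simp [commutatorElement_def, mul_assoc]
    rw [this]
    exact Subgroup.commutator_mem_commutator (Subgroup.mem_top _) (Subgroup.mem_top _)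
  · classical
    have := Fintype.ofFinite G
    have := Core.finite_irr (G := G)
    have := Fintype.ofFinite (IrrCharacter G)
    have key := ClassMul.card_conj_mul_conj (x * y) 1 z
    have hsum : ∑ χ : IrrCharacter G,
        (χ : G → ℂ) (x * y) * (χ : G → ℂ) 1 * conj ((χ : G → ℂ) z) / (χ : G → ℂ) 1 =
        ((Finset.univ.filter (fun χ : IrrCharacter G => (χ : G → ℂ) 1 = 1)).card : ℂ) := by
      rw [← Finset.sum_boole]
      refine Finset.sum_congr rfl fun χ _ => ?_
      split_ifs with h1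
      · obtain ⟨f, hf⟩ := Linear.exists_hom_of_isIrrCharacter χ.2 h1
        have e1 : (χ : G → ℂ) z = (χ : G → ℂ) (x * y) := by
          have e2 : f ((x * y)⁻¹ * z) = 1 := Abelianization.commutator_subset_ker f hz
          have e3 : f z = f (x * y) := by
            rw [map_mul, map_inv, inv_mul_eq_one] at e2
            exact e2.symm
          rw [congrFun hf z, congrFun hf (x * y), e3]
        rw [e1, h1, congrFun hf (x * y), mul_one, div_one, Complex.mul_conj, Complex.normSq_eq_norm_sq,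
          Linear.norm_hom_apply]
        simp
      · rw [h'', hv χ h1]
        simp
    rw [hsum] at key
    have hpos : 0 < (Finset.univ.filter (fun χ : IrrCharacter G => (χ : G → ℂ) 1 = 1)).card := by
      rw [Finset.card_pos]
      exact ⟨⟨1, Core.isIrr_one⟩, by simp⟩
    have hcard : 0 < Nat.card {p : G × G // p.1 * (x * y) * p.1⁻¹ * (p.2 * 1 * p.2⁻¹) = z} := by
      have : (Nat.card {p : G × G // p.1 * (x * y) * p.1⁻¹ * (p.2 * 1 * p.2⁻¹) = z}) =
        Nat.card G * (Finset.univ.filter (fun χ : IrrCharacter G => (χ : G → ℂ) 1 = 1)).card := by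
        exact_mod_cast key
      rw [this]
      exact Nat.mul_pos Nat.card_pos hpos
    obtain ⟨p, hp⟩ := (Nat.card_pos_iff.1 hcard).1
    refine isConj_iff.2 ⟨p.1, ?_⟩
    simpa using hp

end Cfsg.Agent.S4755
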