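import Cfsg.Statements.S4756
import Cfsg.Agent.H668.MultAux
import Cfsg.Agent.S0026
import Cfsg.Agent.S0058

set_option autoImplicit false
set_option linter.unusedSectionVars false
set_option linter.style.haveILetI false
open scoped ComplexConjugate commutatorElement
open Cfsg

namespace Cfsg.Agent.S4756

open Cfsg.Agent.H668.MultAux Subgroup

/-- A linear character is multiplicative. -/
theorem linear_mul {G : Type*} [Group G] {χ : IrrCharacter G} (h : (χ : G → ℂ) 1 = 1) (x y : G) :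
    (χ : G → ℂ) (x * y) = (χ : G → ℂ) x * (χ : G → ℂ) y := by
  obtain ⟨f, hf⟩ := Characters.Linear.exists_hom_of_isIrrCharacter χ.2 h
  rw [hf]
  simp

/-- Elements of a `p`-group of prime power order. -/
theorem eq_prime_of_mem {G : Type*} [Group G] [Finite G] {p r a : ℕ} (hp : p.Prime) (hr : r.Prime)
    {P : Subgroup G} (hP : IsPGroup p P) {x : G} (hx : x ∈ P) (hx1 : x ≠ 1)
    (ho : orderOf x = r ^ a) : r = p := by
  obtain ⟨k, hk⟩ := hP ⟨x, hx⟩
  have hk' : x ^ p ^ k = 1 := by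
    have := congrArg Subtype.val hk
    simpa using this
  have h1 : orderOf x ∣ p ^ k := orderOf_dvd_of_pow_eq_one hk'
  have ha : a ≠ 0 := by
    rintro rfl
    rw [pow_zero] at ho
    exact hx1 (orderOf_eq_one_iff.1 ho)
  have h2 : r ∣ orderOf x := by rw [ho]; exact dvd_pow_self r ha
  exact (Nat.prime_dvd_prime_iff_eq hr hp).1 (hr.dvd_of_dvd_pow (h2.trans h1))

/-- The structure implies that non-linear characters vanish off `P`. -/
theorem vanish_off {G : Type*} [Group G] [Finite G] (p : ℕ) [Fact p.Prime] (P : Sylow p G)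
    (A : Subgroup G) (hPn : (P : Subgroup G).Normal) (hAc : IsCyclic ↥A)
    (hcop : (Nat.card ↥A).Coprime p) (hAP : A ⊔ (P : Subgroup G) = ⊤)
    (hC : IsMulCommutative ↥((P : Subgroup G) ⊓ Subgroup.centralizer (A : Set G)))
    (hDn : (⁅A, (P : Subgroup G)⁆).Normal)
    (hCD : ((P : Subgroup G) ⊓ Subgroup.centralizer (A : Set G)) ⊔ ⁅A, (P : Subgroup G)⁆ =
      (P : Subgroup G))
    (hfpf : ∀ a ∈ A, a ≠ 1 → ∀ d ∈ ⁅A, (P : Subgroup G)⁆, a * d = d * a → d = 1)
    (g : G) (hg : g ∉ (P : Subgroup G)) (χ : IrrCharacter G) (hχ : (χ : G → ℂ) 1 ≠ 1) :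
    (χ : G → ℂ) g = 0 := by
  set D : Subgroup G := ⁅A, (P : Subgroup G)⁆ with hD
  set C : Subgroup G := (P : Subgroup G) ⊓ Subgroup.centralizer (A : Set G) with hCdef
  -- decomposition of elements
  have hdec : ∀ g : G, ∃ a ∈ A, ∃ c ∈ C, ∃ d ∈ D, g = a * c * d := by
    intro g
    have h1 : g ∈ A ⊔ (P : Subgroup G) := hAP ▸ Subgroup.mem_top g
    rw [Subgroup.mem_sup_of_normal_right] at h1
    obtain ⟨a, ha, x, hx, rfl⟩ := h1
    have h2 : x ∈ C ⊔ D := hCD ▸ hx
    rw [Subgroup.mem_sup_of_normal_right] at h2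
    obtain ⟨c, hc, d, hd, rfl⟩ := h2
    exact ⟨a, ha, c, hc, d, hd, by group⟩
  have hCcomm : ∀ x ∈ C, ∀ y ∈ C, x * y = y * x := by
    intro x hx y hy
    have := hC.is_comm.comm (⟨x, hx⟩ : C) ⟨y, hy⟩
    exact congrArg Subtype.val this
  have hAcomm : ∀ x ∈ A, ∀ y ∈ A, x * y = y * x := by
    intro x hx y hy
    have : Std.Commutative (fun a b : A => a * b) := by
      letI := IsCyclic.commGroup (α := A)
      exact ⟨fun a b => mul_comm a b⟩
    exact congrArg Subtype.val (this.comm (⟨x, hx⟩ : A) ⟨y, hy⟩)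
  have hACcomm : ∀ x ∈ A, ∀ y ∈ C, x * y = y * x := by
    intro x hx y hy
    exact Subgroup.mem_centralizer_iff.1 hy.2 x hx
  -- the derived group is in `D`
  have hG' : commutator G ≤ D := by
    rw [commutator_def, Subgroup.commutator_le]
    intro g _ h _
    obtain ⟨a, ha, c, hc, d, hd, rfl⟩ := hdec g
    obtain ⟨a', ha', c', hc', d', hd', rfl⟩ := hdec h
    have hq : ∀ d ∈ D, (QuotientGroup.mk' D) d = 1 := fun d hd => (QuotientGroup.eq_one_iff d).2 hd
    have e1 : (QuotientGroup.mk' D) (a * c * d) = (QuotientGroup.mk' D) (a * c) := by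
      rw [map_mul, hq d hd, mul_one]
    have e2 : (QuotientGroup.mk' D) (a' * c' * d') = (QuotientGroup.mk' D) (a' * c') := by
      rw [map_mul, hq d' hd', mul_one]
    rw [← QuotientGroup.ker_mk' D, MonoidHom.mem_ker, map_commutatorElement, e1, e2,
      commutatorElement_eq_one_iff_mul_comm, ← map_mul, ← map_mul]
    congr 1
    calc a * c * (a' * c') = a * (c * a') * c' := by group
      _ = a * (a' * c) * c' := by rw [hACcomm a' ha' c hc]
      _ = (a * a') * (c * c') := by group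
      _ = (a' * a) * (c' * c) := by rw [hAcomm a ha a' ha', hCcomm c hc c' hc']
      _ = a' * (a * c') * c := by group
      _ = a' * (c' * a) * c := by rw [hACcomm a ha c' hc']
      _ = a' * c' * (a * c) := by group
  obtain ⟨a, ha, c, hc, d, hd, hgdef⟩ := hdec g
  have hDP : D ≤ (P : Subgroup G) := by
    rw [← hCD]; exact le_sup_right
  have ha1 : a ≠ 1 := by
    rintro rfl
    apply hg
    rw [hgdef, one_mul]
    exact mul_mem hc.1 (hDP hd)
  -- `b = a c` acts fixed-point-freely on `D`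
  set b := a * c with hb
  have hbfree : ∀ e ∈ D, b * e = e * b → e = 1 := by
    intro e he hbe
    obtain ⟨k, hk⟩ := P.2 ⟨c, hc.1⟩
    have hk' : c ^ p ^ k = 1 := by
      have := congrArg Subtype.val hk
      simpa using this
    have h1 : b ^ p ^ k = a ^ p ^ k := by
      rw [hb, (show Commute a c from hACcomm a ha c hc).mul_pow, hk', mul_one]
    have h2 : a ^ p ^ k ≠ 1 := by
      intro h3
      have h4 : orderOf a ∣ p ^ k := orderOf_dvd_of_pow_eq_one h3
      have h5 : orderOf a ∣ Nat.card A := Subgroup.orderOf_dvd_natCard A ha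
      have h6 : (Nat.card A).Coprime (p ^ k) := Nat.Coprime.pow_right k hcop
      have h7 := Nat.eq_one_of_dvd_coprimes h6 h5 h4
      exact ha1 (orderOf_eq_one_iff.1 h7)
    apply hfpf (a ^ p ^ k) (pow_mem ha _) h2 e he
    rw [← h1]
    exact (show Commute b e from hbe).pow_left _
  -- `g` is conjugate to `b`
  have hconj : ∃ e : G, g = e⁻¹ * b * e := by
    let φ : D → D := fun e => ⟨b⁻¹ * (e : G)⁻¹ * b * e, mul_mem (by
      have := hDn.conj_mem (e : G)⁻¹ (inv_mem e.2) b⁻¹
      simpa using this) e.2⟩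
    have hφ : Function.Injective φ := by
      intro e f hef
      have h1 : b⁻¹ * (e : G)⁻¹ * b * e = b⁻¹ * (f : G)⁻¹ * b * f := congrArg Subtype.val hef
      have h2 : b * ((f : G) * (e : G)⁻¹) = ((f : G) * (e : G)⁻¹) * b := by
        have h3 : (e : G)⁻¹ * b * e = (f : G)⁻¹ * b * f := by
          have := congrArg (fun z => b * z) h1
          simpa [mul_assoc] using this
        calc b * ((f : G) * (e : G)⁻¹) = (f : G) * ((f : G)⁻¹ * b * f) * (e : G)⁻¹ := by group
          _ = (f : G) * ((e : G)⁻¹ * b * e) * (e : G)⁻¹ := by rw [h3]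
          _ = ((f : G) * (e : G)⁻¹) * b := by group
      have h4 := hbfree _ (mul_mem f.2 (inv_mem e.2)) h2
      exact Subtype.ext (mul_inv_eq_one.1 h4).symm
    obtain ⟨e, he⟩ := Finite.surjective_of_injective hφ ⟨d, hd⟩
    refine ⟨e, ?_⟩
    have h1 : b⁻¹ * (e : G)⁻¹ * b * e = d := congrArg Subtype.val he
    rw [hgdef, ← h1]
    group
  obtain ⟨e, he⟩ := hconj
  -- the centralizer of `b`
  have hcard : Nat.card (Subgroup.centralizer ({b} : Set G)) ≤ (commutator G).index := by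
    have hdisj : Subgroup.centralizer ({b} : Set G) ⊓ D = ⊥ := by
      rw [eq_bot_iff]
      rintro x ⟨hx1, hx2⟩
      rw [Subgroup.mem_bot]
      exact hbfree x hx2 (Subgroup.mem_centralizer_singleton_iff.1 hx1).symm
    have h1 : D.relIndex (Subgroup.centralizer ({b} : Set G)) =
        Nat.card (Subgroup.centralizer ({b} : Set G)) := by
      rw [← Subgroup.inf_relIndex_right, inf_comm, hdisj, Subgroup.relIndex_bot_left]
    rw [← h1]
    calc D.relIndex (Subgroup.centralizer ({b} : Set G)) ≤ D.index :=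
          Nat.le_of_dvd (Nat.pos_of_ne_zero Subgroup.index_ne_zero_of_finite)
            (Subgroup.relIndex_dvd_index_of_normal D _)
      _ ≤ (commutator G).index :=
          Nat.le_of_dvd (Nat.pos_of_ne_zero Subgroup.index_ne_zero_of_finite)
            (Subgroup.index_dvd_of_le hG')
  have hv := vanish_of_card b hcard χ hχ
  have hcl := Characters.Core.isIrr_isClassFunction χ.2 b e⁻¹
  rw [inv_inv] at hcl
  rw [he, hcl, hv]

/-- (2) implies (1). -/
theorem mult_of_structure {G : Type*} [Group G] [Finite G]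
    (h : (∃ p : ℕ, p.Prime ∧ IsPGroup p G) ∨ IsMulCommutative G ∨ ∃ (p : ℕ) (_ : Fact p.Prime) (P : Sylow p G) (A : Subgroup G), (P : Subgroup G).Normal ∧ IsCyclic ↥A ∧ A ≠ ⊥ ∧ (Nat.card ↥A).Coprime p ∧ A ⊔ (P : Subgroup G) = ⊤ ∧ IsMulCommutative ↥((P : Subgroup G) ⊓ Subgroup.centralizer (A : Set G)) ∧ (⁅A, (P : Subgroup G)⁆).Normal ∧ ((P : Subgroup G) ⊓ Subgroup.centralizer (A : Set G)) ⊔ ⁅A, (P : Subgroup G)⁆ = (P : Subgroup G) ∧ ((P : Subgroup G) ⊓ Subgroup.centralizer (A : Set G)) ⊓ ⁅A, (P : Subgroup G)⁆ = ⊥ ∧ ∀ a ∈ A, a ≠ 1 → ∀ d ∈ ⁅A, (P : Subgroup G)⁆, a * d = d * a → d = 1)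
    (x y : G) (χ : Cfsg.IrrCharacter G) (hx : x ≠ 1) (hy : y ≠ 1)
    (hxy : ∃ p q a b : ℕ, p.Prime ∧ q.Prime ∧ p ≠ q ∧ orderOf x = p ^ a ∧ orderOf y = q ^ b) :
    (χ : G → ℂ) (x * y) = (χ : G → ℂ) x * (χ : G → ℂ) y := by
  obtain ⟨r, s, m, n, hr, hs, hrs, hxo, hyo⟩ := hxy
  rcases h with ⟨p, hp, hG⟩ | hG | ⟨p, hp, P, A, hPn, hAc, _, hcop, hAP, hC, hDn, hCD, _, hfpf⟩
  · exfalso
    have hG' : IsPGroup p (⊤ : Subgroup G) := hG.to_subgroup ⊤
    have h1 := eq_prime_of_mem hp hr hG' (Subgroup.mem_top x) hx hxo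
    have h2 := eq_prime_of_mem hp hs hG' (Subgroup.mem_top y) hy hyo
    exact hrs (h1.trans h2.symm)
  · exact linear_mul (S0187.result.1 (fun a b => hG.is_comm.comm a b) χ) x y
  · by_cases hχ : (χ : G → ℂ) 1 = 1
    · exact linear_mul hχ x y
    have key := vanish_off p P A hPn hAc hcop hAP hC hDn hCD hfpf
    have hxP : x ∈ (P : Subgroup G) → r = p := fun h =>
      eq_prime_of_mem hp.out hr P.2 h hx hxo
    have hyP : y ∈ (P : Subgroup G) → s = p := fun h =>
      eq_prime_of_mem hp.out hs P.2 h hy hyo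
    have hxy0 : (χ : G → ℂ) x * (χ : G → ℂ) y = 0 := by
      by_cases h1 : x ∈ (P : Subgroup G)
      · have h2 : y ∉ (P : Subgroup G) := fun h2 => hrs ((hxP h1).trans (hyP h2).symm)
        rw [key y h2 χ hχ, mul_zero]
      · rw [key x h1 χ hχ, zero_mul]
    rw [hxy0]
    apply key _ _ χ hχ
    intro hmem
    by_cases h1 : x ∈ (P : Subgroup G)
    · have h2 : y ∈ (P : Subgroup G) := (Subgroup.mul_mem_cancel_left _ h1).1 hmem
      exact hrs ((hxP h1).trans (hyP h2).symm)
    · have h3 : (QuotientGroup.mk' (P : Subgroup G)) x * (QuotientGroup.mk' (P : Subgroup G)) y = 1 := by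
        rw [← map_mul]
        exact (QuotientGroup.eq_one_iff _).2 hmem
      have h4 : orderOf ((QuotientGroup.mk' (P : Subgroup G)) x) ∣ r ^ m := by
        rw [← hxo]; exact orderOf_map_dvd _ x
      have h5 : orderOf ((QuotientGroup.mk' (P : Subgroup G)) x) ∣ s ^ n := by
        rw [eq_inv_of_mul_eq_one_left h3, orderOf_inv, ← hyo]
        exact orderOf_map_dvd _ y
      have h6 : (r ^ m).Coprime (s ^ n) :=
        Nat.Coprime.pow m n ((Nat.coprime_primes hr hs).2 hrs)
      have h7 := orderOf_eq_one_iff.1 (Nat.eq_one_of_dvd_coprimes h6 h4 h5)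
      exact h1 ((QuotientGroup.eq_one_iff x).1 h7)

/-- The bound on coprime parts of the order. -/
theorem ordCompl_lt {G : Type*} [Group G] [Finite G] {p : ℕ} {χ : IrrCharacter G}
    (hχ : (χ : G → ℂ) 1 ≠ 1)
    (h : ∀ r : ℕ, r.Prime → r ≠ p → ∀ x : G, x ≠ 1 → (∃ k, orderOf x = r ^ k) → (χ : G → ℂ) x = 0) :
    ordCompl[p] (Nat.card G) < ordProj[p] (Nat.card G) := by
  obtain ⟨d, hd0, hd⟩ := Characters.Core.isIrr_apply_one χ.2
  have hlt := sq_lt hχ hd
  have hn : Nat.card G ≠ 0 := Nat.card_pos.ne'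
  have hdvd : ordCompl[p] (Nat.card G) ∣ d := by
    rw [← Nat.factorization_prime_le_iff_dvd (Nat.ordCompl_pos p hn).ne' hd0.ne']
    intro r hr
    by_cases hrp : r = p
    · subst hrp
      rw [Nat.factorization_ordCompl]
      simp
    · rw [Nat.factorization_ordCompl, Finsupp.erase_ne hrp]
      haveI : Fact r.Prime := ⟨hr⟩
      obtain ⟨P⟩ : Nonempty (Sylow r G) := inferInstance
      obtain ⟨k, hk⟩ := S0189.result r P (χ : G → ℂ) (Characters.Core.isIrr_isCharacter χ.2) (by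
        intro g hg hg1
        apply h r hr hrp g hg1
        obtain ⟨k, hk⟩ := IsPGroup.iff_orderOf.1 P.2 ⟨g, hg⟩
        refine ⟨k, ?_⟩
        rw [← hk, ← Subgroup.orderOf_coe])
      have hk' : d = Nat.card P * k := by
        rw [hd] at hk
        exact_mod_cast hk
      rw [← hr.pow_dvd_iff_le_factorization hd0.ne', ← P.card_eq_multiplicity, hk']
      exact dvd_mul_right _ _
  have hle := Nat.le_of_dvd hd0 hdvd
  have hmul := Nat.ordProj_mul_ordCompl_eq_self (Nat.card G) p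
  by_contra hcon
  push Not at hcon
  have : Nat.card G ≤ d ^ 2 := by
    calc Nat.card G = ordProj[p] (Nat.card G) * ordCompl[p] (Nat.card G) := hmul.symm
      _ ≤ ordCompl[p] (Nat.card G) * ordCompl[p] (Nat.card G) := Nat.mul_le_mul_right _ hcon
      _ ≤ d * d := Nat.mul_le_mul hle hle
      _ = d ^ 2 := (sq d).symm
  omega

/-- There is one prime `p` such that all non-linear characters vanish on the non-identity
`q`-elements for all primes `q ≠ p`. -/
theorem exists_prime {G : Type*} [Group G] [Finite G]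
    (hyp : ∀ (x y : G) (χ : Cfsg.IrrCharacter G), x ≠ 1 → y ≠ 1 → (∃ p q a b : ℕ, p.Prime ∧ q.Prime ∧ p ≠ q ∧ orderOf x = p ^ a ∧ orderOf y = q ^ b) → (χ : G → ℂ) (x * y) = (χ : G → ℂ) x * (χ : G → ℂ) y)
    (hG : ¬ IsMulCommutative G) :
    ∃ p : ℕ, p.Prime ∧ ∀ χ : IrrCharacter G, (χ : G → ℂ) 1 ≠ 1 → ∀ r : ℕ, r.Prime → r ≠ p →
      ∀ x : G, x ≠ 1 → (∃ k, orderOf x = r ^ k) → (χ : G → ℂ) x = 0 := by
  -- step 1
  have h1 : ∀ χ : IrrCharacter G, (χ : G → ℂ) 1 ≠ 1 → ∀ r s : ℕ, r.Prime → s.Prime → r ≠ s →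
      ∀ x y : G, x ≠ 1 → y ≠ 1 → (∃ k, orderOf x = r ^ k) → (∃ k, orderOf y = s ^ k) →
      (χ : G → ℂ) x * (χ : G → ℂ) y = 0 := by
    intro χ hχ r s hr hs hrs x y hx hy ⟨k, hk⟩ ⟨l, hl⟩
    apply mul_eq_zero_of_mult hχ x y
    intro a
    apply hyp _ _ χ
    · intro hc
      apply hx
      have := congrArg (fun z => a⁻¹ * z * a) hc
      simpa [mul_assoc] using this
    · exact hy
    · refine ⟨r, s, k, l, hr, hs, hrs, ?_, hl⟩
      rw [← hk]
      exact MulEquiv.orderOf_eq (MulAut.conj a) x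
  -- every non-linear character has a bad prime
  have h2 : ∀ χ : IrrCharacter G, (χ : G → ℂ) 1 ≠ 1 → ∃ p : ℕ, p.Prime ∧ 
      ∀ r : ℕ, r.Prime → r ≠ p → ∀ x : G, x ≠ 1 → (∃ k, orderOf x = r ^ k) → (χ : G → ℂ) x = 0 := by
    intro χ hχ
    by_cases hbad : ∃ p : ℕ, p.Prime ∧ ∃ x : G, x ≠ 1 ∧ (∃ k, orderOf x = p ^ k) ∧ (χ : G → ℂ) x ≠ 0
    · obtain ⟨p, hp, x, hx, hxo, hx0⟩ := hbad
      refine ⟨p, hp, ?_⟩
      intro r hr hrp y hy hyo
      have := h1 χ hχ p r hp hr (Ne.symm hrp) x y hx hy hxo hyo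
      rcases mul_eq_zero.1 this with h | h
      · exact absurd h hx0
      · exact h
    · push Not at hbad
      exact ⟨2, Nat.prime_two, fun r hr _ x hx hxo => hbad r hr x hx hxo⟩
  have h3 : ∃ χ : IrrCharacter G, (χ : G → ℂ) 1 ≠ 1 := by
    by_contra hcon
    push Not at hcon
    exact hG ⟨⟨S0187.result.2 hcon⟩⟩
  obtain ⟨χ₀, hχ₀⟩ := h3
  obtain ⟨p, hp, hp0⟩ := h2 χ₀ hχ₀
  refine ⟨p, hp, ?_⟩
  intro χ hχ
  obtain ⟨q, hq, hq0⟩ := h2 χ hχ
  by_cases hpq : q = p
  · rw [← hpq]; exact hq0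
  exfalso
  have e1 := ordCompl_lt hχ₀ hp0
  have e2 := ordCompl_lt hχ hq0
  have hn : Nat.card G ≠ 0 := Nat.card_pos.ne'
  have hdvd : ∀ {p q : ℕ}, p.Prime → q.Prime → q ≠ p →
      ordProj[q] (Nat.card G) ≤ ordCompl[p] (Nat.card G) := by
    intro p q hp hq hqp
    apply Nat.le_of_dvd (Nat.ordCompl_pos p hn)
    rw [hq.pow_dvd_iff_le_factorization (Nat.ordCompl_pos p hn).ne', Nat.factorization_ordCompl,
      Finsupp.erase_ne hqp]
  have e3 := hdvd hp hq hpq
  have e4 := hdvd hq hp (Ne.symm hpq)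
  omega

/-- (1) implies (2). -/
theorem structure_of_mult {G : Type*} [Group G] [Finite G]
    (hyp : ∀ (x y : G) (χ : Cfsg.IrrCharacter G), x ≠ 1 → y ≠ 1 → (∃ p q a b : ℕ, p.Prime ∧ q.Prime ∧ p ≠ q ∧ orderOf x = p ^ a ∧ orderOf y = q ^ b) → (χ : G → ℂ) (x * y) = (χ : G → ℂ) x * (χ : G → ℂ) y)
    (hnp : ¬ ∃ p : ℕ, p.Prime ∧ IsPGroup p G) (hG : ¬ IsMulCommutative G) :
    ∃ (p : ℕ) (_ : Fact p.Prime) (P : Sylow p G) (A : Subgroup G), (P : Subgroup G).Normal ∧ IsCyclic ↥A ∧ A ≠ ⊥ ∧ (Nat.card ↥A).Coprime p ∧ A ⊔ (P : Subgroup G) = ⊤ ∧ IsMulCommutative ↥((P : Subgroup G) ⊓ Subgroup.centralizer (A : Set G)) ∧ (⁅A, (P : Subgroup G)⁆).Normal ∧ ((P : Subgroup G) ⊓ Subgroup.centralizer (A : Set G)) ⊔ ⁅A, (P : Subgroup G)⁆ = (P : Subgroup G) ∧ ((P : Subgroup G) ⊓ Subgroup.centralizer (A : Set G)) ⊓ ⁅A, (P : Subgroup G)⁆ = ⊥ ∧ ∀ a ∈ A, a ≠ 1 → ∀ d ∈ ⁅A, (P : Subgroup G)⁆, a * d = d * a → d = 1 := by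
  obtain ⟨p, hp, hvan⟩ := exists_prime hyp hG
  haveI : Fact p.Prime := ⟨hp⟩
  have hcent : ∀ r : ℕ, r.Prime → r ≠ p → ∀ x : G, x ≠ 1 → (∃ k, orderOf x = r ^ k) →
      Nat.card (Subgroup.centralizer ({x} : Set G)) = (commutator G).index := by
    intro r hr hrp x hx hxo
    exact card_centralizer_of_vanish x fun χ hχ => hvan χ hχ r hr hrp x hx hxo
  -- `G'` is a `p`-group
  have hG' : IsPGroup p (commutator G) := by
    have h1 : ∀ q : ℕ, q.Prime → q ∣ Nat.card (commutator G) → q = p := by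
      intro q hq hqd
      by_contra hqp
      haveI : Fact q.Prime := ⟨hq⟩
      obtain ⟨Q⟩ : Nonempty (Sylow q G) := inferInstance
      have hqG : q ∣ Nat.card G := hqd.trans (Subgroup.card_subgroup_dvd_card _)
      have hQ : q ∣ Nat.card Q := Q.dvd_card_of_dvd_card hqG
      haveI : Nontrivial Q := by
        rw [← Finite.one_lt_card_iff_nontrivial]
        exact lt_of_lt_of_le hq.one_lt (Nat.le_of_dvd Nat.card_pos hQ)
      haveI := Q.2.center_nontrivial
      obtain ⟨z, hz⟩ := exists_ne (1 : Subgroup.center Q)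
      have hz1 : ((z : Q) : G) ≠ 1 := by
        intro h
        exact hz (Subtype.ext (Subtype.ext h))
      have hzo : ∃ k, orderOf ((z : Q) : G) = q ^ k := by
        obtain ⟨k, hk⟩ := IsPGroup.iff_orderOf.1 Q.2 (z : Q)
        exact ⟨k, by rw [← hk, ← Subgroup.orderOf_coe]⟩
      have h2 := hcent q hq hqp _ hz1 hzo
      have h3 : (Q : Subgroup G) ≤ Subgroup.centralizer ({((z : Q) : G)} : Set G) := by
        intro x hx
        rw [Subgroup.mem_centralizer_singleton_iff]
        exact congrArg Subtype.val (Subgroup.mem_center_iff.1 z.2 ⟨x, hx⟩)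
      have h4 : Nat.card Q ∣ (commutator G).index := by
        rw [← h2]; exact Subgroup.card_dvd_of_le h3
      obtain ⟨m, hm⟩ := h4
      obtain ⟨l, hl⟩ := hqd
      have h5 := Subgroup.card_mul_index (commutator G)
      have h6 := Subgroup.card_mul_index (Q : Subgroup G)
      have h7 : (Q : Subgroup G).index = q * (l * m) := by
        have : Nat.card Q * (Q : Subgroup G).index = Nat.card Q * (q * (l * m)) := by
          rw [h6, ← h5, hm, hl]; ring
        exact Nat.eq_of_mul_eq_mul_left Nat.card_pos this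
      exact Q.not_dvd_index (h7 ▸ dvd_mul_right _ _)
    rw [IsPGroup.iff_card]
    exact ⟨_, Nat.eq_prime_pow_of_unique_prime_dvd Nat.card_pos.ne' (fun hq hqd => h1 _ hq hqd)⟩
  obtain ⟨P, hP⟩ := hG'.exists_le_sylow
  have hPn : (P : Subgroup G).Normal := by
    constructor
    intro x hx g
    have h1 : g * x * g⁻¹ * x⁻¹ ∈ commutator G :=
      Subgroup.commutator_mem_commutator (Subgroup.mem_top g) (Subgroup.mem_top x)
    have h2 : g * x * g⁻¹ = (g * x * g⁻¹ * x⁻¹) * x := by group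
    rw [h2]
    exact mul_mem (hP h1) hx
  -- the complement
  have hcopP : (Nat.card P).Coprime (P : Subgroup G).index := P.card_coprime_index
  obtain ⟨A, hA⟩ := Subgroup.exists_right_complement'_of_coprime hcopP
  have hAcard : Nat.card A = (P : Subgroup G).index := hA.symm.index_eq_card.symm
  have hcop : (Nat.card A).Coprime p := by
    rw [hAcard]
    exact ((Nat.Prime.coprime_iff_not_dvd hp).2 P.not_dvd_index).symm
  have hAP : A ⊔ (P : Subgroup G) = ⊤ := by rw [sup_comm]; exact hA.sup_eq_top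
  have hdisj : A ⊓ (P : Subgroup G) = ⊥ := by rw [inf_comm]; exact hA.disjoint.eq_bot
  have hA1 : A ≠ ⊥ := by
    rintro rfl
    rw [bot_sup_eq] at hAP
    apply hnp
    refine ⟨p, hp, ?_⟩
    have := P.2
    rw [show ((P : Sylow p G) : Subgroup G) = ⊤ from hAP] at this
    exact this.of_surjective (Subgroup.topEquiv (G := G)).toMonoidHom Subgroup.topEquiv.surjective
  have hG'1 : commutator G ≠ ⊥ := by
    intro h
    apply hG
    refine ⟨⟨fun a b => ?_⟩⟩
    have h1 : ⁅a, b⁆ ∈ commutator G :=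
      Subgroup.commutator_mem_commutator (Subgroup.mem_top a) (Subgroup.mem_top b)
    rw [h, Subgroup.mem_bot, commutatorElement_eq_one_iff_mul_comm] at h1
    exact h1
  have hAcomm : ∀ a ∈ A, ∀ b ∈ A, a * b = b * a := by
    intro a ha b hb
    have h1 : ⁅a, b⁆ ∈ A ⊓ (P : Subgroup G) := by
      refine ⟨?_, hP (Subgroup.commutator_mem_commutator (Subgroup.mem_top a) (Subgroup.mem_top b))⟩
      rw [commutatorElement_def]
      exact A.mul_mem (A.mul_mem (A.mul_mem ha hb) (A.inv_mem ha)) (A.inv_mem hb)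
    rw [hdisj, Subgroup.mem_bot, commutatorElement_eq_one_iff_mul_comm] at h1
    exact h1
  have hAPcop : ∀ B : Subgroup G, B ≤ A → (Nat.card B).Coprime (Nat.card P) := by
    intro B hB
    have h1 : (Nat.card B).Coprime p := Nat.Coprime.coprime_dvd_left (Subgroup.card_dvd_of_le hB) hcop
    obtain ⟨k, hk⟩ := IsPGroup.iff_card.1 P.2
    rw [hk]
    exact Nat.Coprime.pow_right k h1
  have hPsolv : Group.IsSolvable (P : Subgroup G) := by
    haveI := P.2.isNilpotent
    infer_instance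
  -- fixed-point-freeness on `G'` for elements of prime order
  have hfree0 : ∀ a ∈ A, (orderOf a).Prime →
      Subgroup.centralizer ({a} : Set G) ⊓ commutator G = ⊥ := by
    intro a ha hprime
    have hne : a ≠ 1 := by
      rintro rfl
      rw [orderOf_one] at hprime
      exact Nat.not_prime_one hprime
    have hqp : orderOf a ≠ p := by
      intro h
      have h1 : orderOf a ∣ Nat.card A := Subgroup.orderOf_dvd_natCard A ha
      rw [h] at h1
      have := Nat.eq_one_of_dvd_coprimes hcop h1 dvd_rfl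
      exact hp.one_lt.ne' this
    have h1 := hcent (orderOf a) hprime hqp a hne ⟨1, (pow_one _).symm⟩
    -- `G = C(a) G'`
    have hz : Subgroup.zpowers a ≤ A := by rwa [Subgroup.zpowers_le]
    have h2 := S0026.result (Subgroup.zpowers a) (P : Subgroup G)
      (by
        intro x _
        rw [Subgroup.mem_normalizer_iff]
        intro y
        exact ⟨fun hy => hPn.conj_mem y hy x, fun hy => by
          have := hPn.conj_mem _ hy x⁻¹
          simpa [mul_assoc] using this⟩)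
      (hAPcop _ hz) (Or.inr hPsolv)
    have h3 : commutator G ⊔ Subgroup.centralizer ({a} : Set G) = ⊤ := by
      rw [eq_top_iff, ← hAP, sup_le_iff]
      constructor
      · refine le_trans ?_ le_sup_right
        intro b hb
        rw [Subgroup.mem_centralizer_singleton_iff]
        exact hAcomm b hb a ha
      · rw [← h2]
        apply sup_le_sup
        · rw [_root_.commutator_def]
          exact Subgroup.commutator_mono le_top le_top
        · refine le_trans inf_le_right ?_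
          apply Subgroup.centralizer_le
          rintro x rfl
          exact Subgroup.mem_zpowers x
    have h4 : (commutator G).relIndex (Subgroup.centralizer ({a} : Set G)) = (commutator G).index := by
      rw [← Subgroup.relIndex_sup_left, h3, Subgroup.relIndex_top_right]
    have h5 := Subgroup.card_mul_index ((commutator G).subgroupOf (Subgroup.centralizer ({a} : Set G)))
    have h6 : ((commutator G).subgroupOf (Subgroup.centralizer ({a} : Set G))).index =
      (commutator G).index := h4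
    rw [h6, h1] at h5
    have h7 : Nat.card ((commutator G).subgroupOf (Subgroup.centralizer ({a} : Set G))) = 1 := by
      have hpos : 0 < (commutator G).index :=
        Nat.pos_of_ne_zero Subgroup.index_ne_zero_of_finite
      exact Nat.eq_of_mul_eq_mul_right hpos (h5.trans (one_mul _).symm)
    rw [Subgroup.card_eq_one, Subgroup.subgroupOf_eq_bot] at h7
    exact h7.symm.eq_bot
  have hfree : ∀ a ∈ A, a ≠ 1 → Subgroup.centralizer ({a} : Set G) ⊓ commutator G = ⊥ := by
    intro a ha ha1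
    obtain ⟨q, hq, hqa⟩ := Nat.exists_prime_and_dvd (mt orderOf_eq_one_iff.1 ha1)
    have h1 : orderOf (a ^ (orderOf a / q)) = q := orderOf_pow_orderOf_div (orderOf_pos a).ne' hqa
    have h2 := hfree0 (a ^ (orderOf a / q)) (pow_mem ha _) (by rw [h1]; exact hq)
    rw [eq_bot_iff, ← h2]
    apply inf_le_inf_right
    intro x hx
    rw [Subgroup.mem_centralizer_singleton_iff] at hx ⊢
    exact (show Commute x a from hx).pow_right _
  -- a nontrivial element of `A`
  obtain ⟨a₀, ha₀, ha₀1⟩ : ∃ a : G, a ∈ A ∧ a ≠ 1 := by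
    obtain ⟨a, h⟩ := Subgroup.ne_bot_iff_exists_ne_one.1 hA1
    exact ⟨a, a.2, fun h' => h (Subtype.ext h')⟩
  have hcle : Subgroup.centralizer (A : Set G) ≤ Subgroup.centralizer ({(a₀ : G)} : Set G) := by
    apply Subgroup.centralizer_le
    rintro x rfl
    exact ha₀
  have hDle : ⁅A, (P : Subgroup G)⁆ ≤ commutator G := by
    rw [_root_.commutator_def]
    exact Subgroup.commutator_mono le_top le_top
  have hnorm : A ≤ Subgroup.normalizer ((P : Subgroup G) : Set G) := by
    intro x _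
    rw [Subgroup.mem_normalizer_iff]
    intro y
    exact ⟨fun hy => hPn.conj_mem y hy x, fun hy => by
      have := hPn.conj_mem _ hy x⁻¹
      simpa [mul_assoc] using this⟩
  have hsup : ((P : Subgroup G) ⊓ Subgroup.centralizer (A : Set G)) ⊔ ⁅A, (P : Subgroup G)⁆ =
      (P : Subgroup G) := by
    have := S0026.result A (P : Subgroup G) hnorm (hAPcop A le_rfl) (Or.inr hPsolv)
    rw [Subgroup.commutator_comm, sup_comm]
    exact this
  have hDn : (⁅A, (P : Subgroup G)⁆).Normal := by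
    rw [← Subgroup.normalizer_eq_top_iff, eq_top_iff, ← hAP, sup_le_iff]
    exact ⟨Subgroup.normalizer_commutator_ge_left _ _, Subgroup.normalizer_commutator_ge_right _ _⟩
  have hinf : ((P : Subgroup G) ⊓ Subgroup.centralizer (A : Set G)) ⊓ ⁅A, (P : Subgroup G)⁆ = ⊥ := by
    rw [eq_bot_iff, ← hfree a₀ ha₀ ha₀1]
    exact inf_le_inf (inf_le_right.trans hcle) hDle
  have hD1 : ⁅A, (P : Subgroup G)⁆ ≠ ⊥ := by
    intro h
    rw [h, sup_bot_eq] at hsup
    apply hG'1
    rw [eq_bot_iff, ← hfree a₀ ha₀ ha₀1]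
    refine le_inf ?_ le_rfl
    refine hP.trans ?_
    rw [← hsup]
    exact inf_le_right.trans hcle
  refine ⟨p, ⟨hp⟩, P, A, hPn, ?_, hA1, hcop, hAP, ?_, hDn, hsup, hinf, ?_⟩
  · by_contra hnc
    haveI : IsMulCommutative A := ⟨⟨fun a b => Subtype.ext (hAcomm a a.2 b b.2)⟩⟩
    have h1 := S0058.result A ⁅A, (P : Subgroup G)⁆ hnc
      (Subgroup.normalizer_commutator_ge_left _ _)
      (by
        have : ⁅A, (P : Subgroup G)⁆ ≤ (P : Subgroup G) := hDle.trans hP
        exact Nat.Coprime.coprime_dvd_right (Subgroup.card_dvd_of_le this) (hAPcop A le_rfl))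
    apply hD1
    rw [eq_bot_iff, ← h1]
    apply iSup₂_le
    rintro a ⟨ha, ha1⟩
    rw [← hfree a ha ha1, inf_comm]
    exact inf_le_inf_left _ hDle
  · refine ⟨⟨?_⟩⟩
    rintro ⟨x, hx⟩ ⟨y, hy⟩
    apply Subtype.ext
    have h1 : ⁅x, y⁆ ∈ Subgroup.centralizer ({(a₀ : G)} : Set G) ⊓ commutator G := by
      refine ⟨?_, Subgroup.commutator_mem_commutator (Subgroup.mem_top x) (Subgroup.mem_top y)⟩
      rw [commutatorElement_def]
      exact Subgroup.mul_mem _ (Subgroup.mul_mem _ (Subgroup.mul_mem _ (hcle hx.2) (hcle hy.2))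
        (Subgroup.inv_mem _ (hcle hx.2))) (Subgroup.inv_mem _ (hcle hy.2))
    rw [hfree a₀ ha₀ ha₀1, Subgroup.mem_bot, commutatorElement_eq_one_iff_mul_comm] at h1
    exact h1
  · intro a ha ha1 d hd had
    have h1 : d ∈ Subgroup.centralizer ({a} : Set G) ⊓ commutator G :=
      ⟨Subgroup.mem_centralizer_singleton_iff.2 had.symm, hDle hd⟩
    rw [hfree a ha ha1, Subgroup.mem_bot] at h1
    exact h1

/-- For a finite group G the following are equivalent. (1) χ(x y) = χ(x) χ(y) for every irreducible character χ and all non-identity elements x, y of prime power orders for two different primes. (2) G is a p-group for some prime p, or G is abelian, or for some prime p: G = A P with P a normal Sylow p-subgroup and A a nontrivial cyclic subgroup of order prime to p such that, with C = C_P(A) and D = [A, P], one has P = C D, C abelian, D normal in G, C ∩ D = 1, and A acts fixed-point-freely on D (no non-identity element of A centralizes a non-identity element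 of D). -/
theorem result {G : Type*} [Group G] [Finite G] : (∀ (x y : G) (χ : Cfsg.IrrCharacter G), x ≠ 1 → y ≠ 1 → (∃ p q a b : ℕ, p.Prime ∧ q.Prime ∧ p ≠ q ∧ orderOf x = p ^ a ∧ orderOf y = q ^ b) → (χ : G → ℂ) (x * y) = (χ : G → ℂ) x * (χ : G → ℂ) y) ↔ ((∃ p : ℕ, p.Prime ∧ IsPGroup p G) ∨ IsMulCommutative G ∨ ∃ (p : ℕ) (_ : Fact p.Prime) (P : Sylow p G) (A : Subgroup G), (P : Subgroup G).Normal ∧ IsCyclic ↥A ∧ A ≠ ⊥ ∧ (Nat.card ↥A).Coprime p ∧ A ⊔ (P : Subgroup G) = ⊤ ∧ IsMulCommutative ↥((P : Subgroup G) ⊓ Subgroup.centralizer (A : Set G)) ∧ (⁅A, (P : Subgroup G)⁆).Normal ∧ ((P : Subgroup G) ⊓ Subgroup.centralizer (A : Set G)) ⊔ ⁅A, (P : Subgroup G)⁆ = (P : Subgroup G) ∧ ((P : Subgroup G) ⊓ Subgroup.centralizer (A : Set G)) ⊓ ⁅A, (P : Subgroup G)⁆ = ⊥ ∧ ∀ a ∈ A, a ≠ 1 → ∀ d ∈ ⁅A, (P : Subgroup G)⁆, a * d = d * a → d = 1) := by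
  constructor
  · intro hyp
    by_cases h1 : ∃ p : ℕ, p.Prime ∧ IsPGroup p G
    · exact Or.inl h1
    by_cases h2 : IsMulCommutative G
    · exact Or.inr (Or.inl h2)
    exact Or.inr (Or.inr (structure_of_mult hyp h1 h2))
  · intro h x y χ hx hy hxy
    exact mult_of_structure h x y χ hx hy hxy

end Cfsg.Agent.S4756
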