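import Cfsg.Statements.S4757
import Cfsg.Agent.H668.ConstDiff
import Cfsg.Agent.CharactersDeep.QuatSylow
import Cfsg.Agent.Lib.Cores

set_option autoImplicit false
set_option linter.unusedSectionVars false
set_option linter.style.haveILetI false
open scoped ComplexConjugate
open Cfsg

namespace Cfsg.Agent.S4757

open Cfsg.Agent.H668.ConstDiff

/-- An involution with centralizer of order two. -/
theorem structure_of_card {G : Type*} [Group G] [Finite G] (u : G) (hu : u ≠ 1)
    (hc : Nat.card (Subgroup.centralizer ({u} : Set G)) = 2) :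
    orderOf u = 2 ∧ Subgroup.zpowers u ⊔ Cfsg.oddCore G = ⊤ ∧
      Subgroup.centralizer ({u} : Set G) = Subgroup.zpowers u := by
  have hle : Subgroup.zpowers u ≤ Subgroup.centralizer ({u} : Set G) := by
    rw [Subgroup.zpowers_le, Subgroup.mem_centralizer_singleton_iff]
  have ho : orderOf u = 2 := by
    have h1 : orderOf u ∣ 2 := by
      rw [← hc, ← Nat.card_zpowers]
      exact Subgroup.card_dvd_of_le hle
    rcases (Nat.dvd_prime Nat.prime_two).1 h1 with h2 | h2
    · exact absurd (orderOf_eq_one_iff.1 h2) hu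
    · exact h2
  have hC : Subgroup.centralizer ({u} : Set G) = Subgroup.zpowers u := by
    symm
    apply Subgroup.eq_of_le_of_card_ge hle
    rw [hc, Nat.card_zpowers, ho]
  refine ⟨ho, ?_, hC⟩
  haveI : Fact (Nat.Prime 2) := ⟨Nat.prime_two⟩
  have hp : IsPGroup 2 (Subgroup.zpowers u) := by
    apply IsPGroup.of_card (n := 1)
    rw [Nat.card_zpowers, ho, pow_one]
  obtain ⟨P, hP⟩ := hp.exists_le_sylow
  have huP : u ∈ (P : Subgroup G) := hP (Subgroup.mem_zpowers u)
  haveI : Nontrivial P := ⟨⟨⟨u, huP⟩, 1, fun h => hu (congrArg Subtype.val h)⟩⟩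
  haveI := P.2.center_nontrivial
  obtain ⟨z, hz⟩ := exists_ne (1 : Subgroup.center P)
  have hz1 : ((z : P) : G) ≠ 1 := by
    intro h
    apply hz
    apply Subtype.ext
    apply Subtype.ext
    exact h
  have hzc : ∀ x ∈ (P : Subgroup G), x * ((z : P) : G) = ((z : P) : G) * x := by
    intro x hx
    have := Subgroup.mem_center_iff.1 z.2 ⟨x, hx⟩
    exact congrArg Subtype.val this
  have hzu : ((z : P) : G) ∈ Subgroup.zpowers u := by
    rw [← hC, Subgroup.mem_centralizer_singleton_iff]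
    exact (hzc u huP).symm
  have hzu2 : ((z : P) : G) = u := by
    rcases (Subgroup.mem_zpowers_iff.1 hzu) with ⟨k, hk⟩
    rcases Int.even_or_odd k with ⟨m, hm⟩ | ⟨m, hm⟩
    · exfalso
      apply hz1
      rw [← hk, hm, ← two_mul, zpow_mul, zpow_ofNat, ← ho, pow_orderOf_eq_one, one_zpow]
    · rw [← hk, hm, zpow_add, zpow_one, zpow_mul]
      have : u ^ (2 : ℤ) = 1 := by
        rw [zpow_ofNat, ← ho, pow_orderOf_eq_one]
      rw [this, one_zpow, one_mul]
  have hPle : (P : Subgroup G) ≤ Subgroup.centralizer ({u} : Set G) := by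
    intro x hx
    rw [Subgroup.mem_centralizer_singleton_iff]
    rw [← hzu2]
    exact hzc x hx
  have hPu : (P : Subgroup G) = Subgroup.zpowers u := by
    apply le_antisymm _ hP
    rw [← hC]; exact hPle
  have hcyc : IsCyclic P := by
    have : IsCyclic (Subgroup.zpowers u) := inferInstance
    rw [← hPu] at this
    exact this
  obtain ⟨K, hK1, hK2, hK3⟩ := CharactersDeep.QuatSylow.exists_two_complement P hcyc
  have hKn : K.Normal := by
    constructor
    intro x hx g
    rw [hK3] at hx ⊢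
    have : orderOf (g * x * g⁻¹) = orderOf x := by
      have := MulAut.conj_apply g x
      rw [← this]
      exact MulEquiv.orderOf_eq (MulAut.conj g) x
    rwa [this]
  have hKle : K ≤ Cfsg.oddCore G :=
    Lib.Cores.le_pPrimeCore hKn (Nat.coprime_two_right.2 hK1)
  rw [eq_top_iff, ← hK2, ← hPu]
  rw [sup_comm]
  exact sup_le_sup_left hKle _

/-- `(a)` implies `(b)`. -/
theorem not_perfect {G : Type*} [Group G] [Finite G] (u : G) (h1 : orderOf u = 2)
    (h2 : Subgroup.zpowers u ⊔ Cfsg.oddCore G = ⊤) : commutator G ≠ ⊤ := by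
  intro hcon
  have hle : commutator G ≤ Cfsg.oddCore G := by
    rw [commutator_def, Subgroup.commutator_le]
    have key : ∀ g : G, ∃ (k : ℤ), g⁻¹ * u ^ k ∈ Cfsg.oddCore G := by
      intro g
      have hg : g ∈ Subgroup.zpowers u ⊔ Cfsg.oddCore G := h2 ▸ Subgroup.mem_top g
      rw [Subgroup.mem_sup_of_normal_right] at hg
      obtain ⟨a, ⟨k, rfl⟩, b, hb, rfl⟩ := hg
      refine ⟨k, ?_⟩
      simp only [mul_inv_rev]
      rw [inv_mul_cancel_right]
      exact inv_mem hb
    intro g _ h _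
    obtain ⟨k, hk⟩ := key g
    obtain ⟨l, hl⟩ := key h
    have e1 : (QuotientGroup.mk' (Cfsg.oddCore G)) g = (QuotientGroup.mk' (Cfsg.oddCore G)) u ^ k := by
      rw [← map_zpow]
      exact (QuotientGroup.eq.2 hk)
    have e2 : (QuotientGroup.mk' (Cfsg.oddCore G)) h = (QuotientGroup.mk' (Cfsg.oddCore G)) u ^ l := by
      rw [← map_zpow]
      exact (QuotientGroup.eq.2 hl)
    rw [← QuotientGroup.ker_mk' (Cfsg.oddCore G), MonoidHom.mem_ker, map_commutatorElement,
      e1, e2, commutatorElement_eq_one_iff_mul_comm, ← zpow_add, ← zpow_add, add_comm]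
  rw [hcon, top_le_iff] at hle
  have h3 := Lib.Cores.pPrimeCore_coprime (G := G) 2
  have h4 : Nat.card (pPrimeCore 2 G) = Nat.card G := by
    have : pPrimeCore 2 G = ⊤ := hle
    rw [this]; exact Subgroup.card_top
  rw [h4] at h3
  have h5 : 2 ∣ Nat.card G := h1 ▸ orderOf_dvd_natCard u
  have := Nat.eq_one_of_dvd_coprimes h3 h5 dvd_rfl
  omega

/-- `(b)` implies `(c)`. -/
theorem eq_two {G : Type*} [Group G] [Finite G] (u : G) (hu : u ≠ 1) (c : ℂ)
    (hyp : ∀ χ : Cfsg.IrrCharacter G, (χ : G → ℂ) ≠ (fun _ => (1 : ℂ)) →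
      ((χ : G → ℂ) 1 - (χ : G → ℂ) u = c ∨ (χ : G → ℂ) u = 0)) (hne : commutator G ≠ ⊤) :
    c = 2 := by
  classical
  haveI : Fintype (IrrCharacter G) := by
    haveI := Characters.Core.finite_irr (G := G)
    exact Fintype.ofFinite _
  have hval : ∀ f : G →* ℂˣ, f ≠ 1 → 1 - (f u : ℂ) = c := by
    intro f hf
    rcases hyp (ofHom f) (ne_one_iff.1 (ofHom_ne_one hf)) with h | h
    · rw [ofHom_coe, ofHom_coe] at h
      simpa using h
    · rw [ofHom_coe] at h
      exact absurd h (f u).ne_zero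
  -- `c ≠ 0`
  have hc0 : c ≠ 0 := by
    intro hc
    obtain ⟨d, v, hd0, hd, hv, hvd, hd1, hv1⟩ := exists_vals u 0 (by
      intro χ hχ
      have := hyp χ hχ
      rw [hc] at this
      simpa using this)
    have hs := sum_dv u hu d v hd hv
    have hpos : 0 < ∑ χ, d χ * v χ := by
      apply Finset.sum_pos'
      · intro χ _
        by_cases h : χ = one G
        · rw [h, hd1, hv1]; norm_num
        · rcases hvd χ h with h2 | h2
          · rw [h2]
            have := hd0 χ
            positivity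
          · rw [h2]; simp
      · exact ⟨one G, Finset.mem_univ _, by rw [hd1, hv1]; norm_num⟩
    omega
  obtain ⟨f, hf⟩ := exists_hom_ne_one hne
  by_cases h2 : f ^ 2 = 1
  · have h3 : ((f u : ℂ)) ^ 2 = 1 := by
      have := DFunLike.congr_fun h2 u
      rw [MonoidHom.pow_apply] at this
      have := congrArg Units.val this
      simpa using this
    have h4 := hval f hf
    have h6 : ((f u : ℂ) - 1) * ((f u : ℂ) + 1) = 0 := by linear_combination h3
    rcases mul_eq_zero.1 h6 with h5 | h5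
    · exact absurd (by rw [← h4]; linear_combination -h5) hc0
    · rw [← h4]; linear_combination -h5
  · exfalso
    have h3 := hval f hf
    have h4 := hval (f ^ 2) h2
    rw [MonoidHom.pow_apply] at h4
    push_cast at h4
    have h5 : (f u : ℂ) ≠ 0 := (f u).ne_zero
    have h6 : (f u : ℂ) * ((f u : ℂ) - 1) = 0 := by
      have : (f u : ℂ) ^ 2 = f u := by
        have := h4.trans h3.symm
        linear_combination -this
      linear_combination this
    rcases mul_eq_zero.1 h6 with h7 | h7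
    · exact h5 h7
    · apply hc0
      rw [← h3]
      linear_combination -h7

/-- `c = 2` gives a non-perfect group with a centralizer of order two. -/
theorem of_eq_two {G : Type*} [Group G] [Finite G] (u : G) (hu : u ≠ 1)
    (hyp : ∀ χ : Cfsg.IrrCharacter G, (χ : G → ℂ) ≠ (fun _ => (1 : ℂ)) →
      ((χ : G → ℂ) 1 - (χ : G → ℂ) u = 2 ∨ (χ : G → ℂ) u = 0)) :
    commutator G ≠ ⊤ ∧ Nat.card (Subgroup.centralizer ({u} : Set G)) = 2 := by
  classical
  haveI : Fintype (IrrCharacter G) := by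
    haveI := Characters.Core.finite_irr (G := G)
    exact Fintype.ofFinite _
  obtain ⟨d, v, hd0, hd, hv, hvd, hd1, hv1⟩ := exists_vals u 2 (by
      intro χ hχ
      have := hyp χ hχ
      simpa using this)
  have hs := sum_dv u hu d v hd hv
  have hvv := sum_vv u v hv
  have hsplit : ∀ f : IrrCharacter G → ℤ,
      ∑ χ, f χ = f (one G) + ∑ χ ∈ Finset.univ.erase (one G), f χ := by
    intro f
    rw [Finset.add_sum_erase _ _ (Finset.mem_univ _)]
  -- linear characters
  have hlin : ∀ χ : IrrCharacter G, d χ = 1 → ∃ f : G →* ℂˣ, χ = ofHom f := by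
    intro χ h
    apply exists_ofHom
    rw [hd, h]; simp
  have hval : ∀ f : G →* ℂˣ, f ≠ 1 → (f u : ℂ) = -1 := by
    intro f hf
    rcases hyp (ofHom f) (ne_one_iff.1 (ofHom_ne_one hf)) with h | h
    · rw [ofHom_coe, ofHom_coe] at h
      have h2 : (1 : ℂ) - (f u : ℂ) = 2 := by simpa using h
      linear_combination -h2
    · rw [ofHom_coe] at h
      exact absurd h (f u).ne_zero
  have hterm : ∀ χ : IrrCharacter G, χ ≠ one G → d χ ≠ 1 → 0 ≤ d χ * v χ := by
    intro χ h1 h2
    have := hd0 χ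
    rcases hvd χ h1 with h | h
    · rw [h]
      have : 2 ≤ d χ := by omega
      exact mul_nonneg (by omega) (by omega)
    · rw [h]; simp
  have hex : ∃ χ : IrrCharacter G, χ ≠ one G ∧ d χ = 1 := by
    by_contra hcon
    push Not at hcon
    have h1 := hsplit (fun χ => d χ * v χ)
    rw [hs, hd1, hv1] at h1
    have h2 : 0 ≤ ∑ χ ∈ Finset.univ.erase (one G), d χ * v χ := by
      apply Finset.sum_nonneg
      intro χ hχ
      have := Finset.ne_of_mem_erase hχ
      exact hterm χ this (hcon χ this)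
    omega
  obtain ⟨χ₀, h01, h02⟩ := hex
  obtain ⟨f₀, hf₀⟩ := hlin χ₀ h02
  have hf₀1 : f₀ ≠ 1 := by
    rintro rfl
    exact h01 (hf₀.trans ofHom_one)
  refine ⟨commutator_ne_top_of_hom hf₀1, ?_⟩
  -- uniqueness
  have hprod : ∀ f f' : G →* ℂˣ, f ≠ 1 → f' ≠ 1 → f * f' = 1 := by
    intro f f' h h'
    by_contra hcon
    have h1 := hval _ hcon
    rw [MonoidHom.mul_apply] at h1
    push_cast at h1
    rw [hval f h, hval f' h'] at h1
    norm_num at h1
  have huniq : ∀ f : G →* ℂˣ, f ≠ 1 → f = f₀ := by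
    intro f h
    have h1 := hprod f f₀ h hf₀1
    have h2 := hprod f₀ f₀ hf₀1 hf₀1
    exact mul_right_cancel (h1.trans h2.symm)
  have hrest : ∀ χ : IrrCharacter G, χ ≠ one G → χ ≠ χ₀ → d χ ≠ 1 := by
    intro χ h1 h2 h3
    obtain ⟨f, hf⟩ := hlin χ h3
    apply h2
    rw [hf, hf₀, huniq f]
    rintro rfl
    exact h1 (hf.trans ofHom_one)
  have hv0 : v χ₀ = -1 := by
    have h1 : ((v χ₀ : ℤ) : ℂ) = -1 := by
      rw [← hv, hf₀, ofHom_coe, hval f₀ hf₀1]
    exact_mod_cast h1
  have hmem : χ₀ ∈ Finset.univ.erase (one G) := Finset.mem_erase.2 ⟨h01, Finset.mem_univ _⟩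
  have hsplit2 : ∀ f : IrrCharacter G → ℤ,
      ∑ χ, f χ = f (one G) + (f χ₀ + ∑ χ ∈ (Finset.univ.erase (one G)).erase χ₀, f χ) := by
    intro f
    rw [hsplit f, Finset.add_sum_erase _ _ hmem]
  have h1 := hsplit2 (fun χ => d χ * v χ)
  beta_reduce at h1
  rw [hs, hd1, hv1, h02, hv0] at h1
  have h2 : ∑ χ ∈ (Finset.univ.erase (one G)).erase χ₀, d χ * v χ = 0 := by omega
  have hnn : ∀ χ ∈ (Finset.univ.erase (one G)).erase χ₀, 0 ≤ d χ * v χ := by
    intro χ hχ
    have h3 := Finset.ne_of_mem_erase hχ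
    have h4 := Finset.ne_of_mem_erase (Finset.mem_of_mem_erase hχ)
    exact hterm χ h4 (hrest χ h4 h3)
  have h3 := (Finset.sum_eq_zero_iff_of_nonneg hnn).1 h2
  have h4 : ∀ χ ∈ (Finset.univ.erase (one G)).erase χ₀, v χ ^ 2 = 0 := by
    intro χ hχ
    rcases mul_eq_zero.1 (h3 χ hχ) with h5 | h5
    · exact absurd h5 (hd0 χ).ne'
    · rw [h5]; norm_num
  have h5 := hsplit2 (fun χ => v χ ^ 2)
  beta_reduce at h5
  rw [Finset.sum_eq_zero h4, hv1, hv0, hvv] at h5
  norm_num at h5
  exact_mod_cast h5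

/-- Let u ≠ 1 be an element of the finite group G and c a complex number such that every non-principal irreducible character χ satisfies χ(1) − χ(u) = c or χ(u) = 0. Then the following are equivalent: (a) u has order 2, G is generated by u together with O(G), the largest normal subgroup of G of odd order, and the centralizer of u is {1, u}; (b) G is not perfect; (c) c = 2. -/
theorem result {G : Type*} [Group G] [Finite G] (u : G) (hu : u ≠ 1) (c : ℂ) (hyp : ∀ χ : Cfsg.IrrCharacter G, (χ : G → ℂ) ≠ (fun _ => (1 : ℂ)) → ((χ : G → ℂ) 1 - (χ : G → ℂ) u = c ∨ (χ : G → ℂ) u = 0)) : ((orderOf u = 2 ∧ Subgroup.zpowers u ⊔ Cfsg.oddCore G = ⊤ ∧ Subgroup.centralizer ({u} : Set G) = Subgroup.zpowers u) ↔ commutator G ≠ ⊤) ∧ (commutator G ≠ ⊤ ↔ c = 2) := by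
  have hbc : commutator G ≠ ⊤ → c = 2 := eq_two u hu c hyp
  have hc : c = 2 → commutator G ≠ ⊤ ∧ Nat.card (Subgroup.centralizer ({u} : Set G)) = 2 := by
    rintro rfl
    exact of_eq_two u hu hyp
  refine ⟨⟨fun h => not_perfect u h.1 h.2.1, fun h => ?_⟩, ⟨hbc, fun h => (hc h).1⟩⟩
  exact structure_of_card u hu (hc (hbc h)).2

end Cfsg.Agent.S4757
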