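import Cfsg.Statements.S4758
import Cfsg.Agent.H668.FourGen
import Cfsg.Agent.H668.FourGroupE

set_option autoImplicit false
open Cfsg

namespace Cfsg.Agent.S4758

open Cfsg.Agent.H668

/-- The group-theoretic package, from the character theory. -/
theorem exists_pack {G : Type*} [Group G] [Finite G] {u : G} (h : FourGen.HypG G u) (hu : u ≠ 1) :
    ∃ N : Subgroup G, FourGroup.Pack u N := by
  haveI := Fintype.ofFinite G
  obtain ⟨N, hNn, hcard, hnot, hsq, hconj, hcoset, hcent⟩ := FourGen.HypG.package h hu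
  refine ⟨N, ⟨h.perf, fun L hL huL => h.normal_eq_top L huL⟩, hNn, hcard, hnot, hsq, hconj, hcoset,
    hcent, ?_⟩
  intro L hL hle
  by_cases htop : L = ⊤
  · right; exact htop
  · left
    have hq := h.quot L
    have hne : QuotientGroup.mk' L u ≠ 1 := by
      intro h1
      exact htop (h.normal_eq_top L ((QuotientGroup.eq_one_iff u).1 h1))
    haveI := Fintype.ofFinite (G ⧸ L)
    obtain ⟨N', -, hcard', -⟩ := FourGen.HypG.package hq hne
    have h1 : 0 < Nat.card N' := Nat.card_pos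
    have h2 : 60 ≤ Nat.card (G ⧸ L) := by rw [hcard']; omega
    have h3 : Nat.card G = Nat.card (G ⧸ L) * Nat.card L := Subgroup.card_eq_card_quotient_mul_card_subgroup L
    have h4 : Nat.card L ≤ Nat.card N := by
      have : 60 * Nat.card L ≤ 60 * Nat.card N := by
        rw [← hcard, h3]
        exact Nat.mul_le_mul_right _ h2
      omega
    exact (Subgroup.eq_of_le_of_card_ge hle h4).symm

/-- Let u ≠ 1 be an element of the finite group G such that every non-principal irreducible character χ satisfies χ(1) − χ(u) = 4 or χ(u) = 0. Then O(G), the largest normal subgroup of odd order, is abelian, and either G ⧸ O(G) ≅ PSL₂(5) and u is an involution, or G ⧸ O(G) ≅ SL₂(5) and u has order 4. -/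
theorem result {G : Type*} [Group G] [Finite G] (u : G) (hu : u ≠ 1) (hyp : ∀ χ : Cfsg.IrrCharacter G, (χ : G → ℂ) ≠ (fun _ => (1 : ℂ)) → ((χ : G → ℂ) 1 - (χ : G → ℂ) u = 4 ∨ (χ : G → ℂ) u = 0)) : IsMulCommutative ↥(Cfsg.oddCore G) ∧ ((Nonempty (G ⧸ Cfsg.oddCore G ≃* Matrix.ProjectiveSpecialLinearGroup (Fin 2) (ZMod 5)) ∧ orderOf u = 2) ∨ (Nonempty (G ⧸ Cfsg.oddCore G ≃* Matrix.SpecialLinearGroup (Fin 2) (ZMod 5)) ∧ orderOf u = 4)) := by
  have h : FourGen.HypG G u := fun χ hχ hne => hyp ⟨χ, hχ⟩ hne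
  obtain ⟨N, P⟩ := exists_pack h hu
  have hdvd : orderOf u ∣ 4 := by
    have h1 : u ∈ Subgroup.centralizer ({u} : Set G) := by
      rw [Subgroup.mem_centralizer_singleton_iff]
    have := orderOf_dvd_natCard (⟨u, h1⟩ : Subgroup.centralizer ({u} : Set G))
    rwa [Subgroup.orderOf_mk, P.cent] at this
  have hcases : orderOf u = 1 ∨ orderOf u = 2 ∨ orderOf u = 4 := by
    have h1 : orderOf u ≤ 4 := Nat.le_of_dvd (by norm_num) hdvd
    have h2 : 0 < orderOf u := orderOf_pos u
    interval_cases orderOf u <;> simp_all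
  rcases hcases with h1 | h1 | h1
  · exact absurd (orderOf_eq_one_iff.1 h1) hu
  · obtain ⟨a, b⟩ := FourGroupA.case_two P (by rw [← h1]; exact pow_orderOf_eq_one u)
    exact ⟨a, Or.inl ⟨b, h1⟩⟩
  · obtain ⟨M, Q, S⟩ := FourGroupD.exists_str P h1
    exact ⟨FourGroupE.Str.comm S, Or.inr ⟨S.sl, h1⟩⟩

end Cfsg.Agent.S4758
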