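import Cfsg.Statements.S4759
import Cfsg.Agent.S0205
import Cfsg.Agent.H668.DadeI

set_option autoImplicit false
open Cfsg

namespace Cfsg.Agent.S4759

open Module
open scoped commutatorElement
open Cfsg.Agent.H668.DadeA Cfsg.Agent.H668.DadeB Cfsg.Agent.H668.DadeC Cfsg.Agent.H668.DadeD
  Cfsg.Agent.H668.DadeE Cfsg.Agent.H668.DadeF Cfsg.Agent.H668.DadeG Cfsg.Agent.H668.DadeH
  Cfsg.Agent.H668.DadeI

/-- Let G be a finite group that is the semidirect product of a normal extraspecial 2-subgroup E and a complement H acting faithfully on E (no non-identity element of H centralizes E), and suppose H has a normal subgroup K of odd order with [E, K] = E. Then every faithful irreducible character θ of E (there is exactly one) extends to G: some irreducible character of G restricts to θ on E. -/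
theorem result {G : Type*} [Group G] [Finite G] (E H : Subgroup G) [E.Normal] (hE : Cfsg.IsExtraspecial 2 ↥E) (hEH : E ⊓ H = ⊥) (hEHtop : E ⊔ H = ⊤) (hfaith : ∀ h ∈ H, (∀ e ∈ E, h * e = e * h) → h = 1) (K : Subgroup G) (hKH : K ≤ H) (hKn : ∀ h ∈ H, ∀ k ∈ K, h * k * h⁻¹ ∈ K) (hKodd : Odd (Nat.card ↥K)) (hEK : ⁅E, K⁆ = E) (θ : Cfsg.IrrCharacter ↥E) (hθ : ∀ e : ↥E, (θ : ↥E → ℂ) e = (θ : ↥E → ℂ) 1 → e = 1) : ∃ χ : Cfsg.IrrCharacter G, ∀ e : ↥E, (χ : G → ℂ) e = (θ : ↥E → ℂ) e := by
  classical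
  obtain ⟨z, ct⟩ := exists_CT hE
  obtain ⟨n, r, hr, hrθ⟩ := θ.2
  have hz : r z ≠ 1 := by
    intro hh
    apply ct.ne
    apply hθ
    rw [← hrθ]
    show LinearMap.trace ℂ _ (r z) = LinearMap.trace ℂ _ (r 1)
    rw [hh, map_one r]
  obtain ⟨ρ, hρ, hρr⟩ := spin_of_irr ct r hr hz
  -- the action
  let φ : H →* MulAut E := (MulAut.conjNormal : G →* MulAut E).comp H.subtype
  have hφv : ∀ (h : H) (e : E), ((φ h e : E) : G) = h * e * (h : G)⁻¹ := fun h e => rfl
  let K' : Subgroup (MulAut E) := K.map (MulAut.conjNormal : G →* MulAut E)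
  have hK'odd : Odd (Nat.card K') :=
    Odd.of_dvd_nat hKodd (Subgroup.card_map_dvd K _)
  have hK'sol : Group.IsSolvable K' := by
    have := Cfsg.Agent.S0205.result (G := K) hKodd
    exact Group.isSolvable_of_surjective
      ((MulAut.conjNormal : G →* MulAut E).subgroupMap_surjective K)
  have hfix : ∀ e ∈ Fx K', e = 1 ∨ e = z := by
    intro e he
    have hek : ∀ k ∈ K, (MulAut.conjNormal k : MulAut E) e = e := fun k hk => he _ ⟨k, hk, rfl⟩
    have hle : ⁅E, K⁆ ≤ Subgroup.centralizer ({(e : G)} : Set G) := by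
      rw [Subgroup.commutator_le]
      intro x hx k hk
      rw [Subgroup.mem_centralizer_singleton_iff]
      have hc : ∃ ε : E, (MulAut.conjNormal k : MulAut E) ε = ε ∧
          (⟨x, hx⟩ : E)⁻¹ * e = ε * (e * (⟨x, hx⟩ : E)⁻¹) := by
        rcases ct.comm (⟨x, hx⟩ : E)⁻¹ e with h | h
        · exact ⟨1, map_one _, by rw [one_mul]; exact h⟩
        · exact ⟨z, ct.map_z _, h⟩
      obtain ⟨ε, hε, h1⟩ := hc
      have h2 := congrArg (MulAut.conjNormal k : MulAut E) h1
      rw [map_mul, map_mul, map_mul, hε, hek k hk] at h2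
      have h3 := commute_lem h1 h2
      have h4 := congrArg (Subtype.val : E → G) h3
      have h5 : (((⟨x, hx⟩ : E)⁻¹⁻¹ * (MulAut.conjNormal k : MulAut E) (⟨x, hx⟩ : E)⁻¹ : E) : G) =
          ⁅x, k⁆ := by
        rw [commutatorElement_def]
        show (x⁻¹)⁻¹ * (k * x⁻¹ * k⁻¹) = _
        group
      rw [Subgroup.coe_mul, h5] at h4
      rw [h4, Subgroup.coe_mul, h5]
    apply ct.cen
    intro y
    have h1 : (y : G) ∈ ⁅E, K⁆ := by rw [hEK]; exact y.2
    apply Subtype.ext
    exact (Subgroup.mem_centralizer_singleton_iff.1 (hle h1)).symm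
  -- the Sylow subgroup
  obtain ⟨S⟩ : Nonempty (Sylow 2 H) := inferInstance
  have h1 : HL z ⊤ (φ.comp (S : Subgroup H).subtype) := by
    refine Cfsg.Agent.H668.DadeH.main _ E z ct rfl K' hK'odd hK'sol hfix (S : Subgroup H) S.2
      (φ.comp (S : Subgroup H).subtype) ?_
    rintro s _ ⟨k, hk, rfl⟩
    refine ⟨(s : H) * k * ((s : H) : G)⁻¹, hKn _ (s : H).2 k hk, ?_⟩
    rw [map_mul, map_mul, map_inv]
    rfl
  have h2 := hasLift_of_HL ct hρ _ h1
  have hcop : Nat.Coprime (S : Subgroup H).index (finrank ℂ (Fin n → ℂ)) := by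
    obtain ⟨m, hm⟩ := IsPGroup.iff_card.1 hE.1.1
    have h3 : finrank ℂ (Fin n → ℂ) ∣ 2 ^ m := by
      rw [← hm, hρ.card]
      exact Dvd.dvd.mul_left (dvd_pow_self _ two_ne_zero) _
    apply Nat.Coprime.of_dvd_right h3
    apply Nat.Coprime.pow_right
    rw [Nat.coprime_comm, Nat.Prime.coprime_iff_not_dvd Nat.prime_two]
    exact S.not_dvd_index
  obtain ⟨L, hL⟩ := hasLift_of_index ct hρ φ (S : Subgroup H) hcop h2
  -- the extension
  have hcompl : E.IsComplement' H := by
    apply Subgroup.isComplement'_of_disjoint_and_mul_eq_univ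
    · rw [disjoint_iff]; exact hEH
    · rw [← Subgroup.normal_mul, hEHtop]; rfl
  let iso := SemidirectProduct.mulEquivSubgroup hcompl
  let f := SemidirectProduct.lift (φ := (E.normalizerMonoidHom).comp
    (Subgroup.inclusion (E.normalizer_eq_top ▸ le_top))) ρ L (by
    intro h
    ext1 e
    show ρ (φ h e) = L h * ρ e * (L h)⁻¹
    rw [eq_mul_inv_iff_mul_eq, hL])
  let σ : G →* ((Fin n → ℂ) ≃ₗ[ℂ] (Fin n → ℂ)) := f.comp iso.symm.toMonoidHom
  have hσ : ∀ e : E, σ e = ρ e := by
    intro e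
    have h3 : iso (SemidirectProduct.inl e) = (e : G) := by
      show E.subtype e * H.subtype 1 = e
      rw [map_one, mul_one]; rfl
    have h4 : iso.symm (e : G) = SemidirectProduct.inl e := by
      rw [← h3, iso.symm_apply_apply]
    show f (iso.symm (e : G)) = ρ e
    rw [h4]
    exact SemidirectProduct.lift_inl _ _ _ _
  have hσr : ∀ e : E, rep σ (e : G) = r e := by
    intro e
    rw [rep_apply, hσ, hρr]
  have hirr : (rep σ).IsIrreducible := by
    apply CharactersDeep.InvRep.isIrreducible_of_comp E.subtype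
    have h3 : (rep σ).comp E.subtype = r := by
      ext1 e
      exact hσr e
    rw [h3]; exact hr
  refine ⟨⟨(rep σ).character, n, rep σ, hirr, rfl⟩, ?_⟩
  intro e
  rw [← hrθ]
  show LinearMap.trace ℂ _ (rep σ (e : G)) = LinearMap.trace ℂ _ (r e)
  rw [hσr]

end Cfsg.Agent.S4759
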