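import Cfsg.Statements.S4763
import Cfsg.Agent.H669.PermFix
import Cfsg.Agent.H686.CharKit
import Cfsg.Agent.Characters.ClassMul
import Cfsg.Agent.Blocks.PPart
import Cfsg.Agent.Blocks.FullDefect
import Cfsg.Agent.S0860
import Cfsg.Agent.S0188
import Cfsg.Agent.S0854
import Cfsg.Agent.S1491
import Cfsg.Agent.LieRecognition.FT61.O3

set_option autoImplicit false
set_option linter.unusedSectionVars false
open Cfsg

namespace Cfsg.Agent.S4763

open Cfsg.Agent.Characters.Core Cfsg.Agent.Characters.Linear Cfsg.Agent.H669.Basic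
open Cfsg.Agent.H669 Cfsg.Agent.H686.CharKit

universe u

section

variable {G : Type u} [Group G] [Finite G] {p : ℕ} [hp : Fact p.Prime]
  (N : Subgroup G) [hNn : N.Normal]

theorem disjoint_sylow (hN : (Nat.card N).Coprime p) (P : Sylow p G) :
    Disjoint N (P : Subgroup G) := by
  refine Subgroup.disjoint_of_coprime_natCard ?_
  obtain ⟨n, hn⟩ := IsPGroup.iff_card.1 P.2
  rw [hn]
  exact Nat.Coprime.pow_right _ hN

theorem sup_sylow (hidx : ∃ k : ℕ, N.index = p ^ k) (P : Sylow p G) :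
    N ⊔ (P : Subgroup G) = ⊤ := by
  obtain ⟨k, hk⟩ := hidx
  rw [← Subgroup.index_eq_one]
  have h2 : (N ⊔ (P : Subgroup G)).index ∣ p ^ k := hk ▸ Subgroup.index_dvd_of_le le_sup_left
  have h3 : (N ⊔ (P : Subgroup G)).index ∣ (P : Subgroup G).index :=
    Subgroup.index_dvd_of_le le_sup_right
  have h4 : ¬ p ∣ (P : Subgroup G).index := P.not_dvd_index
  rcases (Nat.dvd_prime_pow hp.out).1 h2 with ⟨j, -, hj⟩
  rcases Nat.eq_zero_or_pos j with rfl | hj0
  · simpa using hj
  · exact absurd ((hj ▸ dvd_pow_self p hj0.ne').trans h3) h4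

theorem le_inertia (θ : IrrCharacter N) : N ≤ inertia N θ := by
  intro g hg
  rw [mem_inertia]
  intro n n' h
  have h1 : n' = (⟨g, hg⟩ : N) * n * (⟨g, hg⟩ : N)⁻¹ := Subtype.ext h
  rw [h1]
  exact isIrr_isClassFunction θ.2 n ⟨g, hg⟩

theorem inertia_spec (θ : IrrCharacter N) (g : G) :
    g ∈ inertia N θ ↔ ∀ n : N, (θ : N → ℂ) ⟨g * n * g⁻¹, hNn.conj_mem n n.2 g⟩ = (θ : N → ℂ) n := by
  rw [mem_inertia]
  constructor
  · intro h n
    exact h n _ rfl
  · intro h n n' hn
    rw [← h n]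
    exact congrArg (θ : N → ℂ) (Subtype.ext hn)

/-- The index of the inertia group divides the degree. -/
theorem index_inertia_dvd (θ : IrrCharacter N) {χ : G → ℂ} (hχ : IsIrrCharacter G χ)
    (h : letI := Fintype.ofFinite N; classInner (fun n : N => χ n) (θ : N → ℂ) ≠ 0) :
    (inertia N θ).index ∣ charDegree χ := by
  let _ := Fintype.ofFinite N
  let _ := Fintype.ofFinite G
  let _ : Fintype (inertia N θ) := Fintype.ofFinite _
  obtain ⟨ψ, hψ, h1, -⟩ := Cfsg.Agent.S0854.result N (θ : N → ℂ) θ.2 (inertia N θ)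
    (inertia_spec N θ) (le_inertia N θ) χ hχ h
  have h2 := congrFun h1 1
  rw [Cfsg.Agent.CharactersDeep.NormalInd.indFun_one, charDegree_eq hψ, charDegree_eq hχ] at h2
  exact ⟨charDegree ψ, by exact_mod_cast h2.symm⟩

theorem dvd_of_not_top (hidx : ∃ k : ℕ, N.index = p ^ k) (θ : IrrCharacter N)
    (hT : inertia N θ ≠ ⊤) : p ∣ (inertia N θ).index := by
  obtain ⟨k, hk⟩ := hidx
  have h1 : (inertia N θ).index ∣ p ^ k := hk ▸ Subgroup.index_dvd_of_le (le_inertia N θ)
  obtain ⟨j, -, hj⟩ := (Nat.dvd_prime_pow hp.out).1 h1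
  rw [hj]
  refine dvd_pow_self p ?_
  rintro rfl
  rw [pow_zero] at hj
  exact hT (Subgroup.index_eq_one.1 hj)

/-- The conjugation action of `G` on `N`, restricted to a subgroup. -/
def conjHom (P : Subgroup G) : P →* MulAut N := (MulAut.conjNormal (H := N)).comp P.subtype

theorem conjHom_apply (P : Subgroup G) (x : P) (n : N) :
    ((conjHom N P x n : N) : G) = (x : G) * n * (x : G)⁻¹ := rfl

theorem irrFixed_iff (P : Subgroup G) (hsup : N ⊔ P = ⊤) (θ : IrrCharacter N) :
    (∀ x : P, (PermFix.irrAct (conjHom N P)).smul x θ = θ) ↔ inertia N θ = ⊤ := by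
  constructor
  · intro h
    rw [eq_top_iff, ← hsup, sup_le_iff]
    refine ⟨le_inertia N θ, fun x hx => ?_⟩
    rw [inertia_spec]
    intro n
    have h1 := congrArg (fun t : IrrCharacter N => (t : N → ℂ)
      ⟨x * n * x⁻¹, hNn.conj_mem n n.2 x⟩) (h ⟨x, hx⟩)
    have h2 : (θ : N → ℂ) (conjHom N P (⟨x, hx⟩ : P)⁻¹ ⟨x * n * x⁻¹, hNn.conj_mem n n.2 x⟩)
      = (θ : N → ℂ) ⟨x * n * x⁻¹, hNn.conj_mem n n.2 x⟩ := h1
    rw [← h2]
    refine congrArg (θ : N → ℂ) (Subtype.ext ?_)
    show x⁻¹ * (x * n * x⁻¹) * x⁻¹⁻¹ = (n : G)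
    group
  · intro h x
    apply Subtype.ext
    funext n
    show (θ : N → ℂ) (conjHom N P x⁻¹ n) = (θ : N → ℂ) n
    have h1 : ((x⁻¹ : P) : G) ∈ inertia N θ := h ▸ Subgroup.mem_top _
    rw [inertia_spec] at h1
    exact h1 n

/-- A class of `N` is `G`-invariant. -/
def ClsInv (n : N) : Prop := ∀ (g : G), IsConj (⟨g * n * g⁻¹, hNn.conj_mem n n.2 g⟩ : N) n

theorem clsFixed_iff (P : Subgroup G) (hsup : N ⊔ P = ⊤) (n : N) :
    (∀ x : P, (PermFix.clsAct (conjHom N P)).smul x (ConjClasses.mk n) = ConjClasses.mk n) ↔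
      ClsInv N n := by
  constructor
  · intro h g
    -- `{g | ...}` is a subgroup
    have hg : g ∈ N ⊔ P := hsup ▸ Subgroup.mem_top g
    obtain ⟨m, hm, x, hx, rfl⟩ := Subgroup.mem_sup_of_normal_left.1 hg
    have h1 : ConjClasses.mk (conjHom N P ⟨x, hx⟩ n) = ConjClasses.mk n := h ⟨x, hx⟩
    rw [ConjClasses.mk_eq_mk_iff_isConj] at h1
    refine IsConj.trans ?_ h1
    rw [isConj_comm, isConj_iff]
    refine ⟨⟨m, hm⟩, Subtype.ext ?_⟩
    show m * (x * n * x⁻¹) * m⁻¹ = m * x * n * (m * x)⁻¹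
    group
  · intro h x
    show ConjClasses.mk (conjHom N P x n) = ConjClasses.mk n
    rw [ConjClasses.mk_eq_mk_iff_isConj]
    exact h x

theorem card_conj {H : Type*} [Group H] [Finite H] (x : H) :
    Nat.card {y : H // IsConj x y} = (Subgroup.centralizer ({x} : Set H)).index := by
  classical
  have := Fintype.ofFinite H
  rw [← Cfsg.Agent.Characters.ClassMul.card_filter_isConj x, Nat.card_eq_fintype_card,
    Fintype.card_subtype]

/-- An invariant class of `N` has size prime to `p`. -/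
theorem not_dvd_of_inv (hN : (Nat.card N).Coprime p) (n : N) (h : ClsInv N n) :
    ¬ p ∣ (Subgroup.centralizer ({(n : G)} : Set G)).index := by
  have h1 : (Subgroup.centralizer ({(n : G)} : Set G)).index
      = (Subgroup.centralizer ({n} : Set N)).index := by
    rw [← card_conj, ← card_conj]
    symm
    refine Nat.card_congr (Equiv.ofBijective (fun m => ⟨(m.1 : G), ?_⟩) ⟨?_, ?_⟩)
    · obtain ⟨c, hc⟩ := isConj_iff.1 m.2
      refine isConj_iff.2 ⟨c, ?_⟩
      exact congrArg Subtype.val hc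
    · intro a b hab
      have h1 : (a.1 : G) = (b.1 : G) := by
        have := Subtype.ext_iff.1 hab
        exact this
      exact Subtype.ext (Subtype.ext h1)
    · rintro ⟨y, hy⟩
      obtain ⟨c, rfl⟩ := isConj_iff.1 hy
      exact ⟨⟨⟨c * n * c⁻¹, hNn.conj_mem n n.2 c⟩, (h c).symm⟩, rfl⟩
  rw [h1]
  intro hd
  exact (Nat.Prime.coprime_iff_not_dvd hp.out).1 hN.symm (hd.trans (Subgroup.index_dvd_card _))

/-- If all irreducible characters of the normal `p`-complement are invariant then `P` centralizes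
it. -/
theorem commute_of_all_invariant (hN : (Nat.card N).Coprime p) (hidx : ∃ k : ℕ, N.index = p ^ k)
    (P : Sylow p G) (hall : ∀ θ : IrrCharacter N, inertia N θ = ⊤) :
    ∀ n ∈ N, ∀ x ∈ (P : Subgroup G), n * x = x * n := by
  classical
  have hsup := sup_sylow N hidx P
  have hpN : ¬ p ∣ Nat.card N := (Nat.Prime.coprime_iff_not_dvd hp.out).1 hN.symm
  have := finite_irr (G := N)
  -- all the classes are fixed
  have h1 := PermFix.card_fixed_eq P.2 hpN (conjHom N (P : Subgroup G))
  have h2 : Nat.card {θ : IrrCharacter N //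
      ∀ x : (P : Subgroup G), (PermFix.irrAct (conjHom N (P : Subgroup G))).smul x θ = θ}
      = Nat.card (IrrCharacter N) :=
    Nat.card_congr (Equiv.subtypeUnivEquiv fun θ => (irrFixed_iff N _ hsup θ).2 (hall θ))
  rw [h2, card_irr] at h1
  have h3 : ∀ C : ConjClasses N, ∀ x : (P : Subgroup G),
      (PermFix.clsAct (conjHom N (P : Subgroup G))).smul x C = C := by
    have hf : Finite (ConjClasses N) := inferInstance
    have hinj : Function.Injective (Subtype.val : {C : ConjClasses N //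
      ∀ x : (P : Subgroup G), (PermFix.clsAct (conjHom N (P : Subgroup G))).smul x C = C} →
        ConjClasses N) := Subtype.val_injective
    have hb := (Nat.bijective_iff_injective_and_card _).2 ⟨hinj, h1.symm⟩
    intro C
    obtain ⟨D, hD⟩ := hb.2 C
    rw [← hD]; exact D.2
  -- `C_N(P)` meets every class of `N`
  let K : Subgroup N := (Subgroup.centralizer ((P : Subgroup G) : Set G)).subgroupOf N
  have hK : K = ⊤ := by
    by_contra hne
    obtain ⟨n, hn⟩ := Cfsg.Agent.LieRecognition.FT61.O3.exists_not_conj K hne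
    have hinv := (clsFixed_iff N _ hsup n).1 (h3 (ConjClasses.mk n))
    obtain ⟨x, hx⟩ := Cfsg.Agent.Blocks.FullDefect.exists_conj_mem_centralizer P
      (not_dvd_of_inv N hN n hinv)
    obtain ⟨c, hc⟩ := isConj_iff.1 (hinv x).symm
    apply hn c⁻¹
    rw [inv_inv, hc]
    exact hx
  intro n hn x hx
  have h4 : (⟨n, hn⟩ : N) ∈ K := hK ▸ Subgroup.mem_top _
  have h5 : n ∈ Subgroup.centralizer ((P : Subgroup G) : Set G) := h4
  exact (Subgroup.mem_centralizer_iff.1 h5 x hx).symm

/-- The quotient by the normal `p`-complement is commutative. -/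
theorem quotient_comm (hnil : ¬ Group.IsNilpotent G) (hN : (Nat.card N).Coprime p)
    (hidx : ∃ k : ℕ, N.index = p ^ k) {χ : G → ℂ}
    (huniq : ∀ ψ : G → ℂ, IsIrrCharacter G ψ → p ∣ charDegree ψ → ψ = χ) :
    ∀ a b : G ⧸ N, a * b = b * a := by
  classical
  by_contra hcon
  push Not at hcon
  let P : Sylow p G := default
  have hsup := sup_sylow N hidx P
  have hQ : IsPGroup p (G ⧸ N) := by
    rw [IsPGroup.iff_card]
    obtain ⟨k, hk⟩ := hidx
    exact ⟨k, by rw [← hk]; rfl⟩
  obtain ⟨ψ0, hψ0, h2⟩ := exists_dvd_of_pGroup hQ hcon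
  have hψ := isIrr_mk N hψ0
  have h3 : p ∣ charDegree (ψ0 ∘ QuotientGroup.mk' N) := by rw [charDegree_comp]; exact h2
  have hψχ := huniq _ hψ h3
  -- all `θ` are invariant
  have hall : ∀ θ : IrrCharacter N, inertia N θ = ⊤ := by
    intro θ
    by_contra hT
    let _ := Fintype.ofFinite G
    let _ := Fintype.ofFinite N
    obtain ⟨χ', hχ', h4⟩ := Cfsg.Agent.CharDeep.PowerDegrees.exists_irr_over N θ.2
    have h5 := (dvd_of_not_top N hidx θ hT).trans (index_inertia_dvd N θ hχ' h4)
    have h6 : χ' = ψ0 ∘ QuotientGroup.mk' N := (huniq _ hχ' h5).trans hψχ.symm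
    -- so `θ` is principal
    have h7 : θ = ⟨1, isIrr_one⟩ := by
      by_contra hne
      apply h4
      have h8 : (fun n : N => χ' n) = (charDegree ψ0 : ℂ) • (1 : N → ℂ) := by
        funext n
        rw [h6]
        show ψ0 ((n : G) : G ⧸ N) = _
        rw [(QuotientGroup.eq_one_iff (n : G)).2 n.2, charDegree_eq hψ0]
        simp
      rw [h8, classInner_smul_left, classInner_irr_ne isIrr_one θ.2 (fun hh => hne
        (Subtype.ext hh.symm)), mul_zero]
    apply hT
    rw [eq_top_iff]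
    intro g _
    rw [inertia_spec, h7]
    intro n
    rfl
  have hcomm := commute_of_all_invariant N hN hidx P hall
  -- `P` is normal
  have hPn : (P : Subgroup G).Normal := by
    rw [← Subgroup.normalizer_eq_top_iff, eq_top_iff, ← hsup, sup_le_iff]
    refine ⟨fun n hn => ?_, Subgroup.le_normalizer⟩
    rw [Subgroup.mem_normalizer_iff]
    intro x
    constructor
    · intro hx
      rw [hcomm n hn x hx, mul_inv_cancel_right]; exact hx
    · intro hx
      have h4 := hcomm n hn _ hx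
      have h5 : x = n⁻¹ * (n * x * n⁻¹) * n := by group
      rw [h5, mul_assoc, ← h4, inv_mul_cancel_left]
      exact hx
  -- `N ≠ 1`
  have hNne : N ≠ ⊥ := by
    rintro rfl
    apply hnil
    have h4 : IsPGroup p G := by
      rw [IsPGroup.iff_card]
      obtain ⟨k, hk⟩ := hidx
      exact ⟨k, by rw [← hk, Subgroup.index_bot]⟩
    exact h4.isNilpotent
  have hdisj := disjoint_sylow N hN P
  -- the map to the product
  let f : G →* (G ⧸ (P : Subgroup G)) × (G ⧸ N) :=
    (QuotientGroup.mk' (P : Subgroup G)).prod (QuotientGroup.mk' N)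
  have hf : Function.Surjective f := by
    rintro ⟨a, b⟩
    obtain ⟨g, rfl⟩ := QuotientGroup.mk_surjective a
    obtain ⟨h, rfl⟩ := QuotientGroup.mk_surjective b
    -- `g⁻¹ h = x n`
    have h4 : h * g⁻¹ ∈ N ⊔ (P : Subgroup G) := hsup ▸ Subgroup.mem_top _
    obtain ⟨n, hn, x, hx, hnx⟩ := Subgroup.mem_sup_of_normal_left.1 h4
    refine ⟨x * g, ?_⟩
    refine Prod.ext ?_ ?_
    · show ((x * g : G) : G ⧸ (P : Subgroup G)) = (g : G ⧸ (P : Subgroup G))
      rw [QuotientGroup.mk_mul, (QuotientGroup.eq_one_iff x).2 hx, one_mul]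
    · show ((x * g : G) : G ⧸ N) = (h : G ⧸ N)
      have h5 : h = n * (x * g) := by
        have : h = (n * x) * g := by rw [hnx]; group
        rw [this, mul_assoc]
      have h6 : ((n * (x * g) : G) : G ⧸ N) = ((x * g : G) : G ⧸ N) := by
        rw [QuotientGroup.mk_mul, (QuotientGroup.eq_one_iff n).2 hn, one_mul]
      rw [h5, h6]
  -- a nonprincipal character of `G / P`
  have hnt : Nontrivial (G ⧸ (P : Subgroup G)) := by
    rw [QuotientGroup.nontrivial_iff]
    intro hPt
    apply hNne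
    rw [hPt] at hdisj
    simpa using hdisj
  have hex : ∃ α : (G ⧸ (P : Subgroup G)) → ℂ, IsIrrCharacter _ α ∧ α ≠ 1 := by
    by_contra hno
    push Not at hno
    have h4 : Nat.card (IrrCharacter (G ⧸ (P : Subgroup G))) = 1 := by
      rw [Nat.card_eq_one_iff_unique]
      exact ⟨⟨fun a b => Subtype.ext ((hno a a.2).trans (hno b b.2).symm)⟩, ⟨⟨1, isIrr_one⟩⟩⟩
    rw [card_irr, Nat.card_eq_one_iff_unique] at h4
    obtain ⟨a, ha⟩ := exists_ne (1 : G ⧸ (P : Subgroup G))
    have h5 := h4.1.elim (ConjClasses.mk a) (ConjClasses.mk 1)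
    rw [ConjClasses.mk_eq_mk_iff_isConj, isConj_one_left] at h5
    exact ha h5
  obtain ⟨α, hα, hα1⟩ := hex
  have h4 := isIrr_comp f hf (Cfsg.Agent.S0188.isIrr_outer hα hψ0)
  have h5 := isIrr_comp f hf (Cfsg.Agent.S0188.isIrr_outer (isIrr_one (G := G ⧸ (P : Subgroup G)))
    hψ0)
  have hd : ∀ β : (G ⧸ (P : Subgroup G)) → ℂ, IsIrrCharacter _ β →
      p ∣ charDegree ((fun x : (G ⧸ (P : Subgroup G)) × (G ⧸ N) => β x.1 * ψ0 x.2) ∘ f) := by
    intro β hβ
    have h6 : ((fun x : (G ⧸ (P : Subgroup G)) × (G ⧸ N) => β x.1 * ψ0 x.2) ∘ f) 1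
        = ((charDegree β * charDegree ψ0 : ℕ) : ℂ) := by
      show β (f 1).1 * ψ0 (f 1).2 = _
      rw [map_one]
      show β 1 * ψ0 1 = _
      rw [charDegree_eq hβ, charDegree_eq hψ0]
      push_cast; rfl
    rw [charDegree_of_natCast h6]
    exact h2.mul_left _
  have h6 := (huniq _ h4 (hd α hα)).trans (huniq _ h5 (hd 1 isIrr_one)).symm
  apply hα1
  funext a
  obtain ⟨g, hg⟩ := hf (a, 1)
  have h7 := congrFun h6 g
  have h8 : α (f g).1 * ψ0 (f g).2 = 1 * ψ0 (f g).2 := h7
  rw [hg] at h8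
  exact mul_right_cancel₀ (isIrr_apply_one_ne_zero hψ0) h8

/-- Inertia groups are `G` or `N`. -/
theorem inertia_eq (hN : (Nat.card N).Coprime p)
    (hidx : ∃ k : ℕ, N.index = p ^ k) {χ : G → ℂ}
    (huniq : ∀ ψ : G → ℂ, IsIrrCharacter G ψ → p ∣ charDegree ψ → ψ = χ)
    (hab : ∀ a b : G ⧸ N, a * b = b * a) (θ : IrrCharacter N) (hT : inertia N θ ≠ ⊤) :
    inertia N θ = N ∧ (letI := Fintype.ofFinite N; classInner (fun n : N => χ n) (θ : N → ℂ) ≠ 0) := by
  classical
  let _ := Fintype.ofFinite G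
  let _ := Fintype.ofFinite N
  have hc : ∀ x ∈ inertia N θ, ∀ y ∈ inertia N θ, x * y * x⁻¹ * y⁻¹ ∈ N := by
    intro x _ y _
    rw [← QuotientGroup.eq_one_iff]
    have := hab (x : G ⧸ N) (y : G ⧸ N)
    show ((x : G ⧸ N) * y * (x : G ⧸ N)⁻¹ * (y : G ⧸ N)⁻¹) = 1
    rw [this]; group
  have hcop : Nat.Coprime (Nat.card N) (N.relIndex (inertia N θ)) := by
    obtain ⟨k, hk⟩ := hidx
    have h1 : N.relIndex (inertia N θ) ∣ p ^ k :=
      hk ▸ Subgroup.relIndex_dvd_index_of_normal N (inertia N θ)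
    exact Nat.Coprime.coprime_dvd_right h1 (Nat.Coprime.pow_right _ hN)
  obtain ⟨C, hC, hcard, hind, hdeg⟩ := Cfsg.Agent.S1491.result N (inertia N θ) (θ : N → ℂ) θ.2
    (inertia_spec N θ) hc hcop
  have hall : ∀ χ' ∈ C, χ' = χ := by
    intro χ' h1
    refine huniq χ' (hC χ' h1) ?_
    have h2 := hdeg χ' h1
    rw [charDegree_eq (hC χ' h1), charDegree_eq θ.2] at h2
    have h3 : charDegree χ' = (inertia N θ).index * charDegree (θ : N → ℂ) := by
      exact_mod_cast h2
    rw [h3]
    exact (dvd_of_not_top N hidx θ hT).mul_right _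
  have hpos : 0 < N.relIndex (inertia N θ) :=
    Nat.pos_of_ne_zero (Subgroup.index_ne_zero_of_finite (H := N.subgroupOf (inertia N θ)))
  have hC1 : C.card ≤ 1 := by
    rw [Finset.card_le_one]
    intro a ha b hb
    rw [hall a ha, hall b hb]
  have hC2 : C.card = 1 := by omega
  refine ⟨le_antisymm ?_ (le_inertia N θ), ?_⟩
  · rw [← Subgroup.relIndex_eq_one]; omega
  · obtain ⟨χ', hχ'⟩ := Finset.card_eq_one.1 hC2
    have h1 : χ' = χ := hall χ' (by rw [hχ']; exact Finset.mem_singleton_self _)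
    rw [hχ', Finset.sum_singleton, h1] at hind
    have hχ : IsIrrCharacter G χ := by
      rw [← h1]; exact hC χ' (by rw [hχ']; exact Finset.mem_singleton_self _)
    have h2 := Cfsg.Agent.CharactersDeep.NormalInd.classInner_indFun N (θ : N → ℂ) χ
      (isIrr_isClassFunction hχ)
    rw [hind, classInner_irr_self hχ] at h2
    rw [← classInner_conj_symm, ← h2]
    simp

theorem compat (φ : G →* MulAut N) (a : G) (θ : IrrCharacter N) (g g' : N)
    (h : ConjClasses.mk g' = (PermFix.clsAct φ).smul a (ConjClasses.mk g)) :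
    (((PermFix.irrAct φ).smul a θ : IrrCharacter N) : N → ℂ) g' = (θ : N → ℂ) g := by
  have h1 : ConjClasses.mk g' = ConjClasses.mk (φ a g) := h
  rw [ConjClasses.mk_eq_mk_iff_isConj] at h1
  rw [classFunction_apply_eq (isIrr_isClassFunction ((PermFix.irrAct φ).smul a θ).2) h1,
    PermFix.irrAct_apply, map_inv]
  simp

theorem smul_irr_iff (g : G) (θ : IrrCharacter N) :
    (PermFix.irrAct (MulAut.conjNormal (H := N))).smul g θ = θ ↔ g ∈ inertia N θ := by
  rw [← inv_mem_iff, inertia_spec]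
  constructor
  · intro h n
    exact congrFun (congrArg Subtype.val h) n
  · intro h
    exact Subtype.ext (funext fun n => h n)

theorem smul_cls_iff (g : G) (n : N) :
    (PermFix.clsAct (MulAut.conjNormal (H := N))).smul g (ConjClasses.mk n) = ConjClasses.mk n ↔
      IsConj (⟨g * n * g⁻¹, hNn.conj_mem n n.2 g⟩ : N) n := by
  show ConjClasses.mk _ = _ ↔ _
  rw [ConjClasses.mk_eq_mk_iff_isConj]
  rfl

theorem not_dvd_of_notMem (hN : (Nat.card N).Coprime p) (hidx : ∃ k : ℕ, N.index = p ^ k)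
    (hab : ∀ a b : G ⧸ N, a * b = b * a)
    (hfix : ∀ (g : G), g ∉ N → ∀ n : N,
      IsConj (⟨g * n * g⁻¹, hNn.conj_mem n n.2 g⟩ : N) n → ClsInv N n)
    {g : G} (hg : g ∉ N) : ¬ p ∣ (Subgroup.centralizer ({g} : Set G)).index := by
  obtain ⟨x, hx⟩ := Cfsg.Agent.Blocks.PPart.exists_isPPart p g
  obtain ⟨y, hxy, hcomm, ⟨k, hk⟩, hy⟩ := Cfsg.Agent.Blocks.PPart.isPPart_iff.1 hx
  have hyN : y ∈ N := by
    rw [← QuotientGroup.eq_one_iff, ← orderOf_eq_one_iff]
    obtain ⟨j, hj⟩ := hidx
    have h1 : orderOf (y : G ⧸ N) ∣ orderOf y := orderOf_map_dvd (QuotientGroup.mk' N) y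
    have h2 : orderOf (y : G ⧸ N) ∣ p ^ j := by rw [← hj]; exact orderOf_dvd_natCard _
    have h3 : Nat.Coprime (p ^ j) (orderOf y) :=
      Nat.Coprime.pow_left _ ((Nat.Prime.coprime_iff_not_dvd hp.out).2 hy)
    exact Nat.Coprime.eq_one_of_dvd (Nat.Coprime.coprime_dvd_left h2 h3) h1
  have hxN : x ∉ N := fun h => hg (hxy ▸ mul_mem h hyN)
  have hinv : ClsInv N ⟨y, hyN⟩ := by
    refine hfix x hxN ⟨y, hyN⟩ ?_
    have h1 : (⟨x * y * x⁻¹, hNn.conj_mem y hyN x⟩ : N) = ⟨y, hyN⟩ := by
      apply Subtype.ext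
      show x * y * x⁻¹ = y
      rw [hcomm.eq, mul_inv_cancel_right]
    rw [h1]
  have h1 := not_dvd_of_inv N hN ⟨y, hyN⟩ hinv
  set C := Subgroup.centralizer ({y} : Set G) with hC
  have hxC : x ∈ C := Subgroup.mem_centralizer_singleton_iff.2 hcomm.eq
  have hXp : IsPGroup p (Subgroup.zpowers (⟨x, hxC⟩ : C)) := by
    rw [IsPGroup.iff_card]
    refine ⟨k, ?_⟩
    rw [Nat.card_zpowers, ← hk]
    exact (Subgroup.orderOf_coe (⟨x, hxC⟩ : C)).symm
  obtain ⟨Q0, hQ0⟩ := hXp.exists_le_sylow
  set Q := (Q0 : Subgroup C).map C.subtype with hQ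
  have hQp : IsPGroup p Q := Q0.2.map _
  have hQC : Q ≤ C := Subgroup.map_subtype_le _
  have hQi : ¬ p ∣ Q.index := by
    intro hd
    have h2 : Q.index = (Q0 : Subgroup C).index * C.index := by
      have h3 := Subgroup.relIndex_mul_index hQC
      rw [← h3]
      congr 1
      show (Q.subgroupOf C).index = _
      rw [hQ, Subgroup.subgroupOf, Subgroup.comap_map_eq_self_of_injective C.subtype_injective]
    rw [h2] at hd
    rcases (Nat.Prime.dvd_mul hp.out).1 hd with h | h
    · exact Q0.not_dvd_index h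
    · exact h1 h
  have hxQ : x ∈ Q := ⟨⟨x, hxC⟩, hQ0 (Subgroup.mem_zpowers _), rfl⟩
  have hdisj : Disjoint N Q := by
    refine Subgroup.disjoint_of_coprime_natCard ?_
    obtain ⟨n, hn⟩ := IsPGroup.iff_card.1 hQp
    rw [hn]
    exact Nat.Coprime.pow_right _ hN
  have hQcomm : ∀ a ∈ Q, a * x = x * a := by
    intro a ha
    have e1 : a * x * a⁻¹ * x⁻¹ ∈ N := by
      rw [← QuotientGroup.eq_one_iff]
      have := hab (a : G ⧸ N) (x : G ⧸ N)
      show ((a : G ⧸ N) * x * (a : G ⧸ N)⁻¹ * (x : G ⧸ N)⁻¹) = 1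
      rw [this]; group
    have e2 : a * x * a⁻¹ * x⁻¹ ∈ Q := mul_mem (mul_mem (mul_mem ha hxQ) (inv_mem ha)) (inv_mem hxQ)
    have e3 : a * x * a⁻¹ * x⁻¹ = 1 := by
      have := hdisj.le_bot ⟨e1, e2⟩
      simpa using this
    rw [mul_inv_eq_one, mul_inv_eq_iff_eq_mul] at e3
    exact e3
  have hle : Q ≤ Subgroup.centralizer ({g} : Set G) := by
    intro a ha
    rw [Subgroup.mem_centralizer_singleton_iff]
    have e1 := hQcomm a ha
    have e2 : a * y = y * a := Subgroup.mem_centralizer_singleton_iff.1 (hQC ha)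
    rw [← hxy]
    calc a * (x * y) = (a * x) * y := by group
      _ = x * (a * y) := by rw [e1]; group
      _ = x * y * a := by rw [e2]; group
  intro hd
  exact hQi (hd.trans (Subgroup.index_dvd_of_le hle))

end

/-- Let p be a prime and G a finite group that is not nilpotent and has a normal p-complement (a normal subgroup of order prime to p and index a power of p). If G has exactly one irreducible complex character of degree divisible by p, then G has exactly one conjugacy class whose size is divisible by p. -/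
theorem result {G : Type*} [Group G] [Finite G] (p : ℕ) [Fact p.Prime] (hnil : ¬ Group.IsNilpotent G) (N : Subgroup G) [N.Normal] (hN : (Nat.card N).Coprime p) (hidx : ∃ k : ℕ, N.index = p ^ k) (hone : Nat.card {χ : Cfsg.IrrCharacter G // p ∣ Cfsg.charDegree (χ : G → ℂ)} = 1) : Nat.card {C : ConjClasses G // p ∣ Nat.card C.carrier} = 1 := by
  classical
  have hNn : N.Normal := inferInstance
  have hp : p.Prime := Fact.out
  obtain ⟨χ, hχ, h1, huniq⟩ := exists_unique hone
  have hab := quotient_comm N hnil hN hidx huniq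
  let P : Sylow p G := default
  have hsup := sup_sylow N hidx P
  have hpN : ¬ p ∣ Nat.card N := (Nat.Prime.coprime_iff_not_dvd hp).1 hN.symm
  have hfin := finite_irr (G := N)
  -- some `θ` is not invariant
  have hex : ∃ θ : IrrCharacter N, inertia N θ ≠ ⊤ := by
    by_contra hall
    push Not at hall
    have hcomm := commute_of_all_invariant N hN hidx P hall
    have hPc : (P : Subgroup G) ≤ Subgroup.center G := by
      intro x hx
      rw [Subgroup.mem_center_iff]
      intro g
      have hg : g ∈ N ⊔ (P : Subgroup G) := hsup ▸ Subgroup.mem_top g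
      obtain ⟨n, hn, z, hz, rfl⟩ := Subgroup.mem_sup_of_normal_left.1 hg
      have e0 : z * x = x * z := by
        have e1 : z * x * z⁻¹ * x⁻¹ ∈ N := by
          rw [← QuotientGroup.eq_one_iff]
          have := hab (z : G ⧸ N) (x : G ⧸ N)
          show ((z : G ⧸ N) * x * (z : G ⧸ N)⁻¹ * (x : G ⧸ N)⁻¹) = 1
          rw [this]; group
        have e2 : z * x * z⁻¹ * x⁻¹ ∈ (P : Subgroup G) :=
          mul_mem (mul_mem (mul_mem hz hx) (inv_mem hz)) (inv_mem hx)
        have e3 : z * x * z⁻¹ * x⁻¹ = 1 := by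
          have := (disjoint_sylow N hN P).le_bot ⟨e1, e2⟩
          simpa using this
        rw [mul_inv_eq_one, mul_inv_eq_iff_eq_mul] at e3
        exact e3
      rw [mul_assoc, e0, ← mul_assoc, hcomm n hn x hx, mul_assoc]
    have h2 : charDegree χ ∣ (P : Subgroup G).index :=
      (charDegree_dvd_index_center hχ).trans (Subgroup.index_dvd_of_le hPc)
    exact P.not_dvd_index (h1.trans h2)
  obtain ⟨θ0, hθ0⟩ := hex
  -- the number of non-invariant characters
  let U : Set (IrrCharacter N) := {θ | inertia N θ ≠ ⊤}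
  have hU : U.ncard = N.index := by
    have h2 := inertia_index N θ0
    rw [(inertia_eq N hN hidx huniq hab θ0 hθ0).1] at h2
    rw [h2, ← Nat.card_coe_set_eq]
    refine Nat.card_congr (Equiv.subtypeEquivRight fun ψ => ?_)
    constructor
    · intro hψ
      let _ := Fintype.ofFinite G
      let _ := Fintype.ofFinite N
      exact Cfsg.Agent.Characters.Clifford.exists_conj_of_constituents N hχ θ0.2 ψ.2
        (inertia_eq N hN hidx huniq hab θ0 hθ0).2 (inertia_eq N hN hidx huniq hab ψ hψ).2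
    · rintro ⟨g, hg⟩ htop
      apply hθ0
      rw [eq_top_iff]
      intro x _
      rw [inertia_spec]
      intro n
      have h3 : g⁻¹ * x * g ∈ inertia N ψ := htop ▸ Subgroup.mem_top _
      rw [inertia_spec] at h3
      have h4 := h3 ⟨g⁻¹ * n * g, by simpa using hNn.conj_mem n n.2 g⁻¹⟩
      rw [hg] at h4
      have h5 : (MulAut.conjNormal g : MulAut N) ⟨g⁻¹ * x * g * (g⁻¹ * n * g) * (g⁻¹ * x * g)⁻¹,
          hNn.conj_mem _ (by simpa using hNn.conj_mem n n.2 g⁻¹) _⟩
          = ⟨x * n * x⁻¹, hNn.conj_mem n n.2 x⟩ := by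
        apply Subtype.ext
        rw [MulAut.conjNormal_apply]
        group
      have h6 : (MulAut.conjNormal g : MulAut N) ⟨g⁻¹ * n * g, by
          simpa using hNn.conj_mem n n.2 g⁻¹⟩ = n := by
        apply Subtype.ext
        rw [MulAut.conjNormal_apply]
        group
      rw [Function.comp_apply, Function.comp_apply, h5, h6] at h4
      exact h4
  -- the fixed classes
  let ci : MulAction G (ConjClasses N) := PermFix.clsAct (MulAut.conjNormal (H := N))
  let ii : MulAction G (IrrCharacter N) := PermFix.irrAct (MulAut.conjNormal (H := N))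
  let T : Set (ConjClasses N) := {C | ¬ ∀ g : G, g • C = C}
  have hTc : Tᶜ.ncard = Uᶜ.ncard := by
    have h2 := PermFix.card_fixed_eq P.2 hpN (conjHom N (P : Subgroup G))
    rw [← Nat.card_coe_set_eq, ← Nat.card_coe_set_eq]
    refine Eq.trans ?_ (Eq.trans h2.symm ?_)
    · refine Nat.card_congr (Equiv.subtypeEquivRight fun C => ?_)
      obtain ⟨n, rfl⟩ := ConjClasses.exists_rep C
      rw [clsFixed_iff N _ hsup n]
      show ¬ ¬ (∀ g : G, g • ConjClasses.mk n = ConjClasses.mk n) ↔ _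
      rw [not_not]
      exact forall_congr' fun g => smul_cls_iff N g n
    · refine Nat.card_congr (Equiv.subtypeEquivRight fun θ => ?_)
      rw [irrFixed_iff N _ hsup θ]
      show _ ↔ ¬ ¬ _
      rw [not_not]
  have hTcard : T.ncard = N.index := by
    have h2 := Set.ncard_add_ncard_compl T
    have h3 := Set.ncard_add_ncard_compl U
    have h4 : Nat.card (IrrCharacter N) = Nat.card (ConjClasses N) := card_irr
    omega
  -- a class fixed by some `g ∉ N` is invariant
  have hfix0 : ∀ g : G, g ∉ N → ∀ C : ConjClasses N, g • C = C → ∀ h : G, h • C = C := by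
    intro g hg
    have h2 := Cfsg.Agent.S0860.result (G := N) (A := G) (fun a θ x x' h =>
      compat N (MulAut.conjNormal (H := N)) a θ x x' h) g
    have h3 : Nat.card {θ : IrrCharacter N // g • θ = θ} = Uᶜ.ncard := by
      rw [← Nat.card_coe_set_eq]
      refine Nat.card_congr (Equiv.subtypeEquivRight fun θ => ?_)
      show _ ↔ ¬ ¬ _
      rw [not_not]
      refine (smul_irr_iff N g θ).trans ⟨fun h => ?_, fun h => h ▸ Subgroup.mem_top _⟩
      by_contra hne
      rw [(inertia_eq N hN hidx huniq hab θ hne).1] at h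
      exact hg h
    rw [h3, ← hTc] at h2
    have h4 : Tᶜ ⊆ {C : ConjClasses N | g • C = C} := by
      intro C hC
      have : ¬ ¬ ∀ g : G, g • C = C := hC
      exact (not_not.1 this) g
    have h5 : {C : ConjClasses N | g • C = C}.ncard ≤ Tᶜ.ncard := by
      rw [h2]; rfl
    have h6 := Set.eq_of_subset_of_ncard_le h4 h5
    intro C hC
    have h7 : C ∈ Tᶜ := h6 ▸ hC
    exact not_not.1 h7
  have hfix : ∀ (g : G), g ∉ N → ∀ n : N,
      IsConj (⟨g * n * g⁻¹, hNn.conj_mem n n.2 g⟩ : N) n → ClsInv N n := by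
    intro g hg n h h'
    rw [← smul_cls_iff]
    exact hfix0 g hg _ ((smul_cls_iff N g n).2 h) h'
  -- classes of `G`
  have hcar : ∀ g : G, Nat.card (ConjClasses.mk g).carrier
      = (Subgroup.centralizer ({g} : Set G)).index := by
    intro g
    rw [← card_conj]
    refine Nat.card_congr (Equiv.subtypeEquivRight fun y => ?_)
    rw [ConjClasses.mem_carrier_iff_mk_eq, ConjClasses.mk_eq_mk_iff_isConj, isConj_comm]
  -- `N ≠ G`
  have hNi : N.index ≠ 0 := Subgroup.index_ne_zero_of_finite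
  have hTne : T.Nonempty := by
    rw [← Set.ncard_pos, hTcard]; omega
  obtain ⟨K0, hK0⟩ := hTne
  obtain ⟨n0, rfl⟩ := ConjClasses.exists_rep K0
  have hn0 : ¬ ClsInv N n0 := by
    intro h
    exact hK0 fun g => (smul_cls_iff N g n0).2 (h g)
  -- the orbit of `K0` is `T`
  have horb : MulAction.orbit G (ConjClasses.mk n0) = T := by
    refine Set.eq_of_subset_of_ncard_le ?_ ?_
    · rintro _ ⟨g, rfl⟩ h
      apply hK0
      intro x
      have h2 := h (g * x * g⁻¹)
      have h3 : (g * x * g⁻¹) • g • (ConjClasses.mk n0) = g • x • (ConjClasses.mk n0) := by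
        rw [smul_smul, smul_smul]; congr 1; group
      have h4 : g • x • (ConjClasses.mk n0) = g • (ConjClasses.mk n0) := h3.symm.trans h2
      exact MulAction.injective g h4
    · have h2 : MulAction.stabilizer G (ConjClasses.mk n0) = N := by
        ext g
        rw [MulAction.mem_stabilizer_iff]
        constructor
        · intro h
          by_contra hg
          exact hK0 (hfix0 g hg _ h)
        · intro hg
          refine (smul_cls_iff N g n0).2 ?_
          rw [isConj_comm, isConj_iff]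
          exact ⟨⟨g, hg⟩, rfl⟩
      have h3 : (MulAction.stabilizer G (ConjClasses.mk n0)).index = N.index :=
        congrArg Subgroup.index h2
      rw [hTcard, ← h3, MulAction.index_stabilizer]
  -- non-invariant classes have size divisible by `p`
  have hdvd : ∀ n : N, ¬ ClsInv N n → p ∣ (Subgroup.centralizer ({(n : G)} : Set G)).index := by
    intro n hn
    by_contra hd
    apply hn
    obtain ⟨x, hx⟩ := Cfsg.Agent.Blocks.FullDefect.exists_conj_mem_centralizer P hd
    set m : N := ⟨x * n * x⁻¹, hNn.conj_mem n n.2 x⟩ with hm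
    have hminv : ClsInv N m := by
      intro g
      have hg : g ∈ N ⊔ (P : Subgroup G) := hsup ▸ Subgroup.mem_top g
      obtain ⟨u, hu, z, hz, rfl⟩ := Subgroup.mem_sup_of_normal_left.1 hg
      rw [isConj_comm, isConj_iff]
      refine ⟨⟨u, hu⟩, Subtype.ext ?_⟩
      have h3 : z * (x * n * x⁻¹) = (x * n * x⁻¹) * z := Subgroup.mem_centralizer_iff.1 hx z hz
      show u * (x * n * x⁻¹) * u⁻¹ = u * z * (x * n * x⁻¹) * (u * z)⁻¹
      calc u * (x * n * x⁻¹) * u⁻¹ = u * ((x * n * x⁻¹) * z) * z⁻¹ * u⁻¹ := by group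
        _ = u * (z * (x * n * x⁻¹)) * z⁻¹ * u⁻¹ := by rw [h3]
        _ = u * z * (x * n * x⁻¹) * (u * z)⁻¹ := by group
    have h4 : ∀ g : G, g • ConjClasses.mk m = ConjClasses.mk m := fun g =>
      (smul_cls_iff N g m).2 (hminv g)
    have h5 : x • ConjClasses.mk n = ConjClasses.mk m := rfl
    have h6 : ConjClasses.mk n = ConjClasses.mk m := by
      have h7 : x • ConjClasses.mk n = x • ConjClasses.mk m := h5.trans (h4 x).symm
      exact MulAction.injective x h7
    intro g
    rw [← smul_cls_iff, h6]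
    exact h4 g
  rw [Nat.card_eq_one_iff_unique]
  refine ⟨⟨?_⟩, ⟨⟨ConjClasses.mk (n0 : G), ?_⟩⟩⟩
  · have key : ∀ C : ConjClasses G, p ∣ Nat.card C.carrier → C = ConjClasses.mk (n0 : G) := by
      intro C hC
      obtain ⟨g, rfl⟩ := ConjClasses.exists_rep C
      rw [hcar] at hC
      have hg : g ∈ N := by
        by_contra hg
        exact not_dvd_of_notMem N hN hidx hab hfix hg hC
      have hinv : ¬ ClsInv N ⟨g, hg⟩ := fun h => not_dvd_of_inv N hN ⟨g, hg⟩ h hC
      have h2 : ConjClasses.mk (⟨g, hg⟩ : N) ∈ T := by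
        intro h
        exact hinv fun x => (smul_cls_iff N x ⟨g, hg⟩).1 (h x)
      rw [← horb] at h2
      obtain ⟨x, hx⟩ := h2
      have h3 : ConjClasses.mk (⟨x * n0 * x⁻¹, hNn.conj_mem n0 n0.2 x⟩ : N)
        = ConjClasses.mk (⟨g, hg⟩ : N) := hx
      rw [ConjClasses.mk_eq_mk_iff_isConj, isConj_iff] at h3
      obtain ⟨c, hc⟩ := h3
      rw [ConjClasses.mk_eq_mk_iff_isConj, isConj_comm, isConj_iff]
      refine ⟨c * x, ?_⟩
      have h4 : (c : G) * (x * n0 * x⁻¹) * (c : G)⁻¹ = g := congrArg Subtype.val hc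
      rw [← h4]; group
    intro a b
    exact Subtype.ext ((key a.1 a.2).trans (key b.1 b.2).symm)
  · rw [hcar]
    exact hdvd n0 hn0

end Cfsg.Agent.S4763
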