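import Cfsg.Statements.S4775
import Cfsg.Agent.H678.SuzGraph
-- import your own Cfsg.Agent.* helpers here

set_option autoImplicit false
open Cfsg

namespace Cfsg.Agent.S4775

/-- Let F be a finite field with q = 2^(2m+1) ≥ 8 elements and let S be isomorphic to the Suzuki group over F. Then the vertices of the character degree graph of S are 2 and the primes dividing (q − 1)(q² + 1); the primes dividing (q − 1)(q² + 1) are pairwise adjacent, and 2 is adjacent exactly to the primes dividing q − 1. -/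
theorem result (F : Type*) [Field F] [Fintype F] (m : ℕ) (hm : 1 ≤ m) (q : ℕ) (hq : Fintype.card F = q) (hqm : q = 2 ^ (2 * m + 1)) {S : Type*} [Group S] [Finite S] (hS : Nonempty (S ≃* ↥(Cfsg.Lie.Sz F (2 ^ (m + 1))))) : Cfsg.degreePrimes S = {r : ℕ | r.Prime ∧ (r = 2 ∨ r ∣ (q - 1) * (q ^ 2 + 1))} ∧ ∀ r s : ℕ, (Cfsg.degreeGraph S).Adj r s ↔ (r ≠ s ∧ r.Prime ∧ s.Prime ∧ ((r ∣ (q - 1) * (q ^ 2 + 1) ∧ s ∣ (q - 1) * (q ^ 2 + 1)) ∨ (r = 2 ∧ s ∣ q - 1) ∨ (s = 2 ∧ r ∣ q - 1))) := by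
  exact H678.SuzGraph.main hm hq hqm hS

end Cfsg.Agent.S4775
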