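import Cfsg.Statements.S4784
import Cfsg.Agent.H674.RealPerm

set_option autoImplicit false
open Cfsg

namespace Cfsg.Agent.S4784

/-- Let H be a subgroup of the finite group G and consider the permutation character of G on the cosets of H (the function induced from the principal character of H). Then exactly one irreducible constituent of it is real-valued with Frobenius–Schur indicator +1 (namely the principal character) if and only if the normal core of H has odd index in G. -/
theorem result {G : Type*} [Group G] [Fintype G] (H : Subgroup G) : Nat.card {χ : Cfsg.IrrCharacter G // Cfsg.classInner (Cfsg.indFun H (fun _ : H => (1 : ℂ))) (χ : G → ℂ) ≠ 0 ∧ (∀ g : G, (starRingEnd ℂ) ((χ : G → ℂ) g) = (χ : G → ℂ) g) ∧ (Nat.card G : ℂ)⁻¹ * ∑ g : G, (χ : G → ℂ) (g * g) = 1} = 1 ↔ Odd H.normalCore.index := by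
  classical
  have hone : Cfsg.classInner (Cfsg.indFun H (fun _ : H => (1 : ℂ))) (1 : G → ℂ) ≠ 0 ∧
      (∀ g : G, (starRingEnd ℂ) ((1 : G → ℂ) g) = (1 : G → ℂ) g) ∧
      (Nat.card G : ℂ)⁻¹ * ∑ g : G, (1 : G → ℂ) (g * g) = 1 := by
    refine ⟨?_, fun g => by simp, H674.RealPerm.ind_one⟩
    rw [H674.RealPerm.classInner_perm_one]
    exact one_ne_zero
  constructor
  · intro hcard
    refine H674.RealPerm.odd_index_core H fun χ hχ h1 h2 => ?_
    have hreal : ∀ g : G, (starRingEnd ℂ) (χ g) = χ g := by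
      intro g
      rw [Complex.conj_eq_iff_im]
      by_contra him
      have h3 := (H674.RealPerm.ind_cases hχ).2.2 ⟨g, him⟩
      rw [h3] at h2
      exact zero_ne_one h2
    obtain ⟨hsub, -⟩ := Nat.card_eq_one_iff_unique.1 hcard
    have h4 := hsub.elim
      ⟨⟨χ, hχ⟩, h1, hreal, h2⟩
      ⟨⟨1, Characters.Core.isIrr_one⟩, hone⟩
    exact congrArg (fun x => ((x : Cfsg.IrrCharacter G) : G → ℂ)) (congrArg Subtype.val h4)
  · intro hodd
    rw [Nat.card_eq_one_iff_unique]
    refine ⟨⟨?_⟩, ⟨⟨⟨1, Characters.Core.isIrr_one⟩, hone⟩⟩⟩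
    rintro ⟨χ, h1, h2, -⟩ ⟨ψ, h3, h4, -⟩
    have e1 := H674.RealPerm.eq_one_of_constituent_of_real H hodd χ.2 h1 h2
    have e2 := H674.RealPerm.eq_one_of_constituent_of_real H hodd ψ.2 h3 h4
    apply Subtype.ext
    apply Subtype.ext
    exact e1.trans e2.symm

end Cfsg.Agent.S4784
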