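import Cfsg.Statements.S4794
import Cfsg.Agent.S3724
import Cfsg.Agent.H677.CodIso

set_option autoImplicit false
open Cfsg

namespace Cfsg.Agent.S4794

/-- The codegree of an irreducible complex character χ of a finite group G is [G : ker χ] / χ(1), where ker χ is the set of elements at which χ takes the value χ(1). Let S be a finite non-abelian simple group and G a finite group. Then G has the same codegrees as S counted with multiplicity — there is a bijection between the irreducible characters of G and those of S preserving codegrees — if and only if G is isomorphic to S. -/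
theorem result {S : Type*} [Group S] [Finite S] (hS : IsSimpleGroup S) (hna : ¬ IsMulCommutative S) {G : Type*} [Group G] [Finite G] : (∃ f : Cfsg.IrrCharacter G ≃ Cfsg.IrrCharacter S, ∀ χ : Cfsg.IrrCharacter G, (Nat.card G / (Nat.card {g : G // (χ : G → ℂ) g = (χ : G → ℂ) 1} * Cfsg.charDegree (χ : G → ℂ))) = (Nat.card S / (Nat.card {g : S // (f χ : S → ℂ) g = (f χ : S → ℂ) 1} * Cfsg.charDegree (f χ : S → ℂ)))) ↔ Nonempty (G ≃* S) := by
  constructor
  · rintro ⟨f, hf⟩
    obtain ⟨hG, -, hcard, hdeg⟩ := H677.CodMain.main hna f (fun χ => hf χ)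
    rcases S3724.result (G := G) (M := S) hcard with h | (⟨h1, F, _, _, hF, h2⟩ | ⟨h1, F, _, _, hF, h2⟩) |
      ⟨F, _, _, n, hF, hn, ⟨h1, h2⟩ | ⟨h1, h2⟩⟩
    · exact h
    · exact (H677.CodIso.not_alt_psl f hdeg h1 hF h2).elim
    · refine (H677.CodIso.not_alt_psl f.symm (fun χ => ?_) h1 hF h2).elim
      rw [hdeg, Equiv.apply_symm_apply]
    · refine (H677.CodIso.not_omega_psp f.symm (fun χ => ?_) hF hn h2 h1).elim
      rw [hdeg, Equiv.apply_symm_apply]
    · exact (H677.CodIso.not_omega_psp f hdeg hF hn h2 h1).elim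
  · rintro ⟨e⟩
    refine ⟨H677.CodIso.pull e.symm, fun χ => ?_⟩
    rw [H677.CodIso.card_pull, H677.CodIso.charDegree_pull, Nat.card_congr e.toEquiv]

end Cfsg.Agent.S4794
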