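import Cfsg.Statements.S4799
import Cfsg.Agent.H678.FactAFinal
import Cfsg.Agent.H678.Quasi
-- import your own Cfsg.Agent.* helpers here

set_option autoImplicit false
open Cfsg

namespace Cfsg.Agent.S4799

/-- The codegree of an irreducible complex character χ of a finite group G is [G : ker χ] / χ(1), where ker χ is the set of elements at which χ takes the value χ(1). A finite quasisimple group has no non-principal irreducible complex character whose codegree is a prime power p^k (k ≥ 1, p prime). -/
theorem result {G : Type*} [Group G] [Finite G] (hG : Cfsg.IsQuasisimple G) (χ : Cfsg.IrrCharacter G) (hχ : (χ : G → ℂ) ≠ fun _ => 1) : ¬ IsPrimePow (Nat.card G / (Nat.card {g : G // (χ : G → ℂ) g = (χ : G → ℂ) 1} * Cfsg.charDegree (χ : G → ℂ))) := by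
  have := hG.2
  exact H678.Quasi.not_isPrimePow hG (H678.factA (H678.Quasi.not_comm_of_isQuasisimple hG)) χ hχ

end Cfsg.Agent.S4799
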