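import Cfsg.Statements.S4800
import Cfsg.Agent.H678.FactAFinal
import Cfsg.Agent.H678.Subnormal
-- import your own Cfsg.Agent.* helpers here

set_option autoImplicit false
open Cfsg

namespace Cfsg.Agent.S4800

/-- Let p be a prime and G a finite group with a faithful irreducible complex character χ (χ(g) = χ(1) only for g = 1) whose codegree #G / χ(1) is a power of p. Then the largest normal subgroup of G of order prime to p is trivial and G is p-constrained: the centralizer of the p-core O_p(G) is contained in O_p(G). -/
theorem result {G : Type*} [Group G] [Finite G] (p : ℕ) [Fact p.Prime] (χ : Cfsg.IrrCharacter G) (hfaith : ∀ g : G, (χ : G → ℂ) g = (χ : G → ℂ) 1 → g = 1) (hcod : ∃ k : ℕ, Nat.card G = p ^ k * Cfsg.charDegree (χ : G → ℂ)) : Cfsg.pPrimeCore p G = ⊥ ∧ Subgroup.centralizer ((Cfsg.pCore p G : Subgroup G) : Set G) ≤ Cfsg.pCore p G := by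
  obtain ⟨k, hk⟩ := hcod
  refine H678.Subnormal.p_constrained (fun L hL => ?_) χ hfaith hk
  have := hL.2
  exact H678.factA (H678.Quasi.not_comm_of_isQuasisimple hL)

end Cfsg.Agent.S4800
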