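import Cfsg.Statements.S4802
import Cfsg.Agent.Characters.Core
import Cfsg.Agent.Characters.Central
import Cfsg.Agent.S0145

set_option autoImplicit false
open Cfsg

namespace Cfsg.Agent.S4802

open scoped ComplexConjugate

/-- If the sum of an irreducible character over a normal subgroup is nonzero, the subgroup lies
in its kernel. -/
theorem eq_one_of_sum_ne_zero {G : Type*} [Group G] [Finite G] (N : Subgroup G) [N.Normal]
    [Fintype N] {n : ℕ} (ρ : Representation ℂ G (Fin n → ℂ)) (hρ : ρ.IsIrreducible) (x : G)
    (hx : x ∈ N) (hne : ρ.character x ≠ ρ.character 1) :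
    ∑ m : N, ρ (m : G) = 0 := by
  classical
  have hcomm : ∀ g, (∑ m : N, ρ (m : G)) * ρ g = ρ g * (∑ m : N, ρ (m : G)) := by
    intro g
    rw [Finset.sum_mul, Finset.mul_sum]
    refine Fintype.sum_equiv (MulAut.conjNormal g⁻¹ : MulAut N).toEquiv _ _ fun m => ?_
    rw [← map_mul, ← map_mul]
    congr 1
    simp [mul_assoc]
  obtain ⟨c, hc⟩ := Characters.Central.exists_smul_of_comm ρ hρ _ hcomm
  by_cases hc0 : c = 0
  · rw [hc, hc0, zero_smul]
  exfalso
  apply hne
  have h1 : ρ x * (∑ m : N, ρ (m : G)) = ∑ m : N, ρ (m : G) := by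
    rw [Finset.mul_sum]
    refine Fintype.sum_equiv (Equiv.mulLeft (⟨x, hx⟩ : N)) _ _ fun m => ?_
    rw [← map_mul]
    rfl
  rw [hc] at h1
  have h2 : ρ x = 1 := by
    have h3 : c • ρ x = c • (1 : Module.End ℂ (Fin n → ℂ)) := by
      rw [← h1]
      simp
    exact smul_right_injective _ hc0 h3
  rw [Representation.character, Representation.character, h2, map_one ρ]

/-- Let N < M be normal subgroups of the finite group G and g ∈ M ∖ N. Then the conjugacy class of g is exactly M ∖ N if and only if every irreducible complex character of G whose kernel contains N takes the same value at all elements of M ∖ N, and every irreducible complex character of G whose kernel does not contain N vanishes at g. -/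
theorem result {G : Type*} [Group G] [Finite G] (N M : Subgroup G) [N.Normal] [M.Normal] (hNM : N < M) (g : G) (hgM : g ∈ M) (hgN : g ∉ N) : {h : G | IsConj g h} = (M : Set G) \ (N : Set G) ↔ ((∀ χ : Cfsg.IrrCharacter G, (∀ x ∈ N, (χ : G → ℂ) x = (χ : G → ℂ) 1) → ∀ x ∈ M, x ∉ N → ∀ y ∈ M, y ∉ N → (χ : G → ℂ) x = (χ : G → ℂ) y) ∧ (∀ χ : Cfsg.IrrCharacter G, (∃ x ∈ N, (χ : G → ℂ) x ≠ (χ : G → ℂ) 1) → (χ : G → ℂ) g = 0)) := by
  classical
  have hfG : Fintype G := Fintype.ofFinite G
  have hfN : Fintype N := Fintype.ofFinite N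
  constructor
  · intro hcl
    have hcon : ∀ x ∈ M, x ∉ N → IsConj g x := fun x hx hx' => by
      have : x ∈ {h : G | IsConj g h} := by rw [hcl]; exact ⟨hx, hx'⟩
      exact this
    refine ⟨fun χ _ x hx hx' y hy hy' => ?_, fun χ hχ => ?_⟩
    · exact Characters.Core.classFunction_apply_eq (Characters.Core.isIrr_isClassFunction χ.2)
        ((hcon x hx hx').symm.trans (hcon y hy hy'))
    · obtain ⟨x, hx, hne⟩ := hχ
      obtain ⟨n, ρ, hρ, hρχ⟩ := χ.2
      have h0 := eq_one_of_sum_ne_zero N ρ hρ x hx (by rw [hρχ]; exact hne)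
      have h1 : ∑ m : N, ρ.character (g * m) = 0 := by
        have h2 : LinearMap.trace ℂ _ (ρ g * ∑ m : N, ρ (m : G)) = 0 := by
          rw [h0, mul_zero, map_zero]
        rw [Finset.mul_sum, map_sum] at h2
        rw [← h2]
        refine Finset.sum_congr rfl fun m _ => ?_
        rw [Representation.character, map_mul]
      have h3 : ∀ m : N, ρ.character (g * m) = ρ.character g := by
        intro m
        have h4 : IsConj g (g * (m : G)) := by
          refine hcon _ (M.mul_mem hgM (hNM.le m.2)) fun h => hgN ?_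
          exact (N.mul_mem_cancel_right m.2).1 h
        rw [hρχ]
        exact (Characters.Core.classFunction_apply_eq
          (Characters.Core.isIrr_isClassFunction χ.2) h4).symm
      simp_rw [h3] at h1
      rw [Finset.sum_const, nsmul_eq_mul, mul_eq_zero, Finset.card_univ] at h1
      rcases h1 with h1 | h1
      · exact absurd h1 (by exact_mod_cast Fintype.card_ne_zero)
      · rw [← hρχ]; exact h1
  · rintro ⟨hA, hB⟩
    ext h
    constructor
    · rintro (hh : IsConj g h)
      obtain ⟨c, hc⟩ := isConj_iff.1 hh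
      have hMn : M.Normal := inferInstance
      have hNn : N.Normal := inferInstance
      refine ⟨?_, fun hN => hgN ?_⟩
      · rw [← hc]; exact hMn.conj_mem _ hgM _
      · have : g = c⁻¹ * h * c⁻¹⁻¹ := by rw [← hc]; group
        rw [this]; exact hNn.conj_mem _ hN _
    · rintro ⟨hM, hN⟩
      show IsConj g h
      by_contra hnc
      have horth := (S0145.result g h).2 hnc
      have : Finite (IrrCharacter G) := Characters.Core.finite_irr
      cases nonempty_fintype (IrrCharacter G)
      rw [finsum_eq_sum_of_fintype] at horth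
      have h1 : ∀ χ : IrrCharacter G, (χ : G → ℂ) g * conj ((χ : G → ℂ) h) =
          ((Complex.normSq ((χ : G → ℂ) g) : ℝ) : ℂ) := by
        intro χ
        by_cases hk : ∀ x ∈ N, (χ : G → ℂ) x = (χ : G → ℂ) 1
        · rw [hA χ hk h hM hN g hgM hgN, Complex.mul_conj]
        · push Not at hk
          rw [hB χ hk]
          simp
      simp_rw [h1] at horth
      rw [← Complex.ofReal_sum] at horth
      have h2 : ∑ χ : IrrCharacter G, Complex.normSq ((χ : G → ℂ) g) = 0 := by
        exact_mod_cast horth
      have h3 := (Finset.sum_eq_zero_iff_of_nonneg (fun χ _ => Complex.normSq_nonneg _)).1 h2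
        ⟨1, Characters.Core.isIrr_one⟩ (Finset.mem_univ _)
      simp at h3

end Cfsg.Agent.S4802
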