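import Cfsg.Statements.S4803
import Cfsg.Agent.H679.OneNonlin
import Cfsg.Agent.H679.TheoremA

set_option autoImplicit false
open Cfsg

namespace Cfsg.Agent.S4803

open Cfsg.Agent.H679 in
/-- If a finite group G has an element at which every irreducible complex character of degree greater than one vanishes, then G is solvable. -/
theorem result {G : Type*} [Group G] [Finite G] (g : G) (hg : ∀ χ : Cfsg.IrrCharacter G, Cfsg.charDegree (χ : G → ℂ) ≠ 1 → (χ : G → ℂ) g = 0) : Group.IsSolvable G := by
  have h1 : CC (commutator G) g := cc_of_vanish g fun χ hχ => hg χ fun hc => hχ (by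
    rw [Cfsg.Agent.Blocks.Basic.irr_one_eq_charDegree χ.2, hc, Nat.cast_one])
  have h2 : Group.IsSolvable (commutator G) := solvable_of_conj (commutator G) g h1
  have h3 : Group.IsSolvable (G ⧸ commutator G) := by
    have : Group.IsSolvable (Abelianization G) := inferInstance
    exact this
  exact solvable_of_quot (commutator G) h2 h3

end Cfsg.Agent.S4803
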