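import Cfsg.Statements.S4808
import Cfsg.Agent.H674.Codegree

set_option autoImplicit false
open Cfsg

namespace Cfsg.Agent.S4808

/-- The codegree of an irreducible complex character χ of a finite group G is [G : ker χ] / χ(1), where ker χ is the set of elements at which χ takes the value χ(1). A prime divides the order of G if and only if it divides the codegree of some irreducible complex character of G. -/
theorem result {G : Type*} [Group G] [Finite G] (p : ℕ) (hp : p.Prime) : p ∣ Nat.card G ↔ ∃ χ : Cfsg.IrrCharacter G, p ∣ (Nat.card G / (Nat.card {g : G // (χ : G → ℂ) g = (χ : G → ℂ) 1} * Cfsg.charDegree (χ : G → ℂ))) := by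
  refine ⟨fun h => H674.Codegree.exists_codegree hp h, ?_⟩
  rintro ⟨χ, hχ⟩
  obtain ⟨K, hKn, hK⟩ := H674.Codegree.exists_kernel (Characters.Core.isIrr_isCharacter χ.2)
  have h1 := H674.Codegree.kernel_mul_degree_dvd χ.2 K hK
  rw [H674.Codegree.card_kernel K hK] at hχ
  exact hχ.trans (Nat.div_dvd_of_dvd h1)

end Cfsg.Agent.S4808
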