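import Cfsg.Statements.S4809
import Cfsg.Agent.H678.FactAFinal
import Cfsg.Agent.H680.GoodChief

set_option autoImplicit false
open Cfsg

namespace Cfsg.Agent.S4809

/-- Let p be a prime and G a finite group with a faithful irreducible complex character χ (χ(g) = χ(1) only for g = 1) whose codegree #G / χ(1) equals p^k. If L < K are normal subgroups of G with no normal subgroup of G strictly between them and K/L non-abelian (a non-abelian chief factor), then p^k exceeds the p-part of [K : L]: k is larger than the exponent of p in [K : L]. -/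
theorem result {G : Type*} [Group G] [Finite G] (p : ℕ) [Fact p.Prime] (χ : Cfsg.IrrCharacter G) (hfaith : ∀ g : G, (χ : G → ℂ) g = (χ : G → ℂ) 1 → g = 1) (k : ℕ) (hcod : Nat.card G = p ^ k * Cfsg.charDegree (χ : G → ℂ)) (L K : Subgroup G) [L.Normal] [K.Normal] (hLK : L < K) (hchief : ∀ M : Subgroup G, M.Normal → L ≤ M → M ≤ K → M = L ∨ M = K) (hnonab : ∃ x ∈ K, ∃ y ∈ K, x * y * x⁻¹ * y⁻¹ ∉ L) : (L.relIndex K).factorization p < k :=
  H680.GoodChief.chief_lt (fun _S _ _ _ hna => H678.factA hna) p χ k hcod L K hLK hchief hnonab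

end Cfsg.Agent.S4809
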