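import Cfsg.Statements.S4814
import Cfsg.Agent.Characters.Counting
import Cfsg.Agent.Characters.Values

set_option autoImplicit false
open Cfsg

namespace Cfsg.Agent.S4814

open Cfsg.Agent.Characters.Core Cfsg.Agent.Characters.Central
open Cfsg.Agent.Characters.Counting

/-- An irreducible character is bounded by its degree. -/
theorem norm_le_one {G : Type*} [Group G] [Finite G] {χ : G → ℂ} (hχ : IsIrrCharacter G χ)
    (g : G) : ‖χ g‖ ≤ ‖χ 1‖ := by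
  obtain ⟨n, ρ, hρ, rfl⟩ := hχ
  have h := Cfsg.Agent.Characters.Values.norm_character_le ρ g
  rw [Representation.char_one, Complex.norm_natCast]
  exact h

/-- Frobenius count for the product of two commutators, in vanishing form. -/
theorem sum_eq_zero {G : Type*} [Group G] [Finite G] [Fintype (IrrCharacter G)] (h : G)
    (hne : ∀ a b c d : G, a * b * a⁻¹ * b⁻¹ * (c * d * c⁻¹ * d⁻¹ * h) ≠ 1) :
    ∑ χ : IrrCharacter G, (χ : G → ℂ) h / (χ : G → ℂ) 1 ^ 3 = 0 := by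
  classical
  have := Fintype.ofFinite G
  have hcard : (Nat.card G : ℂ) ≠ 0 := by exact_mod_cast Nat.card_pos.ne'
  have e0 : ∑ a : G, ∑ b : G, ∑ c : G, ∑ d : G, ∑ χ : IrrCharacter G,
      (χ : G → ℂ) 1 * (χ : G → ℂ) (a * b * a⁻¹ * b⁻¹ * (c * d * c⁻¹ * d⁻¹ * h)) = 0 := by
    refine Finset.sum_eq_zero fun a _ => Finset.sum_eq_zero fun b _ => Finset.sum_eq_zero fun c _ =>
      Finset.sum_eq_zero fun d _ => ?_
    rw [sum_irr_one_mul, if_neg (hne a b c d)]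
  have e1 : ∑ a : G, ∑ b : G, ∑ c : G, ∑ d : G, ∑ χ : IrrCharacter G,
      (χ : G → ℂ) 1 * (χ : G → ℂ) (a * b * a⁻¹ * b⁻¹ * (c * d * c⁻¹ * d⁻¹ * h)) =
      ∑ χ : IrrCharacter G, ∑ c : G, ∑ d : G, (χ : G → ℂ) 1 * ∑ a : G, ∑ b : G,
        (χ : G → ℂ) (a * b * a⁻¹ * b⁻¹ * (c * d * c⁻¹ * d⁻¹ * h)) := by
    simp only [Finset.mul_sum]
    calc _ = ∑ a : G, ∑ b : G, ∑ c : G, ∑ χ : IrrCharacter G, ∑ d : G,
          (χ : G → ℂ) 1 * (χ : G → ℂ) (a * b * a⁻¹ * b⁻¹ * (c * d * c⁻¹ * d⁻¹ * h)) :=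
          Finset.sum_congr rfl fun a _ => Finset.sum_congr rfl fun b _ =>
            Finset.sum_congr rfl fun c _ => Finset.sum_comm
      _ = ∑ a : G, ∑ b : G, ∑ χ : IrrCharacter G, ∑ c : G, ∑ d : G,
          (χ : G → ℂ) 1 * (χ : G → ℂ) (a * b * a⁻¹ * b⁻¹ * (c * d * c⁻¹ * d⁻¹ * h)) :=
          Finset.sum_congr rfl fun a _ => Finset.sum_congr rfl fun b _ => Finset.sum_comm
      _ = ∑ a : G, ∑ χ : IrrCharacter G, ∑ b : G, ∑ c : G, ∑ d : G,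
          (χ : G → ℂ) 1 * (χ : G → ℂ) (a * b * a⁻¹ * b⁻¹ * (c * d * c⁻¹ * d⁻¹ * h)) :=
          Finset.sum_congr rfl fun a _ => Finset.sum_comm
      _ = ∑ χ : IrrCharacter G, ∑ a : G, ∑ b : G, ∑ c : G, ∑ d : G,
          (χ : G → ℂ) 1 * (χ : G → ℂ) (a * b * a⁻¹ * b⁻¹ * (c * d * c⁻¹ * d⁻¹ * h)) :=
          Finset.sum_comm
      _ = _ := by
          refine Finset.sum_congr rfl fun χ _ => ?_
          calc _ = ∑ a : G, ∑ c : G, ∑ b : G, ∑ d : G,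
              (χ : G → ℂ) 1 * (χ : G → ℂ) (a * b * a⁻¹ * b⁻¹ * (c * d * c⁻¹ * d⁻¹ * h)) :=
              Finset.sum_congr rfl fun a _ => Finset.sum_comm
            _ = ∑ c : G, ∑ a : G, ∑ b : G, ∑ d : G,
              (χ : G → ℂ) 1 * (χ : G → ℂ) (a * b * a⁻¹ * b⁻¹ * (c * d * c⁻¹ * d⁻¹ * h)) :=
              Finset.sum_comm
            _ = ∑ c : G, ∑ a : G, ∑ d : G, ∑ b : G,
              (χ : G → ℂ) 1 * (χ : G → ℂ) (a * b * a⁻¹ * b⁻¹ * (c * d * c⁻¹ * d⁻¹ * h)) :=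
              Finset.sum_congr rfl fun c _ => Finset.sum_congr rfl fun a _ => Finset.sum_comm
            _ = _ := Finset.sum_congr rfl fun c _ => Finset.sum_comm
  have e2 : ∀ χ : IrrCharacter G, ∑ c : G, ∑ d : G, (χ : G → ℂ) 1 * ∑ a : G, ∑ b : G,
        (χ : G → ℂ) (a * b * a⁻¹ * b⁻¹ * (c * d * c⁻¹ * d⁻¹ * h)) =
      (Nat.card G : ℂ) ^ 4 * ((χ : G → ℂ) h / (χ : G → ℂ) 1 ^ 3) := by
    intro χ
    have h1 := irr_one_ne_zero χ.2
    have e3 : ∀ c d : G, (χ : G → ℂ) 1 * ∑ a : G, ∑ b : G,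
        (χ : G → ℂ) (a * b * a⁻¹ * b⁻¹ * (c * d * c⁻¹ * d⁻¹ * h)) =
        ((Nat.card G : ℂ) ^ 2 / (χ : G → ℂ) 1) * (χ : G → ℂ) (c * d * c⁻¹ * d⁻¹ * h) := by
      intro c d
      rw [sum_char_commutator_mul χ.2]
      field_simp
    simp only [e3, ← Finset.mul_sum]
    rw [sum_char_commutator_mul χ.2]
    field_simp
  rw [e1, Finset.sum_congr rfl fun χ _ => e2 χ, ← Finset.mul_sum] at e0
  exact (mul_eq_zero.mp e0).resolve_left (pow_ne_zero 4 hcard)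

/-- Let G be a finite group such that the sum, over the irreducible complex characters χ of G, of 1/χ(1)² is less than 2. Then every element of G is a product of two commutators. -/
theorem result {G : Type*} [Group G] [Finite G]
    (h : ∑ᶠ χ : Cfsg.IrrCharacter G, 1 / ‖(χ : G → ℂ) 1‖ ^ 2 < (2 : ℝ)) (g : G) :
    ∃ a b c d : G, (a * b * a⁻¹ * b⁻¹) * (c * d * c⁻¹ * d⁻¹) = g := by
  classical
  have : Finite (IrrCharacter G) := finite_irr
  have := Fintype.ofFinite (IrrCharacter G)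
  by_contra hcon
  push Not at hcon
  have hz := sum_eq_zero g⁻¹ (fun a b c d h0 => hcon a b c d (by
    rw [← mul_assoc] at h0
    exact mul_inv_eq_one.mp h0))
  let one : IrrCharacter G := ⟨1, isIrr_one⟩
  rw [← Finset.add_sum_erase _ _ (Finset.mem_univ one)] at hz
  have h1 : ((one : IrrCharacter G) : G → ℂ) g⁻¹ / ((one : IrrCharacter G) : G → ℂ) 1 ^ 3 = 1 := by
    simp [one]
  rw [h1] at hz
  have h2 : ‖∑ χ ∈ Finset.univ.erase one, (χ : G → ℂ) g⁻¹ / (χ : G → ℂ) 1 ^ 3‖ = 1 := by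
    have : ∑ χ ∈ Finset.univ.erase one, (χ : G → ℂ) g⁻¹ / (χ : G → ℂ) 1 ^ 3 = -1 := by
      linear_combination hz
    rw [this]; simp
  have h3 : ‖∑ χ ∈ Finset.univ.erase one, (χ : G → ℂ) g⁻¹ / (χ : G → ℂ) 1 ^ 3‖ ≤
      ∑ χ ∈ Finset.univ.erase one, 1 / ‖(χ : G → ℂ) 1‖ ^ 2 := by
    refine (norm_sum_le _ _).trans (Finset.sum_le_sum fun χ _ => ?_)
    have hpos : 0 < ‖(χ : G → ℂ) 1‖ := norm_pos_iff.mpr (irr_one_ne_zero χ.2)
    rw [norm_div, norm_pow, div_le_div_iff₀ (by positivity) (by positivity)]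
    have := norm_le_one χ.2 g⁻¹
    nlinarith [pow_pos hpos 2]
  rw [finsum_eq_sum_of_fintype, ← Finset.add_sum_erase _ _ (Finset.mem_univ one)] at h
  have h4 : 1 / ‖((one : IrrCharacter G) : G → ℂ) 1‖ ^ 2 = (1 : ℝ) := by
    simp [one]
  rw [h4] at h
  linarith

end Cfsg.Agent.S4814
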