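import Cfsg.Statements.S4839
import Cfsg.Agent.H688.GagCoset
import Cfsg.Agent.H686.GagolaSyl
import Cfsg.Agent.S0039

set_option autoImplicit false
open Cfsg

namespace Cfsg.Agent.S4839

open Cfsg.Agent.H686.Gagola Cfsg.Agent.H688.GagCoset

/-- Let G be a finite group of order greater than 2 with an irreducible character χ nonzero on exactly two conjugacy classes, and let N be the normal p-subgroup of elements where χ is nonzero. Then N is the whole p-core O_p(G) if and only if G is a doubly transitive Frobenius group with kernel N: G has a Frobenius complement H whose Frobenius kernel is N and whose order is one less than that of N. -/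
theorem result {G : Type*} [Group G] [Finite G] (hG : 2 < Nat.card G) (χ : Cfsg.IrrCharacter G) (hχ : Nat.card {C : ConjClasses G // ∃ g ∈ C.carrier, (χ : G → ℂ) g ≠ 0} = 2) (p : ℕ) [Fact p.Prime] (N : Subgroup G) [N.Normal] (hN : ∀ g : G, g ∈ N ↔ (χ : G → ℂ) g ≠ 0) (hNp : IsPGroup p N) (hN1 : N ≠ ⊥) :
    N = Cfsg.pCore p G ↔ ∃ H : Subgroup G, Cfsg.IsFrobeniusComplement H ∧ Cfsg.frobeniusKernel H = (N : Set G) ∧ Nat.card H + 1 = Nat.card N := by
  classical
  obtain ⟨x, h⟩ := exists_dat χ hχ
  obtain rfl := eq_nrm hG h hN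
  have hp : p.Prime := Fact.out
  have hcomm : ∀ a ∈ nrm χ, ∀ b ∈ nrm χ, a * b = b * a := fun a ha b hb => by
    have h1 := (comm_nrm hG h).is_comm.comm ⟨a, ha⟩ ⟨b, hb⟩
    exact congrArg Subtype.val h1
  have hx : x ∈ nrm χ := (mem_nrm_iff hG h x).2 (Or.inr (IsConj.refl x))
  have hcls := cls_mul x
  have hcardN := card_nrm hG h
  have hclspos := cls_pos x
  obtain ⟨a, ha⟩ := IsPGroup.iff_card.1 hNp
  have ha0 : a ≠ 0 := by
    rintro rfl
    rw [pow_zero] at ha
    omega
  have hpN : p ∣ Nat.card (nrm χ) := by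
    rw [ha]
    exact dvd_pow_self p ha0
  have hexp : ∀ g ∈ nrm χ, g ^ p = 1 := by
    obtain ⟨q, hq, hqe⟩ := isElementaryAbelian_nrm hG h
    have hqp : q = p := by
      have h1 : orderOf x ∣ q := orderOf_dvd_of_pow_eq_one (hqe.2 x hx)
      have h2 : orderOf x = q := ((Nat.dvd_prime hq).1 h1).resolve_left fun h3 =>
        h.ne_one (orderOf_eq_one_iff.1 h3)
      obtain ⟨k, hk⟩ := hNp ⟨x, hx⟩
      have h3 : x ^ p ^ k = 1 := congrArg Subtype.val hk
      have h4 : q ∣ p ^ k := h2 ▸ orderOf_dvd_of_pow_eq_one h3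
      exact (Nat.prime_dvd_prime_iff_eq hq hp).1 (hq.dvd_of_dvd_pow h4)
    subst hqp
    exact hqe.2
  constructor
  · intro hcore
    have H : Hyp p (nrm χ) :=
      { comm := hcomm
        exp := hexp
        pgrp := hNp
        coset := fun y hy n hn => isConj_mul _ y
          (Cfsg.Agent.H686.GagolaSyl.card_centralizer_quot hG h hy) hn
        syl := fun v hv hv1 => by
          obtain ⟨P, hP⟩ := exists_sylow hG (dat_of_mem hG h hv hv1) hNp
          rw [hP]
          exact P.2
        core := fun K hK hKp => by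
          rw [hcore]
          exact le_sSup ⟨hK, hKp⟩ }
    -- the centralizers lie in `N`
    have hcent : ∀ v ∈ nrm χ, v ≠ 1 → Subgroup.centralizer ({v} : Set G) ≤ nrm χ := by
      intro v hv hv1 g hg
      rw [mem_centralizer_singleton] at hg
      by_cases hp2 : p = 2
      · subst hp2
        exact even_case H hv hv1 hg
      · refine odd_case H hp2 ?_ hv hv1 hg
        have h1 : Odd (Nat.card (nrm χ)) := by
          rw [ha]
          exact (hp.odd_of_ne_two hp2).pow
        have h2 : Even (cls x) := by
          rw [hcardN] at h1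
          rcases Nat.even_or_odd (cls x) with h3 | h3
          · exact h3
          · exact absurd (h3.add_odd odd_one) (Nat.not_even_iff_odd.2 h1)
        exact h2.two_dvd.trans ⟨_, hcls.symm⟩
    have hcentx : Subgroup.centralizer ({x} : Set G) = nrm χ := by
      apply le_antisymm (hcent x hx h.ne_one)
      intro n hn
      rw [mem_centralizer_singleton]
      exact hcomm n hn x hx
    rw [hcentx] at hcls
    have hidx : (nrm χ).index = cls x := by
      rw [← hcentx]
      exact index_centralizer x
    have hcop : Nat.Coprime (Nat.card (nrm χ)) (nrm χ).index := by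
      rw [hidx, hcardN]
      simp
    obtain ⟨K, hK⟩ := Subgroup.exists_right_complement'_of_coprime hcop
    have hKcard : Nat.card K = cls x := by
      have h1 := hK.card_mul_card
      rw [← hcls, mul_comm (cls x)] at h1
      exact Nat.eq_of_mul_eq_mul_left Nat.card_pos h1
    have hKbot : K ≠ ⊥ := by
      rintro rfl
      rw [Subgroup.card_bot] at hKcard
      rw [← hKcard, hcardN, ← hKcard] at hcls
      omega
    have hfrob : Cfsg.IsFrobeniusComplement K := by
      rw [Cfsg.Agent.S0039.result (nrm χ) K hK hN1 hKbot]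
      intro k hk hk1
      rw [eq_bot_iff]
      rintro n ⟨hn, hnk⟩
      rw [Subgroup.mem_bot]
      by_contra hn1
      have h1 : k ∈ nrm χ := by
        apply hcent n hn hn1
        have h2 := mem_centralizer_singleton.1 hnk
        exact mem_centralizer_singleton.2 h2.symm
      have h2 : k ∈ nrm χ ⊓ K := ⟨h1, hk⟩
      rw [hK.isCompl.inf_eq_bot, Subgroup.mem_bot] at h2
      exact hk1 h2
    refine ⟨K, hfrob, ?_, by rw [hKcard, hcardN]⟩
    have hsub : (nrm χ : Set G) ⊆ Cfsg.frobeniusKernel K := by
      intro n hn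
      by_cases hn1 : n = 1
      · exact Or.inl hn1
      right
      intro g hg
      rw [Subgroup.mem_pointwise_smul_iff_inv_smul_mem] at hg
      have h1 : g⁻¹ * n * g ∈ K := by
        have h2 : (MulAut.conj g)⁻¹ • n = g⁻¹ * n * g := by
          rw [← map_inv, MulAut.smul_def, MulAut.conj_apply, inv_inv]
        rwa [h2] at hg
      have h2 : g⁻¹ * n * g ∈ nrm χ := by
        have := (nrm_normal χ).conj_mem n hn g⁻¹
        rwa [inv_inv] at this
      have h3 : g⁻¹ * n * g ∈ nrm χ ⊓ K := ⟨h2, h1⟩
      rw [hK.isCompl.inf_eq_bot, Subgroup.mem_bot] at h3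
      apply hn1
      calc n = g * (g⁻¹ * n * g) * g⁻¹ := by group
        _ = 1 := by rw [h3]; group
    have hker := Cfsg.Agent.Solvable.FrobeniusKernel.card_kernel hfrob
    have hKidx : K.index = Nat.card (nrm χ) := hK.index_eq_card
    refine (Set.eq_of_subset_of_ncard_le hsub ?_).symm
    have h1 : (Cfsg.frobeniusKernel K).ncard = Nat.card (Cfsg.frobeniusKernel K) := rfl
    have h2 : (nrm χ : Set G).ncard = Nat.card (nrm χ) := rfl
    rw [h1, h2, hker, hKidx]
  · rintro ⟨K, hK, hker, hcard⟩
    have hidx := Cfsg.Agent.Solvable.FrobeniusKernel.card_kernel hK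
    rw [hker] at hidx
    have hidx' : Nat.card (nrm χ) = K.index := hidx
    have hGc : Nat.card K * Nat.card (nrm χ) = Nat.card G := by
      rw [hidx']
      exact K.card_mul_index
    apply le_antisymm
    · exact le_sSup ⟨inferInstance, hNp⟩
    · refine sSup_le ?_
      rintro L ⟨hL, hLp⟩
      have h1 : IsPGroup p (L ⊔ nrm χ : Subgroup G) := hLp.to_sup_of_normal_right hNp
      obtain ⟨b, hb⟩ := IsPGroup.iff_card.1 h1
      have h2 : p ^ b ∣ Nat.card (nrm χ) := by
        have h3 : p ^ b ∣ Nat.card G := by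
          rw [← hb]
          exact Subgroup.card_subgroup_dvd_card _
        rw [← hGc] at h3
        refine (Nat.Coprime.pow_left b ?_).dvd_of_dvd_mul_left h3
        rw [Nat.Prime.coprime_iff_not_dvd hp]
        intro h4
        have h5 : p ∣ 1 := by
          rw [← hcard] at hpN
          exact (Nat.dvd_add_right h4).1 hpN
        exact hp.one_lt.ne' (Nat.dvd_one.1 h5)
      have h3 : Nat.card (L ⊔ nrm χ : Subgroup G) ≤ Nat.card (nrm χ) := by
        rw [hb]
        exact Nat.le_of_dvd Nat.card_pos h2
      have h4 := Subgroup.eq_of_le_of_card_ge (le_sup_right : nrm χ ≤ L ⊔ nrm χ) h3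
      rw [h4]
      exact le_sup_left

end Cfsg.Agent.S4839
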