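import Cfsg.Statements.S4841
import Cfsg.Agent.H688.GagBridge
import Cfsg.Agent.H688.TransMain

set_option autoImplicit false
open Cfsg

namespace Cfsg.Agent.S4841

/-- Let G be a finite non-solvable group with an irreducible character nonzero on exactly two conjugacy classes. Then O_p(G) ≠ 1 for exactly one prime p, and H = G/O_p(G) has one of the following shapes: (i) H has a normal subgroup S isomorphic to SL₂(F) for a finite field F of characteristic p with more than 2 elements, with H/S a cyclic p-group and C_H(S) = Z(S); (ii) p = 3 and H has a normal subgroup S of index 2 isomorphic to SL₂(5) with C_H(S) = Z(S) and no complement in H; (iii) p = 3 and H ≅ SL₂(13); (iv) p = 11 and H ≅ SL₂(5); (v) p = 29 and H ≅ SL₂(5) × C₇; (vi) p = 59 and H ≅ SL₂(5) × C₂₉. -/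
theorem result {G : Type*} [Group G] [Finite G] (hns : ¬ Group.IsSolvable G) (χ : Cfsg.IrrCharacter G) (hχ : Nat.card {C : ConjClasses G // ∃ g ∈ C.carrier, (χ : G → ℂ) g ≠ 0} = 2) :
    ∃ p : ℕ, p.Prime ∧ (∀ q : ℕ, q.Prime → (Cfsg.pCore q G ≠ ⊥ ↔ q = p)) ∧
      ((∃ (F : Type) (_ : Field F) (_ : Fintype F), (∃ a : ℕ, Fintype.card F = p ^ a) ∧ 2 < Fintype.card F ∧
          ∃ S : Subgroup (G ⧸ Cfsg.pCore p G), S.Normal ∧ Nonempty (S ≃* Matrix.SpecialLinearGroup (Fin 2) F) ∧ (∃ k : ℕ, S.index = p ^ k) ∧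
            (∃ h : (G ⧸ Cfsg.pCore p G), S ⊔ Subgroup.zpowers h = ⊤) ∧ Subgroup.centralizer (S : Set (G ⧸ Cfsg.pCore p G)) = (Subgroup.center S).map S.subtype) ∨
       (p = 3 ∧ ∃ S : Subgroup (G ⧸ Cfsg.pCore p G), S.Normal ∧ S.index = 2 ∧ Nonempty (S ≃* Matrix.SpecialLinearGroup (Fin 2) (ZMod 5)) ∧
            Subgroup.centralizer (S : Set (G ⧸ Cfsg.pCore p G)) = (Subgroup.center S).map S.subtype ∧ ∀ K : Subgroup (G ⧸ Cfsg.pCore p G), ¬ Subgroup.IsComplement' S K) ∨
       (p = 3 ∧ Nonempty ((G ⧸ Cfsg.pCore p G) ≃* Matrix.SpecialLinearGroup (Fin 2) (ZMod 13))) ∨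
       (p = 11 ∧ Nonempty ((G ⧸ Cfsg.pCore p G) ≃* Matrix.SpecialLinearGroup (Fin 2) (ZMod 5))) ∨
       (p = 29 ∧ Nonempty ((G ⧸ Cfsg.pCore p G) ≃* Matrix.SpecialLinearGroup (Fin 2) (ZMod 5) × Multiplicative (ZMod 7))) ∨
       (p = 59 ∧ Nonempty ((G ⧸ Cfsg.pCore p G) ≃* Matrix.SpecialLinearGroup (Fin 2) (ZMod 5) × Multiplicative (ZMod 29)))) := by
  classical
  have hG : 2 < Nat.card G := by
    by_contra h
    apply hns
    have h0 : 0 < Nat.card G := Nat.card_pos
    have h1 : Nat.card G = 1 ∨ Nat.card G = 2 := by omega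
    rcases h1 with h1 | h1
    · have : Subsingleton G := (Nat.card_eq_one_iff_unique.1 h1).1
      infer_instance
    · have h2 : Fact (Nat.Prime 2) := ⟨Nat.prime_two⟩
      have h3 : IsPGroup 2 G := IsPGroup.of_card (n := 1) (by rw [h1, pow_one])
      have h4 : Group.IsNilpotent G := h3.isNilpotent
      infer_instance
  obtain ⟨p, hp, hcore, V, _, _, _, _, H, hH, ⟨e⟩⟩ :=
    Cfsg.Agent.H688.GagBridge.exists_lin hG χ hχ
  have hsH : ¬ Group.IsSolvable H := by
    intro hs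
    apply hns
    have h1 : Group.IsSolvable (G ⧸ pCore p G) :=
      Group.isSolvable_of_surjective (f := e.symm.toMonoidHom) e.symm.surjective
    have h2 : Group.IsNilpotent (pCore p G) :=
      (Cfsg.Agent.Lib.Cores.pCore_isPGroup (G := G) p).isNilpotent
    have h3 : Group.IsSolvable (pCore p G) := inferInstance
    exact (Group.isSolvable_iff_subgroup_quotient (pCore p G)).2 ⟨h3, h1⟩
  have hsh := Cfsg.Agent.H688.TransOddC.shape_congr e
    (Cfsg.Agent.H688.TransMain.shape hH hsH)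
  exact ⟨p, hp.out, hcore, hsh⟩

end Cfsg.Agent.S4841
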