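import Cfsg.Statements.S4847
import Cfsg.Agent.H748.PalfyFinal

set_option autoImplicit false
open Cfsg

namespace Cfsg.Agent.S4847

/-- Let G be a finite solvable group and p, q, r three distinct primes each dividing the degree of some irreducible character of G. Then for some two of them the product divides the degree of some irreducible character of G (the character degree graph of a solvable group has no three pairwise non-adjacent vertices). -/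
theorem result {G : Type*} [Group G] [Finite G] [hs : Group.IsSolvable G] (p q r : ℕ) (hp : p.Prime) (hq : q.Prime) (hr : r.Prime) (hpq : p ≠ q) (hqr : q ≠ r) (hpr : p ≠ r)
    (hpd : ∃ χ : Cfsg.IrrCharacter G, p ∣ Cfsg.charDegree (χ : G → ℂ)) (hqd : ∃ χ : Cfsg.IrrCharacter G, q ∣ Cfsg.charDegree (χ : G → ℂ)) (hrd : ∃ χ : Cfsg.IrrCharacter G, r ∣ Cfsg.charDegree (χ : G → ℂ)) :
    (∃ χ : Cfsg.IrrCharacter G, p * q ∣ Cfsg.charDegree (χ : G → ℂ)) ∨ (∃ χ : Cfsg.IrrCharacter G, q * r ∣ Cfsg.charDegree (χ : G → ℂ)) ∨ (∃ χ : Cfsg.IrrCharacter G, p * r ∣ Cfsg.charDegree (χ : G → ℂ)) := by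
  have key : ∀ {a b : ℕ}, Cfsg.Agent.H671.H5.Adj a b G →
      ∃ χ : Cfsg.IrrCharacter G, a * b ∣ Cfsg.charDegree (χ : G → ℂ) := by
    intro a b h
    obtain ⟨-, -, -, d, ⟨χ, rfl⟩, hd⟩ := h
    exact ⟨χ, hd⟩
  obtain ⟨χ, hχ⟩ := hpd
  obtain ⟨ψ, hψ⟩ := hqd
  obtain ⟨θ, hθ⟩ := hrd
  rcases Cfsg.Agent.H748.Palfy.palfy (G := G) hs (p := p) (q := q) (r := r)
    ⟨hp, _, ⟨χ, rfl⟩, hχ⟩ ⟨hq, _, ⟨ψ, rfl⟩, hψ⟩ ⟨hr, _, ⟨θ, rfl⟩, hθ⟩ hpq hqr hpr with h | h | h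
  · exact Or.inl (key h)
  · exact Or.inr (Or.inl (key h))
  · exact Or.inr (Or.inr (key h))

end Cfsg.Agent.S4847
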