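import Cfsg.Statements.S4850
import Cfsg.Agent.H708.VanOrder

set_option autoImplicit false
open Cfsg

namespace Cfsg.Agent.S4850

open Cfsg.Agent.H708.VanOrder Cfsg.Agent.H727.VanEl

/-- Let p be a prime and G a finite solvable group whose vanishing elements (elements at which some irreducible character is zero) of order divisible by p all have the same order, with at least one such element. Let P be a Sylow p-subgroup of G. Then the derived subgroup of P is subnormal in G and the image of P in G/O_p(G) is cyclic. -/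
theorem result {G : Type*} [Group G] [Finite G] [hs : Group.IsSolvable G] (p : ℕ) [Fact p.Prime] (b : ℕ) (hvo : {n : ℕ | p ∣ n ∧ ∃ (g : G) (χ : Cfsg.IrrCharacter G), orderOf g = n ∧ (χ : G → ℂ) g = 0} = {b}) (P : Sylow p G) :
    ((commutator ↥(P : Subgroup G)).map (P : Subgroup G).subtype).IsSubnormal ∧ IsCyclic ↥((P : Subgroup G).map (QuotientGroup.mk' (Cfsg.pCore p G))) := by
  have hp : p.Prime := Fact.out
  have hord : ∀ x : G, PV p x → orderOf x = b := by
    intro x hx
    have h1 : orderOf x ∈ {n : ℕ | p ∣ n ∧ ∃ (g : G) (χ : Cfsg.IrrCharacter G), orderOf g = n ∧ (χ : G → ℂ) g = 0} := by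
      obtain ⟨χ, hχ⟩ := hx.1
      exact ⟨hx.2, x, χ, rfl, hχ⟩
    rw [hvo] at h1
    exact h1
  have hgood : Good p G := by
    refine ⟨?_, ?_⟩
    · rintro x y hx ⟨k, hk⟩ hy
      refine ⟨k, ?_⟩
      rw [← orderOf_dvd_iff_pow_eq_one, hord y hy, ← hord x hx]
      exact orderOf_dvd_of_pow_eq_one hk
    · intro x hx h
      have h1 := hord x hx
      have h2 := hord _ h
      rw [orderOf_pow_of_dvd hp.ne_zero hx.2, h1] at h2
      have h3 : 0 < b := h1 ▸ orderOf_pos x
      have h4 := Nat.div_lt_self h3 hp.one_lt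
      omega
  have hNn : (pCore p G).Normal := Cfsg.Agent.Lib.Cores.pCore_normal p
  have hgood' : Good p (G ⧸ pCore p G) :=
    hgood.of_surjective (QuotientGroup.mk' (pCore p G)) (QuotientGroup.mk'_surjective _)
  have hcore : pCore p (G ⧸ pCore p G) = ⊥ := Cfsg.Agent.Lib.Cores.pCore_quotient_pCore p
  have hnot := not_sq_dvd_card inferInstance hgood' hcore
  -- the image of `P` has order dividing `p`
  set R := (P : Subgroup G).map (QuotientGroup.mk' (pCore p G)) with hR
  have hRp : IsPGroup p R := P.isPGroup'.map _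
  have hRcard : Nat.card R ∣ p := by
    obtain ⟨k, hk⟩ := IsPGroup.iff_card.1 hRp
    have h1 : p ^ k ∣ Nat.card (G ⧸ pCore p G) := hk ▸ R.card_subgroup_dvd_card
    have h2 : k < 2 := by
      by_contra h
      exact hnot ((pow_dvd_pow p (not_lt.1 h)).trans h1)
    rw [hk]
    calc p ^ k ∣ p ^ 1 := pow_dvd_pow p (by omega)
      _ = p := pow_one p
  have hcyc : IsCyclic R := by
    rcases (Nat.dvd_prime hp).1 hRcard with h | h
    · have : Subsingleton R := (Nat.card_eq_one_iff_unique.1 h).1
      infer_instance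
    · exact isCyclic_of_prime_card h
  refine ⟨?_, hcyc⟩
  -- `P' ≤ O_p(G)`
  set D := (commutator ↥(P : Subgroup G)).map (P : Subgroup G).subtype with hD
  have hDle : D ≤ pCore p G := by
    have h1 : commutator ↥(P : Subgroup G) ≤
        ((QuotientGroup.mk' (pCore p G)).comp (P : Subgroup G).subtype).ker := by
      rw [commutator_def, Subgroup.commutator_le]
      intro x _ y _
      rw [MonoidHom.mem_ker, map_commutatorElement, commutatorElement_eq_one_iff_mul_comm]
      have hc : IsMulCommutative R := inferInstance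
      have hx : (QuotientGroup.mk' (pCore p G)) (x : G) ∈ R := ⟨x, x.2, rfl⟩
      have hy : (QuotientGroup.mk' (pCore p G)) (y : G) ∈ R := ⟨y, y.2, rfl⟩
      exact congrArg (Subtype.val : R → _) (hc.is_comm.comm ⟨_, hx⟩ ⟨_, hy⟩)
    rintro _ ⟨x, hx, rfl⟩
    have h2 := h1 hx
    rw [MonoidHom.mem_ker, MonoidHom.comp_apply, QuotientGroup.mk'_apply,
      QuotientGroup.eq_one_iff] at h2
    exact h2
  -- `O_p(G) ≤ P` normalizes `P'`
  have hOP : pCore p G ≤ (P : Subgroup G) :=
    (Cfsg.Agent.Lib.Cores.pCore_isPGroup (G := G) p).le_sylow_of_normal P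
  refine Subgroup.IsSubnormal.step D (pCore p G) hDle hNn.isSubnormal ?_
  refine ⟨?_⟩
  rintro ⟨d, hd⟩ hdD ⟨g, hg⟩
  rw [Subgroup.mem_subgroupOf] at hdD ⊢
  obtain ⟨c, hc, hcd⟩ := hdD
  have hcn : (commutator ↥(P : Subgroup G)).Normal := inferInstance
  refine ⟨⟨g, hOP hg⟩ * c * ⟨g, hOP hg⟩⁻¹, hcn.conj_mem c hc _, ?_⟩
  simp only [map_mul, map_inv, hcd]
  rfl

end Cfsg.Agent.S4850
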