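import Cfsg.Statements.S4851
import Cfsg.Agent.H708.RFMain
import Cfsg.Agent.S0000

set_option autoImplicit false
universe u
open Cfsg

namespace Cfsg.Agent.S4851

open Cfsg.Agent.H708.RFam Cfsg.Agent.SignalizersComponents.Components in
/-- For every natural number k there is a bound N such that every finite group with at most k real-valued irreducible characters has solvable radical (the largest solvable normal subgroup, the join of the solvable normal subgroups) of index at most N. -/
theorem result (k : ℕ) : ∃ N : ℕ, ∀ (G : Type u) [Group G] [Finite G], Nat.card {χ : Cfsg.IrrCharacter G // ∀ g : G, ((χ : G → ℂ) g).im = 0} ≤ k → (sSup {S : Subgroup G | S.Normal ∧ Group.IsSolvable S}).index ≤ N := by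
  obtain ⟨N, hN⟩ := bd_known.{u} (k + 1)
  refine ⟨((N + 1) ^ k) ^ ((N + 1) ^ k), fun G _ _ hk => ?_⟩
  obtain ⟨R, hR⟩ := Cfsg.Agent.QTComp.Basic.exists_isRad G
  have hRn : R.Normal := hR.normal
  have h1 : sSup {S : Subgroup G | S.Normal ∧ Group.IsSolvable S} = R :=
    le_antisymm (sSup_le fun S hS => hR.le S hS.1 hS.2) (le_sSup ⟨hRn, hR.solv⟩)
  rw [h1]
  change Nat.card (G ⧸ R) ≤ _
  have hT : TC (G ⧸ R) := by
    intro K hK
    have h2 : ((Subgroup.center K).map K.subtype).IsSubnormal :=
      Subgroup.IsSubnormal.trans' (Subgroup.Normal.isSubnormal inferInstance) hK.1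
    have h3 : (Subgroup.center K).map K.subtype = ⊥ := by
      refine hR.eq_bot_of_subnormal h2 ?_
      refine Group.isSolvable_of_comm fun a b => ?_
      obtain ⟨a, ⟨a', ha, rfl⟩⟩ := a
      obtain ⟨b, ⟨b', hb, rfl⟩⟩ := b
      apply Subtype.ext
      have h6 := congrArg K.subtype (Subgroup.mem_center_iff.1 hb a')
      exact h6
    exact (Subgroup.map_eq_bot_iff_of_injective _ K.subtype_injective).1 h3
  refine card_le_of_rc hT (Cfsg.Agent.QTComp.One.centralizer_layer hR) (k := k) ?_ ?_
  · refine le_trans (le_of_eq ?_) ((card_real_le (QuotientGroup.mk' R)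
      (QuotientGroup.mk'_surjective R)).trans hk)
    exact (Cfsg.Agent.S0160.result (G := G ⧸ R)).symm
  · intro K hK hRF
    have h5 : IsSimpleGroup (K ⧸ Subgroup.center K) := hK.2.2
    have e : K ⧸ Subgroup.center K ≃* K :=
      (QuotientGroup.quotientMulEquivOfEq (hT K hK)).trans QuotientGroup.quotientBot
    have h4 : IsSimpleGroup K := e.symm.isSimpleGroup
    refine hN K ?_ Cfsg.Agent.S0000.result hRF
    intro hcomm
    exact quasisimple_not_isMulCommutative hK.2 ⟨⟨hcomm⟩⟩

end Cfsg.Agent.S4851
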