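import Cfsg.Statements.S4862
import Cfsg.Agent.H692.LinConst

set_option autoImplicit false
open Cfsg

namespace Cfsg.Agent.S4862

open Cfsg.Agent.Characters.Core Cfsg.Agent.Characters.Clifford Cfsg.Agent.H692.RealAct
open Cfsg.Agent.H692.RealOver Cfsg.Agent.H692.KeyReal Cfsg.Agent.H692.LinConst
open scoped ComplexConjugate

/-- Let p be an odd prime and G a finite group such that the subgroup generated by the p-elements of G is solvable and every real-valued irreducible complex character of G has degree prime to p. Let K be the subgroup generated by the 2-elements of G and P a Sylow p-subgroup of G. Then every normal subgroup M of G contained in K and in the derived subgroup of P is centralized by K. -/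
theorem result {G : Type*} [Group G] [Finite G] (p : ℕ) [Fact p.Prime] (hp : p ≠ 2) (hsolv : Group.IsSolvable ↥(Subgroup.closure {g : G | ∃ k : ℕ, orderOf g = p ^ k})) (hreal : ∀ χ : Cfsg.IrrCharacter G, (∀ g : G, ((χ : G → ℂ) g).im = 0) → ¬ p ∣ Cfsg.charDegree (χ : G → ℂ)) (P : Sylow p G) (M : Subgroup G) (hM : M.Normal) (hMK : M ≤ (Subgroup.closure {g : G | ∃ k : ℕ, orderOf g = 2 ^ k})) (hMP : M ≤ ⁅(P : Subgroup G), (P : Subgroup G)⁆) : (Subgroup.closure {g : G | ∃ k : ℕ, orderOf g = 2 ^ k}) ≤ Subgroup.centralizer (M : Set G) := by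
  classical
  have hGf := Fintype.ofFinite G
  have hMf := Fintype.ofFinite M
  have hPf := Fintype.ofFinite (P : Subgroup G)
  have hp1 : p.Prime := Fact.out
  rw [Subgroup.closure_le]
  rintro h ⟨k, hk⟩
  show h ∈ Subgroup.centralizer (M : Set G)
  rw [Subgroup.mem_centralizer_iff]
  intro m hm
  by_contra hne
  obtain ⟨t, -, ht1, ht2⟩ := exists_involutory M hk ⟨m, hm, fun h' => hne h'.symm⟩
  obtain ⟨θ, hθ1, s, hs⟩ := exists_conj_irr M ht1 ht2
  have hMP' : M ≤ (P : Subgroup G) := hMP.trans (Subgroup.commutator_le_self _)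
  have hMp : IsPGroup p M := P.2.to_le hMP'
  obtain ⟨d, hd⟩ := hMp.exists_card_eq
  have hodd : Odd (Nat.card M) := by
    rw [hd]
    exact (hp1.odd_of_ne_two hp).pow
  have hdef : 2 ^ (Nat.card M).factorization 2 ∣ charDegree (θ : M → ℂ) := by
    rw [Nat.factorization_eq_zero_of_not_dvd (fun h => (Nat.not_even_iff_odd.2 hodd)
      (even_iff_two_dvd.2 h)), pow_zero]
    exact one_dvd _
  obtain ⟨S⟩ := (inferInstance : Nonempty (Sylow 2 G))
  have hfS : Fintype (S : Subgroup G) := Fintype.ofFinite _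
  obtain ⟨χ, hχ, -, ⟨e, heo, he⟩, -⟩ := exists_real_over M S θ.2 hdef ⟨s, hs⟩
  have he0 : classInner (fun n : M => (χ : G → ℂ) n) (θ : M → ℂ) ≠ 0 := by
    rw [he]
    have : e ≠ 0 := by
      rintro rfl
      exact Nat.not_odd_zero heo
    exact_mod_cast this
  obtain ⟨f, hf⟩ := exists_linear_constituent hp1 (P : Subgroup G) P.2 χ.2 (hreal χ hχ)
  have hfM : ∀ m (hm : m ∈ M), f ⟨m, hMP' hm⟩ = 1 := by
    intro m hm
    have h1 : (⟨m, hMP' hm⟩ : (P : Subgroup G)) ∈ commutator (P : Subgroup G) := by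
      have h2 := hMP hm
      rw [← Subgroup.map_subtype_commutator] at h2
      obtain ⟨y, hy, hy2⟩ := Subgroup.mem_map.1 h2
      have : y = ⟨m, hMP' hm⟩ := Subtype.ext hy2
      rwa [← this]
    exact Abelianization.commutator_subset_ker f h1
  have h1 := classInner_one_ne_zero (P : Subgroup G) M hMP' χ.2 f hf hfM
  obtain ⟨g, hg⟩ := exists_conj_of_constituents M χ.2 (isIrr_one (G := M)) θ.2 h1 he0
  apply hθ1
  rw [hg]
  rfl

end Cfsg.Agent.S4862
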