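import Cfsg.Statements.S4864
import Cfsg.Agent.H692.RealOdd
import Cfsg.Agent.H692.CjFix

set_option autoImplicit false
open Cfsg

namespace Cfsg.Agent.S4864

open Cfsg.Agent.H692.RealAct Cfsg.Agent.H692.NSyl
open Cfsg.Agent.H692.NormalSylow Cfsg.Agent.H692.RealOdd

/-- Let p be a prime and G a finite group such that the subgroup generated by the p-elements of G is solvable and every real-valued irreducible complex character of G has degree prime to p. Then the normalizer of a Sylow p-subgroup of G contains an element of every real conjugacy class of G: every element conjugate to its inverse is conjugate to an element of that normalizer. -/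
theorem result {G : Type*} [Group G] [Finite G] (p : ℕ) [Fact p.Prime] (hsolv : Group.IsSolvable ↥(Subgroup.closure {g : G | ∃ k : ℕ, orderOf g = p ^ k})) (hreal : ∀ χ : Cfsg.IrrCharacter G, (∀ g : G, ((χ : G → ℂ) g).im = 0) → ¬ p ∣ Cfsg.charDegree (χ : G → ℂ)) (P : Sylow p G) (x : G) (hx : IsConj x x⁻¹) : ∃ y ∈ Subgroup.normalizer ((P : Subgroup G) : Set G), IsConj x y := by
  classical
  have hp1 : p.Prime := Fact.out
  have hK : (pGen 2 G).Normal := pGen_normal 2
  set K := pGen 2 G with hKdef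
  have hodd : Odd K.index := odd_index_pGen
  obtain ⟨Q, hQ1, hQ2, hQ3, hQ4⟩ := hasNSyl_two p (Nat.card G) G rfl hsolv hreal
  obtain ⟨hxK, z, hzK, hz⟩ := mem_of_real hx
  -- the class of `x` in `K`
  let x0 : K := ⟨x, hxK⟩
  have hx0 : ∀ k : K, ConjClasses.mk k = ConjClasses.mk x0 → IsConj k k⁻¹ := by
    intro k hk
    have h1 : IsConj x0 x0⁻¹ := isConj_iff.2 ⟨⟨z, hzK⟩, Subtype.ext hz⟩
    have h2 : IsConj k x0 := ConjClasses.mk_eq_mk_iff_isConj.1 hk
    obtain ⟨c, hc⟩ := isConj_iff.1 h2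
    have h3 : IsConj k⁻¹ x0⁻¹ := isConj_iff.2 ⟨c, by rw [← hc]; group⟩
    exact (h2.trans h1).trans h3.symm
  let C : RCl K := ⟨ConjClasses.mk x0, hx0⟩
  have hC := not_dvd_stabilizer_rcl (p := p) hsolv hreal K hodd C
  obtain ⟨g, hg⟩ := Cfsg.Agent.H692.CjFix.exists_conj_le (MulAction.stabilizer G C)
    (P : Subgroup G) P.2 hC
  -- the conjugate `g x g⁻¹`
  have hstab : ∀ u ∈ (P : Subgroup G), ∃ k ∈ K, u * (g * x * g⁻¹) * u⁻¹ =
      k * (g * x * g⁻¹) * k⁻¹ := by
    intro u hu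
    have h0 : (g⁻¹ * u * g) • C = C := MulAction.mem_stabilizer_iff.1 (hg u hu)
    have h1 : clSmul (g⁻¹ * u * g) C.1 = C.1 := by
      rw [← coe_smul_rcl, h0]
    have h2 : ConjClasses.mk (MulAut.conjNormal (g⁻¹ * u * g) x0) = ConjClasses.mk x0 := h1
    obtain ⟨c, hc⟩ := isConj_iff.1 (ConjClasses.mk_eq_mk_iff_isConj.1 h2).symm
    have h3 := congrArg Subtype.val hc
    rw [MulAut.conjNormal_apply] at h3
    have h4 : (c : G) * x * (c : G)⁻¹ = g⁻¹ * u * g * x * (g⁻¹ * u * g)⁻¹ := h3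
    refine ⟨g * c * g⁻¹, hK.conj_mem c c.2 g, ?_⟩
    calc u * (g * x * g⁻¹) * u⁻¹ = g * (g⁻¹ * u * g * x * (g⁻¹ * u * g)⁻¹) * g⁻¹ := by group
      _ = g * ((c : G) * x * (c : G)⁻¹) * g⁻¹ := by rw [h4]
      _ = g * c * g⁻¹ * (g * x * g⁻¹) * (g * c * g⁻¹)⁻¹ := by group
  obtain ⟨k, hk, hfix⟩ := Cfsg.Agent.H692.CjFix.exists_fixed K Q (P : Subgroup G) hQ4 P.2 hstab
  -- `Q ≤ P`
  have hQP : Q ≤ (P : Subgroup G) := by
    have h1 : IsPGroup p (Q ⊔ (P : Subgroup G) : Subgroup G) := hQ2.to_sup_of_normal_left P.2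
    have h2 := P.3 h1 le_sup_right
    rw [← h2]
    exact le_sup_left
  set y := k * (g * x * g⁻¹) * k⁻¹ with hy
  refine ⟨y, ?_, ?_⟩
  · -- `y` normalizes `P`
    have hmem : ∀ u ∈ (P : Subgroup G), y⁻¹ * u * y ∈ (P : Subgroup G) := by
      intro u hu
      have h1 : y⁻¹ * (u * y * u⁻¹) ∈ (P : Subgroup G) := hQP (hfix u hu)
      have h2 : y⁻¹ * u * y = y⁻¹ * (u * y * u⁻¹) * u := by group
      rw [h2]
      exact (P : Subgroup G).mul_mem h1 hu
    have hle : ((P : Subgroup G).map (MulAut.conj y⁻¹).toMonoidHom) ≤ (P : Subgroup G) := by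
      rintro _ ⟨u, hu, rfl⟩
      have := hmem u hu
      simpa using this
    have heq : ((P : Subgroup G).map (MulAut.conj y⁻¹).toMonoidHom) = (P : Subgroup G) := by
      apply Subgroup.eq_of_le_of_card_ge hle
      rw [Subgroup.card_map_of_injective (MulAut.conj y⁻¹).injective]
    rw [Subgroup.mem_normalizer_iff]
    intro u
    constructor
    · intro hu
      rw [← heq] at hu
      obtain ⟨v, hv, hv2⟩ := hu
      have h3 : y⁻¹ * v * y = u := by simpa using hv2
      rw [← h3]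
      have h4 : y * (y⁻¹ * v * y) * y⁻¹ = v := by group
      rw [h4]
      exact hv
    · intro hu
      have := hmem _ hu
      have h4 : y⁻¹ * (y * u * y⁻¹) * y = u := by group
      rwa [h4] at this
  · rw [hy]
    exact isConj_iff.2 ⟨k * g, by group⟩

end Cfsg.Agent.S4864
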