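import Cfsg.Statements.S4865
import Cfsg.Agent.H693.Meet2
import Cfsg.Agent.H693.RG3

set_option autoImplicit false
open Cfsg

namespace Cfsg.Agent.S4865

open Cfsg.Agent.H693 Cfsg.Agent.H693.GenBasic Cfsg.Agent.H693.ThmA Cfsg.Agent.H693.RG2
  Cfsg.Agent.H693.RG3

/-- Let p be a prime and G a finite group such that the subgroup generated by the p-elements of G is solvable and every real-valued irreducible complex character of G has degree prime to p. Let N be the normalizer of a Sylow p-subgroup of G. Then there is a bijection from the real-valued irreducible characters of G onto the real-valued irreducible characters of N of degree prime to p under which corresponding degrees are congruent modulo p up to sign. -/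
theorem result {G : Type*} [Group G] [Finite G] (p : ℕ) [Fact p.Prime] (hsolv : Group.IsSolvable ↥(Subgroup.closure {g : G | ∃ k : ℕ, orderOf g = p ^ k})) (hreal : ∀ χ : Cfsg.IrrCharacter G, (∀ g : G, ((χ : G → ℂ) g).im = 0) → ¬ p ∣ Cfsg.charDegree (χ : G → ℂ)) (P : Sylow p G) : ∃ f : {χ : Cfsg.IrrCharacter G // ∀ g : G, ((χ : G → ℂ) g).im = 0} → {ξ : Cfsg.IrrCharacter ↥(Subgroup.normalizer ((P : Subgroup G) : Set G)) // (∀ n, ((ξ : ↥(Subgroup.normalizer ((P : Subgroup G) : Set G)) → ℂ) n).im = 0) ∧ ¬ p ∣ Cfsg.charDegree (ξ : ↥(Subgroup.normalizer ((P : Subgroup G) : Set G)) → ℂ)}, Function.Bijective f ∧ ∀ χ, ((Cfsg.charDegree ((f χ).1 : ↥(Subgroup.normalizer ((P : Subgroup G) : Set G)) → ℂ) : ZMod p) = (Cfsg.charDegree (χ.1 : G → ℂ) : ZMod p) ∨ (Cfsg.charDegree ((f χ).1 : ↥(Subgroup.normalizer ((P : Subgroup G) : Set G)) → ℂ) : ZMod p) = -(Cfsg.charDegree (χ.1 : G → ℂ) : ZMod p)) := by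
  classical
  have := Fintype.ofFinite G
  have hKn : (gen 2 G).Normal := gen_normal Nat.prime_two
  have hodd : Odd (gen 2 G).index := Meet2.odd_index
  have hQn : ((P : Subgroup G) ⊓ gen 2 G).Normal :=
    main (p := p) hsolv hreal hKn le_rfl ⟨0, by rw [Subgroup.relIndex_self, pow_zero]⟩ P
  have := Fintype.ofFinite (gen 2 G)
  have := Fintype.ofFinite (Nz P)
  have := Fintype.ofFinite (KN P (gen 2 G))
  choose f hf hfr hfd hfT hfc using fun χ : {χ : Cfsg.IrrCharacter G // ∀ g : G, ((χ : G → ℂ) g).im = 0} =>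
    T_exists_right (K := gen 2 G) hodd (Q := (P : Subgroup G) ⊓ gen 2 G) rfl χ.1.2 χ.2
      (hreal χ.1 χ.2)
  refine ⟨fun χ => ⟨⟨f χ, hf χ⟩, hfr χ, hfd χ⟩, ⟨?_, ?_⟩, hfc⟩
  · intro χ₁ χ₂ h
    have h1 : f χ₁ = f χ₂ := congrArg (fun z => z.1.1) h
    apply Subtype.ext
    apply Subtype.ext
    have h2 := hfT χ₂
    rw [← h1] at h2
    exact T_unique_left hodd (Q := (P : Subgroup G) ⊓ gen 2 G) rfl χ₁.1.2 χ₂.1.2 χ₁.2 χ₂.2
      (hf χ₁) (hfT χ₁) h2
  · rintro ⟨⟨ξ, hξ⟩, hξr, hξd⟩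
    obtain ⟨χ, hχ, hχr, hT⟩ := T_exists_left (K := gen 2 G) hodd
      (Q := (P : Subgroup G) ⊓ gen 2 G) rfl hξ hξr hξd
    refine ⟨⟨⟨χ, hχ⟩, hχr⟩, ?_⟩
    apply Subtype.ext
    apply Subtype.ext
    exact T_unique_right hodd (Q := (P : Subgroup G) ⊓ gen 2 G) rfl hχ (hf _) hξ (hfr _) hξr
      (hfT ⟨⟨χ, hχ⟩, hχr⟩) hT

end Cfsg.Agent.S4865
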