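import Cfsg.Statements.S4870
import Cfsg.Agent.H692.RealOver
import Cfsg.Agent.Characters.Linear
import Cfsg.Agent.CharactersDeep.CosetAverage
import Cfsg.Agent.Blocks.CliffordCentral
import Cfsg.Agent.S1489

set_option autoImplicit false
open Cfsg

namespace Cfsg.Agent.S4870

open Cfsg.Agent.Characters.Core Cfsg.Agent.Characters.Clifford
open Cfsg.Agent.H692.RealOver
open scoped ComplexConjugate

/-- The number of homomorphisms to `ℂˣ` that agree with a given one on a subgroup is at most the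
index of the subgroup. -/
theorem card_fibre_le {G : Type*} [Group G] [Finite G] (I : Subgroup G) (F : Finset (G →* ℂˣ))
    (hF : ∀ l ∈ F, ∀ l' ∈ F, ∀ i ∈ I, l i = l' i) : F.card ≤ I.index := by
  classical
  rcases F.eq_empty_or_nonempty with rfl | ⟨l0, hl0⟩
  · simp
  have hfin : Fintype (G ⧸ I) := Fintype.ofFinite _
  -- the functions on the cosets
  let b : F → (G ⧸ I → ℂ) := fun l => fun q => Quotient.liftOn' q
    (fun g => ((l.1 g * (l0 g)⁻¹ : ℂˣ) : ℂ)) (by
      intro g g' h
      have h1 : g⁻¹ * g' ∈ I := QuotientGroup.leftRel_apply.1 h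
      have h2 := hF l.1 l.2 l0 hl0 _ h1
      simp only [map_mul, map_inv] at h2
      have h3 : l.1 g * (l0 g)⁻¹ = l.1 g' * (l0 g')⁻¹ := by
        rw [inv_mul_eq_iff_eq_mul] at h2
        rw [h2, mul_comm ((l0 g)⁻¹) (l0 g'), mul_assoc, mul_assoc, mul_comm ((l0 g)⁻¹),
          mul_inv_cancel_left]
      simp only [h3])
  have hb : LinearIndependent ℂ b := by
    have h1 : LinearIndependent ℂ (fun f : G →* ℂ => (f : G → ℂ)) := linearIndependent_monoidHom G ℂ
    let c : F → (G →* ℂ) := fun l => (Units.coeHom ℂ).comp (l.1 * l0⁻¹)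
    have hc : Function.Injective c := by
      intro l l' h
      apply Subtype.ext
      ext g
      have h2 := DFunLike.congr_fun h g
      simp only [c, MonoidHom.comp_apply, Units.coeHom_apply, MonoidHom.mul_apply,
        MonoidHom.inv_apply, Units.val_mul] at h2
      exact mul_right_cancel₀ (Units.ne_zero _) h2
    have h2 := h1.comp c hc
    let L : (G ⧸ I → ℂ) →ₗ[ℂ] (G → ℂ) := LinearMap.funLeft ℂ ℂ (fun g : G => (g : G ⧸ I))
    refine LinearIndependent.of_comp L ?_
    have h3 : (L : (G ⧸ I → ℂ) → (G → ℂ)) ∘ b = (fun f : G →* ℂ => (f : G → ℂ)) ∘ c := by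
      funext l g
      rfl
    rw [h3]
    exact h2
  have h := hb.fintype_card_le_finrank
  rw [Module.finrank_fintype_fun_eq_card, Fintype.card_coe] at h
  rw [Subgroup.index, Nat.card_eq_fintype_card]
  exact h

/-- The product of an irreducible character and a homomorphism to `ℂˣ` is irreducible. -/
theorem isIrr_hom_mul {G : Type*} [Group G] [Finite G] (l : G →* ℂˣ) {χ : G → ℂ}
    (hχ : IsIrrCharacter G χ) : IsIrrCharacter G (fun g => (l g : ℂ) * χ g) := by
  have hG := Fintype.ofFinite G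
  have h1 := isCharacter_mul (Cfsg.Agent.Characters.Linear.isCharacter_hom l)
    (isIrr_isCharacter hχ)
  have h2 : IsIrrCharacter G ((fun g => (l g : ℂ)) * χ) := by
    rw [isIrr_iff_classInner_self h1, ← classInner_irr_self hχ]
    unfold classInner
    congr 1
    refine Finset.sum_congr rfl fun g _ => ?_
    simp only [Pi.mul_apply, map_mul]
    have h3 : (l g : ℂ) * conj (l g : ℂ) = 1 := by
      rw [Complex.mul_conj, Complex.normSq_eq_norm_sq,
        Cfsg.Agent.Characters.Linear.norm_hom_apply l g]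
      norm_num
    linear_combination (χ g * conj (χ g)) * h3
  exact h2

/-- Let G be a finite group with a non-abelian minimal normal subgroup N, and let φ be an irreducible complex character of N with stabilizer I in G (the elements g with φ(g n g⁻¹) = φ(n) for all n ∈ N) such that φ extends to an irreducible character of I. Put d = φ(1)·[G : I]. Then the number of linear characters of G is at most [G : I] times the number of irreducible characters of G of degree d. -/
theorem result {G : Type*} [Group G] [Finite G] (N : Subgroup G) (hN : N.Normal) (hN1 : N ≠ ⊥) (hmin : ∀ M : Subgroup G, M.Normal → M ≤ N → M = ⊥ ∨ M = N) (hna : ¬ IsMulCommutative ↥N) (φ : Cfsg.IrrCharacter ↥N) (I : Subgroup G) (hI : ∀ g : G, g ∈ I ↔ ∀ n n' : ↥N, (n' : G) = g * (n : G) * g⁻¹ → (φ : ↥N → ℂ) n' = (φ : ↥N → ℂ) n) (hNI : N ≤ I) (hext : ∃ ψ : Cfsg.IrrCharacter ↥I, ∀ n : ↥N, (ψ : ↥I → ℂ) (Subgroup.inclusion hNI n) = (φ : ↥N → ℂ) n) : Nat.card {χ : Cfsg.IrrCharacter G // Cfsg.charDegree (χ : G → ℂ)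 = 1} ≤ I.index * Nat.card {χ : Cfsg.IrrCharacter G // Cfsg.charDegree (χ : G → ℂ) = Cfsg.charDegree (φ : ↥N → ℂ) * I.index} := by
  classical
  have hG := Fintype.ofFinite G
  have hIf := Fintype.ofFinite I
  have hNf := Fintype.ofFinite N
  obtain ⟨ψ, hψ⟩ := hext
  have hfin : Finite (IrrCharacter G) := finite_irr
  have hft : Fintype (IrrCharacter G) := Fintype.ofFinite _
  have hT : ∀ g : G, g ∈ I ↔ ∀ h : N, (φ : N → ℂ) ⟨g * h * g⁻¹, hN.conj_mem h h.2 g⟩ =
      (φ : N → ℂ) h := by
    intro g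
    rw [hI]
    constructor
    · intro h n
      exact h n _ rfl
    · rintro h n n' hn
      rw [← h n]
      have h1 : n' = ⟨g * n * g⁻¹, hN.conj_mem n n.2 g⟩ := Subtype.ext hn
      rw [h1]
  -- linear characters are trivial on `N`
  have hNc : N ≤ commutator G := by
    have h1 : (⁅N, N⁆ : Subgroup G).Normal := Subgroup.commutator_normal N N
    rcases hmin ⁅N, N⁆ h1 (Subgroup.commutator_le_self N) with h | h
    · exfalso
      apply hna
      rw [Subgroup.commutator_eq_bot_iff_le_centralizer] at h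
      refine ⟨⟨fun a b => Subtype.ext ?_⟩⟩
      exact Subgroup.mem_centralizer_iff.1 (h b.2) a a.2
    · rw [← h]
      exact Subgroup.commutator_mono le_top le_top
  have hlN : ∀ (l : G →* ℂˣ), ∀ n ∈ N, l n = 1 := fun l n hn =>
    Abelianization.commutator_subset_ker l (hNc hn)
  -- the characters
  let Ψ : (G →* ℂˣ) → (I → ℂ) := fun l i => (l (i : G) : ℂ) * (ψ : I → ℂ) i
  have hΨ : ∀ l, IsIrrCharacter I (Ψ l) := fun l => isIrr_hom_mul (l.comp I.subtype) ψ.2
  have hφ' : IsIrrCharacter (N.subgroupOf I)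
      (fun x => (φ : N → ℂ) ⟨(x : I), Subgroup.mem_subgroupOf.mp x.2⟩) :=
    Cfsg.Agent.Blocks.CliffordCentral.isIrrCharacter_comp φ.2
      (Subgroup.subgroupOfEquivOfLe hNI).toMonoidHom (Subgroup.subgroupOfEquivOfLe hNI).surjective
  have hres : ∀ (l : G →* ℂˣ) (x : N.subgroupOf I),
      Ψ l x = (φ : N → ℂ) ⟨(x : I), Subgroup.mem_subgroupOf.mp x.2⟩ := by
    intro l x
    have h1 : (x : I) = Subgroup.inclusion hNI ⟨(x : I), Subgroup.mem_subgroupOf.mp x.2⟩ := rfl
    have h2 : (l ((x : I) : G) : ℂ) = 1 := by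
      rw [hlN l _ (Subgroup.mem_subgroupOf.mp x.2), Units.val_one]
    show (l ((x : I) : G) : ℂ) * (ψ : I → ℂ) x = _
    rw [h2, one_mul]
    exact hψ ⟨(x : I), Subgroup.mem_subgroupOf.mp x.2⟩
  have hc : ∀ l, classInner (indFun (N.subgroupOf I)
      (fun x => (φ : N → ℂ) ⟨(x : I), Subgroup.mem_subgroupOf.mp x.2⟩)) (Ψ l) ≠ 0 := by
    intro l
    have hf : Fintype (N.subgroupOf I) := Fintype.ofFinite _
    rw [Cfsg.Agent.CharactersDeep.NormalInd.classInner_indFun _ _ _
      (isIrr_isClassFunction (hΨ l))]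
    have h1 : (fun x : N.subgroupOf I => Ψ l x) =
        fun x : N.subgroupOf I => (φ : N → ℂ) ⟨(x : I), Subgroup.mem_subgroupOf.mp x.2⟩ :=
      funext (hres l)
    rw [h1, classInner_irr_self hφ']
    exact one_ne_zero
  have key := fun l l' => Cfsg.Agent.S1489.result N I (φ : N → ℂ) φ.2 hT hNI (Ψ l) (Ψ l')
    (hΨ l) (hΨ l') (hc l) (hc l')
  let Φ : (G →* ℂˣ) → IrrCharacter G := fun l => ⟨indFun I (Ψ l), (key l l).1⟩
  have hΦdeg : ∀ l, charDegree (Φ l : G → ℂ) = charDegree (φ : N → ℂ) * I.index := by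
    intro l
    apply charDegree_eq_of
    show indFun I (Ψ l) 1 = _
    rw [Cfsg.Agent.CharactersDeep.NormalInd.indFun_one]
    show (I.index : ℂ) * ((l ((1 : I) : G) : ℂ) * (ψ : I → ℂ) 1) = _
    have h1 := hψ 1
    rw [map_one] at h1
    rw [h1, (charDegree_spec φ.2).1]
    simp
    ring
  -- equality of the characters
  have hinj : ∀ l l', Φ l = Φ l' → ∀ i ∈ I, l i = l' i := by
    intro l l' h i hi
    have h1 : Ψ l = Ψ l' := (key l l').2 (congrArg Subtype.val h)
    have hN' : (N.subgroupOf I).Normal := inferInstance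
    have hf : Fintype (N.subgroupOf I) := Fintype.ofFinite _
    have h2 : IsIrrCharacter (N.subgroupOf I) (fun x : N.subgroupOf I => (ψ : I → ℂ) x) := by
      have h3 := hφ'
      have h4 : (fun x : N.subgroupOf I => (ψ : I → ℂ) x) =
          fun x : N.subgroupOf I => (φ : N → ℂ) ⟨(x : I), Subgroup.mem_subgroupOf.mp x.2⟩ := by
        funext x
        exact hψ ⟨(x : I), Subgroup.mem_subgroupOf.mp x.2⟩
      rw [h4]
      exact h3
    have h5 := Cfsg.Agent.CharactersDeep.CosetAverage.cosetAverage_self (N.subgroupOf I)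
      (ψ : I → ℂ) ψ.2 h2 ⟨i, hi⟩
    obtain ⟨n, hn⟩ : ∃ n : N.subgroupOf I, (ψ : I → ℂ) ((n : I) * ⟨i, hi⟩) ≠ 0 := by
      by_contra hcon
      push Not at hcon
      rw [Finset.sum_eq_zero (fun n _ => by rw [hcon n, zero_mul]), mul_zero] at h5
      exact zero_ne_one h5
    have h6 := congrFun h1 ((n : I) * ⟨i, hi⟩)
    have h7 := mul_right_cancel₀ hn h6
    have h8 : l (((n : I) : G) * i) = l' (((n : I) : G) * i) := Units.ext h7
    rw [map_mul, map_mul, hlN l _ (Subgroup.mem_subgroupOf.mp n.2),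
      hlN l' _ (Subgroup.mem_subgroupOf.mp n.2), one_mul, one_mul] at h8
    exact h8
  -- counting
  have hfL : Finite {χ : IrrCharacter G // (χ : G → ℂ) 1 = 1} := inferInstance
  have hfH : Finite (G →* ℂˣ) :=
    Finite.of_equiv _ (Cfsg.Agent.Characters.Linear.linearEquiv G).symm
  have hfH' : Fintype (G →* ℂˣ) := Fintype.ofFinite _
  have h1 : Nat.card {χ : IrrCharacter G // charDegree (χ : G → ℂ) = 1} =
      Nat.card (G →* ℂˣ) := by
    rw [Nat.card_congr (Cfsg.Agent.Characters.Linear.linearEquiv G)]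
    refine Nat.card_congr (Equiv.subtypeEquivRight fun χ => ?_)
    rw [(charDegree_spec χ.2).1]
    exact_mod_cast Iff.rfl
  have h2 : Nat.card {χ : IrrCharacter G // charDegree (χ : G → ℂ) =
      charDegree (φ : N → ℂ) * I.index} = (Finset.univ.filter (fun χ : IrrCharacter G =>
        charDegree (χ : G → ℂ) = charDegree (φ : N → ℂ) * I.index)).card := by
    rw [Nat.card_eq_fintype_card, Fintype.card_subtype]
  rw [h1, h2, Nat.card_eq_fintype_card, ← Finset.card_univ]
  refine Finset.card_le_mul_card_image_of_maps_to (f := Φ) ?_ _ ?_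
  · intro l _
    exact Finset.mem_filter.2 ⟨Finset.mem_univ _, hΦdeg l⟩
  · intro χ _
    refine card_fibre_le I _ ?_
    intro l hl l' hl' i hi
    exact hinj l l' ((Finset.mem_filter.1 hl).2.trans (Finset.mem_filter.1 hl').2.symm) i hi

end Cfsg.Agent.S4870
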