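import Cfsg.Statements.S4873
-- import your own Cfsg.Agent.* helpers here
import Cfsg.Agent.H696.OddIndex

set_option autoImplicit false
open Cfsg

namespace Cfsg.Agent.S4873

/-- Let N be a normal subgroup of odd index in the finite group G. Then every irreducible complex character of N with Frobenius–Schur indicator +1 lies under exactly one irreducible character of G with Frobenius–Schur indicator +1. -/
theorem result {G : Type*} [Group G] [Finite G] (N : Subgroup G) [N.Normal] (hodd : Odd N.index) (φ : Cfsg.IrrCharacter ↥N) (hφ : (Nat.card ↥N : ℂ)⁻¹ * ∑ᶠ g : ↥N, (φ : ↥N → ℂ) (g * g) = 1) : ∃! χ : Cfsg.IrrCharacter G, (Nat.card G : ℂ)⁻¹ * ∑ᶠ g : G, (χ : G → ℂ) (g * g) = 1 ∧ (∑ᶠ n : ↥N, (χ : G → ℂ) n * (starRingEnd ℂ) ((φ : ↥N → ℂ) n)) ≠ 0 := by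
  classical
  have := Fintype.ofFinite G
  have := Fintype.ofFinite N
  have hNc : (Nat.card N : ℂ) ≠ 0 := Cfsg.Agent.Characters.Core.card_ne_zero_complex
  have e1 : ∀ χ : Cfsg.IrrCharacter G, (Nat.card G : ℂ)⁻¹ * ∑ᶠ g : G, (χ : G → ℂ) (g * g) =
      H696.OddIndex.fs (χ : G → ℂ) := by
    intro χ
    rw [finsum_eq_sum_of_fintype]
    rfl
  have e2 : ∀ χ : Cfsg.IrrCharacter G,
      (∑ᶠ n : ↥N, (χ : G → ℂ) n * (starRingEnd ℂ) ((φ : ↥N → ℂ) n)) ≠ 0 ↔
      H696.OddIndex.mult N (χ : G → ℂ) (φ : N → ℂ) ≠ 0 := by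
    intro χ
    rw [finsum_eq_sum_of_fintype]
    unfold H696.OddIndex.mult
    rw [Cfsg.Agent.Characters.Core.classInner_def]
    simp [hNc]
  rw [finsum_eq_sum_of_fintype] at hφ
  have hφ' : H696.OddIndex.fs (φ : N → ℂ) = 1 := hφ
  simp only [e1, e2]
  have hreal : ∀ n : N, ((φ : N → ℂ) n).im = 0 := by
    by_contra hcon
    push Not at hcon
    rw [(H696.OddIndex.fs_irr φ.2).2.2 hcon] at hφ'
    exact one_ne_zero hφ'.symm
  obtain ⟨χ, ⟨hχ, hm⟩, huniq⟩ := H696.OddIndex.existsUnique_real N hodd φ.2 hreal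
  refine ⟨χ, ⟨?_, hm⟩, ?_⟩
  · show H696.OddIndex.fs (χ : G → ℂ) = 1
    rw [(H696.OddIndex.indicator_real N hodd φ.2 hreal χ hχ hm).1, hφ']
  · rintro ψ ⟨h1, h2⟩
    refine huniq ψ ⟨?_, h2⟩
    by_contra hcon
    push Not at hcon
    rw [(H696.OddIndex.fs_irr ψ.2).2.2 hcon] at h1
    exact one_ne_zero h1.symm

end Cfsg.Agent.S4873
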