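import Cfsg.Statements.S4878
import Cfsg.Agent.H697.PSolvB

set_option autoImplicit false
open Cfsg

namespace Cfsg.Agent.S4878

/-- Let p be a prime and G a finite p-solvable group of order divisible by p in which all non-identity p-elements are conjugate. Then G has at least p conjugacy classes of p-regular elements; or G has exactly p − 1 of them and is isomorphic to the one-dimensional affine group over the field with p elements; or p = 11, G has exactly 9 of them, G has order 121·120 and G is a Frobenius group whose complement is isomorphic to SL(2,5). -/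
theorem result {G : Type*} [Group G] [Finite G] (p : ℕ) [Fact p.Prime] (hsolv : Cfsg.IsPSolvable p G) (hdiv : p ∣ Nat.card G) (hconj : ∀ x y : G, x ≠ 1 → y ≠ 1 → (∃ k : ℕ, orderOf x = p ^ k) → (∃ k : ℕ, orderOf y = p ^ k) → IsConj x y) : p ≤ Nat.card {c : ConjClasses G // ∃ g : G, ConjClasses.mk g = c ∧ ¬ p ∣ orderOf g} ∨ (Nat.card {c : ConjClasses G // ∃ g : G, ConjClasses.mk g = c ∧ ¬ p ∣ orderOf g} = p - 1 ∧ Nonempty (G ≃* ↥(Cfsg.affineGroup (ZMod p)))) ∨ (p = 11 ∧ Nat.card {c : ConjClasses G // ∃ g : G, ConjClasses.mk g = c ∧ ¬ p ∣ orderOf g} = 9 ∧ (Nat.card G = 121 * 120 ∧ ∃ H : Subgroup G, Cfsg.IsFrobeniusComplement H ∧ Nonempty (↥H ≃* Matrix.SpecialLinearGroup (Fin 2) (ZMod 5)))) := by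
  exact Cfsg.Agent.H697.PSolvB.main p hsolv hdiv hconj

end Cfsg.Agent.S4878
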