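import Cfsg.Statements.S4889
import Cfsg.Agent.H699.AbDef
import Cfsg.Agent.S4675
import Cfsg.Agent.S4687
import Cfsg.Agent.S4689
import Cfsg.Agent.S4690

set_option autoImplicit false
open Cfsg

namespace Cfsg.Agent.S4889

/-- Let G be a finite group, p a prime, M a maximal ideal of the algebraic integers containing p, and B a p-block of G that has an abelian defect group and in which every irreducible character has height zero. Then all irreducible characters of B have the same degree if and only if B is a nilpotent block. -/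
theorem result {G : Type*} [Group G] [Finite G] (p : ℕ) [Fact p.Prime] (M : Ideal Cfsg.AlgInt) (hM : Cfsg.IsPModular p M) (B : Set (Cfsg.IrrCharacter G)) (hB : Cfsg.IsPBlock M B) (D : Subgroup G) (hD : Cfsg.IsDefectGroup p M B D) (hDab : IsMulCommutative ↥D) (h0 : ∀ χ : Cfsg.IrrCharacter G, χ ∈ B → Cfsg.blockHeight p B (χ : G → ℂ) = 0) : (∃ d : ℕ, ∀ χ : Cfsg.IrrCharacter G, χ ∈ B → Cfsg.charDegree (χ : G → ℂ) = d) ↔ Cfsg.IsNilpotentBlock p M B := by
  classical
  have := Fintype.ofFinite G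
  have hab : ∀ x ∈ D, ∀ y ∈ D, x * y = y * x := fun x hx y hy =>
    congrArg (Subtype.val : D → G) (hDab.is_comm.comm ⟨x, hx⟩ ⟨y, hy⟩)
  constructor
  · rintro ⟨d, hd⟩
    obtain ⟨b, hmax, hst⟩ := Cfsg.Agent.H699.AbDef.exists_pair hM hB hD hab (fun χ hχ => h0 χ hχ)
      (fun χ hχ => hd χ hχ)
    exact (Cfsg.Agent.S4687.result p M hM B D b hmax hab).2 hst
  · intro hnil
    have hMp := Cfsg.Agent.Blocks.Local.isPrime_of_isPModular hM
    have := Cfsg.Agent.Characters.Core.finite_irr (G := G)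
    have : Fintype (IrrCharacter G) := Fintype.ofFinite _
    obtain ⟨hl, -⟩ := Cfsg.Agent.S4689.result p M hM B hnil
    obtain ⟨Φ, -⟩ := Cfsg.Agent.S4690.result p M hM B hnil D hD
    have hcard : Nat.card B = Nat.card D := by
      rw [Nat.card_congr Φ]
      exact Cfsg.Agent.Characters.CCBasic.card_irr_of_comm fun a b => hDab.is_comm.comm a b
    obtain ⟨φ, m, -, hm, hsum⟩ := Cfsg.Agent.S4675.result p M hM B hB D hD hl
    have hreg : IsPRegular p (1 : G) := by
      unfold IsPRegular
      rw [orderOf_one]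
      exact hM.1.not_dvd_one
    have hm0 : ∀ χ ∈ B, 1 ≤ m χ := by
      intro χ hχ
      rw [Nat.one_le_iff_ne_zero]
      intro h
      have h1 := hm χ hχ 1 hreg
      rw [h, Nat.cast_zero, zero_mul] at h1
      exact Cfsg.Agent.Characters.Core.isIrr_apply_one_ne_zero χ.2 h1
    have hm1 : ∀ χ ∈ B, m χ = 1 := by
      rw [finsum_mem_eq_toFinset_sum, ← hcard, Nat.card_eq_fintype_card,
        ← Set.toFinset_card, Finset.card_eq_sum_ones] at hsum
      have h2 := (Finset.sum_eq_sum_iff_of_le (s := B.toFinset) (f := fun _ => 1)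
        (g := fun χ => m χ ^ 2) (fun χ hχ => by
          have := hm0 χ (by simpa using hχ)
          nlinarith)).1 hsum.symm
      intro χ hχ
      have h3 := h2 χ (by simpa using hχ)
      have := hm0 χ hχ
      nlinarith
    obtain ⟨χ₀, hχ₀⟩ := Cfsg.Agent.Blocks.Basic.isPBlock_nonempty hB
    refine ⟨charDegree (χ₀ : G → ℂ), fun χ hχ => ?_⟩
    have h1 : (χ : G → ℂ) 1 = (χ₀ : G → ℂ) 1 := by
      rw [hm χ hχ 1 hreg, hm χ₀ hχ₀ 1 hreg, hm1 χ hχ, hm1 χ₀ hχ₀]
    unfold charDegree
    rw [h1]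

end Cfsg.Agent.S4889
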