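import Cfsg.Statements.S4902
import Cfsg.Agent.S0000
import Cfsg.Agent.H794.PP
import Cfsg.Agent.H794.TitsPP
import Cfsg.Agent.H794.MathieuPP
import Cfsg.Agent.H794.LeechPP
import Cfsg.Agent.NotCT.Orders

set_option autoImplicit false
open Cfsg

namespace Cfsg.Agent.S4902

open Cfsg.Agent.H794 Cfsg.Agent.NotCT

/-- Let S be a finite non-abelian simple group none of whose irreducible complex character degrees is a prime power greater than 1. Then S is isomorphic to an alternating group of degree n ≥ 5 with n − 1 not a prime power, or S is a simple group of sporadic order other than 7920, 95040, 244823040, 42305421312000 and 495766656000 (the orders of the Mathieu groups of degrees 11, 12, 24 and the second and third Conway groups). -/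
theorem result {S : Type*} [Group S] [Finite S] [IsSimpleGroup S] (hS : ¬ IsMulCommutative S) (h : (∀ d ∈ Cfsg.charDegrees S, ¬ IsPrimePow d)) : (∃ n : ℕ, 5 ≤ n ∧ ¬ IsPrimePow (n - 1) ∧ Nonempty (S ≃* ↥(alternatingGroup (Fin n)))) ∨ (Cfsg.IsSporadic S ∧ ¬ Cfsg.IsM11 S ∧ ¬ Cfsg.IsM12 S ∧ ¬ Cfsg.IsM24 S ∧ ¬ Cfsg.IsCo2 S ∧ ¬ Cfsg.IsCo3 S) := by
  have hno : ¬ PP.HasPP S := fun ⟨d, hd, hp⟩ => h d hd hp
  have key : ∀ {m : ℕ}, Nat.card S = m → m ≠ 7920 → m ≠ 95040 → m ≠ 244823040 → m ≠ 42305421312000 →
      m ≠ 495766656000 → IsSporadic S →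
      (Cfsg.IsSporadic S ∧ ¬ Cfsg.IsM11 S ∧ ¬ Cfsg.IsM12 S ∧ ¬ Cfsg.IsM24 S ∧ ¬ Cfsg.IsCo2 S ∧ ¬ Cfsg.IsCo3 S) := by
    rintro m rfl h1 h2 h3 h4 h5 hs
    exact ⟨hs, fun h => h1 h.2, fun h => h2 h.2, fun h => h3 h.2, fun h => h4 h.2, fun h => h5 h.2⟩
  have hsim : IsSimpleGroup S := inferInstance
  rcases OddHalf.Known.classify' hS (Cfsg.Agent.S0000.result (G := S)) with h1 | ⟨p, hp, h1⟩ | h1 | h1
  · obtain ⟨n, hn, ⟨e⟩⟩ := h1
    exact Or.inl ⟨n, hn, fun hpp => hno (PP.hasPP_alt hn e hpp), ⟨e⟩⟩
  · exact absurd (PP.hasPP_lie hp h1) hno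
  · exact absurd (TitsPP.hasPP_tits h1) hno
  · right
    rcases h1 with h1 | h1 | h1 | h1 | h1 | h1 | h1 | h1 | h1 | h1 | h1 | h1 | h1 | h1 | h1 | h1 | h1 | h1 | h1 |
      h1 | h1 | h1 | h1 | h1 | h1 | h1
    · exact absurd (MathieuPP.hasPP_M11 h1) hno
    · exact absurd (MathieuPP.hasPP_M12 h1) hno
    · have hc := Orders.m22 h1
      refine key hc (by norm_num) (by norm_num) (by norm_num) (by norm_num) (by norm_num) ?_
      exact Or.inr (Or.inr (Or.inl ⟨hsim, hc⟩))
    · have hc := Orders.m23 h1
      refine key hc (by norm_num) (by norm_num) (by norm_num) (by norm_num) (by norm_num) ?_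
      exact Or.inr (Or.inr (Or.inr (Or.inl ⟨hsim, hc⟩)))
    · exact absurd (MathieuPP.hasPP_M24 h1) hno
    · have hc := Orders.j1 h1
      refine key hc (by norm_num) (by norm_num) (by norm_num) (by norm_num) (by norm_num) ?_
      exact Or.inr (Or.inr (Or.inr (Or.inr (Or.inr (Or.inl ⟨hsim, hc⟩)))))
    · have hc := Orders.j2 h1
      refine key hc (by norm_num) (by norm_num) (by norm_num) (by norm_num) (by norm_num) ?_
      exact Or.inr (Or.inr (Or.inr (Or.inr (Or.inr (Or.inr (Or.inl ⟨hsim, hc⟩))))))
    · have hc := Orders.j3 h1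
      refine key hc (by norm_num) (by norm_num) (by norm_num) (by norm_num) (by norm_num) ?_
      exact Or.inr (Or.inr (Or.inr (Or.inr (Or.inr (Or.inr (Or.inr (Or.inl ⟨hsim, hc⟩)))))))
    · have hc := Orders.j4 h1
      refine key hc (by norm_num) (by norm_num) (by norm_num) (by norm_num) (by norm_num) ?_
      exact Or.inr (Or.inr (Or.inr (Or.inr (Or.inr (Or.inr (Or.inr (Or.inr (Or.inl ⟨hsim, hc⟩))))))))
    · have hc := Orders.co1 h1
      refine key hc (by norm_num) (by norm_num) (by norm_num) (by norm_num) (by norm_num) ?_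
      unfold IsSporadic
      have : IsCo1 S := ⟨hsim, hc⟩
      tauto
    · exact absurd (LeechPP.hasPP_Co2 h1 (by rw [Orders.co2 h1]; norm_num)) hno
    · exact absurd (LeechPP.hasPP_Co3 h1 (by rw [Orders.co3 h1]; norm_num)) hno
    · have hc := Orders.mcl h1
      refine key hc (by norm_num) (by norm_num) (by norm_num) (by norm_num) (by norm_num) ?_
      have : IsMcL S := ⟨hsim, hc⟩
      unfold IsSporadic
      tauto
    · have hc := Orders.hs h1
      refine key hc (by norm_num) (by norm_num) (by norm_num) (by norm_num) (by norm_num) ?_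
      have : IsHS S := ⟨hsim, hc⟩
      unfold IsSporadic
      tauto
    · have hc := Orders.suz h1
      refine key hc (by norm_num) (by norm_num) (by norm_num) (by norm_num) (by norm_num) ?_
      have : IsSuz S := ⟨hsim, hc⟩
      unfold IsSporadic
      tauto
    · have hc := Orders.he h1
      refine key hc (by norm_num) (by norm_num) (by norm_num) (by norm_num) (by norm_num) ?_
      have : IsHe S := ⟨hsim, hc⟩
      unfold IsSporadic
      tauto
    · have hc := Orders.ru h1
      refine key hc (by norm_num) (by norm_num) (by norm_num) (by norm_num) (by norm_num) ?_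
      have : IsRu S := ⟨hsim, hc⟩
      unfold IsSporadic
      tauto
    · have hc := Orders.on h1
      refine key hc (by norm_num) (by norm_num) (by norm_num) (by norm_num) (by norm_num) ?_
      have : IsON S := ⟨hsim, hc⟩
      unfold IsSporadic
      tauto
    · have hc := Orders.ly h1
      refine key hc (by norm_num) (by norm_num) (by norm_num) (by norm_num) (by norm_num) ?_
      have : IsLy S := ⟨hsim, hc⟩
      unfold IsSporadic
      tauto
    · have hc := Orders.fi22 h1
      refine key hc (by norm_num) (by norm_num) (by norm_num) (by norm_num) (by norm_num) ?_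
      have : IsFi22 S := ⟨hsim, hc⟩
      unfold IsSporadic
      tauto
    · have hc := Orders.fi23 h1
      refine key hc (by norm_num) (by norm_num) (by norm_num) (by norm_num) (by norm_num) ?_
      have : IsFi23 S := ⟨hsim, hc⟩
      unfold IsSporadic
      tauto
    · have hc := Orders.fi24 h1
      refine key hc (by norm_num) (by norm_num) (by norm_num) (by norm_num) (by norm_num) ?_
      have : IsFi24' S := ⟨hsim, hc⟩
      unfold IsSporadic
      tauto
    · have hc := Orders.hn h1
      refine key hc (by norm_num) (by norm_num) (by norm_num) (by norm_num) (by norm_num) ?_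
      have : IsHN S := ⟨hsim, hc⟩
      unfold IsSporadic
      tauto
    · have hc := Orders.th h1
      refine key hc (by norm_num) (by norm_num) (by norm_num) (by norm_num) (by norm_num) ?_
      have : IsTh S := ⟨hsim, hc⟩
      unfold IsSporadic
      tauto
    · have hc := Orders.b h1
      refine key hc (by norm_num) (by norm_num) (by norm_num) (by norm_num) (by norm_num) ?_
      have : IsB S := ⟨hsim, hc⟩
      unfold IsSporadic
      tauto
    · have hc := Orders.m h1
      refine key hc (by norm_num) (by norm_num) (by norm_num) (by norm_num) (by norm_num) ?_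
      have : IsM S := ⟨hsim, hc⟩
      unfold IsSporadic
      tauto

end Cfsg.Agent.S4902
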