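import Cfsg.Statements.S4911
import Cfsg.Agent.H705.RealCount

set_option autoImplicit false
open Cfsg

namespace Cfsg.Agent.S4911

/-- The conjugation action of a subgroup of the normalizer. -/
@[reducible] def conjAct {G : Type*} [Group G] {P K : Subgroup G}
    (hPK : P ≤ Subgroup.normalizer (K : Set G)) : MulDistribMulAction ↥P ↥K where
  smul x k := ⟨(x : G) * (k : G) * (x : G)⁻¹,
    (Subgroup.mem_normalizer_iff.1 (hPK x.2) (k : G)).1 k.2⟩
  one_smul k := Subtype.ext (by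
    show ((1 : ↥P) : G) * (k : G) * ((1 : ↥P) : G)⁻¹ = k
    simp)
  mul_smul x y k := Subtype.ext (by
    show ((x * y : ↥P) : G) * (k : G) * ((x * y : ↥P) : G)⁻¹ =
      (x : G) * ((y : G) * (k : G) * (y : G)⁻¹) * (x : G)⁻¹
    rw [Subgroup.coe_mul]
    group)
  smul_one x := Subtype.ext (by
    show (x : G) * ((1 : ↥K) : G) * (x : G)⁻¹ = ((1 : ↥K) : G)
    simp)
  smul_mul x k l := Subtype.ext (by
    show (x : G) * ((k * l : ↥K) : G) * (x : G)⁻¹ =
      ((x : G) * (k : G) * (x : G)⁻¹) * ((x : G) * (l : G) * (x : G)⁻¹)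
    rw [Subgroup.coe_mul]
    group)

/-- Let P and K be subgroups of a finite group with P a p-group normalizing K and K of order prime to p. Then the number of P-invariant real-valued irreducible complex characters of K equals the number of conjugacy classes of K that are real (closed under inversion) and P-invariant. Moreover, if every real-valued irreducible character of K is P-invariant, then every real element of K (one conjugate in K to its inverse) is conjugate in K to an element centralized by P. -/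
theorem result {G : Type*} [Group G] [Finite G] (p : ℕ) [Fact p.Prime] (P K : Subgroup G) (hP : IsPGroup p ↥P) (hK : ¬ p ∣ Nat.card ↥K) (hPK : P ≤ Subgroup.normalizer (K : Set G)) : Nat.card {θ : Cfsg.IrrCharacter ↥K // (∀ k : ↥K, ((θ : ↥K → ℂ) k).im = 0) ∧ (∀ x ∈ P, ∀ k k' : ↥K, (k' : G) = x * (k : G) * x⁻¹ → (θ : ↥K → ℂ) k' = (θ : ↥K → ℂ) k)} = Nat.card {c : ConjClasses ↥K // (∀ k : ↥K, ConjClasses.mk k = c → IsConj k k⁻¹) ∧ ∀ k : ↥K, ConjClasses.mk k = c → ∀ x ∈ P, ∀ k' : ↥K, (k' : G) = x * (k : G) * x⁻¹ → ConjClasses.mk k' = c} ∧ ((∀ θ : Cfsg.IrrCharacter ↥K, (∀ k : ↥K, ((θ : ↥K → ℂ) k).im = 0) → (∀ x ∈ P, ∀ k k' : ↥K, (k' : G) = x * (k : G) * x⁻¹ → (θ : ↥K → ℂ) k' = (θ : ↥K → ℂ) k)) → ∀ k : ↥K, IsConj k k⁻¹ → ∃ k' : ↥K, IsConj k k' ∧ ∀ x ∈ P, x * (k' : G) * x⁻¹ = (k' : G)) := by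
  let act : MulDistribMulAction ↥P ↥K := conjAct hPK
  have hact : ∀ (x : ↥P) (k : ↥K), ((x • k : ↥K) : G) = (x : G) * (k : G) * (x : G)⁻¹ :=
    fun _ _ => rfl
  have hInv : ∀ θ : Cfsg.IrrCharacter ↥K,
      (∀ x ∈ P, ∀ k k' : ↥K, (k' : G) = x * (k : G) * x⁻¹ → (θ : ↥K → ℂ) k' = (θ : ↥K → ℂ) k) ↔
        Cfsg.Agent.H593.GlaubermanP.Inv ↥P (θ : ↥K → ℂ) := by
    intro θ
    constructor
    · intro h s g
      exact h s.1 s.2 g (s • g) rfl
    · intro h x hx k k' hk
      have : k' = (⟨x, hx⟩ : ↥P) • k := Subtype.ext hk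
      rw [this]
      exact h _ _
  refine ⟨?_, ?_⟩
  · have h1 := Cfsg.Agent.H705.RealCount.card_eq (S := ↥P) (K := ↥K) hP hK
    refine Eq.trans (Nat.card_congr (Equiv.subtypeEquivRight fun θ => ?_)) (h1.trans
      (Nat.card_congr (Equiv.subtypeEquivRight fun C => ?_)))
    · exact and_congr Iff.rfl (hInv θ)
    · refine and_congr Iff.rfl (forall_congr' fun k => forall_congr' fun hk => ?_)
      constructor
      · intro h x hx k' hk'
        have : k' = (⟨x, hx⟩ : ↥P) • k := Subtype.ext hk'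
        rw [this]
        exact h _
      · intro h s
        exact h s.1 s.2 (s • k) rfl
  · intro hreal k hk
    obtain ⟨k', hk', hfix⟩ := Cfsg.Agent.H705.RealCount.exists_fixed_of_real (S := ↥P) hP hK
      (fun θ hθ => (hInv θ).1 (hreal θ hθ)) hk
    exact ⟨k', hk', fun x hx => congrArg Subtype.val (hfix ⟨x, hx⟩)⟩

end Cfsg.Agent.S4911
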