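import Cfsg.Statements.S4914
import Cfsg.Agent.H706.Corr

set_option autoImplicit false
open Cfsg

namespace Cfsg.Agent.S4914

open Cfsg.Agent.H706.Uniq Cfsg.Agent.H706.Corr Cfsg.Agent.Characters.Core

/-- Let P and K be subgroups of a finite group G with P a p-group normalizing K, and suppose K has a normal Sylow p-subgroup Q. Let C be the subgroup of those k ∈ K whose commutator with every element of P lies in Q (so that C/Q is the fixed-point subgroup of P on K/Q). Then there is a bijection f from the P-invariant irreducible complex characters of K onto the P-invariant irreducible complex characters of C such that, for every P-invariant irreducible character χ of K, the multiplicity of f(χ) in the restriction of χ to C is a natural number congruent to 1 or to −1 modulo p, every other P-invariant irreducible character of C occurs in that restriction with multiplicity divisible by p, and the degrees of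 χ and f(χ) are congruent modulo p up to sign. -/
theorem result {G : Type*} [Group G] [Finite G] (p : ℕ) [Fact p.Prime] (P K Q C : Subgroup G) (hP : IsPGroup p ↥P) (hPK : P ≤ Subgroup.normalizer (K : Set G)) (hQK : Q ≤ K) (hQn : ∀ k ∈ K, ∀ q ∈ Q, k * q * k⁻¹ ∈ Q) (hQp : ∃ a : ℕ, Nat.card ↥Q = p ^ a) (hQsyl : ¬ p ∣ Q.relIndex K) (hCK : C ≤ K) (hC : ∀ k : G, k ∈ C ↔ (k ∈ K ∧ ∀ x ∈ P, x * k * x⁻¹ * k⁻¹ ∈ Q)) : ∃ f : {χ : Cfsg.IrrCharacter ↥K // (∀ x ∈ P, ∀ k k' : ↥K, (k' : G) = x * (k : G) * x⁻¹ → (χ : ↥K → ℂ) k' = (χ : ↥K → ℂ) k)} → {ξ : Cfsg.IrrCharacter ↥C // (∀ x ∈ P, ∀ k k' : ↥C, (k' : G) = x * (k : G) * x⁻¹ → (ξ : ↥C → ℂ) k' = (ξ : ↥C → ℂ) k)}, Function.Bijective f ∧ ∀ χ, (∀ ξ : {ξ : Cfsg.IrrCharacter ↥C // (∀ x ∈ P, ∀ k k' : ↥C, (k' : G) = x * (k : G) * x⁻¹ → (ξ : ↥C → ℂ) k' = (ξ : ↥C → ℂ) k)}, ∃ m : ℕ, (Nat.card ↥C : ℂ)⁻¹ * ∑ᶠ c : ↥C, (χ.1 : ↥K → ℂ) (Subgroup.inclusion hCK c) * (starRingEnd ℂ) ((ξ.1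 : ↥C → ℂ) c) = (m : ℂ) ∧ (ξ = f χ → ((m : ZMod p) = 1 ∨ (m : ZMod p) = -1)) ∧ (ξ ≠ f χ → p ∣ m)) ∧ ((Cfsg.charDegree ((f χ).1 : ↥C → ℂ) : ZMod p) = (Cfsg.charDegree (χ.1 : ↥K → ℂ) : ZMod p) ∨ (Cfsg.charDegree ((f χ).1 : ↥C → ℂ) : ZMod p) = -(Cfsg.charDegree (χ.1 : ↥K → ℂ) : ZMod p)) := by
  classical
  have hp : p.Prime := Fact.out
  have := Fintype.ofFinite G
  have := Fintype.ofFinite K
  have := Fintype.ofFinite C
  have hPKm : ∀ x ∈ P, ∀ k ∈ K, x * k * x⁻¹ ∈ K := fun x hx k hk =>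
    (Subgroup.mem_normalizer_iff.1 (hPK hx) k).1 hk
  -- `P` normalizes `C`
  have hPCm : ∀ x ∈ P, ∀ c ∈ C, x * c * x⁻¹ ∈ C := by
    intro x hx c hc
    obtain ⟨hcK, hcQ⟩ := (hC c).1 hc
    refine (hC _).2 ⟨hPKm x hx c hcK, fun y hy => ?_⟩
    have h1 : y * (x * c * x⁻¹) * y⁻¹ * (x * c * x⁻¹)⁻¹ =
        ((y * x) * c * (y * x)⁻¹ * c⁻¹) * (x * c * x⁻¹ * c⁻¹)⁻¹ := by group
    rw [h1]
    exact Q.mul_mem (hcQ (y * x) (P.mul_mem hy hx)) (Q.inv_mem (hcQ x hx))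
  -- the Sylow `p`-subgroup `Q` of `K` is normalized by `P`
  have hQp' : IsPGroup p Q := IsPGroup.iff_card.2 hQp
  have hQn' : (Q.subgroupOf K).Normal := by
    constructor
    intro n hn k
    exact hQn k k.2 n hn
  have hidx : ¬ p ∣ (Q.subgroupOf K).index := hQsyl
  have hmemQ : ∀ k : K, (∃ a : ℕ, orderOf k = p ^ a) → (k : G) ∈ Q := by
    rintro k ⟨a, ha⟩
    have h1 : orderOf (QuotientGroup.mk k : K ⧸ Q.subgroupOf K) ∣ p ^ a := by
      rw [← ha]
      exact orderOf_map_dvd (QuotientGroup.mk' (Q.subgroupOf K)) k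
    obtain ⟨b, -, hb⟩ := (Nat.dvd_prime_pow hp).1 h1
    have h2 : p ^ b ∣ (Q.subgroupOf K).index := by
      rw [← hb]
      exact orderOf_dvd_natCard _
    have h3 : b = 0 := by
      by_contra h0
      exact hidx ((dvd_pow_self p h0).trans h2)
    rw [h3, pow_zero, orderOf_eq_one_iff, QuotientGroup.eq_one_iff] at hb
    exact hb
  have hPQm : ∀ x ∈ P, ∀ q ∈ Q, x * q * x⁻¹ ∈ Q := by
    intro x hx q hq
    have hqK : q ∈ K := hQK hq
    refine hmemQ ⟨x * q * x⁻¹, hPKm x hx q hqK⟩ ?_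
    obtain ⟨a, ha⟩ := IsPGroup.iff_orderOf.1 hQp' ⟨q, hq⟩
    refine ⟨a, ?_⟩
    rw [← ha, Subgroup.orderOf_mk, Subgroup.orderOf_mk]
    exact MulEquiv.orderOf_eq (MulAut.conj x) q
  let _ : MulDistribMulAction P K :=
    { smul := fun s g => ⟨(s : G) * g * (s : G)⁻¹, hPKm s s.2 g g.2⟩
      one_smul := fun g => Subtype.ext (by
        show ((1 : P) : G) * g * ((1 : P) : G)⁻¹ = g
        rw [OneMemClass.coe_one, one_mul, inv_one, mul_one])
      mul_smul := fun s t g => Subtype.ext (by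
        show ((s * t : P) : G) * g * ((s * t : P) : G)⁻¹ = s * (t * g * (t : G)⁻¹) * (s : G)⁻¹
        rw [Subgroup.coe_mul]
        group)
      smul_mul := fun s g h => Subtype.ext (by
        show (s : G) * ((g * h : K) : G) * (s : G)⁻¹ =
          (s * g * (s : G)⁻¹) * (s * h * (s : G)⁻¹)
        rw [Subgroup.coe_mul]
        group)
      smul_one := fun s => Subtype.ext (by
        show (s : G) * ((1 : K) : G) * (s : G)⁻¹ = ((1 : K) : G)
        rw [OneMemClass.coe_one, mul_one, mul_inv_cancel]) }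
  let _ : MulDistribMulAction P C :=
    { smul := fun s g => ⟨(s : G) * g * (s : G)⁻¹, hPCm s s.2 g g.2⟩
      one_smul := fun g => Subtype.ext (by
        show ((1 : P) : G) * g * ((1 : P) : G)⁻¹ = g
        rw [OneMemClass.coe_one, one_mul, inv_one, mul_one])
      mul_smul := fun s t g => Subtype.ext (by
        show ((s * t : P) : G) * g * ((s * t : P) : G)⁻¹ = s * (t * g * (t : G)⁻¹) * (s : G)⁻¹
        rw [Subgroup.coe_mul]
        group)
      smul_mul := fun s g h => Subtype.ext (by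
        show (s : G) * ((g * h : C) : G) * (s : G)⁻¹ =
          (s * g * (s : G)⁻¹) * (s * h * (s : G)⁻¹)
        rw [Subgroup.coe_mul]
        group)
      smul_one := fun s => Subtype.ext (by
        show (s : G) * ((1 : C) : G) * (s : G)⁻¹ = ((1 : C) : G)
        rw [OneMemClass.coe_one, mul_one, mul_inv_cancel]) }
  have hcfg : Config P (Q.subgroupOf K) (Subgroup.inclusion hCK) p := by
    refine ⟨Subgroup.inclusion_injective hCK, fun k => ?_, fun s d => rfl, fun s n hn => ?_, hP, ?_,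
      hidx⟩
    · constructor
      · intro hk
        exact ⟨⟨k, (hC k).2 ⟨k.2, fun x hx => hk ⟨x, hx⟩⟩⟩, rfl⟩
      · rintro ⟨c, rfl⟩ s
        exact ((hC c).1 c.2).2 s s.2
    · exact hPQm s s.2 n hn
    · exact hQp'.of_injective (Subgroup.subgroupOfEquivOfLe hQK).toMonoidHom
        (Subgroup.subgroupOfEquivOfLe hQK).injective
  have hinvK : ∀ χ : Cfsg.IrrCharacter K, (∀ x ∈ P, ∀ k k' : ↥K, (k' : G) = x * (k : G) * x⁻¹ →
      (χ : ↥K → ℂ) k' = (χ : ↥K → ℂ) k) ↔ SInv P (χ : K → ℂ) := by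
    intro χ
    constructor
    · intro h s g
      exact h s s.2 g (s • g) rfl
    · intro h x hx k k' hk
      have h1 : k' = (⟨x, hx⟩ : P) • k := Subtype.ext hk
      rw [h1, h]
  have hinvC : ∀ ξ : Cfsg.IrrCharacter C, (∀ x ∈ P, ∀ k k' : ↥C, (k' : G) = x * (k : G) * x⁻¹ →
      (ξ : ↥C → ℂ) k' = (ξ : ↥C → ℂ) k) ↔ SInv P (ξ : C → ℂ) := by
    intro ξ
    constructor
    · intro h s g
      exact h s s.2 g (s • g) rfl
    · intro h x hx k k' hk
      have h1 : k' = (⟨x, hx⟩ : P) • k := Subtype.ext hk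
      rw [h1, h]
  choose F hF1 hF2 hF3 using fun χ : {χ : Cfsg.IrrCharacter ↥K // (∀ x ∈ P, ∀ k k' : ↥K,
    (k' : G) = x * (k : G) * x⁻¹ → (χ : ↥K → ℂ) k' = (χ : ↥K → ℂ) k)} =>
      exists_xi hcfg ((hinvK χ.1).1 χ.2)
  refine ⟨fun χ => ⟨F χ, (hinvC (F χ)).2 (hF1 χ)⟩, ⟨?_, ?_⟩, fun χ => ⟨fun ξ => ?_, ?_⟩⟩
  · intro χ χ' hχχ
    have h1 : F χ = F χ' := congrArg Subtype.val hχχ
    apply Subtype.ext
    refine injective hcfg ((hinvK χ.1).1 χ.2) ((hinvK χ'.1).1 χ'.2) (hF1 χ) (hF2 χ) ?_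
    rw [h1]
    exact hF2 χ'
  · rintro ⟨ξ, hξ⟩
    obtain ⟨χ, hχ, hm⟩ := exists_chi hcfg ((hinvC ξ).1 hξ)
    have h1 := (hinvK χ).2 hχ
    have h2 := hF1 ⟨χ, h1⟩
    have h3 := hF2 ⟨χ, h1⟩
    have h4 : F ⟨χ, h1⟩ = ξ := unique' hcfg hχ h2 ((hinvC ξ).1 hξ) h3 hm
    exact ⟨⟨χ, h1⟩, Subtype.ext h4⟩
  · refine ⟨mlt (Subgroup.inclusion hCK) χ.1 ξ.1, ?_, ?_, ?_⟩
    · rw [← mlt_spec, classInner_def, finsum_eq_sum_of_fintype]
      rfl
    · intro h1
      have h2 : ξ.1 = F χ := congrArg Subtype.val h1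
      rw [h2]
      exact hF3 χ
    · intro h1
      by_contra h2
      apply h1
      apply Subtype.ext
      exact unique' hcfg ((hinvK χ.1).1 χ.2) ((hinvC ξ.1).1 ξ.2) (hF1 χ) h2 (hF2 χ)
  · have h1 := degree_congr hcfg ((hinvK χ.1).1 χ.2) (hF1 χ) (hF2 χ)
    rcases hF3 χ with h2 | h2
    · left
      show (Cfsg.charDegree ((F χ : Cfsg.IrrCharacter C) : ↥C → ℂ) : ZMod p) = _
      rw [h1, h2, one_mul]
    · right
      show (Cfsg.charDegree ((F χ : Cfsg.IrrCharacter C) : ↥C → ℂ) : ZMod p) = _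
      rw [h1, h2, neg_one_mul, neg_neg]

end Cfsg.Agent.S4914
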