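import Cfsg.Statements.S4916
-- import your own Cfsg.Agent.* helpers here
import Cfsg.Agent.S0907
import Cfsg.Agent.S0914

set_option autoImplicit false
open Cfsg

namespace Cfsg.Agent.S4916

open scoped ComplexConjugate
open Cfsg.Agent.Blocks.Local

/-- Let G be a finite group, p a prime and M a maximal ideal of the algebraic integers containing p. Then the principal character is the only irreducible character of degree prime to p in the principal p-block of G if and only if p does not divide the order of G. -/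
theorem result {G : Type*} [Group G] [Finite G] (p : ℕ) [Fact p.Prime] (M : Ideal Cfsg.AlgInt) (hM : Cfsg.IsPModular p M) : (∀ χ : Cfsg.IrrCharacter G, χ ∈ Cfsg.principalBlock M G → ¬ p ∣ Cfsg.charDegree (χ : G → ℂ) → (χ : G → ℂ) = fun _ => (1 : ℂ)) ↔ ¬ p ∣ Nat.card G := by
  have hMp := isPrime_of_isPModular hM
  set o : IrrCharacter G := ⟨fun _ => 1, Cfsg.Agent.Blocks.Basic.isIrrCharacter_one⟩ with ho
  have ho1 : charDegree (o : G → ℂ) = 1 := by simp [charDegree, ho]
  have hoB : o ∈ principalBlock M G := by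
    intro g
    rw [ho, sub_self]
    exact memLocalIdeal_zero
  have hfin : Finite (IrrCharacter G) := Cfsg.Agent.Characters.Core.finite_irr
  constructor
  · intro h hdvd
    obtain ⟨y, hy⟩ := exists_prime_orderOf_dvd_card' p hdvd
    have hp1 : ¬ p ∣ orderOf (1 : G) := by
      rw [orderOf_one]
      exact (Fact.out : p.Prime).one_lt.ne' ∘ Nat.dvd_one.1
    have hsum := Cfsg.Agent.S0907.result p M hM (principalBlock M G) ⟨o, rfl⟩ 1 y hp1
      (by rw [hy])
    rw [← finsum_mem_add_sdiff (Set.singleton_subset_iff.2 hoB) (Set.toFinite _),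
      finsum_mem_singleton] at hsum
    have hone : (o : G → ℂ) 1 * conj ((o : G → ℂ) y) = 1 := by simp [ho]
    rw [hone] at hsum
    have hI : MemLocalIdeal M (∑ᶠ χ ∈ principalBlock M G \ {o},
        (χ : G → ℂ) 1 * conj ((χ : G → ℂ) y)) := by
      refine memLocalIdeal_finsum_mem fun χ hχ => ?_
      have hd : p ∣ charDegree (χ : G → ℂ) := by
        by_contra hnd
        exact hχ.2 (Subtype.ext (h χ hχ.1 hnd))
      obtain ⟨hd1, -, -⟩ := Cfsg.Agent.S0914.degree_spec χ
      refine memLocalIdeal_mul_right ?_ ?_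
      · rw [hd1]
        exact (memLocalIdeal_natCast_iff hM _).2 hd
      · have hconj : conj ((χ : G → ℂ) y) = (χ : G → ℂ) y⁻¹ := by
          obtain ⟨χ, n, ρ, hρ, rfl⟩ := χ
          exact (Cfsg.Agent.S0909.char_inv ρ y).symm
        rw [hconj]
        obtain ⟨χ, n, ρ, hρ, rfl⟩ := χ
        exact memLocalRing_of_isIntegral
          (Cfsg.Agent.Characters.AverageRoots.isIntegral_character ρ _)
    have h1 : (1 : ℂ) = -(∑ᶠ χ ∈ principalBlock M G \ {o},
        (χ : G → ℂ) 1 * conj ((χ : G → ℂ) y)) := eq_neg_of_add_eq_zero_left hsum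
    exact not_memLocalIdeal_one (h1 ▸ memLocalIdeal_neg hI)
  · intro h χ hχ _
    have h1 : blockOf M (o : G → ℂ) = {o} :=
      (Cfsg.Agent.S0914.result p M hM o).1 (by rwa [ho1, Nat.div_one])
    have h2 : χ ∈ blockOf M (o : G → ℂ) := hχ
    rw [h1] at h2
    rw [Set.mem_singleton_iff.1 h2]

end Cfsg.Agent.S4916
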