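import Cfsg.Statements.S4937
import Cfsg.Agent.H712.BlkExt

set_option autoImplicit false
open Cfsg

namespace Cfsg.Agent.S4937

/-- Let G be a finite group, p a prime, M a maximal ideal of the algebraic integers containing p, N a normal subgroup of G and P a Sylow p-subgroup of N such that G = N·C_G(P). Let θ be an irreducible character in the principal p-block of N that is the restriction of some irreducible character of G. Then θ is the restriction of an irreducible character χ of G lying in the principal p-block of G such that, for every subgroup J of G containing N, the restriction of χ to J is an irreducible character of J lying in the principal p-block of J. -/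
theorem result {G : Type*} [Group G] [Finite G] (p : ℕ) [Fact p.Prime] (M : Ideal Cfsg.AlgInt) (hM : Cfsg.IsPModular p M) (N : Subgroup G) [N.Normal] (P : Sylow p ↥N)
    (hcov : N ⊔ Subgroup.centralizer (((P : Subgroup ↥N).map N.subtype : Subgroup G) : Set G) = ⊤)
    (θ : Cfsg.IrrCharacter ↥N) (hθ : θ ∈ Cfsg.principalBlock M ↥N)
    (hext : ∃ ψ : Cfsg.IrrCharacter G, ∀ x : ↥N, (ψ : G → ℂ) x = (θ : ↥N → ℂ) x) :
    ∃ χ : Cfsg.IrrCharacter G, χ ∈ Cfsg.principalBlock M G ∧ (∀ x : ↥N, (χ : G → ℂ) x = (θ : ↥N → ℂ) x) ∧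
      ∀ J : Subgroup G, N ≤ J → ∃ ξ : Cfsg.IrrCharacter ↥J, ξ ∈ Cfsg.principalBlock M ↥J ∧ ∀ y : ↥J, (ξ : ↥J → ℂ) y = (χ : G → ℂ) y := by
  classical
  have : Fintype G := Fintype.ofFinite G
  have hMp : M.IsPrime := Cfsg.Agent.Blocks.Local.isPrime_of_isPModular hM
  obtain ⟨ψ, hψ⟩ := hext
  obtain ⟨n, ρ, hρ, hρψ⟩ := ψ.2
  -- `ρ` is irreducible on `N`
  have hρN : Representation.IsIrreducible
      (ρ.comp N.subtype : Representation ℂ N (Fin n → ℂ)) := by
    refine Cfsg.Agent.Characters.Core.isIrreducible_of_isIrrCharacter _ ?_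
    have h1 : (Representation.character (ρ.comp N.subtype : Representation ℂ N (Fin n → ℂ)) :
        ↥N → ℂ) = (θ : ↥N → ℂ) := by
      funext x
      rw [← hψ x, ← hρψ]
      rfl
    rw [h1]
    exact θ.2
  have hχN : ∀ x : ↥N, ρ.character x = (θ : ↥N → ℂ) x := by
    intro x; rw [hρψ, hψ]
  obtain ⟨κ, hκ1, hκN, hκ⟩ := Cfsg.Agent.H712.BlkExt.exists_twist M hM N P hcov θ hθ ρ hρN hχN
  -- the twisted representation
  let σ : Representation ℂ G (Fin n → ℂ) :=
    { toFun := fun g => κ g • ρ g
      map_one' := by rw [map_one, map_one, one_smul]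
      map_mul' := fun g h => by
        rw [map_mul, map_mul, smul_mul_smul_comm] }
  have hσ : ∀ g, σ g = κ g • ρ g := fun g => rfl
  have hσc : ∀ g, σ.character g = κ g * ρ.character g := by
    intro g
    show LinearMap.trace ℂ _ (σ g) = κ g * LinearMap.trace ℂ _ (ρ g)
    rw [hσ, map_smul, smul_eq_mul]
  have hσN : Representation.IsIrreducible
      (σ.comp N.subtype : Representation ℂ N (Fin n → ℂ)) := by
    have h1 : (σ.comp N.subtype : Representation ℂ N (Fin n → ℂ)) = ρ.comp N.subtype := by
      ext1 x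
      show κ x • ρ x = ρ x
      rw [hκN x x.2, one_smul]
    rw [h1]; exact hρN
  have hcong : ∀ w : G → ℤ, Cfsg.Agent.H712.BlkExt.Inv N w →
      MemLocalIdeal M (Cfsg.Agent.H712.BlkExt.cval σ.character w -
        (Cfsg.Agent.H712.BlkExt.aug w : ℂ)) := by
    intro w hw
    have h1 := hκ w hw
    have h2 : (fun g => κ g * ρ.character g) = σ.character := by
      funext g; exact (hσc g).symm
    rwa [h2] at h1
  have hcl : ∀ g h : G, σ.character (h * g * h⁻¹) = σ.character g :=
    fun g h => Cfsg.Agent.Blocks.ClassScalar.character_conj σ g h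
  have hσirr : σ.IsIrreducible :=
    Cfsg.Agent.H712.BlkExt.isIrreducible_of_comp N.subtype σ hσN
  refine ⟨⟨σ.character, n, σ, hσirr, rfl⟩, ?_, ?_, ?_⟩
  · intro y
    exact Cfsg.Agent.H712.BlkExt.mem_block N σ.character hcl hcong (MonoidHom.id G)
      (fun a b h => h) (fun x _ => ⟨x, rfl⟩) y
  · intro x
    show σ.character x = _
    rw [hσc, hκN x x.2, one_mul, hχN]
  · intro J hJ
    refine ⟨⟨fun y => σ.character y, n, (σ.comp J.subtype : Representation ℂ J (Fin n → ℂ)),
      ?_, rfl⟩, ?_, fun y => rfl⟩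
    · refine Cfsg.Agent.H712.BlkExt.isIrreducible_of_comp (Subgroup.inclusion hJ)
        (σ.comp J.subtype : Representation ℂ J (Fin n → ℂ)) ?_
      exact hσN
    · intro y
      exact Cfsg.Agent.H712.BlkExt.mem_block N σ.character hcl hcong J.subtype
        J.subtype_injective (by rw [Subgroup.range_subtype]; exact hJ) y

end Cfsg.Agent.S4937
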