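import Cfsg.Statements.S4940
import Cfsg.Agent.H955.FSAll

set_option autoImplicit false
open Cfsg

namespace Cfsg.Agent.S4940

/-- Let F be a finite field of characteristic 2 and n a natural number, and let G be the symplectic group of 2n × 2n matrices over F preserving the standard alternating form. Then every irreducible complex character χ of G has Frobenius–Schur indicator 1: the sum of χ(g²) over all g in G equals the order of G (every irreducible complex representation of G can be written over the real numbers). -/
theorem result (F : Type*) [Field F] [Fintype F] [CharP F 2] (n : ℕ) (χ : Cfsg.IrrCharacter ↥(Matrix.symplecticGroup (Fin n) F)) :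
    ∑ᶠ g : ↥(Matrix.symplecticGroup (Fin n) F), (χ : ↥(Matrix.symplecticGroup (Fin n) F) → ℂ) (g * g) = (Nat.card ↥(Matrix.symplecticGroup (Fin n) F) : ℂ) := by
  have hgood := Cfsg.Agent.H955.FS.symplectic_of_T2_of
    (fun f hf h => Cfsg.Agent.H955.FS.FSGood.of_surjective f hf h)
    (fun k => (Cfsg.Agent.H955.FS.all k).2.2.1) (F := F) n
  rcases hgood χ χ.2 with h | h
  · have h1 : (Nat.card ↥(Matrix.symplecticGroup (Fin n) F) : ℂ) ≠ 0 :=
      Nat.cast_ne_zero.2 Nat.card_pos.ne'
    unfold Cfsg.Agent.H955.FS.fsi at h
    rw [inv_mul_eq_iff_eq_mul₀ h1, mul_one] at h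
    exact h
  · exact h.1.elim

end Cfsg.Agent.S4940
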