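import Cfsg.Statements.S4989
import Cfsg.Agent.OddOrderCharacters.PF13.SumBound

set_option autoImplicit false
open Cfsg

namespace Cfsg.Agent.S4989

open Cfsg.Agent.Characters.Core in
/-- Let H be a subgroup of the finite group G and χ an irreducible complex character of G. Then the inner product of the restriction of χ to H with itself, (1/#H)·Σ_{h ∈ H} |χ(h)|², is at most 1 + #(Z ∖ H)/#H, where Z is the set of zeros of χ in G. -/
theorem result {G : Type*} [Group G] [Finite G] (H : Subgroup G) (χ : Cfsg.IrrCharacter G) : (Nat.card ↥H : ℝ)⁻¹ * ∑ᶠ h : ↥H, ‖(χ : G → ℂ) h‖ ^ 2 ≤ 1 + (Set.ncard ({x : G | (χ : G → ℂ) x = 0} \ (H : Set G)) : ℝ) / (Nat.card ↥H : ℝ) := by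
  classical
  have : Fintype G := Fintype.ofFinite G
  have hHpos : (0 : ℝ) < Nat.card H := by exact_mod_cast Nat.card_pos
  have hGpos : (0 : ℝ) < Nat.card G := by exact_mod_cast Nat.card_pos
  set c : G → ℂ := (χ : G → ℂ) with hc
  -- the norm relation
  have horth : ∑ g : G, ‖c g‖ ^ 2 = (Nat.card G : ℝ) := by
    have h1 := classInner_irr_self χ.2
    rw [OddOrderCharacters.VChar.classInner_self_eq] at h1
    have h2 : (Nat.card G : ℝ)⁻¹ * ∑ g : G, ‖c g‖ ^ 2 = 1 := by exact_mod_cast h1
    field_simp at h2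
    linarith
  -- the sum over H
  have hsum : ∑ᶠ h : ↥H, ‖c h‖ ^ 2 = ∑ g ∈ Finset.univ.filter (fun g : G => g ∈ H), ‖c g‖ ^ 2 := by
    rw [finsum_eq_sum_of_fintype]
    rw [← Finset.sum_subtype (Finset.univ.filter (fun g : G => g ∈ H)) (p := fun g => g ∈ H)
      (by simp) (fun g => ‖c g‖ ^ 2)]
  -- the nonzero values outside H
  set X : Finset G := Finset.univ.filter (fun g : G => g ∉ H ∧ c g ≠ 0) with hX
  set Z : Finset G := Finset.univ.filter (fun g : G => g ∉ H ∧ c g = 0) with hZ
  have hgen : IsGeneralizedCharacter G c := ⟨c, 0, isIrr_isCharacter χ.2, isCharacter_zero, by simp⟩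
  have hXle : (X.card : ℝ) ≤ ∑ g ∈ X, ‖c g‖ ^ 2 := by
    have := OddOrderCharacters.PF13.SumBound.card_le_sum_sq (G := G) ({()} : Finset Unit)
      (fun _ => c) (fun _ _ => hgen) X ?_ ?_
    · simpa using this
    · intro g hg m hm
      simp only [hX, Finset.mem_filter, Finset.mem_univ, true_and] at hg ⊢
      refine ⟨fun hmem => hg.1 ?_, fun h0 => hg.2 ?_⟩
      · obtain ⟨k, hk⟩ := exists_pow_eq_self_of_coprime (hm.of_dvd_right (orderOf_dvd_natCard g))
        rw [← hk]
        exact H.pow_mem hmem k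
      · obtain ⟨σ, hσ⟩ := OddOrderCharacters.PF13.SumBound.gen_exists_ringEquiv hm
        have h1 := hσ c hgen g
        rw [h0] at h1
        exact (map_eq_zero_iff σ σ.injective).1 h1
    · intro g hg
      simp only [hX, Finset.mem_filter, Finset.mem_univ, true_and] at hg
      exact ⟨(), by simp, hg.2⟩
  have hZcard : (Set.ncard ({x : G | c x = 0} \ (H : Set G)) : ℝ) = Z.card := by
    rw [← Set.ncard_coe_finset]
    congr 2
    ext g
    simp only [hZ, Set.mem_sdiff, Set.mem_ofPred_eq, SetLike.mem_coe, Finset.coe_filter,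
      Finset.mem_univ, true_and]
    tauto
  have hsplit : ∑ g : G, ‖c g‖ ^ 2 =
      ∑ g ∈ Finset.univ.filter (fun g : G => g ∈ H), ‖c g‖ ^ 2 + ∑ g ∈ X, ‖c g‖ ^ 2 := by
    rw [← Finset.sum_filter_add_sum_filter_not Finset.univ (fun g : G => g ∈ H)]
    congr 1
    rw [← Finset.sum_filter_add_sum_filter_not (Finset.univ.filter (fun g : G => ¬ g ∈ H))
      (fun g : G => c g = 0)]
    rw [Finset.sum_eq_zero (s := Finset.filter (fun g => c g = 0) _), zero_add]
    · rw [Finset.filter_filter]
    · intro g hg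
      simp only [Finset.mem_filter] at hg
      rw [hg.2]; simp
  have hcard : (Nat.card G : ℝ) = Nat.card H + Z.card + X.card := by
    have h1 : (Finset.univ : Finset G).card =
        (Finset.univ.filter (fun g : G => g ∈ H)).card + (Z.card + X.card) := by
      rw [← Finset.card_filter_add_card_filter_not (s := Finset.univ) (fun g : G => g ∈ H)]
      congr 1
      rw [← Finset.card_filter_add_card_filter_not
        (s := Finset.univ.filter (fun g : G => ¬ g ∈ H)) (fun g : G => c g = 0)]
      rw [Finset.filter_filter, Finset.filter_filter]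
    have h2 : (Finset.univ.filter (fun g : G => g ∈ H)).card = Nat.card H := by
      rw [Nat.card_eq_fintype_card, Fintype.card_subtype]
    rw [h2, Finset.card_univ, ← Nat.card_eq_fintype_card] at h1
    rw [h1]; push_cast; ring
  rw [hsum, hZcard, inv_mul_eq_div, div_le_iff₀ hHpos, add_mul, one_mul,
    div_mul_cancel₀ _ hHpos.ne']
  have h3 := horth
  rw [hsplit, hcard] at h3
  linarith

end Cfsg.Agent.S4989
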