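import Cfsg.Statements.S4990
import Cfsg.Agent.H448.TheoremB
import Cfsg.Agent.H448.KBlock
import Cfsg.Agent.H592.Defect
import Cfsg.Agent.S0908

set_option autoImplicit false
open Cfsg

namespace Cfsg.Agent.S4990

/-- Let G be a finite solvable group, p a prime, M a maximal ideal of the algebraic integers containing p, and B a p-block of G of positive defect d. Then B contains at most 3^{d−1}·p^d irreducible complex characters. -/
theorem result {G : Type*} [Group G] [Finite G] (hsolv : Group.IsSolvable G) (p : ℕ) [Fact p.Prime] (M : Ideal Cfsg.AlgInt) (hM : Cfsg.IsPModular p M) (B : Set (Cfsg.IrrCharacter G)) (hB : Cfsg.IsPBlock M B) (hd : 0 < Cfsg.blockDefect p B) : Set.ncard B ≤ 3 ^ (Cfsg.blockDefect p B - 1) * p ^ Cfsg.blockDefect p B := by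
  have hpp : p.Prime := Fact.out
  obtain ⟨D, hD⟩ := Cfsg.Agent.H592.Defect.exists_defectGroup p hM hB
  have h1 := Cfsg.Agent.S0908.result p M hM B hB D hD
  obtain ⟨X, _, _, hX, hbot, hcard, hle⟩ :=
    Cfsg.Agent.H448.KBlock.reduction p M hM (Nat.card G) G le_rfl hsolv B hB D hD
  have h2 : (Nat.card X).factorization p = Cfsg.blockDefect p B := by
    rw [h1] at hcard
    exact (Nat.pow_right_injective hpp.two_le hcard).symm
  have h3 : 1 < Nat.card X := by
    by_contra hcon
    have h4 : Nat.card X = 1 := by
      have := Nat.card_pos (α := X)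
      omega
    rw [h4, Nat.factorization_one, Finsupp.coe_zero, Pi.zero_apply] at h2
    omega
  have h4 := Cfsg.Agent.H448.TheoremB.card_classes_le p (Nat.card X) X le_rfl hX hbot h3
  rw [h2] at h4
  exact hle.trans h4

end Cfsg.Agent.S4990
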