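import Cfsg.Statements.S5075
import Cfsg.Agent.H743.TvFinal

set_option autoImplicit false
open Cfsg Cfsg.Agent.H743.McL

namespace Cfsg.Agent.S5075

/-- Let p be an odd prime, V a finite-dimensional vector space over the field with p elements, and H a group of linear automorphisms of V generated by transvections (elements of order p fixing a hyperplane pointwise) and having no nontrivial normal p-subgroup. Then for some n ≥ 1 there are a decomposition V = V₀ ⊕ V₁ ⊕ ⋯ ⊕ Vₙ into H-invariant subspaces and a decomposition of H as the internal direct product of normal subgroups H₁, …, Hₙ such that Hⱼ acts trivially on every Vᵢ with i ≠ j, and Hⱼ induces on Vⱼ exactly the special linear group of Vⱼ or exactly the isometry group of a non-degenerate alternating form on Vⱼ. -/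
theorem result {p : ℕ} [Fact p.Prime] (hp : Odd p) {V : Type*} [AddCommGroup V] [Module (ZMod p) V] [Finite V]
    (H : Subgroup (V ≃ₗ[ZMod p] V)) (T : Set (V ≃ₗ[ZMod p] V)) (hHT : H = Subgroup.closure T)
    (hT : ∀ t ∈ T, orderOf t = p ∧
      Module.finrank (ZMod p) ↥(LinearMap.ker ((t : V →ₗ[ZMod p] V) - LinearMap.id)) + 1 =
        Module.finrank (ZMod p) V)
    (hOp : Cfsg.pCore p ↥H = ⊥) :
    ∃ (n : ℕ) (W : Fin (n + 1) → Submodule (ZMod p) V) (K : Fin n → Subgroup (V ≃ₗ[ZMod p] V)),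
      1 ≤ n ∧ DirectSum.IsInternal W ∧
      (∀ h ∈ H, ∀ i, (W i).map (h : V →ₗ[ZMod p] V) = W i) ∧
      (∀ j, K j ≤ H ∧ ((K j).subgroupOf H).Normal) ∧ ⨆ j, K j = H ∧
      (∀ j, K j ⊓ (⨆ j' ∈ {j' : Fin n | j' ≠ j}, K j') = ⊥) ∧
      (∀ j j', j ≠ j' → ∀ a ∈ K j, ∀ b ∈ K j', a * b = b * a) ∧
      (∀ j, ∀ h ∈ K j, ∀ i : Fin (n + 1), i ≠ j.succ → ∀ v ∈ W i, h v = v) ∧
      (∀ j, ∃ ρ : ↥(K j) →* (↥(W j.succ) ≃ₗ[ZMod p] ↥(W j.succ)),
        (∀ (h : ↥(K j)) (v : ↥(W j.succ)), ((ρ h v : ↥(W j.succ)) : V) = (h : V ≃ₗ[ZMod p] V) (v : V)) ∧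
        ((ρ.range : Set (↥(W j.succ) ≃ₗ[ZMod p] ↥(W j.succ))) =
            {f : ↥(W j.succ) ≃ₗ[ZMod p] ↥(W j.succ) | LinearMap.det (f : ↥(W j.succ) →ₗ[ZMod p] ↥(W j.succ)) = 1} ∨
          ∃ B : LinearMap.BilinForm (ZMod p) ↥(W j.succ), B.IsAlt ∧ B.Nondegenerate ∧
            (ρ.range : Set (↥(W j.succ) ≃ₗ[ZMod p] ↥(W j.succ))) = {f : ↥(W j.succ) ≃ₗ[ZMod p] ↥(W j.succ) | ∀ x y, B (f x) (f y) = B x y})) := by
  classical
  have hfd : FiniteDimensional (ZMod p) V := Module.Finite.of_finite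
  have hTt : ∀ t ∈ T, ∃ (a : V) (φ : Module.Dual (ZMod p) V), φ a = 0 ∧ a ≠ 0 ∧ φ ≠ 0 ∧
      ∀ x, t x = x + φ x • a := fun t ht =>
    Cfsg.Agent.H743.McL.transvection_of_mem (hT t ht).1 (hT t ht).2
  have hTH : ∀ t ∈ T, t ∈ H := fun t ht => by rw [hHT]; exact Subgroup.subset_closure ht
  have hN : NI H := ni_of_pCore hp hOp
  have hF : Full H := full_of_prime H
  have hgen : Gen H := by
    apply le_antisymm
    · rw [hHT, Subgroup.closure_le, ← hHT]
      intro t ht
      obtain ⟨a, φ, h1, h2, h3, h4⟩ := hTt t ht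
      exact Subgroup.subset_closure ⟨hTH t ht, a, φ, h1, h4⟩
    · rw [Subgroup.closure_le]
      rintro t ⟨h, -⟩
      exact h
  obtain ⟨n, r, hr1, hr2, hr3⟩ := exists_enum H
  have hTc : ∀ t ∈ T, ∃ j, t ∈ Kc H (r j) := by
    intro t ht
    obtain ⟨a, φ, h1, h2, h3, h4⟩ := hTt t ht
    have h5 : Tv H a φ := ⟨h1, t, hTH t ht, h4⟩
    obtain ⟨b, ψ, k1, k2, k3⟩ := hN a φ h5 h2 h3
    obtain ⟨j, hj⟩ := hr3 a ⟨b, φ, ψ, h5, k1, k2, k3⟩
    exact ⟨j, Subgroup.subset_closure ⟨hTH t ht, a, φ, hj, h1, h4⟩⟩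
  rcases Nat.eq_zero_or_pos n with hn | hn
  · -- no transvections at all: `H = 1`
    subst hn
    have hT0 : T = ∅ := by
      ext t
      simp only [Set.mem_empty_iff_false, iff_false]
      intro ht
      obtain ⟨j, -⟩ := hTc t ht
      exact j.elim0
    have hH : H = ⊥ := by rw [hHT, hT0, Subgroup.closure_empty]
    have hHe : ∀ h ∈ H, h = 1 := by
      intro h hh
      rw [hH] at hh
      exact Subgroup.mem_bot.1 hh
    refine ⟨1, Fin.cons ⊤ (fun _ => ⊥), fun _ => ⊥, le_rfl, ?_, ?_, ?_, ?_, ?_, ?_, ?_, ?_⟩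
    · have := isInternal_cons (K := ZMod p) (V := V) (n := 1) (fun _ => ⊥) (fun _ => ⊤)
        (fun j => isCompl_bot_top) (fun i j hij => bot_le)
      have e : (⨅ _ : Fin 1, (⊤ : Submodule (ZMod p) V)) = ⊤ := by simp
      rw [e] at this
      exact this
    · intro h hh i
      rw [hHe h hh]
      exact Submodule.map_id _
    · intro j
      refine ⟨bot_le, ?_⟩
      rw [Subgroup.bot_subgroupOf]
      infer_instance
    · rw [hH]
      simp
    · intro j
      exact bot_inf_eq _
    · intro j j' hjj'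
      exact absurd (Subsingleton.elim j j') hjj'
    · intro j h hh i _ v _
      rw [Subgroup.mem_bot.1 hh]
      rfl
    · intro j
      refine ⟨1, ?_, Or.inl ?_⟩
      · intro h v
        have h1 : (h : V ≃ₗ[ZMod p] V) = 1 := Subgroup.mem_bot.1 h.2
        rw [h1]
        rfl
      · have hsub : Subsingleton ((Fin.cons ⊤ (fun _ => ⊥) : Fin (1 + 1) → Submodule (ZMod p) V) j.succ) := by
          change Subsingleton (⊥ : Submodule (ZMod p) V)
          infer_instance
        ext f
        constructor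
        · intro _
          have : (f : ((Fin.cons ⊤ (fun _ => ⊥) : Fin (1 + 1) → Submodule (ZMod p) V) j.succ) →ₗ[ZMod p]
              ((Fin.cons ⊤ (fun _ => ⊥) : Fin (1 + 1) → Submodule (ZMod p) V) j.succ)) = LinearMap.id :=
            LinearMap.ext fun x => Subsingleton.elim _ _
          change LinearMap.det _ = 1
          rw [this, LinearMap.det_id]
        · intro _
          exact ⟨1, LinearEquiv.ext fun x => Subsingleton.elim _ _⟩
  · have hmain := fun j => comp_main hp hOp hgen (hr1 j)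
    have hle : ∀ i j, i ≠ j → Wc H (r i) ≤ CC H (r j) := fun i j hij =>
      Wc_le_CC hF hN (hr1 i) (hr1 j) (hr2 i j hij)
    let W : Fin (n + 1) → Submodule (ZMod p) V := Fin.cons (⨅ j, CC H (r j)) (fun j => Wc H (r j))
    have W0 : W 0 = ⨅ j, CC H (r j) := rfl
    have Ws : ∀ j : Fin n, W j.succ = Wc H (r j) := fun j => rfl
    refine ⟨n, W, fun j => Kc H (r j), hn,
      isInternal_cons _ _ (fun j => (hmain j).1) hle, ?_, ?_, ?_, ?_, ?_, ?_, ?_⟩
    · intro h hh i
      refine Fin.cases ?_ (fun j => ?_) i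
      · rw [W0]
        have key : ∀ h ∈ H, (⨅ j, CC H (r j)).map ((h : V ≃ₗ[ZMod p] V) : V →ₗ[ZMod p] V) ≤
            ⨅ j, CC H (r j) := by
          intro h hh
          refine le_iInf fun j => ?_
          rw [← CC_map hF hN hgen (hr1 j) hh]
          exact Submodule.map_mono (iInf_le _ j)
        apply le_antisymm (key h hh)
        intro x hx
        exact ⟨h⁻¹ x, key h⁻¹ (H.inv_mem hh) ⟨x, hx, rfl⟩, h.apply_symm_apply x⟩
      · rw [Ws]
        exact Wc_map hF hN hgen (hr1 j) hh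
    · intro j
      refine ⟨Kc_le _, ⟨fun k hk g => ?_⟩⟩
      rw [Subgroup.mem_subgroupOf] at hk ⊢
      exact Kc_conj hF hN hgen (hr1 j) g.2 hk
    · apply le_antisymm
      · exact iSup_le fun j => Kc_le _
      · conv_lhs => rw [hHT]
        rw [Subgroup.closure_le]
        intro t ht
        obtain ⟨j, hj⟩ := hTc t ht
        exact (le_iSup (fun j => Kc H (r j)) j) hj
    · intro j
      rw [eq_bot_iff]
      rintro g ⟨hg1, hg2⟩
      let S : Subgroup (V ≃ₗ[ZMod p] V) :=
        { carrier := {g | ∀ w ∈ Wc H (r j), g w = w}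
          one_mem' := fun w _ => rfl
          mul_mem' := by
            intro a b ha hb w hw
            change a (b w) = w
            rw [hb w hw, ha w hw]
          inv_mem' := by
            intro a ha w hw
            change a.symm w = w
            rw [LinearEquiv.symm_apply_eq, ha w hw] }
      have hS : (⨆ j' ∈ {j' : Fin n | j' ≠ j}, Kc H (r j')) ≤ S := by
        refine iSup_le fun k => iSup_le fun hk => ?_
        intro g hg w hw
        exact Kc_fix hg (hle j k (Ne.symm hk) hw)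
      rw [Subgroup.mem_bot]
      ext x
      have hx : x ∈ Wc H (r j) ⊔ CC H (r j) := by
        rw [(hmain j).1.sup_eq_top]
        trivial
      obtain ⟨w, hw, c, hc, rfl⟩ := Submodule.mem_sup.1 hx
      rw [map_add, hS hg2 w hw, Kc_fix hg1 hc]
      rfl
    · intro j j' hjj' a ha b hb
      exact Kc_commute hF hN (hr1 j) (hr1 j') (hr2 j j' hjj') (hmain j').1 ha hb
    · intro j h hh i hi v hv
      revert hi hv
      refine Fin.cases ?_ (fun k => ?_) i
      · intro _ hv
        rw [W0, Submodule.mem_iInf] at hv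
        exact Kc_fix hh (hv j)
      · intro hi hv
        rw [Ws] at hv
        exact Kc_fix hh (hle k j (fun e => hi (by rw [e])) hv)
    · intro j
      exact (hmain j).2

end Cfsg.Agent.S5075
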