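import Cfsg.Statements.S5083
import Cfsg.Agent.H802.FusGroup
import Cfsg.Agent.H802.FusAlp

set_option autoImplicit false
open Cfsg

namespace Cfsg.Agent.S5083

/-- If F is a saturated fusion system over a finite p-group S in which Aut_F(P) is a p-group for every P ≤ S, then F is the inner fusion system of S (all its maps are conjugations by elements of S). -/
theorem result {Ω : Type*} [Group Ω] {S : Subgroup Ω} [Finite S] (p : ℕ) [Fact p.Prime] (hS : IsPGroup p S) (F : Cfsg.FusionSystem S) (hF : F.IsSaturated p) (h : ∀ P : Subgroup Ω, P ≤ S → IsPGroup p (F.autGroup P)) : F = Cfsg.innerFusionSystem S := by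
  refine Cfsg.Agent.H802.fusionSystem_ext fun P => Set.Subset.antisymm ?_ ?_
  · refine Cfsg.Agent.H802.le_of_autGroup_le hS hF (Cfsg.innerFusionSystem S) ?_ P
    intro Q hQ _
    have hQS : Q ≤ S := hQ.1
    obtain ⟨_, R, hR⟩ := Cfsg.Agent.H802.isFullyAutomized_of_isFullyNormalized hS hF hQ
    have htop : (R : Subgroup (F.autGroup Q)) = ⊤ :=
      (R.is_maximal' ((h Q hQS).to_subgroup ⊤) le_top).symm
    rw [htop] at hR
    exact (Subgroup.subgroupOf_eq_top.1 hR.symm).trans
      (Cfsg.Agent.H802.autInducedBy_le_autGroup (Cfsg.innerFusionSystem S) hQS)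
  · rintro φ ⟨hP, g, hg, hφ⟩
    have h2 : φ = conjHom P g := MonoidHom.ext hφ
    rw [h2]
    exact F.conj_mem hP hg

end Cfsg.Agent.S5083
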