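import Cfsg.Statements.S5111
import Cfsg.Agent.H750.Aligned
import Cfsg.Agent.H802.FusAlp

set_option autoImplicit false
open Cfsg

namespace Cfsg.Agent.S5111

open Cfsg.FusionSystem Cfsg.Agent.H802 Cfsg.Agent.H750

variable {Ω : Type*} [Group Ω] {S : Subgroup Ω}

theorem exists_fully_normalized [Finite S] {F : FusionSystem S} {P : Subgroup Ω} (hP : P ≤ S) :
    ∃ Q, F.IsConj P Q ∧ F.IsFullyNormalized Q := by
  obtain ⟨Q, hQ, hmin⟩ := WellFounded.has_min
    (measure (fun Q : Subgroup Ω => Nat.card S - Nat.card (normalizerIn S Q))).wf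
    {Q | F.IsConj P Q} ⟨P, isConj_refl F hP⟩
  refine ⟨Q, hQ, isConj_le_right hQ, fun R hR => ?_⟩
  have h1 := hmin R (isConj_trans hQ hR)
  have h2 : Nat.card (normalizerIn S R) ≤ Nat.card S :=
    Nat.card_mono (Set.toFinite _) inf_le_left
  have h3 : Nat.card (normalizerIn S Q) ≤ Nat.card S :=
    Nat.card_mono (Set.toFinite _) inf_le_left
  have h4 : ¬ (Nat.card S - Nat.card (normalizerIn S R) < Nat.card S - Nat.card (normalizerIn S Q)) := h1
  omega

theorem exists_exponent (p : ℕ) [Fact p.Prime] (n M : ℕ) (hn : n ≠ 0) :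
    ∃ k a : ℕ, n ∣ k * p ^ a ∧ k ≡ 1 [MOD p ^ M] := by
  obtain ⟨a, m, hm, rfl⟩ := Nat.exists_eq_pow_mul_and_not_dvd hn p (Fact.out : p.Prime).ne_one
  have hcop : Nat.Coprime m (p ^ M) :=
    (((Fact.out : p.Prime).coprime_iff_not_dvd.2 hm).symm).pow_right M
  obtain ⟨k, hk1, hk2⟩ := Nat.chineseRemainder hcop 0 1
  refine ⟨k, a, ?_, hk2⟩
  have : m ∣ k := (Nat.modEq_zero_iff_dvd).1 hk1
  rw [mul_comm]
  exact mul_dvd_mul this dvd_rfl

theorem fully_automized {p : ℕ} [Fact p.Prime] [Finite S] (hS : IsPGroup p S) {F : FusionSystem S}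
    (ha : F.IsFullyAutomized p S) (hr : ∀ P : Subgroup Ω, F.IsFullyNormalized P → F.IsReceptive P) :
    ∀ n : ℕ, ∀ P : Subgroup Ω, Nat.card S - Nat.card P ≤ n → F.IsFullyNormalized P →
      F.IsFullyAutomized p P := by
  intro n
  induction n with
  | zero =>
    intro P hn hP
    have h1 : Nat.card P = Nat.card S := by
      have := Nat.card_mono (Set.toFinite _) hP.1
      have h2 : Nat.card P ≤ Nat.card S := this
      omega
    rw [eq_of_le_card_eq hP.1 h1]
    exact ha
  | succ n ih =>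
    intro P hn hP
    by_cases hPS : P = S
    · rw [hPS]; exact ha
    have hPle : P ≤ S := hP.1
    have hlt := card_lt_card_normalizerIn hS hPle hPS
    have hNle : normalizerIn S P ≤ S := inf_le_left
    have hNS : Nat.card (normalizerIn S P) ≤ Nat.card S := Nat.card_mono (Set.toFinite _) hNle
    have : Finite P := finite_of_le hPle
    have : Finite (MulAut P) := finite_mulAut
    have hBp : IsPGroup p (autInducedBy S P) := isPGroup_autInducedBy hS P
    obtain ⟨T, hBT, hT⟩ := exists_sylIn (p := p) (autInducedBy_le_autGroup F hPle) hBp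
    by_cases hBTe : autInducedBy S P = T
    · rw [← hBTe] at hT
      exact isFullyAutomized_of_sylIn hPle hT
    exfalso
    have hTp : IsPGroup p T := hT.isPGroup
    obtain ⟨α, hαT, hαB, hαn⟩ := H759.exists_mem_normalizer_not_mem hTp (le_refl T)
      (lt_of_le_of_ne hBT hBTe)
    have hαA : α ∈ F.autGroup P := hT.le hαT
    obtain ⟨fα, hfα, hfαe⟩ := exists_iso_of_aut hPle hαA
    -- extension to the normalizer
    obtain ⟨N', f', hf', hfe'⟩ := extend_of_receptive (hr P hP) hfα (normalizerIn S P) (by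
      intro g hg
      refine ⟨hg.1, hg.2, ?_⟩
      have h1 : H759.conjAut P g hg.2 ∈ autInducedBy S P :=
        (mem_autInducedBy_iff S P _).2 ⟨g, hg.1, fun x => rfl⟩
      have h2 := (Subgroup.mem_normalizer_iff.1 hαn _).1 h1
      obtain ⟨h, hh, hhe⟩ := (mem_autInducedBy_iff S P _).1 h2
      refine ⟨h, hh, fun x hx => ?_⟩
      have h3 := hhe (α ⟨x, hx⟩)
      have h4 : (α * H759.conjAut P g hg.2 * α⁻¹) (α ⟨x, hx⟩) = α (H759.conjAut P g hg.2 ⟨x, hx⟩) := by
        rw [MulAut.mul_apply, MulAut.mul_apply, MulAut.inv_apply_self]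
      rw [h4, ← hfαe, ← hfαe] at h3
      exact h3) (le_normalizerIn hPle)
    have hP' : Iso F P P f' := hfα.congr hfe'
    have hN'eq : N' = normalizerIn S P := by
      have : Finite (normalizerIn S P) := finite_of_le inf_le_left
      exact Subgroup.eq_of_le_of_card_ge
        (hf'.le_normalizerIn hP' (le_normalizerIn hPle) inf_le_right) hf'.card_eq.le
    rw [hN'eq] at hf'
    -- a good conjugate of the normalizer
    set N := normalizerIn S P with hN
    obtain ⟨N₀, hNN₀, hN₀⟩ := exists_fully_normalized (F := F) (P := N) hNle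
    have hN₀a : F.IsFullyAutomized p N₀ := by
      apply ih N₀ _ hN₀
      have := isConj_card_eq hNN₀
      omega
    have hN₀S : N₀ ≤ S := hN₀.1
    obtain ⟨f, P₀, hf, hfP, hal⟩ := exists_aligned hS hNN₀ hN₀a (le_normalizerIn hPle)
    have hN₀P₀ : N₀ = normalizerIn S P₀ := by
      have : Finite (normalizerIn S P₀) := finite_of_le inf_le_left
      refine Subgroup.eq_of_le_of_card_ge
        (hf.le_normalizerIn hfP (le_normalizerIn hPle) inf_le_right) ?_
      rw [← hf.card_eq]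
      exact hP.2 P₀ hfP.isConj
    have : Finite N₀ := finite_of_le hN₀S
    have : Finite (MulAut N₀) := finite_mulAut
    obtain ⟨e, he⟩ := hf.exists_equiv
    obtain ⟨β, hβ, hβe⟩ := hf'.exists_aut
    have hPN : P ≤ N := le_normalizerIn hPle
    have hfiff : ∀ x : N, f x ∈ P₀ ↔ (x : Ω) ∈ P := by
      intro x
      refine ⟨fun hx => ?_, fun hx => hfP.mem hx⟩
      obtain ⟨y, hy, hye⟩ := hfP.surj hx
      have := hf.inj (hPN hy) x.2 hye
      rwa [← this]
    have hβP : ∀ x : N, ((β x : N) : Ω) ∈ P ↔ (x : Ω) ∈ P := by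
      intro x
      rw [hβe]
      refine ⟨fun hx => ?_, fun hx => hP'.mem hx⟩
      obtain ⟨y, hy, hye⟩ := hP'.surj hx
      have := hf'.inj (hPN hy) x.2 hye
      rwa [← this]
    set γ : MulAut N₀ := MulAut.congr e β with hγ
    have hγA : γ ∈ F.autGroup N₀ := hf.congr_mem he hβ
    have hγe : ∀ x, γ (e x) = e (β x) := fun x => by rw [hγ]; simp
    have hγs : γ ∈ stab F N₀ P₀ := by
      refine ⟨hγA, fun y => ?_⟩
      obtain ⟨x, rfl⟩ := e.surjective y
      rw [hγe, he, he, hfiff, hfiff, hβP]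
    -- the exponent
    obtain ⟨M, hM⟩ := hTp ⟨α, hαT⟩
    have hM' : α ^ p ^ M = 1 := congrArg Subtype.val hM
    obtain ⟨k, a, hk1, hk2⟩ := exists_exponent p (orderOf γ) M (orderOf_pos γ).ne'
    have hZp : IsPGroup p (Subgroup.zpowers (γ ^ k)) := by
      rw [IsPGroup.iff_card]
      rw [Nat.card_zpowers]
      have : orderOf (γ ^ k) ∣ p ^ a := by
        apply orderOf_dvd_of_pow_eq_one
        rw [← pow_mul]
        exact orderOf_dvd_iff_pow_eq_one.1 hk1
      obtain ⟨b, -, hb⟩ := (Nat.dvd_prime_pow Fact.out).1 this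
      exact ⟨b, hb⟩
    have hZle : Subgroup.zpowers (γ ^ k) ≤ stab F N₀ P₀ := by
      rw [Subgroup.zpowers_le]
      exact pow_mem hγs k
    obtain ⟨κ, hκ, hκe⟩ := hal.exists_conj hZle hZp
    have h1 := hκe (γ ^ k) (Subgroup.mem_zpowers _)
    obtain ⟨g, hgS, hg⟩ := (mem_autInducedBy_iff S N₀ _).1 h1.1
    have hgP₀ : g ∈ Subgroup.normalizer (P₀ : Set Ω) := by
      have hP₀N₀ : P₀ ≤ N₀ := by
        rw [hN₀P₀]; exact le_normalizerIn hfP.le_right
      have h2 : ∀ x : N₀, (x : Ω) ∈ P₀ ↔ g * (x : Ω) * g⁻¹ ∈ P₀ := by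
        intro x
        rw [h1.2.2 x, hg]
      have hgn : g ∈ Subgroup.normalizer (N₀ : Set Ω) := mem_normalizer_of_aut hg
      rw [Subgroup.mem_normalizer_iff]
      intro x
      by_cases hx : x ∈ N₀
      · exact h2 ⟨x, hx⟩
      · refine ⟨fun h => absurd (hP₀N₀ h) hx, fun h => ?_⟩
        exact absurd ((Subgroup.mem_normalizer_iff.1 hgn x).2 (hP₀N₀ h)) hx
    have hgN₀ : g ∈ N₀ := by
      rw [hN₀P₀]
      exact ⟨hgS, hgP₀⟩
    -- `γ ^ k` is inner
    have hinner : ∀ y : N₀, (γ ^ k) y = (κ⁻¹ ⟨g, hgN₀⟩) * y * (κ⁻¹ ⟨g, hgN₀⟩)⁻¹ := by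
      intro y
      have h2 : (κ * γ ^ k * κ⁻¹) (κ y) = ⟨g, hgN₀⟩ * κ y * ⟨g, hgN₀⟩⁻¹ := Subtype.ext (hg (κ y))
      have h3 : (κ * γ ^ k * κ⁻¹) (κ y) = κ ((γ ^ k) y) := by
        rw [MulAut.mul_apply, MulAut.mul_apply, MulAut.inv_apply_self]
      rw [h3] at h2
      have h4 : (κ⁻¹ : MulAut N₀) (κ ((γ ^ k) y)) = (κ⁻¹ : MulAut N₀) (⟨g, hgN₀⟩ * κ y * ⟨g, hgN₀⟩⁻¹) := by
        rw [h2]
      rw [MulAut.inv_apply_self, _root_.map_mul, _root_.map_mul, MulAut.inv_apply_self, _root_.map_inv] at h4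
      exact h4
    obtain ⟨n, hn'⟩ := e.surjective (κ⁻¹ ⟨g, hgN₀⟩)
    have hγk : ∀ (j : ℕ) (x : N), (γ ^ j) (e x) = e ((β ^ j) x) := by
      intro j
      induction j with
      | zero => intro x; simp
      | succ j ihj =>
        intro x
        rw [pow_succ, MulAut.mul_apply, hγe, ihj, pow_succ, MulAut.mul_apply]
    have hβk : ∀ x : N, (β ^ k) x = n * x * n⁻¹ := by
      intro x
      apply e.injective
      rw [← hγk, hinner, ← hn']
      simp
    have hβα : ∀ (j : ℕ) (x : P), (((β ^ j) ⟨x, hPN x.2⟩ : N) : Ω) = ((α ^ j) x : P) := by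
      intro j
      induction j with
      | zero => intro x; simp
      | succ j ihj =>
        intro x
        rw [pow_succ, MulAut.mul_apply, pow_succ, MulAut.mul_apply]
        have h2 : β ⟨x, hPN x.2⟩ = ⟨(α x : P), hPN (α x).2⟩ := by
          apply Subtype.ext
          rw [hβe]
          show f' x = _
          rw [hfe' x x.2, hfαe]
        rw [h2, ihj]
    have hαk : α ^ k = α := by
      have h2 : α ^ k = α ^ 1 := by
        rw [pow_eq_pow_iff_modEq]
        exact hk2.of_dvd (orderOf_dvd_of_pow_eq_one hM')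
      rw [h2, pow_one]
    apply hαB
    rw [mem_autInducedBy_iff]
    refine ⟨n, hNle n.2, fun x => ?_⟩
    rw [← hαk, ← hβα, hβk]
    rfl

/-- A fusion system over a finite p-group S is saturated if and only if the inner automorphisms of S form a Sylow p-subgroup of Aut_F(S) and every fully normalized subgroup of S is receptive. -/
theorem result {Ω : Type*} [Group Ω] {S : Subgroup Ω} [Finite S] (p : ℕ) [Fact p.Prime] (hS : IsPGroup p S) (F : Cfsg.FusionSystem S) : F.IsSaturated p ↔ (F.IsFullyAutomized p S ∧ ∀ P : Subgroup Ω, F.IsFullyNormalized P → F.IsReceptive P) := by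
  constructor
  · intro hF
    refine ⟨?_, fun P hP => isReceptive_of_isFullyNormalized hS hF hP⟩
    apply isFullyAutomized_of_isFullyNormalized hS hF
    refine ⟨le_rfl, fun Q hQ => ?_⟩
    have h1 : normalizerIn S S = S := le_antisymm inf_le_left (le_normalizerIn le_rfl)
    rw [h1]
    exact Nat.card_mono (Set.toFinite _) inf_le_left
  · rintro ⟨ha, hr⟩ P hP
    obtain ⟨Q, hPQ, hQ⟩ := exists_fully_normalized (F := F) hP
    exact ⟨Q, hPQ, fully_automized hS ha hr _ Q le_rfl hQ, hr Q hQ⟩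

end Cfsg.Agent.S5111
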