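import Cfsg.Statements.S5125
import Cfsg.Agent.H759.FusNormal
import Cfsg.Agent.H752.PPow

set_option autoImplicit false
open Cfsg

namespace Cfsg.Agent.S5125

open Cfsg.FusionSystem

/-- The descending series `D 0 = Q₁`, `D (i+1) = [S, D i]`. -/
def ser {Ω : Type*} [Group Ω] (S Q₁ : Subgroup Ω) : ℕ → Subgroup Ω
  | 0 => Q₁
  | n + 1 => ⁅S, ser S Q₁ n⁆

theorem ser_le_inv {Ω : Type*} [Group Ω] (S Q₁ : Subgroup Ω)
    (hinv : ∀ s ∈ S, ∀ x ∈ Q₁, s * x * s⁻¹ ∈ Q₁) (n : ℕ) :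
    ser S Q₁ n ≤ Q₁ ∧ (∀ s ∈ S, ∀ x ∈ ser S Q₁ n, s * x * s⁻¹ ∈ ser S Q₁ n) := by
  have key : ∀ D : Subgroup Ω, (∀ s ∈ S, ∀ x ∈ D, s * x * s⁻¹ ∈ D) → ⁅S, D⁆ ≤ D := by
    intro D hD
    rw [Subgroup.commutator_le]
    intro s hs x hx
    exact D.mul_mem (hD s hs x hx) (D.inv_mem hx)
  have key2 : ∀ D : Subgroup Ω, (∀ s ∈ S, ∀ x ∈ D, s * x * s⁻¹ ∈ D) →
      ∀ s ∈ S, ∀ x ∈ ⁅S, D⁆, s * x * s⁻¹ ∈ ⁅S, D⁆ := by
    intro D hD s hs x hx
    have h1 : (⁅S, D⁆).map (MulAut.conj s).toMonoidHom ≤ ⁅S, D⁆ := by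
      rw [Subgroup.map_commutator]
      refine Subgroup.commutator_mono ?_ ?_
      · rintro _ ⟨y, hy, rfl⟩
        exact S.mul_mem (S.mul_mem hs hy) (S.inv_mem hs)
      · rintro _ ⟨y, hy, rfl⟩
        exact hD s hs y hy
    exact h1 ⟨x, hx, rfl⟩
  induction n with
  | zero => exact ⟨le_rfl, hinv⟩
  | succ n ih => exact ⟨(key _ ih.2).trans ih.1, key2 _ ih.2⟩

theorem ser_le_lcs {Ω : Type*} [Group Ω] (S Q₁ : Subgroup Ω) (hQS : Q₁ ≤ S) (n : ℕ) :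
    ser S Q₁ n ≤ S.lowerCentralSeries n := by
  induction n with
  | zero => exact hQS
  | succ n ih =>
    show ⁅S, ser S Q₁ n⁆ ≤ ⁅S.lowerCentralSeries n, S⁆
    rw [Subgroup.commutator_comm]
    exact Subgroup.commutator_mono ih le_rfl

/-- Let F be a saturated fusion system over a finite p-group S and Q a subgroup strongly closed in F. If Q has a subgroup Q₁ that is normal in F, with Q/Q₁ abelian and Aut_F(Q₁) a p-group, then Q is normal in F. -/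
theorem result {Ω : Type*} [Group Ω] {S : Subgroup Ω} [Finite S] (p : ℕ) [Fact p.Prime] (hS : IsPGroup p S) (F : Cfsg.FusionSystem S) (hF : F.IsSaturated p) (Q Q₁ : Subgroup Ω) (hQ : F.StronglyClosed Q) (hQ₁Q : Q₁ ≤ Q) (hQ₁ : F.IsNormal Q₁) (hab : ⁅Q, Q⁆ ≤ Q₁) (hAut : IsPGroup p ↥(F.autGroup Q₁)) : F.IsNormal Q := by
  have hQ₁c : F.StronglyClosed Q₁ := Cfsg.Agent.H759.IsNormal.stronglyClosed hQ₁
  have hQ₁S : Q₁ ≤ S := hQ₁.1
  have hinv : ∀ s ∈ S, ∀ x ∈ Q₁, s * x * s⁻¹ ∈ Q₁ := fun s hs x hx =>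
    Cfsg.Agent.H759.StronglyClosed.conj_mem hQ₁c hs hx
  have hser := ser_le_inv S Q₁ hinv
  have hfin : Finite Q₁ := Finite.of_injective _ (Subgroup.inclusion_injective hQ₁S)
  -- `Aut_F(Q₁) ≤ Aut_S(Q₁)`
  have haut : F.autGroup Q₁ ≤ autInducedBy S Q₁ :=
    Cfsg.Agent.H759.le_autInducedBy_of_normal
      (Cfsg.Agent.H752.automized_receptive_of_stronglyClosed hF hQ₁c).1 (F.autGroup Q₁) le_rfl
      (fun a ha k hk => mul_mem (mul_mem ha hk) (inv_mem ha)) hAut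
  -- every map on a subgroup of `Q₁` is conjugation by an element of `S`
  have hconj : ∀ R : Subgroup Ω, R ≤ Q₁ → ∀ φ ∈ F.Hom R, ∀ x : R, ∃ s ∈ S, φ x = s * x * s⁻¹ := by
    intro R hR φ hφ x
    obtain ⟨ψ, hψ, hψ1, hψ2⟩ := hQ₁.2 R φ hφ
    have hle : Q₁ ≤ R ⊔ Q₁ := le_sup_right
    have hm : ∀ (y : Ω) (hy : y ∈ Q₁), ψ ⟨y, hle hy⟩ ∈ Q₁ := by
      intro y hy
      have h1 : ψ ⟨y, hle hy⟩ ∈ (Q₁.subgroupOf (R ⊔ Q₁)).map ψ := ⟨⟨y, hle hy⟩, hy, rfl⟩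
      rwa [hψ2] at h1
    have hmp : Cfsg.Agent.H752.Mp F Q₁ (Cfsg.Agent.H752.ex ψ) :=
      (Cfsg.Agent.H752.mp_ex hψ).res hle
    obtain ⟨α, hα, hαe⟩ := hmp.exists_aut (fun y hy => by
      rw [Cfsg.Agent.H752.ex_apply (fun z => ψ z) (hle hy)]
      exact hm y hy)
    obtain ⟨s, hs, hse⟩ := (Cfsg.Agent.H759.mem_autInducedBy).1 (haut hα)
    refine ⟨s, hs, ?_⟩
    have h2 := hαe x (hR x.2)
    rw [Cfsg.Agent.H752.ex_apply (fun z => ψ z) (hle (hR x.2))] at h2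
    have h3 := hψ1 x
    have h4 : (Subgroup.inclusion (le_sup_left : R ≤ R ⊔ Q₁) x) = ⟨(x : Ω), hle (hR x.2)⟩ := rfl
    rw [h4] at h3
    rw [← h3, h2]
    exact hse ⟨x, hR x.2⟩
  have hsc : ∀ k, F.StronglyClosed (ser S Q₁ k) := by
    intro k
    refine ⟨(hser k).1.trans hQ₁S, fun R hR φ hφ x => ?_⟩
    obtain ⟨s, hs, h⟩ := hconj R (hR.trans (hser k).1) φ hφ x
    rw [h]
    exact (hser k).2 s hs _ (hR x.2)
  -- nilpotency
  have hnil : Group.IsNilpotent S := hS.isNilpotent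
  obtain ⟨m, hm⟩ := (Subgroup.isNilpotent_iff_lowerCentralSeries S).1 hnil
  have hbot : ser S Q₁ m = ⊥ := by
    rw [eq_bot_iff, ← hm]
    exact ser_le_lcs S Q₁ hQ₁S m
  refine Cfsg.Agent.H759.isNormal_of_chain hS hF (Q := Q) (m + 1)
    (fun i => if i ≤ m then ser S Q₁ (m - i) else Q) (by simp [hbot]) (by simp) ?_ ?_
  · intro i _
    by_cases h : i ≤ m
    · simp only [h, if_true]
      exact hsc _
    · simp only [h, if_false]
      exact hQ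
  · intro i hi
    by_cases h : i + 1 ≤ m
    · have h1 : i ≤ m := by omega
      simp only [h, h1, if_true]
      have h2 : m - i = (m - (i + 1)) + 1 := by omega
      rw [h2]
      exact Subgroup.commutator_mono hQ.1 le_rfl
    · have h1 : i = m := by omega
      subst h1
      simp only [h, if_false, le_refl, if_true, Nat.sub_self]
      exact hab

end Cfsg.Agent.S5125
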