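import Cfsg.Statements.S5153
import Cfsg.Agent.H758.Subn

set_option autoImplicit false
open Cfsg

namespace Cfsg.Agent.S5153

/-- Let F be a saturated fusion system over a finite p-group S and E a subnormal subsystem of F over T. Then every subgroup of T that is fully normalized in F is fully normalized in E. -/
theorem result {Ω : Type*} [Group Ω] {S : Subgroup Ω} [Finite S] (p : ℕ) [Fact p.Prime] (hS : IsPGroup p S) (F : Cfsg.FusionSystem S) (hF : F.IsSaturated p) {T : Subgroup Ω} (E : Cfsg.FusionSystem T) (hE : E.IsSubnormalIn F p) (P : Subgroup Ω) (hPT : P ≤ T) (hP : F.IsFullyNormalized P) : E.IsFullyNormalized P :=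
  H758.isFullyNormalized_of_subnormal hE Fact.out inferInstance hS hF hPT hP

end Cfsg.Agent.S5153
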