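import Cfsg.Statements.S5196
import Cfsg.Agent.H768.ZFunctor
import Cfsg.Agent.H768.ZPack

set_option autoImplicit false
universe u
open Cfsg

namespace Cfsg.Agent.S5196

open Cfsg.FusionSystem Cfsg.Agent.H752 Cfsg.Agent.H793 Cfsg.Agent.H768

/-- The functor on subgroups of `Ω`. -/
def wsub (W : ∀ (Q : Type u) [Group Q], Subgroup Q) {Ω : Type u} [Group Ω] (T : Subgroup Ω) :
    Subgroup Ω :=
  (W ↥T).map T.subtype

theorem mem_wsub {W : ∀ (Q : Type u) [Group Q], Subgroup Q} {Ω : Type u} [Group Ω]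
    {T : Subgroup Ω} {x : Ω} (hx : x ∈ T) : x ∈ wsub W T ↔ (⟨x, hx⟩ : T) ∈ W ↥T := by
  constructor
  · rintro ⟨y, hy, h⟩
    have : y = ⟨x, hx⟩ := Subtype.ext h
    rwa [← this]
  · intro h
    exact ⟨_, h, rfl⟩

theorem wsub_le {W : ∀ (Q : Type u) [Group Q], Subgroup Q} {Ω : Type u} [Group Ω]
    (T : Subgroup Ω) : wsub W T ≤ T := Subgroup.map_subtype_le _

theorem map_wsub {p : ℕ} {W : ∀ (Q : Type u) [Group Q], Subgroup Q}
    (hW2 : ∀ (Q R : Type u) [Group Q] [Group R] [Finite Q], IsPGroup p Q → ∀ φ : Q ≃* R,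
      (W Q).map φ.toMonoidHom = W R) {Ω Ω' : Type u} [Group Ω] [Group Ω'] {T : Subgroup Ω}
    [Finite T] (hT : IsPGroup p T) {T' : Subgroup Ω'} (e : T ≃* T') (x : T) :
    (x : Ω) ∈ wsub W T ↔ ((e x : T') : Ω') ∈ wsub W T' := by
  rw [mem_wsub x.2, mem_wsub (e x).2, ← hW2 T T' hT e]
  constructor
  · intro h
    exact ⟨x, h, rfl⟩
  · rintro ⟨y, hy, h⟩
    have : y = x := e.injective h
    rw [this] at hy
    exact hy

/-- Let p be an odd prime and W a positive characteristic p-functor: W assigns to every finite p-group Q (in a fixed universe) a subgroup W(Q), nontrivial when Q is, carried to W(R) by every isomorphism Q ≅ R; assume also Z(Q) ≤ W(Q) for every finite p-group Q. Suppose W satisfies the local condition: for every finite group G with Sylow p-subgroup P, O_p(G) ∩ Z(G) = O_p(G) ∩ Z(N_G(W(P))). Then W controls weak closure of elements in every saturated fusion system F over a finite p-group S: the centre of the normalizer fusion system of W(S) in F equals the centre of F.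 (For p = 2 no functor satisfies the local condition, so p is taken odd.) -/
theorem result {p : ℕ} [Fact p.Prime] (hp : p ≠ 2) (W : ∀ (Q : Type u) [Group Q], Subgroup Q) (hW1 : ∀ (Q : Type u) [Group Q] [Finite Q], IsPGroup p Q → Nontrivial Q → W Q ≠ ⊥) (hW2 : ∀ (Q R : Type u) [Group Q] [Group R] [Finite Q], IsPGroup p Q → ∀ φ : Q ≃* R, (W Q).map φ.toMonoidHom = W R) (hWZ : ∀ (Q : Type u) [Group Q] [Finite Q], IsPGroup p Q → Subgroup.center Q ≤ W Q) (hC : ∀ (G : Type u) [Group G] [Finite G] (P : Sylow p G), Cfsg.pCore p G ⊓ Subgroup.center G = Cfsg.pCore p G ⊓ (Subgroup.center ↥(Subgroup.normalizer (((W ↥(P : Subgroup G)).map (P : Subgroup G).subtype : Subgroup G) : Set G))).map (Subgroup.normalizer (((W ↥(P : Subgroup G)).map (P : Subgroup G).subtype : Subgroup G) : Set G)).subtype) {Ω : Type u} [Group Ω] {S : Subgroup Ω} [Finite S] (hS : IsPGroup p S) (F : Cfsg.FusionSystem S) (hF : F.IsSaturated p) (N : Cfsg.FusionSystem (Cfsg.FusionSystem.normalizerIn S ((W ↥S).map S.subtype)))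 (hN : F.IsNormalizerSystem ((W ↥S).map S.subtype) N) : N.center = F.center := by
  have hmove : ∀ (T T' : Subgroup Ω) (e : T ≃* T') (_ : Finite T) (_ : IsPGroup p T) (x : T),
      (x : Ω) ∈ wsub W T ↔ ((e x : T') : Ω) ∈ wsub W T' :=
    fun T T' e _ hT x => map_wsub hW2 hT e x
  -- `N(T) ≤ N(W(T))`
  have hWN : ∀ T ≤ S, Subgroup.normalizer (T : Set Ω) ≤ Subgroup.normalizer (wsub W T : Set Ω) := by
    intro T hT g hg
    have hfinT : Finite T := H802.finite_of_le hT
    have hTp : IsPGroup p T := hS.to_le hT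
    obtain ⟨α, hα⟩ := H802.exists_conjAut hg
    refine Subgroup.mem_normalizer_iff.2 fun y => ?_
    constructor
    · intro hy
      have h1 := (hmove T T α hfinT hTp ⟨y, wsub_le T hy⟩).1 hy
      rw [hα] at h1
      exact h1
    · intro hy
      have hgy : g * y * g⁻¹ ∈ T := wsub_le T hy
      have hyT : y ∈ T := (Subgroup.mem_normalizer_iff.1 hg y).2 hgy
      refine (hmove T T α hfinT hTp ⟨y, hyT⟩).2 ?_
      rw [hα]
      exact hy
  have hQS : wsub W S ≤ S := wsub_le S
  have hSN : S ≤ Subgroup.normalizer (wsub W S : Set Ω) :=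
    Subgroup.le_normalizer.trans (hWN S le_rfl)
  have hWx : ∀ x ∈ S ⊓ Subgroup.centralizer (S : Set Ω), ∀ T ≤ S, x ∈ T → x ∈ wsub W T := by
    intro x hx T hT hxT
    have hfinT : Finite T := H802.finite_of_le hT
    rw [mem_wsub hxT]
    refine hWZ T (hS.to_le hT) ?_
    rw [Subgroup.mem_center_iff]
    intro y
    apply Subtype.ext
    exact Subgroup.mem_centralizer_iff.1 hx.2 y (hT y.2)
  have hZ : S ⊓ Subgroup.centralizer (S : Set Ω) ≤ wsub W S := fun x hx =>
    hWx x hx S le_rfl hx.1
  apply le_antisymm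
  · intro x hxN
    obtain ⟨hx, hg⟩ := (mem_center_normalizer_iff hQS hSN hZ hN x).1 hxN
    refine mem_center_of_functor hS hF hx (wsub W) (fun T _ => wsub_le T) (hWx x hx) hWN ?_ hg ?_
    · intro f hf hfS y hy
      obtain ⟨α, hα, hfα⟩ := hf.exists_aut hfS
      have h1 := (hmove S S α inferInstance hS ⟨y, hQS hy⟩).1 hy
      rwa [← hfα] at h1
    · intro Q hQn hQc hxQ E hE L _ _ ι hm hQL hxT hJL g
      obtain ⟨P, hP⟩ := hm.2.2.1
      have hιi : Function.Injective ι := hm.2.1.1
      have hTS : normalizerIn S Q ≤ S := inf_le_left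
      have hfinT : Finite (normalizerIn S Q) := H802.finite_of_le hTS
      have hTp : IsPGroup p (normalizerIn S Q) := hS.to_le hTS
      -- `W(P)` is the image of `W(N_S(Q))`
      have hWP : wsub W (P : Subgroup L) =
          ((wsub W (normalizerIn S Q)).subgroupOf (normalizerIn S Q)).map ι := by
        rw [hP]
        ext l
        constructor
        · intro hl
          obtain ⟨t, ht⟩ := wsub_le _ hl
          refine ⟨t, ?_, ht⟩
          refine (map_wsub hW2 hTp (MonoidHom.ofInjective hιi) t).2 ?_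
          show ι t ∈ wsub W ι.range
          rw [ht]
          exact hl
        · rintro ⟨t, ht, rfl⟩
          exact (map_wsub hW2 hTp (MonoidHom.ofInjective hιi) t).1 ht
      have hcomm : ∀ t ∈ (P : Subgroup L), t * ι ⟨x, hxT⟩ = ι ⟨x, hxT⟩ * t := by
        intro t ht
        rw [hP] at ht
        obtain ⟨s, rfl⟩ := ht
        rw [← map_mul, ← map_mul]
        congr 1
        apply Subtype.ext
        exact Subgroup.mem_centralizer_iff.1 hx.2 s (hTS s.2)
      have hxcore : ι ⟨x, hxT⟩ ∈ pCore p L := by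
        refine hm.2.2.2 (Subgroup.mem_centralizer_iff.2 fun u hu => ?_)
        exact hcomm u (Cfsg.Agent.Lib.Cores.pCore_le_sylow P hu)
      have key : ι ⟨x, hxT⟩ ∈ pCore p L ⊓ Subgroup.center L := by
        rw [hC L P]
        refine ⟨hxcore, ?_⟩
        have hxnorm : ι ⟨x, hxT⟩ ∈
            Subgroup.normalizer ((wsub W (P : Subgroup L) : Subgroup L) : Set L) := by
          apply Subgroup.le_normalizer
          rw [hWP]
          exact ⟨⟨x, hxT⟩, hWx x hx _ hTS hxT, rfl⟩
        refine ⟨⟨ι ⟨x, hxT⟩, hxnorm⟩, ?_, rfl⟩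
        rw [SetLike.mem_coe, Subgroup.mem_center_iff]
        rintro ⟨h, hh⟩
        apply Subtype.ext
        refine hJL h ?_
        rw [← hWP]
        exact hh
      exact Subgroup.mem_center_iff.1 key.2 g
  · exact center_le_center_normalizer hQS hSN hZ hN

end Cfsg.Agent.S5196
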