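import Cfsg.Statements.S5199
import Cfsg.Agent.H747.Hyperfocal
import Cfsg.Agent.H802.FusAlp

set_option autoImplicit false
open Cfsg

namespace Cfsg.Agent.S5199

open Cfsg.FusionSystem Cfsg.Agent.H802 Cfsg.Agent.H747

variable {Ω : Type*} [Group Ω] {S : Subgroup Ω}

/-- The restriction of a fusion system over `U` to a subgroup `T` of `U`: the maps between subgroups of `T`. -/
def restrictTo {U T : Subgroup Ω} (F : FusionSystem U) (hTU : T ≤ U) : FusionSystem T where
  Hom P := {φ | φ ∈ F.Hom P ∧ P ≤ T ∧ ∀ x : P, φ x ∈ T}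
  le_of_mem h := ⟨h.2.1, h.2.2⟩
  injective_of_mem h := F.injective_of_mem h.1
  conj_mem := by
    intro P g hP hg
    refine ⟨F.conj_mem (hP.trans hTU) (hTU hg), hP, fun x => ?_⟩
    exact T.mul_mem (T.mul_mem hg (hP x.2)) (T.inv_mem hg)
  comp_mem := by
    intro P Q φ ψ hφ hψ h
    exact ⟨F.comp_mem hφ.1 hψ.1 h, hφ.2.1, fun x => hψ.2.2 _⟩
  inv_mem := by
    intro P φ hφ
    obtain ⟨ψ, hψ, he⟩ := F.inv_mem hφ.1
    refine ⟨ψ, ⟨hψ, ?_, ?_⟩, he⟩
    · rintro _ ⟨x, rfl⟩
      exact hφ.2.2 x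
    · rintro ⟨_, x, rfl⟩
      rw [he x]
      exact hφ.2.1 x.2

/-- Let F be a saturated fusion system over a finite p-group S, E a normal subsystem of F over T, and F₀ a normal subsystem of F over a subgroup U containing both T and the hyperfocal subgroup of F, such that F₀ has p-power index in F. Then E is a subsystem of F₀. -/
theorem result {Ω : Type*} [Group Ω] {S : Subgroup Ω} [Finite S] (p : ℕ) [Fact p.Prime] (hS : IsPGroup p S) (F : Cfsg.FusionSystem S) (hF : F.IsSaturated p) {T U : Subgroup Ω} (E : Cfsg.FusionSystem T) (hE : E.IsNormalIn F p) (F₀ : Cfsg.FusionSystem U) (hF₀ : F₀.IsNormalIn F p) (hU : T ⊔ F.hyperfocalSubgroup p ≤ U) (hidx : F₀.HasPPowerIndexIn F p) : E.IsSubsystemOf F₀ := by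
  have hTS : T ≤ S := hE.1.2.2.2.1.1
  have hTU : T ≤ U := le_sup_left.trans hU
  have hTfin : Finite T := finite_of_le hTS
  have hTp : IsPGroup p T := IsPGroup.of_injective hS (Subgroup.inclusion hTS) (Subgroup.inclusion_injective hTS)
  have hES : E.IsSaturated p := hE.1.1
  have hsub : E.IsSubsystemOf F := hE.1.2.2.1
  have hle : ∀ P : Subgroup Ω, E.Hom P ⊆ (restrictTo F₀ hTU).Hom P := by
    refine le_of_autGroup_le hTp hES (restrictTo F₀ hTU) (fun Q hQ _ => ?_)
    have hQT : Q ≤ T := hQ.1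
    have hQU : Q ≤ U := hQT.trans hTU
    have hEF : E.autGroup Q ≤ F.autGroup Q := by
      intro α hα
      exact (mem_autGroup_iff F (hQT.trans hTS) α).2 (hsub Q ((mem_autGroup_iff E hQT α).1 hα))
    have hres : ∀ β : E.autGroup Q, β ∈ pResidual p (E.autGroup Q) → (β : MulAut Q) ∈ F₀.autGroup Q := by
      intro β hβ
      refine hidx.2.2 Q hQU ?_
      refine Subgroup.closure_induction
        (p := fun (β : E.autGroup Q) _ => (β : MulAut Q) ∈ (pResidual p ↥(F.autGroup Q)).map (F.autGroup Q).subtype)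
        ?_ ?_ ?_ ?_ hβ
      · intro β hβ
        refine ⟨⟨β, hEF β.2⟩, Subgroup.subset_closure ?_, rfl⟩
        show (orderOf (⟨β, hEF β.2⟩ : F.autGroup Q)).Coprime p
        rw [Subgroup.orderOf_mk]
        have : (orderOf β).Coprime p := hβ
        rwa [← Subgroup.orderOf_coe] at this
      · exact Subgroup.one_mem _
      · intro a b _ _ ha hb
        exact Subgroup.mul_mem _ ha hb
      · intro a _ ha
        exact Subgroup.inv_mem _ ha
    intro α hα
    obtain ⟨β, hβ, γ, hγ, rfl⟩ := exists_mul_mem_residual (isFullyAutomized_of_isFullyNormalized hTp hES hQ) hα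
    have h1 : (β : MulAut Q) ∈ F₀.autGroup Q := hres β hβ
    obtain ⟨g, hg, hge⟩ := (mem_autInducedBy_iff T Q γ).1 hγ
    have h2 : γ ∈ F₀.autGroup Q := by
      rw [mem_autGroup_iff F₀ hQU]
      exact mem_of_apply_eq (F₀.conj_mem hQU (hTU hg)) hge
    have h3 := (mem_autGroup_iff F₀ hQU _).1 (Subgroup.mul_mem _ h1 h2)
    rw [mem_autGroup_iff _ hQT]
    exact ⟨h3, hQT, fun x => hQT (((β : MulAut Q) * γ) x).2⟩
  intro P φ hφ
  exact (hle P hφ).1

end Cfsg.Agent.S5199
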