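import Cfsg.Statements.S5201
import Cfsg.Agent.H770.StepE

set_option autoImplicit false
open Cfsg

namespace Cfsg.Agent.S5201

/-- A reduction to normal subsystems. Let F be a saturated fusion system over a finite p-group S and E a normal subsystem of F over T whose centralizer in S lies in T (every subgroup Y of C_S(T) with E contained in the centralizer fusion system of Y in F satisfies Y ≤ T), and suppose Aut_F(T)/Aut_E(T) is p-solvable. Then F and E have the same residual limit: if F∞ is the residual limit of F (reached by alternately passing to the p-residual and the p'-residual subsystem until nothing changes) and E∞ that of E, then F∞ and E∞ have the same maps. -/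
theorem result {Ω : Type*} [Group Ω] {S : Subgroup Ω} [Finite S] (p : ℕ) [Fact p.Prime] (hS : IsPGroup p S) (F : Cfsg.FusionSystem S) (hF : F.IsSaturated p) {T : Subgroup Ω} (E : Cfsg.FusionSystem T) (hE : E.IsNormalIn F p) (hCE : ∀ Y : Subgroup Ω, Y ≤ Cfsg.FusionSystem.centralizerIn S T → (∀ C : Cfsg.FusionSystem (Cfsg.FusionSystem.centralizerIn S Y), F.IsCentralizerSystem Y C → E.IsSubsystemOf C) → Y ≤ T) [hn : ((E.autGroup T).subgroupOf (F.autGroup T)).Normal] (hsolv : Cfsg.IsPSolvable p (↥(F.autGroup T) ⧸ (E.autGroup T).subgroupOf (F.autGroup T))) {U V : Subgroup Ω} (Finf : Cfsg.FusionSystem U) (hFinf : Finf.IsResidualLimitOf F p) (Einf : Cfsg.FusionSystem V) (hEinf : Einf.IsResidualLimitOf E p) : ∀ P : Subgroup Ω, Finf.Hom P = Einf.Hom P := by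
  obtain ⟨F₀, h⟩ := Cfsg.Agent.H770.Step.exists_of_pSolvable hS hE hsolv
  have hfin : Finite (T ⊔ Cfsg.FusionSystem.centralizerIn S T : Subgroup Ω) :=
    Cfsg.Agent.H802.finite_of_le h.US
  have hUp : IsPGroup p (T ⊔ Cfsg.FusionSystem.centralizerIn S T : Subgroup Ω) := hS.to_le h.US
  have hC : Cfsg.Agent.H792.centLargest F E p ≤ T := by
    refine hCE _ (Cfsg.Agent.H792.centLargest_le F E p) fun C hC P => ?_
    rw [hC P]
    exact Cfsg.Agent.H792.hom_subset_centralizerHom_centLargest hS hE P
  have hidx := h.ppowerIndex hS hC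
  obtain ⟨V₀, L₀, hL₀⟩ := Cfsg.Agent.H770.exists_limit' hUp h.Gs
  intro P
  exact (h.limit Finf L₀ hFinf hL₀ P).trans
    (Cfsg.Agent.H770.limit_ppow hUp h.Gs hE.1.1 hidx hL₀ hEinf P)

end Cfsg.Agent.S5201
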