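import Cfsg.Statements.S5202
import Cfsg.Agent.H770.StepD

set_option autoImplicit false
open Cfsg

namespace Cfsg.Agent.S5202

/-- Let F be a saturated fusion system over a finite p-group S and E a normal subsystem of F over T such that Aut_F(T)/Aut_E(T) is p-solvable. Then there is a normal subsystem F₀ of F over T·C_S(T) containing E, with Aut_{F₀}(T) = Aut_E(T), containing every residual limit of F, and whose residual limits have the same maps as those of F. -/
theorem result {Ω : Type*} [Group Ω] {S : Subgroup Ω} [Finite S] (p : ℕ) [Fact p.Prime] (hS : IsPGroup p S) (F : Cfsg.FusionSystem S) (hF : F.IsSaturated p) {T : Subgroup Ω} (E : Cfsg.FusionSystem T) (hE : E.IsNormalIn F p) [hn : ((E.autGroup T).subgroupOf (F.autGroup T)).Normal] (hsolv : Cfsg.IsPSolvable p (↥(F.autGroup T) ⧸ (E.autGroup T).subgroupOf (F.autGroup T))) : ∃ F₀ : Cfsg.FusionSystem (T ⊔ Cfsg.FusionSystem.centralizerIn S T), F₀.IsNormalIn F p ∧ E.IsSubsystemOf F₀ ∧ F₀.autGroup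 T = E.autGroup T ∧ ∀ {U : Subgroup Ω} (Finf : Cfsg.FusionSystem U), Finf.IsResidualLimitOf F p → Finf.IsSubsystemOf F₀ ∧ ∀ {V : Subgroup Ω} (L : Cfsg.FusionSystem V), L.IsResidualLimitOf F₀ p → ∀ P : Subgroup Ω, L.Hom P = Finf.Hom P := by
  obtain ⟨F₀, h⟩ := Cfsg.Agent.H770.Step.exists_of_pSolvable hS hE hsolv
  refine ⟨F₀, h.norm, h.EG, h.aut, ?_⟩
  intro U Finf hFinf
  have hfin : Finite (T ⊔ Cfsg.FusionSystem.centralizerIn S T : Subgroup Ω) :=
    Cfsg.Agent.H802.finite_of_le h.US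
  obtain ⟨V₀, L₀, hL₀⟩ := Cfsg.Agent.H770.exists_limit' (hS.to_le h.US) h.Gs
  refine ⟨fun P => ?_, fun {V} L hL P => (h.limit Finf L hFinf hL P).symm⟩
  rw [h.limit Finf L₀ hFinf hL₀ P]
  exact Cfsg.Agent.H770.limit_sub hL₀ P

end Cfsg.Agent.S5202
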