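import Cfsg.Statements.S5214
import Cfsg.Agent.S1137
import Cfsg.Agent.S1138
import Cfsg.Agent.H759.FusNormal

set_option autoImplicit false
open Cfsg

namespace Cfsg.Agent.S5214

/-- Let S be a Suzuki 2-group (a finite nonabelian 2-group with more than one involution admitting a cyclic group of automorphisms permuting its involutions regularly). Then S is normal in every saturated fusion system over S (such a group is resistant). -/
theorem result {Ω : Type*} [Group Ω] {S : Subgroup Ω} [Finite S] (hS : IsPGroup 2 S) (F : Cfsg.FusionSystem S) (hF : F.IsSaturated 2) (hsz : Cfsg.IsSuzukiTwoGroup ↥S) : F.IsNormal S := by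
  classical
  have : Fact (Nat.Prime 2) := ⟨Nat.prime_two⟩
  obtain ⟨h1, h2⟩ := Cfsg.Agent.S1137.result hsz
  obtain ⟨-, h3, -, -⟩ := Cfsg.Agent.S1138.result hsz
  let Z : Subgroup Ω := (Subgroup.center S).map S.subtype
  have hZS : Z ≤ S := Subgroup.map_subtype_le _
  have hmem : ∀ (x : Ω) (hx : x ∈ S), x ∈ Z ↔ x * x = 1 := by
    intro x hx
    constructor
    · rintro ⟨y, hy, rfl⟩
      have := h2 y hy
      exact congrArg Subtype.val this
    · intro hxx
      by_cases hx1 : x = 1
      · rw [hx1]; exact Z.one_mem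
      refine ⟨⟨x, hx⟩, ?_, rfl⟩
      exact ((h1 ⟨x, hx⟩).1 ⟨fun h => hx1 (congrArg Subtype.val h), Subtype.ext hxx⟩).1
  have hsc : F.StronglyClosed Z := by
    refine ⟨hZS, fun R hR φ hφ x => ?_⟩
    have hφx := (F.le_of_mem hφ).2 x
    rw [hmem _ hφx]
    have h4 : (x : Ω) * x = 1 := (hmem _ (hZS (hR x.2))).1 (hR x.2)
    have h5 : x * x = 1 := Subtype.ext h4
    rw [← map_mul, h5, map_one]
  refine Cfsg.Agent.H759.isNormal_of_chain hS hF 2
    (fun i => if i = 0 then ⊥ else if i = 1 then Z else S) (by simp) (by simp) ?_ ?_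
  · intro i hi
    interval_cases i
    · simpa using Cfsg.Agent.H759.StronglyClosed.bot
    · simpa using hsc
    · simpa using Cfsg.Agent.H759.StronglyClosed.top
  · intro i hi
    interval_cases i
    · simp only [zero_add, one_ne_zero, if_false, if_true]
      rw [Subgroup.commutator_le]
      rintro g hg _ ⟨y, hy, rfl⟩
      rw [Subgroup.mem_bot, commutatorElement_eq_one_iff_mul_comm]
      have := Subgroup.mem_center_iff.1 hy ⟨g, hg⟩
      exact congrArg Subtype.val this
    · simp only [one_ne_zero, if_false, if_true]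
      rw [Subgroup.commutator_le]
      intro g hg k hk
      refine ⟨_, h3 (⟨g, hg⟩⁻¹) (⟨k, hk⟩⁻¹), ?_⟩
      simp [commutatorElement_def]

end Cfsg.Agent.S5214
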