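import Cfsg.Statements.S5219
import Cfsg.Agent.H774.ExpBound

set_option autoImplicit false
open Cfsg

namespace Cfsg.Agent.S5219

/-- Let p be a prime, n a natural number, S a nontrivial finite p-group of nilpotence class at most n(p−1)+1, and F a saturated fusion system over S with no nontrivial normal subgroup (O_p(F) = 1). Then S has exponent dividing p^(n²(p−1)+n). -/
theorem result {Ω : Type*} [Group Ω] {S : Subgroup Ω} [Finite S] (p : ℕ) [Fact p.Prime] (hS : IsPGroup p S) (F : Cfsg.FusionSystem S) (hF : F.IsSaturated p) (n : ℕ) (hS1 : S ≠ ⊥) (hcl : Subgroup.lowerCentralSeries S (n * (p - 1) + 1) = ⊥) (hcore : F.core = ⊥) : Monoid.exponent ↥S ∣ p ^ (n ^ 2 * (p - 1) + n) := by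
  exact Cfsg.Agent.H774.exponent_dvd_of_class hS hF n hcl hcore

end Cfsg.Agent.S5219
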