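import Cfsg.Statements.S5222
import Cfsg.Agent.H747.FocQuot
import Cfsg.Agent.H747.MonoOfBiset
import Cfsg.Agent.S5096
import Cfsg.Agent.S5098

set_option autoImplicit false
open Cfsg

namespace Cfsg.Agent.S5222

open Cfsg.FusionSystem Cfsg.Agent.H802 Cfsg.Agent.H747
open scoped commutatorElement

/-- If the normalizer system of `S` is inner then the maps with source `S` are conjugations by elements of `S`. -/
theorem hom_S {Ω : Type*} [Group Ω] {S : Subgroup Ω} [Finite S] (F : FusionSystem S)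
    (hN : ∀ N : FusionSystem (normalizerIn S S), F.IsNormalizerSystem S N →
      ∀ P : Subgroup Ω, N.Hom P = (innerFusionSystem (normalizerIn S S)).Hom P)
    (φ : S →* Ω) (hφ : φ ∈ F.Hom S) : ∃ g ∈ S, ∀ x : S, φ x = g * (x : Ω) * g⁻¹ := by
  obtain ⟨N, hNF⟩ := Cfsg.Agent.S5096.result F S le_rfl
  have hSN : S ≤ normalizerIn S S := le_inf le_rfl Subgroup.le_normalizer
  have hmem : φ ∈ N.Hom S := by
    rw [hNF S, Cfsg.Agent.S5096.mem_normalizerHom_iff]
    refine ⟨hφ, hSN, fun x => hSN (hom_apply_mem hφ x), ?_⟩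
    have hle : S ⊔ S ≤ S := sup_le le_rfl le_rfl
    refine ⟨φ.comp (Subgroup.inclusion hle), restrict_mem hφ hle, fun x => rfl, fun x hx =>
      hom_apply_mem hφ _, fun y hy => ?_⟩
    have hr := range_eq_of_mapsTo hφ (fun x => hom_apply_mem hφ x)
    rw [← hr] at hy
    obtain ⟨x, rfl⟩ := hy
    exact ⟨x, x.2, rfl⟩
  rw [hN N hNF S] at hmem
  obtain ⟨-, g, hg, hge⟩ := hmem
  exact ⟨g, hg.1, hge⟩

/-- Let F be a saturated fusion system over a finite p-group S whose normalizer fusion system of S is the inner fusion system of S (Aut_F(S) is a p-group). Then for every subgroup Q of S with [S, S] ≤ Q ≤ Φ(S), the normalizer fusion system of Q in F is the inner fusion system of N_S(Q) = S. -/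
theorem result {Ω : Type*} [Group Ω] {S : Subgroup Ω} [Finite S] (p : ℕ) [Fact p.Prime] (hS : IsPGroup p S) (F : Cfsg.FusionSystem S) (hF : F.IsSaturated p) (hN : ∀ N : Cfsg.FusionSystem (Cfsg.FusionSystem.normalizerIn S S), F.IsNormalizerSystem S N → ∀ P : Subgroup Ω, N.Hom P = (Cfsg.innerFusionSystem (Cfsg.FusionSystem.normalizerIn S S)).Hom P) (Q : Subgroup Ω) (h1 : (commutator ↥S).map S.subtype ≤ Q) (h2 : Q ≤ (frattini ↥S).map S.subtype) : ∀ N : Cfsg.FusionSystem (Cfsg.FusionSystem.normalizerIn S Q), F.IsNormalizerSystem Q N → ∀ P : Subgroup Ω, N.Hom P = (Cfsg.innerFusionSystem (Cfsg.FusionSystem.normalizerIn S Q)).Hom P := by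
  intro N hNQ P
  have hQS : Q ≤ S := h2.trans (Subgroup.map_subtype_le _)
  have hcomm : ⁅(S : Subgroup Ω), (S : Subgroup Ω)⁆ ≤ Q := by
    refine le_trans ?_ h1
    rw [Subgroup.commutator_le]
    intro a ha b hb
    exact ⟨⁅(⟨a, ha⟩ : S), (⟨b, hb⟩ : S)⁆,
      Subgroup.commutator_mem_commutator (Subgroup.mem_top _) (Subgroup.mem_top _), rfl⟩
  have hSQ : S ≤ Subgroup.normalizer (Q : Set Ω) := by
    rw [Subgroup.le_normalizer_iff]
    intro s hs q hq
    have h3 := hcomm (Subgroup.commutator_mem_commutator hs (hQS hq))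
    have h4 := Q.mul_mem h3 hq
    have h5 : ⁅s, q⁆ * q = s * q * s⁻¹ := by rw [commutatorElement_def]; group
    rwa [h5] at h4
  have hS' : normalizerIn S Q = S := inf_eq_left.2 hSQ
  have hQn : F.IsFullyNormalized Q := by
    refine ⟨hQS, fun R _ => ?_⟩
    rw [hS']
    exact Subgroup.card_le_of_le inf_le_left
  have hNsat : N.IsSaturated p := Cfsg.Agent.S5098.result p hS F hF Q hQn N hNQ
  have hSp : IsPGroup p (normalizerIn S Q) := by rw [hS']; exact hS
  have hfin : Finite (normalizerIn S Q) := finite_of_le inf_le_left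
  have hcl : N.StronglyClosed Q := by
    refine ⟨hS'.symm ▸ hQS, fun R hR φ hφ x => ?_⟩
    rw [hNQ R, Cfsg.Agent.S5096.mem_normalizerHom_iff] at hφ
    obtain ⟨-, -, -, ψ, -, hψ, hψQ, -⟩ := hφ
    rw [← hψ x]
    exact hψQ x (hR x.2)
  have hfoc : N.focalSubgroup ≤ Q := by
    refine focal_le_of_stronglyClosed hSp hNsat hcl ?_ ?_
    · refine le_trans ?_ hcomm
      exact Subgroup.commutator_mono inf_le_left inf_le_left
    · intro φ hφ x
      rw [hNQ] at hφ
      have hφF := hφ.1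
      have hle : S ≤ normalizerIn S Q := hS'.ge
      obtain ⟨g, hg, hge⟩ := hom_S F hN (φ.comp (Subgroup.inclusion hle)) (restrict_mem hφF hle)
      have hxS : (x : Ω) ∈ S := x.2.1
      have h3 : φ x = g * (x : Ω) * g⁻¹ := hge ⟨x, hxS⟩
      rw [h3]
      have h4 : (x : Ω)⁻¹ * (g * (x : Ω) * g⁻¹) = ⁅(x : Ω)⁻¹, g⁆ := by
        rw [commutatorElement_def]; group
      rw [h4]
      exact hcomm (Subgroup.commutator_mem_commutator (S.inv_mem hxS) hg)
  have hfr : (frattini ↥(normalizerIn S Q)).map (normalizerIn S Q).subtype =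
      (frattini ↥S).map S.subtype := by rw [hS']
  exact hom_eq_inner_of_focal_le_frattini hSp hNsat (hfr ▸ hfoc.trans h2) P

end Cfsg.Agent.S5222
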