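import Cfsg.Statements.S5225
import Cfsg.Agent.H747.Yoshida
import Cfsg.Agent.S5096
import Cfsg.Agent.S5098

set_option autoImplicit false
open Cfsg

namespace Cfsg.Agent.S5225

open Cfsg.FusionSystem Cfsg.Agent.H802 Cfsg.Agent.H747

theorem aux {Ω : Type*} [Group Ω] {S S' : Subgroup Ω} (h : S' = S) [Finite S] {p : ℕ} [Fact p.Prime]
    (hS : IsPGroup p S) (F : FusionSystem S) (hF : F.IsSaturated p) (N : FusionSystem S')
    (hN : N.IsSaturated p) (hle : ∀ P, N.Hom P ⊆ F.Hom P) (hHS : F.Hom S ⊆ N.Hom S)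
    (hne : N.focalSubgroup ≠ F.focalSubgroup) :
    ∃ (W : Sylow p (Equiv.Perm (Fin (p ^ 2))))
      (f : ↥S →* ↥(W : Subgroup (Equiv.Perm (Fin (p ^ 2))))), Function.Surjective f := by
  subst h
  exact yoshida hS hF hN hle hHS hne

/-- Yoshida's Theorem for fusion systems. Let F be a saturated fusion system over a finite p-group S and N the normalizer fusion system of S in F. If the focal subgroups of F and N differ (N does not control transfer in F), then S has a quotient isomorphic to the wreath product C_p ≀ C_p (realised as a Sylow p-subgroup of the symmetric group of degree p²). -/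
theorem result {Ω : Type*} [Group Ω] {S : Subgroup Ω} [Finite S] (p : ℕ) [Fact p.Prime] (hS : IsPGroup p S) (F : Cfsg.FusionSystem S) (hF : F.IsSaturated p) (N : Cfsg.FusionSystem (Cfsg.FusionSystem.normalizerIn S S)) (hN : F.IsNormalizerSystem S N) (hne : N.focalSubgroup ≠ F.focalSubgroup) : ∃ (W : Sylow p (Equiv.Perm (Fin (p ^ 2)))) (f : ↥S →* ↥(W : Subgroup (Equiv.Perm (Fin (p ^ 2))))), Function.Surjective f := by
  have hS' : normalizerIn S S = S := inf_eq_left.2 Subgroup.le_normalizer
  have hfn : F.IsFullyNormalized S := ⟨le_rfl, fun R _ => by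
    rw [hS']
    exact Subgroup.card_le_of_le inf_le_left⟩
  have hNsat : N.IsSaturated p := Cfsg.Agent.S5098.result p hS F hF S hfn N hN
  refine aux hS' hS F hF N hNsat (fun P φ hφ => ?_) (fun φ hφ => ?_) hne
  · rw [hN P, Cfsg.Agent.S5096.mem_normalizerHom_iff] at hφ
    exact hφ.1
  · have hSN : S ≤ normalizerIn S S := hS'.ge
    rw [hN S, Cfsg.Agent.S5096.mem_normalizerHom_iff]
    refine ⟨hφ, hSN, fun x => hSN (hom_apply_mem hφ x), ?_⟩
    have hle : S ⊔ S ≤ S := sup_le le_rfl le_rfl
    refine ⟨φ.comp (Subgroup.inclusion hle), restrict_mem hφ hle, fun x => rfl, fun x hx =>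
      hom_apply_mem hφ _, fun y hy => ?_⟩
    have hr := range_eq_of_mapsTo hφ (fun x => hom_apply_mem hφ x)
    rw [← hr] at hy
    obtain ⟨x, rfl⟩ := hy
    exact ⟨x, x.2, rfl⟩

end Cfsg.Agent.S5225
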