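import Cfsg.Statements.S5226
import Cfsg.Agent.H776.FusNormalW

set_option autoImplicit false
open Cfsg

namespace Cfsg.Agent.S5226

/-- Let F be a saturated fusion system over a finite p-group S and Q a subgroup of S. Then Q is normal in F (F equals the normalizer system of Q) if and only if Q is strongly closed in F and admits a central series 1 = Q₀ ≤ Q₁ ≤ ⋯ ≤ Qₙ = Q ([Qᵢ₊₁, Q] ≤ Qᵢ) all of whose proper terms are weakly closed in F. -/
theorem result {Ω : Type*} [Group Ω] {S : Subgroup Ω} [Finite S] (p : ℕ) [Fact p.Prime] (hS : IsPGroup p S) (F : Cfsg.FusionSystem S) (hF : F.IsSaturated p) (Q : Subgroup Ω) : F.IsNormal Q ↔ F.StronglyClosed Q ∧ ∃ (n : ℕ) (C : Fin (n + 1) → Subgroup Ω), C 0 = ⊥ ∧ C (Fin.last n) = Q ∧ Monotone C ∧ (∀ i : Fin n, ⁅C i.succ, Q⁆ ≤ C i.castSucc) ∧ ∀ i : Fin n, F.WeaklyClosed (C i.castSucc) := by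
  constructor
  · intro hQ
    obtain ⟨n, C, h0, hn, hm, hc, hs⟩ := Cfsg.Agent.H776.IsNormal.exists_series hS hQ
    exact ⟨Cfsg.Agent.H759.IsNormal.stronglyClosed hQ, n, C, h0, hn, hm, hc,
      fun i => Cfsg.Agent.H776.StronglyClosed.weaklyClosed (hs _)⟩
  · rintro ⟨hQ, n, C, h0, hn, hm, hc, hw⟩
    refine Cfsg.Agent.H776.isNormal_of_weak_chain hS hF hQ n
      (fun i => if h : i < n + 1 then C ⟨i, h⟩ else Q) ?_ ?_ ?_ ?_ ?_
    · simpa using h0
    · simpa [Fin.last] using hn
    · intro i hi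
      have h : i < n + 1 := by omega
      simp only [h, dif_pos]
      rw [← hn]
      exact hm (Fin.le_last _)
    · intro i hi
      have h : i < n + 1 := by omega
      simp only [h, dif_pos]
      exact hw ⟨i, hi⟩
    · intro i hi
      have h : i < n + 1 := by omega
      have h' : i + 1 < n + 1 := by omega
      simp only [h, h', dif_pos]
      rw [Subgroup.commutator_comm]
      exact hc ⟨i, hi⟩

end Cfsg.Agent.S5226
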