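import Cfsg.Statements.S5235
import Cfsg.Agent.H745.MetaTwoFus

set_option autoImplicit false
open Cfsg

namespace Cfsg.Agent.S5235

/-- Let F be a saturated fusion system over a finite 2-group S (p = 2) and P a metacyclic subgroup of S strongly closed in F that is not dihedral, not semidihedral and not generalized quaternion (here the group of order 2, the Klein four-group and the cyclic group of order 4 also count as excluded). Then P is normal in F. -/
theorem result {Ω : Type*} [Group Ω] {S : Subgroup Ω} [Finite S] (p : ℕ) [Fact p.Prime] (hS : IsPGroup p S) (F : Cfsg.FusionSystem S) (hF : F.IsSaturated p) (P : Subgroup Ω) (hP : F.StronglyClosed P) (hp : p = 2) (hm : Cfsg.IsMetacyclic ↥P) (hd : ¬ ∃ m : ℕ, Nonempty (↥P ≃* DihedralGroup m)) (hq : ¬ ∃ m : ℕ, Nonempty (↥P ≃* QuaternionGroup m)) (hsd : ¬ Cfsg.IsQuasiDihedral ↥P) : F.IsNormal P := by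
  subst hp
  obtain ⟨N, hN, hNc, hQc⟩ := hm
  have hfP : Finite P := Finite.of_injective _ (Subgroup.inclusion_injective hP.1)
  have hB : ∀ y ∈ N, ∀ g : P, y ^ 4 = 1 → g * g ∈ N → g * y * g⁻¹ = y := by
    intro y hy g hy4 hg
    by_contra hne
    rcases H745.MetaTwo.dihedral_or_of_invert (hS.to_le hP.1) N hy hy4 hg hne with h | h | h
    · exact hd h
    · exact hq h
    · exact hsd h
  by_cases hab : ∀ x y : P, x * y = y * x
  · refine H759.isNormal_of_abelian hS hF hP ?_
    rw [Subgroup.commutator_eq_bot_iff_le_centralizer]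
    intro x hx
    rw [Subgroup.mem_centralizer_iff]
    intro y hy
    exact congrArg Subtype.val (hab ⟨y, hy⟩ ⟨x, hx⟩)
  · refine H745.isNormal_of_coprime hS hF hP ?_
    intro R hRa hRr hPR κ hκ _ m hm hκm x hx
    by_contra hne
    exact hab (H745.MetaTwo.comm_of_strongly_closed hS hF hP N hB hRa.1 hκ hm hκm hx hne)

end Cfsg.Agent.S5235
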