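import Cfsg.Statements.S5237
import Cfsg.Agent.H771.FunctorQd
import Cfsg.Agent.H782.QdIff
import Cfsg.Agent.TwoFusion.S4FreeFunctor
import Cfsg.Agent.S2761

set_option autoImplicit false
open Cfsg

universe u

namespace Cfsg.Agent.S5237

open Cfsg.Agent.TwoFusion.S4FreeFunctor

theorem s4Free_of_qd {L : Type u} [Group L] (h : ¬ Cfsg.Involves ↥(Cfsg.qd 2) L) : S4Free L := by
  rintro ⟨K, R, hR, ⟨e⟩⟩
  obtain ⟨e'⟩ := Cfsg.Agent.S2761.result
  exact h ⟨K, R, hR, ⟨e.trans e'.symm⟩⟩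

theorem involves_of_qd {L : Type u} [Group L] (h : Cfsg.Involves ↥(Cfsg.qd 2) L) :
    Cfsg.Involves (Equiv.Perm (Fin 4)) L := by
  obtain ⟨K, R, hR, ⟨e⟩⟩ := h
  obtain ⟨e'⟩ := Cfsg.Agent.S2761.result
  exact ⟨K, R, hR, ⟨e.trans e'⟩⟩

theorem ws_ne_bot {Q : Type u} [Group Q] [Finite Q] (hQ : IsPGroup 2 Q) (hnt : Nontrivial Q) :
    WS Q ≠ ⊥ := by
  intro hW
  obtain ⟨W, hW1, hW2, hW3⟩ := Cfsg.Agent.S0665.result (S := Q) hQ
  apply hW1
  have h2 : W ≤ WS Q := le_sSup ⟨hW2, hW3⟩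
  rw [hW] at h2
  exact le_bot_iff.1 h2

/-- Let S be a nontrivial finite 2-group (p = 2). Then S has a nontrivial characteristic subgroup W that is normal in every saturated fusion system over S that is S₄-free (the symmetric group of degree 4 is not involved in any model of the normalizer system of a fully normalized centric subgroup). -/
theorem result {Ω : Type*} [Group Ω] {S : Subgroup Ω} [Finite S] (hS : IsPGroup 2 S) (hS1 : S ≠ ⊥) : ∃ W : Subgroup Ω, W ≤ S ∧ W ≠ ⊥ ∧ (W.subgroupOf S).Characteristic ∧ ∀ F : Cfsg.FusionSystem S, F.IsSaturated 2 → F.IsSectionFree 2 (Equiv.Perm (Fin 4)) → F.IsNormal W := by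
  refine ⟨Wf S, Wf_le S, ?_, ?_, fun F hF hfree => ?_⟩
  · intro h
    have : Nontrivial S := (Subgroup.nontrivial_iff_ne_bot S).2 hS1
    exact ws_ne_bot hS this ((Subgroup.map_eq_bot_iff_of_injective _ S.subtype_injective).1 h)
  · have h1 : (Wf S).subgroupOf S = WS S := by
      rw [Wf, Subgroup.subgroupOf, Subgroup.comap_map_eq_self_of_injective S.subtype_injective]
    rw [h1]
    exact (good_WS S).1
  · refine H771.functor_isNormal (p := 2) (fun Q _ => WS Q) ?_ ?_ ?_ hS F hF ?_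
    · intro Q _ _ hQ hnt
      exact ws_ne_bot hQ hnt
    · intro Q R _ _ _ _ φ
      exact map_WS φ
    · intro L _ _ P hC hq
      exact Wf_normal (s4Free_of_qd hq) hC P
    · rw [← H782.QdIff.isSectionFree_qd_iff hS hF]
      intro Q hQ hQc N hN L _ ι hι hinv
      exact hfree Q hQ hQc N hN L ι hι (involves_of_qd hinv)

end Cfsg.Agent.S5237
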