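import Cfsg.Statements.S5249
import Cfsg.Agent.Walter.GlaubermanFusion
import Cfsg.Agent.H782.StabCore

set_option autoImplicit false
open Cfsg

namespace Cfsg.Agent.S5249

open Cfsg.FusionSystem Cfsg.Agent.H802 Cfsg.Agent.H782

/-- Let p be an odd prime, G a finite group in which Qd(p) (the natural semidirect product of an elementary abelian group of order p² by SL₂(p)) is not involved, and P a Sylow p-subgroup of G. Then the fusion system of G on P is a solvable fusion system. -/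
theorem result {G : Type*} [Group G] [Finite G] {p : ℕ} [Fact p.Prime] (hp : p ≠ 2) (hqd : ¬ Cfsg.Involves ↥(Cfsg.qd p) G) (P : Sylow p G) : (Cfsg.groupFusionSystem (P : Subgroup G)).IsSolvableSystem := by
  intro R hR hRne _ E hE
  obtain ⟨hRP, hker, -, hEH⟩ := hE
  have hqd' : ¬ Lib.Involves.Involves G ↥(Cfsg.qd p) :=
    fun h => hqd (Lib.Involves.involves_iff.1 h)
  set θ : (P : Subgroup G) →* (P : Subgroup G) ⧸ R.subgroupOf (P : Subgroup G) :=
    QuotientGroup.mk' (R.subgroupOf (P : Subgroup G)) with hθ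
  set N : Subgroup G := Subgroup.normalizer (R : Set G) with hN
  have hPN : (P : Subgroup G) ≤ N := le_normalizer_of_stronglyClosed hR
  have hRN : R ≤ N := Subgroup.le_normalizer
  have hRNn : (R.subgroupOf N).Normal := Subgroup.normal_in_normalizer
  let π : N →* N ⧸ R.subgroupOf N := QuotientGroup.mk' (R.subgroupOf N)
  have hπs : Function.Surjective π := QuotientGroup.mk'_surjective _
  have hπ1 : ∀ x : N, π x = 1 ↔ (x : G) ∈ R := fun x => by
    rw [← MonoidHom.mem_ker, QuotientGroup.ker_mk', Subgroup.mem_subgroupOf]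
  -- the embedding of `P / R`
  let k : (P : Subgroup G) →* N ⧸ R.subgroupOf N := π.comp (Subgroup.inclusion hPN)
  have hk1 : ∀ x : (P : Subgroup G), k x = 1 ↔ (x : G) ∈ R := fun x => hπ1 _
  let j : (P : Subgroup G) ⧸ R.subgroupOf (P : Subgroup G) →* N ⧸ R.subgroupOf N :=
    QuotientGroup.lift (R.subgroupOf (P : Subgroup G)) k
      (fun x hx => (hk1 x).2 (Subgroup.mem_subgroupOf.1 hx))
  have hjθ : ∀ x : (P : Subgroup G), j (θ x) = k x := fun x => rfl
  have hθs : Function.Surjective θ := QuotientGroup.mk'_surjective _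
  have hji : Function.Injective j := by
    rw [injective_iff_map_eq_one]
    intro a ha
    obtain ⟨x, rfl⟩ := hθs a
    rw [hjθ, hk1] at ha
    exact (hker x).2 ha
  -- the Sylow subgroup of `N / R`
  let Pbar : Sylow p (N ⧸ R.subgroupOf N) := (P.subtype hPN).mapSurjective hπs
  have hPbar : (Pbar : Subgroup (N ⧸ R.subgroupOf N)) = j.range := by
    have h1 : (Pbar : Subgroup (N ⧸ R.subgroupOf N)) =
        ((P : Subgroup G).subgroupOf N).map π := rfl
    rw [h1]
    ext z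
    constructor
    · rintro ⟨x, hx, rfl⟩
      exact ⟨θ ⟨x, hx⟩, rfl⟩
    · rintro ⟨a, rfl⟩
      obtain ⟨x, rfl⟩ := hθs a
      exact ⟨⟨x, hPN x.2⟩, x.2, rfl⟩
  have hPbar_ne : (Pbar : Subgroup (N ⧸ R.subgroupOf N)) ≠ ⊥ := by
    intro h
    apply hRne
    refine le_antisymm hRP fun x hx => ?_
    have h2 : j (θ ⟨x, hx⟩) ∈ (Pbar : Subgroup (N ⧸ R.subgroupOf N)) := by
      rw [hPbar]
      exact ⟨_, rfl⟩
    rw [h, Subgroup.mem_bot, hjθ, hk1] at h2
    exact h2
  have hfree : ¬ Lib.Involves.Involves (N ⧸ R.subgroupOf N) ↥(Cfsg.qd p) :=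
    fun h => hqd' (Lib.Involves.of_subgroup (Lib.Involves.of_quotient h))
  set Z : Subgroup (N ⧸ R.subgroupOf N) :=
    centerThompsonAOf (Pbar : Subgroup (N ⧸ R.subgroupOf N)) with hZ
  have hZne : Z ≠ ⊥ :=
    PLocal.ThompsonJA.centerThompsonAOf_ne_bot _ Pbar.isPGroup' hPbar_ne
  have hZP : Z ≤ j.range := by
    rw [← hPbar]
    refine inf_le_left.trans ?_
    exact Subgroup.map_subtype_le _
  -- the normal subgroup of `E`
  set Z' : Subgroup ((P : Subgroup G) ⧸ R.subgroupOf (P : Subgroup G)) := Z.comap j with hZ'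
  have hZ'ne : Z' ≠ ⊥ := by
    intro h
    apply hZne
    rw [eq_bot_iff]
    intro z hz
    obtain ⟨a, rfl⟩ := hZP hz
    have : a ∈ Z' := hz
    rw [h, Subgroup.mem_bot] at this
    rw [this, map_one]
    exact Subgroup.one_mem _
  have hnormal : E.IsNormal Z' := by
    refine ⟨le_top, fun P' φ' hφ' => ?_⟩
    obtain ⟨-, φ, hφ, hind⟩ := (hEH P' φ').1 hφ'
    obtain ⟨hAP, hφP, g, hg⟩ := hφ
    obtain ⟨hA1, hA2, hA3, hA4⟩ := hind
    -- the preimage contains `R`
    have hmemA : ∀ (x : G) (hx : x ∈ (P : Subgroup G)), θ ⟨x, hx⟩ ∈ P' →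
        x ∈ preimageAlong θ P' := fun x hx h => ⟨⟨x, hx⟩, h, rfl⟩
    have hRA : R ≤ preimageAlong θ P' := by
      intro x hx
      refine hmemA x (hRP hx) ?_
      rw [(hker ⟨x, hRP hx⟩).2 hx]
      exact P'.one_mem
    -- `g` normalises `R`
    have hgR : ∀ x ∈ R, g * x * g⁻¹ ∈ R := by
      intro x hx
      have h1 := map_mem_of_stronglyClosed hR
        (show φ ∈ (groupFusionSystem (P : Subgroup G)).Hom _ from ⟨hAP, hφP, g, hg⟩)
        ⟨x, hRA hx⟩ hx
      rw [hg] at h1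
      exact h1
    have hgN : g ∈ N := by
      have hle : R.map (MulAut.conj g).toMonoidHom ≤ R := by
        rintro _ ⟨x, hx, rfl⟩
        exact hgR x hx
      have hcard : Nat.card (R.map (MulAut.conj g).toMonoidHom) = Nat.card R :=
        Nat.card_congr (R.equivMapOfInjective _ (MulAut.conj g).injective).symm.toEquiv
      have heq : R.map (MulAut.conj g).toMonoidHom = R :=
        Subgroup.eq_of_le_of_card_ge hle hcard.ge
      refine Subgroup.mem_normalizer_iff.2 fun z => ⟨hgR z, fun hz => ?_⟩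
      have hz' : g * z * g⁻¹ ∈ R.map (MulAut.conj g).toMonoidHom := by
        rw [heq]
        exact hz
      obtain ⟨w, hw, hwe⟩ := hz'
      have : g * w * g⁻¹ = g * z * g⁻¹ := hwe
      have hwz : w = z := mul_left_cancel (mul_right_cancel this)
      rw [← hwz]
      exact hw
    -- the fusion theorem in `N / R`
    have hjφ : ∀ x : P', j (φ' x) = π ⟨g, hgN⟩ * j x * (π ⟨g, hgN⟩)⁻¹ := by
      rintro ⟨x', hx'⟩
      obtain ⟨x, rfl⟩ := hθs x'
      have hxA : (x : G) ∈ preimageAlong θ P' := hmemA x x.2 hx'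
      have h1 := hA4 ⟨x, hxA⟩
      have h2 : (⟨θ ⟨(x : G), hA1 hxA⟩, hA3 ⟨x, hxA⟩⟩ : P') = ⟨θ x, hx'⟩ := rfl
      rw [h2] at h1
      rw [h1, hjθ]
      show k _ = π ⟨g, hgN⟩ * k x * (π ⟨g, hgN⟩)⁻¹
      show π _ = π ⟨g, hgN⟩ * π _ * (π ⟨g, hgN⟩)⁻¹
      rw [← map_inv, ← map_mul, ← map_mul]
      congr 1
      apply Subtype.ext
      exact hg ⟨x, hxA⟩
    obtain ⟨n, hn, c, hc, hgnc⟩ := Walter.GlaubermanFusion.fusion hp hfree Pbar
      (A := P'.map j) (g := π ⟨g, hgN⟩)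
      (by
        rw [hPbar]
        rintro _ ⟨a, -, rfl⟩
        exact ⟨a, rfl⟩)
      (by
        rw [hPbar]
        rintro _ ⟨_, ⟨a, ha, rfl⟩, rfl⟩
        exact ⟨φ' ⟨a, ha⟩, hjφ ⟨a, ha⟩⟩)
    obtain ⟨m, rfl⟩ := hπs n
    -- conjugation by `n` on `P' Z'`
    have hnc : ∀ x ∈ P', π m * j x * (π m)⁻¹ = π ⟨g, hgN⟩ * j x * (π ⟨g, hgN⟩)⁻¹ := by
      intro x hx
      have h1 := Subgroup.mem_centralizer_iff.1 hc (j x) ⟨x, hx, rfl⟩
      rw [hgnc]
      calc π m * j x * (π m)⁻¹ = π m * (j x * c) * c⁻¹ * (π m)⁻¹ := by group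
        _ = π m * (c * j x) * c⁻¹ * (π m)⁻¹ := by rw [h1]
        _ = π m * c * j x * (π m * c)⁻¹ := by group
    have hnZ : ∀ z ∈ Z, π m * z * (π m)⁻¹ ∈ Z := fun z hz =>
      (Subgroup.mem_normalizer_iff.1 hn z).1 hz
    have hB : ∀ x ∈ P' ⊔ Z', π m * j x * (π m)⁻¹ ∈ j.range := by
      have hle : P' ⊔ Z' ≤ j.range.comap ((MulAut.conj (π m)).toMonoidHom.comp j) := by
        refine sup_le ?_ ?_
        · intro x hx
          show π m * j x * (π m)⁻¹ ∈ j.range
          rw [hnc x hx, ← hjφ ⟨x, hx⟩]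
          exact ⟨_, rfl⟩
        · intro x hx
          exact hZP (hnZ _ hx)
      exact fun x hx => hle hx
    let f : ↥(P' ⊔ Z') →* j.range :=
      (((MulAut.conj (π m)).toMonoidHom.comp j).comp (P' ⊔ Z').subtype).codRestrict j.range
        (fun x => hB x x.2)
    let ψ : ↥(P' ⊔ Z') →* (P : Subgroup G) ⧸ R.subgroupOf (P : Subgroup G) :=
      (MonoidHom.ofInjective hji).symm.toMonoidHom.comp f
    have hψ : ∀ x : ↥(P' ⊔ Z'), j (ψ x) = π m * j x * (π m)⁻¹ := by
      intro x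
      have h1 := congrArg Subtype.val ((MonoidHom.ofInjective hji).apply_symm_apply (f x))
      exact h1
    refine ⟨ψ, ?_, ?_, ?_⟩
    · rw [hEH]
      refine ⟨le_top, ?_⟩
      have hBP : preimageAlong θ (P' ⊔ Z') ≤ (P : Subgroup G) := by
        rintro _ ⟨x, -, rfl⟩
        exact x.2
      have hBθ : ∀ x : ↥(preimageAlong θ (P' ⊔ Z')), θ ⟨x, hBP x.2⟩ ∈ P' ⊔ Z' := by
        rintro ⟨_, ⟨x, hx, rfl⟩⟩
        exact hx
      have hBm : ∀ x : ↥(preimageAlong θ (P' ⊔ Z')), (m : G) * x * (m : G)⁻¹ ∈ (P : Subgroup G) := by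
        intro x
        obtain ⟨y, hy⟩ := hB _ (hBθ x)
        obtain ⟨z, rfl⟩ := hθs y
        rw [hjθ, hjθ] at hy
        have h2 : π (⟨z, hPN z.2⟩⁻¹ * (m * ⟨(x : G), hPN (hBP x.2)⟩ * m⁻¹)) = 1 := by
          rw [map_mul, map_inv, map_mul, map_mul, map_inv]
          have : π ⟨(z : G), hPN z.2⟩ = π m * π ⟨(x : G), hPN (hBP x.2)⟩ * (π m)⁻¹ := hy
          rw [this]
          group
        rw [hπ1] at h2
        have h3 := (P : Subgroup G).mul_mem z.2 (hRP h2)
        have e : (z : G) * ((z : G)⁻¹ * ((m : G) * (x : G) * (m : G)⁻¹)) =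
            (m : G) * x * (m : G)⁻¹ := by group
        rw [← e]
        exact h3
      refine ⟨conjHom _ (m : G), ⟨hBP, hBm, m, fun x => rfl⟩, hBP, hBm, hBθ, fun x => ?_⟩
      apply hji
      rw [hψ, hjθ]
      show π m * π _ * (π m)⁻¹ = π _
      rw [← map_inv, ← map_mul, ← map_mul]
      rfl
    · intro x
      apply hji
      rw [hψ, hjφ]
      exact hnc x x.2
    · ext z
      constructor
      · rintro ⟨x, hx, rfl⟩
        show j (ψ x) ∈ Z
        rw [hψ]
        exact hnZ _ hx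
      · intro hz
        have h1 : (π m)⁻¹ * j z * (π m)⁻¹⁻¹ ∈ Z :=
          (Subgroup.mem_normalizer_iff.1 (Subgroup.inv_mem _ hn) (j z)).1 hz
        obtain ⟨w, hw⟩ := hZP h1
        have hwZ : w ∈ Z' := by
          show j w ∈ Z
          rw [hw]
          exact h1
        refine ⟨⟨w, (le_sup_right : Z' ≤ P' ⊔ Z') hwZ⟩, hwZ, ?_⟩
        apply hji
        rw [hψ, hw]
        group
  intro hcore
  apply hZ'ne
  rw [eq_bot_iff, ← hcore]
  exact le_sSup hnormal

end Cfsg.Agent.S5249
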