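import Cfsg.Statements.S5253
import Cfsg.Agent.H780.FunCenter
import Cfsg.Agent.H757.Central

set_option autoImplicit false
universe u
open Cfsg

namespace Cfsg.Agent.S5253

/-- Let p be a prime and W a positive characteristic p-functor with Z(Q) ≤ W(Q): W assigns to every finite p-group Q (in a fixed universe) a subgroup W(Q), nontrivial when Q is, carried to W(R) by every isomorphism Q ≅ R, and containing the centre of Q. Suppose that for every finite group G with Sylow p-subgroup P in which W(P) is not normal there is g ∈ P outside O_p(G) with [Z(O_p(G)), g, g] = 1. Then for every saturated fusion system F over a finite p-group S and every normalizer fusion system N of W(S) in F, every p-th power of an element of Z(S) that lies in the centre of N lies in the centre of F. -/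
theorem result {p : ℕ} [Fact p.Prime] (W : ∀ (Q : Type u) [Group Q], Subgroup Q) (hW1 : ∀ (Q : Type u) [Group Q] [Finite Q], IsPGroup p Q → Nontrivial Q → W Q ≠ ⊥) (hW2 : ∀ (Q R : Type u) [Group Q] [Group R] [Finite Q], IsPGroup p Q → ∀ φ : Q ≃* R, (W Q).map φ.toMonoidHom = W R) (hWZ : ∀ (Q : Type u) [Group Q] [Finite Q], IsPGroup p Q → Subgroup.center Q ≤ W Q) (hq : ∀ (G : Type u) [Group G] [Finite G] (P : Sylow p G), ¬ (((W ↥(P : Subgroup G)).map (P : Subgroup G).subtype : Subgroup G)).Normal → ∃ g : G, g ∈ (P : Subgroup G) ∧ g ∉ Cfsg.pCore p G ∧ ⁅⁅Subgroup.center ↥(Cfsg.pCore p G) |>.map (Cfsg.pCore p G).subtype, Subgroup.zpowers g⁆, Subgroup.zpowers g⁆ = ⊥) {Ω : Type u} [Group Ω] {S : Subgroup Ω} [Finite S] (hS : IsPGroup p S) (F : Cfsg.FusionSystem S) (hF : F.IsSaturated p) (N : Cfsg.FusionSystem (Cfsg.FusionSystem.normalizerIn S ((W ↥S).map S.subtype))) (hN : F.IsNormalizerSystem ((W ↥S).map S.subtype) N) : Subgroup.closure ((fun z => z ^ p) '' ((S ⊓ Subgroup.centralizer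 (S : Set Ω) : Subgroup Ω) : Set Ω)) ⊓ N.center ≤ F.center := by
  intro x hx
  obtain ⟨hxc, hxN⟩ := hx
  -- `x = z ^ p`
  have key : ∀ x ∈ Subgroup.closure ((fun z => z ^ p) '' ((S ⊓ Subgroup.centralizer (S : Set Ω) : Subgroup Ω) : Set Ω)),
      ∃ z ∈ S ⊓ Subgroup.centralizer (S : Set Ω), z ^ p = x := by
    have hcomm : ∀ a ∈ S ⊓ Subgroup.centralizer (S : Set Ω), ∀ b ∈ S ⊓ Subgroup.centralizer (S : Set Ω),
        Commute a b := fun a ha b hb => Subgroup.mem_centralizer_iff.1 hb.2 a ha.1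
    intro x hx
    induction hx using Subgroup.closure_induction with
    | mem y hy =>
      obtain ⟨z, hz, h⟩ := hy
      exact ⟨z, hz, h⟩
    | one => exact ⟨1, one_mem _, one_pow _⟩
    | mul a b _ _ ha hb =>
      obtain ⟨y, hy, rfl⟩ := ha
      obtain ⟨z, hz, rfl⟩ := hb
      exact ⟨y * z, Subgroup.mul_mem _ hy hz, (hcomm y hy z hz).mul_pow p⟩
    | inv a _ ha =>
      obtain ⟨y, hy, rfl⟩ := ha
      exact ⟨y⁻¹, Subgroup.inv_mem _ hy, inv_pow _ _⟩
  obtain ⟨z, hz, rfl⟩ := key x hxc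
  refine H780.functor_center W hW2 hWZ hq hS hF hz ?_
  -- `z ^ p` is fixed by the automorphisms of `W(S)`
  intro f hf hfW hxW
  have hWS : H780.fOf W S ≤ S := H780.fOf_le W S
  have hfinW : Finite (H780.fOf W S) := H802.finite_of_le hWS
  have hfinN : Finite (FusionSystem.normalizerIn S ((W ↥S).map S.subtype)) := H802.finite_of_le inf_le_left
  have hWN : H780.fOf W S ≤ FusionSystem.normalizerIn S (H780.fOf W S) := H802.le_normalizerIn hWS
  have hfN : H752.Mp N (H780.fOf W S) f := by
    rw [H753.mp_normalizerSystem_iff hN]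
    refine ⟨hf, hWN, fun y hy => hWN (hfW y hy), f, ?_, fun _ _ => rfl, hfW,
      fun y hy => hf.surj hfW hy⟩
    have h2 : H780.fOf W S ⊔ (W ↥S).map S.subtype = H780.fOf W S := sup_idem _
    rw [h2]
    exact hf
  obtain ⟨φ, hφ, h1⟩ := hfN
  have h3 := H757.center_apply_eq hφ (x := ⟨_, hxW⟩) hxN
  rw [← h1 _ hxW]
  exact h3

end Cfsg.Agent.S5253
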