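import Cfsg.Statements.S5254
import Cfsg.Agent.H783.UniqAb

set_option autoImplicit false
open Cfsg

namespace Cfsg.Agent.S5254

/-- Let p be an odd prime, S a finite nonabelian p-group with a unique abelian subgroup A of index p, and F a saturated fusion system over S. Then every F-essential subgroup P is A, or Z(S)⟨x⟩ for some x ∈ S outside A, or (when the second centre Z₂(S) lies in A) Z₂(S)⟨x⟩ for some x ∈ S outside A; and P has index p in its normalizer in S. -/
theorem result {Ω : Type*} [Group Ω] {S : Subgroup Ω} [Finite S] (p : ℕ) [Fact p.Prime] (hS : IsPGroup p S) (F : Cfsg.FusionSystem S) (hF : F.IsSaturated p) (hp : p ≠ 2) (hna : ¬ IsMulCommutative ↥S) (A : Subgroup Ω) (hA : A ≤ S ∧ IsMulCommutative ↥A ∧ (A.subgroupOf S).index = p) (huniq : ∀ B : Subgroup Ω, B ≤ S → IsMulCommutative ↥B → (B.subgroupOf S).index = p → B = A) (P : Subgroup Ω) (hP : F.IsEssential p P) : (P = A ∨ (∃ x ∈ S, x ∉ A ∧ P = (S ⊓ Subgroup.centralizer (S : Set Ω)) ⊔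 Subgroup.zpowers x) ∨ (((upperCentralSeries ↥S 2).map S.subtype) ≤ A ∧ ∃ x ∈ S, x ∉ A ∧ P = ((upperCentralSeries ↥S 2).map S.subtype) ⊔ Subgroup.zpowers x)) ∧ (P.subgroupOf (S ⊓ Subgroup.normalizer (P : Set Ω))).index = p := by
  have hidx : ∀ B : Subgroup Ω, (B.subgroupOf S).index = B.relIndex S := fun B => rfl
  have h : Cfsg.Agent.H783.AbIdx p S A :=
    Cfsg.Agent.H783.AbIdx.of_index hS hA.1 hA.2.1 hA.2.2 hna
  have hPS : P ≤ S := hP.1.1
  by_cases hPA : P = A
  · subst hPA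
    refine ⟨Or.inl rfl, ?_⟩
    have hN : S ⊓ Subgroup.normalizer (P : Set Ω) = S := by
      refine inf_eq_left.2 fun s hs => ?_
      rw [Subgroup.mem_normalizer_iff]
      intro a
      refine ⟨h.normal s hs a, fun ha => ?_⟩
      have h1 := h.normal s⁻¹ (S.inv_mem hs) _ ha
      have h2 : s⁻¹ * (s * a * s⁻¹) * s⁻¹⁻¹ = a := by group
      rwa [h2] at h1
    rw [hN]
    exact h.idx
  · obtain ⟨x, hxS, hxA, hxP, hsup, hcase, hz, hn⟩ :=
      Cfsg.Agent.H783.essential_structure hS hF h hP hPA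
    have hz2 := h.z2S_le_of_unique hz huniq
    refine ⟨?_, hn⟩
    rcases hcase with h1 | h1
    · refine Or.inr (Or.inl ⟨x, hxS, hxA, ?_⟩)
      rw [h1] at hsup
      exact hsup
    · refine Or.inr (Or.inr ⟨hz2, x, hxS, hxA, ?_⟩)
      rw [h1, inf_eq_left.2 hz2] at hsup
      exact hsup

end Cfsg.Agent.S5254
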