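import Cfsg.Statements.S5257
import Cfsg.Agent.H783.UniqAb

set_option autoImplicit false
open Cfsg

namespace Cfsg.Agent.S5257

/-- Let p be an odd prime, S a finite nonabelian p-group with a unique abelian subgroup A of index p, and F a saturated fusion system over S having an F-essential subgroup other than A. Then the second centre Z₂(S) lies in A; Z(S) ∩ [S, S] has order p; Z(S)[S, S] has index p in A; Z(S) has index p in Z₂(S); and S/Z(S) has maximal nilpotency class (if S/Z(S) has order pᵐ with m ≥ 3 then the term of index m − 2 of the lower central series of S, counting S as index 0, is not contained in Z(S)). -/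
theorem result {Ω : Type*} [Group Ω] {S : Subgroup Ω} [Finite S] (p : ℕ) [Fact p.Prime] (hS : IsPGroup p S) (F : Cfsg.FusionSystem S) (hF : F.IsSaturated p) (hp : p ≠ 2) (hna : ¬ IsMulCommutative ↥S) (A : Subgroup Ω) (hA : A ≤ S ∧ IsMulCommutative ↥A ∧ (A.subgroupOf S).index = p) (huniq : ∀ B : Subgroup Ω, B ≤ S → IsMulCommutative ↥B → (B.subgroupOf S).index = p → B = A) (P : Subgroup Ω) (hP : F.IsEssential p P) (hPA : P ≠ A) : ((upperCentralSeries ↥S 2).map S.subtype) ≤ A ∧ Nat.card ↥((S ⊓ Subgroup.centralizer (S : Set Ω)) ⊓ ((commutator ↥S).map S.subtype)) = p ∧ (((S ⊓ Subgroup.centralizer (S : Set Ω)) ⊔ ((commutator ↥S).map S.subtype)).subgroupOf A).index = p ∧ (((S ⊓ Subgroup.centralizer (S : Set Ω))).subgroupOf ((upperCentralSeries ↥S 2).map S.subtype)).index = p ∧ ∀ m : ℕ, ((S ⊓ Subgroup.centralizer (S : Set Ω)).subgroupOf S).index = p ^ m → 3 ≤ m → ¬ Subgroup.lowerCentralSeries S (m - 2) ≤ (S ⊓ Subgroup.centralizer (S : Set Ω)) := by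
  have h : Cfsg.Agent.H783.AbIdx p S A :=
    Cfsg.Agent.H783.AbIdx.of_index hS hA.1 hA.2.1 hA.2.2 hna
  have hp1 : p.Prime := Fact.out
  have hfinA : Finite A := Finite.of_injective (Subgroup.inclusion h.le)
    (Subgroup.inclusion_injective _)
  obtain ⟨x, hxS, hxA, hxP, hsup, hcase, hz, hn⟩ :=
    Cfsg.Agent.H783.essential_structure hS hF h hP hPA
  have hz2 := h.z2S_le_of_unique hz huniq
  have hker := h.relIndex_ker_delta hxS hxA
  rw [hz] at hker
  set δ := h.delta x hxS with hδ
  have hcard := Cfsg.Agent.H783.card_ker_inf_range δ hker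
  have hcomm := h.map_commutator_eq hxS hxA
  have hkA : δ.ker.map A.subtype = Cfsg.Agent.H783.zS S := by
    rw [h.ker_delta hxS hxA, Subgroup.subgroupOf_map_subtype]
    exact inf_eq_left.2 h.center_le
  have hinj := Subgroup.subtype_injective A
  refine ⟨hz2, ?_, ?_, ?_, ?_⟩
  · change Nat.card ↥(Cfsg.Agent.H783.zS S ⊓ ((commutator ↥S).map S.subtype)) = p
    rw [hcomm, ← hkA, ← Subgroup.map_inf _ _ _ hinj]
    exact (Nat.card_congr (Subgroup.equivMapOfInjective _ _ hinj).toEquiv).symm.trans hcard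
  · change ((Cfsg.Agent.H783.zS S ⊔ ((commutator ↥S).map S.subtype)).subgroupOf A).index = p
    rw [hcomm, ← hkA, ← Subgroup.map_sup, Subgroup.subgroupOf,
      Subgroup.comap_map_eq_self_of_injective hinj, Cfsg.Agent.H783.index_ker_sup_range, hcard]
  · change (Cfsg.Agent.H783.zS S).relIndex (Cfsg.Agent.H783.z2S S) = p
    rwa [inf_eq_left.2 hz2] at hz
  · intro m hm hm3 hle
    change (Cfsg.Agent.H783.zS S).relIndex S = p ^ m at hm
    have hle' : Subgroup.lowerCentralSeries S (m - 2) ≤ Cfsg.Agent.H783.zS S := hle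
    obtain ⟨k, rfl⟩ : ∃ k, m = k + 3 := ⟨m - 3, by omega⟩
    have e1 : k + 3 - 2 = k + 1 := by omega
    rw [e1] at hle'
    -- `|im δ| = p ^ (k + 2)`
    have h1 := Subgroup.relIndex_mul_relIndex (Cfsg.Agent.H783.zS S) A S h.center_le h.le
    rw [hm, h.idx] at h1
    have h2 : (Cfsg.Agent.H783.zS S).relIndex A = p ^ (k + 2) := by
      apply Nat.eq_of_mul_eq_mul_right hp1.pos
      rw [h1]
      ring
    have h3 : Nat.card δ.range = p ^ (k + 2) := by
      rw [← h2, ← Subgroup.index_ker, h.ker_delta hxS hxA]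
      rfl
    have h4 := Cfsg.Agent.H783.card_range_le δ (k + 1)
    rw [hcard, h3] at h4
    -- but `δ ^ (k + 2) = 1`
    have h5 : (Cfsg.Agent.H783.iter δ (k + 1 + 1)).range = ⊥ := by
      rw [eq_bot_iff]
      rintro _ ⟨a, rfl⟩
      rw [Subgroup.mem_bot, Cfsg.Agent.H783.iter_succ, ← MonoidHom.mem_ker,
        h.mem_ker_delta hxS hxA]
      exact hle' (h.iter_mem_lcs hxS (k + 1) a)
    rw [h5, Subgroup.card_bot, mul_one] at h4
    have h6 := Nat.pow_lt_pow_right hp1.one_lt (show k + 1 < k + 2 by omega)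
    omega

end Cfsg.Agent.S5257
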