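import Cfsg.Statements.S5266
import Cfsg.Agent.S0000

set_option autoImplicit false
universe u
open Cfsg

namespace Cfsg.Agent.S5266

/-- Let G be a finite group every proper section of which (every quotient H/N with H a subgroup, N normal in H, other than G itself) is a K-group: all of its nonabelian simple sections are known simple groups. If G itself is not a K-group, then G is simple, its 2-fusion system F on a Sylow 2-subgroup S has hyperfocal subgroup S (F is its own 2-residual), and F is almost simple: it has a normal subsystem over a subgroup of order greater than 2 that is simple and is contained in every normal subsystem of F over a nontrivial subgroup. This is a step about a minimal counterexample to the classification; once the classification is proved, no such G exists. -/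
theorem result {G : Type u} [Group G] [Finite G] (hproper : ∀ (H : Subgroup G) (N : Subgroup ↥H) [N.Normal], (H ≠ ⊤ ∨ N ≠ ⊥) → Cfsg.IsKGroupWith (fun (X : Type u) (_ : Group X) => Cfsg.IsKnownSimple' X) (↥H ⧸ N)) (hnot : ¬ Cfsg.IsKGroupWith (fun (X : Type u) (_ : Group X) => Cfsg.IsKnownSimple' X) G) (S : Sylow 2 G) : IsSimpleGroup G ∧ (Cfsg.groupFusionSystem (S : Subgroup G)).hyperfocalSubgroup 2 = (S : Subgroup G) ∧ ∃ (T : Subgroup G) (E : Cfsg.FusionSystem T), E.IsNormalIn (Cfsg.groupFusionSystem (S : Subgroup G)) 2 ∧ 2 < Nat.card ↥T ∧ E.IsSimple 2 ∧ ∀ (T' : Subgroup G) (E' : Cfsg.FusionSystem T'), E'.IsNormalIn (Cfsg.groupFusionSystem (S : Subgroup G)) 2 → T' ≠ ⊥ → E.IsSubsystemOf E' := by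
  refine absurd ?_ hnot
  intro H N _ hs _
  exact Cfsg.Agent.S0000.result

end Cfsg.Agent.S5266
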