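import Cfsg.Statements.S5271
import Cfsg.Agent.H787.WeakEmb2

set_option autoImplicit false
open Cfsg

namespace Cfsg.Agent.S5271

open Cfsg.Agent Cfsg.FusionSystem

/-- A nilpotency criterion for fusion systems. Let F be a saturated fusion system over a finite p-group S of order at least p². Call a subgroup Q of S weakly embedded in F when there is a subgroup P of S strongly closed in F such that both the product QP and the intersection Q ∩ P are strongly closed in F. Then F is the inner fusion system of S if and only if there is a subgroup D of S with 1 < D < S such that every subgroup of S of the same order as D is weakly embedded in F and, for every fully normalized subgroup H of S of that order, the normalizer fusion system of H in F is the inner fusion system of N_S(H). -/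
theorem result {Ω : Type*} [Group Ω] {S : Subgroup Ω} [Finite S] (p : ℕ) [Fact p.Prime] (hS : IsPGroup p ↥S) (F : Cfsg.FusionSystem S) (hF : F.IsSaturated p) (hcard : p ^ 2 ≤ Nat.card S) : (∀ P : Subgroup Ω, F.Hom P = (Cfsg.innerFusionSystem S).Hom P) ↔ ∃ D : Subgroup Ω, ⊥ < D ∧ D < S ∧ (∀ Q : Subgroup Ω, Q ≤ S → Nat.card ↥Q = Nat.card ↥D → ∃ P : Subgroup Ω, F.StronglyClosed P ∧ F.StronglyClosed (Q ⊔ P) ∧ F.StronglyClosed (Q ⊓ P)) ∧ (∀ H : Subgroup Ω, F.IsFullyNormalized H → Nat.card ↥H = Nat.card ↥D → ∀ N : Cfsg.FusionSystem (Cfsg.FusionSystem.normalizerIn S H), F.IsNormalizerSystem H N → ∀ P : Subgroup Ω, N.Hom P = (Cfsg.innerFusionSystem (Cfsg.FusionSystem.normalizerIn S H)).Hom P) := by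
  have hp : p.Prime := Fact.out
  constructor
  · intro hin
    obtain ⟨n, hn⟩ := hS.exists_card_eq
    have hn2 : 2 ≤ n := by
      rw [hn] at hcard
      exact (Nat.pow_le_pow_iff_right hp.one_lt).1 hcard
    obtain ⟨m, rfl⟩ : ∃ m, n = m + 1 := ⟨n - 1, by omega⟩
    obtain ⟨D, -, hDS, hD⟩ := H787.exists_between (p := p) (X := (⊥ : Subgroup Ω)) hS bot_le (k := m)
      (by rw [Subgroup.card_bot]; exact Nat.one_le_pow _ _ hp.pos)
      (by rw [hn]; exact Nat.pow_le_pow_right hp.pos (Nat.le_succ m))
    have hfull : ∀ Q : Subgroup Ω, Q ≤ S → Nat.card Q = p ^ m →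
        S ≤ Subgroup.normalizer (Q : Set Ω) := by
      intro Q hQ hQc
      have hfin : Finite Q := H802.finite_of_le hQ
      have hidx : (Q.subgroupOf S).index = p := by
        have h1 := Subgroup.card_mul_index (Q.subgroupOf S)
        rw [Nat.card_congr (Subgroup.subgroupOfEquivOfLe hQ).toEquiv, hQc, hn, pow_succ] at h1
        exact Nat.eq_of_mul_eq_mul_left (pow_pos hp.pos m) h1
      have hmin : (Nat.card S).minFac = p := by
        rw [hn]
        exact hp.pow_minFac (Nat.succ_ne_zero m)
      have hnorm : (Q.subgroupOf S).Normal :=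
        Subgroup.normal_of_index_eq_minFac_card (by rw [hidx, hmin])
      intro s hs
      rw [Subgroup.mem_normalizer_iff]
      intro h
      constructor
      · intro hh
        exact hnorm.conj_mem ⟨h, hQ hh⟩ hh ⟨s, hs⟩
      · intro hh
        have h1 := hnorm.conj_mem ⟨s * h * s⁻¹, hQ hh⟩ hh ⟨s⁻¹, S.inv_mem hs⟩
        have h2 : s⁻¹ * (s * h * s⁻¹) * s⁻¹⁻¹ ∈ Q := h1
        simpa [mul_assoc] using h2
    have hclosed : ∀ Q : Subgroup Ω, Q ≤ S → Nat.card Q = p ^ m → F.StronglyClosed Q := by
      intro Q hQ hQc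
      refine ⟨hQ, fun R hR φ hφ x => ?_⟩
      rw [hin] at hφ
      obtain ⟨-, g, hg, hφg⟩ := hφ
      rw [hφg]
      exact (Subgroup.mem_normalizer_iff.1 (hfull Q hQ hQc hg) _).1 (hR x.2)
    refine ⟨D, ?_, ?_, ?_, ?_⟩
    · rw [bot_lt_iff_ne_bot]
      rintro rfl
      rw [Subgroup.card_bot] at hD
      have : 1 < p ^ m := Nat.one_lt_pow (by omega) hp.one_lt
      omega
    · refine lt_of_le_of_ne hDS ?_
      rintro rfl
      rw [hD] at hn
      have := Nat.pow_right_injective hp.two_le hn
      omega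
    · intro Q hQ hQc
      rw [hD] at hQc
      refine ⟨⊥, H759.StronglyClosed.bot, ?_, ?_⟩
      · rw [sup_bot_eq]
        exact hclosed Q hQ hQc
      · rw [inf_bot_eq]
        exact H759.StronglyClosed.bot
    · intro H hH hHc N hN P
      rw [hD] at hHc
      have hNS : normalizerIn S H = S := inf_eq_left.2 (hfull H hH.1 hHc)
      apply Set.Subset.antisymm
      · intro φ hφ
        have h1 := N.le_of_mem hφ
        rw [hN P] at hφ
        have h2 : φ ∈ F.Hom P := hφ.1
        rw [hin] at h2
        obtain ⟨-, g, hg, hφg⟩ := h2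
        exact ⟨h1.1, g, hNS.ge hg, hφg⟩
      · rintro φ ⟨hP, g, hg, hφ⟩
        have h2 : φ = conjHom P g := MonoidHom.ext hφ
        rw [h2]
        exact N.conj_mem hP hg
  · rintro ⟨D, -, hDS, hweak, hnorm⟩
    have hfinD : Finite D := H802.finite_of_le hDS.le
    obtain ⟨k, hk⟩ := (hS.to_le hDS.le).exists_card_eq
    have hlt : p ^ k < Nat.card S := by
      rw [← hk]
      by_contra hcon
      push Not at hcon
      exact hDS.ne (Subgroup.eq_of_le_of_card_ge hDS.le hcon)
    have key : H787.TrivMod F p ⊥ := by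
      refine H787.inner_of_weak hS hF (k := k) (fun Q hQ hQc => hweak Q hQ (by rw [hQc, hk])) ?_ hlt
      intro H hH hHc P φ hφ
      obtain ⟨N, hN⟩ := H802.exists_normalizerSystem F hH.1
      rw [← hN P, hnorm H hH (by rw [hHc, hk]) N hN P] at hφ
      obtain ⟨-, g, hg, hφg⟩ := hφ
      exact ⟨g, hg.1, hφg⟩
    refine H747.hom_eq_inner_of_hyperfocal_eq_bot hS hF ?_
    rw [eq_bot_iff]
    exact H747.hyperfocal_le fun P hP α hα hco x => key P hP α hα hco x

end Cfsg.Agent.S5271
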