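import Cfsg.Statements.S5275
import Cfsg.Agent.H801.FamilyFus
import Cfsg.Agent.H788.ZJClosed

set_option autoImplicit false
open Cfsg

namespace Cfsg.Agent.S5275

/-- A Glauberman–Thompson nilpotency criterion for fusion systems relative to a strongly closed subgroup. Let p be an odd prime, F a saturated fusion system over a finite p-group S, and D a subgroup of S that is strongly closed in F. Let Z(J(D)) be the centre of the subgroup of D generated by the abelian subgroups of D of largest order. Then F is the inner fusion system of S if and only if the normalizer fusion system of Z(J(D)) in F is the inner fusion system of N_S(Z(J(D))) = S. -/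
theorem result {Ω : Type*} [Group Ω] {S : Subgroup Ω} [Finite S] (p : ℕ) [Fact p.Prime] (hS : IsPGroup p ↥S) (F : Cfsg.FusionSystem S) (hF : F.IsSaturated p) (hp : p ≠ 2) (D : Subgroup Ω) (hD : F.StronglyClosed D) : (∀ P : Subgroup Ω, F.Hom P = (Cfsg.innerFusionSystem S).Hom P) ↔ ∀ N : Cfsg.FusionSystem (Cfsg.FusionSystem.normalizerIn S (Cfsg.centerThompsonAOf D)), F.IsNormalizerSystem (Cfsg.centerThompsonAOf D) N → ∀ P : Subgroup Ω, N.Hom P = (Cfsg.innerFusionSystem (Cfsg.FusionSystem.normalizerIn S (Cfsg.centerThompsonAOf D))).Hom P := by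
  constructor
  · intro h N hN P
    exact H801.normalizerSystem_inner h N hN P
  · intro hN P
    have hDS : D ≤ S := hD.1
    refine H801.inner_of_normal_in_models hp hS hF
      ((PLocal.ThompsonJA.centerThompsonAOf_le D).trans hDS) ?_ hN P
    intro E _ hEF L _ _ ι hmod hst
    obtain ⟨T, hT⟩ := hmod.2.2.1
    have hι := hmod.2.1.1
    have h1 : H801.up ι (centerThompsonAOf D) = centerThompsonAOf (H801.up ι D) := by
      have h2 : centerThompsonAOf D = (centerThompsonAOf (D.subgroupOf S)).map S.subtype := by
        rw [PLocal.ThompsonJA.map_centerThompsonAOf S.subtype S.subtype_injective,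
          Subgroup.map_subgroupOf_eq_of_le hDS]
      rw [h2, H801.up_map, PLocal.ThompsonJA.map_centerThompsonAOf ι hι]
      rfl
    rw [h1, PLocal.ZJ.centerThompsonAOf_eq]
    refine H788.sInf_maxAb_normal_of_closed hp (Or.inl rfl) hmod.2.2.2 T _ ?_ ?_ ?_
    · rw [hT]; exact H801.up_le_range D
    · intro g x hx hgx
      rw [hT] at hgx
      exact H801.up_conj_mem hmod.2.1 ⟨hDS, fun R hR φ hφ => hD.2 R hR φ (hEF R hφ)⟩ hx hgx
    · intro V _ hV
      exact PLocal.ZJ.stableFor_of_isPStableOn _ V (hst V hV)

end Cfsg.Agent.S5275
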