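import Cfsg.Statements.S5284
import Cfsg.Agent.H790.AbInv

set_option autoImplicit false
open Cfsg

namespace Cfsg.Agent.S5284

/-- Let S be a finite abelian p-group. Every saturated fusion system over S is supersoluble (S has a chain of F-strongly closed subgroups from 1 to S with cyclic steps) if and only if the invariants of S are pairwise distinct, that is, S is not isomorphic to a direct product (Z/p^n × Z/p^n) × H with n ≥ 1. -/
theorem result {Ω : Type*} [Group Ω] {S : Subgroup Ω} [Finite S] (p : ℕ) [Fact p.Prime] (hS : IsPGroup p ↥S) (hab : IsMulCommutative ↥S) : (∀ F : Cfsg.FusionSystem S, F.IsSaturated p → (∃ (m : ℕ) (c : Fin (m + 1) → Subgroup Ω), c 0 = ⊥ ∧ c (Fin.last m) = S ∧ (∀ i : Fin (m + 1), F.StronglyClosed (c i)) ∧ ∀ i : Fin m, c i.castSucc ≤ c i.succ ∧ ∃ x ∈ S, c i.succ = c i.castSucc ⊔ Subgroup.zpowers x)) ↔ ¬ ∃ (n : ℕ) (H : Type) (_ : CommGroup H), 0 < n ∧ Nonempty (↥S ≃* (Multiplicative (ZMod (p ^ n)) × Multiplicative (ZMod (p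 ^ n))) × H) := by
  have h0 := Cfsg.Agent.H790.all_super_iff hS
  refine Iff.trans h0 ⟨?_, ?_⟩
  · rintro ⟨-, hH⟩ ⟨n, H, _, hn, ⟨e⟩⟩
    exact Cfsg.Agent.H790.not_condition hn e hH
  · intro hno
    refine ⟨fun F hF => ?_, Cfsg.Agent.H790.condition_of_no_split hS hab hno⟩
    refine Cfsg.Agent.H759.isNormal_of_abelian hS hF Cfsg.Agent.H759.StronglyClosed.top ?_
    rw [Subgroup.commutator_eq_bot_iff_le_centralizer]
    intro x hx
    rw [Subgroup.mem_centralizer_iff]
    intro y hy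
    exact congrArg Subtype.val (hab.1.1 ⟨y, hy⟩ ⟨x, hx⟩)

end Cfsg.Agent.S5284
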