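import Cfsg.Statements.S5286
import Cfsg.Agent.H791.RegRep

set_option autoImplicit false
universe u
open Cfsg

namespace Cfsg.Agent.S5286

open Cfsg.Agent.H791 Cfsg.Agent.H791.Hnn Cfsg.Agent.H791.Hnn.Data SemidirectProduct

/-- Every fusion system F over a finite p-group S, saturated or not, is realized by a possibly infinite group: there are a group G and an injective homomorphism ι of S into G such that the maps of F are exactly the conjugations by elements of G between subgroups of ι(S), every finite subgroup of G is conjugate to a subgroup of ι(S), and G has a free normal subgroup whose index divides (#S)!. -/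
theorem result {Ω : Type u} [Group Ω] {S : Subgroup Ω} [Finite S] (p : ℕ) [Fact p.Prime] (hS : IsPGroup p ↥S) (F : Cfsg.FusionSystem S) : ∃ (G : Type u) (_ : Group G) (ι : ↥S →* G), F.IsRealizedBy ι ∧ (∀ H : Subgroup G, Finite ↥H → ∃ g : G, ∀ h ∈ H, g * h * g⁻¹ ∈ ι.range) ∧ ∃ N : Subgroup G, N.Normal ∧ IsFreeGroup ↥N ∧ N.index ∣ (Nat.card ↥S).factorial := by
  have hmem : ∀ s : S, (inr (reg S s) : FreeAct.E (hnn F).X (Equiv.Perm S)) ∈ (hnn F).G :=
    fun s => inr_mem ⟨s, rfl⟩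
  obtain ⟨ι, hι⟩ : ∃ ι : S →* (hnn F).G, ∀ s, (ι s : FreeAct.E (hnn F).X (Equiv.Perm S)) = inr (reg S s) :=
    ⟨((inr : Equiv.Perm S →* FreeAct.E (hnn F).X (Equiv.Perm S)).comp (reg S)).codRestrict (hnn F).G hmem,
      fun s => rfl⟩
  refine ⟨(hnn F).G, inferInstance, ι, ⟨?_, ?_⟩, ?_, ?_⟩
  · intro a b hab
    have h1 := congrArg Subtype.val hab
    rw [hι, hι] at h1
    exact reg_injective S (inr_injective h1)
  · intro P hP φ hφ
    constructor
    · intro hφF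
      refine ⟨⟨(hnn F).t ⟨P, ⟨φ, hφF⟩⟩, t_mem _⟩, fun x => Subtype.ext ?_⟩
      rw [Subgroup.coe_mul, Subgroup.coe_mul, Subgroup.coe_inv, hι, hι]
      have h1 := sig_spec F ⟨P, ⟨φ, hφF⟩⟩ ⟨⟨x, hP x.2⟩, x.2⟩
      have h2 : reg S (toS F ⟨P, ⟨φ, hφF⟩⟩ ⟨⟨x, hP x.2⟩, x.2⟩) ∈ (hnn F).B ⟨P, ⟨φ, hφF⟩⟩ :=
        ⟨_, ⟨_, rfl⟩, rfl⟩
      have h3 := comm_t h2
      have h4 : ((hnn F).σ ⟨P, ⟨φ, hφF⟩⟩)⁻¹ * reg S (toS F ⟨P, ⟨φ, hφF⟩⟩ ⟨⟨x, hP x.2⟩, x.2⟩) *
          (hnn F).σ ⟨P, ⟨φ, hφF⟩⟩ = reg S ⟨x, hP x.2⟩ := by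
        rw [← h1]
        show (sig F ⟨P, ⟨φ, hφF⟩⟩)⁻¹ * (sig F ⟨P, ⟨φ, hφF⟩⟩ * _ * (sig F ⟨P, ⟨φ, hφF⟩⟩)⁻¹) *
          sig F ⟨P, ⟨φ, hφF⟩⟩ = _
        group
      rw [h4] at h3
      have h5 : toS F ⟨P, ⟨φ, hφF⟩⟩ ⟨⟨x, hP x.2⟩, x.2⟩ = ⟨φ x, hφ x⟩ := rfl
      rw [h5] at h3
      show inr (reg S ⟨φ x, hφ x⟩) = (hnn F).t ⟨P, ⟨φ, hφF⟩⟩ * inr (reg S ⟨x, hP x.2⟩) *
        ((hnn F).t ⟨P, ⟨φ, hφF⟩⟩)⁻¹
      rw [← h3, mul_inv_cancel_right]
    · rintro ⟨g, hg⟩
      obtain ⟨n, hn⟩ := exists_red g.2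
      refine mem_of_red F hn P hP φ hφ fun x => ?_
      have h1 := congrArg Subtype.val (hg x)
      rw [Subgroup.coe_mul, Subgroup.coe_mul, Subgroup.coe_inv, hι, hι] at h1
      rw [h1, inv_mul_cancel_right]
  · intro H hH
    have h1 : Finite (H.map (hnn F).G.subtype) :=
      Finite.of_surjective _ (MonoidHom.subgroupMap_surjective (hnn F).G.subtype H)
    obtain ⟨g, hg, hgH⟩ := exists_conj (H.map (hnn F).G.subtype) (by
      rintro _ ⟨x, -, rfl⟩
      exact x.2) h1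
    refine ⟨⟨g, hg⟩, fun h hh => ?_⟩
    obtain ⟨_, ⟨s, rfl⟩, he⟩ := hgH h ⟨h, hh, rfl⟩
    refine ⟨s, Subtype.ext ?_⟩
    rw [hι, ← he]
    rfl
  · let f : (hnn F).G →* Equiv.Perm S := (rightHom : FreeAct.E (hnn F).X (Equiv.Perm S) →* _).comp
      (hnn F).G.subtype
    refine ⟨f.ker, inferInstance, ?_, ?_⟩
    · let k : f.ker →* FreeGroup (hnn F).X :=
        { toFun := fun x => (x : (hnn F).G).1.left
          map_one' := rfl
          map_mul' := by
            intro x y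
            have hx : ((x : (hnn F).G).1).right = 1 := x.2
            show ((x : (hnn F).G).1 * (y : (hnn F).G).1).left = _
            rw [mul_left, hx, map_one]
            rfl }
      have hk : Function.Injective k := by
        intro x y hxy
        apply Subtype.ext
        apply Subtype.ext
        have hx : ((x : (hnn F).G).1).right = 1 := x.2
        have hy : ((y : (hnn F).G).1).right = 1 := y.2
        exact SemidirectProduct.ext hxy (by rw [hx, hy])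
      have h1 : IsFreeGroup k.range := inferInstance
      exact IsFreeGroup.ofMulEquiv (MonoidHom.ofInjective hk).symm
    · rw [Subgroup.index_ker]
      have h1 : Nat.card f.range ∣ Nat.card (Equiv.Perm S) := Subgroup.card_subgroup_dvd_card _
      rwa [Nat.card_perm] at h1

end Cfsg.Agent.S5286
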