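import Cfsg.Statements.S5290
import Cfsg.Agent.H792.NormalCrit

set_option autoImplicit false
open Cfsg

namespace Cfsg.Agent.S5290

/-- Let F be a saturated fusion system over a finite p-group S and Q a subgroup of S. Then Q is normal in F (F = N_F(Q)) if and only if the inner fusion system of Q, consisting of the conjugations by elements of Q on subgroups of Q, is a weakly normal subsystem of F (both saturated, Q strongly closed, invariant under F-conjugation, with the Frattini property). -/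
theorem result {Ω : Type*} [Group Ω] {S : Subgroup Ω} [Finite S] (p : ℕ) [Fact p.Prime] (hS : IsPGroup p S)
    (F : Cfsg.FusionSystem S) (hF : F.IsSaturated p)
    (Q : Subgroup Ω) (hQ : Q ≤ S) :
    F.IsNormal Q ↔ (Cfsg.innerFusionSystem Q).IsWeaklyNormalIn F p := by
  constructor
  · intro hN
    have hQp : IsPGroup p Q := hS.to_le hQ
    have hfinQ : Finite Q := H802.finite_of_le hQ
    refine ⟨H802.innerFusionSystem_isSaturated hQp, hF, ?_, H759.IsNormal.stronglyClosed hN, ?_, ?_⟩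
    · rintro P φ ⟨hP, g, hg, h⟩
      exact H759.conj_mem' F (hP.trans hQ) (hQ hg) h
    · rintro P hPT φ ⟨-, g, hg, h⟩ α hα
      refine ⟨conjHom _ ((α ⟨g, hg⟩ : Q) : Ω), (Cfsg.innerFusionSystem Q).conj_mem ?_ (α ⟨g, hg⟩).2,
        fun x hφx hαx => ?_⟩
      · rintro _ ⟨y, -, rfl⟩
        exact (α y).2
      · show ((α ⟨g, hg⟩ : Q) : Ω) * ((α ⟨x, hPT x.2⟩ : Q) : Ω) * ((α ⟨g, hg⟩ : Q) : Ω)⁻¹ = _
        have h1 : (⟨φ x, hφx⟩ : Q) = ⟨g, hg⟩ * ⟨x, hPT x.2⟩ * ⟨g, hg⟩⁻¹ := Subtype.ext (h x)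
        rw [h1, map_mul, map_mul, map_inv]
        rfl
    · intro P hP φ hφ
      obtain ⟨α, hα, h⟩ := H792.exists_aut_extension hN hP hφ
      exact ⟨α, hα, P.subtype, H802.subtype_mem _ hP, fun x hx => h x⟩
  · rintro ⟨-, -, -, -, -, hfr⟩
    refine H792.isNormal_of_extends_aut hS hF hQ (fun P hP φ hφ => ?_)
    obtain ⟨α, hα, φ₀, ⟨-, g, hg, hφ₀⟩, h⟩ := hfr P hP φ hφ
    refine ⟨α * MulAut.conj ⟨g, hg⟩, fun x => ?_⟩
    have h1 : φ₀ x ∈ Q := by
      rw [hφ₀]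
      exact Q.mul_mem (Q.mul_mem hg (hP x.2)) (Q.inv_mem hg)
    rw [h x h1]
    have h2 : (⟨φ₀ x, h1⟩ : Q) = MulAut.conj ⟨g, hg⟩ ⟨x, hP x.2⟩ := Subtype.ext (hφ₀ x)
    rw [h2]
    rfl

end Cfsg.Agent.S5290
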