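import Cfsg.Statements.S5291
import Cfsg.Agent.H792.WeakNormal

set_option autoImplicit false
open Cfsg

namespace Cfsg.Agent.S5291

/-- Let F be a saturated fusion system over a finite p-group S and E a weakly normal subsystem of F over a subgroup T. Suppose a subgroup R of T is normal in E (E = N_E(R)), and let R* be the subgroup of T generated by the images of R under all maps of F with source R. Then R* is normal in F (F = N_F(R*)). -/
theorem result {Ω : Type*} [Group Ω] {S : Subgroup Ω} [Finite S] (p : ℕ) [Fact p.Prime] (hS : IsPGroup p S)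
    (F : Cfsg.FusionSystem S) (hF : F.IsSaturated p)
    {T : Subgroup Ω} (E : Cfsg.FusionSystem T) (hE : E.IsWeaklyNormalIn F p)
    (R : Subgroup Ω) (hR : E.IsNormal R) :
    F.IsNormal (Subgroup.closure {x : Ω | ∃ φ ∈ F.Hom R, ∃ r : R, x = φ r}) := by
  have hinv := hE.2.2
  have hTS : T ≤ S := hinv.2.1.1
  have hRT : R ≤ T := hR.1
  have hRsc : E.StronglyClosed R := H759.IsNormal.stronglyClosed hR
  set Rs := Subgroup.closure {x : Ω | ∃ φ ∈ F.Hom R, ∃ r : R, x = φ r} with hRs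
  have hstar : Rs = sSup {Q : Subgroup Ω | ∃ α ∈ F.autGroup T,
      Q = (R.subgroupOf T).map (T.subtype.comp α.toMonoidHom)} := by
    apply le_antisymm
    · rw [hRs, Subgroup.closure_le]
      rintro x ⟨φ, hφ, r, rfl⟩
      obtain ⟨α, hα, φ₀, hφ₀, h⟩ := hinv.2.2.2 R hRT φ hφ
      have h1 : φ₀ r ∈ R := hRsc.2 R le_rfl φ₀ hφ₀ r
      rw [h r (hRT h1)]
      have h2 : ((α ⟨φ₀ r, hRT h1⟩ : T) : Ω) ∈ (R.subgroupOf T).map (T.subtype.comp α.toMonoidHom) :=
        ⟨⟨φ₀ r, hRT h1⟩, h1, rfl⟩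
      have h3 : (R.subgroupOf T).map (T.subtype.comp α.toMonoidHom) ≤
          sSup {Q : Subgroup Ω | ∃ α ∈ F.autGroup T,
            Q = (R.subgroupOf T).map (T.subtype.comp α.toMonoidHom)} := by
        apply le_sSup
        exact ⟨α, hα, rfl⟩
      exact h3 h2
    · refine sSup_le ?_
      rintro _ ⟨α, hα, rfl⟩
      rintro _ ⟨y, hy, rfl⟩
      refine Subgroup.subset_closure ⟨(T.subtype.comp α.toMonoidHom).comp (Subgroup.inclusion hRT),
        H802.restrict_mem ((H802.mem_autGroup_iff F hTS α).1 hα) hRT, ⟨y, hy⟩, rfl⟩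
  have hN : E.IsNormal Rs := by
    have hfinT : Finite T := H802.finite_of_le hTS
    rw [hstar]
    refine H792.isNormal_sSup ?_
    rintro _ ⟨α, hα, rfl⟩
    exact H792.isNormal_image hinv hα hR
  refine H792.isNormal_of_invariant_normal hS hF hinv hN ?_
  intro α hα x hx
  have hle : Rs ≤ (Rs.comap (T.subtype.comp α.toMonoidHom)).map T.subtype := by
    rw [hRs, Subgroup.closure_le]
    rintro _ ⟨φ, hφ, r, rfl⟩
    have hφT : ∀ y : R, φ y ∈ T := fun y => hinv.2.1.2 R hRT φ hφ y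
    refine ⟨⟨φ r, hφT r⟩, ?_, rfl⟩
    obtain ⟨χ, hχ, h⟩ := H802.exists_comp hφ ((H802.mem_autGroup_iff F hTS α).1 hα) hφT
    exact Subgroup.subset_closure ⟨χ, hχ, r, (h r).symm⟩
  obtain ⟨y, hy, hyx⟩ := hle hx
  have : y = x := Subtype.ext hyx
  rw [← this]
  exact hy

end Cfsg.Agent.S5291
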