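import Cfsg.Statements.S5292
import Cfsg.Agent.H792.PSolv

set_option autoImplicit false
universe u
open Cfsg

namespace Cfsg.Agent.S5292

/-- Let F be a saturated fusion system over a finite p-group S. Then F is the fusion system of some finite p-solvable group on a Sylow p-subgroup if and only if F is constrained (some subgroup normal in F is centric in F) and the group of automorphisms that F induces on its largest normal subgroup O_p(F) is p-solvable. -/
theorem result {Ω : Type u} [Group Ω] {S : Subgroup Ω} [Finite S] (p : ℕ) [Fact p.Prime] (hS : IsPGroup p S)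
    (F : Cfsg.FusionSystem S) (hF : F.IsSaturated p) :
    (∃ (G : Type u) (_ : Group G) (_ : Finite G) (ι : S →* G), Cfsg.IsPSolvable p G ∧ F.IsRealizedBy ι ∧
        ∃ T : Sylow p G, (T : Subgroup G) = ι.range) ↔
      (F.IsConstrained p ∧ Cfsg.IsPSolvable p ↥(F.autGroup F.core)) := by
  constructor
  · rintro ⟨G, _, _, ι, hG, hr, T, hT⟩
    exact ⟨H792.isConstrained_of_pSolvable hS hG hr T hT,
      H792.isPSolvable_autGroup hG hr (H759.isNormal_core (F := F)).1⟩
  · rintro ⟨⟨-, Q₀, hQ₀, hQ₀c⟩, hsol⟩
    have hQn := H759.isNormal_core (F := F)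
    have hQc : F.IsCentric F.core := H802.isCentric_of_le hQ₀c (le_sSup hQ₀) hQn.1
    obtain ⟨L, hL, ι, ρ, h⟩ := H771.exists_qmodel hS hF hQn hQc
      (H771.le_normalizer_of_isNormal hQn)
    obtain ⟨hfin, hr, hT, -⟩ := h.isModel hS hF hQn hQc
    exact ⟨L, hL, hfin, ι, H792.isPSolvable_of_isQModel h hS hsol, hr, hT⟩

end Cfsg.Agent.S5292
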