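import Cfsg.Statements.S5294
import Cfsg.Agent.H792.CenterSplit

set_option autoImplicit false
universe u
open Cfsg

namespace Cfsg.Agent.S5294

/-- Let F be a saturated fusion system over a finite p-group S whose centre Z(S) lies in the largest subgroup O_p(F) normal in F. Then the centre Z(F) of F is a direct factor of Z(S): there is a subgroup K of Z(S) with Z(F) ∩ K = 1 and Z(F)K = Z(S). -/
theorem result {Ω : Type u} [Group Ω] {S : Subgroup Ω} [Finite S] (p : ℕ) [Fact p.Prime] (hS : IsPGroup p S)
    (F : Cfsg.FusionSystem S) (hF : F.IsSaturated p) (hZ : (S ⊓ Subgroup.centralizer (S : Set Ω)) ≤ F.core) :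
    ∃ K : Subgroup Ω, K ≤ (S ⊓ Subgroup.centralizer (S : Set Ω)) ∧ F.center ⊓ K = ⊥ ∧ F.center ⊔ K = (S ⊓ Subgroup.centralizer (S : Set Ω)) := by
  exact H792.center_splits_of_isNormal hS hF H759.isNormal_core hZ

end Cfsg.Agent.S5294
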