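import Cfsg.Statements.S5320
import Cfsg.Agent.H798.PSpMat

set_option autoImplicit false
open Cfsg

namespace Cfsg.Agent.S5320

/-- For a finite field F of odd order, the 2-fusion system of the projective symplectic group PSp(4,F) on a Sylow 2-subgroup is simple. -/
theorem result {F : Type*} [Field F] [Fintype F] (hodd : Fintype.card F % 2 = 1) (S : Sylow 2 (Cfsg.PSp 2 F)) :
    (Cfsg.groupFusionSystem (S : Subgroup (Cfsg.PSp 2 F))).IsSimple 2 := by
  classical
  have hfin : Finite (Cfsg.PSp 2 F) := inferInstanceAs (Finite (_ ⧸ _))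
  obtain ⟨k, f, s, H⟩ := Cfsg.Agent.H798.PSpMat.exists_fus (Nat.odd_iff.2 hodd) S
  exact Cfsg.Agent.H798.PSpFus.isSimple H

end Cfsg.Agent.S5320
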