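import Cfsg.Statements.S5322
import Cfsg.Agent.H799.JTwoThree

set_option autoImplicit false
open Cfsg

namespace Cfsg.Agent.S5322

/-- For a finite group G isomorphic to the third Janko group J₃, the 2-fusion system of G on a Sylow 2-subgroup is simple: saturated, over a nontrivial 2-group, with no normal subsystem other than the trivial one and itself. -/
theorem result {G : Type*} [Group G] [Finite G] (hG : Cfsg.Spor.IsoJ3 G) (S : Sylow 2 G) : (Cfsg.groupFusionSystem (S : Subgroup G)).IsSimple 2 :=
  Cfsg.Agent.H799.JTwoThree.jthree hG S

end Cfsg.Agent.S5322
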