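import Cfsg.Statements.S5329
import Cfsg.Agent.H767.FusTransfer
import Cfsg.Agent.H801.AbFus
import Mathlib.GroupTheory.Abelianization.Defs
import Mathlib.Algebra.Group.Commutator

set_option autoImplicit false
open Cfsg

namespace Cfsg.Agent.S5329

open Cfsg.FusionSystem Cfsg.Agent.H802 Cfsg.Agent.H801
open scoped commutatorElement

/-- For a saturated fusion system F over a finite p-group S, the focal subgroup and the derived subgroup of S meet the centre Z(F) of the system in the same subgroup: foc(F) ∩ Z(F) = S′ ∩ Z(F). -/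
theorem result {Ω : Type*} [Group Ω] {S : Subgroup Ω} [Finite S] (p : ℕ) [Fact p.Prime] (hS : IsPGroup p S) (F : Cfsg.FusionSystem S) (hF : F.IsSaturated p) : F.focalSubgroup ⊓ F.center = ⁅(S : Subgroup Ω), (S : Subgroup Ω)⁆ ⊓ F.center := by
  classical
  have hp : p.Prime := Fact.out
  have hcomm : (commutator S).map S.subtype = ⁅(S : Subgroup Ω), (S : Subgroup Ω)⁆ := by
    rw [commutator_def, Subgroup.map_commutator, ← MonoidHom.range_eq_map, Subgroup.range_subtype]
  apply le_antisymm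
  · rintro z ⟨hzf, hzc⟩
    refine ⟨?_, hzc⟩
    have hzS : z ∈ S := center_le F hzc
    obtain ⟨m, τ, hm, hτ, hτz⟩ := Cfsg.Agent.H767.FusTransfer.exists_transfer hS hF (Abelianization.of (G := S))
    obtain ⟨g, hg, hgz⟩ := Cfsg.Agent.H767.FusTransfer.focal_le τ hτ hzf
    have hg1 : τ g = 1 := hg
    have hgz' : (g : Ω) = z := hgz
    have hval := hτz g (by
      intro y P φ hφ hy hyg
      have hyc : (y : Ω) ∈ F.center := by
        obtain ⟨k, rfl⟩ := Subgroup.mem_zpowers_iff.1 hyg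
        rw [Subgroup.coe_zpow, hgz']
        exact Subgroup.zpow_mem _ hzc k
      have h1 := apply_eq_of_mem_center hφ ⟨y, hy⟩ hyc
      congr 1
      exact Subtype.ext h1)
    rw [hg1] at hval
    have hval1 : Abelianization.of (g ^ m) = 1 := by rw [map_pow]; exact hval.symm
    have h2 : g ^ m ∈ commutator S := by
      rwa [← Abelianization.ker_of, MonoidHom.mem_ker]
    -- `g` has `p`-power order and `m` is prime to `p`
    obtain ⟨k, hk⟩ := hS g
    have hcop : Nat.Coprime m (p ^ k) := Nat.Coprime.pow_right k ((hp.coprime_iff_not_dvd.2 hm).symm)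
    have h3 : g ∈ commutator S := by
      have hgcd : (1 : ℤ) = m * Nat.gcdA m (p ^ k) + (p ^ k : ℕ) * Nat.gcdB m (p ^ k) := by
        rw [← Nat.gcd_eq_gcd_ab, hcop]
        rfl
      have h4 : g = (g ^ m) ^ (Nat.gcdA m (p ^ k)) := by
        calc g = g ^ (1 : ℤ) := (zpow_one g).symm
          _ = g ^ ((m : ℤ) * Nat.gcdA m (p ^ k) + (p ^ k : ℕ) * Nat.gcdB m (p ^ k)) := by rw [← hgcd]
          _ = (g ^ m) ^ (Nat.gcdA m (p ^ k)) := by
              rw [zpow_add, zpow_mul, zpow_mul, zpow_natCast, zpow_natCast, hk, one_zpow, mul_one]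
      rw [h4]
      exact Subgroup.zpow_mem _ h2 _
    rw [← hcomm, ← hgz']
    exact ⟨g, h3, rfl⟩
  · refine inf_le_inf_right _ ?_
    rw [Subgroup.commutator_le]
    intro x hx y hy
    have hmem : (x⁻¹)⁻¹ * (y * x⁻¹ * y⁻¹) ∈ F.focalSubgroup :=
      Subgroup.subset_closure ⟨S, conjHom S y, ⟨x⁻¹, S.inv_mem hx⟩, F.conj_mem le_rfl hy, rfl⟩
    have : (⁅x, y⁆ : Ω) = (x⁻¹)⁻¹ * (y * x⁻¹ * y⁻¹) := by rw [commutatorElement_def]; group
    rw [this]
    exact hmem

end Cfsg.Agent.S5329
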