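import Cfsg.Statements.S5330
import Cfsg.Agent.H801.AbFus

set_option autoImplicit false
open Cfsg

namespace Cfsg.Agent.S5330

open Cfsg.FusionSystem Cfsg.Agent.H802 Cfsg.Agent.H801

/-- Let F be a saturated fusion system over a finite abelian p-group S. Then S is the internal direct product of the centre of the system and the focal subgroup: Z(F) ∩ foc(F) = 1 and Z(F)·foc(F) = S. -/
theorem result {Ω : Type*} [Group Ω] {S : Subgroup Ω} [Finite S] (p : ℕ) [Fact p.Prime] (hS : IsPGroup p S) (F : Cfsg.FusionSystem S) (hF : F.IsSaturated p) (hab : ∀ x ∈ S, ∀ y ∈ S, x * y = y * x) : F.center ⊓ F.focalSubgroup = ⊥ ∧ F.center ⊔ F.focalSubgroup = S := by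
  classical
  letI : CommGroup S := { (inferInstance : Group S) with
    mul_comm := fun x y => Subtype.ext (hab x x.2 y y.2) }
  have hfoc := focal_eq_of_abelian hS hF hab
  have hco := coprime_card_autGroup hS hF hab
  have hfocS : F.focalSubgroup ≤ S := by
    rw [hfoc]
    exact Subgroup.map_subtype_le _
  constructor
  · rw [eq_bot_iff]
    rintro x ⟨hxc, hxf⟩
    rw [hfoc] at hxf
    obtain ⟨y, hy, rfl⟩ := hxf
    have hy1 : y = 1 := by
      refine coprime_disjoint (F.autGroup S) hco (fun α hα => ?_) hy
      apply Subtype.ext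
      exact apply_eq_of_mem_center ((mem_autGroup_iff F le_rfl α).1 hα) y hxc
    rw [hy1]
    exact Subgroup.one_mem _
  · apply le_antisymm (sup_le (center_le F) hfocS)
    intro x hx
    obtain ⟨c, hc, d, hd, hcd⟩ := coprime_codisjoint (F.autGroup S) hco ⟨x, hx⟩
    have hcd' : x = (c : Ω) * (d : Ω) := congrArg Subtype.val hcd
    rw [hcd']
    refine Subgroup.mul_mem_sup ?_ ?_
    · let Q : Subgroup S :=
        { carrier := {c : S | ∀ α ∈ F.autGroup S, α c = c}
          mul_mem' := fun {a b} ha hb α hα => by rw [map_mul, ha α hα, hb α hα]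
          one_mem' := fun α _ => map_one α
          inv_mem' := fun {a} ha α hα => by rw [map_inv, ha α hα] }
      have hQS : Q.map S.subtype ≤ S := Subgroup.map_subtype_le _
      refine fixed_le_center hS hF hab hQS ?_ ⟨c, hc, rfl⟩
      rintro α hα _ ⟨z, hz, rfl⟩
      exact congrArg Subtype.val (hz α hα)
    · rw [hfoc]
      exact ⟨d, hd, rfl⟩

end Cfsg.Agent.S5330
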