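import Cfsg.Statements.S5331
import Cfsg.Agent.H801.AbFus

set_option autoImplicit false
open Cfsg

namespace Cfsg.Agent.S5331

open Cfsg.FusionSystem Cfsg.Agent.H802 Cfsg.Agent.H801

/-- An element of order dividing 2 of `ZMod (2 ^ k)`, `k ≥ 1`, is `0` or `2 ^ (k - 1)`. -/
theorem zmod_two_torsion {k : ℕ} (hk : 1 ≤ k) (z : ZMod (2 ^ k)) (hz : (2 : ZMod (2 ^ k)) * z = 0) :
    z = 0 ∨ z = ((2 ^ (k - 1) : ℕ) : ZMod (2 ^ k)) := by
  have : NeZero (2 ^ k) := ⟨by positivity⟩
  obtain ⟨m, hm, rfl⟩ : ∃ m : ℕ, m < 2 ^ k ∧ ((m : ℕ) : ZMod (2 ^ k)) = z :=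
    ⟨z.val, ZMod.val_lt z, ZMod.natCast_zmod_val z⟩
  have h1 : ((2 * m : ℕ) : ZMod (2 ^ k)) = 0 := by push_cast; exact hz
  rw [ZMod.natCast_eq_zero_iff] at h1
  have h2 : 2 ^ k = 2 * 2 ^ (k - 1) := by
    rw [← pow_succ']
    congr 1
    omega
  rw [h2] at h1 hm
  have h3 : 2 ^ (k - 1) ∣ m := Nat.dvd_of_mul_dvd_mul_left (by norm_num) h1
  obtain ⟨c, rfl⟩ := h3
  have hc : c < 2 := by
    have h4 : 2 ^ (k - 1) * c < 2 ^ (k - 1) * 2 := by linarith
    exact lt_of_mul_lt_mul_left h4 (by positivity)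
  interval_cases c
  · left; simp
  · right; simp

section

variable {n : ℕ} {a : Fin n → ℕ}

theorem coord_torsion (ha1 : ∀ i, 1 ≤ a i) {x : ∀ i : Fin n, ZMod (2 ^ a i)} (hx : 2 • x = 0)
    (i : Fin n) : x i = 0 ∨ x i = ((2 ^ (a i - 1) : ℕ) : ZMod (2 ^ a i)) := by
  refine zmod_two_torsion (ha1 i) _ ?_
  have h := congrFun hx i
  have h2 : (2 • x) i = 2 • x i := rfl
  rw [h2, nsmul_eq_mul] at h
  exact_mod_cast h

/-- The filtration of the 2-torsion is preserved by additive endomorphisms. -/
theorem map_coord_zero (ha : StrictMono a) (ha1 : ∀ i, 1 ≤ a i)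
    (f : (∀ i : Fin n, ZMod (2 ^ a i)) →+ (∀ i : Fin n, ZMod (2 ^ a i))) (k : Fin n)
    (x : ∀ i : Fin n, ZMod (2 ^ a i)) (hx : 2 • x = 0) (hk : ∀ i : Fin n, i < k → x i = 0)
    (i : Fin n) (hi : i < k) : f x i = 0 := by
  have hy : ∃ y : ∀ i : Fin n, ZMod (2 ^ a i), x = 2 ^ (a k - 1) • y := by
    have hloc : ∀ j : Fin n, ∃ y : ZMod (2 ^ a j), x j = 2 ^ (a k - 1) • y := by
      intro j
      rcases coord_torsion ha1 hx j with h0 | h1
      · exact ⟨0, by rw [h0, smul_zero]⟩
      · rcases lt_or_ge j k with hj | hj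
        · exact ⟨0, by rw [hk j hj, smul_zero]⟩
        · refine ⟨((2 ^ (a j - a k) : ℕ) : ZMod (2 ^ a j)), ?_⟩
          rw [h1, nsmul_eq_mul]
          have hle : a k ≤ a j := ha.monotone hj
          have h1k := ha1 k
          have : 2 ^ (a j - 1) = 2 ^ (a k - 1) * 2 ^ (a j - a k) := by
            rw [← pow_add]
            congr 1
            omega
          rw [this]
          push_cast
          ring
    choose y hy using hloc
    exact ⟨y, funext hy⟩
  obtain ⟨y, rfl⟩ := hy
  rw [map_nsmul]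
  have h2 : (2 ^ (a k - 1) • f y) i = 2 ^ (a k - 1) • (f y i) := rfl
  rw [h2, nsmul_eq_mul]
  have hlt : a i < a k := ha hi
  have hz : ((2 ^ (a k - 1) : ℕ) : ZMod (2 ^ a i)) = 0 := by
    rw [ZMod.natCast_eq_zero_iff]
    exact pow_dvd_pow 2 (by omega)
  rw [hz, zero_mul]

theorem iterate_add {M : Type*} [AddCommGroup M] (f : M →+ M) {x v : M} (hx : f x = x + v)
    (hv : f v = v) (m : ℕ) : f^[m] x = x + m • v := by
  induction m with
  | zero => simp
  | succ m ih =>
    rw [Function.iterate_succ_apply', ih, map_add, map_nsmul, hx, hv]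
    rw [succ_nsmul]
    abel

/-- An odd-order additive automorphism of a product of cyclic 2-groups of distinct orders fixes every element of
order two. -/
theorem fix_two_torsion (ha : StrictMono a) (ha1 : ∀ i, 1 ≤ a i)
    (f : (∀ i : Fin n, ZMod (2 ^ a i)) →+ (∀ i : Fin n, ZMod (2 ^ a i))) {m : ℕ} (hm : Odd m)
    (hf : ∀ x, f^[m] x = x) (hinj : Function.Injective f) :
    ∀ (j k : ℕ), n = k + j → ∀ (x : ∀ i : Fin n, ZMod (2 ^ a i)), 2 • x = 0 →
      (∀ i : Fin n, (i : ℕ) < k → x i = 0) → f x = x := by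
  intro j
  induction j with
  | zero =>
    intro k hk x hx hx0
    have : x = 0 := funext fun i => hx0 i (by have := i.2; omega)
    rw [this, map_zero]
  | succ j ih =>
    intro k hk x hx hx0
    have hkn : k < n := by omega
    set K : Fin n := ⟨k, hkn⟩ with hK
    have ih' := ih (k + 1) (by omega)
    have hfx2 : 2 • f x = 0 := by rw [← map_nsmul, hx, map_zero]
    have hfx0 : ∀ i : Fin n, (i : ℕ) < k → f x i = 0 := fun i hi =>
      map_coord_zero ha ha1 f K x hx (fun i hi => hx0 i hi) i hi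
    by_cases hxK : x K = 0
    · refine ih' x hx fun i hi => ?_
      rcases Nat.lt_succ_iff_lt_or_eq.1 hi with h | h
      · exact hx0 i h
      · have : i = K := Fin.ext h
        rw [this]
        exact hxK
    by_cases hfK : f x K = 0
    · have h1 : f (f x) = f x := by
        refine ih' (f x) hfx2 fun i hi => ?_
        rcases Nat.lt_succ_iff_lt_or_eq.1 hi with h | h
        · exact hfx0 i h
        · have : i = K := Fin.ext h
          rw [this]
          exact hfK
      exact hinj h1
    have h1 : x K = f x K := by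
      rw [(coord_torsion ha1 hx K).resolve_left hxK, (coord_torsion ha1 hfx2 K).resolve_left hfK]
    have hv2 : 2 • (f x - x) = 0 := by rw [smul_sub, hx, hfx2, sub_zero]
    have hv : f (f x - x) = f x - x := by
      refine ih' _ hv2 fun i hi => ?_
      show f x i - x i = 0
      rcases Nat.lt_succ_iff_lt_or_eq.1 hi with h | h
      · rw [hfx0 i h, hx0 i h, sub_zero]
      · have : i = K := Fin.ext h
        rw [this, h1, sub_self]
    have h3 := iterate_add f (x := x) (v := f x - x) (by abel) hv m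
    rw [hf] at h3
    have h4 : m • (f x - x) = 0 := by
      have := h3.symm
      rwa [add_eq_left] at this
    obtain ⟨c, rfl⟩ := hm
    rw [add_smul, mul_comm, mul_smul, hv2, smul_zero, zero_add, one_smul] at h4
    exact sub_eq_zero.1 h4

end

/-- Let S be a finite abelian 2-group that is a direct product of cyclic groups of pairwise distinct orders 2^{a_1} < 2^{a_2} < ⋯ < 2^{a_n} (all a_i ≥ 1). Then every saturated fusion system over S is the inner one: its maps are exactly the conjugations by elements of S. -/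
theorem result {Ω : Type*} [Group Ω] {S : Subgroup Ω} [Finite S] (n : ℕ) (a : Fin n → ℕ) (ha : StrictMono a) (ha1 : ∀ i, 1 ≤ a i) (e : ↥S ≃* Multiplicative ((i : Fin n) → ZMod (2 ^ a i))) (F : Cfsg.FusionSystem S) (hF : F.IsSaturated 2) (P : Subgroup Ω) : F.Hom P = (Cfsg.innerFusionSystem S).Hom P := by
  classical
  have : Fact (Nat.Prime 2) := ⟨Nat.prime_two⟩
  have hab : ∀ x ∈ S, ∀ y ∈ S, x * y = y * x := by
    intro x hx y hy
    have h : (⟨x, hx⟩ : S) * ⟨y, hy⟩ = ⟨y, hy⟩ * ⟨x, hx⟩ := by
      apply e.injective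
      rw [map_mul, map_mul, mul_comm]
    exact congrArg Subtype.val h
  have hexp : ∀ i : Fin n, a i ≤ ∑ i, a i := fun i =>
    Finset.single_le_sum (fun _ _ => Nat.zero_le _) (Finset.mem_univ i)
  have hS : IsPGroup 2 S := by
    intro x
    refine ⟨∑ i, a i, ?_⟩
    apply e.injective
    rw [map_pow, map_one]
    apply Multiplicative.toAdd.injective
    rw [toAdd_pow, toAdd_one]
    funext i
    show (2 ^ (∑ i, a i) : ℕ) • ((Multiplicative.toAdd (e x)) i) = 0
    rw [nsmul_eq_mul]
    have hz : ((2 ^ (∑ i, a i) : ℕ) : ZMod (2 ^ a i)) = 0 := by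
      rw [ZMod.natCast_eq_zero_iff]
      exact pow_dvd_pow 2 (hexp i)
    rw [hz, zero_mul]
  let _ : CommGroup S := { (inferInstance : Group S) with
    mul_comm := fun x y => Subtype.ext (hab x x.2 y y.2) }
  have hco := coprime_card_autGroup hS hF hab
  have hodd : Odd (Nat.card (F.autGroup S)) := by
    have h := not_dvd_card_autGroup_of_abelian hS hF hab
    rwa [← Nat.not_even_iff_odd, even_iff_two_dvd]
  -- elements of order two are fixed
  have hfix2 : ∀ α ∈ F.autGroup S, ∀ x : S, x ^ 2 = 1 → α x = x := by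
    intro α hα x hx
    let f : (∀ i : Fin n, ZMod (2 ^ a i)) →+ (∀ i : Fin n, ZMod (2 ^ a i)) :=
      { toFun := fun v => Multiplicative.toAdd (e (α (e.symm (Multiplicative.ofAdd v))))
        map_zero' := by
          show Multiplicative.toAdd (e (α (e.symm 1))) = 0
          simp
        map_add' := fun v w => by
          show Multiplicative.toAdd
            (e (α (e.symm (Multiplicative.ofAdd v * Multiplicative.ofAdd w)))) = _
          simp }
    have hiter : ∀ (j : ℕ) (v : ∀ i : Fin n, ZMod (2 ^ a i)),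
        f^[j] v = Multiplicative.toAdd (e ((α ^ j) (e.symm (Multiplicative.ofAdd v)))) := by
      intro j
      induction j with
      | zero => intro v; simp
      | succ j ih =>
        intro v
        rw [Function.iterate_succ_apply', ih]
        show Multiplicative.toAdd (e (α (e.symm (e ((α ^ j) _))))) = _
        rw [MulEquiv.symm_apply_apply, pow_succ', MulAut.mul_apply]
    have hf : ∀ v, f^[Nat.card (F.autGroup S)] v = v := by
      intro v
      have hpow : α ^ Nat.card (F.autGroup S) = 1 := by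
        have h := pow_card_eq_one' (x := (⟨α, hα⟩ : F.autGroup S))
        exact congrArg Subtype.val h
      rw [hiter, hpow]
      simp
    have hinj : Function.Injective f := by
      intro v w hvw
      have h1 : e (α (e.symm (Multiplicative.ofAdd v))) = e (α (e.symm (Multiplicative.ofAdd w))) :=
        Multiplicative.toAdd.injective hvw
      exact Multiplicative.ofAdd.injective (e.symm.injective (α.injective (e.injective h1)))
    have h := fix_two_torsion ha ha1 f hodd hf hinj n 0 (by omega)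
      (Multiplicative.toAdd (e x)) ?_ (fun i hi => absurd hi (by omega))
    · have h1 : e (α (e.symm (e x))) = e x := Multiplicative.toAdd.injective h
      rw [MulEquiv.symm_apply_apply] at h1
      exact e.injective h1
    · rw [← toAdd_pow, ← map_pow, hx]
      simp
  -- hence `Aut_F(S)` is trivial
  have hA : ∀ α ∈ F.autGroup S, ∀ x : S, α x = x := by
    intro α hα x
    by_contra hne
    set D := Subgroup.closure {y : S | ∃ α ∈ F.autGroup S, ∃ z : S, y = z⁻¹ * α z} with hD
    have hy : x⁻¹ * α x ∈ D := Subgroup.subset_closure ⟨α, hα, x, rfl⟩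
    have hy1 : x⁻¹ * α x ≠ 1 := fun h => hne (inv_mul_eq_one.1 h).symm
    obtain ⟨k, hk⟩ := (IsPGroup.iff_orderOf).1 hS (x⁻¹ * α x)
    have hk0 : k ≠ 0 := by
      rintro rfl
      exact hy1 (orderOf_eq_one_iff.1 (by simpa using hk))
    have h2 : orderOf ((x⁻¹ * α x) ^ 2 ^ (k - 1)) = 2 := by
      rw [orderOf_pow, hk]
      have hg : Nat.gcd (2 ^ k) (2 ^ (k - 1)) = 2 ^ (k - 1) :=
        Nat.gcd_eq_right (pow_dvd_pow 2 (by omega))
      rw [hg]
      have : 2 ^ k = 2 * 2 ^ (k - 1) := by
        rw [← pow_succ']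
        congr 1
        omega
      rw [this]
      exact Nat.mul_div_cancel _ (by positivity)
    have h3 : ((x⁻¹ * α x) ^ 2 ^ (k - 1)) ^ 2 = 1 := by
      have := pow_orderOf_eq_one ((x⁻¹ * α x) ^ 2 ^ (k - 1))
      rwa [h2] at this
    have h4 : (x⁻¹ * α x) ^ 2 ^ (k - 1) = 1 :=
      coprime_disjoint (F.autGroup S) hco (fun β hβ => hfix2 β hβ _ h3) (D.pow_mem hy _)
    rw [h4, orderOf_one] at h2
    exact absurd h2 (by norm_num)
  apply Set.Subset.antisymm
  · intro φ hφ
    obtain ⟨α, hα, hαe⟩ := exists_aut_extends hS hF hab hφ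
    refine ⟨hom_le hφ, 1, S.one_mem, fun x => ?_⟩
    rw [← hαe x x.2 (hom_le hφ x.2), hA α hα]
    simp
  · rintro φ ⟨hP, g, hg, h⟩
    exact mem_of_apply_eq (F.conj_mem hP hg) h

end Cfsg.Agent.S5331
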