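import Cfsg.Statements.S5342
import Cfsg.Agent.H803.Constrained

set_option autoImplicit false
open Cfsg

namespace Cfsg.Agent.S5342

theorem constrained_of_subnormal {Ω : Type*} [Group Ω] {T S : Subgroup Ω} {E : Cfsg.FusionSystem T}
    {F : Cfsg.FusionSystem S} {p : ℕ} (hE : E.IsSubnormalIn F p) :
    ∀ (_ : Fact p.Prime) (_ : Finite S) (_ : IsPGroup p S), F.IsConstrained p → E.IsConstrained p := by
  induction hE with
  | refl F p => exact fun _ _ _ h => h
  | step hED hDF ih =>
    intro hp hfin hS hF
    have hU := hDF.1.2.2.2.1.1
    exact ih hp (H802.finite_of_le hU) (hS.to_le hU)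
      (H803.isConstrained_of_isWeaklyNormalIn hS hF hDF.1)

/-- Let F be a constrained saturated fusion system over a finite p-group S. Then every subsystem of F that is subnormal in F (reached from F by a finite chain of successive normal subsystems) is constrained. -/
theorem result {Ω : Type*} [Group Ω] {S : Subgroup Ω} [Finite S] (p : ℕ) [Fact p.Prime] (hS : IsPGroup p S) (F : Cfsg.FusionSystem S) (hF : F.IsConstrained p) {T : Subgroup Ω} (E : Cfsg.FusionSystem T) (hE : E.IsSubnormalIn F p) : E.IsConstrained p :=
  constrained_of_subnormal hE inferInstance inferInstance hS hF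

end Cfsg.Agent.S5342
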