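import Cfsg.Statements.S5391
import Cfsg.Agent.H870.U4Setup
import Cfsg.Agent.LargeExtra.W2.U43.Recog
import Cfsg.Agent.S0280

set_option autoImplicit false
open Cfsg

namespace Cfsg.Agent.S5391

/-- Let G be a finite group of unitary U₄(3) type: G has an involution z whose centralizer H has order 2^7 · 3^2 and satisfies: the subgroup of H generated by its elements of odd order is the product of two of its normal subgroups H₁, H₂, each isomorphic to SL(2, 3), meeting in the subgroup generated by z; Q, the largest normal 2-subgroup of that product, is the generalized Fitting subgroup of H; some conjugate of z other than z lies in Q; and for every conjugate g z g⁻¹ of z lying in Q and different from z, the intersection of Q with its conjugate by g has order 4. Then G has order 2^7 · 3^6 · 5 · 7 (so the Sylow 2-subgroups of H are Sylow 2-subgroups of G) and G has exactly one conjugacy class of involutions. -/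
theorem result {G : Type*} [Group G] [Finite G] (z : G) (hz : orderOf z = 2) (H₁ H₂ : Subgroup (Subgroup.centralizer ({z} : Set G))) (hK : H₁ ⊔ H₂ = Subgroup.closure {x : Subgroup.centralizer ({z} : Set G) | Odd (orderOf x)}) (hn₁ : (H₁.subgroupOf (H₁ ⊔ H₂)).Normal) (hn₂ : (H₂.subgroupOf (H₁ ⊔ H₂)).Normal) (e₁ : H₁ ≃* Matrix.SpecialLinearGroup (Fin 2) (ZMod 3)) (e₂ : H₂ ≃* Matrix.SpecialLinearGroup (Fin 2) (ZMod 3)) (hmeet : (H₁ ⊓ H₂).map (Subgroup.subtype (Subgroup.centralizer ({z} : Set G))) = Subgroup.zpowers z) (Q : Subgroup (Subgroup.centralizer ({z} : Set G))) [Q.Normal] (hQ : Q = (Cfsg.pCore 2 ↥(H₁ ⊔ H₂)).map (Subgroup.subtype (H₁ ⊔ H₂))) (hF : Cfsg.generalizedFittingSubgroup (Subgroup.centralizer ({z} : Set G)) = Q) (hnwc : ∃ g : G, (∃ hq : g * z * g⁻¹ ∈ Subgroup.centralizer ({z} : Set G), (⟨g * z * g⁻¹, hq⟩ : Subgroup.centralizer ({z} : Set G)) ∈ Q) ∧ g * z * g⁻¹ ≠ z) (hH : Nat.card ↥(Subgroup.centralizer ({z} : Set G)) = 2 ^ 7 * 3 ^ 2) (hQQg : ∀ g : G, g * z * g⁻¹ ∈ Q.map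 (Subgroup.subtype (Subgroup.centralizer ({z} : Set G))) → g * z * g⁻¹ ≠ z → Nat.card ↥((Q.map (Subgroup.subtype (Subgroup.centralizer ({z} : Set G)))) ⊓ (Q.map (Subgroup.subtype (Subgroup.centralizer ({z} : Set G)))).map (MulAut.conj g).toMonoidHom) = 4) : Nat.card G = 2 ^ 7 * 3 ^ 6 * 5 * 7 ∧ ∀ x y : G, orderOf x = 2 → orderOf y = 2 → IsConj x y := by
  obtain ⟨h, hl, g, hg, hne, i, j, k, l, x₁, x₂, y, s, ht, hs, hys⟩ :=
    Cfsg.Agent.H870.U4Setup.main z hz H₁ H₂ hn₁ hn₂ e₁ e₂ hmeet Q hQ hF hnwc hH hQQg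
  have hsimp : IsSimpleGroup G := Cfsg.Agent.H870.U4Main.simple h hl hg hne ht hs hys
  constructor
  · have h3 : Fact (Nat.Prime 3) := ⟨Nat.prime_three⟩
    have hfin : Finite (GaloisField 3 2) :=
      Nat.finite_of_card_ne_zero (by rw [GaloisField.card 3 2 (by norm_num)]; norm_num)
    have := Fintype.ofFinite (GaloisField 3 2)
    have hc9 : Fintype.card (GaloisField 3 2) = 9 := by
      rw [← Nat.card_eq_fintype_card, GaloisField.card 3 2 (by norm_num)]
      norm_num
    obtain ⟨e⟩ := Cfsg.Agent.LargeExtra.W2.U43.Recog.recog_tw ht hs hys (GaloisField 3 2) hc9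
    rw [Nat.card_congr e.toEquiv]
    have h0 := Cfsg.Agent.S0280.result (F := GaloisField 3 2) (q := 3) (by rw [hc9]; norm_num) 4
      (by norm_num)
    have h1 : Nat.gcd 4 (3 + 1) = 4 := by decide
    have h2 : 3 ^ (4 * (4 - 1) / 2) * ∏ i ∈ Finset.range 4,
        (if Even i then 3 ^ (i + 1) + 1 else 3 ^ (i + 1) - 1) = 52254720 := by decide
    rw [h1, h2] at h0
    omega
  · have key : ∀ x : G, orderOf x = 2 → IsConj z x := by
      intro x hx
      apply Cfsg.Agent.H870.U4Main.one_class h hl hg hne ht hs hys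
      · have := pow_orderOf_eq_one x
        rwa [hx, pow_two] at this
      · rintro rfl
        rw [orderOf_one] at hx
        exact absurd hx (by norm_num)
    intro x y hx hy
    exact (key x hx).symm.trans (key y hy)

end Cfsg.Agent.S5391
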