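import Cfsg.Statements.S5408
import Cfsg.Agent.H821.Frame

set_option autoImplicit false
open Cfsg

namespace Cfsg.Agent.S5408

/-- Let G be a finite group of Monster type at the involution z with Q the extraspecial normal subgroup of order 2^25 of C = C_G(z) (so C/Q is identified with the first Conway group with Q modulo its centre the Leech lattice modulo 2, and z is not weakly closed in Q). Then Q is of plus type: it contains an elementary abelian subgroup of order 2^13. -/
theorem result {G : Type*} [Group G] [Finite G] (z : G) (Q : Subgroup (Subgroup.centralizer ({z} : Set G))) [Q.Normal] (hM : Cfsg.IsOfMonsterType z Q) : ∃ E : Subgroup Q, Cfsg.IsElementaryAbelian 2 E ∧ Nat.card E = 2 ^ 13 := by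
  obtain ⟨eta, pi, h⟩ := Cfsg.Agent.H820.Bridge.chart_of_type hM
  obtain ⟨g, hgQ, hgne⟩ := Cfsg.Agent.H820.Bridge.fused_of_setting hM.1
  obtain ⟨σ, τ, gd⟩ := Cfsg.Agent.H821.Frame.exists_good h hgQ hgne ⟨g, rfl⟩
  let E0 := Cfsg.Agent.MonsterU.AmalGen.EE (h.smul σ)
  have hE0 : E0 ≤ Q.map (Subgroup.centralizer ({z} : Set G)).subtype := fun x hx => hx.1
  have hE1 : E0 ≤ Subgroup.centralizer ({z} : Set G) := by
    intro x hx
    obtain ⟨y, -, rfl⟩ := hE0 hx
    exact y.2
  refine ⟨(E0.subgroupOf (Subgroup.centralizer ({z} : Set G))).subgroupOf Q, ⟨⟨⟨?_⟩⟩, ?_⟩, ?_⟩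
  · rintro ⟨a, ha⟩ ⟨b, hb⟩
    apply Subtype.ext
    apply Subtype.ext
    apply Subtype.ext
    exact Cfsg.Agent.MonsterU.AmalGen.Eab (h.smul σ) _ ha _ hb
  · intro a ha
    apply Subtype.ext
    apply Subtype.ext
    rw [pow_two]
    exact Cfsg.Agent.H821.Frame.EE_sq gd ha
  · have h1 : E0.subgroupOf (Subgroup.centralizer ({z} : Set G)) ≤ Q := by
      intro x hx
      obtain ⟨y, hy, hyx⟩ := hE0 hx
      have : x = y := Subtype.ext hyx.symm
      rw [this]
      exact hy
    rw [Nat.card_congr (Subgroup.subgroupOfEquivOfLe h1).toEquiv,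
      Nat.card_congr (Subgroup.subgroupOfEquivOfLe hE1).toEquiv]
    exact Cfsg.Agent.H821.Frame.card_EE _

end Cfsg.Agent.S5408
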