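import Cfsg.Statements.S5416
import Cfsg.Agent.H820.Held

set_option autoImplicit false
open Cfsg

namespace Cfsg.Agent.S5416

/-- Let G be a finite group of Monster type at the involution z with Q the extraspecial normal subgroup of order 2^25 of C = C_G(z) (so C/Q is identified with the first Conway group with Q modulo its centre the Leech lattice modulo 2, and z is not weakly closed in Q). Let s be a conjugate of z in Q other than z and let B be a Sylow 7-subgroup of the joint centralizer of z and s. Then the centralizer of B modulo B is a group of Held type (an involution whose centralizer D has generalized Fitting subgroup R extraspecial of order 2^7 with D/R isomorphic to SL(3, 2), exactly 29 of its conjugates lying in R, and the involution not weakly closed in R). -/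
theorem result {G : Type*} [Group G] [Finite G] (z : G) (Q : Subgroup (Subgroup.centralizer ({z} : Set G))) [Q.Normal] (hM : Cfsg.IsOfMonsterType z Q) (s : G) (hsQ : ∃ hsc : s ∈ Subgroup.centralizer ({z} : Set G), (⟨s, hsc⟩ : Subgroup.centralizer ({z} : Set G)) ∈ Q) (hs : IsConj z s) (hs1 : s ≠ z) (B : Subgroup G) (hB : B ≤ Subgroup.centralizer ({z, s} : Set G)) (hBp : Nat.card B = 7 ^ (Nat.card ↥(Subgroup.centralizer ({z, s} : Set G))).factorization 7) [hn : (B.subgroupOf (Subgroup.centralizer (B : Set G))).Normal] : Cfsg.IsOfHeldType (↥(Subgroup.centralizer (B : Set G)) ⧸ B.subgroupOf (Subgroup.centralizer (B : Set G))) := by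
  obtain ⟨eta, pi, h, hsQ', h4, hs1'⟩ := Cfsg.Agent.H820.Joint.setup hM hsQ hs hs1
  have hsim := Cfsg.Agent.H820.Bridge.isSimple_of_type hM
  have hcard : Nat.card ↥B = 7 := by
    rw [hBp, Cfsg.Agent.H820.Joint.factorization_seven h hsQ' h4 hs1' hs1, pow_one]
  obtain ⟨x, hBx, hx, hxs⟩ := Cfsg.Agent.H820.Joint.exists_gen (by norm_num) hB hcard
  have hfr : Cfsg.Agent.LThreeMB.fr (pi x) = 2 ^ 6 := by
    rcases Cfsg.Agent.CpAutMSeven.RanksH.ranks (pi x)
      (Cfsg.Agent.MFive.orderOf_pi h (by norm_num) (by decide) hx) with h1 | h1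
    · exact absurd h1 (Cfsg.Agent.H820.Joint.fr_ne_one h hsQ' h4 hxs)
    · exact h1
  exact Cfsg.Agent.H820.Joint.quot_eq (fun K _ => Cfsg.IsOfHeldType K) hBx
    (Cfsg.Agent.H820.Held.heldType h x hx hfr)

end Cfsg.Agent.S5416
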