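import Cfsg.Statements.S5418
import Cfsg.Agent.H820.Outer
import Cfsg.Agent.H820.Autom
import Cfsg.Agent.S1695

set_option autoImplicit false
open Cfsg

namespace Cfsg.Agent.S5418

/-- Let G be a finite group of Monster type at the involution z with Q the extraspecial normal subgroup of order 2^25 of C = C_G(z) (so C/Q is identified with the first Conway group with Q modulo its centre the Leech lattice modulo 2, and z is not weakly closed in Q). Let s be a conjugate of z in Q other than z and let B be a Sylow 7-subgroup of the joint centralizer of z and s. Then the centralizer of B has index 6 in the normalizer of B; and some involution inverting B induces, by conjugation, a non-inner automorphism of the layer of the centralizer of B. -/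
theorem result {G : Type*} [Group G] [Finite G] (z : G) (Q : Subgroup (Subgroup.centralizer ({z} : Set G))) [Q.Normal] (hM : Cfsg.IsOfMonsterType z Q) (s : G) (hsQ : ∃ hsc : s ∈ Subgroup.centralizer ({z} : Set G), (⟨s, hsc⟩ : Subgroup.centralizer ({z} : Set G)) ∈ Q) (hs : IsConj z s) (hs1 : s ≠ z) (B : Subgroup G) (hB : B ≤ Subgroup.centralizer ({z, s} : Set G)) (hBp : Nat.card B = 7 ^ (Nat.card ↥(Subgroup.centralizer ({z, s} : Set G))).factorization 7) : (Subgroup.centralizer (B : Set G)).relIndex (Subgroup.normalizer (B : Set G)) = 6 ∧ ∃ t : G, orderOf t = 2 ∧ (∀ b ∈ B, t * b * t⁻¹ = b⁻¹) ∧ (∀ x ∈ (Cfsg.layer ↥(Subgroup.centralizer (B : Set G))).map (Subgroup.centralizer (B : Set G)).subtype, t * x * t⁻¹ ∈ (Cfsg.layer ↥(Subgroup.centralizer (B : Set G))).map (Subgroup.centralizer (B : Set G)).subtype) ∧ ¬ ∃ l ∈ (Cfsg.layer ↥(Subgroup.centralizer (B : Set G))).map (Subgroup.centralizer (B : Set G)).subtype, ∀ x ∈ (Cfsg.layer ↥(Subgroup.centralizer (B : Set G))).map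 (Subgroup.centralizer (B : Set G)).subtype, t * x * t⁻¹ = l * x * l⁻¹ := by
  obtain ⟨eta, pi, h, hsQ', h4, hs1'⟩ := Cfsg.Agent.H820.Joint.setup hM hsQ hs hs1
  have hsim := Cfsg.Agent.H820.Bridge.isSimple_of_type hM
  have hcard : Nat.card ↥B = 7 := by
    rw [hBp, Cfsg.Agent.H820.Joint.factorization_seven h hsQ' h4 hs1' hs1, pow_one]
  obtain ⟨x, hBx, hx, hxs⟩ := Cfsg.Agent.H820.Joint.exists_gen (by norm_num) hB hcard
  have hfr : Cfsg.Agent.LThreeMB.fr (pi x) = 2 ^ 6 := by
    rcases Cfsg.Agent.CpAutMSeven.RanksH.ranks (pi x)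
      (Cfsg.Agent.MFive.orderOf_pi h (by norm_num) (by decide) hx) with h1 | h1
    · exact absurd h1 (Cfsg.Agent.H820.Joint.fr_ne_one h hsQ' h4 hxs)
    · exact h1
  obtain ⟨e⟩ := Cfsg.Agent.H820.He.isoHe h x hx hfr
  have hHe : Cfsg.IsHe Cfsg.Spor.He := Cfsg.Agent.S1695.result
  have hox : orderOf (x : G) = 7 := by rw [Subgroup.orderOf_coe, hx]
  have hXs : IsSimpleGroup (Cfsg.Agent.LThreeMB.XX (x : G)) := (MulEquiv.isSimpleGroup_congr e).2 hHe.1
  have hXc : Nat.card (Cfsg.Agent.LThreeMB.XX (x : G)) = 4030387200 := by rw [Nat.card_congr e.toEquiv, hHe.2]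
  have hXn : ∃ a b : Cfsg.Agent.LThreeMB.XX (x : G), a * b ≠ b * a := by
    by_contra hcon
    push Not at hcon
    let _ : CommGroup (Cfsg.Agent.LThreeMB.XX (x : G)) :=
      { (inferInstance : Group (Cfsg.Agent.LThreeMB.XX (x : G))) with mul_comm := hcon }
    have h1 : (Nat.card (Cfsg.Agent.LThreeMB.XX (x : G))).Prime := IsSimpleGroup.prime_card
    rw [hXc] at h1
    norm_num at h1
  obtain ⟨c, hc⟩ := Cfsg.Agent.H820.Outer.exists_cube h x hx hfr
  obtain ⟨t, htt, ht1, htx⟩ := Cfsg.Agent.H820.Outer.exists_involution h x hx hfr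
  subst hBx
  refine ⟨Cfsg.Agent.H820.Autom.relIndex_six hox hc, t, ?_, ?_, ?_, ?_⟩
  · have : Fact (Nat.Prime 2) := ⟨Nat.prime_two⟩
    exact orderOf_eq_prime (by rw [pow_two]; exact htt) ht1
  · rintro _ ⟨i, rfl⟩
    show t * (x : G) ^ i * t⁻¹ = ((x : G) ^ i)⁻¹
    rw [← conj_zpow, htx, inv_zpow]
  · rw [Cfsg.Agent.H820.Joint.centralizer_zpowers_coe]
    exact fun y hy => Cfsg.Agent.H820.Autom.layer_mem htx hy
  · rw [Cfsg.Agent.H820.Joint.centralizer_zpowers_coe]
    rintro ⟨l, hl, hly⟩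
    exact Cfsg.Agent.H820.Autom.not_inner hox hXs hXn (by rw [hXc]; norm_num)
      (fun τ h2 h1 => Cfsg.Agent.H820.Model.not_dvd h h2 h1) htx hl hly

end Cfsg.Agent.S5418
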