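import Cfsg.Statements.S5436
import Cfsg.Agent.S1313
import Cfsg.Agent.Transfer.Extraspecial

set_option autoImplicit false
open Cfsg

namespace Cfsg.Agent.S5436

set_option linter.unusedSectionVars false

open Subgroup

section

variable {G : Type*} [Group G] [Finite G] (z : G) (hz : orderOf z = 2)
  (Q : Subgroup (Subgroup.centralizer ({z} : Set G))) [Q.Normal]
  (hF : Cfsg.generalizedFittingSubgroup ↥(Subgroup.centralizer ({z} : Set G)) = Q)
  (hQ : Cfsg.IsExtraspecial 2 ↥Q)

include hF in
theorem cent_le : Subgroup.centralizer (Q : Set (Subgroup.centralizer ({z} : Set G))) ≤ Q := by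
  have h := S1313.centralizer_le ↥(Subgroup.centralizer ({z} : Set G))
  rw [hF] at h
  exact h

theorem z_mem_C : z ∈ Subgroup.centralizer ({z} : Set G) := by
  rw [Subgroup.mem_centralizer_singleton_iff]

include hF in
theorem zC_mem : (⟨z, z_mem_C z⟩ : Subgroup.centralizer ({z} : Set G)) ∈ Q := by
  apply cent_le z Q hF
  rw [Subgroup.mem_centralizer_iff]
  intro q _
  apply Subtype.ext
  exact Subgroup.mem_centralizer_singleton_iff.1 q.2

include hz hF hQ in
theorem center_eq (q : Subgroup.centralizer ({z} : Set G)) (hq : q ∈ Q)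
    (hc : ∀ r ∈ Q, r * q = q * r) : (q : G) = 1 ∨ (q : G) = z := by
  classical
  have hcard : Nat.card (Subgroup.center ↥Q) = 2 := hQ.2
  have hzne : z ≠ 1 := by
    intro h; rw [h, orderOf_one] at hz; omega
  let zQ : Q := ⟨⟨z, z_mem_C z⟩, zC_mem z Q hF⟩
  have hzc : zQ ∈ Subgroup.center ↥Q := by
    rw [Subgroup.mem_center_iff]
    intro r
    apply Subtype.ext
    apply Subtype.ext
    exact Subgroup.mem_centralizer_singleton_iff.1 r.1.2
  have hqc : (⟨q, hq⟩ : Q) ∈ Subgroup.center ↥Q := by
    rw [Subgroup.mem_center_iff]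
    intro r
    apply Subtype.ext
    exact hc r.1 r.2
  by_contra hcon
  push Not at hcon
  obtain ⟨h1, h2⟩ := hcon
  let f : Fin 3 → Subgroup.center ↥Q := ![1, ⟨zQ, hzc⟩, ⟨⟨q, hq⟩, hqc⟩]
  have hf : Function.Injective f := by
    intro i j hij
    have hij' : (((f i : ↥Q) : Subgroup.centralizer ({z} : Set G)) : G) =
      (((f j : ↥Q) : Subgroup.centralizer ({z} : Set G)) : G) := by rw [hij]
    fin_cases i <;> fin_cases j <;> simp [f, zQ] at hij' ⊢
    · exact hzne hij'.symm
    · exact h1 hij'.symm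
    · exact hzne hij'
    · exact h2 hij'.symm
    · exact h1 (by simpa using congrArg (fun t : Subgroup.centralizer ({z} : Set G) => (t : G)) hij')
    · exact h2 hij'
  have := Nat.card_le_card_of_injective f hf
  rw [hcard] at this
  simp at this

include hz hF hQ in
/-- An element of `G` centralizing `Q` is `1` or `z`. -/
theorem cent_G (g : G) (hg : ∀ r ∈ Q, (r : G) * g = g * r) : g = 1 ∨ g = z := by
  have hgz : g ∈ Subgroup.centralizer ({z} : Set G) := by
    rw [Subgroup.mem_centralizer_singleton_iff]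
    exact (hg _ (zC_mem z Q hF)).symm
  have hgQ : (⟨g, hgz⟩ : Subgroup.centralizer ({z} : Set G)) ∈ Q := by
    apply cent_le z Q hF
    rw [Subgroup.mem_centralizer_iff]
    intro q hq
    apply Subtype.ext
    exact hg q hq
  exact center_eq z hz Q hF hQ ⟨g, hgz⟩ hgQ (fun r hr => Subtype.ext (hg r hr))

include hz hF hQ in
/-- The commutator of two elements of `Q` is `1` or `z`. -/
theorem comm_Q (a b : Subgroup.centralizer ({z} : Set G)) (ha : a ∈ Q) (hb : b ∈ Q) :
    (a : G) * b * (a : G)⁻¹ * (b : G)⁻¹ = 1 ∨ (a : G) * b * (a : G)⁻¹ * (b : G)⁻¹ = z := by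
  have h := Transfer.Extraspecial.comm_mem_center hQ ⟨a, ha⟩ ⟨b, hb⟩
  rw [commutatorElement_def, Subgroup.mem_center_iff] at h
  apply center_eq z hz Q hF hQ (a * b * a⁻¹ * b⁻¹)
    (Q.mul_mem (Q.mul_mem (Q.mul_mem ha hb) (Q.inv_mem ha)) (Q.inv_mem hb))
  intro r hr
  exact congrArg (fun t : Q => (t : Subgroup.centralizer ({z} : Set G))) (h ⟨r, hr⟩)

end


/-- Let z be an involution of the finite group G with centralizer H whose generalized Fitting subgroup Q is extraspecial of width at least 2 (order 2^(2w+1), w ≥ 2); suppose some conjugate of z other than z lies in Q, H/Q is a non-abelian simple group, H acts irreducibly by conjugation on Q modulo the subgroup generated by z (the only H-invariant subgroups of Q containing z are that subgroup and Q), and Q is not the subgroup generated by the conjugates of z lying in H. Then G is simple. -/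
theorem result {G : Type*} [Group G] [Finite G] (z : G) (hz : orderOf z = 2) (Q : Subgroup (Subgroup.centralizer ({z} : Set G))) [Q.Normal] (hF : Cfsg.generalizedFittingSubgroup ↥(Subgroup.centralizer ({z} : Set G)) = Q) (hQ : Cfsg.IsExtraspecial 2 ↥Q) (w : ℕ) (hw : 2 ≤ w) (hcard : Nat.card ↥Q = 2 ^ (2 * w + 1)) (hnwc : ∃ g : G, (∃ hq : g * z * g⁻¹ ∈ Subgroup.centralizer ({z} : Set G), (⟨g * z * g⁻¹, hq⟩ : Subgroup.centralizer ({z} : Set G)) ∈ Q) ∧ g * z * g⁻¹ ≠ z) (hsimp : IsSimpleGroup (↥(Subgroup.centralizer ({z} : Set G)) ⧸ Q)) (hna : ¬ IsMulCommutative (↥(Subgroup.centralizer ({z} : Set G)) ⧸ Q)) (hirr : ∀ W : Subgroup (Subgroup.centralizer ({z} : Set G)), W.Normal → W ≤ Q → (W = Q ∨ ∀ x ∈ W, (x : G) ∈ Subgroup.zpowers z)) (hwcl : Subgroup.closure {x : Subgroup.centralizer ({z} : Set G) | IsConj z (x : G)} ≠ Q) : IsSimpleGroup G := by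
  classical
  have : Fact (Nat.Prime 2) := ⟨Nat.prime_two⟩
  have hzne : z ≠ 1 := by
    intro h; rw [h, orderOf_one] at hz; omega
  have hzz : z * z = 1 := by rw [← pow_two, ← hz, pow_orderOf_eq_one]
  have hzi : z⁻¹ = z := inv_eq_of_mul_eq_one_left hzz
  obtain ⟨g, ⟨hsC, hsQ⟩, hsz⟩ := hnwc
  set s := g * z * g⁻¹ with hs
  have hs1 : s ≠ 1 := by
    intro h
    apply hzne
    have : z = g⁻¹ * s * g := by rw [hs]; group
    rw [this, h]; group
  have hzQ := zC_mem z Q hF
  have hCcomm : ∀ c : (Subgroup.centralizer ({z} : Set G)), (c : G) * z = z * c := fun c =>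
    Subgroup.mem_centralizer_singleton_iff.1 c.2
  have hzpow : ∀ x : G, x ∈ Subgroup.zpowers z → x = 1 ∨ x = z := by
    intro x hx
    rw [Subgroup.mem_zpowers_iff] at hx
    obtain ⟨k, rfl⟩ := hx
    rcases Int.even_or_odd' k with ⟨m, hm | hm⟩
    · left
      rw [hm, zpow_mul, zpow_two, hzz, one_zpow]
    · right
      rw [hm, zpow_add, zpow_mul, zpow_two, hzz, one_zpow, one_mul, zpow_one]
  refine { exists_pair_ne := ⟨1, z, hzne.symm⟩, eq_bot_or_eq_top_of_normal := ?_ }
  intro N hN
  have hNCn : (N.subgroupOf (Subgroup.centralizer ({z} : Set G))).Normal := inferInstance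
  by_cases hzN : z ∈ N
  · -- `z ∈ N`
    right
    set W := Subgroup.closure {x : (Subgroup.centralizer ({z} : Set G)) | IsConj z (x : G)} with hW
    have hWN : W ≤ N.subgroupOf (Subgroup.centralizer ({z} : Set G)) := by
      rw [hW, Subgroup.closure_le]
      intro x hx
      obtain ⟨k, hk⟩ := isConj_iff.1 (show IsConj z (x : G) from hx)
      show (x : G) ∈ N
      rw [← hk]
      exact hN.conj_mem z hzN k
    have hWn : W.Normal := by
      rw [hW]
      have : ∀ x ∈ {x : (Subgroup.centralizer ({z} : Set G)) | IsConj z (x : G)}, ∀ c : (Subgroup.centralizer ({z} : Set G)), c * x * c⁻¹ ∈ {x : (Subgroup.centralizer ({z} : Set G)) | IsConj z (x : G)} := by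
        intro x hx c
        show IsConj z ((c * x * c⁻¹ : (Subgroup.centralizer ({z} : Set G))) : G)
        have h1 : IsConj z (x : G) := hx
        exact h1.trans (isConj_iff.2 ⟨c, by simp⟩)
      constructor
      intro n hn c
      induction hn using Subgroup.closure_induction with
      | mem x hx => exact Subgroup.subset_closure (this x hx c)
      | one => simp
      | mul x y _ _ hx hy =>
        have : c * (x * y) * c⁻¹ = (c * x * c⁻¹) * (c * y * c⁻¹) := by group
        rw [this]; exact Subgroup.mul_mem _ hx hy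
      | inv x _ hx =>
        have : c * x⁻¹ * c⁻¹ = (c * x * c⁻¹)⁻¹ := by group
        rw [this]; exact Subgroup.inv_mem _ hx
    have hsW : (⟨s, hsC⟩ : (Subgroup.centralizer ({z} : Set G))) ∈ W :=
      Subgroup.subset_closure (show IsConj z s from isConj_iff.2 ⟨g, rfl⟩)
    have hQW : Q ≤ W := by
      rcases hirr (W ⊓ Q) inferInstance inf_le_right with h | h
      · exact inf_eq_right.1 h
      · exfalso
        rcases hzpow s (h ⟨s, hsC⟩ ⟨hsW, hsQ⟩) with h1 | h1
        · exact hs1 h1
        · exact hsz h1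
    have hWtop : W = ⊤ := by
      have hmn : (W.map (QuotientGroup.mk' Q)).Normal := hWn.map _ (QuotientGroup.mk'_surjective Q)
      rcases hsimp.eq_bot_or_eq_top_of_normal _ hmn with h | h
      · exfalso
        apply hwcl
        apply le_antisymm _ hQW
        rw [Subgroup.map_eq_bot_iff, QuotientGroup.ker_mk'] at h
        exact h
      · have h1 : (W.map (QuotientGroup.mk' Q)).comap (QuotientGroup.mk' Q) = ⊤ := by
          rw [h, Subgroup.comap_top]
        rw [Subgroup.comap_map_eq, QuotientGroup.ker_mk', sup_eq_left.2 hQW] at h1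
        exact h1
    have hCN : (Subgroup.centralizer ({z} : Set G)) ≤ N := by
      intro c hc
      have : (⟨c, hc⟩ : (Subgroup.centralizer ({z} : Set G))) ∈ N.subgroupOf (Subgroup.centralizer ({z} : Set G)) := hWN (by rw [hWtop]; exact Subgroup.mem_top _)
      exact this
    -- Sylow subgroup
    have hQp : IsPGroup 2 ↥(Q.map (Subgroup.centralizer ({z} : Set G)).subtype) := by
      have : IsPGroup 2 ↥Q := hQ.1.1
      exact this.map (Subgroup.centralizer ({z} : Set G)).subtype
    obtain ⟨P, hP⟩ := hQp.exists_le_sylow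
    have hPQ : ∀ r ∈ Q, (r : G) ∈ P := fun r hr => hP ⟨r, hr, rfl⟩
    have hZ : ∀ x ∈ P, (∀ y ∈ P, y * x = x * y) → x = 1 ∨ x = z := by
      intro x _ hx
      apply cent_G z hz Q hF hQ x
      intro r hr
      exact hx _ (hPQ r hr)
    have hPnt : Nontrivial ↥(P : Subgroup G) := by
      refine ⟨⟨1, ⟨z, hPQ _ hzQ⟩, ?_⟩⟩
      intro h
      exact hzne (congrArg (fun t : (P : Subgroup G) => (t : G)) h).symm
    have hcnt : Nontrivial (Subgroup.center ↥(P : Subgroup G)) := P.2.center_nontrivial
    obtain ⟨⟨x, hx⟩, hx1⟩ := exists_ne (1 : Subgroup.center ↥(P : Subgroup G))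
    have hxz : (x : G) = z := by
      rcases hZ x x.2 (fun y hy => congrArg (fun t : (P : Subgroup G) => (t : G))
        ((Subgroup.mem_center_iff.1 hx) ⟨y, hy⟩)) with h | h
      · exfalso
        apply hx1
        apply Subtype.ext
        apply Subtype.ext
        exact h
      · exact h
    have hPz : ∀ y ∈ P, y * z = z * y := by
      intro y hy
      have := congrArg (fun t : (P : Subgroup G) => (t : G)) ((Subgroup.mem_center_iff.1 hx) ⟨y, hy⟩)
      simpa [hxz] using this
    have hPN : (P : Subgroup G) ≤ N := by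
      intro y hy
      apply hCN
      rw [Subgroup.mem_centralizer_singleton_iff]
      exact hPz y hy
    have hfr := Sylow.normalizer_sup_eq_top' P hPN
    have hnorm : Subgroup.normalizer ((P : Subgroup G) : Set G) ≤ N := by
      intro y hy
      apply hCN
      rw [Subgroup.mem_centralizer_singleton_iff]
      have hyz : y * z * y⁻¹ ∈ P := (Subgroup.mem_normalizer_iff.1 hy z).1 (hPQ _ hzQ)
      rcases hZ _ hyz (by
        intro w hw
        have hw' : y⁻¹ * w * y ∈ P := by
          have := (Subgroup.mem_normalizer_iff.1 hy (y⁻¹ * w * y)).2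
          apply this
          have e : y * (y⁻¹ * w * y) * y⁻¹ = w := by group
          rw [e]; exact hw
        have h1 := hPz _ hw'
        calc w * (y * z * y⁻¹) = y * ((y⁻¹ * w * y) * z) * y⁻¹ := by group
          _ = y * (z * (y⁻¹ * w * y)) * y⁻¹ := by rw [h1]
          _ = y * z * y⁻¹ * w := by group) with h | h
      · exfalso
        apply hzne
        have e : z = y⁻¹ * (y * z * y⁻¹) * y := by group
        rw [e, h]; group
      · calc y * z = (y * z * y⁻¹) * y := by group
          _ = z * y := by rw [h]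
    rw [eq_top_iff, ← hfr]
    exact sup_le hnorm le_rfl
  · -- `z ∉ N`
    left
    have hbot : N.subgroupOf (Subgroup.centralizer ({z} : Set G)) ⊓ Q = ⊥ := by
      rcases hirr (N.subgroupOf (Subgroup.centralizer ({z} : Set G)) ⊓ Q) inferInstance inf_le_right with h | h
      · exfalso
        apply hzN
        have : (⟨z, z_mem_C z⟩ : (Subgroup.centralizer ({z} : Set G))) ∈ N.subgroupOf (Subgroup.centralizer ({z} : Set G)) := (inf_eq_right.1 h) hzQ
        exact this
      · rw [Subgroup.eq_bot_iff_forall]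
        intro x hx
        rcases hzpow _ (h x hx) with h1 | h1
        · exact Subtype.ext h1
        · exfalso
          apply hzN
          rw [← h1]
          exact hx.1
    have hNC : ∀ n ∈ N, n * z = z * n → n = 1 := by
      intro n hn hnz
      have hnC : n ∈ (Subgroup.centralizer ({z} : Set G)) := by rw [Subgroup.mem_centralizer_singleton_iff]; exact hnz
      have hnQ : (⟨n, hnC⟩ : (Subgroup.centralizer ({z} : Set G))) ∈ Q := by
        apply cent_le z Q hF
        rw [Subgroup.mem_centralizer_iff]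
        intro q hq
        have h1 : q * ⟨n, hnC⟩ * q⁻¹ * (⟨n, hnC⟩ : (Subgroup.centralizer ({z} : Set G)))⁻¹ ∈ N.subgroupOf (Subgroup.centralizer ({z} : Set G)) ⊓ Q := by
          constructor
          · show (q : G) * n * (q : G)⁻¹ * n⁻¹ ∈ N
            exact N.mul_mem (hN.conj_mem n hn q) (N.inv_mem hn)
          · have h2 : (⟨n, hnC⟩ : (Subgroup.centralizer ({z} : Set G))) * q⁻¹ * (⟨n, hnC⟩ : (Subgroup.centralizer ({z} : Set G)))⁻¹ ∈ Q :=
              (inferInstance : Q.Normal).conj_mem _ (Q.inv_mem hq) _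
            have h3 := Q.mul_mem hq h2
            simpa [mul_assoc] using h3
        rw [hbot, Subgroup.mem_bot] at h1
        have h4 : q * ⟨n, hnC⟩ * q⁻¹ = (⟨n, hnC⟩ : (Subgroup.centralizer ({z} : Set G))) := mul_inv_eq_one.1 h1
        exact mul_inv_eq_iff_eq_mul.1 h4
      have h5 : (⟨n, hnC⟩ : (Subgroup.centralizer ({z} : Set G))) ∈ N.subgroupOf (Subgroup.centralizer ({z} : Set G)) ⊓ Q := ⟨hn, hnQ⟩
      rw [hbot, Subgroup.mem_bot] at h5
      exact congrArg (fun t : (Subgroup.centralizer ({z} : Set G)) => (t : G)) h5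
    -- `z` inverts `N`
    have hinv : ∀ x ∈ N, z * x * z⁻¹ = x⁻¹ := by
      let f : N → N := fun n => ⟨(n : G)⁻¹ * (z * n * z⁻¹),
        N.mul_mem (N.inv_mem n.2) (hN.conj_mem n n.2 z)⟩
      have hf : Function.Injective f := by
        intro a b hab
        have h1 : (a : G)⁻¹ * (z * a * z⁻¹) = (b : G)⁻¹ * (z * b * z⁻¹) :=
          congrArg (fun t : N => (t : G)) hab
        have h2 : (a : G)⁻¹ * z * a = (b : G)⁻¹ * z * b := by
          have e1 : (a : G)⁻¹ * z * a = (a : G)⁻¹ * (z * a * z⁻¹) * z := by group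
          have e2 : (b : G)⁻¹ * z * b = (b : G)⁻¹ * (z * b * z⁻¹) * z := by group
          rw [e1, e2, h1]
        have h3 : (b : G) * (a : G)⁻¹ = 1 := by
          apply hNC _ (N.mul_mem b.2 (N.inv_mem a.2))
          calc (b : G) * (a : G)⁻¹ * z = b * ((a : G)⁻¹ * z * a) * (a : G)⁻¹ := by group
            _ = b * ((b : G)⁻¹ * z * b) * (a : G)⁻¹ := by rw [h2]
            _ = z * (b * (a : G)⁻¹) := by group
        have h4 : (b : G) = a := mul_inv_eq_one.1 h3
        exact Subtype.ext h4.symm
      have hfs : Function.Surjective f := Finite.surjective_of_injective hf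
      intro x hx
      obtain ⟨n, hn⟩ := hfs ⟨x, hx⟩
      have h1 : (n : G)⁻¹ * (z * n * z⁻¹) = x := congrArg (fun t : N => (t : G)) hn
      rw [← h1]
      calc z * ((n : G)⁻¹ * (z * n * z⁻¹)) * z⁻¹ = z * (n : G)⁻¹ * z * n * (z⁻¹ * z⁻¹) := by group
        _ = z * (n : G)⁻¹ * z⁻¹ * n := by rw [hzi, hzz, mul_one]
        _ = ((n : G)⁻¹ * (z * n * z⁻¹))⁻¹ := by group
    have hinvc : ∀ k : G, ∀ x ∈ N, (k * z * k⁻¹) * x * (k * z * k⁻¹)⁻¹ = x⁻¹ := by
      intro k x hx
      have h1 : k⁻¹ * x * k ∈ N := by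
        have := hN.conj_mem x hx k⁻¹
        simpa using this
      calc (k * z * k⁻¹) * x * (k * z * k⁻¹)⁻¹ = k * (z * (k⁻¹ * x * k) * z⁻¹) * k⁻¹ := by group
        _ = k * (k⁻¹ * x * k)⁻¹ * k⁻¹ := by rw [hinv _ h1]
        _ = x⁻¹ := by group
    -- `s` is not central in `Q`
    have hnc : ∃ q ∈ Q, (q : G) * s ≠ s * q := by
      by_contra hcon
      push Not at hcon
      rcases cent_G z hz Q hF hQ s hcon with h | h
      · exact hs1 h
      · exact hsz h
    obtain ⟨q, hqQ, hqs⟩ := hnc
    have hqc : (q : G) * s * (q : G)⁻¹ * s⁻¹ = z := by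
      rcases comm_Q z hz Q hF hQ q ⟨s, hsC⟩ hqQ hsQ with h | h
      · exfalso
        apply hqs
        have h1 : (q : G) * s * (q : G)⁻¹ * s⁻¹ = 1 := h
        have h2 : (q : G) * s * (q : G)⁻¹ = s := mul_inv_eq_one.1 h1
        exact mul_inv_eq_iff_eq_mul.1 h2
      · exact h
    have hzs : z * s = (q * g : G) * z * (q * g : G)⁻¹ := by
      have h1 : (q : G) * s * (q : G)⁻¹ = z * s := mul_inv_eq_iff_eq_mul.1 hqc
      rw [← h1, hs]; group
    rw [Subgroup.eq_bot_iff_forall]
    intro x hx
    have h1 := hinvc (q * g) x hx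
    rw [← hzs] at h1
    have h2 := hinvc g x hx
    rw [← hs] at h2
    have h3 : (z * s) * x * (z * s)⁻¹ = x := by
      calc (z * s) * x * (z * s)⁻¹ = z * (s * x * s⁻¹) * z⁻¹ := by group
        _ = z * x⁻¹ * z⁻¹ := by rw [h2]
        _ = (z * x * z⁻¹)⁻¹ := by group
        _ = x := by rw [hinv x hx, inv_inv]
    have h4 : x⁻¹ = x := h1.symm.trans h3
    apply hNC x hx
    have h5 := hinv x hx
    rw [h4] at h5
    exact (mul_inv_eq_iff_eq_mul.1 h5).symm

end Cfsg.Agent.S5436
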