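import Cfsg.Statements.S5462
import Cfsg.Agent.R08.NoFpf
import Cfsg.Agent.R08.AutT
import Cfsg.Agent.H831.Types
import Cfsg.Agent.H845.T6Iso

set_option autoImplicit false
open Cfsg

namespace Cfsg.Agent.S5462

open Cfsg.Agent.R01

/-- Let G be a finite group with trivial centre generated by a conjugation-invariant set D of 3-transpositions on which it acts primitively, such that for some d in D the subgroup generated by the members of D other than d commuting with d has central largest normal 2- and 3-subgroups, and suppose G with D is of type M(22). Then every automorphism of G of order 2 fixes some member of D. -/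
theorem result {G : Type*} [Group G] [Finite G] {D : Set G} (hD : Cfsg.IsThreeTranspositionGroup D) (hprim : Cfsg.IsPrimitiveUnderConj D) (d₀ : G) (hd₀ : d₀ ∈ D) (h3 : Cfsg.pCore 3 ↥(Subgroup.closure {y : G | y ∈ D ∧ y ≠ d₀ ∧ Commute d₀ y}) ≤ Subgroup.center ↥(Subgroup.closure {y : G | y ∈ D ∧ y ≠ d₀ ∧ Commute d₀ y})) (h2 : Cfsg.pCore 2 ↥(Subgroup.closure {y : G | y ∈ D ∧ y ≠ d₀ ∧ Commute d₀ y}) ≤ Subgroup.center ↥(Subgroup.closure {y : G | y ∈ D ∧ y ≠ d₀ ∧ Commute d₀ y})) (h22 : Cfsg.IsOfTypeM22 G D) (φ : MulAut G) (hφ : orderOf φ = 2) : ∃ d ∈ D, φ d = d := by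
  obtain ⟨e, -, he⟩ := Cfsg.Agent.H845.T6Iso.exists_iso
    (Cfsg.Agent.H831.Types.fgroup_m22 hD hprim h22) (Cfsg.Agent.H831.Types.isT6 hD hprim h22)
  by_contra hcon
  push Not at hcon
  have hφ2 : ∀ g, φ (φ g) = g := by
    intro g
    have h : φ * φ = 1 := by rw [← pow_two, ← hφ]; exact pow_orderOf_eq_one φ
    have := congrArg (fun ψ : MulAut G => ψ g) h
    exact this
  let θ : Spor.Fi22 ≃* Spor.Fi22 := (e.trans φ).trans e.symm
  have hθ : ∀ t, θ t = e.symm (φ (e t)) := fun t => rfl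
  have hT : ∀ t ∈ Fi22Facts.T, θ t ∈ Fi22Facts.T := fun t ht => Cfsg.Agent.R08.AutT.aut_mem θ ht
  have hθ2 : ∀ t, θ (θ t) = t := by
    intro t
    rw [hθ, hθ, e.apply_symm_apply, hφ2, e.symm_apply_apply]
  have hmem : ∀ t ∈ Fi22Facts.T, e t ∈ D := by
    intro t ht
    rw [← he]
    exact ⟨t, ht, rfl⟩
  have hne : ∀ t ∈ Fi22Facts.T, θ t ≠ t := by
    intro t ht h
    apply hcon (e t) (hmem t ht)
    rw [hθ, MulEquiv.symm_apply_eq] at h
    exact h
  refine Cfsg.Agent.R08.NoFpf.fi22_no_fpf θ hT hθ2 hne ?_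
  intro t ht
  by_contra hc
  -- the third point is fixed
  have hcl := Fi22Facts.isThreeTranspositionClass_T
  have hsq : ∀ s ∈ Fi22Facts.T, s * s = 1 := by
    intro s hs
    have := hcl.1.1 s hs
    rw [← pow_two, ← this]
    exact pow_orderOf_eq_one s
  have h1 := hsq t ht
  have h2 := hsq (θ t) (hT t ht)
  have hinv1 : t⁻¹ = t := inv_eq_of_mul_eq_one_left h1
  have hinv2 : (θ t)⁻¹ = θ t := inv_eq_of_mul_eq_one_left h2
  have h3 : t * θ t * t = θ t * t * θ t := by
    rcases hcl.1.2 t ht (θ t) (hT t ht) with h | h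
    · exfalso
      apply hc
      have h5 : (t * θ t)⁻¹ = t * θ t := inv_eq_of_mul_eq_one_left (by rw [← pow_two, h])
      rw [mul_inv_rev, hinv1, hinv2] at h5
      exact h5
    · have h5 : t * θ t * t * (θ t * t * θ t) = 1 := by
        rw [← h, pow_succ, pow_two]; simp only [mul_assoc]
      have h6 := eq_inv_of_mul_eq_one_left h5
      rw [h6, mul_inv_rev, mul_inv_rev, hinv1, hinv2]
      simp only [mul_assoc]
  have hu : t * θ t * t ∈ Fi22Facts.T := by
    have := Cfsg.Agent.R08.AutT.tFacts.conj t (θ t) (hT t ht)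
    rwa [hinv1] at this
  apply hne _ hu
  rw [map_mul, map_mul, hθ2, ← h3]

end Cfsg.Agent.S5462
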