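import Cfsg.Statements.S5463
import Cfsg.Agent.H836.Facts
import Cfsg.Agent.H836.Bridge

set_option autoImplicit false
open Cfsg

namespace Cfsg.Agent.S5463

open Cfsg.Agent.R01.FiFacts Cfsg.Agent.R01.FiFusion Cfsg.Agent.H836

theorem two_of {K : Type*} [Group K] {T : Set K} (I : Inv K T) {a b c d : K} (ha : a ∈ T) (hb : b ∈ T)
    (hc : c ∈ T) (hd : d ∈ T) (hab : a ≠ b) (cab : a * b = b * a) (ccd : c * d = d * c)
    (h : a * b = c * d) : (c = a ∧ d = b) ∨ (c = b ∧ d = a) := by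
  rcases I.uniq_pair ha hb hc hd hab cab ccd h with rfl | rfl
  · exact Or.inl ⟨rfl, (mul_left_cancel h).symm⟩
  · rw [cab] at h
    exact Or.inr ⟨rfl, (mul_left_cancel h).symm⟩

/-- two factorisations with a common member agree -/
theorem share_aux {K : Type*} [Group K] {T : Set K} (I : Inv K T) {a b c u w : K}
    (h0 : Tri T a b c) (h : Tri T a u w) (hz : a * u * w = a * b * c) :
    ∀ x, (x = a ∨ x = u ∨ x = w) ↔ (x = a ∨ x = b ∨ x = c) := by
  have h1 : b * c = u * w := by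
    rw [mul_assoc, mul_assoc] at hz
    exact (mul_left_cancel hz).symm
  rcases two_of I h0.my h0.mw h.my h.mw h0.yw h0.cyw h.cyw h1 with ⟨rfl, rfl⟩ | ⟨rfl, rfl⟩
  · intro x; rfl
  · intro x
    constructor
    · rintro (h | h | h)
      exacts [Or.inl h, Or.inr (Or.inr h), Or.inr (Or.inl h)]
    · rintro (h | h | h)
      exacts [Or.inl h, Or.inr (Or.inr h), Or.inr (Or.inl h)]

theorem share {K : Type*} [Group K] {T : Set K} (I : Inv K T) {a b c t u w : K}
    (h0 : Tri T a b c) (h : Tri T t u w) (hz : t * u * w = a * b * c)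
    (hm : t = a ∨ t = b ∨ t = c) :
    ∀ x, (x = t ∨ x = u ∨ x = w) ↔ (x = a ∨ x = b ∨ x = c) := by
  rcases hm with rfl | rfl | rfl
  · exact share_aux I h0 h hz
  · -- `t = b`
    have h0' : Tri T t a c := ⟨h0.my, h0.mx, h0.mw, h0.xy.symm, h0.yw, h0.xw, h0.cxy.symm, h0.cyw,
      h0.cxw⟩
    have hz' : t * u * w = t * a * c := by rw [hz, h0.cxy]
    intro x
    rw [share_aux I h0' h hz' x]
    constructor
    · rintro (h | h | h)
      exacts [Or.inr (Or.inl h), Or.inl h, Or.inr (Or.inr h)]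
    · rintro (h | h | h)
      exacts [Or.inr (Or.inl h), Or.inl h, Or.inr (Or.inr h)]
  · have h0' : Tri T t a b := ⟨h0.mw, h0.mx, h0.my, h0.xw.symm, h0.yw.symm, h0.xy, h0.cxw.symm,
      h0.cyw.symm, h0.cxy⟩
    have hz' : t * u * w = t * a * b := by
      rw [hz, ← h0.cxw, mul_assoc, h0.cyw, mul_assoc]
    intro x
    rw [share_aux I h0' h hz' x]
    constructor
    · rintro (h | h | h)
      exacts [Or.inr (Or.inr h), Or.inl h, Or.inr (Or.inl h)]
    · rintro (h | h | h)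
      exacts [Or.inr (Or.inl h), Or.inr (Or.inr h), Or.inl h]

theorem of_list_two {K : Type*} [Group K] {T : Set K} {j : K} {l : List K}
    (h : l.Nodup ∧ l.length = 2 ∧ (∀ a ∈ l, a ∈ T) ∧ (∀ a ∈ l, ∀ b ∈ l, Commute a b) ∧ l.prod = j) :
    ∃ a b, l = [a, b] ∧ a ∈ T ∧ b ∈ T ∧ a ≠ b ∧ a * b = b * a ∧ a * b = j := by
  obtain ⟨h1, h2, h3, h4, h5⟩ := h
  obtain ⟨a, b, rfl⟩ := List.length_eq_two.1 h2
  refine ⟨a, b, rfl, h3 a (by simp), h3 b (by simp), ?_, h4 a (by simp) b (by simp), ?_⟩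
  · simpa using h1
  · simpa using h5

theorem of_list_three {K : Type*} [Group K] {T : Set K} {j : K} {l : List K}
    (h : l.Nodup ∧ l.length = 3 ∧ (∀ a ∈ l, a ∈ T) ∧ (∀ a ∈ l, ∀ b ∈ l, Commute a b) ∧ l.prod = j) :
    ∃ a b c, l = [a, b, c] ∧ Tri T a b c ∧ a * b * c = j := by
  obtain ⟨h1, h2, h3, h4, h5⟩ := h
  obtain ⟨a, b, c, rfl⟩ := List.length_eq_three.1 h2
  simp only [List.nodup_cons, List.mem_cons, List.not_mem_nil, or_false, not_or,
      List.nodup_nil, and_true, not_false_eq_true] at h1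
  refine ⟨a, b, c, rfl, ⟨h3 a (by simp), h3 b (by simp), h3 c (by simp), h1.1.1, h1.1.2, h1.2,
    h4 a (by simp) b (by simp), h4 a (by simp) c (by simp), h4 b (by simp) c (by simp)⟩, ?_⟩
  simpa [mul_assoc] using h5

theorem list_three {K : Type*} [Group K] {T : Set K} {j a b c : K}
    (h : Tri T a b c) (hj : a * b * c = j) :
    ([a, b, c] : List K).Nodup ∧ ([a, b, c] : List K).length = 3 ∧ (∀ x ∈ ([a, b, c] : List K), x ∈ T) ∧
      (∀ x ∈ ([a, b, c] : List K), ∀ y ∈ ([a, b, c] : List K), Commute x y) ∧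
      ([a, b, c] : List K).prod = j := by
  have e1 : Commute a b := h.cxy
  have e2 : Commute a c := h.cxw
  have e3 : Commute b c := h.cyw
  refine ⟨?_, rfl, ?_, ?_, ?_⟩
  · simp only [List.nodup_cons, List.mem_cons, List.not_mem_nil, or_false, not_or,
      List.nodup_nil, and_true, not_false_eq_true]
    exact ⟨⟨h.xy, h.xw⟩, h.yw⟩
  · simp only [List.mem_cons, List.not_mem_nil, or_false]
    rintro y (rfl | rfl | rfl)
    exacts [h.mx, h.my, h.mw]
  · simp only [List.mem_cons, List.not_mem_nil, or_false]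
    rintro y (rfl | rfl | rfl) w (rfl | rfl | rfl) <;>
      first | exact Commute.refl _ | assumption | (apply Commute.symm; assumption)
  · simp only [List.prod_cons, List.prod_nil, mul_one]
    rw [← hj, mul_assoc]

/-- Let G be a finite group with trivial centre generated by a conjugation-invariant set D of 3-transpositions on which it acts primitively, such that for some d in D the subgroup generated by the members of D other than d commuting with d has central largest normal 2- and 3-subgroups, and suppose G with D is of type M(22). A product j of two distinct commuting members of D determines the pair: any two 2-element sets of commuting members of D with product j coincide. A product j of three distinct pairwise commuting members of D arises from exactly two such 3-element sets. -/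
theorem result {G : Type*} [Group G] [Finite G] {D : Set G} (hD : Cfsg.IsThreeTranspositionGroup D) (hprim : Cfsg.IsPrimitiveUnderConj D) (d₀ : G) (hd₀ : d₀ ∈ D) (h3 : Cfsg.pCore 3 ↥(Subgroup.closure {y : G | y ∈ D ∧ y ≠ d₀ ∧ Commute d₀ y}) ≤ Subgroup.center ↥(Subgroup.closure {y : G | y ∈ D ∧ y ≠ d₀ ∧ Commute d₀ y})) (h2 : Cfsg.pCore 2 ↥(Subgroup.closure {y : G | y ∈ D ∧ y ≠ d₀ ∧ Commute d₀ y}) ≤ Subgroup.center ↥(Subgroup.closure {y : G | y ∈ D ∧ y ≠ d₀ ∧ Commute d₀ y})) (h22 : Cfsg.IsOfTypeM22 G D) : (∀ (j : G) (l l' : List G), (l.Nodup ∧ l.length = 2 ∧ (∀ a ∈ l, a ∈ D) ∧ (∀ a ∈ l, ∀ b ∈ l, Commute a b) ∧ l.prod = j) → (l'.Nodup ∧ l'.length = 2 ∧ (∀ a ∈ l', a ∈ D) ∧ (∀ a ∈ l', ∀ b ∈ l', Commute a b) ∧ l'.prod = j) → (∀ x : G, x ∈ l ↔ x ∈ l')) ∧ ∀ (j : G) (l₀ : List G), (l₀.Nodup ∧ l₀.length = 3 ∧ (∀ a ∈ l₀, a ∈ D) ∧ (∀ a ∈ l₀, ∀ b ∈ l₀, Commute a b) ∧ l₀.prod = j) → ∃ l₁ l₂ : List G, (l₁.Nodup ∧ l₁.length = 3 ∧ (∀ a ∈ l₁, a ∈ D) ∧ (∀ a ∈ l₁,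 ∀ b ∈ l₁, Commute a b) ∧ l₁.prod = j) ∧ (l₂.Nodup ∧ l₂.length = 3 ∧ (∀ a ∈ l₂, a ∈ D) ∧ (∀ a ∈ l₂, ∀ b ∈ l₂, Commute a b) ∧ l₂.prod = j) ∧ ¬ (∀ x : G, x ∈ l₁ ↔ x ∈ l₂) ∧ ∀ l : List G, (l.Nodup ∧ l.length = 3 ∧ (∀ a ∈ l, a ∈ D) ∧ (∀ a ∈ l, ∀ b ∈ l, Commute a b) ∧ l.prod = j) → ((∀ x : G, x ∈ l ↔ x ∈ l₁) ∨ (∀ x : G, x ∈ l ↔ x ∈ l₂)) := by
  obtain ⟨e, he⟩ := Cfsg.Agent.H836.Bridge.exists_iso hD hprim h22
  have I : Inv G D := by rw [← he]; exact inv_of_iso e
  constructor
  · intro j l l' hl hl'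
    obtain ⟨a, b, rfl, ha, hb, hab, cab, hj⟩ := of_list_two hl
    obtain ⟨c, d, rfl, hc, hd, hcd, ccd, hj'⟩ := of_list_two hl'
    intro x
    simp only [List.mem_cons, List.not_mem_nil, or_false]
    rcases two_of I ha hb hc hd hab cab ccd (hj.trans hj'.symm) with ⟨rfl, rfl⟩ | ⟨rfl, rfl⟩
    · exact Iff.rfl
    · exact Or.comm
  · intro j l₀ hl₀
    obtain ⟨a, b, c, rfl, ht, hj⟩ := of_list_three hl₀
    obtain ⟨a', b', c', H⟩ := I.facts.hex a b c ht
    have hsq : (a * b * c) * (a * b * c) = 1 := by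
      have haa := I.ctx.sq a ht.mx
      have hbb := I.ctx.sq b ht.my
      have hcc := I.ctx.sq c ht.mw
      calc a * b * c * (a * b * c) = a * b * (c * a) * b * c := by group
        _ = a * b * (a * c) * b * c := by rw [← ht.cxw]
        _ = a * (b * a) * c * b * c := by group
        _ = a * (a * b) * c * b * c := by rw [← ht.cxy]
        _ = (a * a) * b * (c * b) * c := by group
        _ = (a * a) * b * (b * c) * c := by rw [← ht.cyw]
        _ = (a * a) * (b * b) * (c * c) := by group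
        _ = 1 := by rw [haa, hbb, hcc, one_mul, one_mul]
    have hj' : a' * b' * c' = a * b * c :=
      mul_left_cancel (H.prod.trans hsq.symm)
    refine ⟨[a, b, c], [a', b', c'], list_three ht hj, list_three H.t' (hj'.trans hj), ?_, ?_⟩
    · intro h
      have := (h a).1 (by simp)
      simp only [List.mem_cons, List.not_mem_nil, or_false] at this
      rcases this with h | h | h
      exacts [H.aa h, H.ab h, H.ac h]
    · intro l hl
      obtain ⟨t, u, w, rfl, ht', hj2⟩ := of_list_three hl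
      have hz : t * u * w = a * b * c := hj2.trans hj.symm
      simp only [List.mem_cons, List.not_mem_nil, or_false]
      have hm := I.mem_hex H ht' hz
      have hm' : (t = a ∨ t = b ∨ t = c) ∨ (t = a' ∨ t = b' ∨ t = c') := by tauto
      rcases hm' with h | h
      · exact Or.inl (share I ht ht' hz h)
      · exact Or.inr (share I H.t' ht' (hz.trans hj'.symm) h)

end Cfsg.Agent.S5463
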