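import Cfsg.Statements.S5465
-- import your own Cfsg.Agent.* helpers here
import Cfsg.Agent.H831.Two
import Cfsg.Agent.OddHalf.Table.OutFi22

set_option autoImplicit false
open Cfsg

set_option linter.style.haveILetI false
set_option linter.unusedVariables false

namespace Cfsg.Agent.S5465

open Cfsg.Agent.Fischer160.Inherit (FGroup)
open Cfsg.Agent.Fischer480.Defs (IsT8)
open Cfsg.Agent.H831

/-- The statement for Fischer groups of type `T8`. -/
theorem main {G : Type*} [Group G] [Finite G] {D : Set G} (F : FGroup D) (h : IsT8 D) (d₁ d₂ : G)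
    (h₁ : d₁ ∈ D) (h₂ : d₂ ∈ D) (hne : d₁ ≠ d₂) (hc : Commute d₁ d₂) (K CL : Subgroup G)
    (hK : K = commutator G ⊓ Subgroup.centralizer ({d₁, d₂} : Set G))
    (hCL : CL = commutator G ⊓ Subgroup.centralizer ({d₁ * d₂} : Set G))
    [hn : ((Subgroup.zpowers (d₁ * d₂)).subgroupOf CL).Normal] :
    Cfsg.IsQuasisimple ↥K ∧ K = (Cfsg.generalizedFittingSubgroup ↥CL).map CL.subtype ∧ K ≤ CL ∧
      (K.subgroupOf CL).index = 2 ∧ d₁ * d₂ ∈ K ∧
      Nonempty (↥CL ⧸ (Subgroup.zpowers (d₁ * d₂)).subgroupOf CL ≃* MulAut Cfsg.Spor.Fi22) := by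
  have hT := (Cfsg.Agent.Fischer160.Inherit.isThree_of_fdata F.fd).1
  have hN : Short.NoRel D 4 := (Short.noRel_eight hT h).mono (by norm_num)
  have hrho := Two.exists_rho F h h₁ h₂ hne hc
  rw [← hK] at hrho
  obtain ⟨ρ, hρs, hρk, hperf⟩ := hrho
  have hcent := fun c h3 h4 h5 => Two.eq_of_centralizes F h h₁ h₂ hne hc (c := c) h3 h4 h5
  rw [← hK] at hcent
  have hjj : d₁ * d₂ * (d₁ * d₂) = 1 := by
    have e1 := F.fd.sq _ h₁
    have e2 := F.fd.sq _ h₂
    calc d₁ * d₂ * (d₁ * d₂) = d₁ * (d₂ * d₁) * d₂ := by group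
      _ = d₁ * (d₁ * d₂) * d₂ := by rw [hc.eq]
      _ = (d₁ * d₁) * (d₂ * d₂) := by group
      _ = 1 := by rw [e1, e2, one_mul]
  have hj1 : d₁ * d₂ ≠ 1 := by
    intro h3
    apply hne
    have e1 := F.fd.sq _ h₁
    exact mul_left_cancel (e1.trans h3.symm)
  have hmemK : ∀ {g : G}, g ∈ K ↔ g ∈ commutator G ∧ Commute g d₁ ∧ Commute g d₂ := by
    intro g
    rw [hK, Subgroup.mem_inf, Subgroup.mem_centralizer_iff]
    constructor
    · rintro ⟨k1, k2⟩
      exact ⟨k1, (k2 d₁ (Or.inl rfl)).symm, (k2 d₂ (Or.inr rfl)).symm⟩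
    · rintro ⟨k1, k2, k3⟩
      refine ⟨k1, ?_⟩
      rintro t (rfl | rfl)
      exacts [k2.symm, k3.symm]
  have hmemC : ∀ {g : G}, g ∈ CL ↔ g ∈ commutator G ∧ Commute g (d₁ * d₂) := by
    intro g
    rw [hCL, Subgroup.mem_inf, Subgroup.mem_centralizer_singleton_iff]
    exact Iff.rfl
  have hKC : K ≤ CL := by
    intro g hg
    obtain ⟨k1, k2, k3⟩ := hmemK.1 hg
    exact hmemC.2 ⟨k1, k2.mul_right k3⟩
  have hjK : d₁ * d₂ ∈ K := hmemK.2 ⟨T8.mul_mem_commutator F h₁ h₂,
    (Commute.refl d₁).mul_left hc.symm, hc.mul_left (Commute.refl d₂)⟩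
  obtain ⟨s, hs1, hs2, hsL⟩ := Two.exists_swap F h₁ h₂ hne hc
  have hsC : s ∈ CL := by
    refine hmemC.2 ⟨hsL, ?_⟩
    have h3 : s * (d₁ * d₂) * s⁻¹ = d₁ * d₂ := by
      calc s * (d₁ * d₂) * s⁻¹ = (s * d₁ * s⁻¹) * (s * d₂ * s⁻¹) := by group
        _ = d₂ * d₁ := by rw [hs1, hs2]
        _ = d₁ * d₂ := hc.eq.symm
    exact mul_inv_eq_iff_eq_mul.1 h3
  have hsK : s ∉ K := by
    intro h3
    have h4 := (hmemK.1 h3).2.1
    apply hne
    rw [← hs1, h4.eq, mul_inv_cancel_right]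
  -- members of `CL` permute `d₁, d₂`
  have hperm : ∀ c ∈ CL, (c * d₁ * c⁻¹ = d₁ ∧ c * d₂ * c⁻¹ = d₂) ∨
      (c * d₁ * c⁻¹ = d₂ ∧ c * d₂ * c⁻¹ = d₁) := fun c hcC =>
    Two.perm_of_commute hT hN h₁ h₂ hne hc F.fd.conj (hmemC.1 hcC).2
  have hfix : ∀ c ∈ CL, c * d₁ * c⁻¹ = d₁ → c ∈ K := by
    intro c hcC h3
    refine hmemK.2 ⟨(hmemC.1 hcC).1, mul_inv_eq_iff_eq_mul.1 h3, ?_⟩
    rcases hperm c hcC with ⟨-, h4⟩ | ⟨h4, -⟩
    · exact mul_inv_eq_iff_eq_mul.1 h4
    · exact absurd (h3.symm.trans h4) hne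
  have hnor : (K.subgroupOf CL).Normal := by
    constructor
    rintro ⟨k, hkC⟩ hk ⟨c, hcC⟩
    have hk' : k ∈ K := hk
    obtain ⟨k1, k2, k3⟩ := hmemK.1 hk'
    apply hfix _ (mul_mem (mul_mem hcC hkC) (inv_mem hcC))
    show c * k * c⁻¹ * d₁ * (c * k * c⁻¹)⁻¹ = d₁
    have e0 : c⁻¹ * d₁ * c = d₁ ∨ c⁻¹ * d₁ * c = d₂ := by
      rcases hperm _ (inv_mem hcC) with ⟨h4, -⟩ | ⟨h4, -⟩
      · left; rw [inv_inv] at h4; exact h4
      · right; rw [inv_inv] at h4; exact h4
    calc c * k * c⁻¹ * d₁ * (c * k * c⁻¹)⁻¹ = c * (k * (c⁻¹ * d₁ * c) * k⁻¹) * c⁻¹ := by group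
      _ = c * (c⁻¹ * d₁ * c) * c⁻¹ := by
        rcases e0 with h4 | h4
        · rw [h4, k2.eq, mul_inv_cancel_right]
        · rw [h4, k3.eq, mul_inv_cancel_right]
      _ = d₁ := by group
  have hindex : (K.subgroupOf CL).index = 2 := by
    rw [Subgroup.index_eq_two_iff]
    refine ⟨⟨s, hsC⟩, ?_⟩
    rintro ⟨b, hbC⟩
    have e1 : (⟨b, hbC⟩ : CL) ∈ K.subgroupOf CL ↔ b ∈ K := Subgroup.mem_subgroupOf
    have e2 : (⟨b, hbC⟩ * ⟨s, hsC⟩ : CL) ∈ K.subgroupOf CL ↔ b * s ∈ K := Subgroup.mem_subgroupOf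
    rw [e1, e2]
    rcases hperm b hbC with ⟨h3, h4⟩ | ⟨h3, h4⟩
    · have hbK := hfix b hbC h3
      right
      refine ⟨hbK, fun h5 => hsK ?_⟩
      have := mul_mem (inv_mem hbK) h5
      rwa [inv_mul_cancel_left] at this
    · left
      refine ⟨?_, ?_⟩
      · apply hfix _ (mul_mem hbC hsC)
        calc b * s * d₁ * (b * s)⁻¹ = b * (s * d₁ * s⁻¹) * b⁻¹ := by group
          _ = d₁ := by rw [hs1, h4]
      · intro h5
        apply hne
        rw [← h3, (hmemK.1 h5).2.1.eq, mul_inv_cancel_right]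
  -- the copy of `K` in `CL`
  let ε : ↥(K.subgroupOf CL) ≃* K := Subgroup.subgroupOfEquivOfLe hKC
  have hε : ∀ k : ↥(K.subgroupOf CL), ((ε k : K) : G) = ((k : CL) : G) := fun k => rfl
  have hperf' : commutator ↥(K.subgroupOf CL) = ⊤ :=
    Two.perfect_of_surjective ε.symm.toMonoidHom ε.symm.surjective hperf
  let ρ' : ↥(K.subgroupOf CL) →* Cfsg.Spor.Fi22 := ρ.comp ε.toMonoidHom
  have hρ's : Function.Surjective ρ' := hρs.comp ε.surjective
  have hρ'k : ∀ k, ρ' k = 1 ↔ ((k : CL) : G) = 1 ∨ ((k : CL) : G) = d₁ * d₂ := fun k => hρk (ε k)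
  have hker' : ρ'.ker ≤ Subgroup.center ↥(K.subgroupOf CL) := by
    intro k hk
    rw [MonoidHom.mem_ker, hρ'k] at hk
    rw [Subgroup.mem_center_iff]
    intro l
    apply Subtype.ext
    apply Subtype.ext
    show ((l : CL) : G) * ((k : CL) : G) = ((k : CL) : G) * ((l : CL) : G)
    rcases hk with hk | hk
    · rw [hk, mul_one, one_mul]
    · rw [hk]
      exact (hmemC.1 (l : CL).2).2.eq
  haveI hsimple : IsSimpleGroup Cfsg.Spor.Fi22 := Cfsg.Agent.Fischer.Fi22Order.isSimple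
  have hcard22 : Nat.card Cfsg.Spor.Fi22 = 64561751654400 := Cfsg.Agent.Fischer.Fi22Order.card_fi22
  haveI hfin : Finite Cfsg.Spor.Fi22 := Nat.finite_of_card_ne_zero (by rw [hcard22]; norm_num)
  have hcen : Subgroup.center Cfsg.Spor.Fi22 = ⊥ := by
    rcases hsimple.eq_bot_or_eq_top_of_normal (Subgroup.center Cfsg.Spor.Fi22) inferInstance with h3 | h3
    · exact h3
    · exfalso
      have h4 := Cfsg.Agent.R01.Assembly23.perf
      have h5 : commutator Cfsg.Spor.Fi22 = ⊥ := by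
        rw [commutator_def, Subgroup.commutator_eq_bot_iff_le_centralizer]
        intro g _
        rw [Subgroup.mem_centralizer_iff]
        intro k _
        have h6 : k ∈ Subgroup.center Cfsg.Spor.Fi22 := by rw [h3]; trivial
        exact (Subgroup.mem_center_iff.1 h6 g).symm
      rw [h5] at h4
      exact bot_ne_top h4
  obtain ⟨hq', hZ'⟩ := GenFit.quasisimple_of_ext hcen ρ' hρ's hker' hperf'
  have hker : ρ.ker ≤ Subgroup.center K := by
    intro k hk
    rw [MonoidHom.mem_ker, hρk] at hk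
    rw [Subgroup.mem_center_iff]
    intro l
    apply Subtype.ext
    show (l : G) * (k : G) = (k : G) * (l : G)
    rcases hk with hk | hk
    · rw [hk, mul_one, one_mul]
    · rw [hk]
      exact (hmemC.1 (hKC l.2)).2.eq
  have hq := (GenFit.quasisimple_of_ext hcen ρ hρs hker hperf).1
  have hcentK : ∀ c : CL, (∀ k ∈ K.subgroupOf CL, c * k = k * c) → (c : G) ∈ K := by
    intro c hck
    apply hcent (c : G) (hmemC.1 c.2).1 (hmemC.1 c.2).2
    intro k hk
    exact congrArg Subtype.val (hck ⟨k, hKC hk⟩ hk)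
  have hF := GenFit.eq_fstar hnor hq' (by
    intro c hcK
    rw [Subgroup.mem_centralizer_iff] at hcK
    exact hcentK c fun k hk => (hcK k hk).symm)
  refine ⟨hq, ?_, hKC, hindex, hjK, ?_⟩
  · rw [← hF, Subgroup.subgroupOf_map_subtype, inf_eq_left.2 hKC]
  · -- the action on `Fi22`
    obtain ⟨Φ, hΦ⟩ := ConjAut.exists_conj hnor ρ' hρ's (by
      intro c k hk
      rw [hρ'k] at hk ⊢
      show ((c : G) * ((k : CL) : G) * (c : G)⁻¹) = 1 ∨ ((c : G) * ((k : CL) : G) * (c : G)⁻¹) = d₁ * d₂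
      rcases hk with hk | hk
      · left; rw [hk, mul_one, mul_inv_cancel]
      · right
        rw [hk, (hmemC.1 c.2).2.eq, mul_inv_cancel_right])
    have hone := ConjAut.eq_one_iff hnor ρ' hρ's Φ hΦ hperf' hker'
    have hmemZ : ∀ c : CL, c ∈ (Subgroup.zpowers (d₁ * d₂)).subgroupOf CL ↔
        (c : G) = 1 ∨ (c : G) = d₁ * d₂ := by
      intro c
      rw [Subgroup.mem_subgroupOf, Subgroup.mem_zpowers_iff]
      constructor
      · rintro ⟨n, hn⟩
        rw [← hn]
        rcases Int.even_or_odd' n with ⟨m, rfl | rfl⟩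
        · left
          rw [zpow_mul, zpow_two, hjj, one_zpow]
        · right
          rw [zpow_add, zpow_mul, zpow_two, hjj, one_zpow, one_mul, zpow_one]
      · rintro (h3 | h3)
        · exact ⟨0, by rw [zpow_zero, h3]⟩
        · exact ⟨1, by rw [zpow_one, h3]⟩
    apply ConjAut.equiv_of_card Φ
    · intro c
      rw [hone, hmemZ]
      constructor
      · intro h3
        have h4 := hcentK c h3
        have h5 : (⟨c, h4⟩ : ↥(K.subgroupOf CL)) ∈ ρ'.ker := by
          rw [← hZ', Subgroup.mem_center_iff]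
          intro l
          apply Subtype.ext
          exact (h3 _ l.2).symm
        exact (hρ'k _).1 h5
      · intro h3 k hk
        apply Subtype.ext
        show (c : G) * (k : G) = (k : G) * (c : G)
        rcases h3 with h3 | h3
        · rw [h3, mul_one, one_mul]
        · rw [h3]
          exact ((hmemC.1 k.2).2.eq).symm
    · have c1 : Nat.card (MulAut Cfsg.Spor.Fi22) ≤ 2 * Nat.card Cfsg.Spor.Fi22 :=
        ConjAut.card_mulAut_le Cfsg.Agent.OddHalf.Table.OutFi22.mul_outer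
      have c2 : Nat.card ((Subgroup.zpowers (d₁ * d₂)).subgroupOf CL) = 2 := by
        have e1 : (((Subgroup.zpowers (d₁ * d₂)).subgroupOf CL : Subgroup CL) : Set CL) =
            {1, ⟨d₁ * d₂, hKC hjK⟩} := by
          ext c
          rw [SetLike.mem_coe, hmemZ]
          constructor
          · rintro (h3 | h3)
            · left; exact Subtype.ext h3
            · right; exact Subtype.ext h3
          · rintro (rfl | rfl)
            · left; rfl
            · right; rfl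
        have e2 : Nat.card ((Subgroup.zpowers (d₁ * d₂)).subgroupOf CL) =
            ({1, ⟨d₁ * d₂, hKC hjK⟩} : Set CL).ncard := by
          rw [← e1]; rfl
        rw [e2, Set.ncard_pair]
        intro h3
        exact hj1 (congrArg Subtype.val h3).symm
      have c3 : Nat.card ↥(K.subgroupOf CL) = 2 * Nat.card Cfsg.Spor.Fi22 := by
        have e1 := Subgroup.card_eq_card_quotient_mul_card_subgroup ρ'.ker
        rw [Nat.card_congr (QuotientGroup.quotientKerEquivOfSurjective ρ' hρ's).toEquiv] at e1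
        have e2 : ((ρ'.ker : Subgroup ↥(K.subgroupOf CL)) : Set ↥(K.subgroupOf CL)) =
            {1, ⟨⟨d₁ * d₂, hKC hjK⟩, hjK⟩} := by
          ext c
          rw [SetLike.mem_coe, MonoidHom.mem_ker, hρ'k]
          constructor
          · rintro (h3 | h3)
            · left; exact Subtype.ext (Subtype.ext h3)
            · right; exact Subtype.ext (Subtype.ext h3)
          · rintro (rfl | rfl)
            · left; rfl
            · right; rfl
        have e3 : Nat.card ρ'.ker =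
            ({1, ⟨⟨d₁ * d₂, hKC hjK⟩, hjK⟩} : Set ↥(K.subgroupOf CL)).ncard := by
          rw [← e2]; rfl
        rw [e1, e3, Set.ncard_pair, mul_comm]
        intro h3
        exact hj1 (congrArg (fun x : ↥(K.subgroupOf CL) => ((x : CL) : G)) h3).symm
      have c4 := Subgroup.card_mul_index (K.subgroupOf CL)
      rw [hindex, c3] at c4
      rw [c2]
      omega

/-- Let G be a finite group with trivial centre generated by a conjugation-invariant set D of 3-transpositions on which it acts primitively, such that for some d in D the subgroup generated by the members of D other than d commuting with d has central largest normal 2- and 3-subgroups, and suppose G with D is of type M(24), and let L be the commutator subgroup of G. Let d₁, d₂ be distinct commuting members of D and j = d₁ d₂. Then K, the joint centralizer of d₁ and d₂ in L, is quasisimple, is the generalized Fitting subgroup of the centralizer of j in L, has index 2 in it and contains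 j, and the centralizer of j in L modulo the subgroup generated by j is isomorphic to the full automorphism group of the Fischer group Fi₂₂ (as presented). -/
theorem result {G : Type*} [Group G] [Finite G] {D : Set G} (hD : Cfsg.IsThreeTranspositionGroup D) (hprim : Cfsg.IsPrimitiveUnderConj D) (d₀ : G) (hd₀ : d₀ ∈ D) (h3 : Cfsg.pCore 3 ↥(Subgroup.closure {y : G | y ∈ D ∧ y ≠ d₀ ∧ Commute d₀ y}) ≤ Subgroup.center ↥(Subgroup.closure {y : G | y ∈ D ∧ y ≠ d₀ ∧ Commute d₀ y})) (h2 : Cfsg.pCore 2 ↥(Subgroup.closure {y : G | y ∈ D ∧ y ≠ d₀ ∧ Commute d₀ y}) ≤ Subgroup.center ↥(Subgroup.closure {y : G | y ∈ D ∧ y ≠ d₀ ∧ Commute d₀ y})) (h24 : Cfsg.IsOfTypeM24 G D) (L : Subgroup G) (hL : L = commutator G) (d₁ d₂ : G) (h₁ : d₁ ∈ D) (h₂ : d₂ ∈ D) (hne : d₁ ≠ d₂) (hc : Commute d₁ d₂) (K CL : Subgroup G) (hK : K = L ⊓ Subgroup.centralizer ({d₁, d₂} : Set G)) (hCL : CL = L ⊓ Subgroup.centralizer ({d₁ * d₂} : Set G)) [hn : ((Subgroup.zpowers (d₁ * d₂)).subgroupOf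 CL).Normal] : Cfsg.IsQuasisimple ↥K ∧ K = (Cfsg.generalizedFittingSubgroup ↥CL).map CL.subtype ∧ K ≤ CL ∧ (K.subgroupOf CL).index = 2 ∧ d₁ * d₂ ∈ K ∧ Nonempty (↥CL ⧸ (Subgroup.zpowers (d₁ * d₂)).subgroupOf CL ≃* MulAut Cfsg.Spor.Fi22) := by
  have h8 := Types.isT8 hD hprim hd₀ h2 h24
  have F := Types.inh_of_defs (Types.fgroup_m24 hD hprim h24)
  rw [hL] at hK hCL
  exact main F h8 d₁ d₂ h₁ h₂ hne hc K CL hK hCL

end Cfsg.Agent.S5465
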