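import Cfsg.Statements.S5466
-- import your own Cfsg.Agent.* helpers here
import Cfsg.Agent.H831.Triple8
import Cfsg.Agent.ClassicalGeometry.PSUAutMain
import Cfsg.Agent.ClassicalGeometry.PSUAutCount

set_option autoImplicit false
open Cfsg

set_option linter.style.haveILetI false
set_option linter.unusedVariables false

namespace Cfsg.Agent.S5466

open Cfsg.Agent.Fischer160.Inherit (FGroup)
open Cfsg.Agent.Fischer480.Defs (IsT8)
open Cfsg.Agent.H831

theorem card_mulAut_psu {L : Type*} [Field L] [Fintype L] (hL : Fintype.card L = 4) :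
    Nat.card (MulAut (PSU 6 L 2)) = 6 * Nat.card (PSU 6 L 2) := by
  have hF : Fintype.card L = 2 ^ 2 := by rw [hL]; norm_num
  rw [Cfsg.Agent.ClassicalGeometry.PSUAutCount.card_mulAut_of hF (n := 6) (by norm_num)
    (p := 2) (f := 1) Nat.prime_two le_rfl (by norm_num)
    (Cfsg.Agent.ClassicalGeometry.PSUAutMain.exists_toAut hF (by norm_num) (by norm_num))]
  have e1 : Nat.gcd 6 (2 + 1) = 3 := by decide
  rw [e1]

/-- The statement for Fischer groups of type `T8`. -/
theorem main {G : Type*} [Group G] [Finite G] {D : Set G} (F : FGroup D) (h : IsT8 D)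
    (d₁ d₂ d₃ : G) (h₁ : d₁ ∈ D) (h₂ : d₂ ∈ D) (h₃ : d₃ ∈ D) (h12 : d₁ ≠ d₂) (h13 : d₁ ≠ d₃)
    (h23 : d₂ ≠ d₃) (c12 : Commute d₁ d₂) (c13 : Commute d₁ d₃) (c23 : Commute d₂ d₃)
    (E CL K : Subgroup G) (hE : E = Subgroup.closure ({d₁ * d₂, d₁ * d₃} : Set G))
    (hCL : CL = commutator G ⊓ Subgroup.centralizer ({d₁ * d₂ * d₃} : Set G))
    (hK : K = (Cfsg.generalizedFittingSubgroup ↥CL).map CL.subtype) :
    Cfsg.IsQuasisimple ↥K ∧ (Subgroup.center ↥K).map K.subtype = E ∧
      K = commutator G ⊓ Subgroup.centralizer (E : Set G) ∧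
      (∃ (_ : (E.subgroupOf K).Normal) (F : Type) (_ : Field F) (_ : Fintype F),
        Fintype.card F = 4 ∧ Nonempty (↥K ⧸ E.subgroupOf K ≃* Cfsg.PSU 6 F 2)) ∧
      ∃ _ : (K.subgroupOf CL).Normal, Nonempty (↥CL ⧸ K.subgroupOf CL ≃* Equiv.Perm (Fin 3)) ∧
        E ≤ CL ∧ ∃ (_ : (E.subgroupOf CL).Normal) (F : Type) (_ : Field F) (_ : Fintype F),
          Fintype.card F = 4 ∧ Nonempty (↥CL ⧸ E.subgroupOf CL ≃* MulAut (Cfsg.PSU 6 F 2)) := by
  have hT := (Cfsg.Agent.Fischer160.Inherit.isThree_of_fdata F.fd).1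
  have hN : Short.NoRel D 6 := (Short.noRel_eight hT h).mono (by norm_num)
  have s1 := F.fd.sq _ h₁
  have s2 := F.fd.sq _ h₂
  have s3 := F.fd.sq _ h₃
  -- the three members
  let d : Fin 3 → G := ![d₁, d₂, d₃]
  have hd : ∀ i, d i ∈ D := by
    intro i; fin_cases i
    exacts [h₁, h₂, h₃]
  have hinj : Function.Injective d := by
    intro i j hij
    fin_cases i <;> fin_cases j
    · rfl
    · exact absurd hij h12
    · exact absurd hij h13
    · exact absurd hij.symm h12
    · rfl
    · exact absurd hij h23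
    · exact absurd hij.symm h13
    · exact absurd hij.symm h23
    · rfl
  have hdc : ∀ i j, Commute (d i) (d j) := by
    intro i j
    fin_cases i <;> fin_cases j
    exacts [Commute.refl _, c12, c13, c12.symm, Commute.refl _, c23, c13.symm, c23.symm,
      Commute.refl _]
  obtain ⟨L, i1, i2, hL, hσ⟩ := Triple8.exists_sigma F h h₁ h₂ h₃ h12 h13 h23 c12 c13 c23
  obtain ⟨Q, hQ⟩ : ∃ Q : Subgroup G, Q = commutator G ⊓ Subgroup.centralizer ({d₁, d₂, d₃} : Set G) :=
    ⟨_, rfl⟩
  rw [← hQ] at hσ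
  obtain ⟨σ, hσs, hσk, hperf⟩ := hσ
  have hmemQ : ∀ {g : G}, g ∈ Q ↔ g ∈ commutator G ∧ Commute g d₁ ∧ Commute g d₂ ∧ Commute g d₃ := by
    intro g
    rw [hQ, Subgroup.mem_inf, Subgroup.mem_centralizer_iff]
    constructor
    · rintro ⟨k1, k2⟩
      exact ⟨k1, (k2 d₁ (by simp)).symm, (k2 d₂ (by simp)).symm, (k2 d₃ (by simp)).symm⟩
    · rintro ⟨k1, k2, k3, k4⟩
      refine ⟨k1, ?_⟩
      rintro t (rfl | rfl | rfl)
      exacts [k2.symm, k3.symm, k4.symm]
  have hmemC : ∀ {g : G}, g ∈ CL ↔ g ∈ commutator G ∧ Commute g (d₁ * d₂ * d₃) := by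
    intro g
    rw [hCL, Subgroup.mem_inf, Subgroup.mem_centralizer_singleton_iff]
    exact Iff.rfl
  have hQC : Q ≤ CL := by
    intro g hg
    obtain ⟨k1, k2, k3, k4⟩ := hmemQ.1 hg
    exact hmemC.2 ⟨k1, (k2.mul_right k3).mul_right k4⟩
  -- the four-group
  have e12 : d₁ * d₂ ∈ Q := hmemQ.2 ⟨T8.mul_mem_commutator F h₁ h₂,
    (Commute.refl d₁).mul_left c12.symm, c12.mul_left (Commute.refl d₂), c13.mul_left c23⟩
  have e13 : d₁ * d₃ ∈ Q := hmemQ.2 ⟨T8.mul_mem_commutator F h₁ h₃,
    (Commute.refl d₁).mul_left c13.symm, c12.mul_left c23.symm, c13.mul_left (Commute.refl d₃)⟩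
  have e23 : d₂ * d₃ ∈ Q := hmemQ.2 ⟨T8.mul_mem_commutator F h₂ h₃,
    c12.symm.mul_left c13.symm, (Commute.refl d₂).mul_left c23.symm,
    c23.mul_left (Commute.refl d₃)⟩
  have hprod : d₁ * d₂ * (d₁ * d₃) = d₂ * d₃ := by
    calc d₁ * d₂ * (d₁ * d₃) = d₁ * (d₂ * d₁) * d₃ := by group
      _ = d₁ * (d₁ * d₂) * d₃ := by rw [c12.eq]
      _ = (d₁ * d₁) * (d₂ * d₃) := by group
      _ = d₂ * d₃ := by rw [s1, one_mul]
  have hcomm : ∀ {a b : G}, Commute a b → a * a = 1 → b * b = 1 → a * b * (a * b) = 1 := by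
    intro a b hab ha hb
    calc a * b * (a * b) = a * (b * a) * b := by group
      _ = a * (a * b) * b := by rw [hab.eq]
      _ = (a * a) * (b * b) := by group
      _ = 1 := by rw [ha, hb, one_mul]
  have q12 := hcomm c12 s1 s2
  have q13 := hcomm c13 s1 s3
  have q23 := hcomm c23 s2 s3
  have ce : Commute (d₁ * d₂) (d₁ * d₃) :=
    ((Commute.refl d₁).mul_right c13).mul_left (c12.symm.mul_right c23)
  have hmemE : ∀ {g : G}, g ∈ E ↔ g = 1 ∨ g = d₁ * d₂ ∨ g = d₁ * d₃ ∨ g = d₂ * d₃ := by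
    intro g
    constructor
    · intro hg
      rw [hE] at hg
      induction hg using Subgroup.closure_induction with
      | mem x hx =>
        rcases hx with rfl | rfl
        · exact Or.inr (Or.inl rfl)
        · exact Or.inr (Or.inr (Or.inl rfl))
      | one => exact Or.inl rfl
      | mul a b _ _ ha hb =>
        have p1 : d₁ * d₂ * (d₂ * d₃) = d₁ * d₃ := by
          rw [← hprod, ← mul_assoc, q12, one_mul]
        have p2 : d₁ * d₃ * (d₁ * d₂) = d₂ * d₃ := by rw [← ce.eq, hprod]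
        have p3 : d₁ * d₃ * (d₂ * d₃) = d₁ * d₂ := by
          rw [← hprod, ce.eq, ← mul_assoc, q13, one_mul]
        have p4 : d₂ * d₃ * (d₁ * d₂) = d₁ * d₃ := by
          rw [← hprod, ce.eq, mul_assoc, q12, mul_one]
        have p5 : d₂ * d₃ * (d₁ * d₃) = d₁ * d₂ := by
          rw [← hprod, mul_assoc, q13, mul_one]
        rcases ha with rfl | rfl | rfl | rfl <;> rcases hb with rfl | rfl | rfl | rfl <;>
          simp only [one_mul, mul_one, q12, q13, q23, hprod, p1, p2, p3, p4, p5, true_or, or_true]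
      | inv a _ ha =>
        have i12 : (d₁ * d₂)⁻¹ = d₁ * d₂ := inv_eq_of_mul_eq_one_left q12
        have i13 : (d₁ * d₃)⁻¹ = d₁ * d₃ := inv_eq_of_mul_eq_one_left q13
        have i23 : (d₂ * d₃)⁻¹ = d₂ * d₃ := inv_eq_of_mul_eq_one_left q23
        rcases ha with rfl | rfl | rfl | rfl <;>
          simp only [inv_one, i12, i13, i23, true_or, or_true]
    · rw [hE]
      have g1 : d₁ * d₂ ∈ Subgroup.closure ({d₁ * d₂, d₁ * d₃} : Set G) :=
        Subgroup.subset_closure (by simp)
      have g2 : d₁ * d₃ ∈ Subgroup.closure ({d₁ * d₂, d₁ * d₃} : Set G) :=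
        Subgroup.subset_closure (by simp)
      rintro (rfl | rfl | rfl | rfl)
      · exact one_mem _
      · exact g1
      · exact g2
      · rw [← hprod]; exact mul_mem g1 g2
  have hEQ : E ≤ Q := by
    intro g hg
    rcases hmemE.1 hg with rfl | rfl | rfl | rfl
    exacts [one_mem _, e12, e13, e23]
  -- `Q = L ∩ C(E)`
  have hQE : Q = commutator G ⊓ Subgroup.centralizer (E : Set G) := by
    apply le_antisymm
    · intro g hg
      obtain ⟨k1, k2, k3, k4⟩ := hmemQ.1 hg
      refine Subgroup.mem_inf.2 ⟨k1, ?_⟩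
      rw [Subgroup.mem_centralizer_iff]
      intro t ht
      rcases hmemE.1 ht with rfl | rfl | rfl | rfl
      · rw [one_mul, mul_one]
      · exact (k2.mul_right k3).symm.eq
      · exact (k2.mul_right k4).symm.eq
      · exact (k3.mul_right k4).symm.eq
    · intro g hg
      obtain ⟨k1, k2⟩ := Subgroup.mem_inf.1 hg
      rw [Subgroup.mem_centralizer_iff] at k2
      have m1 : Commute g (d₁ * d₂) := (k2 _ (hmemE.2 (Or.inr (Or.inl rfl)))).symm
      have m2 : Commute g (d₁ * d₃) := (k2 _ (hmemE.2 (Or.inr (Or.inr (Or.inl rfl))))).symm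
      have hN4 : Short.NoRel D 4 := hN.mono (by norm_num)
      have f1 : g * d₁ * g⁻¹ = d₁ := by
        rcases Two.perm_of_commute hT hN4 h₁ h₂ h12 c12 F.fd.conj m1 with ⟨a1, -⟩ | ⟨a1, -⟩
        · exact a1
        · rcases Two.perm_of_commute hT hN4 h₁ h₃ h13 c13 F.fd.conj m2 with ⟨b1, -⟩ | ⟨b1, -⟩
          · exact b1
          · exact absurd (a1.symm.trans b1) h23
      have g1 : Commute g d₁ := mul_inv_eq_iff_eq_mul.1 f1
      have g2 : Commute g d₂ := by
        have := g1.mul_right m1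
        rwa [← mul_assoc, s1, one_mul] at this
      have g3 : Commute g d₃ := by
        have := g1.mul_right m2
        rwa [← mul_assoc, s1, one_mul] at this
      exact hmemQ.2 ⟨k1, g1, g2, g3⟩
  -- the permutation of the three members
  have hex : ∀ c : CL, ∃ s : Equiv.Perm (Fin 3), ∀ i, (c : G) * d i * (c : G)⁻¹ = d (s i) :=
    fun c => Triple8.exists_perm3 hT hN hd hinj hdc F.fd.conj (hmemC.1 c.2).2
  choose s hs using hex
  let φ : CL →* Equiv.Perm (Fin 3) :=
    { toFun := s
      map_one' := by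
        ext i
        have := hs 1 i
        simp only [OneMemClass.coe_one, one_mul, inv_one, mul_one] at this
        exact congrArg Fin.val (hinj this).symm
      map_mul' := by
        intro a b
        apply Equiv.ext
        intro i
        apply hinj
        rw [← hs (a * b) i]
        show _ = d (s a (s b i))
        rw [← hs a, ← hs b, Subgroup.coe_mul]
        group }
  have hφ : ∀ (c : CL) i, (c : G) * d i * (c : G)⁻¹ = d (φ c i) := hs
  have hker : φ.ker = Q.subgroupOf CL := by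
    ext c
    rw [MonoidHom.mem_ker, Subgroup.mem_subgroupOf, hmemQ]
    constructor
    · intro h1
      have h2 : ∀ i, Commute (c : G) (d i) := by
        intro i
        have h3 := hφ c i
        rw [h1] at h3
        exact mul_inv_eq_iff_eq_mul.1 h3
      exact ⟨(hmemC.1 c.2).1, h2 0, h2 1, h2 2⟩
    · rintro ⟨-, k1, k2, k3⟩
      apply Equiv.ext
      intro i
      apply hinj
      rw [← hφ]
      show (c : G) * d i * (c : G)⁻¹ = d i
      have h2 : Commute (c : G) (d i) := by
        fin_cases i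
        exacts [k1, k2, k3]
      rw [h2.eq, mul_inv_cancel_right]
  have hnor : (Q.subgroupOf CL).Normal := by
    rw [← hker]; infer_instance
  have hφs : Function.Surjective φ := by
    rw [← MonoidHom.range_eq_top, eq_top_iff, ← Equiv.Perm.closure_isSwap, Subgroup.closure_le]
    rintro τ ⟨i, j, hij, rfl⟩
    obtain ⟨k, hki, hkj⟩ := Triple8.exists_third3 i j hij
    obtain ⟨g, hgL, gk, gi, gj⟩ := Triple8.exists_swap_fix F h (hd k) (hd i) (hd j)
      (fun e => hki (hinj e)) (fun e => hkj (hinj e)) (fun e => hij (hinj e)) (hdc _ _) (hdc _ _)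
      (hdc _ _)
    have hgd : ∀ l, g * d l * g⁻¹ = d (Equiv.swap i j l) := by
      intro l
      by_cases hli : l = i
      · rw [hli, Equiv.swap_apply_left, gi]
      by_cases hlj : l = j
      · rw [hlj, Equiv.swap_apply_right, gj]
      · rw [Equiv.swap_apply_of_ne_of_ne hli hlj, Triple8.perm3_swap i j k l hij hki hkj hli hlj, gk]
    have hgC : g ∈ CL := by
      refine hmemC.2 ⟨hgL, ?_⟩
      have h5 : g * (d 0 * d 1 * d 2) * g⁻¹ = d 0 * d 1 * d 2 := by
        calc g * (d 0 * d 1 * d 2) * g⁻¹ = (g * d 0 * g⁻¹) * (g * d 1 * g⁻¹) * (g * d 2 * g⁻¹) := by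
              group
          _ = d (Equiv.swap i j 0) * d (Equiv.swap i j 1) * d (Equiv.swap i j 2) := by
              rw [hgd, hgd, hgd]
          _ = d 0 * d 1 * d 2 := by
              have hcc : ∀ a b : Fin 3, d a * d b = d b * d a := fun a b => (hdc a b).eq
              have t1 : d 1 * d 0 * d 2 = d 0 * d 1 * d 2 := by rw [hcc 1 0]
              have t2 : d 0 * d 2 * d 1 = d 0 * d 1 * d 2 := by rw [mul_assoc, hcc 2 1, mul_assoc]
              have t3 : d 2 * d 1 * d 0 = d 0 * d 1 * d 2 := by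
                rw [hcc 2 1, mul_assoc, hcc 2 0, ← mul_assoc, hcc 1 0]
              fin_cases i <;> fin_cases j <;>
                first
                  | exact absurd rfl hij
                  | exact t1
                  | exact t2
                  | exact t3
      exact mul_inv_eq_iff_eq_mul.1 h5
    refine ⟨⟨g, hgC⟩, ?_⟩
    apply Equiv.ext
    intro l
    apply hinj
    rw [← hφ]
    exact hgd l
  -- the copy of `Q` in `CL`
  let ε : ↥(Q.subgroupOf CL) ≃* Q := Subgroup.subgroupOfEquivOfLe hQC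
  have hperf' : commutator ↥(Q.subgroupOf CL) = ⊤ :=
    Two.perfect_of_surjective ε.symm.toMonoidHom ε.symm.surjective hperf
  let σ' : ↥(Q.subgroupOf CL) →* PSU 6 L 2 := σ.comp ε.toMonoidHom
  have hσ's : Function.Surjective σ' := hσs.comp ε.surjective
  have hσ'k : ∀ k, σ' k = 1 ↔ ((k : CL) : G) ∈ E := by
    intro k
    rw [hmemE]
    exact hσk (ε k)
  have hEcen : ∀ e ∈ E, ∀ g ∈ Q, g * e = e * g := by
    intro e he g hg
    rw [hQE] at hg
    exact (Subgroup.mem_centralizer_iff.1 (Subgroup.mem_inf.1 hg).2 e he).symm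
  have hker' : σ'.ker ≤ Subgroup.center ↥(Q.subgroupOf CL) := by
    intro k hk
    rw [MonoidHom.mem_ker, hσ'k] at hk
    rw [Subgroup.mem_center_iff]
    intro l
    apply Subtype.ext
    apply Subtype.ext
    exact hEcen _ hk _ l.2
  obtain ⟨hsimple, hna⟩ := USix.psu_simple hL
  haveI := hsimple
  have hcardP := USix.card_PSU' hL
  haveI hfin : Finite (PSU 6 L 2) := Nat.finite_of_card_ne_zero (by rw [hcardP]; norm_num)
  have hcen : Subgroup.center (PSU 6 L 2) = ⊥ := by
    rcases hsimple.eq_bot_or_eq_top_of_normal (Subgroup.center (PSU 6 L 2)) inferInstance with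
      h3 | h3
    · exact h3
    · exfalso
      obtain ⟨a, b, hab⟩ := hna
      apply hab
      have h6 : b ∈ Subgroup.center (PSU 6 L 2) := by rw [h3]; trivial
      exact Subgroup.mem_center_iff.1 h6 a
  obtain ⟨hq', hZ'⟩ := GenFit.quasisimple_of_ext hcen σ' hσ's hker' hperf'
  have hkerQ : σ.ker ≤ Subgroup.center Q := by
    intro k hk
    rw [MonoidHom.mem_ker, hσk, ← hmemE] at hk
    rw [Subgroup.mem_center_iff]
    intro l
    apply Subtype.ext
    exact hEcen _ hk _ l.2
  obtain ⟨hq, hZ⟩ := GenFit.quasisimple_of_ext hcen σ hσs hkerQ hperf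
  have hcentQ : ∀ c : CL, (∀ k ∈ Q.subgroupOf CL, c * k = k * c) → (c : G) ∈ Q := by
    intro c hck
    rw [hQE]
    refine Subgroup.mem_inf.2 ⟨(hmemC.1 c.2).1, ?_⟩
    rw [Subgroup.mem_centralizer_iff]
    intro e he
    exact (congrArg Subtype.val (hck ⟨e, hQC (hEQ he)⟩ (hEQ he))).symm
  have hF := GenFit.eq_fstar hnor hq' (by
    intro c hcK
    rw [Subgroup.mem_centralizer_iff] at hcK
    exact hcentQ c fun k hk => (hcK k hk).symm)
  have hKQ : K = Q := by
    rw [hK, ← hF, Subgroup.subgroupOf_map_subtype, inf_eq_left.2 hQC]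
  rw [hKQ]
  have hσE : σ.ker = E.subgroupOf Q := by
    ext k
    rw [MonoidHom.mem_ker, hσk, ← hmemE, Subgroup.mem_subgroupOf]
  have hnE : (E.subgroupOf Q).Normal := by rw [← hσE]; infer_instance
  have hEC : E ≤ CL := hEQ.trans hQC
  have hnEC : (E.subgroupOf CL).Normal := by
    constructor
    intro e he c
    rw [Subgroup.mem_subgroupOf] at he ⊢
    show (c : G) * (e : G) * (c : G)⁻¹ ∈ E
    have hpq : ∀ i j, d i * d j ∈ E := by
      have r1 := hmemE.2 (Or.inr (Or.inl rfl) : d₁ * d₂ = 1 ∨ d₁ * d₂ = d₁ * d₂ ∨ _ ∨ _)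
      have r2 : d₁ * d₃ ∈ E := hmemE.2 (Or.inr (Or.inr (Or.inl rfl)))
      have r3 : d₂ * d₃ ∈ E := hmemE.2 (Or.inr (Or.inr (Or.inr rfl)))
      intro i j
      fin_cases i <;> fin_cases j
      · show d₁ * d₁ ∈ E
        rw [s1]; exact one_mem _
      · exact r1
      · exact r2
      · show d₂ * d₁ ∈ E
        rw [← c12.eq]; exact r1
      · show d₂ * d₂ ∈ E
        rw [s2]; exact one_mem _
      · exact r3
      · show d₃ * d₁ ∈ E
        rw [← c13.eq]; exact r2
      · show d₃ * d₂ ∈ E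
        rw [← c23.eq]; exact r3
      · show d₃ * d₃ ∈ E
        rw [s3]; exact one_mem _
    have hcj : ∀ i j, (c : G) * (d i * d j) * (c : G)⁻¹ ∈ E := by
      intro i j
      have : (c : G) * (d i * d j) * (c : G)⁻¹ = d (φ c i) * d (φ c j) := by
        rw [← hφ, ← hφ]; group
      rw [this]
      exact hpq _ _
    rcases hmemE.1 he with h5 | h5 | h5 | h5
    · rw [h5, mul_one, mul_inv_cancel]; exact one_mem _
    · rw [h5]; exact hcj 0 1
    · rw [h5]; exact hcj 0 2
    · rw [h5]; exact hcj 1 2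
  refine ⟨hq, ?_, hQE, ⟨hnE, L, i1, i2, hL, ?_⟩, hnor, ?_, hEC, hnEC, L, i1, i2, hL, ?_⟩
  · rw [hZ, hσE, Subgroup.subgroupOf_map_subtype, inf_eq_left.2 hEQ]
  · exact ⟨(QuotientGroup.quotientMulEquivOfEq hσE.symm).trans
      (QuotientGroup.quotientKerEquivOfSurjective σ hσs)⟩
  · exact ⟨(QuotientGroup.quotientMulEquivOfEq hker.symm).trans
      (QuotientGroup.quotientKerEquivOfSurjective φ hφs)⟩
  · -- the action on `PSU(6, 2)`
    obtain ⟨Φ, hΦ⟩ := ConjAut.exists_conj hnor σ' hσ's (by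
      intro c k hk
      rw [hσ'k] at hk ⊢
      have h5 := hnEC.conj_mem ⟨((k : CL) : G), (k : CL).2⟩ (Subgroup.mem_subgroupOf.2 hk) c
      exact Subgroup.mem_subgroupOf.1 h5)
    have hone := ConjAut.eq_one_iff hnor σ' hσ's Φ hΦ hperf' hker'
    apply ConjAut.equiv_of_card Φ
    · intro c
      rw [hone, Subgroup.mem_subgroupOf]
      constructor
      · intro h3
        have h4 := hcentQ c h3
        have h5 : (⟨c, h4⟩ : ↥(Q.subgroupOf CL)) ∈ σ'.ker := by
          rw [← hZ', Subgroup.mem_center_iff]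
          intro l
          apply Subtype.ext
          exact (h3 _ l.2).symm
        exact (hσ'k _).1 h5
      · intro h3 k hk
        apply Subtype.ext
        exact (hEcen _ h3 _ hk).symm
    · rw [card_mulAut_psu hL]
      have c1 : Nat.card ↥(Q.subgroupOf CL) =
          Nat.card (PSU 6 L 2) * Nat.card ↥(E.subgroupOf CL) := by
        have e1 := Subgroup.card_eq_card_quotient_mul_card_subgroup σ'.ker
        rw [Nat.card_congr (QuotientGroup.quotientKerEquivOfSurjective σ' hσ's).toEquiv] at e1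
        rw [e1]
        congr 1
        refine Nat.card_congr
          { toFun := fun x => ⟨((x : ↥(Q.subgroupOf CL)) : CL), (hσ'k _).1 x.2⟩
            invFun := fun x => ⟨⟨(x : CL), Subgroup.mem_subgroupOf.2 (hEQ x.2)⟩, (hσ'k _).2 x.2⟩
            left_inv := fun _ => rfl
            right_inv := fun _ => rfl }
      have c2 : Nat.card CL = 6 * Nat.card ↥(Q.subgroupOf CL) := by
        have e1 := Subgroup.card_eq_card_quotient_mul_card_subgroup φ.ker
        rw [Nat.card_congr (QuotientGroup.quotientKerEquivOfSurjective φ hφs).toEquiv,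
          hker] at e1
        rw [e1]
        congr 1
        rw [Nat.card_eq_fintype_card, Fintype.card_perm, Fintype.card_fin]
        rfl
      rw [c2, c1, mul_assoc]

/-- Let G be a finite group with trivial centre generated by a conjugation-invariant set D of 3-transpositions on which it acts primitively, such that for some d in D the subgroup generated by the members of D other than d commuting with d has central largest normal 2- and 3-subgroups, and suppose G with D is of type M(24), and let L be the commutator subgroup of G. Let d₁, d₂, d₃ be distinct pairwise commuting members of D, j their product, E the subgroup generated by d₁ d₂ and d₁ d₃ (a four-group lying in L), CL the centralizer of j in L and K its generalized Fitting subgroup. Then K is quasisimple with centre E, K is the centralizer of E in L, K modulo E is isomorphic to the projective special unitary group of dimension 6 over the field with four elements, CL/K is isomorphic to the symmetric group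 of degree 3, and CL modulo E is isomorphic to the full automorphism group of that unitary group. -/
theorem result {G : Type*} [Group G] [Finite G] {D : Set G} (hD : Cfsg.IsThreeTranspositionGroup D) (hprim : Cfsg.IsPrimitiveUnderConj D) (d₀ : G) (hd₀ : d₀ ∈ D) (h3 : Cfsg.pCore 3 ↥(Subgroup.closure {y : G | y ∈ D ∧ y ≠ d₀ ∧ Commute d₀ y}) ≤ Subgroup.center ↥(Subgroup.closure {y : G | y ∈ D ∧ y ≠ d₀ ∧ Commute d₀ y})) (h2 : Cfsg.pCore 2 ↥(Subgroup.closure {y : G | y ∈ D ∧ y ≠ d₀ ∧ Commute d₀ y}) ≤ Subgroup.center ↥(Subgroup.closure {y : G | y ∈ D ∧ y ≠ d₀ ∧ Commute d₀ y})) (h24 : Cfsg.IsOfTypeM24 G D) (L : Subgroup G) (hL : L = commutator G) (d₁ d₂ d₃ : G) (h₁ : d₁ ∈ D) (h₂ : d₂ ∈ D) (h₃ : d₃ ∈ D) (h12 : d₁ ≠ d₂) (h13 : d₁ ≠ d₃) (h23 : d₂ ≠ d₃) (c12 : Commute d₁ d₂) (c13 : Commute d₁ d₃) (c23 : Commute d₂ d₃) (E CL K : Subgroup G) (hE : E = Subgroup.closure ({d₁ * d₂, d₁ * d₃} : Set G)) (hCL : CL = L ⊓ Subgroup.centralizer ({d₁ * d₂ * d₃} : Set G)) (hK : K = (Cfsg.generalizedFittingSubgroup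 ↥CL).map CL.subtype) : Cfsg.IsQuasisimple ↥K ∧ (Subgroup.center ↥K).map K.subtype = E ∧ K = L ⊓ Subgroup.centralizer (E : Set G) ∧ (∃ (_ : (E.subgroupOf K).Normal) (F : Type) (_ : Field F) (_ : Fintype F), Fintype.card F = 4 ∧ Nonempty (↥K ⧸ E.subgroupOf K ≃* Cfsg.PSU 6 F 2)) ∧ ∃ _ : (K.subgroupOf CL).Normal, Nonempty (↥CL ⧸ K.subgroupOf CL ≃* Equiv.Perm (Fin 3)) ∧ E ≤ CL ∧ ∃ (_ : (E.subgroupOf CL).Normal) (F : Type) (_ : Field F) (_ : Fintype F), Fintype.card F = 4 ∧ Nonempty (↥CL ⧸ E.subgroupOf CL ≃* MulAut (Cfsg.PSU 6 F 2)) := by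
  have h8 := Types.isT8 hD hprim hd₀ h2 h24
  have F := Types.inh_of_defs (Types.fgroup_m24 hD hprim h24)
  rw [hL] at hCL ⊢
  exact main F h8 d₁ d₂ d₃ h₁ h₂ h₃ h12 h13 h23 c12 c13 c23 E CL K hE hCL hK

end Cfsg.Agent.S5466
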