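import Cfsg.Statements.S5469
import Cfsg.Agent.H836.Bridge
import Cfsg.Agent.H833.CentQuot

set_option autoImplicit false
open Cfsg

namespace Cfsg.Agent.S5469

open Cfsg.Agent.KFacts.FiTT Cfsg.Agent.SporRec.GF4

universe u

variable {G : Type u} [Group G] {d₁ d₂ : G}

theorem mem_K {x : G} : x ∈ Subgroup.centralizer ({d₁, d₂} : Set G) ↔ x * d₁ = d₁ * x ∧ x * d₂ = d₂ * x := by
  rw [Subgroup.mem_centralizer_iff]
  constructor
  · intro h
    exact ⟨(h d₁ (Or.inl rfl)).symm, (h d₂ (Or.inr rfl)).symm⟩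
  · rintro ⟨h1, h2⟩ y (rfl | rfl)
    · exact h1.symm
    · exact h2.symm

theorem K_le : Subgroup.centralizer ({d₁, d₂} : Set G) ≤ Subgroup.centralizer ({d₁ * d₂} : Set G) := by
  intro x hx
  obtain ⟨h1, h2⟩ := mem_K.1 hx
  rw [Subgroup.mem_centralizer_singleton_iff, ← mul_assoc, h1, mul_assoc, h2, mul_assoc]

theorem index_K {R : Subgroup G} (h : Facts G d₁ d₂ R) :
    ((Subgroup.centralizer ({d₁, d₂} : Set G)).subgroupOf
      (Subgroup.centralizer ({d₁ * d₂} : Set G))).index = 2 := by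
  show (Subgroup.centralizer ({d₁, d₂} : Set G)).relIndex
    (Subgroup.centralizer ({d₁ * d₂} : Set G)) = 2
  rw [Subgroup.relIndex_eq_two_iff]
  obtain ⟨p, hp, hp'⟩ := h.swap
  have hpz : p * (d₁ * d₂) = d₁ * d₂ * p := by
    have h1 : p * (d₁ * d₂) * p⁻¹ = (p * d₁ * p⁻¹) * (p * d₂ * p⁻¹) := by group
    rw [hp, hp', ← h.comm] at h1
    exact mul_inv_eq_iff_eq_mul.1 h1
  have hp1 : p * d₁ = d₂ * p := mul_inv_eq_iff_eq_mul.1 hp
  have hp2 : p * d₂ = d₁ * p := mul_inv_eq_iff_eq_mul.1 hp'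
  refine ⟨p, Subgroup.mem_centralizer_singleton_iff.2 hpz, fun b hb => ?_⟩
  rcases h.cz b (Subgroup.mem_centralizer_singleton_iff.1 hb) with ⟨h1, h2⟩ | ⟨h1, h2⟩
  · right
    refine ⟨mem_K.2 ⟨h1, h2⟩, fun h0 => ?_⟩
    have h3 : b * p * d₁ = d₁ * (b * p) := (mem_K.1 h0).1
    apply h.ne
    have h4 : b * (p * d₁) = d₁ * b * p := by rw [← mul_assoc, h3, mul_assoc]
    rw [hp1, ← mul_assoc, h2] at h4
    have h5 := mul_right_cancel (mul_right_cancel h4)
    exact h5.symm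
  · left
    have e1 : b * d₁ = d₂ * b := mul_inv_eq_iff_eq_mul.1 h1
    have e2 : b * d₂ = d₁ * b := mul_inv_eq_iff_eq_mul.1 h2
    refine ⟨mem_K.2 ⟨?_, ?_⟩, fun h0 => ?_⟩
    · show b * p * d₁ = d₁ * (b * p)
      rw [mul_assoc, hp1, ← mul_assoc, e2, mul_assoc]
    · show b * p * d₂ = d₂ * (b * p)
      rw [mul_assoc, hp2, ← mul_assoc, e1, mul_assoc]
    · have h3 : b * d₁ = d₁ * b := (mem_K.1 h0).1
      apply h.ne
      rw [e1] at h3
      exact (mul_right_cancel h3).symm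

theorem mem_V {R : Subgroup G} (h : Facts G d₁ d₂ R) {x : G}
    (hx : x = 1 ∨ x = d₁ ∨ x = d₂ ∨ x = d₁ * d₂) : x ∈ Subgroup.closure ({d₁, d₂} : Set G) := by
  have m1 : d₁ ∈ Subgroup.closure ({d₁, d₂} : Set G) := Subgroup.subset_closure (Or.inl rfl)
  have m2 : d₂ ∈ Subgroup.closure ({d₁, d₂} : Set G) := Subgroup.subset_closure (Or.inr rfl)
  rcases hx with rfl | rfl | rfl | rfl
  · exact one_mem _
  · exact m1
  · exact m2
  · exact mul_mem m1 m2

theorem center_K {R : Subgroup G} (h : Facts G d₁ d₂ R) :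
    (Subgroup.center ↥(Subgroup.centralizer ({d₁, d₂} : Set G))).map
      (Subgroup.centralizer ({d₁, d₂} : Set G)).subtype = Subgroup.closure ({d₁, d₂} : Set G) := by
  have k1 : d₁ ∈ Subgroup.centralizer ({d₁, d₂} : Set G) := mem_K.2 ⟨rfl, h.comm⟩
  have k2 : d₂ ∈ Subgroup.centralizer ({d₁, d₂} : Set G) := mem_K.2 ⟨h.comm.symm, rfl⟩
  apply le_antisymm
  · rintro _ ⟨x, hx, rfl⟩
    apply mem_V h
    apply h.czP
    intro y hy1 hy2
    exact (congrArg Subtype.val (Subgroup.mem_center_iff.1 hx ⟨y, mem_K.2 ⟨hy1, hy2⟩⟩)).symm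
  · rw [Subgroup.closure_le]
    rintro x (rfl | rfl)
    · refine ⟨⟨x, k1⟩, ?_, rfl⟩
      rw [SetLike.mem_coe, Subgroup.mem_center_iff]
      intro g
      exact Subtype.ext (mem_K.1 g.2).1
    · refine ⟨⟨x, k2⟩, ?_, rfl⟩
      rw [SetLike.mem_coe, Subgroup.mem_center_iff]
      intro g
      exact Subtype.ext (mem_K.1 g.2).2

/-- Let G be a finite group with trivial centre generated by a conjugation-invariant set D of 3-transpositions on which it acts primitively, such that for some d in D the subgroup generated by the members of D other than d commuting with d has central largest normal 2- and 3-subgroups, and suppose G with D is of type M(22). Let d₁, d₂ be distinct commuting members of D, j = d₁ d₂, K the joint centralizer of d₁ and d₂, C the centralizer of j and V the subgroup generated by d₁ and d₂. Then K has index 2 in C, V is the centre of K, and C has a normal subgroup E containing V with E/V elementary abelian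 of order 2^8 and C/E isomorphic to the full automorphism group of the projective special unitary group of dimension 4 over the field with four elements. -/
theorem result {G : Type*} [Group G] [Finite G] {D : Set G} (hD : Cfsg.IsThreeTranspositionGroup D) (hprim : Cfsg.IsPrimitiveUnderConj D) (d₀ : G) (hd₀ : d₀ ∈ D) (h3 : Cfsg.pCore 3 ↥(Subgroup.closure {y : G | y ∈ D ∧ y ≠ d₀ ∧ Commute d₀ y}) ≤ Subgroup.center ↥(Subgroup.closure {y : G | y ∈ D ∧ y ≠ d₀ ∧ Commute d₀ y})) (h2 : Cfsg.pCore 2 ↥(Subgroup.closure {y : G | y ∈ D ∧ y ≠ d₀ ∧ Commute d₀ y}) ≤ Subgroup.center ↥(Subgroup.closure {y : G | y ∈ D ∧ y ≠ d₀ ∧ Commute d₀ y})) (h22 : Cfsg.IsOfTypeM22 G D) (d₁ d₂ : G) (h₁ : d₁ ∈ D) (h₂ : d₂ ∈ D) (hne : d₁ ≠ d₂) (hc : Commute d₁ d₂) (K C V : Subgroup G) (hK : K = Subgroup.centralizer ({d₁, d₂} : Set G)) (hC : C = Subgroup.centralizer ({d₁ * d₂} : Set G)) (hV : V = Subgroup.closure ({d₁, d₂} : Set G)) : K ≤ C ∧ (K.subgroupOf C).index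 = 2 ∧ (Subgroup.center ↥K).map K.subtype = V ∧ ∃ E : Subgroup G, V ≤ E ∧ E ≤ C ∧ (∀ c ∈ C, ∀ x ∈ E, c * x * c⁻¹ ∈ E) ∧ Nat.card E = 2 ^ 10 ∧ (∀ x ∈ E, ∀ y ∈ E, x * y * x⁻¹ * y⁻¹ ∈ V ∧ x ^ 2 ∈ V) ∧ ∃ (_ : (E.subgroupOf C).Normal) (F : Type) (_ : Field F) (_ : Fintype F), Fintype.card F = 4 ∧ Nonempty (↥C ⧸ E.subgroupOf C ≃* MulAut (Cfsg.PSU 4 F 2)) := by
  subst hK hC hV
  obtain ⟨e, he⟩ := Cfsg.Agent.H836.Bridge.exists_iso hD hprim h22
  obtain ⟨R, hR, -, hn, hq⟩ := Cfsg.Agent.H833.CentQuot.exists_quotient e (a := d₁) (b := d₂)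
    (by rw [he]; exact h₁) (by rw [he]; exact h₂) hne hc
  refine ⟨K_le, index_K hR, center_K hR, R, ?_, hR.R_le.trans K_le, ?_, hR.R_card, ?_, hn, F4,
    inferInstance, inferInstance, ?_, hq⟩
  · rw [Subgroup.closure_le]
    rintro x (rfl | rfl)
    · exact hR.d_mem
    · exact hR.d'_mem
  · intro c hc' x hx
    exact hR.R_normal c (Subgroup.mem_centralizer_singleton_iff.1 hc') x hx
  · intro x hx y hy
    refine ⟨mem_V hR ?_, mem_V hR ?_⟩
    · rcases hR.R_comm x hx y hy with h0 | h0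
      · exact Or.inl h0
      · exact Or.inr (Or.inr (Or.inr h0))
    · rw [pow_two]
      rcases hR.R_sq x hx with h0 | h0
      · exact Or.inl h0
      · exact Or.inr (Or.inr (Or.inr h0))
  · exact Cfsg.Agent.Fischer.Unit22.hF

end Cfsg.Agent.S5469
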