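-- S5515: uniqueness of POmega8+(3):S3
import Cfsg.Statements.S5515
import Cfsg.Agent.S2608
import Cfsg.Agent.S1313
import Cfsg.Agent.LieClassical.OrthForms
import Cfsg.Agent.H844.PCenter
import Cfsg.Agent.H844.AutEmb

set_option autoImplicit false
open Cfsg

namespace Cfsg.Agent.S5515

/-- `Out(PΩ₈⁺(3)) ≃* S₄` -/
theorem out_equiv : Nonempty (Cfsg.Out (Cfsg.POmega (ZMod 3) (Cfsg.quadFormPlus 4 (ZMod 3))) ≃* Equiv.Perm (Fin 4)) := by
  have : Fact (Nat.Prime 3) := ⟨by norm_num⟩
  have h := Cfsg.Agent.S2608.result (F := ZMod 3) (p := 3) (f := 1) (m := 4) le_rfl (by rw [ZMod.card]; norm_num) (by norm_num) le_rfl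
  rw [if_pos rfl] at h
  obtain ⟨e⟩ := h
  have e2 : Equiv.Perm (Fin 4) × Multiplicative (ZMod 1) ≃* Equiv.Perm (Fin 4) :=
    { toFun := fun x => x.1
      invFun := fun x => (x, 1)
      left_inv := fun x => Prod.ext rfl (Subsingleton.elim (α := ZMod 1) _ _)
      right_inv := fun x => rfl
      map_mul' := fun x y => rfl }
  exact ⟨e.trans e2⟩

/-- the centre is trivial -/
theorem center_eq_bot : Subgroup.center (Cfsg.POmega (ZMod 3) (Cfsg.quadFormPlus 4 (ZMod 3))) = ⊥ := by
  have : Fact (Nat.Prime 3) := ⟨by norm_num⟩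
  rw [← Cfsg.Agent.LieClassical.OrthForms.coe_plusForm]
  apply H844.PCenter.center_eq_bot
  apply Cfsg.Agent.LieClassical.OrthFinite.good_of_finite
    (Cfsg.Agent.LieClassical.OrthForms.nondeg_plusForm 4 (ZMod 3))
  rw [Module.finrank_fintype_fun_eq_card, Fintype.card_sum, Fintype.card_fin]
  omega

/-- Let G and G′ be finite groups whose generalized Fitting subgroups are isomorphic to PΩ⁺(8, 3) (the commutator subgroup of the isometry group of the hyperbolic quadratic form in dimension 8 over the field with three elements, modulo its centre) with quotients isomorphic to the symmetric group of degree 3. Then G and G′ are isomorphic. -/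
theorem result {G G' : Type*} [Group G] [Finite G] [Group G'] [Finite G'] (hF : Nonempty (↥(Cfsg.generalizedFittingSubgroup G) ≃* Cfsg.POmega (ZMod 3) (Cfsg.quadFormPlus 4 (ZMod 3)))) (hF' : Nonempty (↥(Cfsg.generalizedFittingSubgroup G') ≃* Cfsg.POmega (ZMod 3) (Cfsg.quadFormPlus 4 (ZMod 3)))) [hn : (Cfsg.generalizedFittingSubgroup G).Normal] [hn' : (Cfsg.generalizedFittingSubgroup G').Normal] (hq : Nonempty (G ⧸ Cfsg.generalizedFittingSubgroup G ≃* Equiv.Perm (Fin 3))) (hq' : Nonempty (G' ⧸ Cfsg.generalizedFittingSubgroup G' ≃* Equiv.Perm (Fin 3))) : Nonempty (G ≃* G') := by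
  obtain ⟨f⟩ := hF
  obtain ⟨f'⟩ := hF'
  obtain ⟨q⟩ := hq
  obtain ⟨q'⟩ := hq'
  obtain ⟨e⟩ := out_equiv
  have h6 : Nat.card (Equiv.Perm (Fin 3)) = 6 := by
    rw [Nat.card_eq_fintype_card, Fintype.card_perm, Fintype.card_fin]; rfl
  exact H844.AutEmb.iso_of_out f f' (Cfsg.Agent.S1313.centralizer_le G) (Cfsg.Agent.S1313.centralizer_le G')
    center_eq_bot e (by rw [Nat.card_congr q.toEquiv, h6]) (by rw [Nat.card_congr q'.toEquiv, h6])

end Cfsg.Agent.S5515
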