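import Cfsg.Statements.S5528
import Cfsg.Agent.H847.MonDeg

set_option autoImplicit false
open Cfsg

namespace Cfsg.Agent.S5528

/-- Every faithful complex matrix representation of the Monster (the finitely presented group of the definitions) has degree at least 196883: an injective homomorphism from the Monster into GL_n(ℂ) forces n ≥ 196883. -/
theorem result (n : ℕ) (ρ : Cfsg.Spor.Monster →* GL (Fin n) ℂ) (hρ : Function.Injective ρ) : 196883 ≤ n := by
  let f : Cfsg.Spor.Monster →* ((Fin n → ℂ) →ₗ[ℂ] (Fin n → ℂ)) :=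
    ((Matrix.toLinAlgEquiv' (R := ℂ) (n := Fin n)).toAlgHom : Matrix (Fin n) (Fin n) ℂ →* _).comp
      ((Units.coeHom (Matrix (Fin n) (Fin n) ℂ)).comp ρ)
  have hs := Cfsg.Agent.MonsterP.Equiv.isM.1
  obtain ⟨g, hg⟩ := exists_ne (1 : Cfsg.Spor.Monster)
  have h1 : 196883 ≤ Module.finrank ℂ (Fin n → ℂ) := by
    refine Cfsg.Agent.H847.MonDeg.bound f ⟨g, fun h => hg ?_⟩
    apply hρ
    rw [map_one]
    apply Units.ext
    apply (Matrix.toLinAlgEquiv' (R := ℂ) (n := Fin n)).injective
    rw [Units.val_one, map_one]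
    exact h
  rwa [Module.finrank_fin_fun] at h1

end Cfsg.Agent.S5528
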