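import Cfsg.Statements.S5529
import Cfsg.Agent.H565.MGen
import Cfsg.Agent.H565.Scott
import Cfsg.Agent.H565.Fix

set_option autoImplicit false
open Cfsg

namespace Cfsg.Agent.S5529

open Cfsg.Agent.H565

/-- `M23` is transitive on the 23 points. -/
theorem reps (w : GolayPt) : ∃ b ∈ ({none, some 0} : Finset GolayPt), ∃ g : Spor.M23, g • b = w := by
  cases w with
  | none => exact ⟨none, by simp, 1, one_smul _ _⟩
  | some i =>
    refine ⟨some 0, by simp, MGen.ga ^ i.val, ?_⟩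
    apply Cfsg.Agent.SporadicA.GolayBase.idx_injective
    have h1 := MGen.isT_pow (Cfsg.Agent.H188.Tab.isT_mkT MGen.TA MGen.okA) i.val (some 0)
    have h2 : ∀ i : ZMod 23, Cfsg.Agent.SporadicA.GolayPerm.papp (MGen.pwr MGen.TA i.val)
      (Cfsg.Agent.SporadicA.GolayBase.idx (some 0)) =
        Cfsg.Agent.SporadicA.GolayBase.idx (some i) := by decide +kernel
    rw [h2] at h1
    exact h1

/-- The bound for the ranks. -/
def rb : ℕ → ℕ
  | 2 => 8
  | 3 => 12
  | 5 => 16
  | 7 => 18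
  | 11 => 20
  | _ => 22

theorem rk_le {x : Spor.M23} {p : ℕ} (hp : p.Prime) (hd : p ∣ 10200960) (hx : orderOf x = p) :
    Scott.rk GolayPt x ≤ rb p := by
  have hm := x.2
  unfold Spor.M23 at hm
  have h1 := Fix.fix_le (x := (x : Equiv.Perm GolayPt)) hm.1 hm.2 hp
    (by rw [← hx, Subgroup.orderOf_coe]) hd
  have h2 := Scott.rk_le (Ω := GolayPt) hp hx h1
  rw [show Fintype.card GolayPt = 24 from rfl] at h2
  rcases Fix.prime_cases hp hd with rfl | rfl | rfl | rfl | rfl | rfl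
  · have h3 : Fix.fb 2 = 8 := rfl
    show _ ≤ 8
    rw [h3] at h2
    omega
  · have h3 : Fix.fb 3 = 6 := rfl
    show _ ≤ 12
    rw [h3] at h2
    omega
  · have h3 : Fix.fb 5 = 4 := rfl
    show _ ≤ 16
    rw [h3] at h2
    omega
  · have h3 : Fix.fb 7 = 3 := rfl
    show _ ≤ 18
    rw [h3] at h2
    omega
  · have h3 : Fix.fb 11 = 2 := rfl
    show _ ≤ 20
    rw [h3] at h2
    omega
  · have h3 : Fix.fb 23 = 1 := rfl
    show _ ≤ 22
    rw [h3] at h2
    omega

/-- Generation of the Mathieu group M₂₃ (the stabiliser of a point in the Mathieu group M₂₄ acting on 24 points) by triples of prime orders. Let p ≤ q ≤ r be primes dividing |M₂₃| = 10200960 = 2⁷·3²·5·7·11·23, not both p and q equal to 2. Then M₂₃ contains elements x, y, z of orders p, q, r with xyz = 1 and ⟨x, y⟩ = M₂₃ if and only if (p, q, r) is none of: (2, 3, r) for any r, (2, 5, 5), (2, 5, 7), (3, 3, 3), (3, 3, 5), (3, 3, 7). -/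
theorem result (p q r : ℕ) (hp : p.Prime) (hq : q.Prime)
    (hr : r.Prime) (hpq : p ≤ q) (hqr : q ≤ r) (hp2 : ¬ (p = 2 ∧ q = 2))
    (hdvd : p ∣ 10200960 ∧ q ∣ 10200960 ∧ r ∣ 10200960) :
    (∃ x y z : Cfsg.Spor.M23, orderOf x = p ∧ orderOf y = q ∧ orderOf z = r ∧ x * y * z = 1 ∧
        Subgroup.closure {x, y} = ⊤) ↔
      ¬ ((p = 2 ∧ q = 3) ∨ (p = 2 ∧ q = 5 ∧ r = 5) ∨ (p = 2 ∧ q = 5 ∧ r = 7) ∨ (p = 3 ∧ q = 3 ∧ r ≤ 7)) := by
  constructor
  · rintro ⟨x, y, z, hx, hy, hz, hxyz, hgen⟩ hcon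
    have h1 := Scott.ree (Ω := GolayPt) ({none, some 0} : Finset GolayPt) reps hxyz hgen
    rw [show Fintype.card GolayPt = 24 from rfl,
      show ({none, some 0} : Finset GolayPt).card = 2 from rfl] at h1
    have ax := rk_le hp hdvd.1 hx
    have ay := rk_le hq hdvd.2.1 hy
    have az := rk_le hr hdvd.2.2 hz
    have b2 : rb 2 = 8 := rfl
    have b3 : rb 3 = 12 := rfl
    have b5 : rb 5 = 16 := rfl
    have b7 : rb 7 = 18 := rfl
    have b11 : rb 11 = 20 := rfl
    have b23 : rb 23 = 22 := rfl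
    have hr1 : rb r ≤ 22 := by
      rcases Fix.prime_cases hr hdvd.2.2 with rfl | rfl | rfl | rfl | rfl | rfl <;> omega
    have hr2 : r ≤ 7 → rb r ≤ 18 := by
      intro h7
      rcases Fix.prime_cases hr hdvd.2.2 with rfl | rfl | rfl | rfl | rfl | rfl <;> omega
    rcases hcon with ⟨rfl, rfl⟩ | ⟨rfl, rfl, rfl⟩ | ⟨rfl, rfl, rfl⟩ | ⟨rfl, rfl, h7⟩
    · omega
    · omega
    · omega
    · have := hr2 h7
      omega
  · intro h
    show MGen.Gen p q r
    rcases Fix.prime_cases hp hdvd.1 with rfl | rfl | rfl | rfl | rfl | rfl <;>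
    rcases Fix.prime_cases hq hdvd.2.1 with rfl | rfl | rfl | rfl | rfl | rfl <;>
    rcases Fix.prime_cases hr hdvd.2.2 with rfl | rfl | rfl | rfl | rfl | rfl <;>
    first
    | (exfalso; omega)
    | exact MGen.gen_2_5_11
    | exact MGen.gen_2_5_23
    | exact MGen.gen_2_7_7
    | exact MGen.gen_2_7_11
    | exact MGen.gen_2_7_23
    | exact MGen.gen_2_11_11
    | exact MGen.gen_2_11_23
    | exact MGen.gen_2_23_23
    | exact MGen.gen_3_3_11
    | exact MGen.gen_3_3_23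
    | exact MGen.gen_3_5_5
    | exact MGen.gen_3_5_7
    | exact MGen.gen_3_5_11
    | exact MGen.gen_3_5_23
    | exact MGen.gen_3_7_7
    | exact MGen.gen_3_7_11
    | exact MGen.gen_3_7_23
    | exact MGen.gen_3_11_11
    | exact MGen.gen_3_11_23
    | exact MGen.gen_3_23_23
    | exact MGen.gen_5_5_5
    | exact MGen.gen_5_5_7
    | exact MGen.gen_5_5_11
    | exact MGen.gen_5_5_23
    | exact MGen.gen_5_7_7
    | exact MGen.gen_5_7_11
    | exact MGen.gen_5_7_23
    | exact MGen.gen_5_11_11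
    | exact MGen.gen_5_11_23
    | exact MGen.gen_5_23_23
    | exact MGen.gen_7_7_7
    | exact MGen.gen_7_7_11
    | exact MGen.gen_7_7_23
    | exact MGen.gen_7_11_11
    | exact MGen.gen_7_11_23
    | exact MGen.gen_7_23_23
    | exact MGen.gen_11_11_11
    | exact MGen.gen_11_11_23
    | exact MGen.gen_11_23_23
    | exact MGen.gen_23_23_23

end Cfsg.Agent.S5529
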