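import Cfsg.Statements.S5533
import Cfsg.Agent.H849.FourModel
import Cfsg.Agent.H849.FourMap
import Cfsg.Agent.MonsterP.Equiv

set_option autoImplicit false
open Cfsg

namespace Cfsg.Agent.S5533

/-- The Monster (realised inside the presented Bimonster) has a Klein four-subgroup E whose normalizer N has a normal subgroup K containing E such that K/E is isomorphic to the twisted group ²E₆(2) (realised over the field with four elements, as in the definitions), N/K is isomorphic to the symmetric group of degree 3, and E has no complement in K. -/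
theorem result : ∃ (E N : Subgroup Cfsg.Spor.Monster) (K : Subgroup ↥N), IsKleinFour ↥E ∧ N = Subgroup.normalizer (E : Set Cfsg.Spor.Monster) ∧ E.subgroupOf N ≤ K ∧ (∃ (F : Type) (_ : Field F) (_ : Fintype F), Fintype.card F = 4 ∧ ∃ _ : ((E.subgroupOf N).subgroupOf K).Normal, Nonempty (↥K ⧸ (E.subgroupOf N).subgroupOf K ≃* ↥(Cfsg.Lie.twistedE6 F 2))) ∧ (∃ _ : K.Normal, Nonempty (↥N ⧸ K ≃* Equiv.Perm (Fin 3))) ∧ ∀ L : Subgroup ↥K, ¬ ((E.subgroupOf N).subgroupOf K).IsComplement' L := by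
  have hp : Fact (Nat.Prime 2) := ⟨Nat.prime_two⟩
  letI hfin : Fintype (GaloisField 2 2) := Fintype.ofFinite _
  have hF : Fintype.card (GaloisField 2 2) = 4 := by
    rw [← Nat.card_eq_fintype_card, GaloisField.card 2 2 (by norm_num)]; norm_num
  obtain ⟨t, a, u, v, π, D⟩ := Cfsg.Agent.H849.FourModel.exists_data Cfsg.Agent.MonsterN.LitFin.all
    Cfsg.Agent.MonsterX.KDone.lnk Cfsg.Agent.MonsterX.KDone.lft
    (Cfsg.Agent.MonsterU.TauInst.tauHyp (Cfsg.Agent.MonsterU.Final.cent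
      Cfsg.Agent.MonsterX.InstanceFinal.mOrbit Cfsg.Agent.MonsterX.Instance.mTrans))
    (Cfsg.Agent.MonsterP.NodesGrp.prel Cfsg.Agent.MonsterN.LitFin.H)
    (Cfsg.Agent.MonsterP.NodesNe.ne Cfsg.Agent.MonsterN.LitFin.H)
    Cfsg.Agent.MonsterN.LitFin.conj_ten (GaloisField 2 2) hF
  obtain ⟨e⟩ := Cfsg.Agent.MonsterP.Equiv.equiv
  obtain ⟨π', D'⟩ := D.exists_map e.symm
  obtain ⟨E, N, K, h1, h2, h3, ⟨h4, h4'⟩, h5, h6⟩ := D'.main
  exact ⟨E, N, K, h1, h2, h3, ⟨GaloisField 2 2, inferInstance, hfin, hF, h4, h4'⟩, h5, h6⟩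

end Cfsg.Agent.S5533
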