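import Cfsg.Statements.S5560
import Cfsg.Agent.Lib.Cores
import Cfsg.Agent.SporadicStructure.OddProducts

set_option autoImplicit false
open Cfsg

namespace Cfsg.Agent.S5560

/-- Two involutions with product of odd order are conjugate by an element of any subgroup that
contains both. -/
theorem conj_of_odd {G : Type*} [Group G] {a d : G} (haa : a * a = 1) (hdd : d * d = 1)
    (h : Odd (orderOf (a * d))) :
    ∃ k : ℕ, a = (d * (a * d) ^ k) * d * (d * (a * d) ^ k)⁻¹ := by
  obtain ⟨k, hk⟩ := h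
  have hai : a⁻¹ = a := inv_eq_of_mul_eq_one_left haa
  have hdi : d⁻¹ = d := inv_eq_of_mul_eq_one_left hdd
  refine ⟨k, ?_⟩
  have h1 : (a * d) ^ (2 * k + 1) = 1 := by rw [← hk]; exact pow_orderOf_eq_one _
  have h2 : d * (a * d) ^ k * d⁻¹ = ((a * d) ^ k)⁻¹ := by
    rw [← conj_pow, ← inv_pow]
    congr 1
    rw [mul_inv_rev, hai, hdi, mul_assoc, mul_assoc, hdd, mul_one]
  have h3 : d * ((a * d) ^ k)⁻¹ * d⁻¹ = (a * d) ^ k := by
    rw [← h2]
    rw [hdi]
    calc d * (d * (a * d) ^ k * d) * d = (d * d) * (a * d) ^ k * (d * d) := by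
          simp only [mul_assoc]
      _ = _ := by rw [hdd, one_mul, mul_one]
  have h4 : d * ((a * d) ^ k)⁻¹ = (a * d) ^ k * d := by
    calc d * ((a * d) ^ k)⁻¹ = d * ((a * d) ^ k)⁻¹ * d⁻¹ * d := by group
      _ = _ := by rw [h3]
  rw [mul_inv_rev, hdi]
  calc a = a * 1 := (mul_one a).symm
    _ = a * (a * d) ^ (2 * k + 1) := by rw [h1]
    _ = a * ((a * d) * ((a * d) ^ k * (a * d) ^ k)) := by
        rw [← pow_add, ← two_mul, add_comm, pow_add, pow_one]
    _ = (a * a) * d * (a * d) ^ k * (a * d) ^ k := by simp only [mul_assoc]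
    _ = d * (a * d) ^ k * (a * d) ^ k := by rw [haa, one_mul]
    _ = d * (a * d) ^ k * (a * d) ^ k * (d * d) := by rw [hdd, mul_one]
    _ = d * (a * d) ^ k * ((a * d) ^ k * d) * d := by simp only [mul_assoc]
    _ = d * (a * d) ^ k * (d * ((a * d) ^ k)⁻¹) * d := by rw [h4]
    _ = _ := by simp only [mul_assoc]

/-- Fischer's Z*-type result for an odd prime p. Let G be a finite group and d an involution of G such that the product of any two conjugates of d has order a power of p. Then the product of any two conjugates of d lies in the largest normal p-subgroup O_p(G); in other words the conjugacy class of d lies in the coset O_p(G)d, and d is central modulo O_p(G). -/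
theorem result {G : Type*} [Group G] [Finite G] {p : ℕ} (hp : p.Prime) (hp2 : p ≠ 2)
    (d : G) (hd : orderOf d = 2)
    (hprod : ∀ a ∈ conjugatesOf d, ∀ b ∈ conjugatesOf d, ∃ k : ℕ, orderOf (a * b) = p ^ k) :
    ∀ a ∈ conjugatesOf d, ∀ b ∈ conjugatesOf d, a * b ∈ Cfsg.pCore p G := by
  have hpf : Fact p.Prime := ⟨hp⟩
  have hdd : d * d = 1 := by rw [← pow_two, ← hd, pow_orderOf_eq_one]
  have hsq : ∀ a ∈ conjugatesOf d, a * a = 1 := by
    intro a ha
    obtain ⟨c, rfl⟩ := isConj_iff.mp (show IsConj d a from ha)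
    have : c * d * c⁻¹ * (c * d * c⁻¹) = c * (d * d) * c⁻¹ := by group
    rw [this, hdd, mul_one, mul_inv_cancel]
  have hodd : ∀ a ∈ conjugatesOf d, ∀ b ∈ conjugatesOf d, Odd (orderOf (a * b)) := by
    intro a ha b hb
    obtain ⟨k, hk⟩ := hprod a ha b hb
    rw [hk]
    exact (hp.odd_of_ne_two hp2).pow
  have hdself : d ∈ conjugatesOf d := mem_conjugatesOf_self
  set H : Subgroup G := Subgroup.closure (conjugatesOf d) with hH
  have hDH : ∀ a ∈ conjugatesOf d, a ∈ H := fun a ha => Subgroup.subset_closure ha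
  have hHn : H.Normal := by
    refine ⟨fun n hn g => ?_⟩
    have h1 : H ≤ H.comap (MulAut.conj g).toMonoidHom := by
      rw [hH, Subgroup.closure_le]
      intro a ha
      refine Subgroup.subset_closure ?_
      exact (show IsConj d a from ha).trans (isConj_iff.mpr ⟨g, rfl⟩)
    exact h1 hn
  let z : H := ⟨d, hDH d hdself⟩
  have hconjH : ∀ a : H, (a : G) ∈ conjugatesOf d → a ∈ conjugatesOf z := by
    intro a ha
    obtain ⟨k, hk⟩ := conj_of_odd (hsq _ ha) hdd (hodd _ ha _ hdself)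
    refine isConj_iff.mpr ⟨z * (a * z) ^ k, ?_⟩
    apply Subtype.ext
    exact hk.symm
  have hconjG : ∀ a : H, a ∈ conjugatesOf z → (a : G) ∈ conjugatesOf d := by
    intro a ha
    obtain ⟨c, rfl⟩ := isConj_iff.mp (show IsConj z a from ha)
    exact isConj_iff.mpr ⟨c, rfl⟩
  have hgen : Subgroup.closure (conjugatesOf z) = ⊤ := by
    rw [eq_top_iff, ← Subgroup.closure_closure_coe_preimage]
    exact Subgroup.closure_mono fun a ha => hconjH a ha
  obtain ⟨P, hPn, hPp, hPsup⟩ := Cfsg.Agent.SporadicStructure.OddProducts.pgroup_of_products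
    p hp2 z (by rw [← Subgroup.orderOf_coe]; exact hd) hgen (by
      intro x hx y hy _
      obtain ⟨k, hk⟩ := hprod x (hconjG x hx) y (hconjG y hy)
      refine ⟨k, ?_⟩
      rw [← Subgroup.orderOf_coe]
      exact hk)
  have hcent : ∀ h : H, (QuotientGroup.mk' P h) * QuotientGroup.mk' P z =
      QuotientGroup.mk' P z * QuotientGroup.mk' P h := by
    intro h
    have hh : h ∈ P ⊔ Subgroup.zpowers z := by rw [hPsup]; trivial
    obtain ⟨u, hu, v, hv, rfl⟩ := Subgroup.mem_sup_of_normal_left.mp hh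
    obtain ⟨n, rfl⟩ := Subgroup.mem_zpowers_iff.mp hv
    have h1 : QuotientGroup.mk' P u = 1 := (QuotientGroup.eq_one_iff u).mpr hu
    rw [map_mul, h1, one_mul, map_zpow]
    exact ((Commute.refl _).zpow_left n).eq
  intro a ha b hb
  have hab : ∀ c : H, c ∈ conjugatesOf z → QuotientGroup.mk' P c = QuotientGroup.mk' P z := by
    intro c hc
    obtain ⟨g, rfl⟩ := isConj_iff.mp (show IsConj z c from hc)
    rw [map_mul, map_mul, hcent, map_inv, mul_inv_cancel_right]
  have h1 := hab ⟨a, hDH a ha⟩ (hconjH _ ha)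
  have h2 := hab ⟨b, hDH b hb⟩ (hconjH _ hb)
  have h3 : (⟨a, hDH a ha⟩ * ⟨b, hDH b hb⟩ : H) ∈ P := by
    rw [← QuotientGroup.eq_one_iff]
    have h4 : QuotientGroup.mk' P (⟨a, hDH a ha⟩ * ⟨b, hDH b hb⟩ : H) = 1 := by
      rw [map_mul, h1, h2, ← map_mul]
      have : z * z = 1 := Subtype.ext hdd
      rw [this, map_one]
    exact h4
  have h5 : P ≤ pCore p H := Cfsg.Agent.Lib.Cores.le_pCore hPn hPp
  have h6 : a * b ∈ (pCore p H).map H.subtype := ⟨_, h5 h3, rfl⟩
  rw [Cfsg.Agent.Lib.Cores.map_subtype_pCore p hHn] at h6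
  exact h6.2

end Cfsg.Agent.S5560
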