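import Cfsg.Statements.S5562

set_option autoImplicit false
open Cfsg

namespace Cfsg.Agent.S5562

/-- Let G be a finite group, d an involution of G whose conjugates pairwise have products of odd order, and x any involution of G. Then the conjugacy class of d is the disjoint union, over the conjugates a of d commuting with x, of the sets of conjugates of d commuting with ax: every conjugate of d commutes with ax for exactly one conjugate a of d that commutes with x. -/
theorem result {G : Type*} [Group G] [Finite G] (d : G) (hd : orderOf d = 2)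
    (hodd : ∀ a ∈ conjugatesOf d, ∀ b ∈ conjugatesOf d, Odd (orderOf (a * b)))
    (x : G) (hx : orderOf x = 2) :
    ∀ e ∈ conjugatesOf d,
      ∃! a : G, a ∈ conjugatesOf d ∧ Commute a x ∧ Commute e (a * x) := by
  have hxx : x * x = 1 := by rw [← pow_two, ← hx, pow_orderOf_eq_one]
  have hxi : x⁻¹ = x := inv_eq_of_mul_eq_one_left hxx
  have hdd : d * d = 1 := by rw [← pow_two, ← hd, pow_orderOf_eq_one]
  have hsq : ∀ a ∈ conjugatesOf d, a * a = 1 := by
    intro a ha
    obtain ⟨c, rfl⟩ := isConj_iff.mp (show IsConj d a from ha)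
    have : c * d * c⁻¹ * (c * d * c⁻¹) = c * (d * d) * c⁻¹ := by group
    rw [this, hdd, mul_one, mul_inv_cancel]
  intro e he
  have hee : e * e = 1 := hsq e he
  have hei : e⁻¹ = e := inv_eq_of_mul_eq_one_left hee
  have hex : x * e * x⁻¹ ∈ conjugatesOf d :=
    (show IsConj d e from he).trans (isConj_iff.mpr ⟨x, rfl⟩)
  set m := orderOf (e * (x * e * x⁻¹)) with hm
  have hmodd : Odd m := hodd e he _ hex
  have htt : (e * x) * (e * x) = e * (x * e * x⁻¹) := by rw [hxi]; group
  have hinv : (e * x)⁻¹ = x * e := by rw [mul_inv_rev, hxi, hei]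
  set y := (e * x) ^ m with hy
  have hyy : y * y = 1 := by
    rw [hy, ← pow_add, ← two_mul, pow_mul, pow_two, htt, hm, pow_orderOf_eq_one]
  have hyi : y⁻¹ = y := inv_eq_of_mul_eq_one_left hyy
  have hye : Commute e y := by
    have h1 : e * y * e⁻¹ = y⁻¹ := by
      rw [hy, ← conj_pow, ← inv_pow, hinv, hei]
      congr 1
      rw [← mul_assoc, hee, one_mul]
    rw [hyi] at h1
    exact mul_inv_eq_iff_eq_mul.mp h1
  have hyx : Commute x y := by
    have h1 : x * y * x⁻¹ = y⁻¹ := by
      rw [hy, ← conj_pow, ← inv_pow, hinv, hxi]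
      congr 1
      rw [mul_assoc, mul_assoc, hxx, mul_one]
    rw [hyi] at h1
    exact mul_inv_eq_iff_eq_mul.mp h1
  refine ⟨y * x, ⟨?_, ?_, ?_⟩, ?_⟩
  · obtain ⟨k, hk⟩ := hmodd
    have h1 : y * x = (e * x) ^ k * e * ((e * x) ^ k)⁻¹ := by
      have h2 : x * (e * x) ^ k * x⁻¹ = ((e * x) ^ k)⁻¹ := by
        rw [← conj_pow, ← inv_pow, hinv, hxi]
        congr 1
        rw [mul_assoc, mul_assoc, hxx, mul_one]
      rw [← h2, hy, hk, two_mul, add_assoc, pow_add, add_comm k 1, pow_add, pow_one, hxi]
      simp only [mul_assoc]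
    rw [h1]
    exact (show IsConj d e from he).trans (isConj_iff.mpr ⟨_, rfl⟩)
  · exact (hyx.symm.mul_left (Commute.refl x))
  · rw [mul_assoc, hxx, mul_one]
    exact hye
  · rintro a ⟨ha, hax, hea⟩
    have haa : a * a = 1 := hsq a ha
    set z := a * x with hz
    have hzz : z * z = 1 := by
      rw [hz]
      calc a * x * (a * x) = a * (x * a) * x := by group
        _ = a * (a * x) * x := by rw [hax.eq]
        _ = (a * a) * (x * x) := by group
        _ = 1 := by rw [haa, hxx, mul_one]
    have hzi : z⁻¹ = z := inv_eq_of_mul_eq_one_left hzz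
    have hzx : Commute z x := hax.mul_left (Commute.refl x)
    have hzt : Commute z (e * x) := hea.symm.mul_right hzx
    have haz : a = z * x := by rw [hz, mul_assoc, hxx, mul_one]
    have hea' : e * a = z * (e * x) := by
      rw [haz, ← mul_assoc, hea.eq, mul_assoc]
    have hn : Odd (orderOf (e * a)) := hodd e he a ha
    have h1 : (e * a) ^ orderOf (e * a) = 1 := pow_orderOf_eq_one _
    set n := orderOf (e * a) with hndef
    have hzn : z ^ n = z := by
      obtain ⟨k, hk⟩ := hn
      rw [hk, pow_add, pow_mul, pow_two, hzz, one_pow, one_mul, pow_one]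
    rw [hea', hzt.mul_pow, hzn] at h1
    have h2 : (e * x) ^ n = z := by
      rw [← hzi]; exact eq_inv_of_mul_eq_one_right h1
    have h3 : (e * (x * e * x⁻¹)) ^ n = 1 := by
      rw [← htt, ← pow_two, ← pow_mul, mul_comm, pow_mul, h2, pow_two, hzz]
    have h4 : m ∣ n := orderOf_dvd_of_pow_eq_one h3
    obtain ⟨j, hj⟩ := h4
    have hjodd : Odd j := by
      rw [hj] at hn
      exact (Nat.odd_mul.mp hn).2
    have h5 : z = y := by
      rw [← h2, hj, pow_mul, ← hy]
      obtain ⟨k, hk⟩ := hjodd
      rw [hk, pow_add, pow_mul, pow_two, hyy, one_pow, one_mul, pow_one]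
    rw [haz, h5]

end Cfsg.Agent.S5562
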