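import Cfsg.Statements.S5596
import Cfsg.Agent.H864.ExtraSing

set_option autoImplicit false
open Cfsg

namespace Cfsg.Agent.S5596

/-- Setting: `z` is an involution of the finite group `G`; for each element `x`, `Q x` is the largest normal 2-subgroup of the centralizer of `x`; `Q z` is extraspecial and contains its own centralizer in `G`. A subgroup `U` is singular when it is elementary abelian, every non-identity element of `U` is conjugate to `z`, and any two non-identity elements `u`, `v` of `U` are orthogonal (`v ∈ Q u`). Write `QU` for the intersection of the `Q u` and `LU` for the join of the `Q u` over the non-identity `u` in `U`. If `U` is singular of order `2 ^ n` with `n ≥ 2`, then `U ≤ QU ≤ LU`, `LU` normalizes `U`, and `LU` induces on `U` its full automorphism group (the general linear group of dimension `n` over the field with two elements): every automorphism of `U` is conjugation by some element of `LU`. -/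
theorem result {G : Type*} [Group G] [Finite G]
    (Q : G → Subgroup G)
    (hQ : ∀ x : G, Q x = (Cfsg.pCore 2 ↥(Subgroup.centralizer ({x} : Set G))).map (Subgroup.centralizer ({x} : Set G)).subtype)
    (z : G) (hz : orderOf z = 2) (hE : Cfsg.IsExtraspecial 2 ↥(Q z))
    (hC : Subgroup.centralizer ((Q z : Subgroup G) : Set G) ≤ Q z)
    (U : Subgroup G) (hU2 : ∀ u ∈ U, u * u = 1)
    (hS : ∀ u ∈ U, u ≠ 1 → ∃ g : G, g * z * g⁻¹ = u)
    (hO : ∀ u ∈ U, ∀ v ∈ U, u ≠ 1 → v ≠ 1 → v ∈ Q u)
    (QU LU : Subgroup G) (hQU : QU = ⨅ u ∈ ((U : Set G) \ {1}), Q u) (hLU : LU = ⨆ u ∈ ((U : Set G) \ {1}), Q u)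
    (n : ℕ) (hn : 2 ≤ n) (hcard : Nat.card ↥U = 2 ^ n) :
    U ≤ QU ∧ QU ≤ LU ∧ LU ≤ Subgroup.normalizer (U : Set G) ∧
      ∀ φ : ↥U ≃* ↥U, ∃ g ∈ LU, ∀ u : ↥U, g * (u : G) * g⁻¹ = ((φ u : ↥U) : G) := by
  classical
  have hXS : ∀ u ∈ U, u ≠ 1 → H864.XS (Q u) u := fun u hu hu1 =>
    H864.XS_conj hQ z hz hE u (hS u hu hu1)
  have hQUle : ∀ u ∈ U, u ≠ 1 → QU ≤ Q u := by
    intro u hu hu1
    rw [hQU]
    exact iInf₂_le u ⟨hu, hu1⟩
  have hleLU : ∀ u ∈ U, u ≠ 1 → Q u ≤ LU := by
    intro u hu hu1
    rw [hLU]
    exact le_iSup₂ (f := fun u (_ : u ∈ ((U : Set G) \ {1})) => Q u) u ⟨hu, hu1⟩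
  have hUQ : ∀ u ∈ U, u ≠ 1 → U ≤ Q u := by
    intro u hu hu1 v hv
    by_cases hv1 : v = 1
    · rw [hv1]; exact (Q u).one_mem
    · exact hO u hu v hv hu1 hv1
  have hN : LU ≤ Subgroup.normalizer (U : Set G) := by
    rw [hLU]
    apply iSup₂_le
    rintro u ⟨hu, hu1⟩ g hg
    replace hu1 : u ≠ 1 := hu1
    have hX := hXS u hu hu1
    have key : ∀ g ∈ Q u, ∀ v ∈ U, g * v * g⁻¹ ∈ U := by
      intro g hg v hv
      rcases hX.comm g hg v (hUQ u hu hu1 hv) with h | h
      · rw [h]; exact hv
      · rw [h]; exact U.mul_mem hv hu
    rw [Subgroup.mem_normalizer_iff]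
    intro v
    refine ⟨fun hv => key g hg v hv, fun hv => ?_⟩
    have := key g⁻¹ ((Q u).inv_mem hg) _ hv
    have e : g⁻¹ * (g * v * g⁻¹) * g⁻¹⁻¹ = v := by group
    rwa [e] at this
  refine ⟨?_, ?_, hN, ?_⟩
  · rw [hQU]
    exact le_iInf₂ fun u hu => hUQ u hu.1 hu.2
  · -- there is a non-identity element
    have h1 : 1 < Nat.card ↥U := by
      rw [hcard]
      exact Nat.one_lt_two_pow (by omega)
    haveI : Nontrivial ↥U := Finite.one_lt_card_iff_nontrivial.mp h1
    obtain ⟨u, hu⟩ := exists_ne (1 : ↥U)
    have hu1 : (u : G) ≠ 1 := fun h => hu (Subtype.ext h)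
    exact (hQUle u u.2 hu1).trans (hleLU u u.2 hu1)
  · intro φ
    have main : ∀ S : Finset ↥U, ∃ g ∈ LU, ∀ s ∈ S, g * (s : G) * g⁻¹ = ((φ s : ↥U) : G) := by
      intro S
      induction S using Finset.induction_on with
      | empty => exact ⟨1, LU.one_mem, by simp⟩
      | @insert w S hwS ih =>
        obtain ⟨g, hg, hgS⟩ := ih
        -- the images
        set W : Set G := (fun s : ↥U => ((φ s : ↥U) : G)) '' (S : Set ↥U) with hW
        have hgN : ∀ v ∈ U, g * v * g⁻¹ ∈ U := fun v hv =>
          (Subgroup.mem_normalizer_iff.mp (hN hg) v).mp hv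
        have hWU : W ⊆ (U : Set G) := by
          rintro _ ⟨s, _, rfl⟩; exact (φ s).2
        obtain ⟨a, ha⟩ : ∃ a : G, a = g * (w : G) * g⁻¹ := ⟨_, rfl⟩
        obtain ⟨b, hb⟩ : ∃ b : G, b = ((φ w : ↥U) : G) := ⟨_, rfl⟩
        have hv0 : a ∈ U := ha ▸ hgN _ w.2
        have hv1 : b ∈ U := hb ▸ (φ w).2
        by_cases hab : a = b
        · refine ⟨g, hg, ?_⟩
          intro s hs
          rcases Finset.mem_insert.mp hs with rfl | hs
          · rw [← ha, hab, hb]
          · exact hgS s hs
        -- `u = a b`
        obtain ⟨u, hu⟩ : ∃ u : G, u = a * b := ⟨_, rfl⟩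
        have huU : u ∈ U := hu ▸ U.mul_mem hv0 hv1
        have haa : a * a = 1 := hU2 a hv0
        have hbb : b * b = 1 := hU2 b hv1
        have hu1 : u ≠ 1 := by
          intro h
          apply hab
          have : a * b * b = 1 * b := by rw [← hu, h]
          rw [mul_assoc, hbb, mul_one, one_mul] at this
          exact this
        have hX := hXS u huU hu1
        have hau : a * u = b := by rw [hu, ← mul_assoc, haa, one_mul]
        by_cases haW : a ∈ Subgroup.closure (insert u W)
        · -- then `w` is in the closure of `S`, and `a = b`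
          exfalso
          apply hab
          -- first: the subgroup closure (insert u W) = closure W ∪ closure W * u
          have hWc : ∀ y ∈ Subgroup.closure W, y ∈ U := by
            intro y hy
            exact (Subgroup.closure_le U).mpr hWU hy
          have hcom : ∀ p ∈ U, ∀ q ∈ U, p * q = q * p := by
            intro p hp q hq
            have h1 := hU2 p hp
            have h2 := hU2 q hq
            have h3 := hU2 _ (U.mul_mem hp hq)
            have h4 : p⁻¹ = p := inv_eq_of_mul_eq_one_right h1
            have h5 : q⁻¹ = q := inv_eq_of_mul_eq_one_right h2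
            have h6 : (p * q)⁻¹ = p * q := inv_eq_of_mul_eq_one_right h3
            rw [mul_inv_rev, h4, h5] at h6
            exact h6.symm
          have hdec : ∀ y ∈ Subgroup.closure (insert u W), y ∈ Subgroup.closure W ∨
              y * u ∈ Subgroup.closure W := by
            intro y hy
            induction hy using Subgroup.closure_induction with
            | mem x hx =>
              rcases hx with rfl | hx
              · right; rw [hX.sq]; exact Subgroup.one_mem _
              · left; exact Subgroup.subset_closure hx
            | one => left; exact Subgroup.one_mem _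
            | mul x y hx hy ihx ihy =>
              have hxU : x ∈ U := by
                refine (Subgroup.closure_le U).mpr ?_ hx
                exact Set.insert_subset huU hWU
              have hyU : y ∈ U := by
                refine (Subgroup.closure_le U).mpr ?_ hy
                exact Set.insert_subset huU hWU
              rcases ihx with h1 | h1 <;> rcases ihy with h2 | h2
              · left; exact Subgroup.mul_mem _ h1 h2
              · right; rw [mul_assoc]; exact Subgroup.mul_mem _ h1 h2
              · right
                rw [mul_assoc, hcom y hyU u huU, ← mul_assoc]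
                exact Subgroup.mul_mem _ h1 h2
              · left
                have : x * y = (x * u) * (y * u) := by
                  rw [mul_assoc x u, ← mul_assoc u y u, hcom u huU y hyU, mul_assoc y u u, hX.sq,
                    mul_one]
                rw [this]
                exact Subgroup.mul_mem _ h1 h2
            | inv x hx ih =>
              have hxU : x ∈ U := by
                refine (Subgroup.closure_le U).mpr ?_ hx
                exact Set.insert_subset huU hWU
              have : x⁻¹ = x := inv_eq_of_mul_eq_one_right (hU2 x hxU)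
              rwa [this]
          -- conjugation by `g` agrees with `φ` on closure S
          have hcl : ∀ s ∈ Subgroup.closure (S : Set ↥U), g * (s : G) * g⁻¹ = ((φ s : ↥U) : G) := by
            intro s hs
            induction hs using Subgroup.closure_induction with
            | mem x hx => exact hgS x hx
            | one => simp
            | mul x y hx hy ihx ihy =>
              rw [map_mul, Subgroup.coe_mul, Subgroup.coe_mul, ← ihx, ← ihy]
              group
            | inv x hx ih =>
              rw [map_inv, Subgroup.coe_inv, Subgroup.coe_inv, ← ih]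
              group
          have hclW : ∀ y ∈ Subgroup.closure W, ∃ s ∈ Subgroup.closure (S : Set ↥U),
              y = ((φ s : ↥U) : G) := by
            intro y hy
            induction hy using Subgroup.closure_induction with
            | mem x hx =>
              obtain ⟨s, hs, rfl⟩ := hx
              exact ⟨s, Subgroup.subset_closure hs, rfl⟩
            | one => exact ⟨1, Subgroup.one_mem _, by simp⟩
            | mul x y hx hy ihx ihy =>
              obtain ⟨s, hs, rfl⟩ := ihx
              obtain ⟨t, ht, rfl⟩ := ihy
              exact ⟨s * t, Subgroup.mul_mem _ hs ht, by simp⟩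
            | inv x hx ih =>
              obtain ⟨s, hs, rfl⟩ := ih
              exact ⟨s⁻¹, Subgroup.inv_mem _ hs, by simp⟩
          rcases hdec a haW with h | h
          · -- a = φ s = g s g⁻¹, so w = s
            obtain ⟨s, hs, hs'⟩ := hclW a h
            have h1 := hcl s hs
            rw [← hs', ha] at h1
            have h2 : (s : G) = (w : G) := mul_left_cancel (mul_right_cancel h1)
            have h3 : s = w := Subtype.ext h2
            rw [hs', h3, hb]
          · rw [hau] at h
            obtain ⟨s, hs, hs'⟩ := hclW b h
            have h3 : φ w = φ s := Subtype.ext (hb ▸ hs')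
            have h4 : w = s := φ.injective h3
            rw [ha, h4, hcl s hs, hs']
        · have hWQ : W ⊆ (Q u : Set G) := fun y hy => hUQ u huU hu1 (hWU hy)
          obtain ⟨t, ht, htW, hta⟩ := hX.double ((Finset.finite_toSet S).image _) hWQ a
            (hUQ u huU hu1 hv0) haW
          refine ⟨t * g, LU.mul_mem (hleLU u huU hu1 ht) hg, ?_⟩
          intro s hs
          rcases Finset.mem_insert.mp hs with rfl | hs
          · calc t * g * (s : G) * (t * g)⁻¹ = t * (g * (s : G) * g⁻¹) * t⁻¹ := by group
              _ = a * u := by rw [← ha, hta]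
              _ = b := hau
              _ = _ := hb
          · have h1 : ((φ s : ↥U) : G) ∈ W := ⟨s, hs, rfl⟩
            calc t * g * (s : G) * (t * g)⁻¹ = t * (g * (s : G) * g⁻¹) * t⁻¹ := by group
              _ = t * ((φ s : ↥U) : G) * t⁻¹ := by rw [hgS s hs]
              _ = ((φ s : ↥U) : G) := by rw [htW _ h1, mul_inv_cancel_right]
    haveI : Fintype ↥U := Fintype.ofFinite _
    obtain ⟨g, hg, hg'⟩ := main Finset.univ
    exact ⟨g, hg, fun u => hg' u (Finset.mem_univ _)⟩

end Cfsg.Agent.S5596
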