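import Cfsg.Statements.S5598
import Cfsg.Agent.H864.ExtraSing

set_option autoImplicit false
open Cfsg

namespace Cfsg.Agent.S5598

/-- Setting: `z` is an involution of the finite group `G`; for each element `x`, `Q x` is the largest normal 2-subgroup of the centralizer of `x`; `Q z` is extraspecial and contains its own centralizer in `G`. A subgroup `U` is singular when it is elementary abelian, every non-identity element of `U` is conjugate to `z`, and any two non-identity elements `u`, `v` of `U` are orthogonal (`v ∈ Q u`). Write `QU` for the intersection of the `Q u` and `LU` for the join of the `Q u` over the non-identity `u` in `U`. If the singular subgroup `U` is generated by a set `T` of non-identity elements, then `QU` is already the intersection of the `Q t` over `t ∈ T`. -/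
theorem result {G : Type*} [Group G] [Finite G]
    (Q : G → Subgroup G)
    (hQ : ∀ x : G, Q x = (Cfsg.pCore 2 ↥(Subgroup.centralizer ({x} : Set G))).map (Subgroup.centralizer ({x} : Set G)).subtype)
    (z : G) (hz : orderOf z = 2) (hE : Cfsg.IsExtraspecial 2 ↥(Q z))
    (hC : Subgroup.centralizer ((Q z : Subgroup G) : Set G) ≤ Q z)
    (U : Subgroup G) (hU2 : ∀ u ∈ U, u * u = 1)
    (hS : ∀ u ∈ U, u ≠ 1 → ∃ g : G, g * z * g⁻¹ = u)
    (hO : ∀ u ∈ U, ∀ v ∈ U, u ≠ 1 → v ≠ 1 → v ∈ Q u)
    (QU LU : Subgroup G) (hQU : QU = ⨅ u ∈ ((U : Set G) \ {1}), Q u) (hLU : LU = ⨆ u ∈ ((U : Set G) \ {1}), Q u)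
    (T : Set G) (hT : Subgroup.closure T = U) (hT1 : (1 : G) ∉ T) :
    QU = ⨅ t ∈ T, Q t := by
  classical
  have hXS : ∀ u ∈ U, u ≠ 1 → H864.XS (Q u) u := fun u hu hu1 =>
    H864.XS_conj hQ z hz hE u (hS u hu hu1)
  have hTU : T ⊆ (U : Set G) := by rw [← hT]; exact Subgroup.subset_closure
  apply le_antisymm
  · rw [hQU]
    apply le_iInf₂
    intro t ht
    apply iInf₂_le
    refine ⟨hTU ht, ?_⟩
    intro h
    rw [Set.mem_singleton_iff] at h
    exact hT1 (h ▸ ht)
  · rw [hQU]
    apply le_iInf₂
    intro u hu
    have key : ∀ v ∈ U, v = 1 ∨ (⨅ t ∈ T, Q t) ≤ Q v := by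
      intro v hv
      rw [← hT] at hv
      induction hv using Subgroup.closure_induction with
      | mem x hx => right; exact iInf₂_le x hx
      | one => left; rfl
      | mul a b ha hb iha ihb =>
        rw [hT] at ha hb
        by_cases ha1 : a = 1
        · subst ha1; rw [one_mul]; exact ihb
        by_cases hb1 : b = 1
        · subst hb1; rw [mul_one]; exact iha
        by_cases hab : a * b = 1
        · left; exact hab
        right
        have hIa := iha.resolve_left ha1
        have hIb := ihb.resolve_left hb1
        have hXa := hXS a ha ha1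
        have hXb := hXS b hb hb1
        -- choose `q ∈ Q a` with `q b q⁻¹ = b a`
        have hba : b ≠ a := by
          rintro rfl
          exact hab (hU2 _ hb)
        obtain ⟨q, hq, hq'⟩ := hXa.nondeg b (hO a ha b hb ha1 hb1) hb1 hba
        have hcomm : b * a = a * b := hXa.cent b (hO a ha b hb ha1 hb1)
        rw [hcomm] at hq'
        intro y hy
        have hya := hIa hy
        have hyb := hIb hy
        -- `q⁻¹ y q ∈ Q b`
        have h1 : q⁻¹ * y * q ∈ Q b := by
          have := hXa.comm q⁻¹ ((Q a).inv_mem hq) y hya
          rw [inv_inv] at this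
          rcases this with h | h
          · rw [h]; exact hyb
          · rw [h]; exact (Q b).mul_mem hyb (hO b hb a ha hb1 ha1)
        have h2 := H864.Q_conj_le hQ b q _ h1
        rw [hq'] at h2
        have e : q * (q⁻¹ * y * q) * q⁻¹ = y := by group
        rwa [e] at h2
      | inv a ha iha =>
        rw [hT] at ha
        have : a⁻¹ = a := inv_eq_of_mul_eq_one_right (hU2 a ha)
        rwa [this]
    exact (key u hu.1).resolve_left hu.2

end Cfsg.Agent.S5598
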