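import Cfsg.Statements.S5636
import Cfsg.Agent.S0000
import Cfsg.Agent.OrdDiv.Table
import Cfsg.Agent.H912.Core4
import Cfsg.Agent.H923.Ext
import Cfsg.Agent.H872.SingMax

set_option autoImplicit false
open Cfsg

namespace Cfsg.Agent.S5636

/-- For a finite field F and n ≥ 13, let K be a subfield of the algebra of n × n matrices over F containing the scalars, of prime degree r over F (a commutative subalgebra of dimension r in which every non-zero element is invertible). Then the elements of SL_n(F) normalising K form a maximal subgroup of SL_n(F). -/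
theorem result {F : Type*} [Field F] [Fintype F] (n : ℕ) (hn : 13 ≤ n) (r : ℕ) (hr : r.Prime) (K : Subalgebra F (Matrix (Fin n) (Fin n) F)) (hK : Cfsg.Geo.IsFieldSubalgebra r K) : Cfsg.Geo.IsMaximalIn (Cfsg.Geo.specialLinear (Fin n) F) (Cfsg.Geo.subalgebraNormalizer K ⊓ Cfsg.Geo.specialLinear (Fin n) F) := by
  have hne : Nonempty (Fin n) := ⟨⟨0, by omega⟩⟩
  have hdvd : r ∣ n := by
    have := Cfsg.Agent.H912.finrank_dvd_of_fieldSub hK
    rwa [Fintype.card_fin] at this
  have hle : r ≤ n := Nat.le_of_dvd (by omega) hdvd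
  rcases Nat.lt_or_ge r n with hlt | hge
  · refine Cfsg.Agent.H923.ext_isMaximalIn hr hK (by rw [Fintype.card_fin]; exact hlt) ?_
    rintro ⟨-, -, h⟩
    rw [Fintype.card_fin] at h
    omega
  · obtain rfl : r = n := le_antisymm hle hge
    exact Cfsg.Agent.H872.Sing.singer_isMaximalIn (fun G _ _ _ => Cfsg.Agent.S0000.result)
      Cfsg.Agent.OrdDiv.table hr (by omega) hK

end Cfsg.Agent.S5636
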