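import Cfsg.Statements.S5647
import Cfsg.Agent.H875.SpDec

set_option autoImplicit false
open Cfsg

namespace Cfsg.Agent.S5647

open Cfsg.Agent.H875 Cfsg.Agent.ClassicalGeometry.SympBasic
  Cfsg.Agent.ClassicalGeometry.SympSiegel

section

variable {F : Type*} [Field F] {m : ℕ}

/-- A non-degenerate subspace of dimension at least three is big, and so is everything when the
field has more than two elements. -/
theorem big_of [Fintype F] {k : ℕ} {W : Submodule F (Fin m ⊕ Fin m → F)}
    (hW : Cfsg.Geo.IsNondegenerateOn (sympForm m F) W) (hk : Module.finrank F W = k) (hk0 : 0 < k)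
    (hex : ¬ (k = 2 ∧ Fintype.card F = 2)) : Big W := by
  classical
  by_cases hq : Fintype.card F = 2
  · right
    have h20 : (2 : F) = 0 := by
      have h1 : ((Fintype.card F : ℕ) : F) = 0 := Nat.cast_card_eq_zero F
      rw [hq] at h1
      exact_mod_cast h1
    have hk2 : k ≠ 2 := fun h => hex ⟨h, hq⟩
    obtain ⟨w, hw, hw0⟩ : ∃ w ∈ W, w ≠ 0 := by
      apply Submodule.exists_mem_ne_zero_of_ne_bot
      intro h
      rw [h, finrank_bot] at hk
      omega
    -- the dimension is not one
    have hk1 : k ≠ 1 := by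
      intro h1
      rw [h1] at hk
      obtain ⟨-, x, hx, hwx⟩ := hW w hw hw0
      have := (finrank_eq_one_iff_of_nonzero' (⟨w, hw⟩ : W)
        (fun h => hw0 (congrArg Subtype.val h))).1 hk ⟨x, hx⟩
      obtain ⟨c, hc⟩ := this
      have hc' : c • w = x := congrArg Subtype.val hc
      rw [← hc', sympForm_smul_right, sympForm_self, mul_zero] at hwx
      exact hwx rfl
    have hk3 : 3 ≤ k := by omega
    -- the functional `f(w, ·)` on `W`
    let φ : W →ₗ[F] F := (sympBilin m F w).comp W.subtype
    have h1 : Module.finrank F (LinearMap.range φ) + Module.finrank F (LinearMap.ker φ) = k := by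
      rw [LinearMap.finrank_range_add_finrank_ker, hk]
    have h2 : Module.finrank F (LinearMap.range φ) ≤ 1 := by
      calc Module.finrank F (LinearMap.range φ) ≤ Module.finrank F F := Submodule.finrank_le _
        _ = 1 := Module.finrank_self F
    have h3 : 2 ≤ Module.finrank F (LinearMap.ker φ) := by omega
    have h4 : ¬ LinearMap.ker φ ≤ Submodule.span F {(⟨w, hw⟩ : W)} := by
      intro hle
      have h5 := Submodule.finrank_mono hle
      have h6 := finrank_span_le_card (R := F) ({(⟨w, hw⟩ : W)} : Set W)
      rw [Set.toFinset_singleton, Finset.card_singleton] at h6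
      omega
    obtain ⟨x, hx, hxs⟩ := SetLike.not_le_iff_exists.1 h4
    refine ⟨h20, w, hw, x, x.2, hw0, ?_, ?_, ?_⟩
    · intro h
      apply hxs
      have : x = 0 := Subtype.ext h
      rw [this]
      exact Submodule.zero_mem _
    · intro h
      apply hxs
      rw [Submodule.mem_span_singleton]
      refine ⟨-1, Subtype.ext ?_⟩
      change (-1 : F) • w = (x : Fin m ⊕ Fin m → F)
      rw [neg_one_smul]
      exact (eq_neg_of_add_eq_zero_right h).symm
    · exact hx
  · left
    have h1 : 1 < Fintype.card F := Fintype.one_lt_card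
    have h2 : 2 < Fintype.card F := by omega
    rw [Fintype.card, Finset.two_lt_card] at h2
    obtain ⟨a, -, b, -, c, -, hab, hac, hbc⟩ := h2
    by_cases ha : a ≠ 0 ∧ a ≠ -1
    · exact ⟨a, ha⟩
    by_cases hb : b ≠ 0 ∧ b ≠ -1
    · exact ⟨b, hb⟩
    refine ⟨c, ?_, ?_⟩
    · rintro rfl
      rw [not_and_or, not_not, not_not] at ha hb
      rcases ha with ha | ha
      · exact hac ha
      · rcases hb with hb | hb
        · exact hbc hb
        · exact hab (ha.trans hb.symm)
    · rintro rfl
      rw [not_and_or, not_not, not_not] at ha hb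
      rcases ha with ha | ha
      · rcases hb with hb | hb
        · exact hab (ha.trans hb.symm)
        · exact hbc hb
      · exact hac ha

end

/-- For a finite field F with q elements and m ≥ 7, let D be a decomposition of F^(2m) into t ≥ 2 pairwise orthogonal subspaces of equal dimension k on each of which the standard alternating form is non-degenerate, spanning F^(2m). Unless k = 2 and q = 2, the elements of Sp_2m(F) permuting the members of D form a maximal subgroup of Sp_2m(F). -/
theorem result {F : Type*} [Field F] [Fintype F] (m : ℕ) (hm : 7 ≤ m) {t : ℕ} (k : ℕ) (D : Fin t → Submodule F (Fin m ⊕ Fin m → F)) (hD : Cfsg.Geo.IsNondegenerateMDecomposition (Cfsg.sympForm m F) k D) (hex : ¬ (k = 2 ∧ Fintype.card F = 2)) : Cfsg.Geo.IsMaximalIn (Cfsg.spGL m F) (Cfsg.Geo.decompositionStabilizer D ⊓ Cfsg.spGL m F) := by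
  classical
  obtain ⟨P, hP⟩ := exists_isProj hD.decomp.indep hD.decomp.iSup_eq_top
  have hne : ∀ l, ∃ w ∈ D l, w ≠ 0 := by
    intro l
    apply Submodule.exists_mem_ne_zero_of_ne_bot
    intro h
    have h2 := hD.decomp.finrank_eq l
    rw [h, finrank_bot] at h2
    exact absurd h2.symm hD.decomp.pos.ne'
  have hbig : ∀ i, Big (D i) := fun i =>
    big_of (hD.nondegenerate i) (hD.decomp.finrank_eq i) hD.decomp.pos hex
  apply isMaximalIn_of
  · -- properness
    have ht := hD.decomp.two_le
    let i₀ : Fin t := ⟨0, by omega⟩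
    let i₁ : Fin t := ⟨1, by omega⟩
    have h01 : i₀ ≠ i₁ := fun h => by
      have := congrArg Fin.val h
      simp [i₀, i₁] at this
    obtain ⟨x, hx, hx0⟩ := hne i₀
    obtain ⟨y, hy, hy0⟩ := hne i₁
    obtain ⟨⟨z, hz, hzx⟩, -⟩ := hD.nondegenerate i₀ x hx hx0
    refine ⟨transv (x + y) 1, fun hmem => ?_⟩
    obtain ⟨σ, hσ⟩ := smul_mem_of_mem_decompositionStabilizer hmem
    have h1 := hσ i₀ z hz
    have hzy : sympForm m F z y = 0 := hD.orthogonal i₀ i₁ h01 z hz y hy
    rw [transv_smul, one_mul, sympForm_add_right, hzy, add_zero] at h1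
    by_cases hs : σ i₀ = i₀
    · rw [hs] at h1
      have h2 := hP.ne i₁ i₀ (Ne.symm h01) _ h1
      rw [map_add, map_smul, map_add, hP.ne i₁ i₀ (Ne.symm h01) _ hz,
        hP.ne i₁ i₀ (Ne.symm h01) _ hx, hP.same i₁ _ hy, zero_add, zero_add] at h2
      rcases smul_eq_zero.1 h2 with h3 | h3
      · exact hzx h3
      · exact hy0 h3
    · have h2 := hP.ne i₀ (σ i₀) (Ne.symm hs) _ h1
      rw [map_add, map_smul, map_add, hP.same i₀ _ hz, hP.same i₀ _ hx,
        hP.ne i₀ i₁ h01 _ hy, add_zero] at h2
      have h3 := congrArg (fun v => sympForm m F v x) h2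
      simp only [sympForm_add_left, sympForm_smul_left, sympForm_self, mul_zero, add_zero,
        sympForm_zero_left] at h3
      exact hzx h3
  · -- maximality
    intro M hM ⟨g, hgM, hg⟩
    by_contra htop
    apply hg
    -- every image of a block vector has at most one non-zero component
    have hone : ∀ i, ∀ x ∈ D i, ∀ a b, a ≠ b → P a (g • x) ≠ 0 → P b (g • x) = 0 := by
      intro i x hx a b hab ha
      by_contra hb
      apply htop
      refine eq_top_of_two_components hD hP hbig hM (u := g • x) ?_ hab ha hb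
      exact Full.smul (fun c => hM (transv_mem_dec hD i hx c)) hgM
    have hblock : ∀ i, ∃ j, ∀ x ∈ D i, g • x ∈ D j := by
      intro i
      obtain ⟨x₀, hx₀, hx₀0⟩ := hne i
      have hgx₀ : g • x₀ ≠ 0 := smul_ne_zero' g hx₀0
      obtain ⟨j, hj⟩ : ∃ j, P j (g • x₀) ≠ 0 := by
        by_contra hcon
        push Not at hcon
        apply hgx₀
        rw [← hP.sum (g • x₀)]
        exact Finset.sum_eq_zero fun j _ => hcon j
      refine ⟨j, fun x hx => ?_⟩
      have hzero : ∀ l, l ≠ j → P l (g • x) = 0 := by
        intro l hl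
        by_contra hl0
        have h1 : P j (g • x) = 0 := hone i x hx l j hl hl0
        have h2 : P l (g • x₀) = 0 := hone i x₀ hx₀ j l (Ne.symm hl) hj
        have h3 := hone i (x₀ + x) ((D i).add_mem hx₀ hx) j l (Ne.symm hl) (by
          rw [smul_add', map_add, h1, add_zero]; exact hj)
        rw [smul_add', map_add, h2, zero_add] at h3
        exact hl0 h3
      rw [← hP.sum (g • x), Finset.sum_eq_single j]
      · exact hP.mem j _
      · intro l _ hl
        exact hzero l hl
      · intro h; exact absurd (Finset.mem_univ j) h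
    choose s hs using hblock
    have hinj : Function.Injective (fun x : Fin m ⊕ Fin m → F => g • x) := fun x y hxy =>
      smul_left_cancel g hxy
    let L : (Fin m ⊕ Fin m → F) →ₗ[F] (Fin m ⊕ Fin m → F) :=
      Matrix.toLin' ((g : Matrix (Fin m ⊕ Fin m) (Fin m ⊕ Fin m) F))
    have hL : ∀ x, L x = g • x := fun x => rfl
    have hmap : ∀ i, (D i).map L = D (s i) := by
      intro i
      apply Submodule.eq_of_le_of_finrank_eq
      · rintro _ ⟨x, hx, rfl⟩
        exact hs i x hx
      · rw [hD.decomp.finrank_eq (s i), ← hD.decomp.finrank_eq i]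
        exact (Submodule.equivMapOfInjective _ hinj (D i)).finrank_eq.symm
    have hsinj : Function.Injective s := by
      intro i j hij
      by_contra hne'
      have h1 : (D i).map L = (D j).map L := by rw [hmap, hmap, hij]
      obtain ⟨x, hx, hx0⟩ := hne i
      have h2 : L x ∈ (D j).map L := by rw [← h1]; exact ⟨x, hx, rfl⟩
      obtain ⟨y, hy, hyx⟩ := h2
      have h3 : y = x := hinj hyx
      rw [h3] at hy
      have h4 := hP.ne i j hne' x hy
      rw [hP.same i x hx] at h4
      exact hx0 h4
    let σ : Equiv.Perm (Fin t) := Equiv.ofBijective s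
      (Finite.injective_iff_bijective.1 hsinj)
    exact mem_decompositionStabilizer_of hD.decomp σ (fun i x hx => hs i x hx)

end Cfsg.Agent.S5647
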