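import Cfsg.Statements.S5649
import Cfsg.Agent.H875.SpPair
import Cfsg.Agent.H875.SpDec

set_option autoImplicit false
open Cfsg

namespace Cfsg.Agent.S5649

open Cfsg.Agent.H875 Cfsg.Agent.ClassicalGeometry.SympBasic
  Cfsg.Agent.ClassicalGeometry.SympSiegel

section

variable {F : Type*} [Field F] {m : ℕ}

local notation "V" => (Fin m ⊕ Fin m → F)
local notation "G" => Matrix.symplecticGroup (Fin m) F
local notation "f" => sympForm m F

/-- In the absence of full vectors the relatives of a vector of `W` lie in `W'`. -/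
theorem rel_mem {M : Subgroup G} {W W' : Submodule F V} (h : PairGrp M W W')
    (h2 : (2 : F) ≠ 0) (hno : ∀ u : V, u ≠ 0 → ¬ Full M u) {w x : V} (hw : w ∈ W) (hw0 : w ≠ 0)
    (hx : Rel M w x) : x ∈ W' := by
  obtain ⟨a, ha, b, hb, rfl⟩ := h.pair.span x
  have hwb : f w b = 0 := by
    have := hx.1
    rwa [sympForm_add_right, h.pair.iso w hw a ha, zero_add] at this
  have hrb : Rel M w b := h.rel w hw b hb hwb
  have hts : ∀ x y, Rel M w x → Rel M w y → f x y = 0 := by
    intro x y hx hy
    by_contra hne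
    exact hno w hw0 (full_of_rel h2 hx hy hne)
  have hra : Rel M w a := by
    have h3 : Rel M w (a + b + (-1 : F) • b) :=
      hx.add (hrb.smul_vec (-1)) (hts _ _ hx (hrb.smul_vec (-1)))
    convert h3 using 1
    module
  by_cases has : a ∈ Submodule.span F {w}
  · obtain ⟨c, hc⟩ := Submodule.mem_span_singleton.1 has
    by_cases hc0 : c = 0
    · rw [hc0, zero_smul] at hc
      rw [← hc, zero_add]
      exact hb
    · exfalso
      apply hno w hw0
      apply full_of_rel_self h2
      have h3 := hra.smul_vec c⁻¹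
      rwa [← hc, smul_smul, inv_mul_cancel₀ hc0, one_smul] at h3
  · exfalso
    obtain ⟨q, hq, hwq, haq⟩ := h.pair.exists_dual ha hw has
    have h3 := hts a q hra (h.rel w hw q hq hwq)
    rw [haq] at h3
    exact one_ne_zero h3

/-- In the absence of full vectors the images of `W` are inside `W` or inside `W'` vectorwise. -/
theorem image_mem {M : Subgroup G} {W W' : Submodule F V} (h : PairGrp M W W')
    (h2 : (2 : F) ≠ 0) (hno : ∀ u : V, u ≠ 0 → ¬ Full M u)
    (hdim : 4 ≤ Module.finrank F W) (hdim' : 4 ≤ Module.finrank F W') {g : G} (hg : g ∈ M)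
    {w : V} (hw : w ∈ W) : g • w ∈ W ∨ g • w ∈ W' := by
  by_contra hcon
  rw [not_or] at hcon
  obtain ⟨hcW, hcW'⟩ := hcon
  have hw0 : w ≠ 0 := by
    rintro rfl
    rw [smul_zero'] at hcW
    exact hcW W.zero_mem
  obtain ⟨a, ha, b, hb, hu⟩ := h.pair.span (g • w)
  have ha0 : a ≠ 0 := by
    rintro rfl
    rw [hu, zero_add] at hcW'
    exact hcW' hb
  have hb0 : b ≠ 0 := by
    rintro rfl
    rw [hu, add_zero] at hcW
    exact hcW ha
  set u := g • w with hudef
  have hu0 : u ≠ 0 := smul_ne_zero' g hw0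
  -- the relatives of `u`
  have hts : ∀ x y, Rel M u x → Rel M u y → f x y = 0 := by
    intro x y hx hy
    by_contra hne
    exact hno u hu0 (full_of_rel h2 hx hy hne)
  have hnoW : ∀ y ∈ W, Rel M u y → y = 0 := by
    intro y hy hr
    by_contra hy0
    have h3 := rel_mem h h2 hno hy hy0 hr.symm
    exact hcW' h3
  have hnoW' : ∀ y ∈ W', Rel M u y → y = 0 := by
    intro y hy hr
    by_contra hy0
    have h3 := rel_mem h.symm h2 hno hy hy0 hr.symm
    exact hcW h3
  -- the key commutator
  have key : ∀ y, Rel M u y → ∀ p ∈ W, ∀ q ∈ W', f p b = 0 → f a q = 0 → f p q = 0 →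
      Rel M u (f q y • p + f p y • q) := by
    intro y hy p hp q hq hpb haq hpq
    have h1 := (h.rel p hp q hq hpq).2 1
    rw [one_smul] at h1
    have h3 := hy.smul h1
    have e1 : siegel p q 0 • u = u := by
      rw [siegel_smul hpq, hu, sympForm_add_right, sympForm_add_right,
        form_eq_zero_comm.1 haq, h.pair.iso' q hq b hb, h.pair.iso p hp a ha, hpb]
      simp
    rw [e1, siegel_smul hpq, zero_smul, add_zero] at h3
    have h4 : Rel M u ((y + f q y • p + f p y • q) + (-1 : F) • y) :=
      h3.add (hy.smul_vec (-1)) (hts _ _ h3 (hy.smul_vec (-1)))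
    convert h4 using 1
    module
  -- the components are multiples of `a` and `b`
  have hcomp : ∀ y, Rel M u y → y ∈ Submodule.span F {a, b} := by
    intro y hy
    obtain ⟨z, hz, ψ, hψ, hyz⟩ := h.pair.span y
    have hψb : ψ ∈ Submodule.span F {b} := by
      by_contra hψb
      obtain ⟨p, hp, hbp, hψp⟩ := h.pair.symm.exists_dual hψ hb hψb
      obtain ⟨q, hq, hq0, hqo⟩ := exists_orth (n := 3) (W := W') (by omega) ![a, p, z]
      have haq : f a q = 0 := by simpa using hqo 0
      have hpq : f p q = 0 := by simpa using hqo 1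
      have hzq : f z q = 0 := by simpa using hqo 2
      have h3 := key y hy p hp q hq (form_eq_zero_comm.1 hbp) haq hpq
      have e1 : f q y = 0 := by
        rw [hyz, sympForm_add_right, form_eq_zero_comm.1 hzq, h.pair.iso' q hq ψ hψ, add_zero]
      have e2 : f p y = -1 := by
        rw [hyz, sympForm_add_right, h.pair.iso p hp z hz, zero_add, sympForm_swap, hψp]
      rw [e1, e2, zero_smul, zero_add] at h3
      have h4 := hnoW' _ (W'.smul_mem _ hq) h3
      rcases smul_eq_zero.1 h4 with h5 | h5
      · exact neg_ne_zero.2 one_ne_zero h5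
      · exact hq0 h5
    have hza : z ∈ Submodule.span F {a} := by
      by_contra hza
      obtain ⟨q, hq, haq, hzq⟩ := h.pair.exists_dual hz ha hza
      obtain ⟨p, hp, hp0, hpo⟩ := exists_orth (n := 3) (W := W) (by omega) ![b, q, ψ]
      have hbp : f b p = 0 := by simpa using hpo 0
      have hqp : f q p = 0 := by simpa using hpo 1
      have hψp : f ψ p = 0 := by simpa using hpo 2
      have h3 := key y hy p hp q hq (form_eq_zero_comm.1 hbp) haq (form_eq_zero_comm.1 hqp)
      have e1 : f q y = -1 := by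
        rw [hyz, sympForm_add_right, h.pair.iso' q hq ψ hψ, add_zero, sympForm_swap, hzq]
      have e2 : f p y = 0 := by
        rw [hyz, sympForm_add_right, h.pair.iso p hp z hz, form_eq_zero_comm.1 hψp, add_zero]
      rw [e1, e2, zero_smul, add_zero] at h3
      have h4 := hnoW _ (W.smul_mem _ hp) h3
      rcases smul_eq_zero.1 h4 with h5 | h5
      · exact neg_ne_zero.2 one_ne_zero h5
      · exact hp0 h5
    rw [hyz, Submodule.mem_span_pair]
    obtain ⟨c, hc⟩ := Submodule.mem_span_singleton.1 hza
    obtain ⟨d, hd⟩ := Submodule.mem_span_singleton.1 hψb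
    exact ⟨c, d, by rw [hc, hd]⟩
  -- dimension count
  let L : W' →ₗ[F] F := (sympBilin m F w).comp W'.subtype
  let gl : V →ₗ[F] V := Matrix.toLin' ((g : Matrix (Fin m ⊕ Fin m) (Fin m ⊕ Fin m) F))
  have hgl : ∀ x, gl x = g • x := fun x => rfl
  have hinj : Function.Injective gl := fun x y hxy => smul_left_cancel g hxy
  have hle : ((LinearMap.ker L).map W'.subtype).map gl ≤ Submodule.span F {a, b} := by
    rintro _ ⟨_, ⟨q, hq, rfl⟩, rfl⟩
    rw [hgl]
    apply hcomp
    rw [hudef]
    exact (h.rel w hw q q.2 hq).smul hg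
  have h3 := Submodule.finrank_mono hle
  have h4 : Module.finrank F (((LinearMap.ker L).map W'.subtype).map gl) =
      Module.finrank F (LinearMap.ker L) := by
    rw [← Submodule.finrank_map_subtype_eq W' (LinearMap.ker L)]
    exact (Submodule.equivMapOfInjective _ hinj _).finrank_eq.symm
  have h5 := LinearMap.finrank_range_add_finrank_ker L
  have h6 : Module.finrank F (LinearMap.range L) ≤ 1 := by
    calc Module.finrank F (LinearMap.range L) ≤ Module.finrank F F := Submodule.finrank_le _
      _ = 1 := Module.finrank_self F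
  have h7 : Module.finrank F (Submodule.span F {a, b}) ≤ 2 := by
    classical
    have := finrank_span_finset_le_card (R := F) ({a, b} : Finset V)
    rw [Set.finrank] at this
    calc Module.finrank F (Submodule.span F {a, b})
        = Module.finrank F (Submodule.span F ((({a, b} : Finset V)) : Set V)) := by
          rw [Finset.coe_pair]
      _ ≤ ({a, b} : Finset V).card := this
      _ ≤ 2 := Finset.card_le_two
  omega

/-- In the absence of full vectors `g` maps `W` into `W` or into `W'`. -/
theorem image_sub {M : Subgroup G} {W W' : Submodule F V} (h : PairGrp M W W')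
    (h2 : (2 : F) ≠ 0) (hno : ∀ u : V, u ≠ 0 → ¬ Full M u)
    (hdim : 4 ≤ Module.finrank F W) (hdim' : 4 ≤ Module.finrank F W') {g : G} (hg : g ∈ M) :
    (∀ x ∈ W, g • x ∈ W) ∨ (∀ x ∈ W, g • x ∈ W') := by
  by_contra hcon
  rw [not_or] at hcon
  obtain ⟨h3, h4⟩ := hcon
  push Not at h3 h4
  obtain ⟨x, hx, hgx⟩ := h3
  obtain ⟨y, hy, hgy⟩ := h4
  have hgx' : g • x ∈ W' := (image_mem h h2 hno hdim hdim' hg hx).resolve_left hgx
  have hgy' : g • y ∈ W := (image_mem h h2 hno hdim hdim' hg hy).resolve_right hgy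
  rcases image_mem h h2 hno hdim hdim' hg (W.add_mem hx hy) with h5 | h5
  · rw [smul_add'] at h5
    apply hgx
    have := W.sub_mem h5 hgy'
    rwa [add_sub_cancel_right] at this
  · rw [smul_add'] at h5
    apply hgy
    have := W'.sub_mem h5 hgx'
    rwa [add_sub_cancel_left] at this

/-- In the absence of full vectors `g` permutes the two members. -/
theorem image_pair {M : Subgroup G} {W W' : Submodule F V} (h : PairGrp M W W')
    (h2 : (2 : F) ≠ 0) (hno : ∀ u : V, u ≠ 0 → ¬ Full M u)
    (hdim : 4 ≤ Module.finrank F W) (hdim' : 4 ≤ Module.finrank F W') {g : G} (hg : g ∈ M) :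
    ((∀ x ∈ W, g • x ∈ W) ∧ ∀ x ∈ W', g • x ∈ W') ∨
      ((∀ x ∈ W, g • x ∈ W') ∧ ∀ x ∈ W', g • x ∈ W) := by
  -- every vector of `W'` is related to a non-zero vector of `W`
  have hrel : ∀ q ∈ W', ∃ w ∈ W, w ≠ 0 ∧ Rel M w q := by
    intro q hq
    obtain ⟨w, hw, hw0, hwo⟩ := exists_orth (n := 1) (W := W) (by omega) ![q]
    have hqw : f q w = 0 := by simpa using hwo 0
    exact ⟨w, hw, hw0, h.rel w hw q hq (form_eq_zero_comm.1 hqw)⟩
  rcases image_sub h h2 hno hdim hdim' hg with h3 | h3
  · left
    refine ⟨h3, fun q hq => ?_⟩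
    obtain ⟨w, hw, hw0, hr⟩ := hrel q hq
    exact rel_mem h h2 hno (h3 w hw) (smul_ne_zero' g hw0) (hr.smul hg)
  · right
    refine ⟨h3, fun q hq => ?_⟩
    obtain ⟨w, hw, hw0, hr⟩ := hrel q hq
    exact rel_mem h.symm h2 hno (h3 w hw) (smul_ne_zero' g hw0) (hr.smul hg)

/-- An isometry exchanging the two members of the pair. -/
theorem exists_swap_pair {W W' : Submodule F V} (h : LPair W W')
    (hdim : Module.finrank F W = Module.finrank F W') :
    ∃ g : G, (∀ x ∈ W, g • x ∈ W') ∧ ∀ x ∈ W', g • x ∈ W := by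
  classical
  -- the pairing
  let θ : W' →ₗ[F] Module.Dual F W :=
    { toFun := fun q => ((sympBilin m F).flip q).comp W.subtype
      map_add' := fun q q' => by ext x; simp
      map_smul' := fun c q => by ext x; simp }
  have hθ : ∀ (q : W') (x : W), θ q x = f x q := fun q x => rfl
  have hθinj : Function.Injective θ := by
    rw [injective_iff_map_eq_zero]
    intro q hq
    apply Subtype.ext
    apply h.symm.eq_zero q.2
    intro x hx
    have := congrArg (fun l : Module.Dual F W => l ⟨x, hx⟩) hq
    simp only [hθ, LinearMap.zero_apply] at this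
    exact form_eq_zero_comm.1 this
  let θe : W' ≃ₗ[F] Module.Dual F W :=
    LinearMap.linearEquivOfInjective θ hθinj (by rw [Subspace.dual_finrank_eq, hdim])
  have hθe : ∀ (q : W') (x : W), θe q x = f x q := fun q x => rfl
  let b := Module.finBasis F W
  have hsymm : ∀ x y : W, b.toDual x y = b.toDual y x := by
    have : (b.toDual : W →ₗ[F] W →ₗ[F] F) = (b.toDual : W →ₗ[F] W →ₗ[F] F).flip := by
      apply b.ext
      intro i
      apply b.ext
      intro j
      rw [LinearMap.flip_apply, Module.Basis.toDual_apply, Module.Basis.toDual_apply]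
      by_cases hij : i = j
      · subst hij; rfl
      · rw [if_neg hij, if_neg (Ne.symm hij)]
    intro x y
    conv_lhs => rw [this]
    rfl
  let T : W ≃ₗ[F] W' := b.toDualEquiv.trans θe.symm
  have hT : ∀ x y : W, f x (T y : V) = b.toDual y x := by
    intro x y
    rw [← hθe]
    simp only [T, LinearEquiv.trans_apply, LinearEquiv.apply_symm_apply,
      Module.Basis.toDualEquiv_apply]
  -- projections
  have hcompl : IsCompl W W' := by
    constructor
    · rw [Submodule.disjoint_def]
      exact fun x hx hx' => h.disjoint hx hx'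
    · rw [codisjoint_iff, eq_top_iff]
      intro v _
      obtain ⟨a, ha, c, hc, rfl⟩ := h.span v
      exact Submodule.add_mem_sup ha hc
  let e := Submodule.prodEquivOfIsCompl W W' hcompl
  let S : V →ₗ[F] V :=
    ((W'.subtype ∘ₗ T.toLinearMap ∘ₗ LinearMap.fst F W W') -
      (W.subtype ∘ₗ T.symm.toLinearMap ∘ₗ LinearMap.snd F W W')) ∘ₗ e.symm.toLinearMap
  have hS : ∀ (x : W) (y : W'), S ((x : V) + (y : V)) = (T x : V) - (T.symm y : V) := by
    intro x y
    have : e.symm ((x : V) + (y : V)) = (x, y) := by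
      rw [LinearEquiv.symm_apply_eq]
      rfl
    simp only [S, LinearMap.comp_apply, LinearEquiv.coe_coe, this]
    rfl
  have hiso : ∀ u v, f (S u) (S v) = f u v := by
    intro u v
    obtain ⟨x, hx, y, hy, rfl⟩ := h.span u
    obtain ⟨x', hx', y', hy', rfl⟩ := h.span v
    have e1 := hS ⟨x, hx⟩ ⟨y, hy⟩
    have e2 := hS ⟨x', hx'⟩ ⟨y', hy'⟩
    simp only at e1 e2
    rw [e1, e2]
    have e3 : f (T ⟨x, hx⟩ : V) (T.symm ⟨y', hy'⟩ : V) = - f x y' := by
      rw [sympForm_swap, hT, hsymm, ← hT, LinearEquiv.apply_symm_apply]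
    have e4 : f (T.symm ⟨y, hy⟩ : V) (T ⟨x', hx'⟩ : V) = f x' y := by
      rw [hT, hsymm, ← hT, LinearEquiv.apply_symm_apply]
    rw [sympForm_sub_left, sympForm_sub_right, sympForm_sub_right,
      h.iso' _ (T ⟨x, hx⟩).2 _ (T ⟨x', hx'⟩).2,
      h.iso _ (T.symm ⟨y, hy⟩).2 _ (T.symm ⟨y', hy'⟩).2, e3, e4,
      sympForm_add_left, sympForm_add_right, sympForm_add_right, h.iso x hx x' hx',
      h.iso' y hy y' hy', sympForm_swap y x']
    ring
  refine ⟨ofIso S hiso, fun x hx => ?_, fun x hx => ?_⟩
  · rw [ofIso_smul]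
    have := hS ⟨x, hx⟩ 0
    simp only [ZeroMemClass.coe_zero, add_zero, map_zero, sub_zero] at this
    rw [this]
    exact Subtype.mem _
  · rw [ofIso_smul]
    have := hS 0 ⟨x, hx⟩
    simp only [ZeroMemClass.coe_zero, zero_add, map_zero, zero_sub] at this
    rw [this]
    exact W.neg_mem (Subtype.mem _)

end

/-- For a finite field F of odd order and m ≥ 7, let D be a decomposition of F^(2m) into two complementary subspaces of dimension m on each of which the standard alternating form vanishes identically. Then the elements of Sp_2m(F) preserving or interchanging the two subspaces form a maximal subgroup of Sp_2m(F). -/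
theorem result {F : Type*} [Field F] [Fintype F] (m : ℕ) (hm : 7 ≤ m) (hodd : Odd (Fintype.card F)) (D : Fin 2 → Submodule F (Fin m ⊕ Fin m → F)) (hD : Cfsg.Geo.IsMDecomposition m D) (hts : ∀ i, Cfsg.Geo.IsTotallySingularFor (Cfsg.sympForm m F) (D i)) : Cfsg.Geo.IsMaximalIn (Cfsg.spGL m F) (Cfsg.Geo.decompositionStabilizer D ⊓ Cfsg.spGL m F) := by
  classical
  have h2 : (2 : F) ≠ 0 := by
    intro h
    have hc : ((Fintype.card F : ℕ) : F) = 0 := Nat.cast_card_eq_zero F
    obtain ⟨k, hk⟩ := hodd
    rw [hk] at hc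
    push_cast at hc
    rw [h, zero_mul, zero_add] at hc
    exact one_ne_zero hc
  obtain ⟨P, hP⟩ := exists_isProj hD.indep hD.iSup_eq_top
  have hpair : LPair (D 0) (D 1) := by
    refine ⟨hts 0, hts 1, fun v => ⟨P 0 v, hP.mem 0 v, P 1 v, hP.mem 1 v, ?_⟩⟩
    rw [← Fin.sum_univ_two (fun i => P i v), hP.sum v]
  have hd0 : Module.finrank F (D 0) = m := hD.finrank_eq 0
  have hd1 : Module.finrank F (D 1) = m := hD.finrank_eq 1
  obtain ⟨s, hs, hs'⟩ := exists_swap_pair hpair (by rw [hd0, hd1])
  have hsmem : toGL m F s ∈ Cfsg.Geo.decompositionStabilizer D := by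
    apply mem_decompositionStabilizer_of hD (Equiv.swap 0 1)
    intro i x hx
    fin_cases i
    · exact hs x hx
    · exact hs' x hx
  apply isMaximalIn_of
  · obtain ⟨b, hb, hb0⟩ : ∃ b ∈ D 1, b ≠ 0 := by
      apply Submodule.exists_mem_ne_zero_of_ne_bot
      intro h
      rw [h, finrank_bot] at hd1
      omega
    obtain ⟨z, hz, hbz⟩ := hpair.symm.exists_one hb hb0
    have hzb : sympForm m F z b = -1 := by rw [sympForm_swap, hbz]
    have hz0 : z ≠ 0 := by
      rintro rfl
      rw [sympForm_zero_right] at hbz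
      exact zero_ne_one hbz
    refine ⟨transv (z - b) 1, fun hmem => ?_⟩
    obtain ⟨σ, hσ⟩ := smul_mem_of_mem_decompositionStabilizer hmem
    have h3 := hσ 0 z hz
    rw [transv_smul, one_mul, sympForm_sub_right, sympForm_self, hzb, zero_sub, neg_neg,
      one_smul] at h3
    have e : z + (z - b) = (2 : F) • z + (-1 : F) • b := by module
    rw [e] at h3
    have h4 : ∀ i : Fin 2, i = 0 ∨ i = 1 := by decide
    rcases h4 (σ 0) with h5 | h5
    · rw [h5] at h3
      have h6 := (D 0).sub_mem h3 ((D 0).smul_mem 2 hz)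
      rw [add_sub_cancel_left] at h6
      have h7 := hpair.disjoint h6 ((D 1).smul_mem _ hb)
      rw [neg_one_smul, neg_eq_zero] at h7
      exact hb0 h7
    · rw [h5] at h3
      have h6 := (D 1).sub_mem h3 ((D 1).smul_mem (-1) hb)
      rw [add_sub_cancel_right] at h6
      have h7 := hpair.disjoint ((D 0).smul_mem _ hz) h6
      rcases smul_eq_zero.1 h7 with h8 | h8
      · exact h2 h8
      · exact hz0 h8
  · intro M hM ⟨g, hgM, hg⟩
    have hrel : ∀ p ∈ D 0, ∀ q ∈ D 1, sympForm m F p q = 0 → Rel M p q := by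
      intro p hp q hq hpq
      refine ⟨hpq, fun c => hM ?_⟩
      have hpq' : sympForm m F p (c • q) = 0 := by rw [sympForm_smul_right, hpq, mul_zero]
      apply mem_decompositionStabilizer_of hD 1
      intro i x hx
      rw [siegel_smul hpq', zero_smul, add_zero]
      fin_cases i
      · change x ∈ D 0 at hx
        change _ ∈ D 0
        rw [hpair.iso p hp x hx, zero_smul, add_zero]
        exact (D 0).add_mem hx ((D 0).smul_mem _ hp)
      · change x ∈ D 1 at hx
        change _ ∈ D 1
        rw [hpair.iso' _ ((D 1).smul_mem c hq) x hx, zero_smul, add_zero]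
        exact (D 1).add_mem hx ((D 1).smul_mem _ ((D 1).smul_mem _ hq))
    have hgrp : PairGrp M (D 0) (D 1) :=
      ⟨hpair, hrel, ⟨s, hM hsmem, hs⟩, ⟨s, hM hsmem, hs'⟩⟩
    by_cases hno : ∃ u, u ≠ 0 ∧ Full M u
    · obtain ⟨u, hu0, hu⟩ := hno
      exact eq_top_of_full (hgrp.all_of_full h2 (by omega) (by omega) hu0 hu)
    · exfalso
      push Not at hno
      apply hg
      rcases image_pair hgrp h2 hno (by omega) (by omega) hgM with ⟨h3, h4⟩ | ⟨h3, h4⟩
      · apply mem_decompositionStabilizer_of hD 1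
        intro i x hx
        fin_cases i
        · exact h3 x hx
        · exact h4 x hx
      · apply mem_decompositionStabilizer_of hD (Equiv.swap 0 1)
        intro i x hx
        fin_cases i
        · exact h3 x hx
        · exact h4 x hx

end Cfsg.Agent.S5649
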