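import Cfsg.Statements.S5650
import Cfsg.Agent.H875.SpRatEnd
import Cfsg.Agent.H930.TTrans
import Cfsg.Agent.H931.SpProper

set_option autoImplicit false
open Cfsg

namespace Cfsg.Agent.S5650

open Cfsg.Agent.H875 Cfsg.Agent.ClassicalGeometry.SympBasic
  Cfsg.Agent.ClassicalGeometry.SympSiegel
open Cfsg.Agent.H930 (rv rv_add rv_smul rv_zero rv_injective)

/-- For a finite field F, a subfield F₀ with |F| = |F₀| ^ r for a prime r, and m ≥ 7, let P be an invertible matrix and ζ a non-zero scalar such that ζ times the standard alternating form takes values in F₀ on the F₀-span of the columns of P. Then the elements of Sp_2m(F) lying in the subfield group of P (the conjugate by P of the product of GL_2m(F₀) with the scalars) form a maximal subgroup of Sp_2m(F). -/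
theorem result {F : Type*} [Field F] [Fintype F] (m : ℕ) (hm : 7 ≤ m) (F₀ : Subfield F) (r : ℕ) (hr : r.Prime) (hcard : Fintype.card F = Nat.card F₀ ^ r) (P : Matrix.GeneralLinearGroup (Fin m ⊕ Fin m) F) (ζ : F) (hζ : ζ ≠ 0) (hP : Cfsg.Geo.IsFormRationalStructure (Cfsg.sympForm m F) F₀ ζ P) : Cfsg.Geo.IsMaximalIn (Cfsg.spGL m F) (Cfsg.Geo.subfieldSubgroup F₀ P ⊓ Cfsg.spGL m F) := by
  classical
  have hF₀ : F₀ ≠ ⊤ := by
    rintro rfl
    have h1 : Nat.card (⊤ : Subfield F) = Fintype.card F := by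
      rw [← Nat.card_eq_fintype_card]
      exact Nat.card_congr (Subfield.topEquiv : (⊤ : Subfield F) ≃+* F).toEquiv
    rw [h1] at hcard
    have h2 : 1 < Fintype.card F := Fintype.one_lt_card
    have h3 : Fintype.card F ^ 1 < Fintype.card F ^ r := Nat.pow_lt_pow_right h2 hr.one_lt
    rw [pow_one] at h3
    omega
  -- the rational structure
  let L : (Fin m ⊕ Fin m → F₀) →ₗ[F₀] (Fin m ⊕ Fin m → F) :=
    { toFun := rv F₀ P
      map_add' := rv_add P
      map_smul' := rv_smul P }
  have hL : ∀ u, L u = rv F₀ P u := fun u => rfl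
  let V₀ : Submodule F₀ (Fin m ⊕ Fin m → F) := LinearMap.range L
  have hmem : ∀ v, v ∈ V₀ ↔ ∃ u, rv F₀ P u = v := fun v => Iff.rfl
  have hrat : RatStr F₀ ζ V₀ := by
    refine ⟨hζ, ?_, ?_⟩
    · rintro _ ⟨u, rfl⟩ _ ⟨v, rfl⟩
      exact hP _ _ (fun i => (u i).2) (fun i => (v i).2)
    · intro v hv
      apply eq_zero_of_forall_sympForm_right
      intro w
      -- `w` is a combination of the columns of `P`
      have h1 : w = ∑ j, ((((P⁻¹ : Matrix.GeneralLinearGroup (Fin m ⊕ Fin m) F) :
          Matrix (Fin m ⊕ Fin m) (Fin m ⊕ Fin m) F).mulVec w) j) •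
          rv F₀ P (Pi.single j 1) := by
        have h2 : ∀ j, rv F₀ P (Pi.single j 1) =
            (P : Matrix (Fin m ⊕ Fin m) (Fin m ⊕ Fin m) F).mulVec (Pi.single j 1) := by
          intro j
          rw [rv, Cfsg.Agent.H873.Sub.cv_single]
        simp only [h2]
        have h3 : ∀ x : Fin m ⊕ Fin m → F,
            (P : Matrix (Fin m ⊕ Fin m) (Fin m ⊕ Fin m) F).mulVec x =
            ∑ j, x j • (P : Matrix (Fin m ⊕ Fin m) (Fin m ⊕ Fin m) F).mulVec (Pi.single j 1) := by
          intro x
          have h4 : x = ∑ j, x j • (Pi.single j (1 : F) : Fin m ⊕ Fin m → F) := by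
            funext i
            simp [Finset.sum_apply, Pi.single_apply]
          conv_lhs => rw [h4]
          rw [← Matrix.toLin'_apply, map_sum]
          simp only [map_smul, Matrix.toLin'_apply]
        rw [← h3, Matrix.mulVec_mulVec, ← Units.val_mul, mul_inv_cancel, Units.val_one,
          Matrix.one_mulVec]
      rw [h1, form_sum_right]
      apply Finset.sum_eq_zero
      intro j _
      rw [sympForm_smul_right, hv (rv F₀ P (Pi.single j 1)) ⟨_, rfl⟩, mul_zero]
  have hdim : Module.finrank F₀ V₀ = m + m := by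
    have h1 : Module.finrank F₀ V₀ = Module.finrank F₀ (Fin m ⊕ Fin m → F₀) :=
      LinearMap.finrank_range_of_inj (rv_injective P)
    rw [h1, Module.finrank_fintype_fun_eq_card, Fintype.card_sum, Fintype.card_fin]
  apply isMaximalIn_of
  · by_contra hcon
    push Not at hcon
    apply Cfsg.Agent.H931.spGL_not_le_subfieldSubgroup (by omega : 1 ≤ m) (Or.inl (by omega)) hF₀ P
    rw [← toGL_range]
    rintro _ ⟨g, rfl⟩
    exact hcon g
  · intro M hKM ⟨g, hgM, hg⟩
    have hM : ∀ g : Matrix.symplecticGroup (Fin m) F, (∀ v ∈ V₀, g • v ∈ V₀) → g ∈ M := by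
      intro g hg
      apply hKM
      apply Cfsg.Agent.H930.mem_subfieldSubgroup_of_rat
      intro u
      obtain ⟨w, hw⟩ := hg _ ⟨u, rfl⟩
      exact ⟨w, hw.symm⟩
    -- an irrational image
    obtain ⟨u, hu⟩ : ∃ u : Fin m ⊕ Fin m → F₀, ∀ (l : F) (w : Fin m ⊕ Fin m → F₀),
        g • rv F₀ P u ≠ l • rv F₀ P w := by
      by_contra hcon
      push Not at hcon
      apply hg
      apply Cfsg.Agent.H930.mem_subfieldSubgroup_of_lines
      · rw [Fintype.card_sum, Fintype.card_fin]
        omega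
      · exact hcon
    have hirr : ∀ (a : F), ∀ w ∈ V₀, g • rv F₀ P u ≠ a • w := by
      rintro a _ ⟨w, rfl⟩
      exact hu a w
    have hTu : ∀ c ∈ F₀, TT ζ (g • rv F₀ P u) c ∈ M := by
      intro c hc
      rw [← conj_TT]
      exact M.mul_mem (M.mul_mem hgM (hM _ (TT_mem_of_rat hrat ⟨u, rfl⟩ hc))) (M.inv_mem hgM)
    have hgoal : Goal ζ F₀ V₀ M := by
      by_cases h2 : (2 : F) = 0
      · exact even_step h2 hrat (by omega) hM hTu hirr
      · exact odd_step h2 hrat (by omega) hM hTu hirr
    exact eq_top_of_full (full_of_goal hrat (by omega) hr hcard hM hgoal)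

end Cfsg.Agent.S5650
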