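import Cfsg.Statements.S5712
import Cfsg.Agent.H890.SpX
import Cfsg.Agent.H890.SixGroup
import Cfsg.Agent.LieClassical.OrthFinite
import Cfsg.Agent.LieClassical.OrthForms
import Cfsg.Agent.LieClassical.SympTransvection
import Cfsg.Agent.LieClassical.SpFourTwo
import Cfsg.Agent.Lib.HallHigman

set_option autoImplicit false
open Cfsg

namespace Cfsg.Agent.S5712

open Module QuadraticMap Cfsg.Agent.LieClassical.OrthCore Cfsg.Agent.LieClassical.OrthFinite
  Cfsg.Agent.LieClassical.OrthForms Cfsg.Agent.H890.SpCore Cfsg.Agent.H890.SpParity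

/-- the form of the statement -/
abbrev frm (n : ℕ) (F : Type*) [Field F] (u v : Fin n ⊕ Fin n → F) : F :=
  ∑ i : Fin n, (u (Sum.inl i) * v (Sum.inr i) + u (Sum.inr i) * v (Sum.inl i))

/-- the isometry group of the statement -/
abbrev Sp (n : ℕ) (F : Type*) [Field F] : Subgroup (Matrix.GeneralLinearGroup (Fin n ⊕ Fin n) F) :=
  Cfsg.preserving (Units.coeHom (Matrix (Fin n ⊕ Fin n) (Fin n ⊕ Fin n) F)) (frm n F)

variable {F : Type*} [Field F] {n : ℕ}

theorem polar_eq_frm (u v : Fin n ⊕ Fin n → F) : polar (plusForm n F) u v = frm n F u v := by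
  rw [polar_plusForm]
  exact Finset.sum_congr rfl fun i _ => by ring

theorem mem_Sp {g : Matrix.GeneralLinearGroup (Fin n ⊕ Fin n) F} : g ∈ Sp n F ↔
    ∀ u v, frm n F ((g : Matrix _ _ F).mulVec u) ((g : Matrix _ _ F).mulVec v) = frm n F u v :=
  Iff.rfl

theorem om_eq_frm (h2 : (2 : F) = 0) (u v : Fin n ⊕ Fin n → F) :
    LieClassical.SympTransvection.om u v = frm n F u v := by
  rw [LieClassical.SympTransvection.om_eq_sum]
  refine Finset.sum_congr rfl fun i _ => ?_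
  linear_combination (-(u (Sum.inl i) * v (Sum.inr i))) * h2

theorem mem_symplecticGroup_iff (h2 : (2 : F) = 0) (A : Matrix (Fin n ⊕ Fin n) (Fin n ⊕ Fin n) F) :
    A ∈ Matrix.symplecticGroup (Fin n) F ↔
      ∀ u v, frm n F (A.mulVec u) (A.mulVec v) = frm n F u v := by
  rw [SymplecticGroup.mem_iff']
  have key : ∀ u v, LieClassical.SympTransvection.om (A.mulVec u) (A.mulVec v) =
      dotProduct u ((A.transpose * Matrix.J (Fin n) F * A).mulVec v) := by
    intro u v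
    rw [LieClassical.SympTransvection.om_def, ← Matrix.mulVec_mulVec, ← Matrix.mulVec_mulVec,
      Matrix.dotProduct_mulVec u, Matrix.vecMul_transpose]
  constructor
  · intro h u v
    rw [← om_eq_frm h2, ← om_eq_frm h2, key, h, LieClassical.SympTransvection.om_def]
  · intro h
    ext i j
    have h1 := h (Pi.single i 1) (Pi.single j 1)
    rw [← om_eq_frm h2, ← om_eq_frm h2, key, LieClassical.SympTransvection.om_def] at h1
    simpa using h1

theorem val_mem (h2 : (2 : F) = 0) {g : Matrix.GeneralLinearGroup (Fin n ⊕ Fin n) F}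
    (hg : g ∈ Sp n F) :
    (g : Matrix (Fin n ⊕ Fin n) (Fin n ⊕ Fin n) F) ∈ Matrix.symplecticGroup (Fin n) F := by
  rw [mem_symplecticGroup_iff h2]
  exact mem_Sp.1 hg

/-- a symplectic matrix as an element of `GL` -/
def toGL (A : Matrix.symplecticGroup (Fin n) F) : Matrix.GeneralLinearGroup (Fin n ⊕ Fin n) F where
  val := A.1
  inv := (A⁻¹ : Matrix.symplecticGroup (Fin n) F).1
  val_inv := by rw [← Submonoid.coe_mul, mul_inv_cancel, Submonoid.coe_one]
  inv_val := by rw [← Submonoid.coe_mul, inv_mul_cancel, Submonoid.coe_one]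

theorem toGL_mem (h2 : (2 : F) = 0) (A : Matrix.symplecticGroup (Fin n) F) : toGL A ∈ Sp n F := by
  rw [mem_Sp]
  exact (mem_symplecticGroup_iff h2 A.1).1 A.2

/-- `Sp n F` maps to Mathlib's symplectic group (characteristic two). -/
def toSympHom (h2 : (2 : F) = 0) (n : ℕ) : Sp n F →* Matrix.symplecticGroup (Fin n) F where
  toFun g := ⟨(g.1 : Matrix (Fin n ⊕ Fin n) (Fin n ⊕ Fin n) F), val_mem h2 g.2⟩
  map_one' := rfl
  map_mul' g h := rfl

theorem toSympHom_bijective (h2 : (2 : F) = 0) (n : ℕ) :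
    Function.Bijective (toSympHom (F := F) h2 n) := by
  constructor
  · intro g h hgh
    apply Subtype.ext
    apply Units.ext
    exact congrArg Subtype.val hgh
  · intro A
    exact ⟨⟨toGL A, toGL_mem h2 A⟩, rfl⟩

/-- `Sp n F` is Mathlib's symplectic group (characteristic two). -/
noncomputable def toSymp (h2 : (2 : F) = 0) (n : ℕ) : Sp n F ≃* Matrix.symplecticGroup (Fin n) F :=
  MulEquiv.ofBijective (toSympHom h2 n) (toSympHom_bijective h2 n)

section Main

variable [Fintype F]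

/-- the context -/
noncomputable def ctx (h2 : (2 : F) = 0) (L : Subgroup (Matrix.GeneralLinearGroup (Fin n ⊕ Fin n) F))
    (hL : L ≤ Sp n F) : Ctx F (Fin n ⊕ Fin n → F) where
  B := polarBilin (plusForm n F)
  alt v := by
    rw [polarBilin_apply_apply, polar_self', h2, zero_mul]
  nd x hx := nondeg_plusForm n F x hx
  L := L.map (glEquiv (Fin n ⊕ Fin n) F).toMonoidHom
  inv := by
    rintro _ ⟨g, hg, rfl⟩ u v
    rw [polarBilin_apply_apply, polarBilin_apply_apply, polar_eq_frm, polar_eq_frm]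
    exact mem_Sp.1 (hL hg) u v
  two := h2

theorem ctx_B (h2 : (2 : F) = 0) (L : Subgroup (Matrix.GeneralLinearGroup (Fin n ⊕ Fin n) F))
    (hL : L ≤ Sp n F) (u v : Fin n ⊕ Fin n → F) : (ctx h2 L hL).B u v = frm n F u v :=
  polar_eq_frm u v

theorem mem_ctx_L (h2 : (2 : F) = 0) (L : Subgroup (Matrix.GeneralLinearGroup (Fin n ⊕ Fin n) F))
    (hL : L ≤ Sp n F) (g : Matrix.GeneralLinearGroup (Fin n ⊕ Fin n) F) :
    glEquiv _ F g ∈ (ctx h2 L hL).L ↔ g ∈ L :=
  Subgroup.mem_map_iff_mem (glEquiv (Fin n ⊕ Fin n) F).injective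

theorem isom_iff (h2 : (2 : F) = 0) (L : Subgroup (Matrix.GeneralLinearGroup (Fin n ⊕ Fin n) F))
    (hL : L ≤ Sp n F) (g : Matrix.GeneralLinearGroup (Fin n ⊕ Fin n) F) :
    (∀ u v, (ctx h2 L hL).B (glEquiv _ F g u) (glEquiv _ F g v) = (ctx h2 L hL).B u v) ↔
      g ∈ Sp n F := by
  rw [mem_Sp]
  simp only [ctx_B]
  rfl

theorem rank_add_fix (g : Matrix.GeneralLinearGroup (Fin n ⊕ Fin n) F) :
    ((g : Matrix (Fin n ⊕ Fin n) (Fin n ⊕ Fin n) F) - 1).rank +
      finrank F (fix (glEquiv _ F g)) = finrank F (Fin n ⊕ Fin n → F) := by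
  have h := LinearMap.finrank_range_add_finrank_ker
    (((g : Matrix (Fin n ⊕ Fin n) (Fin n ⊕ Fin n) F) - 1).mulVecLin)
  have e : LinearMap.ker (((g : Matrix (Fin n ⊕ Fin n) (Fin n ⊕ Fin n) F) - 1).mulVecLin) =
      fix (glEquiv _ F g) := by
    ext v
    rw [mem_fix, LinearMap.mem_ker, Matrix.mulVecLin_apply, Matrix.sub_mulVec, Matrix.one_mulVec,
      sub_eq_zero]
    rfl
  rw [e] at h
  exact h

/-- `A a` from the hypotheses on `X`. -/
theorem A_a (h2 : (2 : F) = 0) {a : Fin n ⊕ Fin n → F} (ha : a ≠ 0)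
    (X L : Subgroup (Matrix.GeneralLinearGroup (Fin n ⊕ Fin n) F)) (hL : L ≤ Sp n F)
    (hXO : ∀ H : Subgroup (Matrix.GeneralLinearGroup (Fin n ⊕ Fin n) F),
      (∀ g : Matrix.GeneralLinearGroup (Fin n ⊕ Fin n) F, g ∈ H ↔ (g ∈ Sp n F ∧
        Matrix.mulVec (g : Matrix (Fin n ⊕ Fin n) (Fin n ⊕ Fin n) F) a = a)) →
      X ≤ (Cfsg.pCore 2 ↥H).map H.subtype)
    (hcard : Nat.card ↥X = Fintype.card F ^ (2 * n - 2))
    (hntv : ∀ x ∈ X, ((x : Matrix (Fin n ⊕ Fin n) (Fin n ⊕ Fin n) F) - 1).rank ≠ 1)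
    (hXL : X ≤ L) : (ctx h2 L hL).A a := by
  classical
  let ψ := glEquiv (Fin n ⊕ Fin n) F
  let H : Subgroup (Matrix.GeneralLinearGroup (Fin n ⊕ Fin n) F) :=
    { carrier := {g | g ∈ Sp n F ∧ Matrix.mulVec (g : Matrix _ _ F) a = a}
      mul_mem' := by
        rintro x y ⟨hx1, hx2⟩ ⟨hy1, hy2⟩
        refine ⟨(Sp n F).mul_mem hx1 hy1, ?_⟩
        rw [Units.val_mul, ← Matrix.mulVec_mulVec, hy2, hx2]
      one_mem' := ⟨(Sp n F).one_mem, by simp⟩
      inv_mem' := by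
        rintro x ⟨hx1, hx2⟩
        refine ⟨(Sp n F).inv_mem hx1, ?_⟩
        nth_rewrite 1 [← hx2]
        rw [Matrix.mulVec_mulVec, ← Units.val_mul, inv_mul_cancel, Units.val_one,
          Matrix.one_mulVec] }
  have hH : ∀ g, g ∈ H ↔ (g ∈ Sp n F ∧ Matrix.mulVec (g : Matrix _ _ F) a = a) := fun g => Iff.rfl
  have hX := hXO H hH
  have : Fact (Nat.Prime 2) := ⟨Nat.prime_two⟩
  have hp : IsPGroup 2 (Cfsg.pCore 2 H) := Lib.HallHigman.pCore_isPGroup 2
  have hn : (Cfsg.pCore 2 H).Normal := Lib.HallHigman.pCore_normal 2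
  have hQ : ∀ g ∈ ((Cfsg.pCore 2 H).map H.subtype).map ψ.toMonoidHom, g ∈ (ctx h2 L hL).Qa a := by
    apply (ctx h2 L hL).le_Qa a _ ha
    · rintro _ ⟨g, ⟨h, -, rfl⟩, rfl⟩
      exact (isom_iff h2 L hL _).2 h.2.1
    · rintro _ ⟨g, ⟨h, -, rfl⟩, rfl⟩
      exact h.2.2
    · rintro _ ⟨g, ⟨h, hh, rfl⟩, rfl⟩
      obtain ⟨k, hk⟩ := hp ⟨h, hh⟩
      refine ⟨k, ?_⟩
      have h3 : h ^ 2 ^ k = 1 := by
        have := congrArg Subtype.val hk
        rwa [Subgroup.coe_pow, Subgroup.coe_one] at this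
      have h4 : (h : Matrix.GeneralLinearGroup (Fin n ⊕ Fin n) F) ^ 2 ^ k = 1 := by
        rw [← Subgroup.coe_pow, h3, Subgroup.coe_one]
      have h5 : (ψ (h : Matrix.GeneralLinearGroup (Fin n ⊕ Fin n) F)) ^ 2 ^ k = 1 := by
        rw [← map_pow, h4, map_one]
      exact h5
    · rintro t ht hta _ ⟨g, ⟨h, hh, rfl⟩, rfl⟩
      obtain ⟨t, rfl⟩ := ψ.surjective t
      have htH : t ∈ H := ⟨(isom_iff h2 L hL t).1 ht, hta⟩
      have h3 : t * (h : Matrix.GeneralLinearGroup (Fin n ⊕ Fin n) F) * t⁻¹ ∈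
          (Cfsg.pCore 2 H).map H.subtype := by
        refine ⟨⟨t, htH⟩ * h * (⟨t, htH⟩ : H)⁻¹, hn.conj_mem _ hh _, ?_⟩
        rw [map_mul, map_mul, map_inv]
        rfl
      have h4 := Subgroup.mem_map_of_mem ψ.toMonoidHom h3
      have h5 : ψ.toMonoidHom (t * (h : Matrix.GeneralLinearGroup (Fin n ⊕ Fin n) F) * t⁻¹) =
          ψ t * ψ h * (ψ t)⁻¹ := by
        rw [map_mul, map_mul, map_inv]
        rfl
      rw [h5] at h4
      exact h4
  refine (ctx h2 L hL).A_of_X ha (X.map ψ.toMonoidHom) (Subgroup.map_mono hXL) ?_ ?_ ?_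
  · intro x hx
    exact hQ x (Subgroup.map_mono hX hx)
  · rw [Subgroup.card_map_of_injective ψ.injective, hcard, Nat.card_eq_fintype_card,
      Module.finrank_fintype_fun_eq_card, Fintype.card_sum, Fintype.card_fin]
    congr 1
    omega
  · rintro _ ⟨g, hg, rfl⟩ c hc
    by_contra hc0
    apply hntv g hg
    have hr : LinearMap.range (((g : Matrix (Fin n ⊕ Fin n) (Fin n ⊕ Fin n) F) - 1).mulVecLin) =
        Submodule.span F {a} := by
      have h3 : ∀ v, ((g : Matrix (Fin n ⊕ Fin n) (Fin n ⊕ Fin n) F) - 1).mulVecLin v =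
          (c * (ctx h2 L hL).B v a) • a := by
        intro v
        rw [Matrix.mulVecLin_apply, Matrix.sub_mulVec, Matrix.one_mulVec]
        have h4 : (g : Matrix _ _ F).mulVec v = v + (c * (ctx h2 L hL).B v a) • a := hc v
        rw [h4, add_sub_cancel_left]
      apply le_antisymm
      · rintro _ ⟨v, rfl⟩
        rw [h3]
        exact Submodule.smul_mem _ _ (Submodule.mem_span_singleton_self a)
      · rw [Submodule.span_singleton_le_iff_mem]
        obtain ⟨v, hv⟩ := (ctx h2 L hL).exists_eq ha c⁻¹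
        refine ⟨v, ?_⟩
        rw [h3, (ctx h2 L hL).symm v a, hv, mul_inv_cancel₀ hc0, one_smul]
    rw [Matrix.rank, hr, finrank_span_singleton ha]

end Main

/-- Let F be a finite field of characteristic two, n ≥ 2, V = F^{2n} with the non-degenerate alternating form f(u, v) = Σ (u_i v_{n+i} + u_{n+i} v_i), and G the group of invertible matrices preserving f. Let a ≠ 0 be a vector, H its stabilizer in G, and X a subgroup of O₂(H) of order |F|^{2n−2} no element of which is a transvection (no element g has g − 1 of rank one). If L is a subgroup of G containing X that acts irreducibly on V (no proper non-zero L-invariant subspace), then L = G, or, for some quadratic form Q on V whose polar form is f, L is the isometry group of Q or its subgroup of the isometries g for which g − 1 has even rank, or |F| = 2, n = 2 and L is isomorphic to the alternating group of degree 6 or to the symmetric group of degree 5. -/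
theorem result {F : Type*} [Field F] [Fintype F] [CharP F 2] {n : ℕ} (hn : 2 ≤ n) (a : (Fin n ⊕ Fin n → F)) (ha : a ≠ 0)
    (X : Subgroup (GL (Fin n ⊕ Fin n) F)) (hXG : X ≤ Cfsg.preserving (Units.coeHom (Matrix (Fin n ⊕ Fin n) (Fin n ⊕ Fin n) F)) (fun u v : (Fin n ⊕ Fin n → F) => ∑ i : Fin n, (u (Sum.inl i) * v (Sum.inr i) + u (Sum.inr i) * v (Sum.inl i))))
    (hXO : ∀ H : Subgroup (GL (Fin n ⊕ Fin n) F),
      (∀ g : GL (Fin n ⊕ Fin n) F, g ∈ H ↔ (g ∈ Cfsg.preserving (Units.coeHom (Matrix (Fin n ⊕ Fin n) (Fin n ⊕ Fin n) F)) (fun u v : (Fin n ⊕ Fin n → F) => ∑ i : Fin n, (u (Sum.inl i) * v (Sum.inr i) + u (Sum.inr i) * v (Sum.inl i))) ∧ Matrix.mulVec (g : Matrix (Fin n ⊕ Fin n) (Fin n ⊕ Fin n) F) a = a)) →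
      X ≤ (Cfsg.pCore 2 ↥H).map H.subtype)
    (hcard : Nat.card ↥X = Fintype.card F ^ (2 * n - 2))
    (hntv : ∀ x ∈ X, ((x : Matrix (Fin n ⊕ Fin n) (Fin n ⊕ Fin n) F) - 1).rank ≠ 1)
    (L : Subgroup (GL (Fin n ⊕ Fin n) F)) (hXL : X ≤ L) (hLG : L ≤ Cfsg.preserving (Units.coeHom (Matrix (Fin n ⊕ Fin n) (Fin n ⊕ Fin n) F)) (fun u v : (Fin n ⊕ Fin n → F) => ∑ i : Fin n, (u (Sum.inl i) * v (Sum.inr i) + u (Sum.inr i) * v (Sum.inl i))))
    (hirr : ∀ W : Submodule F (Fin n ⊕ Fin n → F), (∀ g ∈ L, ∀ w ∈ W, Matrix.mulVec (g : Matrix (Fin n ⊕ Fin n) (Fin n ⊕ Fin n) F) w ∈ W) → W = ⊥ ∨ W = ⊤) :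
    L = Cfsg.preserving (Units.coeHom (Matrix (Fin n ⊕ Fin n) (Fin n ⊕ Fin n) F)) (fun u v : (Fin n ⊕ Fin n → F) => ∑ i : Fin n, (u (Sum.inl i) * v (Sum.inr i) + u (Sum.inr i) * v (Sum.inl i))) ∨
    (∃ Q : QuadraticForm F (Fin n ⊕ Fin n → F), (∀ u v, QuadraticMap.polar ⇑Q u v = (fun u v : (Fin n ⊕ Fin n → F) => ∑ i : Fin n, (u (Sum.inl i) * v (Sum.inr i) + u (Sum.inr i) * v (Sum.inl i))) u v) ∧
      (L = Cfsg.isometryGroup F ⇑Q ∨
        ∀ g : GL (Fin n ⊕ Fin n) F, g ∈ L ↔ (g ∈ Cfsg.isometryGroup F ⇑Q ∧ Even ((g : Matrix (Fin n ⊕ Fin n) (Fin n ⊕ Fin n) F) - 1).rank))) ∨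
    (Fintype.card F = 2 ∧ n = 2 ∧ (Nonempty (↥L ≃* ↥(alternatingGroup (Fin 6))) ∨ Nonempty (↥L ≃* Equiv.Perm (Fin 5)))) := by
  have h2 : (2 : F) = 0 := CharTwo.two_eq_zero
  have hA := A_a h2 ha X L hLG hXO hcard hntv hXL
  have hfr : finrank F (Fin n ⊕ Fin n → F) = n + n := by
    rw [Module.finrank_fintype_fun_eq_card, Fintype.card_sum, Fintype.card_fin]
  have htri := (ctx h2 L hLG).trichotomy hA (by
    intro W hW
    apply hirr W
    intro g hg w hw
    exact hW _ ((mem_ctx_L h2 L hLG g).2 hg) w hw) (by rw [hfr]; omega)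
  rcases htri with h | ⟨Q, hQ, h⟩ | ⟨hd, hF, hAll, hT⟩
  · left
    apply le_antisymm hLG
    intro g hg
    rw [← mem_ctx_L h2 L hLG g]
    exact h _ ((isom_iff h2 L hLG g).2 hg)
  · right; left
    refine ⟨Q, fun u v => ?_, ?_⟩
    · rw [hQ]
      exact polar_eq_frm u v
    rcases h with h | h
    · left
      have h3 : (Cfsg.isometryGroup F ⇑Q).map (glEquiv (Fin n ⊕ Fin n) F).toMonoidHom = O Q :=
        map_isometryGroup Q
      rw [← h3] at h
      exact Subgroup.map_injective (glEquiv (Fin n ⊕ Fin n) F).injective h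
    · right
      intro g
      rw [← mem_ctx_L h2 L hLG g, h]
      have h4 : glEquiv _ F g ∈ O Q ↔ g ∈ Cfsg.isometryGroup F ⇑Q := by
        rw [mem_isometryGroup_iff]
        rfl
      have h5 := rank_add_fix g
      rw [h4, hfr]
      rw [hfr] at h5
      have h6 : Even (finrank F (fix (glEquiv _ F g)) + (n + n)) ↔
          Even ((g : Matrix (Fin n ⊕ Fin n) (Fin n ⊕ Fin n) F) - 1).rank := by
        rw [Nat.even_iff, Nat.even_iff]
        omega
      rw [h6]
  · right; right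
    rw [hfr] at hd
    have hn2 : n = 2 := by omega
    subst hn2
    have hcF : Fintype.card F = 2 := by
      rw [← Nat.card_eq_fintype_card]
      exact Ctx.card_F hF
    refine ⟨hcF, rfl, ?_⟩
    obtain ⟨e⟩ := LieClassical.SpFourTwo.nonempty_equiv_perm hcF
    let e' : Sp 2 F ≃* Equiv.Perm (Fin 6) := (toSymp h2 2).trans e
    -- the image of `L`
    let M : Subgroup (Equiv.Perm (Fin 6)) := (L.subgroupOf (Sp 2 F)).map e'.toMonoidHom
    have f1 : L ≃* M := (Subgroup.subgroupOfEquivOfLe hLG).symm.trans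
      (e'.subgroupMap (L.subgroupOf (Sp 2 F)))
    have hcardL : Nat.card (ctx h2 L hLG).L = Nat.card L :=
      Subgroup.card_map_of_injective (glEquiv (Fin 2 ⊕ Fin 2) F).injective
    have hcardM : Nat.card M = Nat.card L := (Nat.card_congr f1.toEquiv).symm
    have hfr4 : finrank F (Fin 2 ⊕ Fin 2 → F) = 4 := by rw [hfr]
    have h60 := (ctx h2 L hLG).sixty_dvd hfr4 hF hAll
    have hne := (ctx h2 L hLG).card_ne_sixty hfr4 hF hAll
    rw [hcardL, ← hcardM] at h60 hne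
    obtain ⟨g, hg, hgL⟩ := (ctx h2 L hLG).exists_not_mem (a := a) (fun s hs => hT a s ha hs)
    obtain ⟨g, rfl⟩ := (glEquiv (Fin 2 ⊕ Fin 2) F).surjective g
    rw [mem_ctx_L] at hgL
    have hgS := (isom_iff h2 L hLG g).1 hg
    have htop : M ≠ ⊤ := by
      intro h
      have h7 : e' ⟨g, hgS⟩ ∈ M := by rw [h]; exact Subgroup.mem_top _
      have h8 := (Subgroup.mem_map_iff_mem (f := e'.toMonoidHom) e'.injective).1 h7
      exact hgL (Subgroup.mem_subgroupOf.1 h8)
    rcases H890.SixGroup.main M h60 hne htop with h | h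
    · left
      obtain ⟨i⟩ := h
      exact ⟨f1.trans i⟩
    · right
      obtain ⟨i⟩ := h
      exact ⟨f1.trans i⟩

end Cfsg.Agent.S5712
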