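import Cfsg.Statements.S5720
import Cfsg.Agent.S0205
import Cfsg.Agent.S0483
import Cfsg.Agent.H892.GroupG

set_option autoImplicit false
open Cfsg

namespace Cfsg.Agent.S5720

/-- Let H be a finite group whose soluble radical (largest soluble normal subgroup) has index greater than 120. Then for every field K and every finite-dimensional K-linear representation of H on a space V there is a non-identity element h of H whose fixed-point subspace on V has dimension at least (dim V)/6. -/
theorem result {H : Type*} [Group H] [Finite H] (hR : 120 < (Cfsg.solvableRadical H).index)
    {K V : Type*} [Field K] [AddCommGroup V] [Module K V] [FiniteDimensional K V] (ρ : Representation K H V) :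
    ∃ h : H, h ≠ 1 ∧ (Module.finrank K V : ℚ) / 6 ≤ Module.finrank K (LinearMap.ker (ρ h - 1)) :=
  (H892.GroupG.conf_of_index (fun _ _ _ h => Cfsg.Agent.S0205.result h)
    (fun _ _ _ _ S n hn hS => Cfsg.Agent.S0483.result S n hn hS) hR).exists_fixed ρ

end Cfsg.Agent.S5720
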