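import Cfsg.Statements.S5729
import Cfsg.Agent.H894.Derange

set_option autoImplicit false
open Cfsg

namespace Cfsg.Agent.S5729

/-- Let a finite group G act faithfully and transitively on a set with n ≥ 3 points. Then either G is a Frobenius permutation group (Frobenius as a permutation group: transitive, some non-identity element fixes a point, and no non-identity element fixes two points) of order n(n − 1) and exactly |G|/n of its elements are derangements (fix no point), or the number of derangements is greater than |G|/n. -/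
theorem result {G Ω : Type*} [Group G] [Finite G] [MulAction G Ω] [FaithfulSMul G Ω] [Fintype Ω] (htr : MulAction.IsPretransitive G Ω) (hn : 3 ≤ Fintype.card Ω) :
    ((MulAction.IsPretransitive G Ω ∧ (∃ g : G, g ≠ 1 ∧ ∃ ω : Ω, g • ω = ω) ∧ ∀ g : G, g ≠ 1 → Nat.card (MulAction.fixedBy Ω g) ≤ 1) ∧ Nat.card G = Fintype.card Ω * (Fintype.card Ω - 1) ∧ Fintype.card Ω * Nat.card {g : G // ∀ ω : Ω, g • ω ≠ ω} = Nat.card G) ∨
    Nat.card G < Fintype.card Ω * Nat.card {g : G // ∀ ω : Ω, g • ω ≠ ω} := by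
  classical
  have hF : Fintype G := Fintype.ofFinite _
  have hne : Nonempty Ω := by rw [← Fintype.card_pos_iff]; omega
  have hnc : Nat.card Ω = Fintype.card Ω := Nat.card_eq_fintype_card
  have hpos : 0 < Nat.card G := Nat.card_pos
  have hr2 : 2 ≤ H894.rank G Ω := H894.two_le_rank (by omega)
  have hle := H894.rank_sub_one_mul_card_le (G := G) (Ω := Ω) htr
  rw [hnc] at hle
  by_cases hlt : Nat.card G < Fintype.card Ω * Nat.card {g : G // ∀ ω : Ω, g • ω ≠ ω}
  · exact Or.inr hlt
  left
  have hle' : Fintype.card Ω * Nat.card {g : G // ∀ ω : Ω, g • ω ≠ ω} ≤ Nat.card G := not_lt.1 hlt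
  have hleZ : (Fintype.card Ω : ℤ) * Nat.card {g : G // ∀ ω : Ω, g • ω ≠ ω} ≤ Nat.card G := by
    exact_mod_cast hle'
  have hposZ : (0 : ℤ) < Nat.card G := by exact_mod_cast hpos
  have hr : H894.rank G Ω = 2 := by
    have h1 : ((H894.rank G Ω : ℤ) - 1) * Nat.card G ≤ 1 * Nat.card G := by linarith
    have h2 := le_of_mul_le_mul_right h1 hposZ
    have h3 : (H894.rank G Ω : ℤ) ≤ 2 := by linarith
    have h4 : H894.rank G Ω ≤ 2 := by exact_mod_cast h3
    omega
  have heq : Fintype.card Ω * Nat.card {g : G // ∀ ω : Ω, g • ω ≠ ω} = Nat.card G := by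
    apply le_antisymm hle'
    have h1 : (Nat.card G : ℤ) ≤ Fintype.card Ω * Nat.card {g : G // ∀ ω : Ω, g • ω ≠ ω} := by
      rw [hr] at hle; push_cast at hle; linarith
    exact_mod_cast h1
  have hfix := H894.fix_of_eq (G := G) (Ω := Ω) htr (by
    rw [hnc, hr]; push_cast; linarith)
  have hone : ∀ g : G, Nat.card (MulAction.fixedBy Ω g) = Nat.card Ω → g = 1 := by
    intro g hg
    have h1 : MulAction.fixedBy Ω g = Set.univ := by
      apply Set.eq_of_subset_of_ncard_le (Set.subset_univ _) _ Set.finite_univ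
      rw [Set.ncard_univ, ← hg]; rfl
    apply FaithfulSMul.eq_of_smul_eq_smul (α := Ω)
    intro ω
    have h2 : ω ∈ MulAction.fixedBy Ω g := h1 ▸ Set.mem_univ ω
    rw [one_smul]; exact h2
  have hfix1 : ∀ g : G, g ≠ 1 →
      Nat.card (MulAction.fixedBy Ω g) = 0 ∨ Nat.card (MulAction.fixedBy Ω g) = 1 := by
    intro g hg
    rcases hfix g with h | h | h
    · exact Or.inl h
    · exact Or.inr h
    · exact absurd (hone g h) hg
  have hfixone : Nat.card (MulAction.fixedBy Ω (1 : G)) = Fintype.card Ω := by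
    rw [← hnc]
    apply Nat.card_congr
    exact Equiv.subtypeUnivEquiv (fun ω => one_smul G ω)
  have hcard : Nat.card G = Fintype.card Ω * (Fintype.card Ω - 1) := by
    have h1 := H894.sum_fix (G := G) (Ω := Ω) htr
    have h2 := H894.sum_fix_sq (G := G) (Ω := Ω)
    rw [← Finset.add_sum_erase Finset.univ _ (Finset.mem_univ (1 : G)), hfixone] at h1 h2
    have h3 : ∑ g ∈ Finset.univ.erase (1 : G), Nat.card (MulAction.fixedBy Ω g) ^ 2
        = ∑ g ∈ Finset.univ.erase (1 : G), Nat.card (MulAction.fixedBy Ω g) := by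
      refine Finset.sum_congr rfl fun g hg => ?_
      rcases hfix1 g (Finset.ne_of_mem_erase hg) with h | h <;> rw [h] <;> norm_num
    rw [h3, hr] at h2
    obtain ⟨k, hk⟩ : ∃ k, Fintype.card Ω = k + 1 := ⟨Fintype.card Ω - 1, by omega⟩
    rw [hk] at h1 h2 ⊢
    rw [Nat.add_sub_cancel]
    nlinarith
  refine ⟨⟨htr, ?_, fun g hg => ?_⟩, hcard, heq⟩
  · obtain ⟨ω⟩ := hne
    have h1 := Subgroup.card_mul_index (MulAction.stabilizer G ω)
    rw [MulAction.index_stabilizer_of_transitive G ω, hnc, hcard, mul_comm] at h1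
    have h2 : Nat.card (MulAction.stabilizer G ω) = Fintype.card Ω - 1 :=
      Nat.eq_of_mul_eq_mul_left (by omega) h1
    have h3 : 1 < Nat.card (MulAction.stabilizer G ω) := by omega
    have h4 : Nontrivial (MulAction.stabilizer G ω) := Finite.one_lt_card_iff_nontrivial.1 h3
    obtain ⟨g, hg⟩ := exists_ne (1 : MulAction.stabilizer G ω)
    exact ⟨g, fun h => hg (Subtype.ext h), ω, g.2⟩
  · rcases hfix1 g hg with h | h <;> rw [h]
    exact Nat.zero_le _

end Cfsg.Agent.S5729
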