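import Cfsg.Statements.S5730
import Cfsg.Agent.H895.TwoOdd

set_option autoImplicit false
open Cfsg

namespace Cfsg.Agent.S5730

open MulAction Finset
open Cfsg.Agent.H895

/-- Let a finite group G act faithfully and transitively on a set with n ≥ 7 points. Then either G is a Frobenius permutation group (Frobenius as a permutation group: transitive, some non-identity element fixes a point, and no non-identity element fixes two points) of order n(n − 1)/a with a ∈ {1, 2}, in which case exactly a|G|/n of its elements are derangements, or the number of derangements is at least 2|G|/n. (Equality does occur: PSL₃(2) acting on the 7 points of the Fano plane has exactly 2|G|/7 derangements.) -/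
theorem result {G Ω : Type*} [Group G] [Finite G] [MulAction G Ω] [FaithfulSMul G Ω] [Fintype Ω] (htr : MulAction.IsPretransitive G Ω) (hn : 7 ≤ Fintype.card Ω) :
    (∃ a : ℕ, (a = 1 ∨ a = 2) ∧ (MulAction.IsPretransitive G Ω ∧ (∃ g : G, g ≠ 1 ∧ ∃ ω : Ω, g • ω = ω) ∧ ∀ g : G, g ≠ 1 → Nat.card (MulAction.fixedBy Ω g) ≤ 1) ∧ a * Nat.card G = Fintype.card Ω * (Fintype.card Ω - 1) ∧ Fintype.card Ω * Nat.card {g : G // ∀ ω : Ω, g • ω ≠ ω} = a * Nat.card G) ∨
    2 * Nat.card G ≤ Fintype.card Ω * Nat.card {g : G // ∀ ω : Ω, g • ω ≠ ω} := by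
  classical
  have : Fintype G := Fintype.ofFinite G
  have hne : Nonempty Ω := Fintype.card_pos_iff.1 (by omega)
  have hcc := cameron_cohen (G := G) (Ω := Ω) htr
  rw [natCard_derange]
  set r := Nat.card (orbitRel.Quotient G (Ω × Ω)) with hr
  set d := (univ.filter (fun g : G => (fixF Ω g).card = 0)).card with hd
  set T : ℤ := ∑ g ∈ univ.filter (fun g : G => ¬ (fixF Ω g).card = 0),
        (((fixF Ω g).card : ℤ) - 1) * ((Fintype.card Ω : ℤ) - (fixF Ω g).card) with hT
  have hT0 : 0 ≤ T := by
    refine Finset.sum_nonneg fun g hg => ?_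
    rw [Finset.mem_filter] at hg
    have h1 := fixF_card_le (Ω := Ω) g
    refine mul_nonneg ?_ ?_
    · have : 1 ≤ (fixF Ω g).card := Nat.one_le_iff_ne_zero.2 hg.2
      have : (1 : ℤ) ≤ (fixF Ω g).card := by exact_mod_cast this
      linarith
    · have : ((fixF Ω g).card : ℤ) ≤ Fintype.card Ω := by exact_mod_cast h1
      linarith
  by_cases hr3 : 3 ≤ r
  · right
    have h1 : (2 : ℤ) ≤ (r : ℤ) - 1 := by
      have : (3 : ℤ) ≤ r := by exact_mod_cast hr3
      linarith
    have h2 : (0 : ℤ) ≤ Nat.card G := Nat.cast_nonneg _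
    have h3 : (2 : ℤ) * Nat.card G ≤ (Fintype.card Ω : ℤ) * d := by
      rw [hcc]; nlinarith
    exact_mod_cast h3
  -- 2-transitive
  have h2 : TwoT G Ω := by
    intro x y x' y' hxy hxy'
    by_contra hcon
    push Not at hcon
    apply hr3
    have hfin : Finite (orbitRel.Quotient G (Ω × Ω)) := inferInstance
    have : Fintype (orbitRel.Quotient G (Ω × Ω)) := Fintype.ofFinite _
    let q : Ω × Ω → orbitRel.Quotient G (Ω × Ω) := fun p => Quotient.mk'' p
    have hq : ∀ p p', q p = q p' → ∃ g : G, g • p' = p := fun p p' h => Quotient.exact' h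
    have e1 : q (x, x) ≠ q (x, y) := by
      intro h
      obtain ⟨g, hg⟩ := hq _ _ h
      have g1 := congrArg Prod.fst hg
      have g2 := congrArg Prod.snd hg
      simp only [Prod.smul_fst, Prod.smul_snd] at g1 g2
      exact hxy (MulAction.injective g (g1.trans g2.symm))
    have e2 : q (x, x) ≠ q (x', y') := by
      intro h
      obtain ⟨g, hg⟩ := hq _ _ h
      have g1 := congrArg Prod.fst hg
      have g2 := congrArg Prod.snd hg
      simp only [Prod.smul_fst, Prod.smul_snd] at g1 g2
      exact hxy' (MulAction.injective g (g1.trans g2.symm))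
    have e3 : q (x, y) ≠ q (x', y') := by
      intro h
      obtain ⟨g, hg⟩ := hq _ _ h.symm
      have g1 := congrArg Prod.fst hg
      have g2 := congrArg Prod.snd hg
      simp only [Prod.smul_fst, Prod.smul_snd] at g1 g2
      exact hcon g g1 g2
    rw [hr, Nat.card_eq_fintype_card]
    have h3 : ({q (x, x), q (x, y), q (x', y')} : Finset (orbitRel.Quotient G (Ω × Ω))).card = 3 :=
      Finset.card_eq_three.2 ⟨_, _, _, e1, e2, e3, rfl⟩
    rw [← h3]
    exact Finset.card_le_univ _
  -- two points
  obtain ⟨a, b, hab⟩ : ∃ a b : Ω, a ≠ b := by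
    have : 1 < Fintype.card Ω := by omega
    exact Fintype.one_lt_card_iff.1 this
  have hG := card_group h2 hab
  have hJpos := pst_card_pos (G := G) a b
  set n := Fintype.card Ω with hnd
  set J := (pst G a b).card with hJ
  have hGc : Nat.card G = (n * n - n) * J := by rw [Nat.card_eq_fintype_card]; exact hG
  have hnn : n ≤ n * n := Nat.le_mul_self n
  have hGQ : (Nat.card G : ℚ) = ((n : ℚ) ^ 2 - n) * J := by
    rw [hGc]; push_cast [Nat.cast_sub hnn]; ring
  -- `r = 2`
  have hsum1 : ∑ g : G, ((fixF Ω g).card : ℚ) = Nat.card G := by exact_mod_cast sum_fix htr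
  have hsum2 : ∑ g : G, ((fixF Ω g).card : ℚ) ^ 2 = r * Nat.card G := by
    exact_mod_cast sum_fix_sq G Ω
  have hGpos : (0 : ℚ) < Nat.card G := by exact_mod_cast Nat.card_pos
  have hr2 : (r : ℚ) = 2 := by
    have h1 := double_count h2 (fun _ => 1) (fun _ _ => rfl) hab
    simp only [mul_one] at h1
    rw [Finset.sum_sub_distrib, hsum1, hsum2, Finset.sum_const, nsmul_eq_mul, mul_one, ← hJ, ← hnd,
      ← hGQ] at h1
    have h3 : ((r : ℚ) - 2) * Nat.card G = 0 := by linarith
    rcases mul_eq_zero.1 h3 with h | h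
    · linarith
    · exact absurd h hGpos.ne'
  -- the weighted double count
  have hT2 : (T : ℚ) = ((n : ℚ) ^ 2 - n) * RR G a b := by
    have h1 := double_count h2 (fun g => (n : ℚ) / (fixF Ω g).card - 1)
      (fun g k => by rw [fixF_conj]) hab
    rw [RR, ← hnd, ← h1, hT, Int.cast_sum]
    rw [← Finset.sum_filter_add_sum_filter_not (Finset.univ : Finset G)
      (fun g => (fixF Ω g).card = 0)]
    rw [Finset.sum_eq_zero (s := univ.filter (fun g : G => (fixF Ω g).card = 0)), zero_add]
    · refine Finset.sum_congr rfl fun g hg => ?_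
      rw [Finset.mem_filter] at hg
      have h3 : ((fixF Ω g).card : ℚ) ≠ 0 := by exact_mod_cast hg.2
      push_cast
      field_simp
    · intro g hg
      rw [Finset.mem_filter] at hg
      rw [hg.2]
      simp
  have hccQ : (n : ℚ) * d = Nat.card G + T := by
    have h1 : ((n : ℤ) : ℚ) * ((d : ℤ) : ℚ) = (((r : ℤ) : ℚ) - 1) * ((Nat.card G : ℤ) : ℚ) + T := by
      exact_mod_cast hcc
    have h3 : (((r : ℤ) : ℚ)) = 2 := by exact_mod_cast hr2
    rw [h3] at h1
    have h4 : (n : ℚ) * d = ((n : ℤ) : ℚ) * ((d : ℤ) : ℚ) := by push_cast; rfl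
    rw [h4, h1]
    push_cast
    ring
  rcases Nat.lt_or_ge J 2 with hJ1 | hJ2
  · -- sharply 2-transitive
    left
    have hJ1' : J = 1 := by omega
    have hp1 : pst G a b = {1} := by
      obtain ⟨s, hs⟩ := Finset.card_eq_one.1 hJ1'
      have := one_mem_pst (G := G) a b
      rw [hs, Finset.mem_singleton] at this
      rw [hs, this]
    have hstab : ∀ g : G, ∀ x y : Ω, x ≠ y → g • x = x → g • y = y → g = 1 := by
      intro g x y hxy hx hy
      obtain ⟨k, hk1, hk2⟩ := h2 a b x y hab hxy
      have h3 := conj_mem_pst hk1 hk2 (mem_pst.2 ⟨hx, hy⟩)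
      rw [hp1, Finset.mem_singleton] at h3
      have : g = k * (k⁻¹ * g * k) * k⁻¹ := by group
      rw [this, h3]; group
    refine ⟨1, Or.inl rfl, ⟨htr, ?_, ?_⟩, ?_, ?_⟩
    · -- a non-identity element fixing a point
      obtain ⟨c, hc⟩ : ∃ c, c ∉ ({a, b} : Finset Ω) := by
        by_contra hcon
        push Not at hcon
        have h4 : ({a, b} : Finset Ω) = univ := Finset.eq_univ_iff_forall.2 hcon
        have h5 := Finset.card_pair hab
        rw [h4, Finset.card_univ] at h5
        omega
      simp only [Finset.mem_insert, Finset.mem_singleton, not_or] at hc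
      obtain ⟨k, hk1, hk2⟩ := h2 a b a c hab (Ne.symm hc.1)
      refine ⟨k, ?_, a, hk1⟩
      rintro rfl
      rw [one_smul] at hk2
      exact hc.2 hk2.symm
    · intro g hg
      rw [natCard_fixedBy, Finset.card_le_one]
      intro x hx y hy
      by_contra hxy
      exact hg (hstab g x y hxy (mem_fixF.1 hx) (mem_fixF.1 hy))
    · rw [one_mul, hGc, hJ1', mul_one, Nat.mul_sub, mul_one]
    · rw [one_mul]
      have hRR : RR G a b = 0 := by
        rw [RR, hp1, Finset.sum_singleton, fixF_one, Finset.card_univ, div_self, sub_self]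
        exact_mod_cast (by omega : n ≠ 0)
      rw [hRR, mul_zero] at hT2
      rw [hT2, add_zero] at hccQ
      exact_mod_cast hccQ
  · right
    have hmain := main_ineq h2 hab hJ2 hn
    have hn0 : (0 : ℚ) ≤ (n : ℚ) ^ 2 - n := by
      have : (n : ℚ) ≤ n * n := by exact_mod_cast hnn
      linarith [this]
    have h3 : (Nat.card G : ℚ) ≤ T := by
      rw [hT2, hGQ]
      exact mul_le_mul_of_nonneg_left hmain hn0
    have h4 : (2 : ℚ) * Nat.card G ≤ n * d := by
      rw [hccQ]; linarith
    exact_mod_cast h4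

end Cfsg.Agent.S5730
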