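import Cfsg.Statements.S5735
import Cfsg.Agent.H896.Even
import Cfsg.Agent.StrongEmb.Strong

set_option autoImplicit false
open Cfsg

namespace Cfsg.Agent.S5735

open Cfsg.Agent.H896

/-- Let G be a finite simple group with exactly one conjugacy class of involutions, and let H be a proper subgroup of even order. Then the action of G on the cosets of H is binary if and only if one of the following holds: G ≅ SL₂(2^a) with a ≥ 2 and H is a Sylow 2-subgroup; G is a Suzuki group Sz(2^(2a+1)) with a ≥ 1 and H is the centre of a Sylow 2-subgroup; G ≅ PSU₃(2^a) with a ≥ 2 and H is the centre of a Sylow 2-subgroup. Here an action is binary (relational complexity 2) when, for every n ≥ 2 and all n-tuples I, J of points, if for every pair of positions some group element carries the corresponding pair of entries of I to those of J, then a single group element carries I to J. -/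
theorem result {G : Type*} [Group G] [Finite G] [IsSimpleGroup G] (hinv : ∃ s : G, orderOf s = 2)
    (hone : ∀ s t : G, orderOf s = 2 → orderOf t = 2 → IsConj s t)
    (H : Subgroup G) (hH : H ≠ ⊤) (heven : Even (Nat.card H)) :
    (∀ (n : ℕ) (I J : Fin n → G ⧸ H), 2 ≤ n →
        (∀ i j : Fin n, i ≠ j → ∃ g : G, g • I i = J i ∧ g • I j = J j) → ∃ g : G, ∀ i, g • I i = J i) ↔
      (((∃ (F : Type) (_ : Field F) (_ : Fintype F) (a : ℕ), 2 ≤ a ∧ Fintype.card F = 2 ^ a ∧ Nonempty (G ≃* Matrix.SpecialLinearGroup (Fin 2) F)) ∧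
          ∃ P : Sylow 2 G, H = P) ∨
        (Cfsg.Lie.IsoSuzuki G ∧ ∃ P : Sylow 2 G, H = (Subgroup.center (P : Subgroup G)).map (P : Subgroup G).subtype) ∨
        ((∃ (F : Type) (_ : Field F) (_ : Fintype F) (a : ℕ), 2 ≤ a ∧ Fintype.card F = (2 ^ a) ^ 2 ∧ Nonempty (G ≃* Cfsg.PSU 3 F (2 ^ a))) ∧
          ∃ P : Sylow 2 G, H = (Subgroup.center (P : Subgroup G)).map (P : Subgroup G).subtype)) := by
  show Binary H ↔ _
  constructor
  · intro hb
    obtain ⟨M, hM⟩ := exists_stronglyEmbedded hb hone hH heven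
    have hna : ∃ a b : G, a * b ≠ b * a := by
      by_contra hcon
      push Not at hcon
      -- `H` would be normal
      have hn : H.Normal := ⟨fun n hn g => by
        rw [hcon g n, mul_inv_cancel_right]; exact hn⟩
      rcases hn.eq_bot_or_eq_top with h | h
      · rw [h, Subgroup.card_bot] at heven
        exact (by decide : ¬ Even 1) heven
      · exact hH h
    rcases Cfsg.Agent.StrongEmb.Strong.result hna M hM with
      ⟨F, i1, i2, ⟨a, ha, hF⟩, ⟨e⟩⟩ | h | ⟨F, i1, i2, n, hn, hF, e⟩
    · left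
      have := charP_two_of_card_pow hF
      have e' : G ≃* Matrix.SpecialLinearGroup (Fin 2) F := e.trans pslEquiv
      exact ⟨⟨F, i1, i2, a, ha, hF, ⟨e'⟩⟩, (sl_binary_iff ⟨e'⟩ hH heven).1 hb⟩
    · right; left
      refine ⟨h, ?_⟩
      obtain ⟨F, i1, i2, m, hm, hF, e⟩ := h
      exact (sz_binary_iff hm hF e hH heven).1 hb
    · right; right
      exact ⟨⟨F, i1, i2, n, hn, hF, e⟩,
        (psu_binary_iff hn (by rw [Nat.card_eq_fintype_card, hF]) e hone hH heven).1 hb⟩
  · rintro (⟨⟨F, i1, i2, a, ha, hF, e⟩, h⟩ | ⟨⟨F, i1, i2, m, hm, hF, e⟩, h⟩ | ⟨⟨F, i1, i2, n, hn, hF, e⟩, h⟩)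
    · have := charP_two_of_card_pow hF
      exact (sl_binary_iff e hH heven).2 h
    · exact (sz_binary_iff hm hF e hH heven).2 h
    · exact (psu_binary_iff hn (by rw [Nat.card_eq_fintype_card, hF]) e hone hH heven).2 h

end Cfsg.Agent.S5735
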