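import Cfsg.Statements.S5736
import Cfsg.Agent.H896.PSLThree

set_option autoImplicit false
open Cfsg

namespace Cfsg.Agent.S5736

open Cfsg.Agent.H896

/-- Let F be a finite field with q ≥ 4 elements, q ≠ 5, let G = PSL₂(F) and let H be a proper subgroup of G. Then the action of G on the cosets of H is binary if and only if H is trivial, or q is a power of 2 and H is a Sylow 2-subgroup, or q = 2^a with a odd and H has order 3. Here an action is binary (relational complexity 2) when, for every n ≥ 2 and all n-tuples I, J of points, if for every pair of positions some group element carries the corresponding pair of entries of I to those of J, then a single group element carries I to J. -/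
theorem result {F : Type*} [Field F] [Fintype F] (h4 : 4 ≤ Fintype.card F) (h5 : Fintype.card F ≠ 5)
    (H : Subgroup (Matrix.ProjectiveSpecialLinearGroup (Fin 2) F)) (hH : H ≠ ⊤) :
    (∀ (n : ℕ) (I J : Fin n → Matrix.ProjectiveSpecialLinearGroup (Fin 2) F ⧸ H), 2 ≤ n →
        (∀ i j : Fin n, i ≠ j → ∃ g : Matrix.ProjectiveSpecialLinearGroup (Fin 2) F, g • I i = J i ∧ g • I j = J j) → ∃ g : Matrix.ProjectiveSpecialLinearGroup (Fin 2) F, ∀ i, g • I i = J i) ↔
      (H = ⊥ ∨ ((∃ a : ℕ, Fintype.card F = 2 ^ a) ∧ ∃ P : Sylow 2 (Matrix.ProjectiveSpecialLinearGroup (Fin 2) F), H = P) ∨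
        ((∃ a : ℕ, Odd a ∧ Fintype.card F = 2 ^ a) ∧ Nat.card H = 3)) := by
  show Binary H ↔ _
  constructor
  · intro hb
    by_cases heven : Even (Nat.card H)
    · right; left
      rcases Nat.even_or_odd (Fintype.card F) with hF | hF
      · obtain ⟨p, hp⟩ := CharP.exists F
        obtain ⟨n, hpp, hn⟩ := FiniteField.card F p
        have h2 : p = 2 := by
          rw [hn] at hF
          exact (Nat.prime_dvd_prime_iff_eq Nat.prime_two hpp).1
            (Nat.prime_two.dvd_of_dvd_pow hF.two_dvd) |>.symm
        subst h2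
        exact ⟨⟨n, hn⟩, (sl_binary_iff ⟨pslEquiv⟩ hH heven).1 hb⟩
      · exfalso
        have h7 : 5 < Fintype.card F := by
          obtain ⟨k, hk⟩ := hF
          omega
        exact psl_even_false hF h7 hH heven hb
    · rw [Nat.not_even_iff_odd] at heven
      by_cases hbot : H = ⊥
      · exact Or.inl hbot
      · right; right
        exact PL.odd_main heven hbot hb
  · rintro (rfl | ⟨⟨a, ha⟩, P, rfl⟩ | ⟨⟨a, hodd, ha⟩, h3⟩)
    · exact binary_bot
    · have := charP_two_of_card_pow ha
      have : Fact (Nat.Prime 2) := ⟨Nat.prime_two⟩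
      refine (sl_binary_iff ⟨pslEquiv⟩ hH ?_).2 ⟨P, rfl⟩
      exact even_iff_two_dvd.2 (P.dvd_card_of_dvd_card PL.card_psl_even.two_dvd)
    · have := charP_two_of_card_pow ha
      rw [← binary_congr pslEquiv]
      apply PL.binary_three (PL.no_omega ha hodd)
      rw [card_map_equiv, h3]

end Cfsg.Agent.S5736
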