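import Cfsg.Statements.S5737
import Cfsg.Agent.H896.SzOdd

set_option autoImplicit false
open Cfsg

namespace Cfsg.Agent.S5737

open Cfsg.Agent.H896 Cfsg.Agent.LieRecognition.SzMatrix

/-- Let G = Sz(q) be a Suzuki group, q = 2^(2a+1) with a ≥ 1 (realised inside Sp₄ over the field with q elements), and let H be a proper subgroup of G. Then the action of G on the cosets of H is binary if and only if H is trivial or H is the centre of a Sylow 2-subgroup of G. Here an action is binary (relational complexity 2) when, for every n ≥ 2 and all n-tuples I, J of points, if for every pair of positions some group element carries the corresponding pair of entries of I to those of J, then a single group element carries I to J. -/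
theorem result {F : Type*} [Field F] [Fintype F] (a : ℕ) (ha : 1 ≤ a) (hF : Fintype.card F = 2 ^ (2 * a + 1))
    (H : Subgroup (Cfsg.Lie.Sz F (2 ^ (a + 1)))) (hH : H ≠ ⊤) :
    (∀ (n : ℕ) (I J : Fin n → (Cfsg.Lie.Sz F (2 ^ (a + 1))) ⧸ H), 2 ≤ n →
        (∀ i j : Fin n, i ≠ j → ∃ g : (Cfsg.Lie.Sz F (2 ^ (a + 1))), g • I i = J i ∧ g • I j = J j) → ∃ g : (Cfsg.Lie.Sz F (2 ^ (a + 1))), ∀ i, g • I i = J i) ↔
      (H = ⊥ ∨ ∃ P : Sylow 2 (Cfsg.Lie.Sz F (2 ^ (a + 1))), H = (Subgroup.center (P : Subgroup (Cfsg.Lie.Sz F (2 ^ (a + 1))))).map (P : Subgroup (Cfsg.Lie.Sz F (2 ^ (a + 1)))).subtype) := by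
  have hq : 8 ≤ Nat.card F := by
    rw [Nat.card_eq_fintype_card, hF]
    calc 8 = 2 ^ 3 := by norm_num
      _ ≤ 2 ^ (2 * a + 1) := Nat.pow_le_pow_right (by norm_num) (by omega)
  have hg := good hF
  show Binary H ↔ _
  constructor
  · intro hb
    by_cases heven : Even (Nat.card H)
    · right
      exact (SzG.binary_iff hg (by omega) hH heven).1 hb
    · left
      rw [Nat.not_even_iff_odd] at heven
      by_contra hne
      have hodd : ∀ h : ↥(Cfsg.Lie.Sz F (2 ^ (a + 1))), h ≠ 1 → Odd (orderOf h) → OddFact h :=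
        fun h h1 h2 => oddFact ha hF h1 h2
      refine SzG.odd_false hg (by omega) hodd ?_ heven hne hb
      intro K hK
      refine comm_of_oddFact hodd ?_ hK
      intro p hp hp2 P
      have : Fact p.Prime := ⟨hp⟩
      exact Cfsg.Agent.H67.SzOdd.sylow_cyclic ha hF hp2 P
  · rintro (rfl | ⟨P, rfl⟩)
    · exact binary_bot
    · have hf := SzG.frame hg
      have h1 := (hf.center_iff (SzG.Z_ne_bot hg) (SzG.mem_Z_iff hg (by omega)) _).1 ⟨P, rfl⟩
      obtain ⟨g, hg'⟩ := h1
      rw [hg']
      exact hf.binary_cj_Z g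

end Cfsg.Agent.S5737
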