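import Cfsg.Statements.S5738

set_option autoImplicit false
open Cfsg

namespace Cfsg.Agent.S5738

/-- Let F ⊆ K be finite fields with |F| = q and [K : F] = n ≥ 2, so |K| = q^n. Regard K as an n-dimensional F-vector space; the multiplications by non-zero elements of K form a cyclic subgroup of GL_F(K) of order q^n − 1 acting regularly on the non-zero vectors (a Singer group). Its normaliser in GL_F(K) has order n·(q^n − 1). -/
theorem result {F K : Type*} [Field F] [Fintype F] [Field K] [Fintype K] [Algebra F K] (n : ℕ) (hn : 2 ≤ n) (hdim : Module.finrank F K = n) :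
    Nat.card (Subgroup.normalizer (((Units.map ((Algebra.lmul F K : K →ₐ[F] Module.End F K) : K →* Module.End F K)).range : Subgroup (Module.End F K)ˣ) : Set (Module.End F K)ˣ)) = n * (Fintype.card K - 1) := by
  classical
  set u : Kˣ →* (Module.End F K)ˣ :=
    Units.map ((Algebra.lmul F K : K →ₐ[F] Module.End F K) : K →* Module.End F K) with hu
  have hud : FiniteDimensional F K := inferInstance
  have hval : ∀ (a : Kˣ) (x : K), ((u a : (Module.End F K)ˣ) : Module.End F K) x = a * x := by
    intro a x; rfl
  have huinj : Function.Injective u := by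
    intro a b hab
    have h1 : ((u a : (Module.End F K)ˣ) : Module.End F K) (1 : K) = ((u b : (Module.End F K)ˣ) : Module.End F K) (1 : K) := by
      rw [hab]
    apply Units.ext
    simpa [hval] using h1
  have hginv' : ∀ (g : (Module.End F K)ˣ) (x : K), ((g⁻¹ : (Module.End F K)ˣ) : Module.End F K) ((g : Module.End F K) x) = x := by
    intro g x
    have : ((g⁻¹ : (Module.End F K)ˣ) : Module.End F K) * (g : Module.End F K)  = 1 := by
      rw [← Units.val_mul]; simp
    exact congrArg (fun z : Module.End F K => z x) this
  -- build the map (b, σ) ↦ L_b ∘ σ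
  let mk : Kˣ × (K ≃ₐ[F] K) → (Module.End F K)ˣ := fun p =>
    u p.1 * ⟨(p.2.toLinearMap : Module.End F K), (p.2.symm.toLinearMap : Module.End F K),
      by ext x; simp, by ext x; simp⟩
  have hmk : ∀ (p : Kˣ × (K ≃ₐ[F] K)) (x : K), ((mk p : (Module.End F K)ˣ) : Module.End F K) x = p.1 * p.2 x := by
    intro p x; rfl
  have hmkinj : Function.Injective mk := by
    rintro ⟨a, σ⟩ ⟨b, τ⟩ hab
    have h1 : ∀ x : K, (a : K) * σ x = b * τ x := by
      intro x
      have := congrArg (fun z : (Module.End F K)ˣ => (z : Module.End F K) x) hab
      simpa [hmk] using this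
    have hab' : a = b := by
      apply Units.ext
      simpa using h1 1
    subst hab'
    have : σ = τ := by
      ext x
      exact mul_left_cancel₀ a.ne_zero (h1 x)
    rw [this]
  have hrange : ∀ g : (Module.End F K)ˣ, g ∈ Subgroup.normalizer ((u.range : Subgroup (Module.End F K)ˣ) : Set (Module.End F K)ˣ) ↔ ∃ p, mk p = g := by
    intro g
    constructor
    · intro hg
      -- for each a there is σ a with g L_a = L_(σ a) g
      have key : ∀ a : K, ∃ b : K, ∀ x : K, (g : Module.End F K) (a * x) = b * (g : Module.End F K) x := by
        intro a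
        by_cases ha : a = 0
        · subst ha
          exact ⟨0, fun x => by simp⟩
        · have h1 : g * u (Units.mk0 a ha) * g⁻¹ ∈ u.range := by
            have := (Subgroup.mem_normalizer_iff.1 hg (u (Units.mk0 a ha))).1 ⟨_, rfl⟩
            exact this
          obtain ⟨b, hb⟩ := h1
          refine ⟨b, fun x => ?_⟩
          have h2 : u b * g = g * u (Units.mk0 a ha) := by rw [hb]; group
          have h3 := congrArg (fun z : (Module.End F K)ˣ => (z : Module.End F K) x) h2
          exact h3.symm
      have hg1 : (g : Module.End F K) 1 ≠ 0 := by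
        intro h
        have := hginv' g 1
        rw [h] at this
        simp at this
      choose σ hσ using key
      have hσu : ∀ a b : K, (∀ x : K, (g : Module.End F K) (a * x) = b * (g : Module.End F K) x) → b = σ a := by
        intro a b h
        have h1 := h 1
        rw [hσ a 1] at h1
        exact (mul_right_cancel₀ hg1 h1).symm
      have hσ0 : σ 0 = 0 := (hσu 0 0 (fun x => by simp)).symm
      have hσ1 : σ 1 = 1 := (hσu 1 1 (fun x => by simp)).symm
      have hσm : ∀ a b, σ (a * b) = σ a * σ b := by
        intro a b
        refine (hσu _ _ (fun x => ?_)).symm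
        rw [mul_assoc, hσ, hσ, mul_assoc]
      have hσa : ∀ a b, σ (a + b) = σ a + σ b := by
        intro a b
        refine (hσu _ _ (fun x => ?_)).symm
        rw [add_mul, map_add, hσ, hσ, add_mul]
      have hσc : ∀ c : F, σ (algebraMap F K c) = algebraMap F K c := by
        intro c
        refine (hσu _ _ (fun x => ?_)).symm
        rw [← Algebra.smul_def, map_smul, Algebra.smul_def]
      let s : K →ₐ[F] K :=
        { toFun := σ, map_one' := hσ1, map_mul' := hσm, map_zero' := hσ0, map_add' := hσa, commutes' := hσc }
      have hs : Function.Bijective s := by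
        have h1 : Function.Injective s := s.injective
        exact ⟨h1, (Finite.injective_iff_surjective.1 h1)⟩
      refine ⟨(Units.mk0 ((g : Module.End F K) 1) hg1, AlgEquiv.ofBijective s hs), ?_⟩
      apply Units.ext
      ext x
      rw [hmk]
      have h1 := hσ x 1
      rw [mul_one] at h1
      change (g : Module.End F K) 1 * σ x = _
      rw [h1, mul_comm]
    · rintro ⟨⟨b, σ⟩, rfl⟩
      -- mk (b, σ) normalises
      have hconj : ∀ (a : Kˣ), mk (b, σ) * u a * (mk (b, σ))⁻¹ = u (Units.map (σ : K →* K) a) := by
        intro a
        rw [mul_inv_eq_iff_eq_mul]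
        apply Units.ext
        ext x
        change ((mk (b, σ) : (Module.End F K)ˣ) : Module.End F K) (a * x) = σ a * ((mk (b, σ) : (Module.End F K)ˣ) : Module.End F K) x
        rw [hmk, hmk]
        simp only [map_mul]
        ring
      rw [Subgroup.mem_normalizer_iff]
      intro h
      constructor
      · rintro ⟨a, rfl⟩
        exact ⟨_, (hconj a).symm⟩
      · rintro ⟨a, ha⟩
        refine ⟨Units.map (σ.symm : K →* K) a, ?_⟩
        have h1 := hconj (Units.map (σ.symm : K →* K) a)
        have h2 : Units.map (σ : K →* K) (Units.map (σ.symm : K →* K) a) = a := by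
          apply Units.ext
          change σ (σ.symm (a : K)) = a
          simp
        rw [h2, ha] at h1
        have h3 := mul_right_cancel h1
        exact mul_left_cancel h3
  have hset : Nat.card (Subgroup.normalizer ((u.range : Subgroup (Module.End F K)ˣ) : Set (Module.End F K)ˣ)) = Nat.card (Kˣ × (K ≃ₐ[F] K)) := by
    symm
    apply Nat.card_congr
    refine Equiv.ofBijective (fun p => ⟨mk p, (hrange _).2 ⟨p, rfl⟩⟩) ⟨?_, ?_⟩
    · intro p q hpq
      exact hmkinj (congrArg Subtype.val hpq)
    · rintro ⟨g, hg⟩
      obtain ⟨p, hp⟩ := (hrange g).1 hg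
      exact ⟨p, Subtype.ext hp⟩
  rw [hset, Nat.card_prod, Nat.card_units, Nat.card_eq_fintype_card (α := K), IsGalois.card_aut_eq_finrank, hdim, mul_comm]

end Cfsg.Agent.S5738
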