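import Cfsg.Statements.S5739

set_option autoImplicit false
open Cfsg

namespace Cfsg.Agent.S5739

/-- Let F ⊆ K be finite fields with |F| = q and [K : F] = n ≥ 2, and let M ≤ GL_F(K) be the Singer group of multiplications by non-zero elements of K. If g ∈ GL_F(K) does not normalise M, then the order of M ∩ gMg⁻¹ divides q^r − 1 for some proper divisor r of n. In particular, when n is prime, that order divides q − 1. -/
theorem result {F K : Type*} [Field F] [Fintype F] [Field K] [Fintype K] [Algebra F K] (n : ℕ) (hn : 2 ≤ n) (hdim : Module.finrank F K = n)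
    (g : (Module.End F K)ˣ) (hg : ((Units.map ((Algebra.lmul F K : K →ₐ[F] Module.End F K) : K →* Module.End F K)).range).map (MulAut.conj g).toMonoidHom ≠ (Units.map ((Algebra.lmul F K : K →ₐ[F] Module.End F K) : K →* Module.End F K)).range) :
    ∃ r : ℕ, 1 ≤ r ∧ r ∣ n ∧ r < n ∧ Nat.card ↥(((Units.map ((Algebra.lmul F K : K →ₐ[F] Module.End F K) : K →* Module.End F K)).range).map (MulAut.conj g).toMonoidHom ⊓ (Units.map ((Algebra.lmul F K : K →ₐ[F] Module.End F K) : K →* Module.End F K)).range) ∣ Fintype.card F ^ r - 1 := by
  classical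
  set u : Kˣ →* (Module.End F K)ˣ :=
    Units.map ((Algebra.lmul F K : K →ₐ[F] Module.End F K) : K →* Module.End F K) with hu
  have huinj : Function.Injective u := by
    intro a b hab
    have h1 : ((u a : (Module.End F K)ˣ) : Module.End F K) (1 : K) = ((u b : (Module.End F K)ˣ) : Module.End F K) (1 : K) := by
      rw [hab]
    apply Units.ext
    simpa [hu] using h1
  have hud : FiniteDimensional F K := inferInstance
  -- the intermediate field
  let E : Subalgebra F K :=
    { carrier := {a : K | ∃ b : K, (Algebra.lmul F K a) = (g : Module.End F K) * (Algebra.lmul F K b) * ((g⁻¹ : (Module.End F K)ˣ) : Module.End F K)}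
      mul_mem' := by
        rintro a a' ⟨b, hb⟩ ⟨b', hb'⟩
        refine ⟨b * b', ?_⟩
        rw [map_mul, map_mul, hb, hb']
        have : ((g⁻¹ : (Module.End F K)ˣ) : Module.End F K) * (g : Module.End F K) = 1 := by
          rw [← Units.val_mul]; simp
        calc _ = (g : Module.End F K) * (Algebra.lmul F K b) * (((g⁻¹ : (Module.End F K)ˣ) : Module.End F K) * (g : Module.End F K)) * (Algebra.lmul F K b') * ((g⁻¹ : (Module.End F K)ˣ) : Module.End F K) := by
              simp only [mul_assoc]
          _ = _ := by rw [this]; simp only [mul_one, mul_assoc]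
      add_mem' := by
        rintro a a' ⟨b, hb⟩ ⟨b', hb'⟩
        refine ⟨b + b', ?_⟩
        rw [map_add, map_add, hb, hb', mul_add, add_mul]
      algebraMap_mem' := by
        intro c
        refine ⟨algebraMap F K c, ?_⟩
        have h1 : (Algebra.lmul F K) (algebraMap F K c) = algebraMap F (Module.End F K) c := AlgHom.commutes _ _
        rw [h1]
        have h2 : (g : Module.End F K) * algebraMap F (Module.End F K) c = algebraMap F (Module.End F K) c * (g : Module.End F K) :=
          (Algebra.commutes c (g : Module.End F K)).symm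
        rw [h2, mul_assoc, ← Units.val_mul]
        simp }
  have hE : ∀ a : K, a ∈ E ↔ ∃ b : K, (Algebra.lmul F K a) = (g : Module.End F K) * (Algebra.lmul F K b) * ((g⁻¹ : (Module.End F K)ˣ) : Module.End F K) := fun a => Iff.rfl
  -- E is a field
  have hEinv : ∀ x ∈ E, x⁻¹ ∈ E := by
    intro x hx
    exact Subalgebra.inv_mem_of_algebraic E (x := ⟨x, hx⟩) (Algebra.IsAlgebraic.isAlgebraic (R := F) x)
  let L : IntermediateField F K := { E with inv_mem' := hEinv }
  have hL : ∀ a : K, a ∈ L ↔ ∃ b : K, (Algebra.lmul F K a) = (g : Module.End F K) * (Algebra.lmul F K b) * ((g⁻¹ : (Module.End F K)ˣ) : Module.End F K) := fun a => Iff.rfl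
  -- the intersection is u (L^×)
  have hmem : ∀ a : Kˣ, (a : K) ∈ L ↔ u a ∈ u.range.map (MulAut.conj g).toMonoidHom := by
    intro a
    rw [hL]
    constructor
    · rintro ⟨b, hb⟩
      have hb0 : b ≠ 0 := by
        rintro rfl
        have : (Algebra.lmul F K (a : K)) = 0 := by rw [hb]; simp
        have h2 : (Algebra.lmul F K (a : K)) 1 = 0 := by rw [this]; simp
        simp at h2
      refine ⟨u (Units.mk0 b hb0), ⟨_, rfl⟩, ?_⟩
      apply Units.ext
      change (g : Module.End F K) * (Algebra.lmul F K b) * ((g⁻¹ : (Module.End F K)ˣ) : Module.End F K) = (Algebra.lmul F K (a : K))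
      exact hb.symm
    · rintro ⟨_, ⟨b, rfl⟩, hb⟩
      refine ⟨b, ?_⟩
      have := congrArg (fun z : (Module.End F K)ˣ => (z : Module.End F K)) hb
      exact this.symm
  refine ⟨Module.finrank F L, ?_, ?_, ?_, ?_⟩
  · exact Module.finrank_pos
  · rw [← hdim]
    exact ⟨Module.finrank L K, (Module.finrank_mul_finrank F L K).symm⟩
  · rw [← hdim]
    rcases lt_or_eq_of_le (Submodule.finrank_le (Subalgebra.toSubmodule L.toSubalgebra)) with h | h
    · exact h
    · exfalso
      apply hg
      have htop : L = ⊤ := by
        apply IntermediateField.eq_of_le_of_finrank_eq le_top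
        rw [IntermediateField.finrank_top']
        exact h
      have hle : u.range ≤ u.range.map (MulAut.conj g).toMonoidHom := by
        rintro _ ⟨a, rfl⟩
        rw [← hmem, htop]
        trivial
      have hcard : Nat.card (u.range.map (MulAut.conj g).toMonoidHom) = Nat.card u.range :=
        Nat.card_congr (Subgroup.equivMapOfInjective u.range (MulAut.conj g).toMonoidHom (MulAut.conj g).injective).symm.toEquiv
      have : Finite (u.range.map (MulAut.conj g).toMonoidHom) := by
        have : Finite (Module.End F K) := Module.finite_of_finite F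
        have : Finite (Module.End F K)ˣ := inferInstance
        infer_instance
      exact (Subgroup.eq_of_le_of_card_ge hle hcard.le).symm
  · have hcL : Nat.card L = Fintype.card F ^ Module.finrank F L := by
      rw [← Nat.card_eq_fintype_card, Module.natCard_eq_pow_finrank (K := F) (V := L)]
    have hcu : Nat.card Lˣ = Fintype.card F ^ Module.finrank F L - 1 := by
      rw [Nat.card_units, hcL]
    -- injection of intersection
    have : Nat.card ↥(u.range.map (MulAut.conj g).toMonoidHom ⊓ u.range) = Nat.card Lˣ := by
      symm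
      let f : Lˣ → ↥(u.range.map (MulAut.conj g).toMonoidHom ⊓ u.range) := fun a =>
        ⟨u (Units.map (algebraMap L K : L →* K) a), ⟨(hmem _).1 (by
          change ((a : L) : K) ∈ L
          exact (a : L).2), ⟨_, rfl⟩⟩⟩
      apply Nat.card_congr
      refine Equiv.ofBijective f ⟨?_, ?_⟩
      · intro a b hab
        have h1 : u (Units.map (algebraMap L K : L →* K) a) = u (Units.map (algebraMap L K : L →* K) b) := congrArg Subtype.val hab
        have h2 := huinj h1
        have h3 : ((a : L) : K) = ((b : L) : K) := congrArg (fun z : Kˣ => (z : K)) h2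
        exact Units.ext (Subtype.ext h3)
      · rintro ⟨x, hx1, ⟨a, rfl⟩⟩
        have ha : (a : K) ∈ L := (hmem a).2 hx1
        have ha0 : (⟨(a : K), ha⟩ : L) ≠ 0 := by
          intro h
          exact a.ne_zero (congrArg Subtype.val h)
        refine ⟨Units.mk0 ⟨(a : K), ha⟩ ha0, ?_⟩
        apply Subtype.ext
        change u _ = u a
        congr 1
        apply Units.ext
        rfl
    rw [this, hcu]

end Cfsg.Agent.S5739
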