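import Cfsg.Statements.S5751
import Cfsg.Agent.H899.ChevPar
import Cfsg.Agent.S1054

set_option autoImplicit false
open Cfsg

namespace Cfsg.Agent.S5751

open Cfsg.Lie Cfsg.Agent.H899.E8Tab

theorem inListE8 : chevE8 ∈ [chevG2, chevB2, chevD4, chevF4, chevE6, chevE7, chevE8] := by
  simp only [List.mem_cons, List.not_mem_nil, or_false, or_true]

theorem zmod2 : ∀ t : ZMod 2, t = 0 ∨ t = 1 := by decide

theorem lev_simple3 : 6 < lev (chevE8.simple 3) := by decide +kernel

theorem lev_239 : lev 239 = 12 := by decide +kernel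

/-- An extremal example for iterated cores of conjugate maximal subgroups: there exist a finite group G and two distinct conjugate maximal subgroups M₁, M₂ of G, with M₁ having trivial core in G, such that, if we define two descending sequences of subgroups by A₀ = M₁, B₀ = M₂ and, for every i, A_{i+1} = the core in M₁ of A_i ∩ B_i and B_{i+1} = the core in M₂ of A_i ∩ B_i (the core in M of a subgroup Y ≤ M is the largest normal subgroup of M contained in Y), the subgroup A₆ is trivial while A₅ is not (so the index 6 cannot be lowered to 5). (One example is a maximal parabolic subgroup of the Chevalley group of type E₈ over a finite field and a suitable conjugate of it.) -/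
theorem result :
    ∃ (G : Type) (_ : Group G) (_ : Finite G) (M₁ M₂ : Subgroup G) (g : G) (A B : ℕ → Subgroup G),
      IsCoatom M₁ ∧ M₂ = M₁.map (MulAut.conj g).toMonoidHom ∧ M₁ ≠ M₂ ∧ M₁.normalCore = ⊥ ∧ A 0 = M₁ ∧ B 0 = M₂ ∧
      (∀ i, A (i + 1) = ((A i ⊓ B i).subgroupOf M₁).normalCore.map M₁.subtype) ∧
      (∀ i, B (i + 1) = ((A i ⊓ B i).subgroupOf M₂).normalCore.map M₂.subtype) ∧ A 6 = ⊥ ∧ A 5 ≠ ⊥ := by
  haveI : Fact (Nat.Prime 2) := ⟨Nat.prime_two⟩
  obtain ⟨hs, -⟩ := Cfsg.Agent.S1054.result (F := ZMod 2) chevE8 (by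
    simp only [List.mem_cons, List.not_mem_nil, or_false, or_true])
  have hfin : Finite ↥(chevE8.group (ZMod 2)) := by
    haveI : Finite (GL chevE8.Idx (ZMod 2)) := inferInstance
    infer_instance
  exact ⟨↥(chevE8.group (ZMod 2)), inferInstance, hfin,
    Cfsg.Agent.H899.ChevPar.main inListE8 zmod2 tabE8 lev_simple3 lev_239 hs⟩

end Cfsg.Agent.S5751
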