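import Cfsg.Statements.S5763

set_option autoImplicit false
open Cfsg

namespace Cfsg.Agent.S5763

/-- The automorphism group of the standard binary tree on eight leaves. -/
def P0 : Subgroup (Equiv.Perm (Fin 8)) where
  carrier := {σ | ∀ i j : Fin 8, (i.val / 2 = j.val / 2 ↔ (σ i).val / 2 = (σ j).val / 2) ∧
    (i.val / 4 = j.val / 4 ↔ (σ i).val / 4 = (σ j).val / 4)}
  mul_mem' := by
    intro a b ha hb i j
    simp only [Equiv.Perm.coe_mul, Function.comp_apply]
    exact ⟨(hb i j).1.trans (ha (b i) (b j)).1, (hb i j).2.trans (ha (b i) (b j)).2⟩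
  one_mem' := by
    intro i j
    simp
  inv_mem' := by
    intro a ha i j
    have h := ha (a⁻¹ i) (a⁻¹ j)
    have e : ∀ k, a (a⁻¹ k) = k := fun k => a.apply_symm_apply k
    rw [e, e] at h
    exact ⟨h.1.symm, h.2.symm⟩

theorem mem_P0 (σ : Equiv.Perm (Fin 8)) : σ ∈ P0 ↔ ∀ i j : Fin 8,
    (i.val / 2 = j.val / 2 ↔ (σ i).val / 2 = (σ j).val / 2) ∧
    (i.val / 4 = j.val / 4 ↔ (σ i).val / 4 = (σ j).val / 4) := Iff.rfl

theorem pow_eight (σ : Equiv.Perm (Fin 8)) (h : σ ∈ P0) : σ ^ 8 = 1 := by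
  rw [mem_P0] at h
  have h1 : ∀ i, (σ (σ i)).val / 4 = i.val / 4 := by
    intro i
    have h2 := (h i (σ i)).2
    have := i.isLt
    have := (σ i).isLt
    have := (σ (σ i)).isLt
    omega
  have h2 : ∀ i, (σ (σ (σ (σ i)))).val / 2 = i.val / 2 := by
    intro i
    have a1 := (h i (σ (σ i))).1
    have a2 := (h (σ i) (σ (σ (σ i)))).1
    have a3 := h1 i
    have a4 := h1 (σ (σ i))
    have := i.isLt
    have := (σ (σ i)).isLt
    have := (σ (σ (σ (σ i)))).isLt
    omega
  have h3 : ∀ i, (σ (σ (σ (σ (σ (σ (σ (σ i)))))))) = i := by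
    intro i
    have a1 := h2 i
    have a2 := h2 (σ (σ (σ (σ i))))
    by_cases hi : σ (σ (σ (σ i))) = i
    · rw [hi, hi]
    · have a3 : σ (σ (σ (σ (σ (σ (σ (σ i))))))) ≠ σ (σ (σ (σ i))) := by
        intro hc
        apply hi
        exact σ.injective (σ.injective (σ.injective (σ.injective hc)))
      apply Fin.ext
      have a4 : (σ (σ (σ (σ i)))).val ≠ i.val := fun hc => hi (Fin.ext hc)
      have a5 : (σ (σ (σ (σ (σ (σ (σ (σ i)))))))).val ≠ (σ (σ (σ (σ i)))).val :=
        fun hc => a3 (Fin.ext hc)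
      omega
  ext i
  have : (σ ^ 8) i = σ (σ (σ (σ (σ (σ (σ (σ i))))))) := by
    simp [pow_succ]
  rw [this, h3]
  rfl

theorem isPGroup_P0 : IsPGroup 2 P0 := by
  intro g
  refine ⟨3, ?_⟩
  apply Subtype.ext
  simpa using pow_eight g.1 g.2

/-- the normal subgroup `2 ≀ V₄` of the centraliser of a fixed-point-free involution `g` -/
def N (g σ : Fin 8 → Fin 8) : Prop :=
  (∀ i, σ (g i) = g (σ i)) ∧ (∀ i, σ (σ i) = i ∨ σ (σ i) = g i) ∧
    ((∀ i, σ i = i ∨ σ i = g i) ∨ (∀ i, σ i ≠ i ∧ σ i ≠ g i))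

instance instDecN (g σ : Fin 8 → Fin 8) : Decidable (N g σ) := by unfold N; infer_instance

def z0 : Fin 8 → Fin 8 := ![1, 0, 3, 2, 5, 4, 7, 6]

/-- candidate common elements -/
def L : List (Fin 8 → Fin 8) :=
  [![1,0,2,3,4,5,6,7], ![0,1,3,2,4,5,6,7], ![0,1,2,3,5,4,6,7], ![0,1,2,3,4,5,7,6],
   ![1,0,3,2,5,4,7,6],
   -- A ↔ B, C ↔ D
   ![2,3,0,1,6,7,4,5], ![3,2,1,0,6,7,4,5], ![2,3,0,1,7,6,5,4], ![3,2,1,0,7,6,5,4],
   -- A ↔ C, B ↔ D
   ![4,5,6,7,0,1,2,3], ![5,4,6,7,1,0,2,3], ![4,5,7,6,0,1,3,2], ![5,4,7,6,1,0,3,2],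
   -- A ↔ D, B ↔ C
   ![6,7,4,5,2,3,0,1], ![7,6,4,5,2,3,1,0], ![6,7,5,4,3,2,0,1], ![7,6,5,4,3,2,1,0]]

/-- Boolean check of the properties of a candidate -/
def chkσ (σ : Fin 8 → Fin 8) : Bool :=
  (List.finRange 8).all (fun i => (σ (σ i) == i)) && (List.finRange 8).any (fun i => σ i != i) &&
  (List.finRange 8).all (fun i => (List.finRange 8).all (fun j =>
    ((i.val / 2 == j.val / 2) == ((σ i).val / 2 == (σ j).val / 2)) &&
    ((i.val / 4 == j.val / 4) == ((σ i).val / 4 == (σ j).val / 4))))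

theorem L_chk : L.all chkσ = true := by decide +kernel

theorem L_chk' (σ : Fin 8 → Fin 8) (h : σ ∈ L) : chkσ σ = true :=
  (List.all_eq_true.1 L_chk) σ h

theorem L_inv : ∀ σ ∈ L, ∀ i, σ (σ i) = i := by
  intro σ h i
  have h1 := L_chk' σ h
  simp only [chkσ, Bool.and_eq_true, List.all_eq_true, beq_iff_eq] at h1
  exact h1.1.1 i (List.mem_finRange _)

theorem L_ne : ∀ σ ∈ L, ∃ i, σ i ≠ i := by
  intro σ h
  have h1 := L_chk' σ h
  simp only [chkσ, Bool.and_eq_true, List.any_eq_true, bne_iff_ne] at h1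
  obtain ⟨i, _, hi⟩ := h1.1.2
  exact ⟨i, hi⟩

theorem L_tree : ∀ σ ∈ L, ∀ i j : Fin 8,
    (i.val / 2 = j.val / 2 ↔ (σ i).val / 2 = (σ j).val / 2) ∧
    (i.val / 4 = j.val / 4 ↔ (σ i).val / 4 = (σ j).val / 4) := by
  intro σ h i j
  have h1 := L_chk' σ h
  simp only [chkσ, Bool.and_eq_true, List.all_eq_true, beq_iff_eq] at h1
  have h2 := h1.2 i (List.mem_finRange _) j (List.mem_finRange _)
  constructor
  · have := h2.1
    rw [Bool.eq_iff_iff] at this
    simpa using this
  · have := h2.2
    rw [Bool.eq_iff_iff] at this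
    simpa using this

/-- the value `v` may be appended to the partial list `l` of values of a
fixed-point-free involution -/
def okv (l : List (Fin 8)) (v : Fin 8) : Bool :=
  (v.val != l.length) && (List.finRange 8).all (fun j =>
    !(decide (j.val < l.length)) ||
      ((((l.getD j.val 0).val == l.length) == (v.val == j.val)) && ((l.getD j.val 0) != v)))

/-- pruned enumeration of the fixed-point-free involutions -/
def go : ℕ → List (Fin 8) → Bool
  | 0, l => L.any (fun σ => decide (N (fun i => l.getD i.val 0) σ))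
  | n + 1, l => (List.finRange 8).all (fun v => !(okv l v) || go n (l ++ [v]))

theorem go_true : go 8 [] = true := by decide +kernel

theorem go_sound (g : Fin 8 → Fin 8) (hg : ∀ i, g (g i) = i) (hf : ∀ i, g i ≠ i) :
    ∀ n k : ℕ, n + k = 8 → go n (((List.finRange 8).take k).map g) = true → ∃ σ ∈ L, N g σ := by
  intro n
  induction n with
  | zero =>
    intro k hk h
    obtain rfl : k = 8 := by omega
    simp only [go, List.any_eq_true, decide_eq_true_eq] at h
    obtain ⟨σ, hσ, h⟩ := h
    refine ⟨σ, hσ, ?_⟩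
    have e : (fun i : Fin 8 => (((List.finRange 8).take 8).map g).getD i.val 0) = g := by
      funext i
      rw [List.take_of_length_le (by simp)]
      simp [List.getD]
    rwa [e] at h
  | succ n ih =>
    intro k hk h
    have hk8 : k < 8 := by omega
    apply ih (k + 1) (by omega)
    simp only [go, List.all_eq_true] at h
    have h1 := h (g ⟨k, hk8⟩) (List.mem_finRange _)
    have hlen : (((List.finRange 8).take k).map g).length = k := by
      simp; omega
    have hget : ∀ j : Fin 8, j.val < k → (((List.finRange 8).take k).map g).getD j.val 0 = g j := by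
      intro j hj
      simp [List.getD, hj]
    have hok : okv (((List.finRange 8).take k).map g) (g ⟨k, hk8⟩) = true := by
      unfold okv
      rw [hlen]
      simp only [Bool.and_eq_true, List.all_eq_true, bne_iff_ne, ne_eq, Bool.or_eq_true,
        Bool.not_eq_true', decide_eq_false_iff_not, beq_iff_eq]
      constructor
      · intro hc
        exact hf ⟨k, hk8⟩ (Fin.ext hc)
      · intro j _
        by_cases hj : j.val < k
        · right
          rw [hget j hj]
          constructor
          · rw [Bool.eq_iff_iff]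
            simp only [beq_iff_eq]
            constructor
            · intro h
              have : g j = ⟨k, hk8⟩ := Fin.ext h
              rw [← this, hg]
            · intro h
              have : g ⟨k, hk8⟩ = j := Fin.ext h
              rw [← this, hg]
          · intro hc
            have : j = ⟨k, hk8⟩ := by rw [← hg j, hc, hg]
            rw [this] at hj
            simp at hj
        · left; exact hj
    rw [hok] at h1
    simp only [Bool.not_true, Bool.false_or] at h1
    have e : ((List.finRange 8).take (k + 1)).map g =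
        ((List.finRange 8).take k).map g ++ [g ⟨k, hk8⟩] := by
      rw [List.take_add_one]
      simp [hk8]
    rw [e]
    exact h1

theorem main (g : Fin 8 → Fin 8) (hg : ∀ i, g (g i) = i) (hf : ∀ i, g i ≠ i) :
    ∃ σ ∈ L, N g σ :=
  go_sound g hg hf 8 0 (by norm_num) (by simpa using go_true)

theorem pairs_dec : ∀ p : Fin 4 → Fin 4, (∀ i, p (p i) = i) →
    ((∀ i, p i = i) ∨ (∀ i, p i ≠ i)) → ∀ i j, (i.val / 2 = j.val / 2 ↔ (p i).val / 2 = (p j).val / 2) := by
  decide +kernel

theorem N_z0 (σ : Equiv.Perm (Fin 8)) (h : N z0 σ) : σ ∈ P0 := by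
  obtain ⟨h1, h2, h3⟩ := h
  have z0v : ∀ i : Fin 8, (z0 i).val / 2 = i.val / 2 := by decide
  have z0w : ∀ i j : Fin 8, i.val / 2 = j.val / 2 → j = i ∨ j = z0 i := by decide
  have hp : ∀ i j : Fin 8, i.val / 2 = j.val / 2 → (σ i).val / 2 = (σ j).val / 2 := by
    intro i j hij
    rcases z0w i j hij with rfl | rfl
    · rfl
    · rw [h1, z0v]
  -- induced map on pairs
  let p : Fin 4 → Fin 4 := fun k => ⟨(σ ⟨2 * k.val, by omega⟩).val / 2, by
    have := (σ ⟨2 * k.val, by omega⟩).isLt; omega⟩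
  have hpk : ∀ i : Fin 8, ((p ⟨i.val / 2, by omega⟩).val) = (σ i).val / 2 := by
    intro i
    exact hp _ _ (by simp)
  have hpp : ∀ i, p (p i) = i := by
    intro i
    have e1 := hpk (σ ⟨2 * i.val, by omega⟩)
    have e2 := h2 ⟨2 * i.val, by omega⟩
    apply Fin.ext
    have e3 : (p (p i)).val = (σ (σ ⟨2 * i.val, by omega⟩)).val / 2 := e1
    rw [e3]
    rcases e2 with e | e
    · rw [e]; simp
    · rw [e, z0v]; simp
  have hfix : (∀ i, p i = i) ∨ (∀ i, p i ≠ i) := by
    rcases h3 with h | h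
    · left
      intro i
      apply Fin.ext
      change (σ ⟨2 * i.val, by omega⟩).val / 2 = i.val
      rcases h ⟨2 * i.val, by omega⟩ with e | e
      · rw [e]; simp
      · rw [e, z0v]; simp
    · right
      intro i hi
      have e := h ⟨2 * i.val, by omega⟩
      have hi' : (σ ⟨2 * i.val, by omega⟩).val / 2 = i.val := congrArg Fin.val hi
      rcases z0w ⟨2 * i.val, by omega⟩ (σ ⟨2 * i.val, by omega⟩) (by rw [hi']; simp) with e' | e'
      · exact e.1 e'
      · exact e.2 e'
  have hd := pairs_dec p hpp hfix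
  have hpinj : Function.Injective p := by
    intro a b hab
    rw [← hpp a, hab, hpp]
  rw [mem_P0]
  intro i j
  constructor
  · constructor
    · exact hp i j
    · intro h
      rw [← hpk i, ← hpk j] at h
      have := hpinj (Fin.ext h)
      simpa using this
  · have := hd ⟨i.val / 2, by omega⟩ ⟨j.val / 2, by omega⟩
    rw [hpk, hpk] at this
    simp only [Nat.div_div_eq_div_mul] at this
    simpa using this

/-- the fixed-point-free involution `z0` as a permutation -/
def Z : Equiv.Perm (Fin 8) where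
  toFun := z0
  invFun := z0
  left_inv := by decide
  right_inv := by decide

theorem exists_common (x : Equiv.Perm (Fin 8)) :
    ∃ σ : Equiv.Perm (Fin 8), σ ≠ 1 ∧ σ ∈ P0 ∧ x⁻¹ * σ * x ∈ P0 := by
  have einv : ∀ k, x⁻¹ (x k) = k := fun k => x.symm_apply_apply k
  have eapp : ∀ k, x (x⁻¹ k) = k := fun k => x.apply_symm_apply k
  obtain ⟨τ, hτL, hτN⟩ := main (fun i => x (z0 (x⁻¹ i)))
    (by intro i
        have : ∀ j, z0 (z0 j) = j := by decide
        rw [einv, this]; simp)
    (by intro i h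
        have h' : z0 (x⁻¹ i) = x⁻¹ i := by
          apply x.injective; rw [eapp]; exact h
        have : ∀ j, z0 j ≠ j := by decide
        exact this _ h')
  let σ : Equiv.Perm (Fin 8) := ⟨τ, τ, L_inv τ hτL, L_inv τ hτL⟩
  have hσ : ∀ i, σ i = τ i := fun i => rfl
  refine ⟨σ, ?_, ?_, ?_⟩
  · intro h
    obtain ⟨i, hi⟩ := L_ne τ hτL
    apply hi
    rw [← hσ, h]; rfl
  · rw [mem_P0]
    exact L_tree τ hτL
  · apply N_z0
    obtain ⟨h1, h2, h3⟩ := hτN
    refine ⟨?_, ?_, ?_⟩
    · intro i
      simp only [Equiv.Perm.coe_mul, Function.comp_apply, hσ]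
      have := h1 (x i)
      simp only [einv] at this
      rw [this]
      simp
    · intro i
      simp only [Equiv.Perm.coe_mul, Function.comp_apply, hσ, eapp]
      rcases h2 (x i) with h | h
      · left; rw [h]; simp
      · right; rw [h]; simp
    · rcases h3 with h | h
      · left
        intro i
        simp only [Equiv.Perm.coe_mul, Function.comp_apply, hσ]
        rcases h (x i) with h | h
        · left; rw [h]; simp
        · right; rw [h]; simp
      · right
        intro i
        simp only [Equiv.Perm.coe_mul, Function.comp_apply, hσ]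
        have := h (x i)
        constructor
        · intro hc
          apply this.1
          rw [Equiv.Perm.inv_eq_iff_eq] at hc
          exact hc
        · intro hc
          apply this.2
          rw [Equiv.Perm.inv_eq_iff_eq] at hc
          rw [hc]; simp

/-- In the symmetric group on 8 letters any two Sylow 2-subgroups have non-trivial intersection: for a Sylow 2-subgroup H and every element x, H ∩ xHx⁻¹ ≠ 1. -/
theorem result (H : Sylow 2 (Equiv.Perm (Fin 8))) (x : Equiv.Perm (Fin 8)) :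
    (H : Subgroup (Equiv.Perm (Fin 8))) ⊓ (H : Subgroup (Equiv.Perm (Fin 8))).map (MulAut.conj x).toMonoidHom ≠ ⊥ := by
  obtain ⟨Q, hQ⟩ := isPGroup_P0.exists_le_sylow
  obtain ⟨y, hy⟩ := MulAction.exists_smul_eq (Equiv.Perm (Fin 8)) H Q
  -- Q = y H y⁻¹
  have hQm : ∀ g, g ∈ P0 → y⁻¹ * g * y ∈ (H : Subgroup (Equiv.Perm (Fin 8))) := by
    intro g hg
    have h1 : g ∈ (Q : Subgroup (Equiv.Perm (Fin 8))) := hQ hg
    rw [← hy, Sylow.coe_subgroup_smul] at h1
    rw [Subgroup.mem_pointwise_smul_iff_inv_smul_mem] at h1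
    simpa [MulAut.smul_def, ← map_inv, MulAut.conj_apply] using h1
  obtain ⟨σ, hσ1, hσ2, hσ3⟩ := exists_common (y * x * y⁻¹)
  intro hbot
  have hmem : y⁻¹ * σ * y ∈ ((H : Subgroup (Equiv.Perm (Fin 8))) ⊓
      (H : Subgroup (Equiv.Perm (Fin 8))).map (MulAut.conj x).toMonoidHom) := by
    refine Subgroup.mem_inf.2 ⟨hQm _ hσ2, ?_⟩
    rw [Subgroup.mem_map]
    refine ⟨_, hQm _ hσ3, ?_⟩
    simp only [MulEquiv.coe_toMonoidHom, MulAut.conj_apply]
    group
  rw [hbot, Subgroup.mem_bot] at hmem
  apply hσ1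
  have : σ = y * (y⁻¹ * σ * y) * y⁻¹ := by group
  rw [this, hmem]; simp

end Cfsg.Agent.S5763
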