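import Cfsg.Statements.S5769
import Cfsg.Agent.H904.E7Main
import Cfsg.Agent.H904.Ord65

set_option autoImplicit false
open Cfsg

namespace Cfsg.Agent.S5769

theorem no_iso {X : Type*} [Group X] (hX : ∃ x : X, orderOf x = 65)
    (H : Subgroup ↥(Cfsg.Lie.chevE7.group (ZMod 2))) : IsEmpty (↥H ≃* X) := by
  refine ⟨fun e => ?_⟩
  obtain ⟨x, hx⟩ := hX
  apply Cfsg.Agent.H904.E7Main.orderOf_ne ((e.symm x : ↥H) : ↥(Cfsg.Lie.chevE7.group (ZMod 2)))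
  rw [Subgroup.orderOf_coe, MulEquiv.orderOf_eq, hx]

/-- The Chevalley group of type E₇ over the field with two elements (generated by its root elements in the adjoint representation) has no subgroup isomorphic to any of PSL₂(64), PSp₄(8), PSL₄(8), PSU₄(8) or PSp₆(8). Here F₈ and F₆₄ denote fields with 8 and 64 elements. -/
theorem result {F₈ F₆₄ : Type*} [Field F₈] [Fintype F₈] (h8 : Fintype.card F₈ = 8) [Field F₆₄] [Fintype F₆₄] (h64 : Fintype.card F₆₄ = 64)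
    (H : Subgroup ↥(Cfsg.Lie.chevE7.group (ZMod 2))) :
    IsEmpty (↥H ≃* Matrix.ProjectiveSpecialLinearGroup (Fin 2) F₆₄) ∧ IsEmpty (↥H ≃* Cfsg.PSp 2 F₈) ∧
    IsEmpty (↥H ≃* Matrix.ProjectiveSpecialLinearGroup (Fin 4) F₈) ∧ IsEmpty (↥H ≃* Cfsg.PSU 4 F₆₄ 8) ∧ IsEmpty (↥H ≃* Cfsg.PSp 3 F₈) :=
  ⟨no_iso (Cfsg.Agent.H904.Ord65.exists_psl_two h64) H, no_iso (Cfsg.Agent.H904.Ord65.exists_psp h8) H,
    no_iso (Cfsg.Agent.H904.Ord65.exists_psl h8) H, no_iso (Cfsg.Agent.H904.Ord65.exists_psu h8 h64) H,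
    no_iso (Cfsg.Agent.H904.Ord65.exists_psp_three h8) H⟩

end Cfsg.Agent.S5769
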