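import Cfsg.Statements.S5770
import Cfsg.Agent.H943.E7V.AdmMain
import Cfsg.Agent.H102.E7V.Psl34
import Cfsg.Agent.H102.E7V.Sz
import Cfsg.Agent.H783.U34
import Cfsg.Agent.H62.GTwoEmb

set_option autoImplicit false
open Cfsg

namespace Cfsg.Agent.S5770

open Cfsg.Agent.H943.E7V in
/-- if the generalized Fitting subgroup of a subgroup of E7(2) is isomorphic to `S`, then `S` is admissible -/
theorem adm_of {S : Type*} [Group S] (H : Subgroup ↥(Cfsg.Lie.chevE7.group (ZMod 2)))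
    (e : ↥(Cfsg.generalizedFittingSubgroup ↥H) ≃* S) : Adm S :=
  AdmMain.adm.comap ((H.subtype.comp (Cfsg.generalizedFittingSubgroup ↥H).subtype).comp e.symm.toMonoidHom)
    ((H.subtype_injective.comp (Cfsg.generalizedFittingSubgroup ↥H).subtype_injective).comp e.symm.injective)

/-- The Chevalley group of type E₇ over the field with two elements (generated by its root elements in the adjoint representation; the simple group E₇(2)) has no maximal subgroup H whose generalized Fitting subgroup F*(H) is isomorphic to any of PSL₃(4), PSU₃(4), the Suzuki group Sz(8), the Chevalley group G₂(4) or PSL₃(16). Here F₄, F₈, F₁₆ denote fields with 4, 8 and 16 elements. -/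
theorem result {F₄ F₈ F₁₆ : Type*} [Field F₄] [Fintype F₄] (h4 : Fintype.card F₄ = 4) [Field F₈] [Fintype F₈] (h8 : Fintype.card F₈ = 8)
    [Field F₁₆] [Fintype F₁₆] (h16 : Fintype.card F₁₆ = 16) (H : Subgroup ↥(Cfsg.Lie.chevE7.group (ZMod 2))) (hH : IsCoatom H) :
    IsEmpty (↥(Cfsg.generalizedFittingSubgroup ↥H) ≃* Matrix.ProjectiveSpecialLinearGroup (Fin 3) F₄) ∧ IsEmpty (↥(Cfsg.generalizedFittingSubgroup ↥H) ≃* Cfsg.PSU 3 F₁₆ 4) ∧
    IsEmpty (↥(Cfsg.generalizedFittingSubgroup ↥H) ≃* ↥(Cfsg.Lie.Sz F₈ 4)) ∧ IsEmpty (↥(Cfsg.generalizedFittingSubgroup ↥H) ≃* ↥(Cfsg.Lie.chevG2.group F₄)) ∧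
    IsEmpty (↥(Cfsg.generalizedFittingSubgroup ↥H) ≃* Matrix.ProjectiveSpecialLinearGroup (Fin 3) F₁₆) := by
  refine ⟨⟨fun e => ?_⟩, ⟨fun e => ?_⟩, ⟨fun e => ?_⟩, ⟨fun e => ?_⟩, ⟨fun e => ?_⟩⟩
  · exact Cfsg.Agent.H102.E7V.not_psl34 h4 (adm_of H e)
  · exact Cfsg.Agent.H783.U34.not_psu34 h16 (adm_of H e)
  · exact Cfsg.Agent.H102.E7V.not_sz8 h8 (adm_of H e)
  · obtain ⟨f, hf⟩ := Cfsg.Agent.H62.GTwoEmb.psu_g2 h4 h16
    exact Cfsg.Agent.H783.U34.not_psu34 h16 ((adm_of H e).comap f hf)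
  · obtain ⟨f, hf⟩ := Cfsg.Agent.H62.GTwoEmb.psl_sub h4 h16
    exact Cfsg.Agent.H102.E7V.not_psl34 h4 ((adm_of H e).comap f hf)

end Cfsg.Agent.S5770
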