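import Cfsg.Statements.S5885
-- import your own Cfsg.Agent.* helpers here

set_option autoImplicit false
open Cfsg

namespace Cfsg.Agent.S5885

open scoped Pointwise

open MulAction Equiv in
/-- In a group whose primitive action on `G ⧸ M` contains the alternating group every 3-cycle is realised. -/
theorem three_cycle {G : Type*} [Group G] [Finite G] (n : ℕ)
    (hA : ∀ P : Subgroup (Equiv.Perm (Fin n)), MulAction.IsPreprimitive P (Fin n) → alternatingGroup (Fin n) ≤ P)
    (M : Subgroup G) (hM : IsCoatom M) (hn : M.index = n) (x y z : G ⧸ M) (hxy : x ≠ y) (hxz : x ≠ z)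
    (hyz : y ≠ z) :
    ∃ g : G, g • x = y ∧ g • y = z ∧ g • z = x ∧ ∀ w, w ≠ x → w ≠ y → w ≠ z → g • w = w := by
  classical
  have e : (G ⧸ M) ≃ Fin n := Finite.equivFinOfCardEq hn
  haveI : Nontrivial (G ⧸ M) := ⟨x, y, hxy⟩
  haveI : Fintype (G ⧸ M) := Fintype.ofFinite _
  haveI hprim : IsPreprimitive G (G ⧸ M) := by
    rw [← isCoatom_stabilizer_iff_preprimitive G ((1 : G) : G ⧸ M)]
    rwa [MulAction.stabilizer_quotient]
  let f : G →* Equiv.Perm (Fin n) :=
    (e.permCongrHom : Perm (G ⧸ M) ≃* Perm (Fin n)).toMonoidHom.comp (MulAction.toPermHom G (G ⧸ M))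
  have hf : ∀ g : G, ∀ w : G ⧸ M, f g (e w) = e (g • w) := by
    intro g w
    simp [f, Equiv.permCongrHom, Equiv.permCongr_apply]
  have hP : MulAction.IsPreprimitive f.range (Fin n) := by
    let φ : G → f.range := fun g => ⟨f g, g, rfl⟩
    let F : (G ⧸ M) →ₑ[φ] Fin n :=
      { toFun := e
        map_smul' := by
          intro g w
          change e (g • w) = f g (e w)
          rw [hf] }
    exact IsPreprimitive.of_surjective (f := F) e.surjective
  have hall := hA f.range hP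
  let σ : Perm (G ⧸ M) := Equiv.swap x y * Equiv.swap y z
  have hσsign : Perm.sign (e.permCongrHom σ) = 1 := by
    have : Perm.sign (e.permCongr σ) = Perm.sign σ := Perm.sign_permCongr e σ
    change Perm.sign (e.permCongr σ) = 1
    rw [this]
    simp only [σ, Perm.sign_mul, Perm.sign_swap hxy, Perm.sign_swap hyz]
    decide
  have hmem : e.permCongrHom σ ∈ alternatingGroup (Fin n) := by
    rw [Equiv.Perm.mem_alternatingGroup]
    exact hσsign
  obtain ⟨g, hg⟩ := hall hmem
  have hg' : ∀ w : G ⧸ M, g • w = σ w := by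
    intro w
    apply e.injective
    rw [← hf, hg]
    simp [Equiv.permCongrHom, Equiv.permCongr_apply]
  refine ⟨g, ?_, ?_, ?_, ?_⟩
  · rw [hg']
    simp only [σ, Perm.mul_apply]
    rw [Equiv.swap_apply_of_ne_of_ne hxy hxz, Equiv.swap_apply_left]
  · rw [hg']
    simp only [σ, Perm.mul_apply]
    rw [Equiv.swap_apply_left, Equiv.swap_apply_of_ne_of_ne hxz.symm hyz.symm]
  · rw [hg']
    simp only [σ, Perm.mul_apply]
    rw [Equiv.swap_apply_right, Equiv.swap_apply_right]
  · intro w h1 h2 h3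
    rw [hg']
    simp only [σ, Perm.mul_apply]
    rw [Equiv.swap_apply_of_ne_of_ne h2 h3, Equiv.swap_apply_of_ne_of_ne h1 h2]

/-- Let n be an odd positive integer such that every primitive permutation group of degree n contains the alternating group (so the symmetric and alternating groups are the only primitive groups of degree n). Let G be a finite group, M a maximal subgroup of G of index n, and H a maximal subgroup of M. Then H is a second maximal subgroup of G: H is maximal in every maximal subgroup K of G containing H. -/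
theorem result {G : Type*} [Group G]
    [Finite G] (n : ℕ) (hodd : Odd n)
    (hA : ∀ P : Subgroup (Equiv.Perm (Fin n)), MulAction.IsPreprimitive P (Fin n) → alternatingGroup (Fin n) ≤ P)
    (M : Subgroup G) (hM : IsCoatom M) (hn : M.index = n) (H : Subgroup G) (hHM : H ≤ M)
    (hmax : IsCoatom (H.subgroupOf M)) (K : Subgroup G) (hK : IsCoatom K) (hHK : H ≤ K) :
    IsCoatom (H.subgroupOf K) := by
  classical
  -- the case `K = M`
  by_cases hKM : K = M
  · subst hKM; exact hmax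
  -- maximality of `H` in `M`, unpacked
  have hmaxM : ∀ S : Subgroup G, H ≤ S → S ≤ M → S = H ∨ S = M := by
    intro S h1 h2
    rcases hmax.le_iff.mp (Subgroup.comap_mono (f := M.subtype) h1) with h | h
    · right
      have : M ≤ S := Subgroup.subgroupOf_eq_top.mp h
      exact le_antisymm h2 this
    · left
      have h' : S.subgroupOf M = H.subgroupOf M := h
      have := (Subgroup.subgroupOf_inj.mp h')
      rw [inf_of_le_left h2, inf_of_le_left hHM] at this
      exact this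
  have hMK : ¬ M ≤ K := fun h => hKM ((hM.le_iff.mp h).resolve_left hK.1)
  have hKM' : ¬ K ≤ M := fun h => hKM ((hK.le_iff.mp h).resolve_left hM.1).symm
  have hHeq : K ⊓ M = H := by
    rcases hmaxM (K ⊓ M) (le_inf hHK hHM) inf_le_right with h | h
    · exact h
    · exact absurd (h ▸ inf_le_left : M ≤ K) hMK
  have hHmem : ∀ g : G, g ∈ K → g ∈ M → g ∈ H := fun g h1 h2 => hHeq ▸ ⟨h1, h2⟩
  refine ⟨?_, ?_⟩
  · intro h
    exact hKM' ((Subgroup.subgroupOf_eq_top.mp h).trans hHM)
  intro L' hL'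
  -- pass to the subgroup `L` of `G`
  obtain ⟨L, hLK, hHL, hLL'⟩ : ∃ L : Subgroup G, L ≤ K ∧ H < L ∧ L.subgroupOf K = L' := by
    refine ⟨L'.map K.subtype, ?_, ?_, ?_⟩
    · rintro _ ⟨x, _, rfl⟩; exact x.2
    · have h1 : H ≤ L'.map K.subtype := by
        intro x hx
        refine ⟨⟨x, hHK hx⟩, hL'.le ?_, rfl⟩
        exact hx
      refine lt_of_le_of_ne h1 ?_
      intro h
      apply hL'.ne
      rw [h]
      exact Subgroup.comap_map_eq_self_of_injective K.subtype_injective L'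
    · exact Subgroup.comap_map_eq_self_of_injective K.subtype_injective L'
  rw [← hLL', Subgroup.subgroupOf_eq_top]
  by_contra hKL
  -- `α`, `Γ = L α`
  set α : G ⧸ M := ((1 : G) : G ⧸ M) with hα
  have hstab : ∀ g : G, g • α = α ↔ g ∈ M := by
    intro g
    rw [← MulAction.mem_stabilizer_iff, hα, MulAction.stabilizer_quotient]
  let Γ : Set (G ⧸ M) := {x | ∃ l ∈ L, l • α = x}
  let Δ : Set (G ⧸ M) := {x | ∃ k ∈ K, k • α = x}
  have hαΓ : α ∈ Γ := ⟨1, L.one_mem, one_smul _ _⟩
  have hΓL : ∀ l ∈ L, ∀ x ∈ Γ, l • x ∈ Γ := by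
    rintro l hl _ ⟨m, hm, rfl⟩
    exact ⟨l * m, L.mul_mem hl hm, mul_smul _ _ _⟩
  have hΔK : ∀ l ∈ K, ∀ x ∈ Δ, l • x ∈ Δ := by
    rintro l hl _ ⟨m, hm, rfl⟩
    exact ⟨l * m, K.mul_mem hl hm, mul_smul _ _ _⟩
  have hΓΔ : Γ ⊆ Δ := by
    rintro _ ⟨l, hl, rfl⟩; exact ⟨l, hLK hl, rfl⟩
  -- (*) an element of `K` mapping an element of `Γ` into `Γ` lies in `L`
  have hstar : ∀ k ∈ K, ∀ x ∈ Γ, k • x ∈ Γ → k ∈ L := by
    rintro k hk _ ⟨l1, hl1, rfl⟩ ⟨l2, hl2, h⟩
    have h3 : (l2⁻¹ * k * l1) • α = α := by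
      rw [mul_smul, mul_smul, ← h, inv_smul_smul]
    have h4 : l2⁻¹ * k * l1 ∈ H :=
      hHmem _ (K.mul_mem (K.mul_mem (K.inv_mem (hLK hl2)) hk) (hLK hl1)) ((hstab _).mp h3)
    have h5 : l2⁻¹ * k * l1 ∈ L := hHL.le h4
    have h6 : k = l2 * (l2⁻¹ * k * l1) * l1⁻¹ := by group
    rw [h6]
    exact L.mul_mem (L.mul_mem hl2 h5) (L.inv_mem hl1)
  -- there is `γ ∈ Γ` different from `α`
  obtain ⟨γ, hγΓ, hγα⟩ : ∃ γ ∈ Γ, γ ≠ α := by
    by_contra hcon
    push Not at hcon
    have : L ≤ H := by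
      intro l hl
      exact hHmem l (hLK hl) ((hstab l).mp (hcon _ ⟨l, hl, rfl⟩))
    exact absurd hHL (not_lt_of_ge this)
  -- `k ∈ K` outside `L`
  obtain ⟨k, hkK, hkL⟩ : ∃ k ∈ K, k ∉ L := Set.not_subset.mp hKL
  have hδ : k • α ∉ Γ := fun h => hkL (hstar k hkK α hαΓ h)
  have hδ' : k • γ ∉ Γ := fun h => hkL (hstar k hkK γ hγΓ h)
  have hδδ' : k • α ≠ k • γ := fun h => hγα (MulAction.injective k h).symm
  have hγδ : γ ≠ k • α := fun h => hδ (h ▸ hγΓ)
  have hγδ' : γ ≠ k • γ := fun h => hδ' (h ▸ hγΓ)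
  have hαδ : α ≠ k • α := fun h => hδ (h ▸ hαΓ)
  have hαδ' : α ≠ k • γ := fun h => hδ' (h ▸ hαΓ)
  obtain ⟨g, hg1, hg2, hg3, hg4⟩ := three_cycle n hA M hM hn γ (k • α) (k • γ) hγδ hγδ' hδδ'
  have hgM : g ∈ M := (hstab g).mp (hg4 α hγα.symm hαδ hαδ')
  by_cases htr : Δ = Set.univ
  · -- `K` transitive
    -- `S` is the stabilizer of `α` and `Γ`
    let S : Subgroup G := M ⊓ MulAction.stabilizer G Γ
    have hΓstab : ∀ l ∈ L, l ∈ MulAction.stabilizer G Γ := by
      intro l hl
      rw [MulAction.mem_stabilizer_iff]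
      apply Set.Subset.antisymm
      · rintro _ ⟨x, hx, rfl⟩
        exact hΓL l hl x hx
      · intro x hx
        refine ⟨l⁻¹ • x, hΓL _ (L.inv_mem hl) x hx, ?_⟩
        simp
    have hSH : S = H := by
      rcases hmaxM S (le_inf hHM (fun h hh => hΓstab h (hHL.le hh))) inf_le_left with h | h
      · exact h
      · exfalso
        have : g ∈ S := h ▸ hgM
        have h2 : g • Γ = Γ := MulAction.mem_stabilizer_iff.mp this.2
        apply hδ
        rw [← hg1, ← h2]
        exact Set.smul_mem_smul_set hγΓ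
    -- a point outside `Γ ∪ kΓ`
    obtain ⟨ε, hε1, hε2⟩ : ∃ ε, ε ∉ Γ ∧ ε ∉ k • Γ := by
      by_contra hcon
      push Not at hcon
      have hfin : Finite (G ⧸ M) := inferInstance
      have hdisj : Disjoint Γ (k • Γ) := by
        rw [Set.disjoint_left]
        rintro x hx ⟨y, hy, hyx⟩
        exact hkL (hstar k hkK y hy (by rw [show k • y = x from hyx]; exact hx))
      have huniv : Γ ∪ k • Γ = Set.univ := by
        ext x
        simp only [Set.mem_union, Set.mem_univ, iff_true]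
        by_cases hx : x ∈ Γ
        · exact Or.inl hx
        · exact Or.inr (hcon x hx)
      have h1 : (Γ ∪ k • Γ).ncard = Γ.ncard + (k • Γ).ncard :=
        Set.ncard_union_eq hdisj (Set.toFinite _) (Set.toFinite _)
      rw [huniv, Set.ncard_univ] at h1
      have h2 : (k • Γ).ncard = Γ.ncard := Set.ncard_smul_set k Γ
      rw [h2] at h1
      have h3 : Nat.card (G ⧸ M) = n := hn
      rw [h3] at h1
      rw [h1] at hodd
      exact (Nat.not_odd_iff_even.mpr ⟨_, rfl⟩) hodd
    have hka : k • α ∈ k • Γ := Set.smul_mem_smul_set hαΓ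
    have hkg : k • γ ∈ k • Γ := Set.smul_mem_smul_set hγΓ
    have e1 : k • α ≠ ε := fun h => hε2 (h ▸ hka)
    have e2 : k • γ ≠ ε := fun h => hε2 (h ▸ hkg)
    obtain ⟨t, ht1, ht2, ht3, ht4⟩ := three_cycle n hA M hM hn (k • α) (k • γ) ε hδδ' e1 e2
    have hkΓ : ∀ x ∈ Γ, x ∉ k • Γ := by
      rintro x hx ⟨y, hy, hyx⟩
      exact hkL (hstar k hkK y hy (by rw [show k • y = x from hyx]; exact hx))
    have htfix : ∀ x ∈ Γ, t • x = x := by
      intro x hx
      refine ht4 x ?_ ?_ ?_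
      · rintro rfl; exact hkΓ _ hx hka
      · rintro rfl; exact hkΓ _ hx hkg
      · rintro rfl; exact hε1 hx
    have htS : t ∈ S := by
      refine ⟨(hstab t).mp (htfix α hαΓ), ?_⟩
      change t • Γ = Γ
      apply Set.Subset.antisymm
      · rintro _ ⟨x, hx, rfl⟩
        change t • x ∈ Γ
        rw [htfix x hx]; exact hx
      · intro x hx
        exact ⟨x, hx, htfix x hx⟩
    have htK : t ∈ K := hHK (hSH ▸ htS)
    -- `k⁻¹ t k ∈ K` maps `α` to `γ`
    have h7 : k⁻¹ * t * k ∈ L := by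
      refine hstar _ (K.mul_mem (K.mul_mem (K.inv_mem hkK) htK) hkK) α hαΓ ?_
      rw [mul_smul, mul_smul, ht1, inv_smul_smul]
      exact hγΓ
    have h8 := hΓL _ h7 γ hγΓ
    rw [mul_smul, mul_smul, ht2] at h8
    apply hε2
    exact ⟨k⁻¹ • ε, h8, by simp⟩
  · -- `K` intransitive: `K` is the stabilizer of `Δ`
    have hΔstab : K ≤ MulAction.stabilizer G Δ := by
      intro l hl
      rw [MulAction.mem_stabilizer_iff]
      apply Set.Subset.antisymm
      · rintro _ ⟨x, hx, rfl⟩
        exact hΔK l hl x hx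
      · intro x hx
        refine ⟨l⁻¹ • x, hΔK _ (K.inv_mem hl) x hx, ?_⟩
        simp
    have hne : MulAction.stabilizer G Δ ≠ ⊤ := by
      intro htop
      apply htr
      ext x
      simp only [Set.mem_univ, iff_true]
      obtain ⟨a, ha⟩ := MulAction.exists_smul_eq G α x
      have : a ∈ MulAction.stabilizer G Δ := htop ▸ Subgroup.mem_top a
      rw [MulAction.mem_stabilizer_iff] at this
      rw [← ha, ← this]
      exact Set.smul_mem_smul_set (hΓΔ hαΓ)
    have hKeq : MulAction.stabilizer G Δ = K := (hK.le_iff.mp hΔstab).resolve_left hne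
    have d1 : γ ∈ Δ := hΓΔ hγΓ
    have d2 : k • α ∈ Δ := ⟨k, hkK, rfl⟩
    have d3 : k • γ ∈ Δ := hΔK k hkK γ d1
    have hgΔ : ∀ x ∈ Δ, g • x ∈ Δ := by
      intro x hx
      by_cases h1 : x = γ
      · rw [h1, hg1]; exact d2
      by_cases h2 : x = k • α
      · rw [h2, hg2]; exact d3
      by_cases h3 : x = k • γ
      · rw [h3, hg3]; exact d1
      · rw [hg4 x h1 h2 h3]; exact hx
    have hgK : g ∈ K := by
      rw [← hKeq]
      change g • Δ = Δ
      have hsub : g • Δ ⊆ Δ := by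
        rintro _ ⟨x, hx, rfl⟩
        exact hgΔ x hx
      exact Set.eq_of_subset_of_ncard_le hsub (by rw [Set.ncard_smul_set]) (Set.toFinite _)
    have hgL : g ∈ L := hHL.le (hHmem g hgK hgM)
    exact hδ (hg1 ▸ hΓL g hgL γ hγΓ)

end Cfsg.Agent.S5885
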