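import Cfsg.Statements.S5886
import Cfsg.Agent.H935.ExtMain
import Cfsg.Agent.LieClassical.SLGen

set_option autoImplicit false
open Cfsg

namespace Cfsg.Agent.S5886

open Module Matrix Cfsg.Agent.H935 Cfsg.Geo

/-- the field structure on a field subalgebra -/
theorem exists_field.{u} {F : Type u} [Field F] {n r : ℕ} (K : Subalgebra F (Matrix (Fin n) (Fin n) F))
    (hn : 0 < n) (hK : IsFieldSubalgebra r K) :
    ∃ (E : Type u) (_ : Field E) (_ : Algebra F E) (i : E →ₐ[F] Matrix (Fin n) (Fin n) F),
      Function.Injective i ∧ i.range = K ∧ finrank F E = r := by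
  classical
  have : Nonempty (Fin n) := ⟨⟨0, hn⟩⟩
  letI : Field K :=
    { (inferInstance : Ring K) with
      mul_comm := fun a b => Subtype.ext (hK.comm a a.2 b b.2)
      exists_pair_ne := ⟨0, 1, fun h => zero_ne_one (congrArg Subtype.val h)⟩
      inv := fun a => if h : a = 0 then 0 else
        ⟨(hK.inv a a.2 (fun h' => h (Subtype.ext h'))).choose,
          (hK.inv a a.2 (fun h' => h (Subtype.ext h'))).choose_spec.1⟩
      mul_inv_cancel := by
        intro a ha
        apply Subtype.ext
        change (a : Matrix (Fin n) (Fin n) F) * ((if h : a = 0 then (0 : K) else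
          ⟨(hK.inv a a.2 (fun h' => h (Subtype.ext h'))).choose,
            (hK.inv a a.2 (fun h' => h (Subtype.ext h'))).choose_spec.1⟩ : K) : Matrix (Fin n) (Fin n) F) = 1
        rw [dif_neg ha]
        exact (hK.inv a a.2 (fun h' => ha (Subtype.ext h'))).choose_spec.2
      inv_zero := by
        change (if h : (0 : K) = 0 then (0 : K) else _) = 0
        rw [dif_pos rfl]
      nnqsmul := _
      qsmul := _ }
  exact ⟨K, this, K.algebra, K.val, Subtype.val_injective, by ext x; simp, hK.finrank_eq⟩

/-- the statement with the extension field as an abstract field acting on column vectors -/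
theorem aux {F : Type*} [Field F] [Fintype F] (n r : ℕ) (hr : r.Prime) (hrn : r ∣ n) (hlt : r < n)
    (K : Subalgebra F (Matrix (Fin n) (Fin n) F)) {E : Type*} [Field E] [Algebra F E] [FiniteDimensional F E]
    (i : E →ₐ[F] Matrix (Fin n) (Fin n) F) (hiK : i.range = K) (hdim : finrank F E = r) [Module E (Fin n → F)]
    (hsmul : ∀ (e : E) (v : Fin n → F), e • v = (i e) *ᵥ v) [IsScalarTower F E (Fin n → F)]
    [Module.Finite E (Fin n → F)] :
    IsCoatom (Cfsg.Geo.subalgebraNormalizer K) ∧
      Cfsg.Geo.IsMaximalIn (Cfsg.Geo.specialLinear (Fin n) F)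
        (Cfsg.Geo.subalgebraNormalizer K ⊓ Cfsg.Geo.specialLinear (Fin n) F) := by
  classical
  have hVn : finrank F (Fin n → F) = n := by simp
  have hm : 2 ≤ finrank E (Fin n → F) := by
    have h1 : finrank F E * finrank E (Fin n → F) = finrank F (Fin n → F) := finrank_mul_finrank F E (Fin n → F)
    rw [hdim, hVn] at h1
    have hpos := hr.pos
    by_contra hcon
    have : finrank E (Fin n → F) ≤ 1 := by omega
    have : r * finrank E (Fin n → F) ≤ r * 1 := Nat.mul_le_mul_left _ this
    omega
  have hrE : (finrank F E).Prime := by rw [hdim]; exact hr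
  -- the group isomorphism
  let Φ : GL (Fin n) F ≃* ((Fin n → F) ≃ₗ[F] (Fin n → F)) :=
    (Matrix.GeneralLinearGroup.toLin (n := Fin n) (R := F)).trans
      (LinearMap.GeneralLinearGroup.generalLinearEquiv F (Fin n → F))
  have hΦ : ∀ (A : GL (Fin n) F) (v : (Fin n → F)), Φ A v = (A : Matrix (Fin n) (Fin n) F) *ᵥ v := fun A v => rfl
  have hdet : ∀ A : GL (Fin n) F, LinearMap.det ((Φ A : (Fin n → F) ≃ₗ[F] (Fin n → F)) : (Fin n → F) →ₗ[F] (Fin n → F)) = (A : Matrix (Fin n) (Fin n) F).det := by
    intro A
    have : ((Φ A : (Fin n → F) ≃ₗ[F] (Fin n → F)) : (Fin n → F) →ₗ[F] (Fin n → F)) = Matrix.toLin' (A : Matrix (Fin n) (Fin n) F) := by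
      ext v; rfl
    rw [this, LinearMap.det_toLin']
  have hSL : ∀ A : GL (Fin n) F, A ∈ specialLinear (Fin n) F ↔ (A : Matrix (Fin n) (Fin n) F).det = 1 := by
    intro A
    rw [specialLinear, MonoidHom.mem_ker, Units.ext_iff]
    rfl
  have hmemK : ∀ e : E, i e ∈ K := by
    intro e
    rw [← hiK]
    exact ⟨e, rfl⟩
  -- membership in the normaliser
  have hnorm : ∀ A : GL (Fin n) F, (∀ e : E, ∃ e' : E, ∀ v : (Fin n → F), Φ A (e • v) = e' • Φ A v) →
      A ∈ subalgebraNormalizer K := by
    intro A hA
    have h1 : ∀ k ∈ K, (A : Matrix (Fin n) (Fin n) F) * k * ((A⁻¹ : GL (Fin n) F) : Matrix (Fin n) (Fin n) F) ∈ K := by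
      intro k hk
      rw [← hiK] at hk
      obtain ⟨e, rfl⟩ := hk
      obtain ⟨e', he'⟩ := hA e
      have h2 : (A : Matrix (Fin n) (Fin n) F) * i e = i e' * (A : Matrix (Fin n) (Fin n) F) := by
        refine Matrix.ext_of_mulVec_single fun j => ?_
        rw [← Matrix.mulVec_mulVec, ← Matrix.mulVec_mulVec]
        have h8 := he' (Pi.single j 1)
        rw [hΦ, hΦ, hsmul, hsmul] at h8
        exact h8
      have h3 : (A : Matrix (Fin n) (Fin n) F) * (i e) * ((A⁻¹ : GL (Fin n) F) : Matrix (Fin n) (Fin n) F) = i e' := by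
        rw [h2, mul_assoc, ← Units.val_mul, mul_inv_cancel, Units.val_one, mul_one]
      change (A : Matrix (Fin n) (Fin n) F) * (i e) * ((A⁻¹ : GL (Fin n) F) : Matrix (Fin n) (Fin n) F) ∈ K
      rw [h3]
      exact hmemK e'
    intro k
    refine ⟨h1 k, fun hk => ?_⟩
    -- the conjugation map is injective on the finite set `K`, hence surjective
    let c : K → K := fun k => ⟨_, h1 k k.2⟩
    have hc : Function.Injective c := by
      intro a b hab
      apply Subtype.ext
      have h4 := congrArg Subtype.val hab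
      simp only [c] at h4
      have h5 : ∀ x : Matrix (Fin n) (Fin n) F, ((A⁻¹ : GL (Fin n) F) : Matrix (Fin n) (Fin n) F) *
          ((A : Matrix (Fin n) (Fin n) F) * x * ((A⁻¹ : GL (Fin n) F) : Matrix (Fin n) (Fin n) F)) *
          (A : Matrix (Fin n) (Fin n) F) = x := by
        intro x
        simp only [← mul_assoc, ← Units.val_mul, inv_mul_cancel, Units.val_one, one_mul]
        rw [mul_assoc, ← Units.val_mul, inv_mul_cancel, Units.val_one, mul_one]
      rw [← h5 a, ← h5 b, h4]
    have hsurj : Function.Surjective c := Finite.surjective_of_injective hc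
    obtain ⟨k', hk'⟩ := hsurj ⟨_, hk⟩
    have h6 := congrArg Subtype.val hk'
    simp only [c] at h6
    have h7 : (k' : Matrix (Fin n) (Fin n) F) = k := by
      have h5 : ∀ x : Matrix (Fin n) (Fin n) F, ((A⁻¹ : GL (Fin n) F) : Matrix (Fin n) (Fin n) F) *
          ((A : Matrix (Fin n) (Fin n) F) * x * ((A⁻¹ : GL (Fin n) F) : Matrix (Fin n) (Fin n) F)) *
          (A : Matrix (Fin n) (Fin n) F) = x := by
        intro x
        simp only [← mul_assoc, ← Units.val_mul, inv_mul_cancel, Units.val_one, one_mul]
        rw [mul_assoc, ← Units.val_mul, inv_mul_cancel, Units.val_one, mul_one]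
      rw [← h5 k', ← h5 k, h6]
    rw [← h7]
    exact k'.2
  have hnorm' : ∀ A : GL (Fin n) F, A ∈ subalgebraNormalizer K →
      ∀ e : E, ∃ e' : E, ∀ v : (Fin n → F), Φ A (e • v) = e' • Φ A v := by
    intro A hA e
    have h1 := (hA (i e)).mp (hmemK e)
    rw [← hiK] at h1
    obtain ⟨e', he'⟩ := h1
    refine ⟨e', fun v => ?_⟩
    rw [hΦ, hΦ, hsmul, hsmul]
    have he'' : i e' = (A : Matrix (Fin n) (Fin n) F) * i e * ((A⁻¹ : GL (Fin n) F) : Matrix (Fin n) (Fin n) F) := he'
    rw [he'', Matrix.mulVec_mulVec, Matrix.mulVec_mulVec, mul_assoc (_ * _), ← Units.val_mul, inv_mul_cancel,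
      Units.val_one, mul_one]
  -- the core: overgroups in `SL`
  have core : ∀ M : Subgroup (GL (Fin n) F), subalgebraNormalizer K ⊓ specialLinear (Fin n) F ≤ M →
      (∃ A ∈ M, A ∉ subalgebraNormalizer K) → specialLinear (Fin n) F ≤ M := by
    intro M hM hA
    obtain ⟨A, hAM, hAK⟩ := hA
    let X : Subgroup ((Fin n → F) ≃ₗ[F] (Fin n → F)) := M.map Φ.toMonoidHom
    have hX : ContainsN F E (Fin n → F) X := by
      intro g hg
      refine ⟨Φ.symm (g.restrictScalars F), hM ⟨?_, ?_⟩, by simp⟩
      · apply hnorm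
        intro e
        refine ⟨e, fun v => ?_⟩
        rw [MulEquiv.apply_symm_apply]
        exact g.map_smul e v
      · change Φ.symm (g.restrictScalars F) ∈ specialLinear (Fin n) F
        rw [hSL, ← hdet, MulEquiv.apply_symm_apply]
        have h1 : ((g.restrictScalars F : (Fin n → F) ≃ₗ[F] (Fin n → F)) : (Fin n → F) →ₗ[F] (Fin n → F)) = (g : (Fin n → F) →ₗ[E] (Fin n → F)).restrictScalars F := rfl
        rw [h1, LinearMap.det_restrictScalars, hg]
    have hgX : ∃ g ∈ X, ∃ e : E, ∀ e' : E, ∃ v, g (e • v) ≠ e' • g v := by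
      refine ⟨Φ A, ⟨A, hAM, rfl⟩, ?_⟩
      by_contra hcon
      push Not at hcon
      exact hAK (hnorm A hcon)
    have hall := all_transvections (E := E) hX hrE hm hgX
    intro B hB
    rw [hSL] at hB
    have key : ∀ C : SpecialLinearGroup (Fin n) F, (C : GL (Fin n) F) ∈ M := by
      have : Nontrivial (Fin n) := Fin.nontrivial_iff_two_le.mpr (by have := hr.two_le; omega)
      intro C
      refine Cfsg.Agent.LieClassical.SLGen.transvection_induction
        (fun C : SpecialLinearGroup (Fin n) F => (C : GL (Fin n) F) ∈ M) ?_ ?_ C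
      · intro a b hab c
        obtain ⟨g, hg, hg'⟩ := hall (c • LinearMap.proj b) (Pi.single a 1) (by simp [hab.symm])
        obtain ⟨D, hD, hD'⟩ := hg
        have : ((SpecialLinearGroup.transvection hab c : SpecialLinearGroup (Fin n) F) : GL (Fin n) F) = D := by
          apply Φ.injective
          apply LinearEquiv.ext
          intro v
          have h2 : Φ D = g := hD'
          rw [h2, hg', hΦ]
          have h3 := Cfsg.Agent.LieClassical.SLGen.transvection_smul hab c v
          rw [Matrix.SpecialLinearGroup.smul_def] at h3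
          exact h3
        change ((SpecialLinearGroup.transvection hab c : SpecialLinearGroup (Fin n) F) : GL (Fin n) F) ∈ M
        rw [this]
        exact hD
      · intro A B hA hB
        change ((A * B : SpecialLinearGroup (Fin n) F) : GL (Fin n) F) ∈ M
        rw [map_mul]
        exact M.mul_mem hA hB
    let B' : SpecialLinearGroup (Fin n) F := ⟨(B : Matrix (Fin n) (Fin n) F), hB⟩
    have h1 := key B'
    have h2 : (B' : GL (Fin n) F) = B := by
      apply Units.ext
      rfl
    rwa [h2] at h1
  -- `N ∩ SL ≠ SL`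
  have hproper : ¬ specialLinear (Fin n) F ≤ subalgebraNormalizer K := by
    intro hle
    obtain ⟨φ, a, hφa, hns⟩ := exists_rk_not_semilinear (F := F) (E := E) (V := (Fin n → F)) hrE.two_le hm
    let g : (Fin n → F) ≃ₗ[F] (Fin n → F) := LinearEquiv.transvection hφa
    obtain ⟨e, he⟩ := hns g (fun v => rfl)
    have h1 : Φ.symm g ∈ specialLinear (Fin n) F := by
      rw [hSL, ← hdet, MulEquiv.apply_symm_apply, ← LinearEquiv.coe_det, LinearEquiv.transvection.det_eq_one]
      rfl
    obtain ⟨e', he'⟩ := hnorm' _ (hle h1) e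
    obtain ⟨v, hv⟩ := he e'
    apply hv
    have := he' v
    rwa [MulEquiv.apply_symm_apply] at this
  have hmaxSL : IsMaximalIn (specialLinear (Fin n) F) (subalgebraNormalizer K ⊓ specialLinear (Fin n) F) := by
    refine ⟨lt_of_le_of_ne inf_le_right ?_, ?_⟩
    · intro h
      exact hproper (inf_eq_right.mp h)
    · intro M h1 h2
      by_cases h3 : ∃ A ∈ M, A ∉ subalgebraNormalizer K
      · right
        exact le_antisymm h2 (core M h1 h3)
      · left
        push Not at h3
        exact le_antisymm (le_inf h3 h2) h1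
  refine ⟨⟨?_, ?_⟩, hmaxSL⟩
  · intro h
    exact hproper (by rw [h]; exact le_top)
  · intro M hM
    -- the determinant is surjective on the normaliser
    have hdetsurj : ∀ c : F, c ≠ 0 → ∃ B ∈ subalgebraNormalizer K, (B : Matrix (Fin n) (Fin n) F).det = c := by
      intro c hc
      have : Finite E := Module.finite_of_finite F
      obtain ⟨δ, hδ⟩ := FiniteField.norm_surjective F E c
      have hδ0 : δ ≠ 0 := by
        rintro rfl
        rw [Algebra.norm_zero] at hδ
        exact hc hδ.symm
      have hnt : Nontrivial (Fin n → F) := by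
        by_contra hcon
        rw [not_nontrivial_iff_subsingleton] at hcon
        have : finrank E (Fin n → F) = 0 := finrank_zero_of_subsingleton
        omega
      obtain ⟨x, hx⟩ := exists_ne (0 : (Fin n → F))
      obtain ⟨ψ, hψ⟩ := exists_functional_one (E := E) hx
      have hu : IsUnit (1 + ψ ((δ - 1) • x)) := by
        rw [map_smul, hψ, smul_eq_mul, mul_one, add_sub_cancel]
        exact isUnit_iff_ne_zero.mpr hδ0
      let g : (Fin n → F) ≃ₗ[E] (Fin n → F) := LinearEquiv.dilatransvection hu
      refine ⟨Φ.symm (g.restrictScalars F), ?_, ?_⟩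
      · apply hnorm
        intro e
        refine ⟨e, fun v => ?_⟩
        rw [MulEquiv.apply_symm_apply]
        exact g.map_smul e v
      · rw [← hdet, MulEquiv.apply_symm_apply]
        have h1 : ((g.restrictScalars F : (Fin n → F) ≃ₗ[F] (Fin n → F)) : (Fin n → F) →ₗ[F] (Fin n → F)) = (g : (Fin n → F) →ₗ[E] (Fin n → F)).restrictScalars F := rfl
        have h2 : (g : (Fin n → F) →ₗ[E] (Fin n → F)) = LinearMap.transvection ψ ((δ - 1) • x) := by
          ext v; rfl
        rw [h1, LinearMap.det_restrictScalars, h2, LinearMap.transvection.det, map_smul, hψ, smul_eq_mul, mul_one,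
          add_sub_cancel, hδ]
    obtain ⟨A, hAM, hAK⟩ := Set.exists_of_ssubset hM
    have hSLM := core M (inf_le_left.trans hM.le) ⟨A, hAM, hAK⟩
    rw [eq_top_iff]
    intro C _
    have hCdet : (C : Matrix (Fin n) (Fin n) F).det ≠ 0 := by
      have := C.isUnit.map (Matrix.detMonoidHom)
      exact (isUnit_iff_ne_zero.mp this)
    obtain ⟨B, hB, hBC⟩ := hdetsurj _ hCdet
    have h1 : C * B⁻¹ ∈ specialLinear (Fin n) F := by
      rw [specialLinear, MonoidHom.mem_ker, map_mul, map_inv, mul_inv_eq_one]
      apply Units.ext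
      exact hBC.symm
    have h2 : C = (C * B⁻¹) * B := by group
    rw [h2]
    exact M.mul_mem (hSLM h1) (hM.le hB)

/-- Let F be a finite field, n a positive integer and r a prime that divides n with r < n. Let K be a subalgebra of the algebra of n × n matrices over F which is a field of degree r over F (commutative, every non-zero element invertible, of dimension r over F; it contains the scalars). Then the normaliser N of K in GL_n(F) — the invertible F-linear maps that are semilinear over the field K, a group of type ΓL_{n/r}(F_{q^r}) for |F| = q — is a maximal subgroup of GL_n(F), and N ∩ SL_n(F) is a maximal subgroup of SL_n(F). No lower bound on n is assumed. -/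
theorem result {F : Type*} [Field F]
    [Fintype F] (n r : ℕ) (hr : r.Prime) (hrn : r ∣ n) (hlt : r < n) (K : Subalgebra F (Matrix (Fin n) (Fin n) F))
    (hK : Cfsg.Geo.IsFieldSubalgebra r K) :
    IsCoatom (Cfsg.Geo.subalgebraNormalizer K) ∧
      Cfsg.Geo.IsMaximalIn (Cfsg.Geo.specialLinear (Fin n) F)
        (Cfsg.Geo.subalgebraNormalizer K ⊓ Cfsg.Geo.specialLinear (Fin n) F) := by
  obtain ⟨E, instE, instA, i, _, hiK, hdim⟩ := exists_field K (by omega) hK
  have hfd : FiniteDimensional F E := by
    apply FiniteDimensional.of_finrank_pos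
    rw [hdim]
    exact hr.pos
  letI : Module E (Fin n → F) :=
    Module.compHom (Fin n → F) ((Matrix.toLinAlgEquiv' : Matrix (Fin n) (Fin n) F ≃ₐ[F] _).toAlgHom.comp i).toRingHom
  have hsmul : ∀ (e : E) (v : Fin n → F), e • v = (i e) *ᵥ v := fun e v => rfl
  have htower : IsScalarTower F E (Fin n → F) := by
    refine ⟨fun c e v => ?_⟩
    rw [hsmul, hsmul, map_smul, Matrix.smul_mulVec]
  have hfin : Module.Finite E (Fin n → F) := Module.Finite.of_restrictScalars_finite F E (Fin n → F)
  exact aux n r hr hrn hlt K i hiK hdim hsmul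

end Cfsg.Agent.S5886
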