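import Cfsg.Statements.S5887
import Cfsg.Agent.H936.FieldNorm

set_option autoImplicit false
open Cfsg

namespace Cfsg.Agent.S5887
open Cfsg.Geo Cfsg.Agent.H936 Cfsg.Agent.H912 Matrix

/-- Let F be a finite field, n a positive integer and r a composite number (r > 1, not prime) that divides n with r < n. Let K be a subalgebra of the algebra of n × n matrices over F which is a field of degree r over F (commutative, every non-zero element invertible, of dimension r over F). Then the normaliser N of K in GL_n(F) (a group of type ΓL_{n/r}(F_{q^r})) is not a maximal subgroup of GL_n(F), and N ∩ SL_n(F) is not a maximal subgroup of SL_n(F): both lie properly inside the normaliser of an intermediate subfield of prime degree over F. -/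
theorem result {F : Type*} [Field F]
    [Fintype F] (n r : ℕ) (hr1 : 1 < r) (hrp : ¬ r.Prime) (hrn : r ∣ n) (hlt : r < n)
    (K : Subalgebra F (Matrix (Fin n) (Fin n) F)) (hK : Cfsg.Geo.IsFieldSubalgebra r K) :
    ¬ IsCoatom (Cfsg.Geo.subalgebraNormalizer K) ∧
      ¬ Cfsg.Geo.IsMaximalIn (Cfsg.Geo.specialLinear (Fin n) F)
        (Cfsg.Geo.subalgebraNormalizer K ⊓ Cfsg.Geo.specialLinear (Fin n) F) := by
  have : Nonempty (Fin n) := ⟨⟨0, by omega⟩⟩
  have hcard : Fintype.card (Fin n) = n := Fintype.card_fin n
  -- the intermediate field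
  set s := r.minFac with hs
  have hsp : s.Prime := Nat.minFac_prime (by omega)
  have hsr : s ∣ r := Nat.minFac_dvd r
  have hsne : s ≠ r := fun h => hrp (h ▸ hsp)
  have hslt : s < r := lt_of_le_of_ne (Nat.le_of_dvd (by omega) hsr) hsne
  obtain ⟨L, hLK, hL, hnorm⟩ := exists_subfield_of_dvd hK hsr
  have hNA : NormAlg (subalgebraNormalizer K) K := fun h hh a ha => (hh a).mp ha
  have hle : subalgebraNormalizer K ≤ subalgebraNormalizer L := (hnorm _ hNA).le_normalizer
  -- an element of `N(L) ∩ SL` outside `N(K)`
  have h2s : 2 * s ≤ r := by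
    obtain ⟨c, hc⟩ := hsr
    have hc2 : 2 ≤ c := by
      rcases c with _ | _ | c
      · omega
      · omega
      · omega
    rw [hc, mul_comm 2 s]
    exact Nat.mul_le_mul_left s hc2
  obtain ⟨x, hx0, hxx, hxc, hxr⟩ := exists_transvection hL (by rw [hcard]; omega)
  have h1 : unip x hxx ∈ subalgebraNormalizer L := by
    intro k
    have hkey : ∀ k, k ∈ L → (unip x hxx : Matrix (Fin n) (Fin n) F) * k *
        (((unip x hxx)⁻¹ : GL (Fin n) F) : Matrix (Fin n) (Fin n) F) = k := by
      intro k hk
      have : (unip x hxx : Matrix (Fin n) (Fin n) F) * k = k * (unip x hxx : Matrix (Fin n) (Fin n) F) := by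
        rw [unip_val, add_mul, one_mul, mul_add, mul_one, hxc k hk]
      rw [this, mul_assoc, ← Units.val_mul, mul_inv_cancel, Units.val_one, mul_one]
    have hkey2 : ∀ k, k ∈ L → (((unip x hxx)⁻¹ : GL (Fin n) F) : Matrix (Fin n) (Fin n) F) * k *
        (unip x hxx : Matrix (Fin n) (Fin n) F) = k := by
      intro k hk
      have : k * (unip x hxx : Matrix (Fin n) (Fin n) F) = (unip x hxx : Matrix (Fin n) (Fin n) F) * k := by
        rw [unip_val, add_mul, one_mul, mul_add, mul_one, hxc k hk]
      rw [mul_assoc, this, ← mul_assoc, ← Units.val_mul, inv_mul_cancel, Units.val_one, one_mul]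
    constructor
    · intro hk
      rw [hkey k hk]
      exact hk
    · intro hk
      have h3 := hkey2 _ hk
      rw [← mul_assoc, ← mul_assoc, ← Units.val_mul, inv_mul_cancel, Units.val_one, one_mul, mul_assoc,
        ← Units.val_mul, inv_mul_cancel, Units.val_one, mul_one] at h3
      rw [h3]
      exact hk
  have h2 : unip x hxx ∈ specialLinear (Fin n) F := unip_mem_specialLinear x hxx
  have h3 : unip x hxx ∉ subalgebraNormalizer K :=
    unip_not_mem hK hx0 hxx (by omega) (by rw [hcard]; omega)
  -- an element of `SL` outside `N(L)`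
  obtain ⟨y, hy0, hyy, -, hyr⟩ := exists_transvection (ι := Fin n) (F := F) bot_isFieldSubalgebra
    (by rw [hcard]; omega)
  have hs2 := hsp.two_le
  have h4 : unip y hyy ∉ subalgebraNormalizer L :=
    unip_not_mem hL hy0 hyy (by omega) (by rw [hcard]; omega)
  have h5 : unip y hyy ∈ specialLinear (Fin n) F := unip_mem_specialLinear y hyy
  constructor
  · intro hco
    have hlt' : subalgebraNormalizer K < subalgebraNormalizer L :=
      lt_of_le_of_ne hle (fun h => h3 (h ▸ h1))
    exact h4 (by rw [hco.2 _ hlt']; trivial)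
  · rintro ⟨-, hmax⟩
    rcases hmax (subalgebraNormalizer L ⊓ specialLinear (Fin n) F) (inf_le_inf_right _ hle) inf_le_right with h | h
    · have h6 : unip x hxx ∈ subalgebraNormalizer L ⊓ specialLinear (Fin n) F := ⟨h1, h2⟩
      rw [h] at h6
      exact h3 h6.1
    · have h6 : unip y hyy ∈ specialLinear (Fin n) F := h5
      rw [← h] at h6
      exact h4 h6.1

end Cfsg.Agent.S5887
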