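import Cfsg.Statements.S5895
-- import your own Cfsg.Agent.* helpers here

set_option autoImplicit false
open Cfsg

namespace Cfsg.Agent.S5895

open Multiplicative

section

variable (F : Type) [Field F] (A : Subgroup Fˣ)

/-- The action of a group of units on the additive group. -/
def act : A →* MulAut (Multiplicative F) where
  toFun a := AddEquiv.toMultiplicative (AddAut.mulLeft (a : Fˣ))
  map_one' := by
    ext x
    show ofAdd (((1 : Fˣ) : F) * x.toAdd) = x
    simp
  map_mul' a b := by
    ext x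
    show ofAdd ((((a * b : A) : Fˣ) : F) * x.toAdd) = ofAdd (((a : Fˣ) : F) * (((b : Fˣ) : F) * x.toAdd))
    simp [mul_assoc]

theorem act_apply (a : A) (x : Multiplicative F) :
    act F A a x = ofAdd (((a : Fˣ) : F) * x.toAdd) := rfl

/-- The affine group. -/
abbrev Aff := Multiplicative F ⋊[act F A] A

/-- A group of units is irreducible. -/
def Irr : Prop := ∀ W : AddSubgroup F, (∀ a ∈ A, ∀ x ∈ W, (a : F) * x ∈ W) → W = ⊥ ∨ W = ⊤

variable {F A}

/-- The subgroup with vector part `W` and linear part `H`. -/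
def sub (W : AddSubgroup F) (H : Subgroup A) (hW : ∀ a ∈ H, ∀ x ∈ W, ((a : Fˣ) : F) * x ∈ W) :
    Subgroup (Aff F A) where
  carrier := {g | g.left.toAdd ∈ W ∧ g.right ∈ H}
  one_mem' := ⟨W.zero_mem, H.one_mem⟩
  mul_mem' := by
    rintro g h ⟨h1, h2⟩ ⟨h3, h4⟩
    refine ⟨?_, H.mul_mem h2 h4⟩
    rw [SemidirectProduct.mul_left, act_apply]
    show g.left.toAdd + ((g.right : Fˣ) : F) * h.left.toAdd ∈ W
    exact W.add_mem h1 (hW _ h2 _ h3)
  inv_mem' := by
    rintro g ⟨h1, h2⟩
    refine ⟨?_, H.inv_mem h2⟩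
    rw [SemidirectProduct.inv_left, act_apply]
    show (((g.right⁻¹ : A) : Fˣ) : F) * (-g.left.toAdd) ∈ W
    exact hW _ (H.inv_mem h2) _ (W.neg_mem h1)

theorem mem_sub {W : AddSubgroup F} {H : Subgroup A}
    {hW : ∀ a ∈ H, ∀ x ∈ W, ((a : Fˣ) : F) * x ∈ W} {g : Aff F A} :
    g ∈ sub W H hW ↔ g.left.toAdd ∈ W ∧ g.right ∈ H := Iff.rfl

/-- The whole argument, from an irreducible group `A` all of whose maximal subgroups are
reducible. -/
theorem main [Finite F] (hA : Irr F A) (H₀ : Subgroup A) (hH₀ : IsCoatom H₀)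
    (W : AddSubgroup F) (hW : ∀ a ∈ H₀, ∀ x ∈ W, ((a : Fˣ) : F) * x ∈ W) (hW0 : W ≠ ⊥)
    (hW1 : W ≠ ⊤) :
    ∃ (M H K : Subgroup (Aff F A)), IsCoatom M ∧ M.index = Nat.card F ∧ H ≤ M ∧
      IsCoatom (H.subgroupOf M) ∧ IsCoatom K ∧ H ≤ K ∧ ¬ IsCoatom (H.subgroupOf K) := by
  set M : Subgroup (Aff F A) := (SemidirectProduct.inr : A →* Aff F A).range with hM
  set H : Subgroup (Aff F A) := H₀.map (SemidirectProduct.inr : A →* Aff F A) with hH
  set K : Subgroup (Aff F A) := H₀.comap (SemidirectProduct.rightHom : Aff F A →* A) with hK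
  have hHM : H ≤ M := by
    rintro _ ⟨a, -, rfl⟩
    exact ⟨a, rfl⟩
  have hHK : H ≤ K := by
    rintro _ ⟨a, ha, rfl⟩
    exact ha
  have hmemM : ∀ g : Aff F A, g ∈ M ↔ g.left = 1 := by
    intro g
    constructor
    · rintro ⟨a, rfl⟩
      rfl
    · intro h
      refine ⟨g.right, ?_⟩
      ext
      · exact h.symm
      · rfl
  have hmemH : ∀ g : Aff F A, g ∈ H ↔ g.left = 1 ∧ g.right ∈ H₀ := by
    intro g
    constructor
    · rintro ⟨a, ha, rfl⟩
      exact ⟨rfl, ha⟩
    · rintro ⟨h, h'⟩
      refine ⟨g.right, h', ?_⟩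
      ext
      · exact h.symm
      · rfl
  refine ⟨M, H, K, ⟨?_, ?_⟩, ?_, hHM, ?_, ?_, hHK, ?_⟩
  · -- `M` is proper
    intro h
    have h1 : (SemidirectProduct.inl (ofAdd (1 : F)) : Aff F A) ∈ M := by
      rw [h]; exact Subgroup.mem_top _
    rw [hmemM, SemidirectProduct.left_inl] at h1
    have h2 : (1 : F) = 0 := h1
    exact one_ne_zero h2
  · -- `M` is maximal
    intro X hX
    obtain ⟨g, hgX, hgM⟩ := SetLike.exists_of_lt hX
    rw [hmemM] at hgM
    let U : AddSubgroup F :=
      { carrier := {x | (SemidirectProduct.inl (ofAdd x) : Aff F A) ∈ X}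
        zero_mem' := by
          show (SemidirectProduct.inl (ofAdd (0 : F)) : Aff F A) ∈ X
          rw [ofAdd_zero, map_one]
          exact X.one_mem
        add_mem' := by
          intro x y hx hy
          show (SemidirectProduct.inl (ofAdd (x + y)) : Aff F A) ∈ X
          rw [ofAdd_add, map_mul]
          exact X.mul_mem hx hy
        neg_mem' := by
          intro x hx
          show (SemidirectProduct.inl (ofAdd (-x)) : Aff F A) ∈ X
          rw [ofAdd_neg, map_inv]
          exact X.inv_mem hx }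
    have hU : ∀ x, x ∈ U ↔ (SemidirectProduct.inl (ofAdd x) : Aff F A) ∈ X := fun _ => Iff.rfl
    have hMX : ∀ a : A, (SemidirectProduct.inr a : Aff F A) ∈ X := fun a => hX.le ⟨a, rfl⟩
    have hUinv : ∀ a ∈ A, ∀ x ∈ U, (a : F) * x ∈ U := by
      intro a ha x hx
      rw [hU] at hx ⊢
      have h1 := X.mul_mem (X.mul_mem (hMX ⟨a, ha⟩) hx) (X.inv_mem (hMX ⟨a, ha⟩))
      rw [← map_inv, ← SemidirectProduct.inl_aut] at h1
      exact h1
    have hgU : g.left.toAdd ∈ U := by
      rw [hU]
      have h1 := X.mul_mem hgX (X.inv_mem (hMX g.right))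
      have h2 : g * (SemidirectProduct.inr g.right : Aff F A)⁻¹ = SemidirectProduct.inl g.left := by
        rw [mul_inv_eq_iff_eq_mul, SemidirectProduct.inl_left_mul_inr_right]
      rw [h2] at h1
      exact h1
    have hU1 : U = ⊤ := by
      refine (hA U hUinv).resolve_left ?_
      intro h
      rw [h, AddSubgroup.mem_bot] at hgU
      exact hgM hgU
    rw [eq_top_iff]
    intro x _
    rw [← SemidirectProduct.inl_left_mul_inr_right x]
    refine X.mul_mem ?_ (hMX _)
    have h1 : x.left.toAdd ∈ U := by rw [hU1]; exact AddSubgroup.mem_top _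
    exact h1
  · -- the index
    have h1 := M.card_mul_index
    have h2 : Nat.card M = Nat.card A := by
      rw [hM]
      exact (Nat.card_congr (MonoidHom.ofInjective SemidirectProduct.inr_injective).toEquiv).symm
    have h3 : Nat.card (Aff F A) = Nat.card F * Nat.card A := by
      rw [SemidirectProduct.card]
      rfl
    rw [h2, h3, mul_comm] at h1
    exact Nat.eq_of_mul_eq_mul_right Nat.card_pos h1
  · -- `H` is maximal in `M`
    have h1 : H.subgroupOf M = H₀.comap ((SemidirectProduct.rightHom : Aff F A →* A).comp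
        M.subtype) := by
      ext g
      rw [Subgroup.mem_subgroupOf, hmemH, Subgroup.mem_comap]
      constructor
      · rintro ⟨-, h⟩
        exact h
      · intro h
        exact ⟨(hmemM _).mp g.2, h⟩
    rw [h1]
    apply Subgroup.isCoatom_comap_of_surjective _ hH₀
    intro a
    exact ⟨⟨SemidirectProduct.inr a, ⟨a, rfl⟩⟩, rfl⟩
  · exact Subgroup.isCoatom_comap_of_surjective SemidirectProduct.rightHom_surjective hH₀
  · -- `H < W ⋊ H₀ < K`
    intro hco
    have hle : H ≤ sub W H₀ hW := by
      intro g hg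
      rw [hmemH] at hg
      rw [mem_sub]
      refine ⟨?_, hg.2⟩
      rw [hg.1]
      exact W.zero_mem
    have h1 : H.subgroupOf K < (sub W H₀ hW).subgroupOf K := by
      rw [lt_iff_le_and_ne]
      refine ⟨Subgroup.comap_mono hle, fun h => ?_⟩
      obtain ⟨w, hw, hw0⟩ := (AddSubgroup.bot_or_exists_ne_zero W).resolve_left hW0
      have h2 : (SemidirectProduct.inl (ofAdd w) : Aff F A) ∈ K := by
        rw [hK, Subgroup.mem_comap, SemidirectProduct.rightHom_inl]
        exact H₀.one_mem
      have h3 : (⟨_, h2⟩ : K) ∈ H.subgroupOf K := by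
        rw [h, Subgroup.mem_subgroupOf, mem_sub]
        exact ⟨hw, H₀.one_mem⟩
      rw [Subgroup.mem_subgroupOf, hmemH] at h3
      have h4 : w = 0 := h3.1
      exact hw0 h4
    have h2 := hco.2 _ h1
    rw [Subgroup.subgroupOf_eq_top] at h2
    apply hW1
    rw [eq_top_iff]
    intro x _
    have h3 : (SemidirectProduct.inl (ofAdd x) : Aff F A) ∈ K := by
      rw [hK, Subgroup.mem_comap, SemidirectProduct.rightHom_inl]
      exact H₀.one_mem
    have h4 := h2 h3
    rw [mem_sub] at h4
    exact h4.1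

end

/-- The group of all units is irreducible. -/
theorem irr_top (F : Type) [Field F] : Irr F ⊤ := by
  intro W hW
  rcases AddSubgroup.bot_or_exists_ne_zero W with h | ⟨w, hw, hw0⟩
  · exact Or.inl h
  · right
    rw [eq_top_iff]
    intro x _
    by_cases hx : x = 0
    · rw [hx]; exact W.zero_mem
    · have h1 := hW (Units.mk0 (x / w) (div_ne_zero hx hw0)) (Subgroup.mem_top _) w hw
      rw [Units.val_mk0, div_mul_cancel₀ _ hw0] at h1
      exact h1

/-- For every prime p and every d ≥ 2 there is a finite group G with a maximal subgroup M of index p^d and a maximal subgroup H of M that is not second maximal in G: some maximal subgroup K of G contains H without H being maximal in K. (One may take G the affine group V ⋊ GL(V) of V = 𝔽_p^d, M = GL(V), H the stabiliser in M of a line W of V, and K = V ⋊ H, with H < W ⋊ H < K.) So the prime-index hypothesis in the second-maximality criterion cannot be relaxed to prime-power index. -/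
theorem result (p d : ℕ) (hp : p.Prime)
    (hd : 2 ≤ d) :
    ∃ (G : Type) (_ : Group G) (_ : Finite G) (M H K : Subgroup G), IsCoatom M ∧ M.index = p ^ d ∧ H ≤ M ∧
      IsCoatom (H.subgroupOf M) ∧ IsCoatom K ∧ H ≤ K ∧ ¬ IsCoatom (H.subgroupOf K) := by
  classical
  have : Fact p.Prime := ⟨hp⟩
  let F := GaloisField p d
  have hcard : Nat.card F = p ^ d := GaloisField.card p d (by omega)
  -- a minimal irreducible group of units
  obtain ⟨A, hA, hmin⟩ : ∃ A : Subgroup Fˣ, Irr F A ∧ ∀ B : Subgroup Fˣ, B < A → ¬ Irr F B := by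
    obtain ⟨A, hA, hmin⟩ := (wellFounded_lt (α := Subgroup Fˣ)).has_min {A | Irr F A}
      ⟨⊤, irr_top F⟩
    exact ⟨A, hA, fun B hB hB' => hmin B hB' hB⟩
  -- it is not trivial
  have hA1 : (⊤ : Subgroup A) ≠ ⊥ := by
    intro h
    have hbot : A = ⊥ := by
      rw [Subgroup.eq_bot_iff_forall]
      intro a ha
      have h1 : (⟨a, ha⟩ : A) ∈ (⊤ : Subgroup A) := Subgroup.mem_top _
      rw [h, Subgroup.mem_bot] at h1
      exact congrArg Subtype.val h1
    have h1 := hA (AddSubgroup.zmultiples (1 : F)) (by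
      intro a ha x hx
      rw [hbot, Subgroup.mem_bot] at ha
      rw [ha, Units.val_one, one_mul]
      exact hx)
    rcases h1 with h1 | h1
    · have h2 : (1 : F) ∈ AddSubgroup.zmultiples (1 : F) := AddSubgroup.mem_zmultiples _
      rw [h1, AddSubgroup.mem_bot] at h2
      exact one_ne_zero h2
    · have h2 : Nat.card (AddSubgroup.zmultiples (1 : F)) = p := by
        rw [Nat.card_zmultiples]
        exact CharP.eq F (CharP.addOrderOf_one F) inferInstance
      rw [h1] at h2
      have h3 : Nat.card (⊤ : AddSubgroup F) = p ^ d := by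
        rw [AddSubgroup.card_top]; exact hcard
      rw [h3] at h2
      have h4 : p ^ 1 < p ^ d := Nat.pow_lt_pow_right hp.one_lt (by omega)
      rw [h2, pow_one] at h4
      exact lt_irrefl _ h4
  obtain ⟨H₀, hH₀, -⟩ := (eq_top_or_exists_le_coatom (⊥ : Subgroup A)).resolve_left
    (fun h => hA1 h.symm)
  have hlt : H₀.map A.subtype < A := by
    have h1 : H₀ < ⊤ := hH₀.lt_top
    have h2 : H₀.map A.subtype < (⊤ : Subgroup A).map A.subtype :=
      (Subgroup.map_lt_map_iff_of_injective A.subtype_injective).mpr h1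
    rwa [← MonoidHom.range_eq_map, Subgroup.range_subtype] at h2
  have hred := hmin _ hlt
  unfold Irr at hred
  push Not at hred
  obtain ⟨W, hW, hW0, hW1⟩ := hred
  obtain ⟨M, H, K, h1, h2, h3, h4, h5, h6, h7⟩ := main hA H₀ hH₀ W
    (fun a ha x hx => hW _ ⟨a, ha, rfl⟩ x hx) hW0 hW1
  refine ⟨Aff F A, inferInstance, ?_, M, H, K, h1, h2.trans hcard, h3, h4, h5, h6, h7⟩
  exact Finite.of_equiv _ SemidirectProduct.equivProd.symm

end Cfsg.Agent.S5895
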