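import Cfsg.Statements.S5910

set_option autoImplicit false
open Cfsg

namespace Cfsg.Agent.S5910

/-- the model of eight points: four pairs -/
abbrev P8 : Type := Fin 4 × Bool

/-- xor of three of four points -/
def x4 : Fin 4 → Fin 4 → Fin 4 → Fin 4 := fun a b c => a ^^^ b ^^^ c

/-- the ternary operation `a + b + c` on the eight points -/
def t8 (a b c : P8) : P8 := (x4 a.1 b.1 c.1, xor a.2 (xor b.2 c.2))

theorem perm4_affine : ∀ σ : Equiv.Perm (Fin 4), ∀ x y z : Fin 4,
    σ (x4 x y z) = x4 (σ x) (σ y) (σ z) := by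
  decide

theorem x4_shift : ∀ c : Fin 4 → Bool,
    (∏ i : Fin 4, (if c i then (-1 : ℤˣ) else 1)) = 1 → ∀ x y z : Fin 4,
    c (x4 x y z) = xor (c x) (xor (c y) (c z)) := by
  decide

/-- The affine group of the eight points. -/
def K8 : Subgroup (Equiv.Perm P8) where
  carrier := {g | ∀ x y z, g (t8 x y z) = t8 (g x) (g y) (g z)}
  mul_mem' := by
    intro a b ha hb x y z
    simp only [Set.mem_ofPred_eq] at ha hb
    simp only [Equiv.Perm.mul_apply, hb, ha]
  one_mem' := by
    intro x y z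
    rfl
  inv_mem' := by
    intro a ha x y z
    simp only [Set.mem_ofPred_eq] at ha
    apply a.injective
    rw [ha]
    simp

theorem mem_K8 {g : Equiv.Perm P8} :
    g ∈ K8 ↔ ∀ x y z, g (t8 x y z) = t8 (g x) (g y) (g z) := Iff.rfl

/-- an element preserving the pairs -/
theorem pairs_form (g : Equiv.Perm P8)
    (hg : ∀ x y : P8, x.1 = y.1 ↔ (g x).1 = (g y).1) :
    ∃ (σ : Equiv.Perm (Fin 4)) (c : Fin 4 → Bool), ∀ x : P8, g x = (σ x.1, xor x.2 (c x.1)) := by
  have hinj : Function.Injective (fun i : Fin 4 => (g (i, false)).1) := by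
    intro i j hij
    exact (hg (i, false) (j, false)).2 hij
  refine ⟨Equiv.ofBijective _ ⟨hinj, Finite.surjective_of_injective hinj⟩,
    fun i => (g (i, false)).2, ?_⟩
  rintro ⟨i, b⟩
  cases b
  · apply Prod.ext
    · rfl
    · simp
  · have h1 : (g (i, true)).1 = (g (i, false)).1 := (hg (i, true) (i, false)).1 rfl
    have h2 : (g (i, true)).2 ≠ (g (i, false)).2 := by
      intro h
      have := g.injective (Prod.ext h1 h)
      simp at this
    apply Prod.ext
    · exact h1
    · simp only [Bool.true_xor]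
      revert h2
      cases (g (i, true)).2 <;> cases (g (i, false)).2 <;> simp

theorem sign_form (g : Equiv.Perm P8) (σ : Equiv.Perm (Fin 4)) (c : Fin 4 → Bool)
    (h : ∀ x : P8, g x = (σ x.1, xor x.2 (c x.1))) :
    Equiv.Perm.sign g = ∏ i : Fin 4, (if c i then (-1 : ℤˣ) else 1) := by
  have hg : g = (Equiv.prodCongrLeft (fun _ : Bool => σ) : Equiv.Perm P8) *
      (Equiv.prodCongrRight (fun i => if c i then Equiv.swap true false else 1) :
        Equiv.Perm P8) := by
    ext ⟨i, b⟩ : 1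
    rw [h]
    simp only [Equiv.Perm.mul_apply, Equiv.prodCongrRight_apply, Equiv.prodCongrLeft_apply]
    by_cases hc : c i = true
    · cases b <;> simp [hc]
    · cases b <;> simp [hc]
  rw [hg, Equiv.Perm.sign_mul, Equiv.Perm.sign_prodCongrLeft, Equiv.Perm.sign_prodCongrRight]
  have h1 : (∏ k : Bool, Equiv.Perm.sign σ) = 1 := by
    simp
  rw [h1, one_mul]
  apply Finset.prod_congr rfl
  intro i _
  by_cases hc : c i = true
  · simp [hc, Equiv.Perm.sign_swap]
  · simp [hc]

theorem even_pairs_mem (g : Equiv.Perm P8)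
    (hg : ∀ x y : P8, x.1 = y.1 ↔ (g x).1 = (g y).1) (hs : Equiv.Perm.sign g = 1) :
    g ∈ K8 := by
  obtain ⟨σ, c, h⟩ := pairs_form g hg
  rw [sign_form g σ c h] at hs
  rw [mem_K8]
  intro x y z
  rw [h, h x, h y, h z]
  have h1 := x4_shift c hs x.1 y.1 z.1
  apply Prod.ext
  · simp only [t8]
    exact perm4_affine σ _ _ _
  · simp only [t8]
    rw [h1]
    cases x.2 <;> cases y.2 <;> cases z.2 <;> cases c x.1 <;> cases c y.1 <;> cases c z.1 <;> rfl

/-- an affine permutation not preserving the pairs -/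
def u8 : Equiv.Perm P8 :=
  Equiv.swap ((1 : Fin 4), false) ((0 : Fin 4), true) *
    Equiv.swap ((3 : Fin 4), false) ((2 : Fin 4), true)

/-- an even permutation that is not affine -/
def v8 : Equiv.Perm P8 :=
  Equiv.swap ((0 : Fin 4), false) ((0 : Fin 4), true) *
    Equiv.swap ((0 : Fin 4), true) ((1 : Fin 4), false)

theorem u8_mem : u8 ∈ K8 := by
  rw [mem_K8]
  decide

theorem v8_not_mem : v8 ∉ K8 := by
  rw [mem_K8]
  decide

theorem sign_u8 : Equiv.Perm.sign u8 = 1 := by
  rw [u8, Equiv.Perm.sign_mul, Equiv.Perm.sign_swap (by decide), Equiv.Perm.sign_swap (by decide)]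
  decide

theorem sign_v8 : Equiv.Perm.sign v8 = 1 := by
  rw [v8, Equiv.Perm.sign_mul, Equiv.Perm.sign_swap (by decide), Equiv.Perm.sign_swap (by decide)]
  decide

theorem exists_coord {Ω : Type*} (f : Ω → Fin 4)
    (hf : ∀ i : Fin 4, Nat.card {x : Ω // f x = i} = 2) :
    ∃ e : Ω ≃ P8, ∀ x, (e x).1 = f x := by
  have hfin : ∀ i : Fin 4, Finite {x : Ω // f x = i} := fun i =>
    Nat.finite_of_card_ne_zero (by rw [hf i]; decide)
  let E : ∀ i : Fin 4, {x : Ω // f x = i} ≃ Bool := fun i =>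
    (Finite.equivFinOfCardEq (hf i)).trans finTwoEquiv
  refine ⟨(Equiv.sigmaFiberEquiv f).symm.trans
    ((Equiv.sigmaCongrRight E).trans (Equiv.sigmaEquivProd _ _)), ?_⟩
  intro x
  rfl

/-- Let Ω be a set with 8 elements and f : Ω → Fin 4 a labelling whose four fibres all have size 2 (a partition of the 8 points into 4 pairs). Then the group of even permutations preserving this partition, (S₂ ≀ S₄) ∩ A₈, is not a maximal subgroup of the alternating group A₈ (it lies in a subgroup isomorphic to the affine group AGL₃(2)). -/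
theorem result {Ω : Type*} [Fintype Ω] [DecidableEq Ω] (h8 : Fintype.card Ω = 8)
    (f : Ω → Fin 4) (hf : ∀ i : Fin 4, Nat.card {x : Ω // f x = i} = 2) :
    ¬ IsCoatom ((Subgroup.closure {g : Equiv.Perm Ω | ∀ x y : Ω, f x = f y ↔ f (g x) = f (g y)} ⊓ alternatingGroup Ω).subgroupOf (alternatingGroup Ω)) := by
  intro hco
  obtain ⟨e, he⟩ := exists_coord f hf
  -- the stabilizer as a subgroup
  let W : Subgroup (Equiv.Perm Ω) :=
    { carrier := {g : Equiv.Perm Ω | ∀ x y : Ω, f x = f y ↔ f (g x) = f (g y)}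
      mul_mem' := by
        intro a b ha hb x y
        simp only [Set.mem_ofPred_eq] at ha hb
        rw [hb x y, ha (b x) (b y)]
        rfl
      one_mem' := by
        intro x y
        rfl
      inv_mem' := by
        intro a ha x y
        simp only [Set.mem_ofPred_eq] at ha
        rw [ha (a⁻¹ x) (a⁻¹ y)]
        simp }
  have hW : Subgroup.closure {g : Equiv.Perm Ω | ∀ x y : Ω, f x = f y ↔ f (g x) = f (g y)} = W :=
    Subgroup.closure_eq W
  rw [hW] at hco
  have hWmem : ∀ g : Equiv.Perm Ω, g ∈ W ↔ ∀ x y : Ω, f x = f y ↔ f (g x) = f (g y) :=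
    fun g => Iff.rfl
  let φ : Equiv.Perm Ω ≃* Equiv.Perm P8 := e.permCongrHom
  have hφ : ∀ (g : Equiv.Perm Ω) (x : P8), φ g x = e (g (e.symm x)) := fun g x => rfl
  have hsign : ∀ g : Equiv.Perm Ω, Equiv.Perm.sign (φ g) = Equiv.Perm.sign g :=
    fun g => Equiv.Perm.sign_permCongr e g
  have hWφ : ∀ g : Equiv.Perm Ω, g ∈ W ↔ ∀ x y : P8, x.1 = y.1 ↔ (φ g x).1 = (φ g y).1 := by
    intro g
    rw [hWmem]
    constructor
    · intro h x y
      have := h (e.symm x) (e.symm y)
      rw [← he, ← he, ← he, ← he, e.apply_symm_apply, e.apply_symm_apply] at this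
      rw [hφ, hφ]
      exact this
    · intro h x y
      have := h (e x) (e y)
      rw [hφ, hφ, e.symm_apply_apply, e.symm_apply_apply, he, he, he, he] at this
      exact this
  let K : Subgroup (Equiv.Perm Ω) := K8.comap φ.toMonoidHom
  have hKmem : ∀ g : Equiv.Perm Ω, g ∈ K ↔ φ g ∈ K8 := fun g => Iff.rfl
  have hle : (W ⊓ alternatingGroup Ω).subgroupOf (alternatingGroup Ω) ≤
      K.subgroupOf (alternatingGroup Ω) := by
    intro g hg
    rw [Subgroup.mem_subgroupOf] at hg ⊢
    rw [hKmem]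
    apply even_pairs_mem
    · exact (hWφ g).1 hg.1
    · rw [hsign]
      exact Equiv.Perm.mem_alternatingGroup.1 hg.2
  have hu : φ.symm u8 ∈ alternatingGroup Ω := by
    rw [Equiv.Perm.mem_alternatingGroup, ← hsign, φ.apply_symm_apply]
    exact sign_u8
  have hv : φ.symm v8 ∈ alternatingGroup Ω := by
    rw [Equiv.Perm.mem_alternatingGroup, ← hsign, φ.apply_symm_apply]
    exact sign_v8
  have hlt : (W ⊓ alternatingGroup Ω).subgroupOf (alternatingGroup Ω) <
      K.subgroupOf (alternatingGroup Ω) := by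
    refine lt_of_le_of_ne hle ?_
    intro heq
    have h1 : (⟨φ.symm u8, hu⟩ : alternatingGroup Ω) ∈ K.subgroupOf (alternatingGroup Ω) := by
      rw [Subgroup.mem_subgroupOf, hKmem]
      change φ (φ.symm u8) ∈ K8
      rw [φ.apply_symm_apply]
      exact u8_mem
    rw [← heq, Subgroup.mem_subgroupOf] at h1
    have h2 := (hWφ _).1 h1.1 ((0 : Fin 4), false) ((0 : Fin 4), true)
    change ((0 : Fin 4) = 0 ↔ ((φ (φ.symm u8)) _).1 = ((φ (φ.symm u8)) _).1) at h2
    rw [φ.apply_symm_apply] at h2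
    revert h2
    decide
  have htop := hco.2 _ hlt
  have h3 : (⟨φ.symm v8, hv⟩ : alternatingGroup Ω) ∈ K.subgroupOf (alternatingGroup Ω) := by
    rw [htop]; exact Subgroup.mem_top _
  rw [Subgroup.mem_subgroupOf, hKmem] at h3
  change φ (φ.symm v8) ∈ K8 at h3
  rw [φ.apply_symm_apply] at h3
  exact v8_not_mem h3

end Cfsg.Agent.S5910
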