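import Cfsg.Statements.S5911
import Cfsg.Agent.H941.SymIndexB

set_option autoImplicit false
open Cfsg

namespace Cfsg.Agent.S5911

/-- Let Ω be a finite set whose size n is not 6. Then every subgroup of the symmetric group on Ω of index n is the stabilizer of a point. -/
theorem result {Ω : Type*} [Fintype Ω] [DecidableEq Ω] (h6 : Fintype.card Ω ≠ 6)
    (H : Subgroup (Equiv.Perm Ω)) (hH : H.index = Fintype.card Ω) :
    ∃ x : Ω, H = MulAction.stabilizer (Equiv.Perm Ω) x := by
  by_cases h5 : Fintype.card Ω ≤ 5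
  · exact H941.SymIndex.small h5 H hH
  have h7 : 7 ≤ Fintype.card Ω := by omega
  let e : Ω ≃ Fin (Fintype.card Ω) := Fintype.equivFin Ω
  let E : Equiv.Perm Ω ≃* Equiv.Perm (Fin (Fintype.card Ω)) := e.permCongrHom
  obtain ⟨x, hx⟩ := H941.SymIndex.large h7 (H.map E.toMonoidHom) 
    ((Subgroup.index_map_equiv H E).trans hH)
  refine ⟨e.symm x, H941.SymIndex.eq_stabilizer H hH _ fun h hh => ?_⟩
  have h1 : E h ∈ H.map E.toMonoidHom := ⟨h, hh, rfl⟩
  rw [hx, MulAction.mem_stabilizer_iff] at h1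
  have h2 : e (h (e.symm x)) = x := h1
  exact (e.symm_apply_eq.2 h2.symm).symm

end Cfsg.Agent.S5911
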