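import Cfsg.Statements.S5913
import Cfsg.Agent.H941.PiSimple

set_option autoImplicit false
open Cfsg

namespace Cfsg.Agent.S5913

/-- Let S be a non-abelian simple group and n a natural number. Every normal subgroup N of the direct power S^n (functions Fin n → S) is a subproduct: there is a set T of coordinates such that N consists exactly of the elements whose coordinates outside T are trivial. In particular the minimal normal subgroups of S^n are its n factors. -/
theorem result {S : Type*} [Group S] [IsSimpleGroup S] (hS : ¬ IsMulCommutative S) (n : ℕ)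
    (N : Subgroup (Fin n → S)) [N.Normal] :
    ∃ T : Finset (Fin n), ∀ x : Fin n → S, x ∈ N ↔ ∀ i, i ∉ T → x i = 1 := by
  classical
  refine ⟨Finset.univ.filter fun i => ∃ y ∈ N, y i ≠ 1, fun x => ⟨fun hx i hi => ?_, fun h => ?_⟩⟩
  · by_contra hne
    exact hi (Finset.mem_filter.2 ⟨Finset.mem_univ _, x, hx, hne⟩)
  · apply H941.PiSimple.mem_of_mulSingle
    intro i
    by_cases hi : ∃ y ∈ N, y i ≠ 1
    · obtain ⟨y, hy, hyi⟩ := hi
      have := H941.PiSimple.singleSub_eq_top hS hy hyi
      rw [← H941.PiSimple.mem_singleSub, this]
      exact Subgroup.mem_top _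
    · rw [h i (fun hm => hi (Finset.mem_filter.1 hm).2), Pi.mulSingle_one]
      exact N.one_mem

end Cfsg.Agent.S5913
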