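import Cfsg.Statements.S5920
import Cfsg.Agent.H942.L7.Final

set_option autoImplicit false
open Cfsg

namespace Cfsg.Agent.S5920

/-- Let G be the Chevalley group of type E₈ over the field with three elements (generated by its root elements in the 248-dimensional adjoint representation; it is the simple group E₈(3)), and let H be a subgroup of G whose generalized Fitting subgroup F*(H) is isomorphic to PSL₂(7). Then H is not a maximal subgroup of G. Here F denotes a field with 7 elements. -/
theorem result
    {F : Type*} [Field F] [Fintype F] (hF : Fintype.card F = 7) (H : Subgroup ↥(Cfsg.Lie.chevE8.group (ZMod 3)))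
    (hH : Nonempty (↥(Cfsg.generalizedFittingSubgroup ↥H) ≃* Matrix.ProjectiveSpecialLinearGroup (Fin 2) F)) :
    ¬ IsCoatom H := by
  intro hmax
  have key : ∀ (P : Subgroup (Equiv.Perm (Fin 8))) (e : ↥H ≃* ↥P),
      Function.Injective (H.subtype.comp e.symm.toMonoidHom) ∧ (H.subtype.comp e.symm.toMonoidHom).range = H := by
    intro P e
    constructor
    · exact H.subtype_injective.comp e.symm.injective
    · rw [MonoidHom.range_comp, MonoidHom.range_eq_top.2 e.symm.surjective, ← MonoidHom.range_eq_map,
        Subgroup.range_subtype]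
  rcases H89.L7.grp F hF ↥H hH with ⟨⟨e⟩⟩ | ⟨⟨e⟩⟩
  · obtain ⟨h1, h2⟩ := key _ e
    exact H942.L7.case168 h1 (h2.symm ▸ hmax)
  · obtain ⟨h1, h2⟩ := key _ e
    exact H942.L7.case336 h1 (h2.symm ▸ hmax)

end Cfsg.Agent.S5920
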