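import Cfsg.Statements.S5921
import Cfsg.Agent.H525.E8L.Final
import Cfsg.Agent.H948.P3.AZero
import Cfsg.Agent.H288.E8L.P57

set_option autoImplicit false
open Cfsg

namespace Cfsg.Agent.S5921

/-- Let G be the Chevalley group of type E₈ over the field with three elements (generated by its root elements in the 248-dimensional adjoint representation; it is the simple group E₈(3)), let n ∈ {4, 5, 6, 7}, and let H be a subgroup of G whose generalized Fitting subgroup F*(H) is isomorphic to PSL₂(3ⁿ). Then H is not a maximal subgroup of G. Here F denotes a field with 3ⁿ elements. (The case n = 3 is not covered.) -/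
theorem result
    {F : Type*} [Field F] [Fintype F] (n : ℕ) (hn : n = 4 ∨ n = 5 ∨ n = 6 ∨ n = 7) (hF : Fintype.card F = 3 ^ n)
    (H : Subgroup ↥(Cfsg.Lie.chevE8.group (ZMod 3))) (hH : Nonempty (↥(Cfsg.generalizedFittingSubgroup ↥H) ≃* Matrix.ProjectiveSpecialLinearGroup (Fin 2) F)) :
    ¬ IsCoatom H := by
  exact Cfsg.Agent.H525.E8L.s5921_of (Cfsg.Agent.H948.P3.p3 Cfsg.Agent.H434.E8L.centreStmt)
    Cfsg.Agent.H288.E8L.p57 n hn hF H hH

end Cfsg.Agent.S5921
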