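import Cfsg.Statements.S5924
import Cfsg.Agent.H865.L5.Uniq
import Cfsg.Agent.H136.L5.XExist

set_option autoImplicit false
open Cfsg

namespace Cfsg.Agent.S5924

/-- Let G be the Chevalley group of type E₈ over the field with three elements (generated by its root elements in the 248-dimensional adjoint representation; it is the simple group E₈(3)), and let F be a field with 5 elements. Then G has a subgroup isomorphic to PSL₃(5), and any two subgroups of G isomorphic to PSL₃(5) are conjugate in G. -/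
theorem result
    {F : Type*} [Field F] [Fintype F] (hF : Fintype.card F = 5) :
    (∃ H : Subgroup ↥(Cfsg.Lie.chevE8.group (ZMod 3)), Nonempty (↥H ≃* Matrix.ProjectiveSpecialLinearGroup (Fin 3) F)) ∧
    ∀ H₁ H₂ : Subgroup ↥(Cfsg.Lie.chevE8.group (ZMod 3)), Nonempty (↥H₁ ≃* Matrix.ProjectiveSpecialLinearGroup (Fin 3) F) → Nonempty (↥H₂ ≃* Matrix.ProjectiveSpecialLinearGroup (Fin 3) F) →
      ∃ g : ↥(Cfsg.Lie.chevE8.group (ZMod 3)), H₁.map (MulAut.conj g).toMonoidHom = H₂ := by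
  obtain ⟨ψ⟩ := Cfsg.Agent.H858.L5.psl_equiv hF
  constructor
  · obtain ⟨f, hf⟩ := Cfsg.Agent.H136.L5.XExist.exists_f
    exact ⟨f.range, ⟨(MonoidHom.ofInjective hf).symm.trans ψ⟩⟩
  · rintro H₁ H₂ ⟨φ₁⟩ ⟨φ₂⟩
    have key : ∀ (H : Subgroup Cfsg.Agent.H865.L5.G3) (φ : ↥H ≃* Matrix.ProjectiveSpecialLinearGroup (Fin 3) F),
        ∃ f : Cfsg.Agent.H865.L5.SL35 →* Cfsg.Agent.H865.L5.G3, Function.Injective f ∧ f.range = H := by
      intro H φ
      refine ⟨H.subtype.comp (φ.symm.toMonoidHom.comp ψ.toMonoidHom),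
        Subtype.val_injective.comp (φ.symm.injective.comp ψ.injective), ?_⟩
      ext y
      constructor
      · rintro ⟨x, rfl⟩
        exact (φ.symm (ψ x)).2
      · intro hy
        refine ⟨ψ.symm (φ ⟨y, hy⟩), ?_⟩
        show ((φ.symm (ψ (ψ.symm (φ ⟨y, hy⟩))) : ↥H) : Cfsg.Agent.H865.L5.G3) = y
        rw [ψ.apply_symm_apply, φ.symm_apply_apply]
    obtain ⟨f₁, hf₁, e₁⟩ := key H₁ φ₁
    obtain ⟨f₂, hf₂, e₂⟩ := key H₂ φ₂
    obtain ⟨g, hg⟩ := Cfsg.Agent.H865.L5.unique_G3 f₁ f₂ hf₁ hf₂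
    exact ⟨g, by rw [← e₁, ← e₂, hg]⟩

end Cfsg.Agent.S5924
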