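import Cfsg.Statements.S5926
import Cfsg.Agent.H952.F4.Final

set_option autoImplicit false
open Cfsg

namespace Cfsg.Agent.S5926

/-- Let F be a finite field of characteristic p and let G be the Chevalley group of type F₄ over F (generated by its root elements in the adjoint representation; the simple group F₄(q)). If H is a maximal subgroup of G whose generalized Fitting subgroup is isomorphic to an alternating group of degree n ≥ 5, then n = 6 and p is neither 2 nor 5. -/
theorem result
    {F : Type*} [Field F] [Fintype F] (p : ℕ) [Fact p.Prime] [CharP F p] (H : Subgroup ↥(Cfsg.Lie.chevF4.group F)) (hH : IsCoatom H)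
    (n : ℕ) (hn : 5 ≤ n) (hA : Nonempty (↥(Cfsg.generalizedFittingSubgroup ↥H) ≃* ↥(alternatingGroup (Fin n)))) :
    n = 6 ∧ p ≠ 2 ∧ p ≠ 5 := by
  exact Cfsg.Agent.H952.F4.Final.final p H hH n hn hA

end Cfsg.Agent.S5926
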