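import Cfsg.Statements.S5927
import Cfsg.Agent.H163.E6.Main
import Cfsg.Agent.H944.E6CenMax
import Cfsg.Agent.H952.F4.MaxA
import Cfsg.Agent.S2656
import Cfsg.Agent.S1054

set_option autoImplicit false
open Cfsg

namespace Cfsg.Agent.S5927

open Cfsg.Agent.H163.E6 Cfsg.Agent.H952.F4

theorem card_alt_six : Nat.card ↥(alternatingGroup (Fin 6)) = 360 := by
  rw [nat_card_alternatingGroup, Nat.card_eq_fintype_card, Fintype.card_fin]
  rfl

/-- a field of characteristic 2 with an element of order 3 has at least 4 elements -/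
theorem card_ge_four {F : Type*} [Field F] [Finite F] {A : Type*} [Group A] {φ : A →* ↥(Cfsg.Lie.chevE6.group F)}
    {ω : Fˣ} (hω : Cover φ ω) : 4 ≤ Nat.card F := by
  have h3 : orderOf ω = 3 := orderOf_eq_prime hω.2.1 hω.1
  have h1 : 3 ∣ Nat.card Fˣ := h3 ▸ orderOf_dvd_natCard ω
  have h2 : Nat.card Fˣ = Nat.card F - 1 := Nat.card_units F
  have h4 : 0 < Nat.card Fˣ := Nat.card_pos
  have := Nat.le_of_dvd h4 h1
  omega

/-- Let F be a finite field of characteristic p and let G be the Chevalley group of type E₆ over F (generated by its root elements in the adjoint representation; the simple group E₆(q)). If H is a maximal subgroup of G whose generalized Fitting subgroup is isomorphic to an alternating group of degree n ≥ 5, then n = 6 and p ≥ 7. -/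
theorem result
    {F : Type*} [Field F] [Fintype F] (p : ℕ) [Fact p.Prime] [CharP F p] (H : Subgroup ↥(Cfsg.Lie.chevE6.group F)) (hH : IsCoatom H)
    (n : ℕ) (hn : 5 ≤ n) (hA : Nonempty (↥(Cfsg.generalizedFittingSubgroup ↥H) ≃* ↥(alternatingGroup (Fin n)))) :
    n = 6 ∧ 7 ≤ p := by
  have hs : IsSimpleGroup ↥(Cfsg.Lie.chevE6.group F) := (S1054.result Cfsg.Lie.chevE6 (by simp)).1
  obtain ⟨φ, hM⟩ := MaxA.exists_maxAlt hH hn hA
  have hbound : n ≤ 12 := by
    have h := S2656.result (F := F) p n φ.range ⊥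
      ⟨(QuotientGroup.quotientBot (G := ↥φ.range)).trans (MonoidHom.ofInjective hM.inj).symm⟩
    split_ifs at h <;> omega
  refine main p hn hbound (Sit.of_max hM hn hbound) (Or.inl ?_) ?_ ?_
  · exact hM
  · intro ω hω hp
    exact cen_of_max p hp hn hM
  · rintro - rfl ⟨ω, hω⟩
    by_cases hr : H ≤ φ.range
    · have hH' : Nat.card ↥H = 360 := by
        rw [le_antisymm hr hM.le, ← Nat.card_congr (MonoidHom.ofInjective hM.inj).toEquiv]
        exact card_alt_six
      have h4 := card_ge_four hω
      refine Or.inl ⟨hH', Small.of_max hM hn hbound ?_⟩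
      rw [hH']
      calc 6 * 360 ≤ 4 ^ 6 := by norm_num
        _ ≤ _ := Nat.pow_le_pow_left h4 6
    · exact Or.inr (Or.inl (Set.not_subset.1 hr))

end Cfsg.Agent.S5927
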