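import Cfsg.Statements.S5928
import Cfsg.Agent.H163.E6.Main
import Cfsg.Agent.H944.E6CenMax
import Cfsg.Agent.H163.E6.TwSemi
import Cfsg.Agent.H944.E6TwSit
import Cfsg.Agent.H952.F4.MaxA
import Cfsg.Agent.S2656
import Cfsg.Agent.S1070

set_option autoImplicit false
open Cfsg

namespace Cfsg.Agent.S5928

open Cfsg.Agent.H163.E6 Cfsg.Agent.H952.F4

/-- Let p be a prime, q = p^b (b ≥ 1), K a field with q² elements, and G the twisted group ²E₆(q) realised over K (generated by its root elements inside the adjoint Chevalley group of type E₆ over K). If H is a maximal subgroup of G whose generalized Fitting subgroup is isomorphic to an alternating group of degree n ≥ 5, then n = 6 and p ≥ 7. -/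
theorem result
    {K : Type*} [Field K] [Fintype K] (p b : ℕ) [Fact p.Prime] (hb : 1 ≤ b) (hK : Fintype.card K = (p ^ b) ^ 2)
    (H : Subgroup ↥(Cfsg.Lie.twistedE6 K (p ^ b))) (hH : IsCoatom H)
    (n : ℕ) (hn : 5 ≤ n) (hA : Nonempty (↥(Cfsg.generalizedFittingSubgroup ↥H) ≃* ↥(alternatingGroup (Fin n)))) :
    n = 6 ∧ 7 ≤ p := by
  have hp : p.Prime := Fact.out
  have hq : IsPrimePow (p ^ b) := hp.isPrimePow.pow (by omega)
  have hs : IsSimpleGroup ↥(Cfsg.Lie.twistedE6 K (p ^ b)) := (S1070.result hq hK).1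
  have hchar : CharP K p := by
    obtain ⟨p', hp'⟩ := CharP.exists K
    have := hp'
    obtain ⟨m, hp1, hm⟩ := FiniteField.card K p'
    have h1 : p ∣ p' ^ (m : ℕ) := by
      rw [← hm, hK]
      exact dvd_pow (dvd_pow_self p (by omega)) two_ne_zero
    have h2 : p = p' := (Nat.prime_dvd_prime_iff_eq hp hp1).1 (hp.dvd_of_dvd_pow h1)
    exact h2 ▸ hp'
  obtain ⟨φ, hM⟩ := MaxA.exists_maxAlt hH hn hA
  have hinj : Function.Injective ((Tw.incl K (p ^ b)).comp φ) := (Tw.incl_injective K (p ^ b)).comp hM.inj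
  have hbound : n ≤ 12 := by
    have h := S2656.result (F := K) p n ((Tw.incl K (p ^ b)).comp φ).range ⊥
      ⟨(QuotientGroup.quotientBot (G := ↥((Tw.incl K (p ^ b)).comp φ).range)).trans (MonoidHom.ofInjective hinj).symm⟩
    split_ifs at h <;> omega
  obtain ⟨hS, hT⟩ := Tw.sit hq hK hM hn hbound
  refine main p hn hbound hS (Or.inr (Tw.semi hq hK (Cov.alt_perfect hn) φ).fixSym) ?_ ?_
  · intro ω hω hp5
    exact cen_of_max_tw p hp5 hq hK hn hM
  · rintro - rfl -
    exact Or.inr (Or.inr ⟨_, hT, Tw.semi hq hK (Cov.alt_perfect hn) φ⟩)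

end Cfsg.Agent.S5928
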