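import Cfsg.Statements.S5935
import Cfsg.Agent.H540.E72.Row
import Cfsg.Agent.H943.E7V.L27
import Cfsg.Agent.H943.E7V.Rows
import Cfsg.Agent.H846.E72.JTwo
import Cfsg.Agent.H248.E7U.Main
import Cfsg.Agent.H174.E72.Omega7
import Cfsg.Agent.H299.E7V.GTwo
import Cfsg.Agent.H949.E7G.Row

set_option autoImplicit false
open Cfsg

namespace Cfsg.Agent.S5935

/-- The Chevalley group of type E₇ over the field with two elements (generated by its root elements in the adjoint representation; the simple group E₇(2)) has no maximal subgroup H whose generalized Fitting subgroup F*(H) is isomorphic to any of: PSL₂(19), PSL₂(27), PSL₄(3), PSU₄(3), Ω₇(3) (commutator subgroup of the isometry group of a non-degenerate quadratic form in dimension 7 over the field with three elements), the Chevalley group G₂(3), the alternating group of degree 13, the Hall–Janko sporadic group J₂, or the Chevalley group G₂(8). Here F₁₉, F₂₇, F₉, F₈ denote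 fields with 19, 27, 9 and 8 elements (PSU₄(3) is realised over F₉). -/
theorem result
    {F₁₉ F₂₇ F₉ F₈ : Type*} [Field F₁₉] [Fintype F₁₉] (h19 : Fintype.card F₁₉ = 19) [Field F₂₇] [Fintype F₂₇] (h27 : Fintype.card F₂₇ = 27)
    [Field F₉] [Fintype F₉] (h9 : Fintype.card F₉ = 9) [Field F₈] [Fintype F₈] (h8 : Fintype.card F₈ = 8) (H : Subgroup ↥(Cfsg.Lie.chevE7.group (ZMod 2))) (hH : IsCoatom H) :
    IsEmpty (↥(Cfsg.generalizedFittingSubgroup ↥H) ≃* Matrix.ProjectiveSpecialLinearGroup (Fin 2) F₁₉) ∧ IsEmpty (↥(Cfsg.generalizedFittingSubgroup ↥H) ≃* Matrix.ProjectiveSpecialLinearGroup (Fin 2) F₂₇) ∧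
    IsEmpty (↥(Cfsg.generalizedFittingSubgroup ↥H) ≃* Matrix.ProjectiveSpecialLinearGroup (Fin 4) (ZMod 3)) ∧ IsEmpty (↥(Cfsg.generalizedFittingSubgroup ↥H) ≃* Cfsg.PSU 4 F₉ 3) ∧
    IsEmpty (↥(Cfsg.generalizedFittingSubgroup ↥H) ≃* ↥(Cfsg.Omega (ZMod 3) (Cfsg.quadFormOdd 3 (ZMod 3)))) ∧ IsEmpty (↥(Cfsg.generalizedFittingSubgroup ↥H) ≃* ↥(Cfsg.Lie.chevG2.group (ZMod 3))) ∧
    IsEmpty (↥(Cfsg.generalizedFittingSubgroup ↥H) ≃* ↥(alternatingGroup (Fin 13))) ∧ ¬ Cfsg.Spor.IsoJ2 ↥(Cfsg.generalizedFittingSubgroup ↥H) ∧ IsEmpty (↥(Cfsg.generalizedFittingSubgroup ↥H) ≃* ↥(Cfsg.Lie.chevG2.group F₈)) := by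
  refine ⟨H540.E72.row_l2_19 h19 H hH, ⟨fun e => H943.E7V.L27.no_psl227 h27 H hH e⟩,
    ⟨fun e => H943.E7V.Rows.no_psl43 H hH e⟩, H540.E72.empty_of_not_adm (H248.E7U.not_psu43 h9) H,
    H540.E72.empty_of_not_adm H174.E72.not_omega7 H, H540.E72.empty_of_not_adm H299.E7V.not_chevG2_three H,
    H540.E72.row_a13 H hH, fun h => H846.E72.not_j2 h (H540.E72.adm_sub H _), H949.E7G.Row.row h8 H⟩

end Cfsg.Agent.S5935
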